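import Mathlib
import Cfsg.Prelude.Def_GeometricClasses

/-!
Primitive soluble linear groups: a self-centralising normal subgroup of class at most two, and the action of
commutative algebras normalised by a primitive irreducible group.
-/

set_option autoImplicit false
set_option linter.unusedSimpArgs false
set_option linter.unusedVariables false
set_option linter.unusedSectionVars false

namespace Cfsg.Agent.Lib.ClassMax.PrimSol

open Module Matrix Cfsg.Geo

section group

variable {Γ : Type*} [Group Γ]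

/-- Class at most two. -/
def Cl2 (M : Subgroup Γ) : Prop :=
  ∀ x ∈ M, ∀ y ∈ M, ∀ z ∈ M, (x * y * x⁻¹ * y⁻¹) * z = z * (x * y * x⁻¹ * y⁻¹)

/-- A subgroup of the quotient equal to its own commutator subgroup is trivial. -/
theorem eq_bot_of_perfect {Q : Type*} [Group Q] (hsol : Group.IsSolvable Q) {K : Subgroup Q} (hK : ⁅K, K⁆ = K) : K = ⊥ := by
  obtain ⟨n, hn⟩ := hsol
  have h : ∀ m, K ≤ derivedSeries Q m := by
    intro m
    induction m with
    | zero => simp
    | succ m ih =>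
      rw [derivedSeries_succ, ← hK]
      exact Subgroup.commutator_mono ih ih
  have := h n
  rw [hn] at this
  exact le_bot_iff.mp this

/-- A maximal normal subgroup of class at most two contains its centraliser. -/
theorem exists_self_centralizing [Finite Γ] (hsol : Group.IsSolvable Γ) :
    ∃ M : Subgroup Γ, M.Normal ∧ Cl2 M ∧ ∀ g, (∀ y ∈ M, g * y = y * g) → g ∈ M := by
  classical
  haveI := hsol
  obtain ⟨M, ⟨hMn, hM2⟩, hmax⟩ := (wellFounded_gt (α := Subgroup Γ)).has_min {M | M.Normal ∧ Cl2 M}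
    ⟨⊥, inferInstance, by
      intro x hx y hy z hz
      rw [Subgroup.mem_bot] at hx hy hz
      subst hx hy hz
      simp⟩
  refine ⟨M, hMn, hM2, ?_⟩
  intro g hg
  by_contra hgM
  haveI := hMn
  let C : Subgroup Γ := Subgroup.centralizer (M : Set Γ)
  haveI hCn : C.Normal := Subgroup.normal_centralizer
  have hCcomm : ∀ c ∈ C, ∀ m ∈ M, c * m = m * c := by
    intro c hc m hm
    exact (Subgroup.mem_centralizer_iff.mp hc m hm).symm
  have hgC : g ∈ C := Subgroup.mem_centralizer_iff.mpr (fun y hy => (hg y hy).symm)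
  let π := QuotientGroup.mk' M
  let K₀ : Subgroup (Γ ⧸ M) := C.map π
  haveI : K₀.Normal := Subgroup.Normal.map hCn π (QuotientGroup.mk'_surjective M)
  have hK₀ : K₀ ≠ ⊥ := by
    intro h
    have h1 : π g ∈ K₀ := Subgroup.mem_map_of_mem _ hgC
    rw [h, Subgroup.mem_bot] at h1
    exact hgM ((QuotientGroup.eq_one_iff g).mp h1)
  obtain ⟨K, ⟨hKn, hKb, hKle⟩, hKmin⟩ := (wellFounded_lt (α := Subgroup (Γ ⧸ M))).has_min {K | K.Normal ∧ K ≠ ⊥ ∧ K ≤ K₀}
    ⟨K₀, inferInstance, hK₀, le_refl _⟩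
  haveI := hKn
  have hcomm : ⁅K, K⁆ = ⊥ := by
    by_contra hne
    have hle : ⁅K, K⁆ ≤ K := Subgroup.commutator_le_left K K
    have heq : ⁅K, K⁆ = K := by
      by_contra hne2
      exact hKmin ⁅K, K⁆ ⟨inferInstance, hne, hle.trans hKle⟩ (lt_of_le_of_ne hle hne2)
    exact hKb (eq_bot_of_perfect (Group.isSolvable_of_surjective (QuotientGroup.mk'_surjective M)) heq)
  let B : Subgroup Γ := K.comap π
  haveI hBn : B.Normal := Subgroup.Normal.comap hKn π
  have hMB : M ≤ B := by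
    intro m hm
    show π m ∈ K
    rw [show π m = 1 from (QuotientGroup.eq_one_iff m).mpr hm]
    exact K.one_mem
  have hBM : ∀ x ∈ B, ∀ y ∈ B, x * y * x⁻¹ * y⁻¹ ∈ M := by
    intro x hx y hy
    rw [← QuotientGroup.eq_one_iff]
    have h1 : π (x * y * x⁻¹ * y⁻¹) ∈ ⁅K, K⁆ := by
      have h2 : π x * π y * (π x)⁻¹ * (π y)⁻¹ ∈ ⁅K, K⁆ := Subgroup.commutator_mem_commutator hx hy
      simpa only [map_mul, map_inv] using h2
    rw [hcomm, Subgroup.mem_bot] at h1
    exact h1
  have hBdec : ∀ b ∈ B, ∃ c ∈ C, ∃ m ∈ M, c ∈ B ∧ b = c * m := by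
    intro b hb
    have h1 : π b ∈ K₀ := hKle hb
    obtain ⟨c, hc, hcb⟩ := h1
    have h2 : c⁻¹ * b ∈ M := QuotientGroup.eq.mp hcb
    have h3 : c ∈ B := by
      show π c ∈ K
      rw [hcb]
      exact hb
    exact ⟨c, hc, c⁻¹ * b, h2, h3, by group⟩
  have hB2 : Cl2 B := by
    intro x hx y hy z hz
    obtain ⟨c₁, hc₁, m₁, hm₁, hc₁B, rfl⟩ := hBdec x hx
    obtain ⟨c₂, hc₂, m₂, hm₂, hc₂B, rfl⟩ := hBdec y hy
    obtain ⟨c₃, hc₃, m₃, hm₃, hc₃B, rfl⟩ := hBdec z hz
    set u := c₁ * c₂ * c₁⁻¹ * c₂⁻¹ with hu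
    set v := m₁ * m₂ * m₁⁻¹ * m₂⁻¹ with hv
    have huC : u ∈ C := C.mul_mem (C.mul_mem (C.mul_mem hc₁ hc₂) (C.inv_mem hc₁)) (C.inv_mem hc₂)
    have huM : u ∈ M := hBM c₁ hc₁B c₂ hc₂B
    have hvM : v ∈ M := M.mul_mem (M.mul_mem (M.mul_mem hm₁ hm₂) (M.inv_mem hm₁)) (M.inv_mem hm₂)
    have e12 : m₁ * c₂ = c₂ * m₁ := (hCcomm c₂ hc₂ m₁ hm₁).symm
    have e21 : m₂ * c₁ = c₁ * m₂ := (hCcomm c₁ hc₁ m₂ hm₂).symm
    have e1 : c₁ * m₁ * (c₂ * m₂) = c₁ * c₂ * (m₁ * m₂) := by
      rw [mul_assoc c₁, ← mul_assoc m₁, e12, mul_assoc c₂, ← mul_assoc c₁]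
    have e2 : c₂ * m₂ * (c₁ * m₁) = c₂ * c₁ * (m₂ * m₁) := by
      rw [mul_assoc c₂, ← mul_assoc m₂, e21, mul_assoc c₁, ← mul_assoc c₂]
    have e3 : c₁ * m₁ * (c₂ * m₂) * (c₁ * m₁)⁻¹ * (c₂ * m₂)⁻¹ = u * v := by
      have h1 : c₁ * m₁ * (c₂ * m₂) * (c₁ * m₁)⁻¹ * (c₂ * m₂)⁻¹ = (c₁ * m₁ * (c₂ * m₂)) * (c₂ * m₂ * (c₁ * m₁))⁻¹ := by group
      rw [h1, e1, e2]
      have hcv : (c₂ * c₁)⁻¹ * v = v * (c₂ * c₁)⁻¹ := by
        have : (c₂ * c₁)⁻¹ ∈ C := C.inv_mem (C.mul_mem hc₂ hc₁)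
        exact hCcomm _ this v hvM
      have h2 : c₁ * c₂ * (m₁ * m₂) * (c₂ * c₁ * (m₂ * m₁))⁻¹ = c₁ * c₂ * (v * (c₂ * c₁)⁻¹) := by
        rw [hv]
        group
      rw [h2, ← hcv, hu]
      group
    rw [e3]
    clear_value u v
    have h1 : u * (c₃ * m₃) = c₃ * m₃ * u := by
      calc u * (c₃ * m₃) = (u * c₃) * m₃ := by rw [mul_assoc]
        _ = (c₃ * u) * m₃ := by rw [hCcomm c₃ hc₃ u huM]
        _ = c₃ * (u * m₃) := by rw [mul_assoc]
        _ = c₃ * (m₃ * u) := by rw [hCcomm u huC m₃ hm₃]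
        _ = _ := by rw [mul_assoc]
    have h2 : v * (c₃ * m₃) = c₃ * m₃ * v := by
      have h3 : v * m₃ = m₃ * v := by
        rw [hv]
        exact hM2 m₁ hm₁ m₂ hm₂ m₃ hm₃
      calc v * (c₃ * m₃) = (v * c₃) * m₃ := by rw [mul_assoc]
        _ = (c₃ * v) * m₃ := by rw [hCcomm c₃ hc₃ v hvM]
        _ = c₃ * (v * m₃) := by rw [mul_assoc]
        _ = c₃ * (m₃ * v) := by rw [h3]
        _ = _ := by rw [mul_assoc]
    calc u * v * (c₃ * m₃) = u * (v * (c₃ * m₃)) := by rw [mul_assoc]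
      _ = u * (c₃ * m₃ * v) := by rw [h2]
      _ = (u * (c₃ * m₃)) * v := (mul_assoc u (c₃ * m₃) v).symm
      _ = (c₃ * m₃ * u) * v := by rw [h1]
      _ = _ := mul_assoc (c₃ * m₃) u v
  have hlt : M < B := by
    refine lt_of_le_of_ne hMB ?_
    intro heq
    apply hKb
    rw [eq_bot_iff]
    intro xb hx
    obtain ⟨x, rfl⟩ := QuotientGroup.mk'_surjective M xb
    have h1 : x ∈ B := hx
    rw [← heq] at h1
    exact (QuotientGroup.eq_one_iff x).mpr h1
  exact hmax B ⟨hBn, hB2⟩ hlt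

end group

section fix

variable {F : Type*} [Field F] {n : ℕ}

local notation "VV" => (Fin n → F)
local notation "MM" => Matrix (Fin n) (Fin n) F
local notation "GG" => Matrix.GeneralLinearGroup (Fin n) F

/-- The fixed vectors of a matrix. -/
theorem mem_fix (g : GL (Fin n) F) (v : Fin n → F) :
    v ∈ Module.End.eigenspace (Matrix.toLin' (g : Matrix (Fin n) (Fin n) F)) 1 ↔ (g : Matrix (Fin n) (Fin n) F) *ᵥ v = v := by
  rw [Module.End.mem_eigenspace_iff, one_smul, Matrix.toLin'_apply]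

theorem inv_mulVec (G : GL (Fin n) F) (v : Fin n → F) :
    ((G⁻¹ : GL (Fin n) F) : Matrix (Fin n) (Fin n) F) *ᵥ ((G : Matrix (Fin n) (Fin n) F) *ᵥ v) = v := by
  rw [Matrix.mulVec_mulVec, Units.inv_mul, Matrix.one_mulVec]

theorem mulVec_inv (G : GL (Fin n) F) (v : Fin n → F) :
    (G : Matrix (Fin n) (Fin n) F) *ᵥ (((G⁻¹ : GL (Fin n) F) : Matrix (Fin n) (Fin n) F) *ᵥ v) = v := by
  rw [Matrix.mulVec_mulVec, Units.mul_inv, Matrix.one_mulVec]

/-- The dimension of the fixed space and the fixed space of a commutator. -/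
theorem fix_inter [Finite F] (g y : GL (Fin n) F) :
    2 * finrank F (Module.End.eigenspace (Matrix.toLin' (g : Matrix (Fin n) (Fin n) F)) 1) ≤
      n + finrank F (Module.End.eigenspace (Matrix.toLin' ((y * g * y⁻¹ * g⁻¹ : GL (Fin n) F) : Matrix (Fin n) (Fin n) F)) 1) := by
  classical
  set W := Module.End.eigenspace (Matrix.toLin' (g : Matrix (Fin n) (Fin n) F)) 1 with hW
  set W₁ := Module.End.eigenspace (Matrix.toLin' ((y * g * y⁻¹ * g⁻¹ : GL (Fin n) F) : Matrix (Fin n) (Fin n) F)) 1 with hW₁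
  let L : (Fin n → F) →ₗ[F] (Fin n → F) := Matrix.toLin' (y : Matrix (Fin n) (Fin n) F)
  have hL : ∀ v, L v = (y : Matrix (Fin n) (Fin n) F) *ᵥ v := fun v => rfl
  have hLinj : Function.Injective L := by
    intro u v huv
    rw [hL, hL] at huv
    have := congrArg (fun w => ((y⁻¹ : GL (Fin n) F) : Matrix (Fin n) (Fin n) F) *ᵥ w) huv
    simpa only [inv_mulVec] using this
  set W₂ := W.map L with hW₂
  have h1 : finrank F W₂ = finrank F W := (Submodule.equivMapOfInjective L hLinj W).finrank_eq.symm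
  have h2 := Submodule.finrank_sup_add_finrank_inf_eq W W₂
  have h3 : finrank F ((W ⊔ W₂ : Submodule F (Fin n → F))) ≤ n := by
    have := Submodule.finrank_le (W ⊔ W₂)
    simpa using this
  have h4 : W ⊓ W₂ ≤ W₁ := by
    rintro v ⟨hv1, hv2⟩
    obtain ⟨u, hu, rfl⟩ := hv2
    rw [hW₁, mem_fix]
    have hu1 := (mem_fix g u).1 hu
    have hv := (mem_fix g _).1 hv1
    have h5 : ((g⁻¹ : GL (Fin n) F) : Matrix (Fin n) (Fin n) F) *ᵥ (L u) = L u := by
      conv_lhs => rw [← hv]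
      exact inv_mulVec g _
    simp only [Units.val_mul, ← Matrix.mulVec_mulVec]
    rw [h5, hL, inv_mulVec, hu1]
  have h5 := Submodule.finrank_mono h4
  omega

end fix

section field

variable {F : Type*} [Field F] [Fintype F] {n : ℕ}
  {G : Subgroup (GL (Fin n) F)} {B : Subalgebra F (Matrix (Fin n) (Fin n) F)}

/-- An invariant subspace of an irreducible group. -/
theorem inv_top (hirr : ActsIrreducibly (matrixSet G)) {W : Submodule F (Fin n → F)} (hW : W ≠ ⊥)
    (hinv : ∀ g ∈ G, ∀ w ∈ W, (g : Matrix (Fin n) (Fin n) F) *ᵥ w ∈ W) : W = ⊤ := by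
  refine (hirr W ?_).resolve_left hW
  rintro _ ⟨g, hg, rfl⟩
  rintro _ ⟨w, hw, rfl⟩
  exact hinv g hg w hw

/-- Two idempotents of minimal rank are equal or orthogonal. -/
theorem minimal_orth (hc : ∀ x ∈ B, ∀ y ∈ B, x * y = y * x) {e f : Matrix (Fin n) (Fin n) F} (he : e ∈ B) (hf : f ∈ B)
    (hee : e * e = e) (hff : f * f = f)
    (hmin : ∀ x ∈ B, x * x = x → x ≠ 0 → (x : Matrix (Fin n) (Fin n) F).rank ≥ e.rank) (hrank : f.rank = e.rank) (hne : e ≠ f) : e * f = 0 := by
  by_contra h0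
  have hidem : (e * f) * (e * f) = e * f := by
    calc (e * f) * (e * f) = e * (f * e) * f := by simp only [mul_assoc]
      _ = e * (e * f) * f := by rw [hc f hf e he]
      _ = (e * e) * (f * f) := by simp only [mul_assoc]
      _ = e * f := by rw [hee, hff]
  have h1 := hmin _ (B.mul_mem he hf) hidem h0
  have key : ∀ a b : Matrix (Fin n) (Fin n) F, a * a = a → b * b = b → a * b = b * a → (a * b) * (a * b) = a * b → a.rank ≤ (a * b).rank → a * b = a := by
    intro a b haa hbb hab _ hle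
    have hr : LinearMap.range (Matrix.toLin' (a * b)) = LinearMap.range (Matrix.toLin' a) := by
      apply Submodule.eq_of_le_of_finrank_le
      · rw [Matrix.toLin'_mul]
        exact LinearMap.range_comp_le_range _ _
      · exact hle
    apply Matrix.toLin'.injective
    apply LinearMap.ext
    intro v
    have h3 : Matrix.toLin' a v ∈ LinearMap.range (Matrix.toLin' (a * b)) := by
      rw [hr]
      exact LinearMap.mem_range_self _ v
    obtain ⟨w, hw⟩ := h3
    rw [Matrix.toLin'_apply, Matrix.toLin'_apply] at hw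
    have h4 : (a * b) *ᵥ (a *ᵥ v) = a *ᵥ v := by
      rw [← hw, Matrix.mulVec_mulVec]
      have : a * b * (a * b) = a * b := by
        calc a * b * (a * b) = a * (b * a) * b := by simp only [mul_assoc]
          _ = a * (a * b) * b := by rw [hab]
          _ = (a * a) * (b * b) := by simp only [mul_assoc]
          _ = a * b := by rw [haa, hbb]
      rw [this]
    rw [Matrix.mulVec_mulVec] at h4
    have h5 : a * b * a = a * b := by
      rw [mul_assoc, ← hab, ← mul_assoc, haa]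
    rw [h5] at h4
    rw [Matrix.toLin'_apply, Matrix.toLin'_apply]
    exact h4
  have e1 : e * f = e := key e f hee hff (hc e he f hf) hidem h1
  have e2 : f * e = f := key f e hff hee (hc f hf e he) (by rw [hc f hf e he]; exact hidem) (by
    rw [hc f hf e he, hrank]
    exact h1)
  apply hne
  rw [← e1, hc e he f hf, e2]

omit [Fintype F] in
/-- A full rank idempotent is the identity. -/
theorem idem_one {a : Matrix (Fin n) (Fin n) F} (haa : a * a = a) (hr : LinearMap.range (Matrix.toLin' a) = ⊤) : a = 1 := by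
  apply Matrix.toLin'.injective
  apply LinearMap.ext
  intro v
  have h1 : v ∈ LinearMap.range (Matrix.toLin' a) := by
    rw [hr]
    trivial
  obtain ⟨w, rfl⟩ := h1
  rw [Matrix.toLin'_one, LinearMap.id_apply, Matrix.toLin'_apply, Matrix.toLin'_apply, Matrix.mulVec_mulVec, haa]

omit [Fintype F] in
/-- The range of a conjugate. -/
theorem range_conj (g : GL (Fin n) F) (e : Matrix (Fin n) (Fin n) F) :
    LinearMap.range (Matrix.toLin' ((g : Matrix (Fin n) (Fin n) F) * e * ((g⁻¹ : GL (Fin n) F) : Matrix (Fin n) (Fin n) F))) =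
      (LinearMap.range (Matrix.toLin' e)).map (Matrix.toLin' (g : Matrix (Fin n) (Fin n) F)) := by
  ext w
  rw [Submodule.mem_map]
  constructor
  · rintro ⟨u, rfl⟩
    refine ⟨e *ᵥ (((g⁻¹ : GL (Fin n) F) : Matrix (Fin n) (Fin n) F) *ᵥ u), ⟨_, rfl⟩, ?_⟩
    rw [Matrix.toLin'_apply, Matrix.toLin'_apply, Matrix.mulVec_mulVec, Matrix.mulVec_mulVec]
  · rintro ⟨_, ⟨u, rfl⟩, rfl⟩
    refine ⟨(g : Matrix (Fin n) (Fin n) F) *ᵥ u, ?_⟩
    rw [Matrix.toLin'_apply, Matrix.toLin'_apply, Matrix.toLin'_apply, ← Matrix.mulVec_mulVec, ← Matrix.mulVec_mulVec, inv_mulVec]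

omit [Fintype F] in
/-- The dimension of a subspace and of its image under an invertible matrix. -/
theorem finrank_map_gl (g : GL (Fin n) F) (W : Submodule F (Fin n → F)) :
    finrank F (W.map (Matrix.toLin' (g : Matrix (Fin n) (Fin n) F))) = finrank F W := by
  have hinj : Function.Injective (Matrix.toLin' (g : Matrix (Fin n) (Fin n) F)) := by
    intro u v huv
    rw [Matrix.toLin'_apply, Matrix.toLin'_apply] at huv
    have := congrArg (fun w => ((g⁻¹ : GL (Fin n) F) : Matrix (Fin n) (Fin n) F) *ᵥ w) huv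
    simpa only [inv_mulVec] using this
  exact (Submodule.equivMapOfInjective _ hinj W).finrank_eq.symm

omit [Fintype F] in
/-- The rank of a conjugate. -/
theorem rank_conj (g : GL (Fin n) F) (e : Matrix (Fin n) (Fin n) F) :
    ((g : Matrix (Fin n) (Fin n) F) * e * ((g⁻¹ : GL (Fin n) F) : Matrix (Fin n) (Fin n) F)).rank = e.rank := by
  have h : finrank F (LinearMap.range (Matrix.toLin' ((g : Matrix (Fin n) (Fin n) F) * e * ((g⁻¹ : GL (Fin n) F) : Matrix (Fin n) (Fin n) F)))) =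
      finrank F (LinearMap.range (Matrix.toLin' e)) := by
    rw [range_conj, finrank_map_gl]
  exact h

omit [Fintype F] in
theorem conj_idem (g : GL (Fin n) F) {e : Matrix (Fin n) (Fin n) F} (hee : e * e = e) :
    ((g : Matrix (Fin n) (Fin n) F) * e * ((g⁻¹ : GL (Fin n) F) : Matrix (Fin n) (Fin n) F)) * ((g : Matrix (Fin n) (Fin n) F) * e * ((g⁻¹ : GL (Fin n) F) : Matrix (Fin n) (Fin n) F)) =
      (g : Matrix (Fin n) (Fin n) F) * e * ((g⁻¹ : GL (Fin n) F) : Matrix (Fin n) (Fin n) F) := by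
  calc _ = (g : Matrix (Fin n) (Fin n) F) * e * (((g⁻¹ : GL (Fin n) F) : Matrix (Fin n) (Fin n) F) * (g : Matrix (Fin n) (Fin n) F)) * e * ((g⁻¹ : GL (Fin n) F) : Matrix (Fin n) (Fin n) F) := by
        simp only [mul_assoc]
    _ = (g : Matrix (Fin n) (Fin n) F) * (e * e) * ((g⁻¹ : GL (Fin n) F) : Matrix (Fin n) (Fin n) F) := by
        rw [Units.inv_mul, mul_one]
        simp only [mul_assoc]
    _ = _ := by rw [hee]

omit [Fintype F] in
theorem conj_ne_zero (g : GL (Fin n) F) {e : Matrix (Fin n) (Fin n) F} (he : e ≠ 0) :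
    (g : Matrix (Fin n) (Fin n) F) * e * ((g⁻¹ : GL (Fin n) F) : Matrix (Fin n) (Fin n) F) ≠ 0 := by
  intro h
  apply he
  calc e = ((g⁻¹ : GL (Fin n) F) : Matrix (Fin n) (Fin n) F) * ((g : Matrix (Fin n) (Fin n) F) * e * ((g⁻¹ : GL (Fin n) F) : Matrix (Fin n) (Fin n) F)) * (g : Matrix (Fin n) (Fin n) F) := by
        simp only [mul_assoc, Units.inv_mul, mul_one]
        rw [← mul_assoc, Units.inv_mul, one_mul]
    _ = 0 := by rw [h, mul_zero, zero_mul]

/-- The only idempotents of a commutative algebra normalised by a primitive irreducible group are trivial. -/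
theorem idem_trivial (hirr : ActsIrreducibly (matrixSet G))
    (hprim : ∀ (m t : ℕ) (D : Fin t → Submodule F (Fin n → F)), 2 ≤ t → IsMDecomposition m D → ¬ G ≤ decompositionStabilizer D)
    (hc : ∀ x ∈ B, ∀ y ∈ B, x * y = y * x)
    (hconj : ∀ g ∈ G, ∀ x ∈ B, (g : Matrix (Fin n) (Fin n) F) * x * ((g⁻¹ : GL (Fin n) F) : Matrix (Fin n) (Fin n) F) ∈ B)
    {e : Matrix (Fin n) (Fin n) F} (he : e ∈ B) (hee : e * e = e) : e = 0 ∨ e = 1 := by
  classical
  by_contra hcon
  push Not at hcon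
  obtain ⟨he0, he1⟩ := hcon
  obtain ⟨e₀, ⟨he₀, hee₀, hne₀⟩, hmin₀⟩ := (InvImage.wf (fun x : Matrix (Fin n) (Fin n) F => x.rank) Nat.lt_wfRel.wf).has_min
    {x | x ∈ B ∧ x * x = x ∧ x ≠ 0} ⟨e, he, hee, he0⟩
  have hmin : ∀ x ∈ B, x * x = x → x ≠ 0 → x.rank ≥ e₀.rank := by
    intro x hx hxx hx0
    exact Nat.le_of_not_lt (hmin₀ x ⟨hx, hxx, hx0⟩)
  have hfull : ∀ x : Matrix (Fin n) (Fin n) F, x * x = x → x.rank ≥ n → x = 1 := by
    intro x hxx hr
    apply idem_one hxx
    apply Submodule.eq_top_of_finrank_eq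
    have h1 := Submodule.finrank_le (LinearMap.range (Matrix.toLin' x))
    have h2 : x.rank = finrank F (LinearMap.range (Matrix.toLin' x)) := rfl
    rw [finrank_fin_fun] at h1 ⊢
    omega
  have he₀1 : e₀ ≠ 1 := by
    intro h
    apply he1
    apply hfull e hee
    have := hmin e he hee he0
    rw [h, Matrix.rank_one] at this
    simpa using this
  -- the orbit
  let O : Finset (Matrix (Fin n) (Fin n) F) := (Set.toFinite {f | ∃ g ∈ G, f = (g : Matrix (Fin n) (Fin n) F) * e₀ * ((g⁻¹ : GL (Fin n) F) : Matrix (Fin n) (Fin n) F)}).toFinset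
  have hO : ∀ f, f ∈ O ↔ ∃ g ∈ G, f = (g : Matrix (Fin n) (Fin n) F) * e₀ * ((g⁻¹ : GL (Fin n) F) : Matrix (Fin n) (Fin n) F) := by
    intro f
    simp [O]
  have hOprops : ∀ f ∈ O, f ∈ B ∧ f * f = f ∧ f ≠ 0 ∧ f.rank = e₀.rank := by
    intro f hf
    obtain ⟨g, hg, rfl⟩ := (hO f).1 hf
    exact ⟨hconj g hg _ he₀, conj_idem g hee₀, conj_ne_zero g hne₀, rank_conj g e₀⟩
  have hOorth : ∀ f ∈ O, ∀ f' ∈ O, f ≠ f' → f * f' = 0 := by
    intro f hf f' hf' hne
    obtain ⟨a1, a2, a3, a4⟩ := hOprops f hf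
    obtain ⟨b1, b2, b3, b4⟩ := hOprops f' hf'
    apply minimal_orth hc a1 b1 a2 b2 _ (by rw [a4, b4]) hne
    intro x hx hxx hx0
    rw [a4]
    exact hmin x hx hxx hx0
  have he₀O : e₀ ∈ O := (hO _).2 ⟨1, G.one_mem, by simp⟩
  have hOg : ∀ g ∈ G, ∀ f ∈ O, (g : Matrix (Fin n) (Fin n) F) * f * ((g⁻¹ : GL (Fin n) F) : Matrix (Fin n) (Fin n) F) ∈ O := by
    intro g hg f hf
    obtain ⟨h, hh, rfl⟩ := (hO f).1 hf
    refine (hO _).2 ⟨g * h, G.mul_mem hg hh, ?_⟩
    simp only [Units.val_mul, _root_.mul_inv_rev, mul_assoc]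
  let eq := O.equivFin
  let D : Fin O.card → Submodule F (Fin n → F) := fun i => LinearMap.range (Matrix.toLin' ((eq.symm i : Matrix (Fin n) (Fin n) F)))
  have ht : 2 ≤ O.card := by
    by_contra hlt
    have h1 : O.card ≤ 1 := by omega
    have h2 := Finset.card_le_one.mp h1
    apply he₀1
    apply idem_one hee₀
    apply inv_top hirr
    · intro hbot
      apply hne₀
      apply Matrix.toLin'.injective
      rw [LinearMap.range_eq_bot.mp hbot, map_zero]
    · rintro g hg _ ⟨u, rfl⟩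
      have h3 := h2 _ (hOg g hg e₀ he₀O) e₀ he₀O
      refine ⟨(g : Matrix (Fin n) (Fin n) F) *ᵥ u, ?_⟩
      conv_lhs => rw [← h3]
      rw [Matrix.toLin'_apply, Matrix.toLin'_apply, ← Matrix.mulVec_mulVec, ← Matrix.mulVec_mulVec, inv_mulVec]
  have hDg : ∀ g ∈ G, ∀ i, ∃ j, (D i).map (Matrix.toLin' (g : Matrix (Fin n) (Fin n) F)) = D j ∧ ((eq.symm j : _) : Matrix (Fin n) (Fin n) F) = (g : Matrix (Fin n) (Fin n) F) * (eq.symm i) * ((g⁻¹ : GL (Fin n) F) : Matrix (Fin n) (Fin n) F) := by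
    intro g hg i
    refine ⟨eq ⟨_, hOg g hg _ (eq.symm i).2⟩, ?_, by simp⟩
    show _ = LinearMap.range (Matrix.toLin' ((eq.symm (eq ⟨_, hOg g hg _ (eq.symm i).2⟩) : _) : Matrix (Fin n) (Fin n) F))
    rw [Equiv.symm_apply_apply]
    exact (range_conj g _).symm
  have hDfix : ∀ i j, i ≠ j → ∀ w ∈ D j, (eq.symm i : Matrix (Fin n) (Fin n) F) *ᵥ w = 0 := by
    rintro i j hij _ ⟨u, rfl⟩
    have hne : ((eq.symm i : _) : Matrix (Fin n) (Fin n) F) ≠ (eq.symm j : _) := by
      intro h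
      exact hij (eq.symm.injective (Subtype.ext h))
    have := hOorth _ (eq.symm i).2 _ (eq.symm j).2 hne
    rw [Matrix.toLin'_apply, Matrix.mulVec_mulVec, this, Matrix.zero_mulVec]
  have hDidem : ∀ i, ∀ w ∈ D i, (eq.symm i : Matrix (Fin n) (Fin n) F) *ᵥ w = w := by
    rintro i _ ⟨u, rfl⟩
    rw [Matrix.toLin'_apply, Matrix.mulVec_mulVec, (hOprops _ (eq.symm i).2).2.1]
  have hdec : IsMDecomposition e₀.rank D := by
    refine ⟨ht, ?_, ?_, ?_, ?_⟩
    · rw [Nat.pos_iff_ne_zero]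
      intro h0
      apply hne₀
      have h1 : LinearMap.range (Matrix.toLin' e₀) = ⊥ := Submodule.finrank_eq_zero.mp h0
      apply Matrix.toLin'.injective
      rw [LinearMap.range_eq_bot.mp h1, map_zero]
    · intro i
      exact (hOprops _ (eq.symm i).2).2.2.2
    · rw [iSupIndep_def]
      intro i
      rw [Submodule.disjoint_def]
      intro v hv hv2
      have h1 : (⨆ j, ⨆ (_ : j ≠ i), D j) ≤ LinearMap.ker (Matrix.toLin' (eq.symm i : Matrix (Fin n) (Fin n) F)) := by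
        apply iSup₂_le
        intro j hj w hw
        rw [LinearMap.mem_ker, Matrix.toLin'_apply]
        exact hDfix i j (Ne.symm hj) w hw
      have h2 := h1 hv2
      rw [LinearMap.mem_ker, Matrix.toLin'_apply, hDidem i v hv] at h2
      exact h2
    · apply inv_top hirr
      · intro hbot
        rw [iSup_eq_bot] at hbot
        apply hne₀
        have h1 := hbot (eq ⟨e₀, he₀O⟩)
        have h2 : D (eq ⟨e₀, he₀O⟩) = LinearMap.range (Matrix.toLin' e₀) := by
          show LinearMap.range (Matrix.toLin' ((eq.symm (eq ⟨e₀, he₀O⟩) : _) : Matrix (Fin n) (Fin n) F)) = _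
          rw [Equiv.symm_apply_apply]
        rw [h2] at h1
        apply Matrix.toLin'.injective
        rw [LinearMap.range_eq_bot.mp h1, map_zero]
      · intro g hg w hw
        have h1 : (iSup D).map (Matrix.toLin' (g : Matrix (Fin n) (Fin n) F)) ≤ iSup D := by
          rw [Submodule.map_iSup]
          apply iSup_le
          intro i
          obtain ⟨j, hj, -⟩ := hDg g hg i
          rw [hj]
          exact le_iSup D j
        exact h1 ⟨w, hw, rfl⟩
  apply hprim _ _ D ht hdec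
  intro g hg
  -- the permutation
  have hφ : Function.Injective (fun f : O => (⟨(g : Matrix (Fin n) (Fin n) F) * f * ((g⁻¹ : GL (Fin n) F) : Matrix (Fin n) (Fin n) F), hOg g hg _ f.2⟩ : O)) := by
    intro f f' hff
    have h1 := congrArg Subtype.val hff
    simp only at h1
    apply Subtype.ext
    have h2 := congrArg (fun M => ((g⁻¹ : GL (Fin n) F) : Matrix (Fin n) (Fin n) F) * M * (g : Matrix (Fin n) (Fin n) F)) h1
    simpa [mul_assoc] using h2
  let φ : O ≃ O := Equiv.ofBijective _ (Finite.injective_iff_bijective.mp hφ)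
  refine ⟨eq.symm.trans (φ.trans eq), fun i => ?_⟩
  show _ = LinearMap.range (Matrix.toLin' ((eq.symm (eq (φ (eq.symm i))) : _) : Matrix (Fin n) (Fin n) F))
  rw [Equiv.symm_apply_apply]
  exact (range_conj g _).symm

omit [Fintype F] in
/-- Commuting nilpotent matrices have a common null vector. -/
theorem common_ker (hn : 0 < n) (T : Finset (Matrix (Fin n) (Fin n) F)) (hc : ∀ x ∈ T, ∀ y ∈ T, x * y = y * x)
    (hnil : ∀ x ∈ T, ∃ k : ℕ, x ^ k = 0) : ∃ v : Fin n → F, v ≠ 0 ∧ ∀ x ∈ T, x *ᵥ v = 0 := by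
  classical
  induction T using Finset.induction_on with
  | empty =>
    haveI : Nonempty (Fin n) := ⟨⟨0, hn⟩⟩
    exact ⟨fun _ => 1, fun h => one_ne_zero (congrFun h ⟨0, hn⟩), by simp⟩
  | insert a T ha ih =>
    obtain ⟨v, hv, hvT⟩ := ih (fun x hx y hy => hc x (Finset.mem_insert_of_mem hx) y (Finset.mem_insert_of_mem hy))
      (fun x hx => hnil x (Finset.mem_insert_of_mem hx))
    obtain ⟨k, hk⟩ := hnil a (Finset.mem_insert_self _ _)
    have hex : ∃ j : ℕ, (a ^ j) *ᵥ v = 0 := ⟨k, by rw [hk, Matrix.zero_mulVec]⟩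
    have hspec := Nat.find_spec hex
    have hj0 : Nat.find hex ≠ 0 := by
      intro h0
      rw [h0, pow_zero, Matrix.one_mulVec] at hspec
      exact hv hspec
    obtain ⟨i, hi⟩ := Nat.exists_eq_succ_of_ne_zero hj0
    have hmin := Nat.find_min hex (m := i) (by omega)
    rw [hi] at hspec
    have hcomm : ∀ x ∈ T, ∀ m : ℕ, x * a ^ m = a ^ m * x := by
      intro x hx m
      exact (Commute.pow_right (show Commute x a from hc x (Finset.mem_insert_of_mem hx) a (Finset.mem_insert_self _ _)) m)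
    refine ⟨(a ^ i) *ᵥ v, ?_, ?_⟩
    · exact hmin
    · intro x hx
      rcases Finset.mem_insert.mp hx with rfl | hx
      · rw [Matrix.mulVec_mulVec, ← pow_succ']
        exact hspec
      · rw [Matrix.mulVec_mulVec, hcomm x hx, ← Matrix.mulVec_mulVec, hvT x hx, Matrix.mulVec_zero]

/-- A commutative algebra normalised by an irreducible group has no nonzero nilpotent elements. -/
theorem nil_zero (hn : 0 < n) (hirr : ActsIrreducibly (matrixSet G))
    (hc : ∀ x ∈ B, ∀ y ∈ B, x * y = y * x)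
    (hconj : ∀ g ∈ G, ∀ x ∈ B, (g : Matrix (Fin n) (Fin n) F) * x * ((g⁻¹ : GL (Fin n) F) : Matrix (Fin n) (Fin n) F) ∈ B)
    {b : Matrix (Fin n) (Fin n) F} (hb : b ∈ B) {k : ℕ} (hk : b ^ k = 0) : b = 0 := by
  classical
  let T : Finset (Matrix (Fin n) (Fin n) F) := (Set.toFinite {x | x ∈ B ∧ ∃ k : ℕ, x ^ k = 0}).toFinset
  have hT : ∀ x, x ∈ T ↔ x ∈ B ∧ ∃ k : ℕ, x ^ k = 0 := by
    intro x
    simp [T]
  obtain ⟨v, hv, hvT⟩ := common_ker hn T (fun x hx y hy => hc x ((hT x).1 hx).1 y ((hT y).1 hy).1) (fun x hx => ((hT x).1 hx).2)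
  let W : Submodule F (Fin n → F) := ⨅ x : T, LinearMap.ker (Matrix.toLin' (x : Matrix (Fin n) (Fin n) F))
  have hW : ∀ w, w ∈ W ↔ ∀ x ∈ T, x *ᵥ w = 0 := by
    intro w
    simp only [W, Submodule.mem_iInf, LinearMap.mem_ker, Matrix.toLin'_apply, Subtype.forall]
  have hWtop : W = ⊤ := by
    apply inv_top hirr
    · intro hbot
      apply hv
      have : v ∈ W := (hW v).2 hvT
      rw [hbot] at this
      exact this
    · intro g hg w hw
      rw [hW]
      intro x hx
      obtain ⟨hxB, m, hm⟩ := (hT x).1 hx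
      have h1 : ((g⁻¹ : GL (Fin n) F) : Matrix (Fin n) (Fin n) F) * x * (((g⁻¹)⁻¹ : GL (Fin n) F) : Matrix (Fin n) (Fin n) F) ∈ T := by
        rw [hT]
        refine ⟨hconj _ (G.inv_mem hg) x hxB, m, ?_⟩
        rw [inv_inv]
        have : ∀ i : ℕ, (((g⁻¹ : GL (Fin n) F) : Matrix (Fin n) (Fin n) F) * x * (g : Matrix (Fin n) (Fin n) F)) ^ i = ((g⁻¹ : GL (Fin n) F) : Matrix (Fin n) (Fin n) F) * x ^ i * (g : Matrix (Fin n) (Fin n) F) := by
          intro i
          induction i with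
          | zero => simp
          | succ i ih =>
            rw [pow_succ, ih, pow_succ]
            calc _ = ((g⁻¹ : GL (Fin n) F) : Matrix (Fin n) (Fin n) F) * x ^ i * ((g : Matrix (Fin n) (Fin n) F) * ((g⁻¹ : GL (Fin n) F) : Matrix (Fin n) (Fin n) F)) * x * (g : Matrix (Fin n) (Fin n) F) := by
                  simp only [mul_assoc]
              _ = _ := by
                  rw [Units.mul_inv, mul_one]
                  simp only [mul_assoc]
        rw [this, hm, mul_zero, zero_mul]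
      have h2 := (hW w).1 hw _ h1
      rw [inv_inv] at h2
      have h3 : ((g⁻¹ : GL (Fin n) F) : Matrix (Fin n) (Fin n) F) *ᵥ (x *ᵥ ((g : Matrix (Fin n) (Fin n) F) *ᵥ w)) = 0 := by
        rw [Matrix.mulVec_mulVec, Matrix.mulVec_mulVec]
        exact h2
      have h4 := congrArg (fun u => (g : Matrix (Fin n) (Fin n) F) *ᵥ u) h3
      simp only [Matrix.mulVec_zero] at h4
      rw [mulVec_inv] at h4
      exact h4
  apply Matrix.toLin'.injective
  apply LinearMap.ext
  intro u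
  have h1 : u ∈ W := by
    rw [hWtop]
    trivial
  have h2 := (hW u).1 h1 b ((hT b).2 ⟨hb, k, hk⟩)
  rw [Matrix.toLin'_apply, h2, map_zero]
  rfl

omit [Fintype F] in
/-- In a finite monoid, some positive power is idempotent. -/
theorem idem_pow_aux {R : Type*} [Monoid R] [Finite R] (b : R) : ∃ k : ℕ, 0 < k ∧ b ^ k * b ^ k = b ^ k := by
  obtain ⟨i, j, hij, hb⟩ := Finite.exists_ne_map_eq_of_infinite (fun i : ℕ => b ^ i)
  wlog hlt : i < j generalizing i j
  · exact this j i hij.symm hb.symm (by omega)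
  obtain ⟨p, rfl⟩ := Nat.exists_eq_add_of_lt hlt
  have hb' : b ^ i * b ^ (p + 1) = b ^ i := by
    rw [← pow_add]
    have : i + (p + 1) = i + p + 1 := by omega
    rw [this]
    exact hb.symm
  have h1 : ∀ m : ℕ, b ^ i * b ^ (m * (p + 1)) = b ^ i := by
    intro m
    induction m with
    | zero => simp
    | succ m ih =>
      rw [Nat.succ_mul, pow_add, ← mul_assoc, ih, hb']
  refine ⟨(i + 1) * (p + 1), by positivity, ?_⟩
  obtain ⟨c, hc⟩ : ∃ c, (i + 1) * (p + 1) = c + i := by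
    refine ⟨(i + 1) * (p + 1) - i, ?_⟩
    have : i ≤ (i + 1) * (p + 1) := by nlinarith
    omega
  calc b ^ ((i + 1) * (p + 1)) * b ^ ((i + 1) * (p + 1))
      = b ^ (c + i) * b ^ ((i + 1) * (p + 1)) := by rw [← hc]
    _ = b ^ c * (b ^ i * b ^ ((i + 1) * (p + 1))) := by rw [pow_add, mul_assoc]
    _ = b ^ c * b ^ i := by rw [h1]
    _ = b ^ ((i + 1) * (p + 1)) := by rw [← pow_add, ← hc]

/-- An abelian subgroup normalised by a primitive irreducible group acts fixed-point freely. -/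
theorem fix_bot (hirr : ActsIrreducibly (matrixSet G))
    (hprim : ∀ (m t : ℕ) (D : Fin t → Submodule F (Fin n → F)), 2 ≤ t → IsMDecomposition m D → ¬ G ≤ decompositionStabilizer D)
    (A : Subgroup (GL (Fin n) F)) (hcomm : ∀ x ∈ A, ∀ y ∈ A, x * y = y * x)
    (hnorm : ∀ g ∈ G, ∀ x ∈ A, g * x * g⁻¹ ∈ A) {a : GL (Fin n) F} (ha : a ∈ A)
    {v : Fin n → F} (hv : (a : Matrix (Fin n) (Fin n) F) *ᵥ v = v) (hv0 : v ≠ 0) : a = 1 := by
  classical
  have hn : 0 < n := by
    rcases Nat.eq_zero_or_pos n with rfl | h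
    · exact absurd (Subsingleton.elim v 0) hv0
    · exact h
  let S : Set (Matrix (Fin n) (Fin n) F) := (fun x : GL (Fin n) F => (x : Matrix (Fin n) (Fin n) F)) '' (A : Set (GL (Fin n) F))
  let B' : Subalgebra F (Matrix (Fin n) (Fin n) F) := Algebra.adjoin F S
  have hSS : S ≤ Set.centralizer S := by
    rintro _ ⟨x, hx, rfl⟩ _ ⟨y, hy, rfl⟩
    show (y : Matrix (Fin n) (Fin n) F) * x = x * y
    rw [← Units.val_mul, ← Units.val_mul, hcomm y hy x hx]
  have hc : ∀ x ∈ B', ∀ y ∈ B', x * y = y * x := by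
    intro x hx y hy
    have h1 : B' ≤ Subalgebra.centralizer F S := by
      apply Algebra.adjoin_le
      intro s hs
      rw [SetLike.mem_coe, Subalgebra.mem_centralizer_iff]
      exact fun t ht => hSS hs t ht
    have h2 : B' ≤ Subalgebra.centralizer F (Subalgebra.centralizer F S : Set (Matrix (Fin n) (Fin n) F)) := Algebra.adjoin_le_centralizer_centralizer F S
    exact (Subalgebra.mem_centralizer_iff F |>.1 (h2 hy) x (h1 hx))
  have hconj : ∀ g ∈ G, ∀ x ∈ B', (g : Matrix (Fin n) (Fin n) F) * x * ((g⁻¹ : GL (Fin n) F) : Matrix (Fin n) (Fin n) F) ∈ B' := by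
    intro g hg x hx
    induction hx using Algebra.adjoin_induction with
    | mem x hx =>
      obtain ⟨y, hy, rfl⟩ := hx
      apply Algebra.subset_adjoin
      exact ⟨g * y * g⁻¹, hnorm g hg y hy, by simp⟩
    | algebraMap r =>
      have : (g : Matrix (Fin n) (Fin n) F) * (algebraMap F (Matrix (Fin n) (Fin n) F) r) * ((g⁻¹ : GL (Fin n) F) : Matrix (Fin n) (Fin n) F) = algebraMap F (Matrix (Fin n) (Fin n) F) r := by
        rw [Algebra.algebraMap_eq_smul_one, mul_smul_comm, smul_mul_assoc, mul_one, Units.mul_inv]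
      rw [this]
      exact B'.algebraMap_mem r
    | add x y _ _ hx hy =>
      rw [mul_add, add_mul]
      exact B'.add_mem hx hy
    | mul x y _ _ hx hy =>
      have : (g : Matrix (Fin n) (Fin n) F) * (x * y) * ((g⁻¹ : GL (Fin n) F) : Matrix (Fin n) (Fin n) F) =
          ((g : Matrix (Fin n) (Fin n) F) * x * ((g⁻¹ : GL (Fin n) F) : Matrix (Fin n) (Fin n) F)) * ((g : Matrix (Fin n) (Fin n) F) * y * ((g⁻¹ : GL (Fin n) F) : Matrix (Fin n) (Fin n) F)) := by
        symm
        calc _ = (g : Matrix (Fin n) (Fin n) F) * x * (((g⁻¹ : GL (Fin n) F) : Matrix (Fin n) (Fin n) F) * (g : Matrix (Fin n) (Fin n) F)) * y * ((g⁻¹ : GL (Fin n) F) : Matrix (Fin n) (Fin n) F) := by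
              simp only [mul_assoc]
          _ = _ := by
              rw [Units.inv_mul, mul_one]
              simp only [mul_assoc]
      rw [this]
      exact B'.mul_mem hx hy
  have hb : (a : Matrix (Fin n) (Fin n) F) - 1 ∈ B' := B'.sub_mem (Algebra.subset_adjoin ⟨a, ha, rfl⟩) B'.one_mem
  obtain ⟨k, hk, hidem⟩ := idem_pow_aux ((a : Matrix (Fin n) (Fin n) F) - 1)
  have hbv : ((a : Matrix (Fin n) (Fin n) F) - 1) *ᵥ v = 0 := by
    rw [Matrix.sub_mulVec, hv, Matrix.one_mulVec, sub_self]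
  rcases idem_trivial hirr hprim hc hconj (B'.pow_mem hb k) hidem with h0 | h1
  · have := nil_zero hn hirr hc hconj hb h0
    apply Units.ext
    rw [Units.val_one]
    exact sub_eq_zero.mp this
  · exfalso
    apply hv0
    obtain ⟨i, rfl⟩ := Nat.exists_eq_succ_of_ne_zero hk.ne'
    have h2 : ((a : Matrix (Fin n) (Fin n) F) - 1) ^ (i + 1) *ᵥ v = v := by
      rw [Nat.succ_eq_add_one] at h1
      rw [h1, Matrix.one_mulVec]
    rw [pow_succ, ← Matrix.mulVec_mulVec, hbv, Matrix.mulVec_zero] at h2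
    exact h2.symm

/-- The fixed space of a nontrivial element of a primitive irreducible soluble group has dimension at most three quarters of `n`. -/
theorem fix_bound (hsol : Group.IsSolvable G) (hirr : ActsIrreducibly (matrixSet G))
    (hprim : ∀ (m t : ℕ) (D : Fin t → Submodule F (Fin n → F)), 2 ≤ t → IsMDecomposition m D → ¬ G ≤ decompositionStabilizer D)
    (g : GL (Fin n) F) (hg : g ∈ G) (hg1 : g ≠ 1) :
    4 * finrank F (Module.End.eigenspace (Matrix.toLin' (g : Matrix (Fin n) (Fin n) F)) 1) ≤ 3 * n := by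
  classical
  obtain ⟨M, hMn, hM2, hMc⟩ := exists_self_centralizing (Γ := G) hsol
  haveI := hMn
  let Z : Subgroup G := Subgroup.centralizer (M : Set G)
  haveI hZn : Z.Normal := Subgroup.normal_centralizer
  have hZM : ∀ x ∈ Z, x ∈ M := by
    intro x hx
    apply hMc
    intro y hy
    exact (Subgroup.mem_centralizer_iff.mp hx y hy).symm
  let A : Subgroup (GL (Fin n) F) := Z.map G.subtype
  have hAcomm : ∀ x ∈ A, ∀ y ∈ A, x * y = y * x := by
    rintro _ ⟨x, hx, rfl⟩ _ ⟨y, hy, rfl⟩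
    have h1 : y * x = x * y := Subgroup.mem_centralizer_iff.mp hx y (hZM y hy)
    exact (congrArg Subtype.val h1).symm
  have hAnorm : ∀ h ∈ G, ∀ x ∈ A, h * x * h⁻¹ ∈ A := by
    rintro h hh _ ⟨x, hx, rfl⟩
    have h1 : (⟨h, hh⟩ : G) * x * (⟨h, hh⟩ : G)⁻¹ ∈ Z := hZn.conj_mem x hx _
    refine ⟨_, h1, ?_⟩
    simp only [Subgroup.subtype_apply, Subgroup.coe_mul, Subgroup.coe_inv]
  have hZfix : ∀ z : G, z ∈ Z → z ≠ 1 → finrank F (Module.End.eigenspace (Matrix.toLin' ((z : GL (Fin n) F) : Matrix (Fin n) (Fin n) F)) 1) = 0 := by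
    intro z hz hz1
    rw [Submodule.finrank_eq_zero, eq_bot_iff]
    intro v hv
    rw [mem_fix] at hv
    rw [Submodule.mem_bot]
    by_contra hv0
    apply hz1
    apply Subtype.ext
    exact fix_bot hirr hprim A hAcomm hAnorm ⟨z, hz, rfl⟩ hv hv0
  have hcommZ : ∀ x ∈ M, ∀ y ∈ M, x * y * x⁻¹ * y⁻¹ ∈ Z := by
    intro x hx y hy
    rw [Subgroup.mem_centralizer_iff]
    intro z hz
    exact (hM2 x hx y hy z hz).symm
  have hfix : ∀ h y : G, finrank F (Module.End.eigenspace (Matrix.toLin' ((h : GL (Fin n) F) : Matrix (Fin n) (Fin n) F)) 1) * 2 ≤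
      n + finrank F (Module.End.eigenspace (Matrix.toLin' (((y * h * y⁻¹ * h⁻¹ : G) : GL (Fin n) F) : Matrix (Fin n) (Fin n) F)) 1) := by
    intro h y
    have := fix_inter (h : GL (Fin n) F) (y : GL (Fin n) F)
    rw [mul_comm]
    exact this
  have hne : ∀ h y : G, y * h ≠ h * y → y * h * y⁻¹ * h⁻¹ ≠ 1 := by
    intro h y hne heq
    apply hne
    have h1 : y * h * y⁻¹ = h := by
      rwa [mul_inv_eq_one] at heq
    rwa [mul_inv_eq_iff_eq_mul] at h1
  have hMfix : ∀ w : G, w ∈ M → w ≠ 1 → finrank F (Module.End.eigenspace (Matrix.toLin' ((w : GL (Fin n) F) : Matrix (Fin n) (Fin n) F)) 1) * 2 ≤ n := by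
    intro w hw hw1
    by_cases hwZ : w ∈ Z
    · rw [hZfix w hwZ hw1]
      omega
    · have : ∃ y ∈ M, y * w ≠ w * y := by
        by_contra hcon
        push Not at hcon
        apply hwZ
        rw [Subgroup.mem_centralizer_iff]
        exact fun y hy => hcon y hy
      obtain ⟨y, hy, hyw⟩ := this
      have h1 := hfix w y
      rw [hZfix _ (hcommZ y hy w hw) (hne w y hyw)] at h1
      exact h1
  let g' : G := ⟨g, hg⟩
  have hg'1 : g' ≠ 1 := by
    intro h
    exact hg1 (congrArg Subtype.val h)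
  show 4 * finrank F (Module.End.eigenspace (Matrix.toLin' ((g' : GL (Fin n) F) : Matrix (Fin n) (Fin n) F)) 1) ≤ 3 * n
  by_cases hgM : g' ∈ M
  · have := hMfix g' hgM hg'1
    omega
  · have : ∃ y ∈ M, y * g' ≠ g' * y := by
      by_contra hcon
      push Not at hcon
      apply hgM
      apply hMc
      intro y hy
      exact (hcon y hy).symm
    obtain ⟨y, hy, hyg⟩ := this
    have h1 := hfix g' y
    have h2 : y * g' * y⁻¹ * g'⁻¹ ∈ M := by
      have h3 : g' * y⁻¹ * g'⁻¹ ∈ M := hMn.conj_mem _ (M.inv_mem hy) g'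
      have h4 : y * g' * y⁻¹ * g'⁻¹ = y * (g' * y⁻¹ * g'⁻¹) := by group
      rw [h4]
      exact M.mul_mem hy h3
    have h3 := hMfix _ h2 (hne g' y hyg)
    omega

end field

end Cfsg.Agent.Lib.ClassMax.PrimSol
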