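import Mathlib
import Cfsg.Prelude.Def_GeometricClasses
import Cfsg.Agent.Lib.ClassMax.PrimSol

/-!
Subalgebras of matrix algebras normalised by irreducible groups: vanishing Jacobson radical, matrix algebra structure
from Wedderburn--Artin.
-/

set_option autoImplicit false
set_option linter.unusedSimpArgs false
set_option linter.unusedVariables false
set_option linter.unusedSectionVars false

namespace Cfsg.Agent.Lib.ClassMax.Asch

open Module Matrix Cfsg.Geo Cfsg.Agent.Lib.ClassMax.PrimSol

variable {F : Type*} [Field F] {n : ℕ} {K : Type*} [Field K] [Algebra K F]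

/-- A subalgebra closed under conjugation by a set of invertible matrices. -/
def ConjClosed (G : Subgroup (GL (Fin n) F)) (A : Subalgebra K (Matrix (Fin n) (Fin n) F)) : Prop :=
  ∀ g ∈ G, ∀ x ∈ A, (g : Matrix (Fin n) (Fin n) F) * x * ((g⁻¹ : GL (Fin n) F) : Matrix (Fin n) (Fin n) F) ∈ A

theorem conj_mul_conj (g : GL (Fin n) F) (x y : Matrix (Fin n) (Fin n) F) :
    (g : Matrix (Fin n) (Fin n) F) * (x * y) * ((g⁻¹ : GL (Fin n) F) : Matrix (Fin n) (Fin n) F) =
      ((g : Matrix (Fin n) (Fin n) F) * x * ((g⁻¹ : GL (Fin n) F) : Matrix (Fin n) (Fin n) F)) *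
        ((g : Matrix (Fin n) (Fin n) F) * y * ((g⁻¹ : GL (Fin n) F) : Matrix (Fin n) (Fin n) F)) := by
  symm
  calc _ = (g : Matrix (Fin n) (Fin n) F) * x * (((g⁻¹ : GL (Fin n) F) : Matrix (Fin n) (Fin n) F) * (g : Matrix (Fin n) (Fin n) F)) * y * ((g⁻¹ : GL (Fin n) F) : Matrix (Fin n) (Fin n) F) := by
        simp only [mul_assoc]
    _ = _ := by
        rw [Units.inv_mul, mul_one]
        simp only [mul_assoc]

/-- The Jacobson radical of a subalgebra normalised by an irreducible group vanishes. -/
theorem jacobson_eq_bot_of_conj [Fintype F] (hn : 0 < n) {G : Subgroup (GL (Fin n) F)} (hirr : ActsIrreducibly (matrixSet G))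
    {A : Subalgebra K (Matrix (Fin n) (Fin n) F)} (hA : ConjClosed G A) : Ring.jacobson A = ⊥ := by
  classical
  let J : Ideal A := Ideal.jacobson (⊥ : Ideal A)
  have hJ : J = Ring.jacobson A := Ideal.jacobson_bot
  -- conjugation preserves the radical
  have hconj : ∀ g ∈ G, ∀ x : A, x ∈ J → (∃ hx : (g : Matrix (Fin n) (Fin n) F) * x * ((g⁻¹ : GL (Fin n) F) : Matrix (Fin n) (Fin n) F) ∈ A,
      (⟨_, hx⟩ : A) ∈ J) := by
    intro g hg x hx
    refine ⟨hA g hg x x.2, ?_⟩
    rw [Ideal.mem_jacobson_iff] at hx ⊢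
    intro y
    -- conjugate back
    have hy' : ((g⁻¹ : GL (Fin n) F) : Matrix (Fin n) (Fin n) F) * y * (((g⁻¹)⁻¹ : GL (Fin n) F) : Matrix (Fin n) (Fin n) F) ∈ A :=
      hA _ (G.inv_mem hg) y y.2
    obtain ⟨z, hz⟩ := hx ⟨_, hy'⟩
    refine ⟨⟨_, hA g hg z z.2⟩, ?_⟩
    rw [Ideal.mem_bot] at hz ⊢
    have h1 := congrArg (fun w : A => (g : Matrix (Fin n) (Fin n) F) * (w : Matrix (Fin n) (Fin n) F) * ((g⁻¹ : GL (Fin n) F) : Matrix (Fin n) (Fin n) F)) hz
    apply Subtype.ext
    simp only [inv_inv, Subalgebra.coe_sub, Subalgebra.coe_add, Subalgebra.coe_mul, Subalgebra.coe_one, Subalgebra.coe_zero, mul_zero, zero_mul] at h1 ⊢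
    rw [← h1]
    simp only [mul_sub, sub_mul, mul_add, add_mul, mul_one, Units.mul_inv]
    congr 2
    simp only [mul_assoc, Units.inv_mul, Units.inv_mul_cancel_left, mul_one, Units.mul_inv_cancel_left]
  let T : ∀ I : Ideal A, Submodule F (Fin n → F) := fun I => ⨆ x : I, LinearMap.range (Matrix.toLin' ((x : A) : Matrix (Fin n) (Fin n) F))
  have hTinv : ∀ g ∈ G, ∀ w ∈ T J, (g : Matrix (Fin n) (Fin n) F) *ᵥ w ∈ T J := by
    intro g hg w hw
    induction hw using Submodule.iSup_induction' with
    | mem x w hw =>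
      obtain ⟨u, rfl⟩ := hw
      obtain ⟨hx, hxJ⟩ := hconj g hg x x.2
      have h1 : LinearMap.range (Matrix.toLin' (((⟨(⟨_, hx⟩ : A), hxJ⟩ : J) : A) : Matrix (Fin n) (Fin n) F)) ≤ T J := le_iSup (fun x : J => LinearMap.range (Matrix.toLin' ((x : A) : Matrix (Fin n) (Fin n) F))) ⟨_, hxJ⟩
      apply h1
      refine ⟨(g : Matrix (Fin n) (Fin n) F) *ᵥ u, ?_⟩
      simp only [Matrix.toLin'_apply, Matrix.mulVec_mulVec]
      rw [mul_assoc, mul_assoc, Units.inv_mul, mul_one]
    | zero =>
      rw [Matrix.mulVec_zero]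
      exact Submodule.zero_mem _
    | add u v _ _ hu hv =>
      rw [Matrix.mulVec_add]
      exact Submodule.add_mem _ hu hv
  rw [← hJ]
  by_cases hbot : T J = ⊥
  · rw [eq_bot_iff]
    intro x hx
    rw [Ideal.mem_bot]
    apply Subtype.ext
    apply Matrix.toLin'.injective
    apply LinearMap.ext
    intro v
    have h1 : LinearMap.range (Matrix.toLin' ((x : A) : Matrix (Fin n) (Fin n) F)) ≤ T J := le_iSup (fun x : J => LinearMap.range (Matrix.toLin' ((x : A) : Matrix (Fin n) (Fin n) F))) ⟨x, hx⟩
    have h2 := h1 (LinearMap.mem_range_self _ v)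
    rw [hbot, Submodule.mem_bot] at h2
    rw [h2]
    simp
  · exfalso
    have htop : T J = ⊤ := inv_top hirr hbot hTinv
    -- then all powers of the radical act surjectively
    have hpow : ∀ k : ℕ, T (J ^ k) = ⊤ := by
      intro k
      induction k with
      | zero =>
        rw [eq_top_iff]
        rintro v -
        have h0 : (1 : A) ∈ (J ^ 0 : Ideal A) := by
          rw [Submodule.pow_zero, Ideal.one_eq_top]
          trivial
        have h1 : LinearMap.range (Matrix.toLin' (((⟨1, h0⟩ : (J ^ 0 : Ideal A)) : A) : Matrix (Fin n) (Fin n) F)) ≤ T (J ^ 0) :=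
          le_iSup (fun x : (J ^ 0 : Ideal A) => LinearMap.range (Matrix.toLin' ((x : A) : Matrix (Fin n) (Fin n) F))) ⟨1, h0⟩
        apply h1
        exact ⟨v, by simp⟩
      | succ k ih =>
        rw [eq_top_iff]
        rintro v -
        have hv : v ∈ T (J ^ k) := by
          rw [ih]
          trivial
        induction hv using Submodule.iSup_induction' with
        | mem x w hw =>
          obtain ⟨u, rfl⟩ := hw
          have hu : u ∈ T J := by
            rw [htop]
            trivial
          induction hu using Submodule.iSup_induction' with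
          | mem y w hw =>
            obtain ⟨u', rfl⟩ := hw
            have hmem : (x : A) * (y : A) ∈ J ^ (k + 1) := by
              rw [Submodule.pow_succ]
              exact Ideal.mul_mem_mul x.2 y.2
            have h1 : LinearMap.range (Matrix.toLin' ((((⟨_, hmem⟩ : (J ^ (k + 1) : Ideal A))) : A) : Matrix (Fin n) (Fin n) F)) ≤ T (J ^ (k + 1)) :=
              le_iSup (fun x : (J ^ (k + 1) : Ideal A) => LinearMap.range (Matrix.toLin' ((x : A) : Matrix (Fin n) (Fin n) F))) ⟨_, hmem⟩
            apply h1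
            refine ⟨u', ?_⟩
            simp only [Matrix.toLin'_apply, Matrix.mulVec_mulVec, Subalgebra.coe_mul]
          | zero =>
            simp only [Matrix.toLin'_apply, Matrix.mulVec_zero]
            exact Submodule.zero_mem _
          | add a b _ _ ha hb =>
            simp only [Matrix.toLin'_apply, Matrix.mulVec_add] at ha hb ⊢
            exact Submodule.add_mem _ ha hb
        | zero => exact Submodule.zero_mem _
        | add a b _ _ ha hb => exact Submodule.add_mem _ ha hb
    haveI : IsArtinianRing A := by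
      haveI : Finite K := Finite.of_injective (algebraMap K F) (algebraMap K F).injective
      haveI : Module.Finite K A := Module.Finite.of_finite
      exact IsArtinianRing.of_finite K A
    obtain ⟨k, hk⟩ := IsArtinianRing.isNilpotent_jacobson_bot (R := A)
    have h1 := hpow k
    have h2 : T (J ^ k) = ⊥ := by
      rw [eq_bot_iff]
      apply iSup_le
      rintro ⟨x, hx⟩
      have hx0 : x = 0 := by
        have : x ∈ (0 : Ideal A) := by
          have h3 : (J ^ k : Ideal A) = 0 := hk
          rw [← h3]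
          exact hx
        simpa using this
      subst hx0
      intro v hv
      obtain ⟨u, rfl⟩ := hv
      simp
    rw [h2] at h1
    haveI : Nonempty (Fin n) := ⟨⟨0, hn⟩⟩
    exact bot_ne_top h1

end Cfsg.Agent.Lib.ClassMax.Asch
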