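import Mathlib
import Cfsg.Agent.Lib.ClassMax.Asch1

/-!
Semisimple central algebras over finite fields are matrix algebras; inner automorphisms; a density statement.
-/

set_option autoImplicit false
set_option linter.unusedSimpArgs false
set_option linter.unusedVariables false
set_option linter.unusedSectionVars false
set_option linter.unusedFintypeInType false
set_option linter.unusedDecidableInType false

namespace Cfsg.Agent.Lib.ClassMax.Asch

open Module Matrix Cfsg.Geo Cfsg.Agent.Lib.ClassMax.PrimSol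

/-- Wedderburn--Artin for central algebras over a finite field. -/
theorem matrix_of_central {K A : Type*} [Field K] [Finite K] [Ring A] [Algebra K A] [Module.Finite K A] [Nontrivial A]
    (hJ : Ring.jacobson A = ⊥)
    (hcen : ∀ x : A, (∀ y : A, x * y = y * x) → ∃ c : K, x = algebraMap K A c) :
    ∃ a : ℕ, 0 < a ∧ Nonempty (Matrix (Fin a) (Fin a) K ≃ₐ[K] A) := by
  classical
  haveI : IsArtinianRing A := IsArtinianRing.of_finite K A
  haveI : IsSemisimpleRing A := IsArtinianRing.isSemisimpleRing_iff_jacobson.2 hJ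
  obtain ⟨k, D, d, _, _, _, hd, ⟨e⟩⟩ := IsSemisimpleRing.exists_algEquiv_pi_matrix_divisionRing_finite K A
  have hnt : ∀ i, Nontrivial (Matrix (Fin (d i)) (Fin (d i)) (D i)) := by
    intro i
    haveI := hd i
    haveI : Nonempty (Fin (d i)) := ⟨⟨0, Nat.pos_of_ne_zero (NeZero.ne _)⟩⟩
    infer_instance
  have hk0 : k ≠ 0 := by
    rintro rfl
    have : e 1 = e 0 := Subsingleton.elim _ _
    exact one_ne_zero (e.injective this)
  have hk1 : k = 1 := by
    by_contra hk
    have i0 : Fin k := ⟨0, Nat.pos_of_ne_zero hk0⟩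
    obtain ⟨i1, hi1⟩ : ∃ i1 : Fin k, i1 ≠ i0 := by
      have : 1 < k := by omega
      haveI : Nontrivial (Fin k) := Fin.nontrivial_iff_two_le.2 this
      exact exists_ne i0
    let x : A := e.symm (Pi.single i0 1)
    have hex : e x = Pi.single i0 1 := by simp [x]
    have hxc : ∀ y : A, x * y = y * x := by
      intro y
      apply e.injective
      rw [map_mul, map_mul, hex]
      funext i
      by_cases hi : i = i0
      · subst hi
        simp
      · simp [Pi.single_eq_of_ne hi]
    obtain ⟨c, hc⟩ := hcen x hxc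
    have hc0 : c ≠ 0 := by
      rintro rfl
      rw [map_zero] at hc
      have h1 := congrFun hex i0
      rw [hc] at h1
      simp only [map_zero, Pi.zero_apply, Pi.single_eq_same] at h1
      haveI := hnt i0
      exact zero_ne_one h1
    have h2 : x * algebraMap K A c⁻¹ = 1 := by
      rw [hc, ← map_mul, mul_inv_cancel₀ hc0, map_one]
    have h3 := congrFun (congrArg e h2) i1
    rw [map_mul, hex, map_one] at h3
    simp only [Pi.mul_apply, Pi.single_eq_of_ne hi1, zero_mul, Pi.one_apply] at h3
    haveI := hnt i1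
    exact zero_ne_one h3
  subst hk1
  let D₀ := D 0
  let d₀ := d 0
  haveI : NeZero d₀ := hd 0
  have hd₀ : 0 < d₀ := Nat.pos_of_ne_zero (NeZero.ne _)
  haveI : Finite (D 0) := Module.finite_of_finite K
  have hcomm : ∀ a b : D 0, a * b = b * a := fun a b => (littleWedderburn (D 0)).mul_comm a b
  let e₀ : A ≃ₐ[K] Matrix (Fin (d 0)) (Fin (d 0)) (D 0) :=
    e.trans (AlgEquiv.ofRingEquiv (f := RingEquiv.piUnique (fun i : Fin 1 => Matrix (Fin (d i)) (Fin (d i)) (D i))) (by
      intro r
      rfl))
  have hsurj : Function.Surjective (algebraMap K (D 0)) := by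
    intro z
    let s : Matrix (Fin (d 0)) (Fin (d 0)) (D 0) := Matrix.scalar _ z
    have hs : ∀ y, s * y = y * s := by
      intro y
      ext i j
      simp only [s, Matrix.scalar_apply, Matrix.diagonal_mul, Matrix.mul_diagonal]
      exact hcomm _ _
    obtain ⟨c, hc⟩ := hcen (e₀.symm s) (by
      intro y
      apply e₀.injective
      rw [map_mul, map_mul, e₀.apply_symm_apply]
      exact hs _)
    refine ⟨c, ?_⟩
    have h1 := congrArg e₀ hc
    rw [e₀.apply_symm_apply, AlgEquiv.commutes] at h1
    have h2 := congrFun (congrFun h1 ⟨0, hd₀⟩) ⟨0, hd₀⟩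
    simp only [s, Matrix.scalar_apply, Matrix.diagonal_apply_eq] at h2
    rw [h2]
    simp [Matrix.algebraMap_matrix_apply]
  let ψ : K ≃ₐ[K] D 0 := AlgEquiv.ofBijective (Algebra.ofId K (D 0)) ⟨(algebraMap K (D 0)).injective, hsurj⟩
  exact ⟨d 0, hd₀, ⟨(AlgEquiv.mapMatrix ψ).trans e₀.symm⟩⟩

section std

variable {F : Type*} [Field F]

/-- The sum of the diagonal matrix units. -/
theorem sum_E (a : ℕ) : (∑ u : Fin a, (Matrix.single u u (1 : F))) = 1 := by
  ext s t
  rw [Matrix.sum_apply]
  simp only [Matrix.single_apply, Matrix.one_apply]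
  by_cases h : s = t
  · subst h
    rw [Finset.sum_eq_single s]
    · simp
    · intro b _ hb
      simp [hb]
    · simp
  · rw [if_neg h]
    apply Finset.sum_eq_zero
    intro u _
    rw [if_neg]
    rintro ⟨rfl, rfl⟩
    exact h rfl

/-- Matrix units multiply. -/
theorem E_mul (a : ℕ) (u v s t : Fin a) : (Matrix.single u v (1 : F)) * (Matrix.single s t (1 : F)) =
    if v = s then Matrix.single u t (1 : F) else 0 := by
  by_cases h : v = s
  · subst h
    simp [Matrix.single_mul_single_same]
  · simp [h, Matrix.single_mul_single_of_ne]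

/-- Multiplication by a matrix unit. -/
theorem mul_E (a : ℕ) (X : Matrix (Fin a) (Fin a) F) (i j : Fin a) :
    X * Matrix.single i j (1 : F) = ∑ u, X u i • Matrix.single u j (1 : F) := by
  ext s t
  rw [Matrix.sum_apply]
  simp only [Matrix.smul_apply, Matrix.single_apply, smul_eq_mul]
  by_cases ht : j = t
  · subst ht
    rw [Matrix.mul_single_apply_same, Finset.sum_eq_single s]
    · simp
    · intro b _ hb
      simp [hb]
    · simp
  · rw [Matrix.mul_single_apply_of_ne (hbj := fun h => ht h.symm)]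
    symm
    apply Finset.sum_eq_zero
    intro u _
    simp [ht]

/-- Matrix units multiplied by a matrix. -/
theorem E_mul_left (a : ℕ) (X : Matrix (Fin a) (Fin a) F) (i j : Fin a) :
    Matrix.single i j (1 : F) * X = ∑ u, X j u • Matrix.single i u (1 : F) := by
  ext s t
  rw [Matrix.sum_apply]
  simp only [Matrix.smul_apply, Matrix.single_apply, smul_eq_mul]
  by_cases ht : i = s
  · subst ht
    rw [Matrix.single_mul_apply_same, Finset.sum_eq_single t]
    · simp
    · intro b _ hb
      simp [hb]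
    · simp
  · rw [Matrix.single_mul_apply_of_ne (h := fun h => ht h.symm)]
    symm
    apply Finset.sum_eq_zero
    intro u _
    simp [ht]

/-- A matrix is a combination of matrix units. -/
theorem mat_eq_sum (a : ℕ) (X : Matrix (Fin a) (Fin a) F) :
    X = ∑ u, ∑ v, X u v • Matrix.single u v (1 : F) := by
  conv_lhs => rw [Matrix.matrix_eq_sum_single X]
  simp only [← Matrix.smul_single, smul_eq_mul, mul_one, Matrix.smul_single]

/-- A nonzero vector may be sent anywhere by a matrix. -/
theorem exists_mat_mulVec {a : ℕ} {v : Fin a → F} (hv : v ≠ 0) (w : Fin a → F) :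
    ∃ X : Matrix (Fin a) (Fin a) F, X *ᵥ v = w := by
  classical
  obtain ⟨i, hi⟩ := Function.ne_iff.1 hv
  refine ⟨Matrix.of fun k l => if l = i then w k / v i else 0, ?_⟩
  funext k
  simp only [Matrix.mulVec, dotProduct, Matrix.of_apply]
  rw [Finset.sum_eq_single i]
  · simp only [if_true]
    have hi' : v i ≠ 0 := hi
    rw [div_mul_cancel₀ _ hi']
  · intro b _ hb
    simp [hb]
  · simp

/-- An injective square matrix is invertible. -/
theorem gl_of_injective {a : ℕ} {A : Matrix (Fin a) (Fin a) F} (hA : Function.Injective A.mulVec) :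
    ∃ B : GL (Fin a) F, (B : Matrix (Fin a) (Fin a) F) = A := by
  have h1 : IsUnit A := Matrix.mulVec_injective_iff_isUnit.1 hA
  obtain ⟨u, hu⟩ := h1
  exact ⟨u, hu⟩

/-- A unital algebra endomorphism of a full matrix algebra is inner. -/
theorem skolem_noether {a : ℕ} (ha : 0 < a) (φ : Matrix (Fin a) (Fin a) F →ₐ[F] Matrix (Fin a) (Fin a) F) :
    ∃ B : GL (Fin a) F, ∀ X, φ X * (B : Matrix (Fin a) (Fin a) F) = (B : Matrix (Fin a) (Fin a) F) * X := by
  classical
  let i0 : Fin a := ⟨0, ha⟩
  let E : Fin a → Fin a → Matrix (Fin a) (Fin a) F := fun u v => Matrix.single u v 1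
  have hE : ∀ u v s t, E u v * E s t = if v = s then E u t else 0 := by
    intro u v s t
    by_cases h : v = s
    · subst h
      simp [E, Matrix.single_mul_single_same]
    · simp [E, h, Matrix.single_mul_single_of_ne]
  haveI : Nonempty (Fin a) := ⟨i0⟩
  have h0 : φ (E i0 i0) ≠ 0 := by
    intro h
    have h1 : φ 1 = 0 := by
      have h2 : (1 : Matrix (Fin a) (Fin a) F) = ∑ u, E u i0 * E i0 i0 * E i0 u := by
        have h3 : ∀ u, E u i0 * E i0 i0 * E i0 u = E u u := by
          intro u
          rw [hE, if_pos rfl, hE, if_pos rfl]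
        simp only [h3]
        exact (sum_E a).symm
      rw [h2, map_sum]
      apply Finset.sum_eq_zero
      intro u _
      rw [map_mul, map_mul, h]
      simp
    rw [map_one] at h1
    exact one_ne_zero h1
  obtain ⟨w, hw⟩ : ∃ w, φ (E i0 i0) *ᵥ w ≠ 0 := by
    by_contra hcon
    push Not at hcon
    apply h0
    apply Matrix.toLin'.injective
    apply LinearMap.ext
    intro v
    simp [hcon v]
  set v₀ := φ (E i0 i0) *ᵥ w with hv₀
  have hv₀fix : φ (E i0 i0) *ᵥ v₀ = v₀ := by
    rw [hv₀, Matrix.mulVec_mulVec, ← map_mul, hE, if_pos rfl]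
  let A : Matrix (Fin a) (Fin a) F := Matrix.of fun k i => (φ (E i i0) *ᵥ v₀) k
  have hAcol : ∀ i, A *ᵥ (Pi.single i 1) = φ (E i i0) *ᵥ v₀ := by
    intro i
    funext k
    simp [A, Matrix.mulVec_single]
  have hint : ∀ X, φ X * A = A * X := by
    intro X
    ext k i
    have h1 : (φ X * A) k i = (φ X *ᵥ (A *ᵥ Pi.single i 1)) k := by
      rw [Matrix.mulVec_mulVec, Matrix.mulVec_single]
      simp
    have h2 : (A * X) k i = (A *ᵥ (X *ᵥ Pi.single i 1)) k := by
      rw [Matrix.mulVec_mulVec, Matrix.mulVec_single]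
      simp
    rw [h1, h2, hAcol, Matrix.mulVec_mulVec, ← map_mul]
    have h3 : X * E i i0 = ∑ u, X u i • E u i0 := mul_E a X i i0
    have h4 : X *ᵥ Pi.single i 1 = ∑ u, X u i • (Pi.single u 1 : Fin a → F) := by
      rw [Matrix.mulVec_single]
      funext s
      simp [Finset.sum_apply, Pi.single_apply]
    rw [h3, h4, map_sum, Matrix.mulVec_sum, Matrix.sum_mulVec]
    simp only [map_smul, Matrix.mulVec_smul, Matrix.smul_mulVec, hAcol]
  have hinj : Function.Injective A.mulVec := by
    show Function.Injective (Matrix.mulVecLin A)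
    rw [injective_iff_map_eq_zero (Matrix.mulVecLin A)]
    intro u hu
    by_contra hu0
    apply (show v₀ ≠ 0 from hw)
    obtain ⟨X, hX⟩ := exists_mat_mulVec hu0 (Pi.single i0 1)
    have hu' : A *ᵥ u = 0 := hu
    calc v₀ = φ (E i0 i0) *ᵥ v₀ := hv₀fix.symm
      _ = A *ᵥ (X *ᵥ u) := by rw [hX, hAcol]
      _ = φ X *ᵥ (A *ᵥ u) := by rw [Matrix.mulVec_mulVec, Matrix.mulVec_mulVec, hint]
      _ = 0 := by rw [hu', Matrix.mulVec_zero]
  obtain ⟨B, hB⟩ := gl_of_injective hinj
  exact ⟨B, fun X => by rw [hB, hint]⟩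

/-- A central matrix subalgebra with scalar commutant is everything. -/
theorem eq_top_of_matrix [Finite F] {n b : ℕ} (hn : 0 < n) (hb : 0 < b) (A : Subalgebra F (Matrix (Fin n) (Fin n) F))
    (θ : Matrix (Fin b) (Fin b) F ≃ₐ[F] A)
    (hcomm : ∀ Y : Matrix (Fin n) (Fin n) F, (∀ x ∈ A, Y * x = x * Y) → ∃ c : F, Y = c • 1) : A = ⊤ := by
  classical
  let i0 : Fin b := ⟨0, hb⟩
  let E : Fin b → Fin b → Matrix (Fin b) (Fin b) F := fun u v => Matrix.single u v 1
  let e : Fin b → Fin b → Matrix (Fin n) (Fin n) F := fun u v => (θ (E u v) : Matrix (Fin n) (Fin n) F)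
  have he : ∀ u v s t, e u v * e s t = if v = s then e u t else 0 := by
    intro u v s t
    show ((θ (E u v) : A) : Matrix (Fin n) (Fin n) F) * (θ (E s t) : A) = _
    rw [← Subalgebra.coe_mul, ← map_mul]
    simp only [E]
    rw [E_mul]
    by_cases h : v = s
    · simp [h, e, E]
    · simp [h]
  have hsum : ∑ u, e u u = 1 := by
    have h1 : ∑ u, E u u = 1 := sum_E b
    have h2 := congrArg (fun x => ((θ x : A) : Matrix (Fin n) (Fin n) F)) h1
    simpa [map_sum, AddSubmonoidClass.coe_finset_sum, e] using h2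
  have he0 : e i0 i0 ≠ 0 := by
    intro h
    haveI : Nonempty (Fin n) := ⟨⟨0, hn⟩⟩
    apply one_ne_zero (α := Matrix (Fin n) (Fin n) F)
    rw [← hsum]
    apply Finset.sum_eq_zero
    intro u _
    have h1 : e u u = e u i0 * e i0 i0 * e i0 u := by
      rw [he, if_pos rfl, he, if_pos rfl]
    rw [h1, h]
    simp
  -- the sandwich is scalar
  have hsand : ∀ Y : Matrix (Fin n) (Fin n) F, ∃ l : F, e i0 i0 * Y * e i0 i0 = l • e i0 i0 := by
    intro Y
    let C : Matrix (Fin n) (Fin n) F := ∑ u, e u i0 * Y * e i0 u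
    have hCe : ∀ s t, C * e s t = e s t * C := by
      intro s t
      simp only [C, Finset.sum_mul, Finset.mul_sum]
      have h1 : ∑ u, (e u i0 * Y * e i0 u * e s t) = e s i0 * Y * e i0 t := by
        rw [Finset.sum_eq_single s]
        · rw [mul_assoc, he, if_pos rfl]
        · intro u _ hu
          rw [mul_assoc, he, if_neg hu]
          simp
        · simp
      have h2 : ∑ u, (e s t * (e u i0 * Y * e i0 u)) = e s i0 * Y * e i0 t := by
        rw [Finset.sum_eq_single t]
        · calc e s t * (e t i0 * Y * e i0 t) = (e s t * e t i0) * Y * e i0 t := by simp only [mul_assoc]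
            _ = _ := by rw [he, if_pos rfl]
        · intro u _ hu
          calc e s t * (e u i0 * Y * e i0 u) = (e s t * e u i0) * (Y * e i0 u) := by simp only [mul_assoc]
            _ = 0 := by
              rw [he, if_neg (Ne.symm hu)]
              simp
        · simp
      rw [h1, h2]
    have hC : ∀ x ∈ A, C * x = x * C := by
      intro x hx
      obtain ⟨X, hX⟩ := θ.surjective ⟨x, hx⟩
      have hx' : x = ((θ X : A) : Matrix (Fin n) (Fin n) F) := by rw [hX]
      rw [hx']
      have h2 : ((θ X : A) : Matrix (Fin n) (Fin n) F) = ∑ u, ∑ v, X u v • e u v := by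
        have h2a : θ X = ∑ u, ∑ v, X u v • θ (E u v) := by
          conv_lhs => rw [mat_eq_sum b X]
          simp only [map_sum, map_smul, E]
        rw [h2a]
        simp only [AddSubmonoidClass.coe_finset_sum, Subalgebra.coe_smul, e]
      rw [h2, Finset.mul_sum, Finset.sum_mul]
      apply Finset.sum_congr rfl
      intro u _
      rw [Finset.mul_sum, Finset.sum_mul]
      apply Finset.sum_congr rfl
      intro v _
      rw [Matrix.mul_smul, Matrix.smul_mul, hCe]
    obtain ⟨l, hl⟩ := hcomm C hC
    refine ⟨l, ?_⟩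
    have h3 : e i0 i0 * C * e i0 i0 = e i0 i0 * Y * e i0 i0 := by
      simp only [C, Finset.mul_sum, Finset.sum_mul]
      rw [Finset.sum_eq_single i0]
      · calc e i0 i0 * (e i0 i0 * Y * e i0 i0) * e i0 i0 = (e i0 i0 * e i0 i0) * Y * (e i0 i0 * e i0 i0) := by simp only [mul_assoc]
          _ = _ := by rw [he, if_pos rfl]
      · intro u _ hu
        have h4 : e i0 i0 * e u i0 = 0 := by
          rw [he, if_neg (Ne.symm hu)]
        calc e i0 i0 * (e u i0 * Y * e i0 u) * e i0 i0 = (e i0 i0 * e u i0) * Y * (e i0 u * e i0 i0) := by simp only [mul_assoc]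
          _ = 0 := by rw [h4]; simp
      · simp
    rw [← h3, hl]
    simp only [Matrix.mul_smul, Matrix.smul_mul, mul_one]
    rw [he, if_pos rfl]
  obtain ⟨w, hw⟩ : ∃ w, e i0 i0 *ᵥ w ≠ 0 := by
    by_contra hcon
    push Not at hcon
    apply he0
    apply Matrix.toLin'.injective
    apply LinearMap.ext
    intro v
    simp [hcon v]
  set v₀ := e i0 i0 *ᵥ w with hv₀
  have hfix : e i0 i0 *ᵥ v₀ = v₀ := by
    rw [hv₀, Matrix.mulVec_mulVec, he, if_pos rfl]
  have hline : ∀ w', ∃ l : F, e i0 i0 *ᵥ w' = l • v₀ := by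
    intro w'
    obtain ⟨Y, hY⟩ := exists_mat_mulVec hw w'
    obtain ⟨l, hl⟩ := hsand Y
    refine ⟨l, ?_⟩
    have h1 : (e i0 i0 * Y * e i0 i0) *ᵥ v₀ = l • v₀ := by
      rw [hl, Matrix.smul_mulVec, hfix]
    rw [← h1, ← Matrix.mulVec_mulVec, hfix, ← Matrix.mulVec_mulVec, hY]
  -- spanning set
  have hspan : Submodule.span F (Set.range fun u => e u i0 *ᵥ v₀) = ⊤ := by
    rw [eq_top_iff]
    rintro w' -
    have h1 : w' = ∑ u, e u u *ᵥ w' := by
      rw [← Matrix.sum_mulVec, hsum, Matrix.one_mulVec]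
    rw [h1]
    apply Submodule.sum_mem
    intro u _
    have h2 : e u u = e u i0 * e i0 i0 * e i0 u := by
      rw [he, if_pos rfl, he, if_pos rfl]
    obtain ⟨l, hl⟩ := hline (e i0 u *ᵥ w')
    have h3 : e u u *ᵥ w' = l • (e u i0 *ᵥ v₀) := by
      rw [h2, mul_assoc, ← Matrix.mulVec_mulVec, ← Matrix.mulVec_mulVec, hl, Matrix.mulVec_smul]
    rw [h3]
    exact Submodule.smul_mem _ _ (Submodule.subset_span ⟨u, rfl⟩)
  have hnb : n ≤ b := by
    have h1 : finrank F (Submodule.span F (Set.range fun u => e u i0 *ᵥ v₀)) ≤ Fintype.card (Fin b) :=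
      finrank_range_le_card (R := F) (fun u => e u i0 *ᵥ v₀)
    rw [hspan, finrank_top, finrank_fin_fun, Fintype.card_fin] at h1
    exact h1
  have hA : finrank F A = b * b := by
    rw [← θ.toLinearEquiv.finrank_eq, finrank_matrix]
    simp
  have hn2 : finrank F (Matrix (Fin n) (Fin n) F) = n * n := by
    rw [finrank_matrix]
    simp
  have h5 : Subalgebra.toSubmodule A = ⊤ := by
    apply Submodule.eq_top_of_finrank_eq
    apply le_antisymm (Submodule.finrank_le _)
    show finrank F (Matrix (Fin n) (Fin n) F) ≤ finrank F A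
    rw [hn2, hA]
    exact Nat.mul_le_mul hnb hnb
  exact Algebra.toSubmodule_eq_top.1 h5

end std

end Cfsg.Agent.Lib.ClassMax.Asch
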