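import Mathlib
import Cfsg.Agent.Lib.ClassMax.Asch2
import Cfsg.Agent.Lib.ClassMax.Transv

/-!
The classes as a predicate; commutative algebras normalised by a group outside the geometric classes are scalar.
-/

set_option autoImplicit false
set_option linter.unusedSimpArgs false
set_option linter.unusedVariables false
set_option linter.unusedSectionVars false
set_option linter.unusedFintypeInType false
set_option linter.unusedDecidableInType false

namespace Cfsg.Agent.Lib.ClassMax.Asch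

open Module Matrix Cfsg.Geo Cfsg.Agent.Lib.ClassMax.PrimSol

/-- The geometric classes, as a predicate on a subgroup. -/
inductive Bad {F : Type*} [Field F] [Fintype F] {n : ℕ} (H : Subgroup (GL (Fin n) F)) : Prop
  | sub (W : Submodule F (Fin n → F)) (h0 : W ≠ ⊥) (h1 : W ≠ ⊤) (h : H ≤ subspaceStabilizer W)
  | dec {t m : ℕ} (D : Fin t → Submodule F (Fin n → F)) (hD : IsMDecomposition m D) (h : H ≤ decompositionStabilizer D)
  | fld {r : ℕ} (K : Subalgebra F (Matrix (Fin n) (Fin n) F)) (hr : r.Prime) (hK : IsFieldSubalgebra r K)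
      (h : H ≤ subalgebraNormalizer K)
  | tp {n₁ n₂ : ℕ} (e : Fin n ≃ Fin n₁ × Fin n₂) (P : GL (Fin n) F) (h1 : 2 ≤ n₁) (h2 : n₁ < n₂)
      (h : H ≤ tensorProductSubgroup n₁ n₂ e P)
  | sbf (F₀ : Subfield F) {r : ℕ} (P : GL (Fin n) F) (hr : r.Prime) (hc : Fintype.card F = Nat.card F₀ ^ r)
      (h : H ≤ subfieldSubgroup F₀ P)
  | six {r m : ℕ} (R : Subgroup (GL (Fin n) F)) (hR : IsLinearSymplecticTypeData r R) (hn : n = r ^ m)
      (h : H ≤ subgroupNormalizer R)
  | tw {m t : ℕ} (e : Fin n ≃ (Fin t → Fin m)) (P : GL (Fin n) F) (h1 : 3 ≤ m) (h2 : 2 ≤ t)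
      (h : H ≤ tensorWreathSubgroup m t e P)
  | symp (f : (Fin n → F) → (Fin n → F) → F) (hf : IsSymplecticForm f) (he : Even n) (h4 : 4 ≤ n) (h : H ≤ similarityGroup f)
  | unit (σ : F ≃+* F) (f : (Fin n → F) → (Fin n → F) → F) (hf : IsUnitaryForm σ f) (h3 : 3 ≤ n) (h : H ≤ similarityGroup f)
  | quad (Q : (Fin n → F) → F) (hQ : IsNondegenerateQuadraticForm Q) (ho : Odd (Fintype.card F)) (h3 : 3 ≤ n)
      (h : H ≤ quadSimilarityGroup Q)

/-- Subfields of finite extensions. -/
theorem exists_subfield_deg {F E : Type*} [Field F] [Fintype F] [Field E] [Finite E] [Algebra F E] {r : ℕ} (hr : 0 < r)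
    (hd : r ∣ finrank F E) :
    ∃ K' : Subalgebra F E, finrank F K' = r ∧ ∀ x, x ∈ K' ↔ x ^ (Fintype.card F ^ r) = x := by
  classical
  haveI : Fintype E := Fintype.ofFinite E
  set q := Fintype.card F with hq
  have hq2 : 1 < q := Fintype.one_lt_card
  let φ : E →ₐ[F] E := FiniteField.frobeniusAlgHom F E
  have hφ : ∀ x, (φ ^ r) x = x ^ (q ^ r) := by
    intro x
    rw [AlgHom.coe_pow]
    have h1 : (⇑φ) = fun y : E => y ^ q := rfl
    rw [h1, pow_iterate]
  let K' : Subalgebra F E := AlgHom.equalizer (φ ^ r) (AlgHom.id F E)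
  have hmem : ∀ x, x ∈ K' ↔ x ^ (q ^ r) = x := by
    intro x
    show (φ ^ r) x = x ↔ _
    rw [hφ]
  refine ⟨K', ?_, hmem⟩
  set d := finrank F E with hdd
  set k := finrank F K' with hk
  haveI : Fintype K' := Fintype.ofFinite K'
  have hcardE : Fintype.card E = q ^ d := Module.card_eq_pow_finrank
  have hcardK : Fintype.card K' = q ^ k := Module.card_eq_pow_finrank
  have hQ1 : 1 < q ^ r := Nat.one_lt_pow hr.ne' hq2
  set Q := q ^ r with hQ
  have hpos : ∀ m : ℕ, 0 < q ^ m := fun m => Nat.pow_pos (by omega)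
  -- at most Q elements
  have h1 : k ≤ r := by
    have hne : (Polynomial.X ^ Q - Polynomial.X : Polynomial E) ≠ 0 := FiniteField.X_pow_card_sub_X_ne_zero E hQ1
    have hdeg := Polynomial.card_roots' (Polynomial.X ^ Q - Polynomial.X : Polynomial E)
    rw [FiniteField.X_pow_card_sub_X_natDegree_eq E hQ1] at hdeg
    have hsub : (Finset.univ.image (fun y : K' => (y : E))) ⊆ (Polynomial.X ^ Q - Polynomial.X : Polynomial E).roots.toFinset := by
      intro y hy
      obtain ⟨z, -, rfl⟩ := Finset.mem_image.1 hy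
      rw [Multiset.mem_toFinset, Polynomial.mem_roots hne]
      simp only [Polynomial.IsRoot.def, Polynomial.eval_sub, Polynomial.eval_pow, Polynomial.eval_X]
      rw [(hmem _).1 z.2, sub_self]
    have h2 := Finset.card_le_card hsub
    rw [Finset.card_image_of_injective _ Subtype.val_injective, Finset.card_univ, hcardK] at h2
    have h3 := Multiset.toFinset_card_le (Polynomial.X ^ Q - Polynomial.X : Polynomial E).roots
    exact (Nat.pow_le_pow_iff_right hq2).1 (h2.trans (h3.trans hdeg))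
  have hd0 : 0 < d := by
    haveI : Module.Finite F E := Module.Finite.of_finite
    exact Module.finrank_pos
  have h2 : r ≤ k := by
    have hm : Q - 1 ∣ q ^ d - 1 := by
      obtain ⟨c, hc⟩ := hd
      rw [hc, pow_mul]
      have := Nat.sub_dvd_pow_sub_pow Q 1 c
      simpa using this
    obtain ⟨g, hg⟩ := IsCyclic.exists_ofOrder_eq_natCard (α := Eˣ)
    have hordg : orderOf g = q ^ d - 1 := by
      rw [hg, Nat.card_units, Nat.card_eq_fintype_card, hcardE]
    have hm0 : (q ^ d - 1) / (Q - 1) ≠ 0 := by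
      have : 0 < q ^ d - 1 := by
        have := Nat.one_lt_pow hd0.ne' hq2
        omega
      exact (Nat.div_pos (Nat.le_of_dvd this hm) (by omega)).ne'
    let h : Eˣ := g ^ ((q ^ d - 1) / (Q - 1))
    have hordh : orderOf h = Q - 1 := by
      rw [orderOf_pow_of_dvd hm0 (by rw [hordg]; exact Nat.div_dvd_of_dvd hm), hordg]
      exact Nat.div_div_self hm (by
        have := Nat.one_lt_pow hd0.ne' hq2
        omega)
    have hinK : ∀ i, ((h ^ i : Eˣ) : E) ∈ K' := by
      intro i
      rw [hmem]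
      have h3 : (h ^ i) ^ (Q - 1) = 1 := by
        rw [← pow_mul, mul_comm, pow_mul, ← hordh, pow_orderOf_eq_one, one_pow]
      have h4 : Q = (Q - 1) + 1 := by omega
      calc ((h ^ i : Eˣ) : E) ^ Q = (((h ^ i) ^ (Q - 1) : Eˣ) : E) * ((h ^ i : Eˣ) : E) := by
            conv_lhs => rw [h4, pow_succ]
            push_cast
            rfl
        _ = _ := by rw [h3]; simp
    have hsub : insert (0 : E) ((Finset.range (Q - 1)).image (fun i => ((h ^ i : Eˣ) : E))) ⊆ Finset.univ.image (fun y : K' => (y : E)) := by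
      intro y hy
      rw [Finset.mem_insert] at hy
      rcases hy with rfl | hy
      · exact Finset.mem_image.2 ⟨0, Finset.mem_univ _, rfl⟩
      · obtain ⟨i, -, rfl⟩ := Finset.mem_image.1 hy
        exact Finset.mem_image.2 ⟨⟨_, hinK i⟩, Finset.mem_univ _, rfl⟩
    have h3 := Finset.card_le_card hsub
    rw [Finset.card_image_of_injective _ Subtype.val_injective, Finset.card_univ, hcardK, Finset.card_insert_of_notMem, Finset.card_image_of_injOn, Finset.card_range] at h3
    · have : q ^ r ≤ q ^ k := by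
        rw [← hQ]
        omega
      exact (Nat.pow_le_pow_iff_right hq2).1 this
    · intro a ha b hb hab
      have ha' : a < orderOf h := by
        rw [hordh]
        exact Finset.mem_coe.1 ha |> Finset.mem_range.1
      have hb' : b < orderOf h := by
        rw [hordh]
        exact Finset.mem_coe.1 hb |> Finset.mem_range.1
      exact pow_injOn_Iio_orderOf (Set.mem_Iio.2 ha') (Set.mem_Iio.2 hb') (Units.ext hab)
    · intro h0
      obtain ⟨i, -, hi⟩ := Finset.mem_image.1 h0
      exact (h ^ i).ne_zero hi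
  exact le_antisymm h1 h2

section mat

variable {F : Type*} [Field F] {n : ℕ} {K : Type*} [Field K] [Algebra K F]

local notation "MM" => Matrix (Fin n) (Fin n) F

/-- Conjugation closure of an adjoin. -/
theorem conjClosed_adjoin {G : Subgroup (GL (Fin n) F)} {S : Set MM}
    (hS : ∀ g ∈ G, ∀ s ∈ S, (g : MM) * s * ((g⁻¹ : GL (Fin n) F) : MM) ∈ S) : ConjClosed G (Algebra.adjoin K S) := by
  intro g hg x hx
  induction hx using Algebra.adjoin_induction with
  | mem x hx =>
    exact Algebra.subset_adjoin (hS g hg x hx)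
  | algebraMap r =>
    have : (g : MM) * (algebraMap K MM r) * ((g⁻¹ : GL (Fin n) F) : MM) = algebraMap K MM r := by
      rw [Algebra.algebraMap_eq_smul_one, mul_smul_comm, smul_mul_assoc, mul_one, Units.mul_inv]
    rw [this]
    exact Subalgebra.algebraMap_mem _ r
  | add x y _ _ hx hy =>
    rw [mul_add, add_mul]
    exact Subalgebra.add_mem _ hx hy
  | mul x y _ _ hx hy =>
    rw [conj_mul_conj]
    exact Subalgebra.mul_mem _ hx hy

/-- Conjugation closure of a centraliser. -/
theorem conjClosed_centralizer {G : Subgroup (GL (Fin n) F)} {S : Set MM}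
    (hS : ∀ g ∈ G, ∀ s ∈ S, (g : MM) * s * ((g⁻¹ : GL (Fin n) F) : MM) ∈ S) : ConjClosed G (Subalgebra.centralizer F S) := by
  intro g hg x hx
  rw [Subalgebra.mem_centralizer_iff] at hx ⊢
  intro s hs
  have h1 := hx _ (hS g⁻¹ (G.inv_mem hg) s hs)
  rw [inv_inv] at h1
  have h2 : ((g⁻¹ : GL (Fin n) F) : MM) * (g : MM) = 1 := Units.inv_mul _
  have h3 : (g : MM) * ((g⁻¹ : GL (Fin n) F) : MM) = 1 := Units.mul_inv _
  calc s * ((g : MM) * x * ((g⁻¹ : GL (Fin n) F) : MM))
      = (g : MM) * ((((g⁻¹ : GL (Fin n) F) : MM) * s * (g : MM)) * x) * ((g⁻¹ : GL (Fin n) F) : MM) := by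
        simp only [mul_assoc]
        rw [Units.mul_inv_cancel_left]
    _ = (g : MM) * (x * (((g⁻¹ : GL (Fin n) F) : MM) * s * (g : MM))) * ((g⁻¹ : GL (Fin n) F) : MM) := by rw [h1]
    _ = _ := by
        simp only [mul_assoc]
        rw [h3, mul_one]

end mat

section main

variable {F : Type*} [Field F] [Fintype F] {n : ℕ}

local notation "MM" => Matrix (Fin n) (Fin n) F

theorem irr_of_not_bad {H : Subgroup (GL (Fin n) F)} (hH : ¬ Bad H) : ActsIrreducibly (matrixSet H) := by
  intro W hW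
  by_contra hcon
  push Not at hcon
  apply hH
  refine Bad.sub W hcon.1 hcon.2 ?_
  intro g hg
  apply Cfsg.Agent.Lib.ClassMax.mem_subspaceStabilizer_of_forall
  intro w hw
  exact hW _ ⟨g, hg, rfl⟩ ⟨w, hw, rfl⟩

theorem prim_of_not_bad {H : Subgroup (GL (Fin n) F)} (hH : ¬ Bad H) (m t : ℕ) (D : Fin t → Submodule F (Fin n → F)) (h2 : 2 ≤ t)
    (hD : IsMDecomposition m D) : ¬ H ≤ decompositionStabilizer D :=
  fun hle => hH (Bad.dec D hD hle)

/-- A commutative algebra normalised by a group outside the classes consists of scalars. -/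
theorem comm_scalar (hn : 0 < n) {H : Subgroup (GL (Fin n) F)} (hH : ¬ Bad H) {B : Subalgebra F MM}
    (hc : ∀ x ∈ B, ∀ y ∈ B, x * y = y * x) (hconj : ConjClosed H B) : ∀ x ∈ B, ∃ c : F, x = c • 1 := by
  classical
  by_contra hne
  push Not at hne
  obtain ⟨x₀, hx₀, hx₀c⟩ := hne
  haveI : Nonempty (Fin n) := ⟨⟨0, hn⟩⟩
  have hirr := irr_of_not_bad hH
  have hprim := prim_of_not_bad hH
  have hinv : ∀ x ∈ B, x ≠ 0 → ∃ y ∈ B, x * y = 1 := by
    intro x hx hx0
    obtain ⟨k, hk, hkk⟩ := idem_pow_aux (⟨x, hx⟩ : B)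
    have he : x ^ k ∈ B := B.pow_mem hx k
    have hee : x ^ k * x ^ k = x ^ k := by
      have := congrArg Subtype.val hkk
      simpa using this
    rcases idem_trivial hirr (fun m t D h2 hD => hprim m t D h2 hD) hc hconj he hee with h0 | h1
    · exact absurd (nil_zero hn hirr hc hconj hx h0) hx0
    · refine ⟨x ^ (k - 1), B.pow_mem hx _, ?_⟩
      rw [← pow_succ', show k - 1 + 1 = k by omega, h1]
  have hB : IsField B :=
    { exists_pair_ne := ⟨0, 1, fun h => zero_ne_one (α := MM) (congrArg Subtype.val h)⟩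
      mul_comm := fun a b => Subtype.ext (hc _ a.2 _ b.2)
      mul_inv_cancel := by
        intro a ha
        obtain ⟨y, hy, hay⟩ := hinv a.1 a.2 (fun h => ha (Subtype.ext h))
        exact ⟨⟨y, hy⟩, Subtype.ext hay⟩ }
  letI fB : Field B := hB.toField
  haveI : Finite B := inferInstance
  have hd2 : 2 ≤ finrank F B := by
    by_contra hlt
    have hle : finrank F B ≤ 1 := by omega
    have h1 : finrank F B = 1 := by
      apply le_antisymm hle
      exact Module.finrank_pos
    have h2 := (finrank_eq_one_iff_of_nonzero' (1 : B) one_ne_zero).1 h1 ⟨x₀, hx₀⟩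
    obtain ⟨c, hc'⟩ := h2
    apply hx₀c c
    have := congrArg Subtype.val hc'
    exact this.symm
  set r := Nat.minFac (finrank F B) with hr
  have hrp : r.Prime := Nat.minFac_prime (by omega)
  obtain ⟨K', hK', hmem⟩ := exists_subfield_deg (F := F) (E := B) hrp.pos (Nat.minFac_dvd _)
  let K : Subalgebra F MM := K'.map B.val
  have hKB : K ≤ B := by
    rintro _ ⟨y, -, rfl⟩
    exact y.2
  have hKmem : ∀ x, x ∈ K ↔ x ∈ B ∧ x ^ (Fintype.card F ^ r) = x := by
    intro x
    constructor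
    · rintro ⟨y, hy, rfl⟩
      refine ⟨y.2, ?_⟩
      have h1 := (hmem y).1 hy
      have h2 := congrArg Subtype.val h1
      exact h2
    · rintro ⟨hx, hxx⟩
      refine ⟨⟨x, hx⟩, (hmem _).2 (Subtype.ext hxx), rfl⟩
  have hfld : IsFieldSubalgebra r K := by
    refine ⟨fun x hx y hy => hc x (hKB hx) y (hKB hy), ?_, ?_⟩
    · rintro _ ⟨y, hy, rfl⟩ hy0
      have hy0' : y ≠ 0 := by
        rintro rfl
        exact hy0 rfl
      refine ⟨((y⁻¹ : B) : MM), ⟨y⁻¹, (hmem _).2 ?_, rfl⟩, ?_⟩
      · rw [inv_pow, (hmem y).1 hy]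
      · have h1 : y * y⁻¹ = 1 := mul_inv_cancel₀ hy0'
        exact congrArg Subtype.val h1
    · rw [← hK']
      exact (Subalgebra.equivMapOfInjective K' B.val Subtype.val_injective).toLinearEquiv.finrank_eq.symm
  refine hH (Bad.fld K hrp hfld ?_)
  have hfw : ∀ g ∈ H, ∀ k ∈ K, (g : MM) * k * ((g⁻¹ : GL (Fin n) F) : MM) ∈ K := by
    intro g hg k hk
    obtain ⟨h1, h2⟩ := (hKmem k).1 hk
    refine (hKmem _).2 ⟨hconj g hg k h1, ?_⟩
    rw [Units.conj_pow, h2]
  intro g hg k
  refine ⟨hfw g hg k, fun hk => ?_⟩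
  have h1 := hfw g⁻¹ (H.inv_mem hg) _ hk
  have h2 : ((g⁻¹ : GL (Fin n) F) : MM) * ((g : MM) * k * ((g⁻¹ : GL (Fin n) F) : MM)) * (((g⁻¹)⁻¹ : GL (Fin n) F) : MM) = k := by
    rw [inv_inv]
    simp only [mul_assoc, Units.inv_mul, mul_one]
    rw [← mul_assoc, Units.inv_mul, one_mul]
  rwa [h2] at h1

/-- Abelian subgroups normalised by a group outside the classes consist of scalars. -/
theorem abelian_scalar (hn : 0 < n) {H : Subgroup (GL (Fin n) F)} (hH : ¬ Bad H) {N : Subgroup (GL (Fin n) F)}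
    (hN : ∀ h ∈ H, ∀ x ∈ N, h * x * h⁻¹ ∈ N) (hab : ∀ x ∈ N, ∀ y ∈ N, x * y = y * x) : N ≤ scalars (Fin n) F := by
  intro x hx
  let S : Set MM := matrixSet N
  have hSS : S ≤ Set.centralizer S := by
    rintro _ ⟨u, hu, rfl⟩ _ ⟨v, hv, rfl⟩
    show (v : MM) * u = u * v
    rw [← Units.val_mul, ← Units.val_mul, hab v hv u hu]
  have hc : ∀ x ∈ Algebra.adjoin F S, ∀ y ∈ Algebra.adjoin F S, x * y = y * x := by
    intro x hx y hy
    have h1 : Algebra.adjoin F S ≤ Subalgebra.centralizer F S := by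
      apply Algebra.adjoin_le
      intro s hs
      rw [SetLike.mem_coe, Subalgebra.mem_centralizer_iff]
      exact fun t ht => hSS hs t ht
    have h2 : Algebra.adjoin F S ≤ Subalgebra.centralizer F (Subalgebra.centralizer F S : Set MM) := Algebra.adjoin_le_centralizer_centralizer F S
    exact (Subalgebra.mem_centralizer_iff F |>.1 (h2 hy) x (h1 hx))
  have hconj : ConjClosed H (Algebra.adjoin F S) := by
    apply conjClosed_adjoin
    rintro g hg _ ⟨y, hy, rfl⟩
    exact ⟨g * y * g⁻¹, hN g hg y hy, by simp⟩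
  obtain ⟨c, hcx⟩ := comm_scalar hn hH hc hconj (x : MM) (Algebra.subset_adjoin ⟨x, hx, rfl⟩)
  rw [mem_scalars_iff]
  have hc0 : c ≠ 0 := by
    rintro rfl
    haveI : Nonempty (Fin n) := ⟨⟨0, hn⟩⟩
    have h1 : ((x⁻¹ : GL (Fin n) F) : MM) * (x : MM) = 1 := Units.inv_mul _
    rw [hcx, zero_smul, mul_zero] at h1
    exact zero_ne_one h1
  exact ⟨Units.mk0 c hc0, hcx⟩

end main

end Cfsg.Agent.Lib.ClassMax.Asch
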