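import Mathlib
import Cfsg.Agent.Lib.ClassMax.Asch3

/-!
Commuting families of matrix subalgebras give tensor coordinates.
-/

set_option autoImplicit false
set_option linter.unusedSimpArgs false
set_option linter.unusedVariables false
set_option linter.unusedSectionVars false
set_option linter.unusedFintypeInType false
set_option linter.unusedDecidableInType false

namespace Cfsg.Agent.Lib.ClassMax.Asch

open Module Matrix Cfsg.Geo

section tensorMat

variable {F : Type*} [Field F] {κ : Type} [Fintype κ] [DecidableEq κ] {d : κ → ℕ}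

/-- The tensor product of a family of matrices, in coordinates. -/
def tensorMat (B : ∀ i, Matrix (Fin (d i)) (Fin (d i)) F) : Matrix (∀ i, Fin (d i)) (∀ i, Fin (d i)) F :=
  Matrix.of fun x y => ∏ i, B i (x i) (y i)

theorem tensorMat_mul (B C : ∀ i, Matrix (Fin (d i)) (Fin (d i)) F) :
    tensorMat B * tensorMat C = tensorMat (fun i => B i * C i) := by
  ext x y
  simp only [Matrix.mul_apply, tensorMat, Matrix.of_apply]
  rw [Finset.prod_univ_sum, Fintype.piFinset_univ]
  apply Finset.sum_congr rfl
  intro z _
  rw [Finset.prod_mul_distrib]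

theorem tensorMat_one : tensorMat (fun i => (1 : Matrix (Fin (d i)) (Fin (d i)) F)) = 1 := by
  ext x y
  simp only [tensorMat, Matrix.of_apply, Matrix.one_apply]
  rw [Finset.prod_ite_zero]
  simp only [Finset.prod_const_one, Finset.mem_univ, forall_const]
  by_cases h : x = y
  · subst h
    simp
  · rw [if_neg h, if_neg]
    intro h'
    exact h (funext h')

theorem tensorMat_transpose (B : ∀ i, Matrix (Fin (d i)) (Fin (d i)) F) :
    (tensorMat B)ᵀ = tensorMat (fun i => (B i)ᵀ) := by
  ext x y
  simp [tensorMat]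

/-- The tensor product of invertible matrices. -/
def tensorGL (B : ∀ i, GL (Fin (d i)) F) : GL (∀ i, Fin (d i)) F where
  val := tensorMat (fun i => (B i : Matrix (Fin (d i)) (Fin (d i)) F))
  inv := tensorMat (fun i => ((B i)⁻¹ : GL (Fin (d i)) F).1)
  val_inv := by
    rw [tensorMat_mul]
    simp only [Units.mul_inv]
    exact tensorMat_one
  inv_val := by
    rw [tensorMat_mul]
    simp only [Units.inv_mul]
    exact tensorMat_one

@[simp] theorem tensorGL_val (B : ∀ i, GL (Fin (d i)) F) :
    (tensorGL B : Matrix _ _ F) = tensorMat (fun i => (B i : Matrix (Fin (d i)) (Fin (d i)) F)) := rfl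

/-- The factor `T i X`. -/
noncomputable def lift1 (i : κ) (X : Matrix (Fin (d i)) (Fin (d i)) F) : Matrix (∀ i, Fin (d i)) (∀ i, Fin (d i)) F :=
  tensorMat (Function.update (fun i => (1 : Matrix (Fin (d i)) (Fin (d i)) F)) i X)

theorem lift1_apply (i : κ) (X : Matrix (Fin (d i)) (Fin (d i)) F) (x y : ∀ i, Fin (d i)) :
    lift1 i X x y = if (∀ j, j ≠ i → x j = y j) then X (x i) (y i) else 0 := by
  simp only [lift1, tensorMat, Matrix.of_apply]
  rw [← Finset.mul_prod_erase Finset.univ _ (Finset.mem_univ i), Function.update_self]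
  have h1 : ∀ j ∈ Finset.univ.erase i, (Function.update (fun i => (1 : Matrix (Fin (d i)) (Fin (d i)) F)) i X) j (x j) (y j) =
      if x j = y j then 1 else 0 := by
    intro j hj
    rw [Function.update_of_ne (Finset.ne_of_mem_erase hj), Matrix.one_apply]
  rw [Finset.prod_congr rfl h1, Finset.prod_ite_zero]
  simp only [Finset.prod_const_one, Finset.mem_erase, Finset.mem_univ, and_true]
  by_cases h : ∀ j, j ≠ i → x j = y j
  · rw [if_pos h, if_pos h, mul_one]
  · rw [if_neg h, if_neg h, mul_zero]

theorem lift1_conj (B : ∀ i, GL (Fin (d i)) F) (i : κ) (X : Matrix (Fin (d i)) (Fin (d i)) F) :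
    tensorMat (fun i => (B i : Matrix (Fin (d i)) (Fin (d i)) F)) * lift1 i X =
      lift1 i ((B i : Matrix _ _ F) * X * ((B i)⁻¹ : GL _ _).1) * tensorMat (fun i => (B i : Matrix (Fin (d i)) (Fin (d i)) F)) := by
  simp only [lift1, tensorMat_mul]
  congr 1
  funext j
  by_cases hj : j = i
  · subst hj
    simp only [Function.update_self]
    rw [mul_assoc, mul_assoc]
    congr 1
    have : ((B j)⁻¹ : GL _ _).1 * (B j : Matrix _ _ F) = 1 := Units.inv_mul _
    rw [this, mul_one]
  · simp only [Function.update_of_ne hj, one_mul, mul_one]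

/-- Summing over the vectors differing only in one place. -/
theorem sum_lift1 {A : Type*} [AddCommMonoid A] [Module F A] (i : κ) (X : Matrix (Fin (d i)) (Fin (d i)) F) (y : ∀ i, Fin (d i)) (g : (∀ i, Fin (d i)) → A) :
    ∑ x, lift1 i X x y • g x = ∑ u, X u (y i) • g (Function.update y i u) := by
  classical
  have hinj : Function.Injective (fun u : Fin (d i) => Function.update y i u) := Function.update_injective y i
  calc ∑ x, lift1 i X x y • g x = ∑ x ∈ Finset.univ.image (fun u : Fin (d i) => Function.update y i u), lift1 i X x y • g x := by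
        symm
        apply Finset.sum_subset (Finset.subset_univ _)
        intro x _ hx
        rw [lift1_apply, if_neg, zero_smul]
        intro h
        apply hx
        refine Finset.mem_image.2 ⟨x i, Finset.mem_univ _, ?_⟩
        funext j
        by_cases hj : j = i
        · subst hj
          simp
        · rw [Function.update_of_ne hj]
          exact (h j hj).symm
    _ = ∑ u, lift1 i X (Function.update y i u) y • g (Function.update y i u) := Finset.sum_image (fun a _ b _ h => hinj h)
    _ = _ := by
        apply Finset.sum_congr rfl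
        intro u _
        rw [lift1_apply, if_pos]
        · simp
        · intro j hj
          simp [Function.update_of_ne hj]

end tensorMat

section frame

variable {F : Type*} [Field F] {n : ℕ} {κ : Type} [Fintype κ] [DecidableEq κ] {d : κ → ℕ}
  (θ : ∀ i, Matrix (Fin (d i)) (Fin (d i)) F →ₐ[F] Matrix (Fin n) (Fin n) F)

local notation "MM" => Matrix (Fin n) (Fin n) F

/-- A product of matrix units along a list of indices. -/
def mkL (l : List κ) (x y : ∀ i, Fin (d i)) : Matrix (Fin n) (Fin n) F :=
  (l.map fun i => θ i (Matrix.single (x i) (y i) 1)).prod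

variable {θ}

theorem comm_mkL (hcomm : ∀ i j, i ≠ j → ∀ X Y, θ i X * θ j Y = θ j Y * θ i X) {i : κ} {l : List κ} (hi : i ∉ l)
    (X : Matrix (Fin (d i)) (Fin (d i)) F) (x y : ∀ i, Fin (d i)) :
    θ i X * mkL θ l x y = mkL θ l x y * θ i X := by
  induction l with
  | nil => simp [mkL]
  | cons j l ih =>
    have hij : i ≠ j := fun h => hi (h ▸ List.mem_cons_self)
    have hil : i ∉ l := fun h => hi (List.mem_cons_of_mem _ h)
    simp only [mkL, List.map_cons, List.prod_cons] at ih ⊢
    rw [← mul_assoc, hcomm i j hij, mul_assoc, ih hil, mul_assoc]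

theorem mkL_congr {l : List κ} {x y x' y' : ∀ i, Fin (d i)} (h : ∀ j ∈ l, x j = x' j ∧ y j = y' j) :
    mkL θ l x y = mkL θ l x' y' := by
  simp only [mkL]
  congr 1
  apply List.map_congr_left
  intro j hj
  rw [(h j hj).1, (h j hj).2]

theorem act_mkL (hcomm : ∀ i j, i ≠ j → ∀ X Y, θ i X * θ j Y = θ j Y * θ i X) {i : κ} {l : List κ} (hi : i ∈ l) (hl : l.Nodup)
    (u w : Fin (d i)) (x y : ∀ i, Fin (d i)) :
    θ i (Matrix.single u w 1) * mkL θ l x y = if x i = w then mkL θ l (Function.update x i u) y else 0 := by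
  induction l with
  | nil => simp at hi
  | cons j l ih =>
    rw [List.nodup_cons] at hl
    by_cases hij : i = j
    · subst hij
      have h1 : mkL θ (i :: l) x y = θ i (Matrix.single (x i) (y i) 1) * mkL θ l x y := by
        simp [mkL]
      have h2 : mkL θ (i :: l) (Function.update x i u) y = θ i (Matrix.single u (y i) 1) * mkL θ l (Function.update x i u) y := by
        simp [mkL]
      have h3 : mkL θ l (Function.update x i u) y = mkL θ l x y := by
        apply mkL_congr
        intro j hj
        refine ⟨?_, rfl⟩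
        rw [Function.update_of_ne]
        rintro rfl
        exact hl.1 hj
      rw [h1, h2, h3, ← mul_assoc, ← map_mul, E_mul]
      by_cases h : x i = w
      · rw [if_pos h.symm, if_pos h]
      · rw [if_neg (fun h' => h h'.symm), if_neg h, map_zero, zero_mul]
    · have hil : i ∈ l := (List.mem_cons.1 hi).resolve_left hij
      have h1 : mkL θ (j :: l) x y = θ j (Matrix.single (x j) (y j) 1) * mkL θ l x y := by
        simp [mkL]
      have h2 : mkL θ (j :: l) (Function.update x i u) y = θ j (Matrix.single (x j) (y j) 1) * mkL θ l (Function.update x i u) y := by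
        simp [mkL, Function.update_of_ne (Ne.symm hij)]
      rw [h1, h2, ← mul_assoc, hcomm i j hij, mul_assoc, ih hil hl.2]
      split_ifs
      · rfl
      · simp

theorem mul_mkL (hcomm : ∀ i j, i ≠ j → ∀ X Y, θ i X * θ j Y = θ j Y * θ i X) {l : List κ} (hl : l.Nodup)
    (x y x' y' : ∀ i, Fin (d i)) :
    mkL θ l x y * mkL θ l x' y' = if (∀ i ∈ l, y i = x' i) then mkL θ l x y' else 0 := by
  induction l with
  | nil => simp [mkL]
  | cons j l ih =>
    rw [List.nodup_cons] at hl
    have h1 : ∀ a b : ∀ i, Fin (d i), mkL θ (j :: l) a b = θ j (Matrix.single (a j) (b j) 1) * mkL θ l a b := by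
      intro a b
      simp [mkL]
    rw [h1, h1, h1]
    calc θ j (Matrix.single (x j) (y j) 1) * mkL θ l x y * (θ j (Matrix.single (x' j) (y' j) 1) * mkL θ l x' y')
        = θ j (Matrix.single (x j) (y j) 1) * (mkL θ l x y * θ j (Matrix.single (x' j) (y' j) 1)) * mkL θ l x' y' := by
          simp only [mul_assoc]
      _ = θ j (Matrix.single (x j) (y j) 1 * Matrix.single (x' j) (y' j) 1) * (mkL θ l x y * mkL θ l x' y') := by
          rw [← comm_mkL hcomm hl.1, ← mul_assoc, ← map_mul, mul_assoc]
      _ = _ := by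
          rw [E_mul, ih hl.2]
          by_cases h0 : y j = x' j
          · by_cases h2 : ∀ i ∈ l, y i = x' i
            · rw [if_pos h0, if_pos h2, if_pos]
              intro i hi
              rcases List.mem_cons.1 hi with rfl | hi
              · exact h0
              · exact h2 i hi
            · rw [if_neg h2, mul_zero, if_neg]
              intro h3
              exact h2 (fun i hi => h3 i (List.mem_cons_of_mem _ hi))
          · rw [if_neg h0, map_zero, zero_mul, if_neg]
            intro h3
            exact h0 (h3 j List.mem_cons_self)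

theorem mkL_ne_zero (hn : 0 < n) (hcomm : ∀ i j, i ≠ j → ∀ X Y, θ i X * θ j Y = θ j Y * θ i X) {l : List κ} (hl : l.Nodup)
    (z : ∀ i, Fin (d i)) : mkL θ l z z ≠ 0 := by
  induction l with
  | nil =>
    haveI : Nonempty (Fin n) := ⟨⟨0, hn⟩⟩
    simp [mkL]
  | cons j l ih =>
    rw [List.nodup_cons] at hl
    have h1 : mkL θ (j :: l) z z = θ j (Matrix.single (z j) (z j) 1) * mkL θ l z z := by
      simp [mkL]
    rw [h1]
    intro h0
    apply ih hl.2
    have h2 : mkL θ l z z = (∑ u, θ j (Matrix.single u u 1)) * mkL θ l z z := by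
      rw [← map_sum, sum_E, map_one, one_mul]
    rw [h2, Finset.sum_mul]
    apply Finset.sum_eq_zero
    intro u _
    have h3 : (Matrix.single u u (1 : F)) = Matrix.single u (z j) 1 * Matrix.single (z j) (z j) 1 * Matrix.single (z j) u 1 := by
      rw [E_mul, if_pos rfl, E_mul, if_pos rfl]
    rw [h3, map_mul, map_mul, mul_assoc, comm_mkL hcomm hl.1, ← mul_assoc, mul_assoc (θ j _), h0]
    simp

/-- The frame of vectors. -/
theorem exists_frame (hn : 0 < n) (hd : ∀ i, 0 < d i) (hcomm : ∀ i j, i ≠ j → ∀ X Y, θ i X * θ j Y = θ j Y * θ i X)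
    (hirr : ∀ W : Submodule F (Fin n → F), (∀ i X, ∀ w ∈ W, θ i X *ᵥ w ∈ W) → W = ⊥ ∨ W = ⊤) :
    ∃ v : (∀ i, Fin (d i)) → (Fin n → F), LinearIndependent F v ∧ Submodule.span F (Set.range v) = ⊤ ∧
      ∀ i u w x, θ i (Matrix.single u w 1) *ᵥ v x = if x i = w then v (Function.update x i u) else 0 := by
  classical
  let l : List κ := Finset.univ.toList
  have hl : l.Nodup := Finset.nodup_toList _
  have hlm : ∀ i, i ∈ l := fun i => Finset.mem_toList.2 (Finset.mem_univ i)
  let z₀ : ∀ i, Fin (d i) := fun i => ⟨0, hd i⟩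
  obtain ⟨w₀, hw₀⟩ : ∃ w, mkL θ l z₀ z₀ *ᵥ w ≠ 0 := by
    by_contra hcon
    push Not at hcon
    apply mkL_ne_zero hn hcomm hl z₀
    apply Matrix.toLin'.injective
    apply LinearMap.ext
    intro v
    simp [hcon v]
  set v₀ := mkL θ l z₀ z₀ *ᵥ w₀ with hv₀
  have hfix : mkL θ l z₀ z₀ *ᵥ v₀ = v₀ := by
    rw [hv₀, Matrix.mulVec_mulVec, mul_mkL hcomm hl, if_pos (fun i _ => rfl)]
  let v : (∀ i, Fin (d i)) → (Fin n → F) := fun x => mkL θ l x z₀ *ᵥ v₀
  have hact : ∀ i u w x, θ i (Matrix.single u w 1) *ᵥ v x = if x i = w then v (Function.update x i u) else 0 := by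
    intro i u w x
    simp only [v]
    rw [Matrix.mulVec_mulVec, act_mkL hcomm (hlm i) hl]
    split_ifs
    · rfl
    · simp
  have hact' : ∀ i X x, θ i X *ᵥ v x = ∑ u, X u (x i) • v (Function.update x i u) := by
    intro i X x
    conv_lhs => rw [mat_eq_sum (d i) X]
    simp only [map_sum, map_smul, Matrix.sum_mulVec, Matrix.smul_mulVec, hact]
    apply Finset.sum_congr rfl
    intro u _
    rw [Finset.sum_eq_single (x i)]
    · simp
    · intro b _ hb
      rw [if_neg (Ne.symm hb), smul_zero]
    · simp
  refine ⟨v, ?_, ?_, hact⟩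
  · rw [Fintype.linearIndependent_iff]
    intro c hc y
    have h1 := congrArg (fun t => mkL θ l z₀ y *ᵥ t) hc
    simp only [Matrix.mulVec_sum, Matrix.mulVec_smul, Matrix.mulVec_zero] at h1
    have h2 : ∀ x, mkL θ l z₀ y *ᵥ v x = if x = y then v₀ else 0 := by
      intro x
      simp only [v]
      rw [Matrix.mulVec_mulVec, mul_mkL hcomm hl]
      by_cases hxy : x = y
      · subst hxy
        rw [if_pos (fun i _ => rfl), if_pos rfl, hfix]
      · rw [if_neg, if_neg hxy, Matrix.zero_mulVec]
        intro h
        exact hxy (funext fun i => (h i (hlm i)).symm)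
    simp only [h2] at h1
    rw [Finset.sum_eq_single y] at h1
    · rw [if_pos rfl] at h1
      exact (smul_eq_zero.1 h1).resolve_right hw₀
    · intro b _ hb
      rw [if_neg hb, smul_zero]
    · simp
  · refine (hirr _ ?_).resolve_left ?_
    · intro i X w hw
      induction hw using Submodule.span_induction with
      | mem t ht =>
        obtain ⟨x, rfl⟩ := ht
        rw [hact']
        apply Submodule.sum_mem
        intro u _
        exact Submodule.smul_mem _ _ (Submodule.subset_span ⟨_, rfl⟩)
      | zero =>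
        rw [Matrix.mulVec_zero]
        exact Submodule.zero_mem _
      | add a b _ _ ha hb =>
        rw [Matrix.mulVec_add]
        exact Submodule.add_mem _ ha hb
      | smul c a _ ha =>
        rw [Matrix.mulVec_smul]
        exact Submodule.smul_mem _ _ ha
    · intro h
      have h1 : v z₀ ∈ Submodule.span F (Set.range v) := Submodule.subset_span ⟨_, rfl⟩
      rw [h, Submodule.mem_bot] at h1
      apply hw₀
      rw [← hfix]
      exact h1

/-- Tensor coordinates for a commuting family of matrix algebras. -/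
theorem tensor_frame (hn : 0 < n) (hd : ∀ i, 0 < d i) (hcomm : ∀ i j, i ≠ j → ∀ X Y, θ i X * θ j Y = θ j Y * θ i X)
    (hirr : ∀ W : Submodule F (Fin n → F), (∀ i X, ∀ w ∈ W, θ i X *ᵥ w ∈ W) → W = ⊥ ∨ W = ⊤) :
    ∃ (e : Fin n ≃ ∀ i, Fin (d i)) (P : GL (Fin n) F), ∀ i X,
      θ i X * (P : MM) = (P : MM) * Matrix.reindexAlgEquiv F F e.symm (lift1 i X) := by
  classical
  obtain ⟨v, hli, hsp, hact⟩ := exists_frame hn hd hcomm hirr
  let b : Basis (∀ i, Fin (d i)) F (Fin n → F) := Basis.mk hli hsp.ge
  have hcard : Fintype.card (∀ i, Fin (d i)) = n := by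
    have h1 := Module.finrank_eq_card_basis b
    rw [finrank_fin_fun] at h1
    exact h1.symm
  let e : Fin n ≃ ∀ i, Fin (d i) := (Fintype.equivFinOfCardEq hcard).symm
  let A : MM := Matrix.of fun k l => v (e l) k
  have hAmul : ∀ c : Fin n → F, A *ᵥ c = ∑ l, c l • v (e l) := by
    intro c
    funext k
    simp only [Matrix.mulVec, dotProduct, A, Matrix.of_apply, Finset.sum_apply, Pi.smul_apply, smul_eq_mul]
    apply Finset.sum_congr rfl
    intro l _
    exact mul_comm _ _
  have hinj : Function.Injective A.mulVec := by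
    have hli' : LinearIndependent F (v ∘ e) := hli.comp e e.injective
    show Function.Injective (Matrix.mulVecLin A)
    rw [injective_iff_map_eq_zero (Matrix.mulVecLin A)]
    intro c hc
    have h1 : A *ᵥ c = 0 := hc
    rw [hAmul] at h1
    funext l
    exact (Fintype.linearIndependent_iff.1 hli') c h1 l
  obtain ⟨P, hP⟩ := gl_of_injective hinj
  refine ⟨e, P, ?_⟩
  intro i X
  rw [hP]
  have hact' : ∀ x, θ i X *ᵥ v x = ∑ u, X u (x i) • v (Function.update x i u) := by
    intro x
    conv_lhs => rw [mat_eq_sum (d i) X]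
    simp only [map_sum, map_smul, Matrix.sum_mulVec, Matrix.smul_mulVec, hact]
    apply Finset.sum_congr rfl
    intro u _
    rw [Finset.sum_eq_single (x i)]
    · simp
    · intro b _ hb
      rw [if_neg (Ne.symm hb), smul_zero]
    · simp
  ext k l
  have h1 : (θ i X * A) k l = (θ i X *ᵥ v (e l)) k := by
    simp only [Matrix.mul_apply, Matrix.mulVec, dotProduct, A, Matrix.of_apply]
  have h2 : (A * Matrix.reindexAlgEquiv F F e.symm (lift1 i X)) k l = (∑ x, lift1 i X x (e l) • v x) k := by
    simp only [Matrix.mul_apply, A, Matrix.of_apply, Matrix.reindexAlgEquiv_apply, Matrix.reindex_apply, Matrix.submatrix_apply, Equiv.symm_symm, Finset.sum_apply, Pi.smul_apply, smul_eq_mul]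
    rw [← Equiv.sum_comp e]
    apply Finset.sum_congr rfl
    intro s _
    exact mul_comm _ _
  rw [h1, h2, sum_lift1, hact']

end frame

end Cfsg.Agent.Lib.ClassMax.Asch
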