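import Mathlib
import Cfsg.Agent.Lib.ClassMax.Asch4

/-!
From conjugation actions on commuting matrix algebras to membership in the tensor classes.
-/

set_option autoImplicit false
set_option linter.unusedSimpArgs false
set_option linter.unusedVariables false
set_option linter.unusedSectionVars false
set_option linter.unusedFintypeInType false
set_option linter.unusedDecidableInType false

namespace Cfsg.Agent.Lib.ClassMax.Asch

open Module Matrix Cfsg.Geo

/-- Intertwiners and their inverses. -/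
theorem inv_intertw {ι : Type} [Fintype ι] [DecidableEq ι] {F : Type*} [Field F] {g : GL ι F} {A B : Matrix ι ι F} (h : (g : Matrix ι ι F) * A = B * g) :
    ((g⁻¹ : GL ι F) : Matrix ι ι F) * B = A * ((g⁻¹ : GL ι F) : Matrix ι ι F) := by
  calc ((g⁻¹ : GL ι F) : Matrix ι ι F) * B = ((g⁻¹ : GL ι F) : Matrix ι ι F) * (B * ((g : Matrix ι ι F) * ((g⁻¹ : GL ι F) : Matrix ι ι F))) := by
        rw [Units.mul_inv, mul_one]
    _ = ((g⁻¹ : GL ι F) : Matrix ι ι F) * ((g : Matrix ι ι F) * A) * ((g⁻¹ : GL ι F) : Matrix ι ι F) := by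
        rw [h]
        simp only [mul_assoc]
    _ = _ := by
        rw [← mul_assoc, Units.inv_mul, one_mul]

section step1

variable {F : Type*} [Field F] {n : ℕ} {κ : Type} [Fintype κ] [DecidableEq κ] {d : κ → ℕ}
  {θ : ∀ i, Matrix (Fin (d i)) (Fin (d i)) F →ₐ[F] Matrix (Fin n) (Fin n) F}

local notation "MM" => Matrix (Fin n) (Fin n) F

theorem tensorMat_smul (B : ∀ i, Matrix (Fin (d i)) (Fin (d i)) F) (i : κ) (c : F) :
    tensorMat (Function.update B i (c • B i)) = c • tensorMat B := by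
  ext x y
  simp only [tensorMat, Matrix.of_apply, Matrix.smul_apply, smul_eq_mul]
  rw [← Finset.mul_prod_erase Finset.univ _ (Finset.mem_univ i), ← Finset.mul_prod_erase Finset.univ (fun j => B j (x j) (y j)) (Finset.mem_univ i),
    Function.update_self]
  simp only [Matrix.smul_apply, smul_eq_mul, mul_assoc]
  congr 2
  apply Finset.prod_congr rfl
  intro j hj
  rw [Function.update_of_ne (Finset.ne_of_mem_erase hj)]

theorem glReindex_val {κ' : Type} [Fintype κ'] [DecidableEq κ'] (e : κ' ≃ Fin n) (g : GL κ' F) :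
    ((glReindex e g : GL (Fin n) F) : MM) = Matrix.reindexAlgEquiv F F e (g : Matrix κ' κ' F) := rfl

/-- Elements acting on all factors by inner automorphisms are tensors. -/
theorem conj_lift_eq [Nonempty κ] {e : Fin n ≃ ∀ i, Fin (d i)} {P : GL (Fin n) F}
    (hP : ∀ i X, θ i X * (P : MM) = (P : MM) * Matrix.reindexAlgEquiv F F e.symm (lift1 i X))
    (hc : ∀ Y : MM, (∀ i X, Y * θ i X = θ i X * Y) → ∃ c : F, Y = c • 1)
    (h : GL (Fin n) F) (B : ∀ i, GL (Fin (d i)) F)
    (hh : ∀ i X, (h : MM) * θ i X = θ i ((B i : Matrix _ _ F) * X * ((B i)⁻¹ : GL _ _).1) * (h : MM)) :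
    ∃ B' : ∀ i, GL (Fin (d i)) F, h = P * glReindex e.symm (tensorGL B') * P⁻¹ := by
  classical
  let G : GL (Fin n) F := glReindex e.symm (tensorGL B)
  let D : GL (Fin n) F := P * G * P⁻¹
  let Ψ := Matrix.reindexAlgEquiv F F e.symm
  have hG : (G : MM) = Ψ (tensorMat (fun i => (B i : Matrix (Fin (d i)) (Fin (d i)) F))) := rfl
  have hPi : ∀ i X, ((P⁻¹ : GL (Fin n) F) : MM) * θ i X = Ψ (lift1 i X) * ((P⁻¹ : GL (Fin n) F) : MM) := by
    intro i X
    exact inv_intertw (hP i X).symm
  have hD : ∀ i X, (D : MM) * θ i X = θ i ((B i : Matrix _ _ F) * X * ((B i)⁻¹ : GL _ _).1) * (D : MM) := by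
    intro i X
    have h1 : (G : MM) * Ψ (lift1 i X) = Ψ (lift1 i ((B i : Matrix _ _ F) * X * ((B i)⁻¹ : GL _ _).1)) * (G : MM) := by
      rw [hG, ← map_mul, ← map_mul, lift1_conj]
    simp only [D, Units.val_mul]
    calc (P : MM) * (G : MM) * ((P⁻¹ : GL (Fin n) F) : MM) * θ i X = (P : MM) * ((G : MM) * Ψ (lift1 i X)) * ((P⁻¹ : GL (Fin n) F) : MM) := by
          rw [mul_assoc _ _ (θ i X), hPi]
          simp only [mul_assoc]
      _ = ((P : MM) * Ψ (lift1 i ((B i : Matrix _ _ F) * X * ((B i)⁻¹ : GL _ _).1))) * (G : MM) * ((P⁻¹ : GL (Fin n) F) : MM) := by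
          rw [h1]
          simp only [mul_assoc]
      _ = _ := by
          rw [← hP]
          simp only [mul_assoc]
  have hY : ∀ i X, (((D⁻¹ * h : GL (Fin n) F)) : MM) * θ i X = θ i X * ((D⁻¹ * h : GL (Fin n) F) : MM) := by
    intro i X
    simp only [Units.val_mul]
    rw [mul_assoc, hh, ← mul_assoc, inv_intertw (hD i X), mul_assoc]
  obtain ⟨c, hc'⟩ := hc _ hY
  have hn : 0 < n ∨ n = 0 := by omega
  have hc0 : ∃ u : Fˣ, ((D⁻¹ * h : GL (Fin n) F) : MM) = (u : F) • 1 := by
    rcases hn with hn | rfl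
    · by_cases hc0 : c = 0
      · exfalso
        haveI : Nonempty (Fin n) := ⟨⟨0, hn⟩⟩
        have h1 : ((D⁻¹ * h : GL (Fin n) F) : MM) * ((((D⁻¹ * h)⁻¹ : GL (Fin n) F)) : MM) = 1 := Units.mul_inv _
        rw [hc', hc0, zero_smul, zero_mul] at h1
        exact zero_ne_one h1
      · exact ⟨Units.mk0 c hc0, hc'⟩
    · exact ⟨1, Subsingleton.elim _ _⟩
  obtain ⟨u, hu⟩ := hc0
  obtain ⟨i₀⟩ := ‹Nonempty κ›
  let C : GL (Fin (d i₀)) F :=
    { val := (u : F) • (B i₀ : Matrix _ _ F)
      inv := ((u⁻¹ : Fˣ) : F) • ((B i₀)⁻¹ : GL _ _).1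
      val_inv := by
        rw [Matrix.smul_mul, Matrix.mul_smul, smul_smul, Units.mul_inv, one_smul]
        exact Units.mul_inv _
      inv_val := by
        rw [Matrix.smul_mul, Matrix.mul_smul, smul_smul, Units.inv_mul, one_smul]
        exact Units.inv_mul _ }
  refine ⟨Function.update B i₀ C, ?_⟩
  have h3 : ((tensorGL (Function.update B i₀ C) : GL (∀ i, Fin (d i)) F) : Matrix (∀ i, Fin (d i)) (∀ i, Fin (d i)) F) = (u : F) • ((tensorGL B : GL (∀ i, Fin (d i)) F) : Matrix (∀ i, Fin (d i)) (∀ i, Fin (d i)) F) := by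
    rw [tensorGL_val, tensorGL_val, ← tensorMat_smul _ i₀]
    congr 1
    funext j
    by_cases hj : j = i₀
    · subst hj
      simp only [Function.update_self]
      rfl
    · simp only [Function.update_of_ne hj]
  apply Units.ext
  have h4 : (h : MM) = (D : MM) * ((u : F) • 1) := by
    have h5 : h = D * (D⁻¹ * h) := by group
    conv_lhs => rw [h5]
    rw [Units.val_mul D, hu]
  have h6 : ((glReindex e.symm (tensorGL (Function.update B i₀ C)) : GL (Fin n) F) : MM) = (u : F) • (G : MM) := by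
    rw [glReindex_val, h3, map_smul]
    rfl
  have hDv : (D : MM) = (P : MM) * (G : MM) * ((P⁻¹ : GL (Fin n) F) : MM) := rfl
  rw [Units.val_mul, Units.val_mul, h6, h4, hDv]
  simp only [Matrix.mul_smul, Matrix.smul_mul, mul_one]

end step1

section perm

variable {F : Type*} [Field F] {t m : ℕ}

/-- The matrix permuting the tensor factors. -/
def permMat (π : Equiv.Perm (Fin t)) : Matrix (Fin t → Fin m) (Fin t → Fin m) F :=
  Matrix.of fun x y => if y = x ∘ π then 1 else 0

theorem permMat_mul_apply (π : Equiv.Perm (Fin t)) (M : Matrix (Fin t → Fin m) (Fin t → Fin m) F) (x y) :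
    (permMat π * M : Matrix (Fin t → Fin m) (Fin t → Fin m) F) x y = M (x ∘ π) y := by
  classical
  simp only [Matrix.mul_apply, permMat, Matrix.of_apply, ite_mul, one_mul, zero_mul, Finset.sum_ite_eq', Finset.mem_univ, if_true]

theorem mul_permMat_apply (π : Equiv.Perm (Fin t)) (M : Matrix (Fin t → Fin m) (Fin t → Fin m) F) (x y) :
    (M * permMat π : Matrix (Fin t → Fin m) (Fin t → Fin m) F) x y = M x (y ∘ π.symm) := by
  classical
  simp only [Matrix.mul_apply, permMat, Matrix.of_apply, mul_ite, mul_one, mul_zero]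
  rw [Finset.sum_eq_single (y ∘ π.symm)]
  · rw [if_pos]
    funext j
    simp
  · intro z _ hz
    rw [if_neg]
    rintro rfl
    apply hz
    funext j
    simp
  · simp

theorem permMat_mul_permMat_inv (π : Equiv.Perm (Fin t)) :
    permMat (F := F) (m := m) π * permMat π⁻¹ = 1 := by
  ext x y
  rw [permMat_mul_apply]
  simp only [permMat, Matrix.of_apply, Matrix.one_apply]
  have : x ∘ ⇑π ∘ ⇑π⁻¹ = x := by
    funext j
    simp
  by_cases h : x = y
  · subst h
    rw [if_pos rfl, if_pos]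
    funext j
    simp
  · rw [if_neg h, if_neg]
    intro h2
    apply h
    rw [h2]
    funext j
    simp

/-- The permutation matrix as an invertible matrix. -/
def permGL (π : Equiv.Perm (Fin t)) : GL (Fin t → Fin m) F where
  val := permMat π
  inv := permMat π⁻¹
  val_inv := permMat_mul_permMat_inv π
  inv_val := by
    have := permMat_mul_permMat_inv (F := F) (m := m) π⁻¹
    rwa [inv_inv] at this

@[simp] theorem permGL_val (π : Equiv.Perm (Fin t)) : ((permGL π : GL (Fin t → Fin m) F) : Matrix (Fin t → Fin m) (Fin t → Fin m) F) = permMat π := rfl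

/-- Permutation matrices permute the factors. -/
theorem perm_lift (π : Equiv.Perm (Fin t)) (i : Fin t) (X : Matrix (Fin m) (Fin m) F) :
    permMat π * lift1 (d := fun _ => m) i X = lift1 (d := fun _ => m) (π i) X * permMat π := by
  ext x y
  rw [permMat_mul_apply, mul_permMat_apply, lift1_apply, lift1_apply]
  have h1 : (∀ j, j ≠ i → (x ∘ π) j = y j) ↔ (∀ j, j ≠ π i → x j = (y ∘ π.symm) j) := by
    constructor
    · intro h j hj
      have h2 := h (π.symm j) (by
        intro h3
        apply hj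
        rw [← h3]
        simp)
      simpa using h2
    · intro h j hj
      have h2 := h (π j) (fun h3 => hj (π.injective h3))
      simpa using h2
  by_cases h : ∀ j, j ≠ i → (x ∘ π) j = y j
  · rw [if_pos h, if_pos (h1.1 h)]
    simp
  · rw [if_neg h, if_neg (fun h2 => h (h1.2 h2))]

variable {n : ℕ} {θ : Fin t → Matrix (Fin m) (Fin m) F →ₐ[F] Matrix (Fin n) (Fin n) F}

local notation "MM" => Matrix (Fin n) (Fin n) F

/-- The explicit form of elements permuting commuting matrix algebras. -/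
theorem wreath_form (ht : 0 < t) {e : Fin n ≃ (Fin t → Fin m)} {P : GL (Fin n) F}
    (hP : ∀ i X, θ i X * (P : MM) = (P : MM) * Matrix.reindexAlgEquiv F F e.symm (lift1 (d := fun _ => m) i X))
    (hc : ∀ Y : MM, (∀ i X, Y * θ i X = θ i X * Y) → ∃ c : F, Y = c • 1)
    (h : GL (Fin n) F) (π : Equiv.Perm (Fin t)) (B : Fin t → GL (Fin m) F)
    (hh : ∀ i X, (h : MM) * θ i X = θ (π i) ((B i : Matrix _ _ F) * X * ((B i)⁻¹ : GL _ _).1) * (h : MM)) :
    ∃ B' : Fin t → GL (Fin m) F, h = P * glReindex e.symm (permGL π * tensorGL (d := fun _ => m) B') * P⁻¹ := by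
  classical
  haveI : Nonempty (Fin t) := ⟨⟨0, ht⟩⟩
  let Ψ := Matrix.reindexAlgEquiv F F e.symm
  let R : GL (Fin n) F := glReindex e.symm (permGL π)
  let D : GL (Fin n) F := P * R * P⁻¹
  have hR : (R : MM) = Ψ (permMat π) := rfl
  have hPi : ∀ i X, ((P⁻¹ : GL (Fin n) F) : MM) * θ i X = Ψ (lift1 (d := fun _ => m) i X) * ((P⁻¹ : GL (Fin n) F) : MM) := by
    intro i X
    exact inv_intertw (hP i X).symm
  have hD : ∀ i X, (D : MM) * θ i X = θ (π i) X * (D : MM) := by
    intro i X
    have h1 : (R : MM) * Ψ (lift1 (d := fun _ => m) i X) = Ψ (lift1 (d := fun _ => m) (π i) X) * (R : MM) := by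
      rw [hR, ← map_mul, ← map_mul, perm_lift]
    simp only [D, Units.val_mul]
    calc (P : MM) * (R : MM) * ((P⁻¹ : GL (Fin n) F) : MM) * θ i X = (P : MM) * ((R : MM) * Ψ (lift1 (d := fun _ => m) i X)) * ((P⁻¹ : GL (Fin n) F) : MM) := by
          rw [mul_assoc _ _ (θ i X), hPi]
          simp only [mul_assoc]
      _ = ((P : MM) * Ψ (lift1 (d := fun _ => m) (π i) X)) * (R : MM) * ((P⁻¹ : GL (Fin n) F) : MM) := by
          rw [h1]
          simp only [mul_assoc]
      _ = _ := by
          rw [← hP]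
          simp only [mul_assoc]
  have hh' : ∀ i X, (((D⁻¹ * h : GL (Fin n) F)) : MM) * θ i X = θ i ((B i : Matrix _ _ F) * X * ((B i)⁻¹ : GL _ _).1) * ((D⁻¹ * h : GL (Fin n) F) : MM) := by
    intro i X
    simp only [Units.val_mul]
    rw [mul_assoc, hh, ← mul_assoc, inv_intertw (hD i _), mul_assoc]
  obtain ⟨B', hB'⟩ := conj_lift_eq (d := fun _ => m) (θ := θ) hP hc (D⁻¹ * h) B hh'
  refine ⟨B', ?_⟩
  have h5 : h = D * (D⁻¹ * h) := by group
  rw [h5, hB']
  simp only [D, R, map_mul]
  group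

theorem mem_wreath_of_form {e : Fin n ≃ (Fin t → Fin m)} {P : GL (Fin n) F} {h : GL (Fin n) F}
    {π : Equiv.Perm (Fin t)} {B' : Fin t → GL (Fin m) F}
    (hh : h = P * glReindex e.symm (permGL π * tensorGL (d := fun _ => m) B') * P⁻¹) : h ∈ tensorWreathSubgroup m t e P := by
  refine ⟨_, ⟨_, ?_, rfl⟩, hh.symm⟩
  apply Subgroup.mul_mem
  · apply Subgroup.subset_closure
    right
    exact ⟨π, fun x y => rfl⟩
  · apply Subgroup.subset_closure
    left
    exact ⟨B', fun x y => rfl⟩

end perm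

end Cfsg.Agent.Lib.ClassMax.Asch
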