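import Mathlib
import Cfsg.Agent.Lib.ClassMax.Asch5
import Cfsg.Agent.Lib.KnownSimple.AltForm

/-!
Forms given by matrices: uniqueness, similarity, the form classes.
-/

set_option autoImplicit false
set_option linter.unusedSimpArgs false
set_option linter.unusedVariables false
set_option linter.unusedSectionVars false
set_option linter.unusedFintypeInType false
set_option linter.unusedDecidableInType false

namespace Cfsg.Agent.Lib.ClassMax.Asch

open Module Matrix Cfsg.Geo

section base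

variable {F : Type*} [Field F] {n : ℕ}

local notation "MM" => Matrix (Fin n) (Fin n) F

/-- The form attached to a matrix and a field automorphism. -/
def sesq (σ : F ≃+* F) (T : MM) (u v : Fin n → F) : F := u ⬝ᵥ (T *ᵥ (fun i => σ (v i)))

theorem map_mulVec' (σ : F ≃+* F) (M : MM) (v : Fin n → F) :
    (fun i => σ ((M *ᵥ v) i)) = (M.map σ) *ᵥ (fun i => σ (v i)) := by
  funext i
  simp [Matrix.mulVec, dotProduct, map_sum, map_mul]

theorem sesq_mul (σ : F ≃+* F) (T g : MM) (u v : Fin n → F) :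
    sesq σ T (g *ᵥ u) (g *ᵥ v) = sesq σ (gᵀ * T * g.map σ) u v := by
  simp only [sesq]
  rw [map_mulVec', Matrix.mulVec_mulVec, ← Matrix.vecMul_transpose, ← Matrix.dotProduct_mulVec, Matrix.mulVec_mulVec]
  simp only [mul_assoc]

theorem sesq_single (σ : F ≃+* F) (T : MM) (i j : Fin n) :
    sesq σ T (Pi.single i 1) (Pi.single j 1) = T i j := by
  have h1 : (fun k => σ ((Pi.single j (1 : F) : Fin n → F) k)) = Pi.single j 1 := by
    funext k
    by_cases hk : k = j
    · subst hk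
      simp
    · simp [Pi.single_eq_of_ne hk]
  simp only [sesq]
  rw [h1, Matrix.mulVec_single_one]
  simp

theorem sesq_ext (σ : F ≃+* F) {A B : MM} (h : ∀ u v, sesq σ A u v = sesq σ B u v) : A = B := by
  ext i j
  rw [← sesq_single σ A, ← sesq_single σ B, h]

theorem exists_dot_ne {y : Fin n → F} (hy : y ≠ 0) : ∃ x : Fin n → F, x ⬝ᵥ y ≠ 0 := by
  obtain ⟨i, hi⟩ := Function.ne_iff.1 hy
  refine ⟨Pi.single i 1, ?_⟩
  simpa using hi

theorem sesq_nondeg (σ : F ≃+* F) (T : GL (Fin n) F) : IsNondegenerateForm (sesq σ (T : MM)) := by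
  classical
  intro v hv
  constructor
  · have h1 : (T : MM) *ᵥ (fun i => σ (v i)) ≠ 0 := by
      intro h
      apply hv
      have h2 : (fun i => σ (v i)) = 0 := by
        have := congrArg (fun w => ((T⁻¹ : GL (Fin n) F) : MM) *ᵥ w) h
        simpa [Matrix.mulVec_mulVec] using this
      funext i
      have h3 := congrFun h2 i
      simpa using h3
    exact exists_dot_ne h1
  · have h1 : v ᵥ* (T : MM) ≠ 0 := by
      intro h
      apply hv
      have := congrArg (fun w => w ᵥ* ((T⁻¹ : GL (Fin n) F) : MM)) h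
      simpa [Matrix.vecMul_vecMul] using this
    obtain ⟨i, hi⟩ := Function.ne_iff.1 h1
    refine ⟨Pi.single i 1, ?_⟩
    have h2 : (fun k => σ ((Pi.single i (1 : F) : Fin n → F) k)) = Pi.single i 1 := by
      funext k
      by_cases hk : k = i
      · subst hk
        simp
      · simp [Pi.single_eq_of_ne hk]
    simp only [sesq]
    rw [h2, Matrix.dotProduct_mulVec]
    simpa using hi

theorem map_refl (M : MM) : M.map (RingEquiv.refl F) = M := by
  ext i j
  rfl

/-- Uniqueness of invariant forms up to scalars. -/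
theorem form_unique {N : Subgroup (GL (Fin n) F)} (hN : ∀ M : MM, (∀ s ∈ matrixSet N, M * s = s * M) → ∃ c : F, M = c • 1)
    (σ : F ≃+* F) (T : GL (Fin n) F) (hT : ∀ g ∈ N, (g : MM)ᵀ * T * (g : MM).map σ = T)
    (T' : MM) (hT' : ∀ g ∈ N, (g : MM)ᵀ * T' * (g : MM).map σ = T') : ∃ c : F, T' = c • (T : MM) := by
  let Ti : MM := ((T⁻¹ : GL (Fin n) F) : MM)
  have hTT : Ti * (T : MM) = 1 := Units.inv_mul _
  have hTT' : (T : MM) * Ti = 1 := Units.mul_inv _
  obtain ⟨c, hc⟩ := hN (T' * Ti)ᵀ (by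
    rintro _ ⟨g, hg, rfl⟩
    show (T' * Ti)ᵀ * (g : MM) = (g : MM) * (T' * Ti)ᵀ
    have h1 : (g : MM).map σ * (Ti * (g : MM)ᵀ) = Ti := by
      have h2 : (Ti * ((g : MM)ᵀ * (T : MM))) * (g : MM).map σ = 1 := by
        rw [mul_assoc, mul_assoc, ← mul_assoc _ (T : MM), hT g hg, hTT]
      have h3 := mul_eq_one_comm.1 h2
      calc (g : MM).map σ * (Ti * (g : MM)ᵀ) = ((g : MM).map σ * (Ti * ((g : MM)ᵀ * (T : MM)))) * Ti := by
            simp only [mul_assoc, hTT', mul_one]
        _ = Ti := by rw [h3, one_mul]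
    have h2 : (g : MM)ᵀ * (T' * Ti) = (T' * Ti) * (g : MM)ᵀ := by
      symm
      calc (T' * Ti) * (g : MM)ᵀ = ((g : MM)ᵀ * T' * (g : MM).map σ) * (Ti * (g : MM)ᵀ) := by
            rw [hT' g hg, mul_assoc]
        _ = (g : MM)ᵀ * T' * ((g : MM).map σ * (Ti * (g : MM)ᵀ)) := by simp only [mul_assoc]
        _ = _ := by rw [h1, mul_assoc]
    have h3 := congrArg Matrix.transpose h2
    rwa [Matrix.transpose_mul (g : MM)ᵀ (T' * Ti), Matrix.transpose_mul (T' * Ti) (g : MM)ᵀ, Matrix.transpose_transpose] at h3)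
  refine ⟨c, ?_⟩
  have h1 : T' * Ti = c • 1 := by
    have := congrArg Matrix.transpose hc
    rw [Matrix.transpose_transpose] at this
    rw [this]
    simp
  calc T' = T' * (Ti * (T : MM)) := by rw [hTT, mul_one]
    _ = (T' * Ti) * (T : MM) := by rw [mul_assoc]
    _ = _ := by rw [h1, Matrix.smul_mul, one_mul]

/-- Similarity from invariance. -/
theorem sim_of_fixed (hn : 0 < n) {N H : Subgroup (GL (Fin n) F)} (hN : ∀ M : MM, (∀ s ∈ matrixSet N, M * s = s * M) → ∃ c : F, M = c • 1)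
    (hnorm : ∀ h ∈ H, ∀ x ∈ N, h * x * h⁻¹ ∈ N)
    (σ : F ≃+* F) (T : GL (Fin n) F) (hT : ∀ g ∈ N, (g : MM)ᵀ * T * (g : MM).map σ = T) {h : GL (Fin n) F} (hh : h ∈ H) :
    ∃ c : Fˣ, (h : MM)ᵀ * T * (h : MM).map σ = (c : F) • (T : MM) := by
  have hmapmul : ∀ a b : MM, (a * b).map σ = a.map σ * b.map σ := fun a b => Matrix.map_mul
  obtain ⟨c, hc⟩ := form_unique hN σ T hT ((h : MM)ᵀ * T * (h : MM).map σ) (by
    intro g hg
    have h1 : (h : MM) * (g : MM) = ((h * g * h⁻¹ : GL (Fin n) F) : MM) * (h : MM) := by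
      simp only [Units.val_mul, mul_assoc, Units.inv_mul, mul_one]
    have h2 := hT _ (hnorm h hh g hg)
    calc (g : MM)ᵀ * ((h : MM)ᵀ * T * (h : MM).map σ) * (g : MM).map σ
        = ((h : MM) * (g : MM))ᵀ * T * ((h : MM) * (g : MM)).map σ := by
          rw [hmapmul, Matrix.transpose_mul]
          simp only [mul_assoc]
      _ = (h : MM)ᵀ * (((h * g * h⁻¹ : GL (Fin n) F) : MM)ᵀ * T * ((h * g * h⁻¹ : GL (Fin n) F) : MM).map σ) * (h : MM).map σ := by
          rw [h1, hmapmul, Matrix.transpose_mul]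
          simp only [mul_assoc]
      _ = _ := by rw [h2])
  have hc0 : c ≠ 0 := by
    rintro rfl
    rw [zero_smul] at hc
    have h1 := congrArg Matrix.det hc
    haveI : Nonempty (Fin n) := ⟨⟨0, hn⟩⟩
    rw [Matrix.det_mul, Matrix.det_mul, Matrix.det_transpose, Matrix.det_zero] at h1
    have h2 : ((h : MM).map σ).det = σ (h : MM).det := (RingHom.map_det (σ : F →+* F) _).symm
    have hd : ∀ g : GL (Fin n) F, (g : MM).det ≠ 0 := fun g => by
      have := (Matrix.isUnit_iff_isUnit_det _).1 g.isUnit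
      exact this.ne_zero
    rw [h2] at h1
    exact mul_ne_zero (mul_ne_zero (hd h) (hd T)) (by simpa using hd h) h1
  exact ⟨Units.mk0 c hc0, hc⟩

/-- Elements scaling a form. -/
theorem mem_similarity_of {σ : F ≃+* F} {T : MM} {h : GL (Fin n) F} {c : Fˣ}
    (hc : (h : MM)ᵀ * T * (h : MM).map σ = (c : F) • T) : h ∈ similarityGroup (sesq σ T) := by
  refine ⟨c, fun u v => ?_⟩
  rw [sesq_mul, hc]
  simp [sesq, Matrix.smul_mulVec, dotProduct_smul]

/-- Functions additive and homogeneous in the first variable. -/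
theorem expand_left {g : (Fin n → F) → F} (hadd : ∀ x y, g (x + y) = g x + g y) (hsmul : ∀ (c : F) x, g (c • x) = c * g x)
    (x : Fin n → F) : g x = ∑ i, x i * g (Pi.single i (1 : F)) := by
  classical
  let L : (Fin n → F) →ₗ[F] F := { toFun := g, map_add' := hadd, map_smul' := hsmul }
  have h := LinearMap.pi_apply_eq_sum_univ L x
  have h1 : ∀ i : Fin n, (fun j : Fin n => if i = j then (1 : F) else 0) = Pi.single i 1 := by
    intro i
    funext j
    simp [Pi.single_apply, eq_comm]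
  simp only [h1] at h
  exact h

theorem bil_gram {f : (Fin n → F) → (Fin n → F) → F} (hf : IsBilinearForm f) (u v : Fin n → F) :
    f u v = sesq (RingEquiv.refl F) (gramMatrix f) u v := by
  rw [expand_left (g := fun x => f x v) (fun x y => hf.add_left x y v) (fun c x => hf.smul_left c x v) u]
  simp only [sesq, dotProduct, Matrix.mulVec, RingEquiv.refl_apply]
  apply Finset.sum_congr rfl
  intro i _
  congr 1
  rw [expand_left (g := fun x => f (Pi.single i 1) x) (fun x y => hf.add_right _ x y) (fun c x => hf.smul_right c _ x) v]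
  apply Finset.sum_congr rfl
  intro j _
  rw [mul_comm]
  rfl

theorem unit_gram {σ : F ≃+* F} {f : (Fin n → F) → (Fin n → F) → F} (hf : IsUnitaryForm σ f) (u v : Fin n → F) :
    f u v = sesq σ (gramMatrix f) u v := by
  rw [expand_left (g := fun x => f x v) (fun x y => hf.add_left x y v) (fun c x => hf.smul_left c x v) u]
  simp only [sesq, dotProduct, Matrix.mulVec]
  apply Finset.sum_congr rfl
  intro i _
  congr 1
  rw [hf.herm (Pi.single i 1) v, expand_left (g := fun x => f x (Pi.single i 1)) (fun x y => hf.add_left x y _) (fun c x => hf.smul_left c x _) v, map_sum]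
  apply Finset.sum_congr rfl
  intro j _
  rw [map_mul, ← hf.herm, mul_comm]
  rfl

/-- An invertible matrix from non-degeneracy. -/
theorem exists_gl_of_nondeg {σ : F ≃+* F} {T : MM} (hnd : IsNondegenerateForm (sesq σ T)) :
    ∃ T' : GL (Fin n) F, (T' : MM) = T := by
  have hinj : Function.Injective T.mulVec := by
    show Function.Injective (Matrix.mulVecLin T)
    rw [injective_iff_map_eq_zero (Matrix.mulVecLin T)]
    intro v hv
    by_contra hv0
    have hv' : T *ᵥ v = 0 := hv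
    obtain ⟨x, hx⟩ := (hnd (fun i => σ.symm (v i)) (by
      intro h
      apply hv0
      funext i
      have := congrFun h i
      simpa using this)).1
    apply hx
    have h1 : (fun i => σ ((fun i => σ.symm (v i)) i)) = v := by
      funext i
      simp
    simp only [sesq]
    rw [h1, hv', dotProduct_zero]
  have h1 : IsUnit T := Matrix.mulVec_injective_iff_isUnit.1 hinj
  obtain ⟨u, hu⟩ := h1
  exact ⟨u, hu⟩

/-- Alternating forms exist only in even dimension. -/
theorem even_of_symp {f : (Fin n → F) → (Fin n → F) → F} (hf : IsSymplecticForm f) : Even n := by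
  let B : (Fin n → F) →ₗ[F] (Fin n → F) →ₗ[F] F :=
    LinearMap.mk₂ F f hf.bilinear.add_left hf.bilinear.smul_left hf.bilinear.add_right hf.bilinear.smul_right
  have hB : ∀ v w, B v w = f v w := fun v w => rfl
  have h1 := Cfsg.Agent.Lib.KnownSimple.even_finrank_range_of_alt B (fun v => hf.alternating v)
  have hinj : Function.Injective B := by
    rw [injective_iff_map_eq_zero B]
    intro v hv
    by_contra hv0
    obtain ⟨x, hx⟩ := (hf.nondegenerate v hv0).2
    apply hx
    rw [← hB, hv]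
    rfl
  rw [LinearMap.finrank_range_of_inj hinj, finrank_fin_fun] at h1
  exact h1

theorem bil_skew_symm {T : MM} (hT : Tᵀ = -T) (v w : Fin n → F) :
    sesq (RingEquiv.refl F) T v w = - sesq (RingEquiv.refl F) T w v := by
  simp only [sesq, RingEquiv.refl_apply]
  have h1 : w ⬝ᵥ T *ᵥ v = v ⬝ᵥ (Tᵀ *ᵥ w) := by
    rw [Matrix.mulVec_transpose, Matrix.dotProduct_mulVec, dotProduct_comm]
  rw [h1, hT, Matrix.neg_mulVec, dotProduct_neg, neg_neg]

theorem alt_of_skew {T : MM} (hT : Tᵀ = -T) (hd : ∀ i, T i i = 0) (v : Fin n → F) :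
    sesq (RingEquiv.refl F) T v v = 0 := by
  classical
  simp only [sesq, RingEquiv.refl_apply, dotProduct, Matrix.mulVec, Finset.mul_sum]
  rw [← Finset.sum_product']
  have hTij : ∀ i j, T i j + T j i = 0 := by
    intro i j
    have := congrFun (congrFun hT j) i
    simp only [Matrix.transpose_apply, Matrix.neg_apply] at this
    rw [this]
    ring
  apply Finset.sum_involution (fun p _ => Prod.swap p)
  · rintro ⟨i, j⟩ _
    simp only [Prod.swap]
    have := hTij i j
    linear_combination (v i * v j) * this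
  · rintro ⟨i, j⟩ _ h1 h2
    apply h1
    have h3 : i = j := congrArg Prod.fst (show (j, i) = (i, j) from h2) |>.symm
    subst h3
    simp [hd]
  · simp
  · simp

theorem symp_of_matrix (T : GL (Fin n) F) (hT : (T : MM)ᵀ = -(T : MM)) (hd : ∀ i, (T : MM) i i = 0) :
    IsSymplecticForm (sesq (RingEquiv.refl F) (T : MM)) := by
  refine ⟨⟨?_, ?_, ?_, ?_⟩, bil_skew_symm hT, alt_of_skew hT hd, sesq_nondeg _ T⟩
  · intro x y v
    simp [sesq, add_dotProduct]
  · intro c x v
    simp [sesq, smul_dotProduct]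
  · intro v x y
    simp only [sesq]
    rw [show (fun i => (RingEquiv.refl F) ((x + y) i)) = (fun i => (RingEquiv.refl F) (x i)) + (fun i => (RingEquiv.refl F) (y i)) from rfl, Matrix.mulVec_add, dotProduct_add]
  · intro c v x
    have h : (fun i => (RingEquiv.refl F) ((c • x) i)) = c • (fun i => (RingEquiv.refl F) (x i)) := by
      funext i
      simp
    simp only [sesq]
    rw [h, Matrix.mulVec_smul, dotProduct_smul, smul_eq_mul]

end base

section classes

variable {F : Type*} [Field F] [Fintype F] {n : ℕ}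

local notation "MM" => Matrix (Fin n) (Fin n) F

/-- A scalar multiple of an invertible matrix. -/
def smulGL {ι : Type} [Fintype ι] [DecidableEq ι] (c : Fˣ) (T : GL ι F) : GL ι F where
  val := (c : F) • (T : Matrix ι ι F)
  inv := ((c⁻¹ : Fˣ) : F) • ((T⁻¹ : GL ι F) : Matrix ι ι F)
  val_inv := by
    rw [Matrix.smul_mul, Matrix.mul_smul, smul_smul, Units.mul_inv, one_smul]
    exact Units.mul_inv _
  inv_val := by
    rw [Matrix.smul_mul, Matrix.mul_smul, smul_smul, Units.inv_mul, one_smul]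
    exact Units.inv_mul _

/-- Invariant non-degenerate forms give similarities. -/
theorem le_sim_of_fixes (hn : 0 < n) {N H : Subgroup (GL (Fin n) F)}
    (hN : ∀ M : MM, (∀ s ∈ matrixSet N, M * s = s * M) → ∃ c : F, M = c • 1)
    (hnorm : ∀ h ∈ H, ∀ x ∈ N, h * x * h⁻¹ ∈ N) {σ : F ≃+* F} {T₀ : MM} (hnd : IsNondegenerateForm (sesq σ T₀))
    (hfix : FixesForm (matrixSet N) (sesq σ T₀)) : H ≤ similarityGroup (sesq σ T₀) := by
  obtain ⟨T, rfl⟩ := exists_gl_of_nondeg hnd
  have hT : ∀ g ∈ N, (g : MM)ᵀ * T * (g : MM).map σ = T := by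
    intro g hg
    apply sesq_ext σ
    intro u v
    rw [← sesq_mul]
    exact hfix _ ⟨g, hg, rfl⟩ u v
  intro h hh
  obtain ⟨c, hc⟩ := sim_of_fixed hn hN hnorm σ T hT hh
  exact mem_similarity_of hc

theorem bad_of_fixes_symp (hn3 : 3 ≤ n) {N H : Subgroup (GL (Fin n) F)}
    (hN : ∀ M : MM, (∀ s ∈ matrixSet N, M * s = s * M) → ∃ c : F, M = c • 1)
    (hnorm : ∀ h ∈ H, ∀ x ∈ N, h * x * h⁻¹ ∈ N) {f : (Fin n → F) → (Fin n → F) → F} (hf : IsSymplecticForm f)
    (hfix : FixesForm (matrixSet N) f) : Bad H := by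
  have hfe : f = sesq (RingEquiv.refl F) (gramMatrix f) := funext₂ (bil_gram hf.bilinear)
  have he := even_of_symp hf
  have h4 : 4 ≤ n := by
    obtain ⟨k, rfl⟩ := he
    omega
  refine Bad.symp f hf he h4 ?_
  have h1 := le_sim_of_fixes (σ := RingEquiv.refl F) (T₀ := gramMatrix f) (by omega) hN hnorm (by rw [← hfe]; exact hf.nondegenerate) (by rw [← hfe]; exact hfix)
  rwa [← hfe] at h1

theorem bad_of_fixes_unit (hn3 : 3 ≤ n) {N H : Subgroup (GL (Fin n) F)}
    (hN : ∀ M : MM, (∀ s ∈ matrixSet N, M * s = s * M) → ∃ c : F, M = c • 1)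
    (hnorm : ∀ h ∈ H, ∀ x ∈ N, h * x * h⁻¹ ∈ N) {σ : F ≃+* F} {f : (Fin n → F) → (Fin n → F) → F} (hf : IsUnitaryForm σ f)
    (hfix : FixesForm (matrixSet N) f) : Bad H := by
  have hfe : f = sesq σ (gramMatrix f) := funext₂ (unit_gram hf)
  refine Bad.unit σ f hf hn3 ?_
  have h1 := le_sim_of_fixes (σ := σ) (T₀ := gramMatrix f) (by omega) hN hnorm (by rw [← hfe]; exact hf.nondegenerate) (by rw [← hfe]; exact hfix)
  rwa [← hfe] at h1

theorem odd_card_of_two_ne (h2 : (2 : F) ≠ 0) : Odd (Fintype.card F) := by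
  rw [Nat.odd_iff]
  apply FiniteField.odd_card_of_char_ne_two
  intro h
  apply h2
  have := ringChar.Nat.cast_ringChar (R := F)
  rw [h] at this
  exact_mod_cast this

theorem bad_of_fixes_quad (hn3 : 3 ≤ n) {N H : Subgroup (GL (Fin n) F)}
    (hN : ∀ M : MM, (∀ s ∈ matrixSet N, M * s = s * M) → ∃ c : F, M = c • 1)
    (hnorm : ∀ h ∈ H, ∀ x ∈ N, h * x * h⁻¹ ∈ N) {Q : (Fin n → F) → F} (hQ : IsNondegenerateQuadraticForm Q)
    (hfix : FixesQuadForm (matrixSet N) Q) : Bad H := by
  set f := QuadraticMap.polar Q with hf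
  have hfe : f = sesq (RingEquiv.refl F) (gramMatrix f) := funext₂ (bil_gram hQ.polar_bilinear)
  have hfix' : FixesForm (matrixSet N) f := by
    intro s hs u v
    simp only [hf, QuadraticMap.polar]
    rw [← Matrix.mulVec_add, hfix s hs, hfix s hs, hfix s hs]
  have hsim : H ≤ similarityGroup f := by
    have h1 := le_sim_of_fixes (σ := RingEquiv.refl F) (T₀ := gramMatrix f) (by omega) hN hnorm (by rw [← hfe]; exact hQ.nondegenerate) (by rw [← hfe]; exact hfix')
    rwa [← hfe] at h1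
  have hdiag : ∀ v, f v v = 2 * Q v := by
    intro v
    simp only [hf, QuadraticMap.polar]
    have : v + v = (2 : F) • v := by rw [two_smul]
    rw [this, hQ.smul]
    ring
  by_cases h2 : (2 : F) = 0
  · have hS : IsSymplecticForm f := by
      refine ⟨hQ.polar_bilinear, ?_, ?_, hQ.nondegenerate⟩
      · intro v w
        have h3 : f v w = f w v := QuadraticMap.polar_comm Q v w
        rw [h3]
        linear_combination (f w v) * h2
      · intro v
        rw [hdiag, h2, zero_mul]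
    have he := even_of_symp hS
    have h4 : 4 ≤ n := by
      obtain ⟨k, rfl⟩ := he
      omega
    exact Bad.symp f hS he h4 hsim
  · refine Bad.quad Q hQ (odd_card_of_two_ne h2) hn3 ?_
    intro h hh
    obtain ⟨c, hc⟩ := hsim hh
    refine ⟨c, fun v => ?_⟩
    have h1 := hc v v
    rw [hdiag, hdiag] at h1
    apply mul_left_cancel₀ h2
    rw [h1]
    ring

theorem quad_of_matrix (T : GL (Fin n) F) (hsym : (T : MM)ᵀ = T) (h2 : (2 : F) ≠ 0) :
    IsNondegenerateQuadraticForm (fun v => sesq (RingEquiv.refl F) (T : MM) v v) := by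
  have hsy : ∀ u v, sesq (RingEquiv.refl F) (T : MM) v u = sesq (RingEquiv.refl F) (T : MM) u v := by
    intro u v
    simp only [sesq, RingEquiv.refl_apply]
    conv_rhs => rw [← hsym, Matrix.mulVec_transpose, dotProduct_comm, ← Matrix.dotProduct_mulVec]
  have hadd1 : ∀ x y v, sesq (RingEquiv.refl F) (T : MM) (x + y) v = sesq (RingEquiv.refl F) (T : MM) x v + sesq (RingEquiv.refl F) (T : MM) y v := by
    intro x y v
    simp [sesq, add_dotProduct]
  have hsm1 : ∀ (c : F) x v, sesq (RingEquiv.refl F) (T : MM) (c • x) v = c * sesq (RingEquiv.refl F) (T : MM) x v := by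
    intro c x v
    simp [sesq, smul_dotProduct]
  have hadd2 : ∀ v x y, sesq (RingEquiv.refl F) (T : MM) v (x + y) = sesq (RingEquiv.refl F) (T : MM) v x + sesq (RingEquiv.refl F) (T : MM) v y := by
    intro v x y
    rw [hsy, hadd1, hsy x v, hsy y v]
  have hsm2 : ∀ (c : F) v x, sesq (RingEquiv.refl F) (T : MM) v (c • x) = c * sesq (RingEquiv.refl F) (T : MM) v x := by
    intro c v x
    rw [hsy, hsm1, hsy x v]
  have hpol : QuadraticMap.polar (fun v => sesq (RingEquiv.refl F) (T : MM) v v) = fun u v => 2 * sesq (RingEquiv.refl F) (T : MM) u v := by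
    funext u v
    simp only [QuadraticMap.polar]
    rw [hadd1, hadd2, hadd2, hsy v u]
    ring
  refine ⟨?_, ?_, ?_⟩
  · intro c v
    show sesq _ _ (c • v) (c • v) = c ^ 2 * sesq _ _ v v
    rw [hsm1, hsm2]
    ring
  · rw [hpol]
    refine ⟨?_, ?_, ?_, ?_⟩
    · intro x y v
      rw [hadd1]
      ring
    · intro c x v
      rw [hsm1]
      ring
    · intro v x y
      rw [hadd2]
      ring
    · intro c v x
      rw [hsm2]
      ring
  · rw [hpol]
    intro v hv
    obtain ⟨⟨x, hx⟩, ⟨y, hy⟩⟩ := sesq_nondeg (RingEquiv.refl F) T v hv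
    exact ⟨⟨x, mul_ne_zero h2 hx⟩, ⟨y, mul_ne_zero h2 hy⟩⟩

theorem mem_quadSim_of {T : MM} {h : GL (Fin n) F} {c : Fˣ}
    (hc : (h : MM)ᵀ * T * (h : MM).map (RingEquiv.refl F) = (c : F) • T) :
    h ∈ quadSimilarityGroup (fun v => sesq (RingEquiv.refl F) T v v) := by
  refine ⟨c, fun v => ?_⟩
  show sesq _ _ _ _ = _ * sesq _ _ _ _
  rw [sesq_mul, hc]
  simp [sesq, Matrix.smul_mulVec, dotProduct_smul]

/-- Invariant bilinear forms in odd characteristic. -/
theorem bad_of_invariant_refl (hn3 : 3 ≤ n) {N H : Subgroup (GL (Fin n) F)}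
    (hN : ∀ M : MM, (∀ s ∈ matrixSet N, M * s = s * M) → ∃ c : F, M = c • 1)
    (hnorm : ∀ h ∈ H, ∀ x ∈ N, h * x * h⁻¹ ∈ N) (h2 : (2 : F) ≠ 0) (T : GL (Fin n) F)
    (hT : ∀ g ∈ N, (g : MM)ᵀ * T * (g : MM).map (RingEquiv.refl F) = T) : Bad H := by
  have hn : 0 < n := by omega
  haveI : Nonempty (Fin n) := ⟨⟨0, hn⟩⟩
  have hT0 : (T : MM) ≠ 0 := by
    intro h
    have h1 : (T : MM) * ((T⁻¹ : GL (Fin n) F) : MM) = 1 := Units.mul_inv _
    rw [h, zero_mul] at h1
    exact zero_ne_one h1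
  obtain ⟨c, hc⟩ := form_unique hN (RingEquiv.refl F) T hT (T : MM)ᵀ (by
    intro g hg
    rw [map_refl]
    have := congrArg Matrix.transpose (hT g hg)
    rw [map_refl, Matrix.transpose_mul, Matrix.transpose_mul, Matrix.transpose_transpose] at this
    rw [← mul_assoc] at this
    exact this)
  have hcc : c * c = 1 := by
    have h1 := congrArg Matrix.transpose hc
    rw [Matrix.transpose_transpose, Matrix.transpose_smul, hc, smul_smul] at h1
    have h3 : (c * c - 1) • (T : MM) = 0 := by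
      rw [sub_smul, ← h1, one_smul, sub_self]
    have h4 := (smul_eq_zero.1 h3).resolve_right hT0
    linear_combination h4
  have hc12 : c = 1 ∨ c = -1 := by
    have : (c - 1) * (c + 1) = 0 := by linear_combination hcc
    rcases mul_eq_zero.1 this with h | h
    · left
      linear_combination h
    · right
      linear_combination h
  rcases hc12 with rfl | rfl
  · rw [one_smul] at hc
    refine Bad.quad _ (quad_of_matrix T hc h2) (odd_card_of_two_ne h2) hn3 ?_
    intro h hh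
    obtain ⟨u, hu⟩ := sim_of_fixed hn hN hnorm (RingEquiv.refl F) T hT hh
    exact mem_quadSim_of hu
  · rw [neg_one_smul] at hc
    have hd : ∀ i, (T : MM) i i = 0 := by
      intro i
      have h3 := congrFun (congrFun hc i) i
      simp only [Matrix.transpose_apply, Matrix.neg_apply] at h3
      have h4 : 2 * (T : MM) i i = 0 := by
        linear_combination h3
      exact (mul_eq_zero.1 h4).resolve_left h2
    have hS := symp_of_matrix T hc hd
    have he := even_of_symp hS
    have h4 : 4 ≤ n := by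
      obtain ⟨k, rfl⟩ := he
      omega
    refine Bad.symp _ hS he h4 ?_
    intro h hh
    obtain ⟨u, hu⟩ := sim_of_fixed hn hN hnorm (RingEquiv.refl F) T hT hh
    exact mem_similarity_of hu

theorem sesq_herm {σ : F ≃+* F} (hσ2 : ∀ a, σ (σ a) = a) {T : MM} (hH : (T.map σ)ᵀ = T) (v w : Fin n → F) :
    sesq σ T v w = σ (sesq σ T w v) := by
  simp only [sesq]
  have h1 : σ (w ⬝ᵥ T *ᵥ fun i => σ (v i)) = (fun i => σ (w i)) ⬝ᵥ ((T.map σ) *ᵥ v) := by
    simp only [dotProduct, Matrix.mulVec, map_sum, map_mul, hσ2, Matrix.map_apply]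
  rw [h1]
  conv_lhs => rw [← hH, Matrix.mulVec_transpose, dotProduct_comm, ← Matrix.dotProduct_mulVec]
  
/-- Invariant sesquilinear forms. -/
theorem bad_of_invariant_unit (hn3 : 3 ≤ n) {N H : Subgroup (GL (Fin n) F)}
    (hN : ∀ M : MM, (∀ s ∈ matrixSet N, M * s = s * M) → ∃ c : F, M = c • 1)
    (hnorm : ∀ h ∈ H, ∀ x ∈ N, h * x * h⁻¹ ∈ N) (σ : F ≃+* F) (hσ2 : ∀ a, σ (σ a) = a) (hσ1 : σ ≠ RingEquiv.refl F)
    (T : GL (Fin n) F) (hT : ∀ g ∈ N, (g : MM)ᵀ * T * (g : MM).map σ = T) : Bad H := by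
  have hn : 0 < n := by omega
  haveI : Nonempty (Fin n) := ⟨⟨0, hn⟩⟩
  have hT0 : (T : MM) ≠ 0 := by
    intro h
    have h1 : (T : MM) * ((T⁻¹ : GL (Fin n) F) : MM) = 1 := Units.mul_inv _
    rw [h, zero_mul] at h1
    exact zero_ne_one h1
  have hmm : ∀ M : MM, (M.map σ).map σ = M := by
    intro M
    ext i j
    simp [hσ2]
  obtain ⟨c, hc⟩ := form_unique hN σ T hT (((T : MM).map σ)ᵀ) (by
    intro g hg
    have h1 := congrArg (fun M : MM => (M.map σ)ᵀ) (hT g hg)
    simp only [Matrix.map_mul, hmm, Matrix.transpose_mul, Matrix.transpose_map] at h1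
    simp only [Matrix.transpose_map, Matrix.transpose_transpose] at h1 ⊢
    rw [← mul_assoc] at h1
    exact h1)
  have hcc : σ c * c = 1 := by
    have hL : (((T : MM).map σ)ᵀ.map σ)ᵀ = T := by
      ext i j
      simp [hσ2]
    have hR : ((c • (T : MM)).map σ)ᵀ = σ c • ((T : MM).map σ)ᵀ := by
      ext i j
      simp
    have h1 : (((T : MM).map σ)ᵀ.map σ)ᵀ = ((c • (T : MM)).map σ)ᵀ := congrArg (fun M : MM => (M.map σ)ᵀ) hc
    rw [hL, hR, hc, smul_smul] at h1
    have h3 : (σ c * c - 1) • (T : MM) = 0 := by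
      rw [sub_smul, ← h1, one_smul, sub_self]
    have h4 := (smul_eq_zero.1 h3).resolve_right hT0
    linear_combination h4
  obtain ⟨d, hd0, hd⟩ : ∃ d : F, d ≠ 0 ∧ σ d * c = d := by
    by_cases h1c : 1 + c = 0
    · have hc1 : c = -1 := by linear_combination h1c
      obtain ⟨a, ha⟩ : ∃ a, σ a ≠ a := by
        by_contra hcon
        push Not at hcon
        apply hσ1
        ext a
        exact hcon a
      refine ⟨a - σ a, sub_ne_zero.2 (Ne.symm ha), ?_⟩
      rw [map_sub, hσ2, hc1]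
      ring
    · refine ⟨1 + c, h1c, ?_⟩
      rw [map_add, map_one, add_mul, hcc]
      ring
  let T₂ : GL (Fin n) F := smulGL (Units.mk0 d hd0) T
  have hT₂v : (T₂ : MM) = d • (T : MM) := rfl
  have hH : ((T₂ : MM).map σ)ᵀ = (T₂ : MM) := by
    rw [hT₂v]
    have h2 : ((d • (T : MM)).map σ) = σ d • ((T : MM).map σ) := by
      ext i j
      simp
    rw [h2, Matrix.transpose_smul, hc, smul_smul, hd]
  have hT₂ : ∀ g ∈ N, (g : MM)ᵀ * T₂ * (g : MM).map σ = T₂ := by
    intro g hg
    rw [hT₂v, Matrix.mul_smul, Matrix.smul_mul, hT g hg]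
  have hU : IsUnitaryForm σ (sesq σ (T₂ : MM)) := by
    refine ⟨hσ1, hσ2, ?_, ?_, sesq_herm hσ2 hH, sesq_nondeg σ T₂⟩
    · intro x y v
      simp [sesq, add_dotProduct]
    · intro c x v
      simp [sesq, smul_dotProduct]
  refine Bad.unit σ _ hU hn3 ?_
  intro h hh
  obtain ⟨u, hu⟩ := sim_of_fixed hn hN hnorm σ T₂ hT₂ hh
  exact mem_similarity_of hu

/-- The invertible matrix of the symplectic form in dimension two. -/
def J2 (F : Type*) [Field F] : GL (Fin 2) F where
  val := !![0, 1; -1, 0]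
  inv := !![0, -1; 1, 0]
  val_inv := by
    ext i j
    fin_cases i <;> fin_cases j <;> simp [Matrix.mul_apply, Fin.sum_univ_two]
  inv_val := by
    ext i j
    fin_cases i <;> fin_cases j <;> simp [Matrix.mul_apply, Fin.sum_univ_two]

theorem J2_conj (A : Matrix (Fin 2) (Fin 2) F) :
    Aᵀ * ((J2 F : GL (Fin 2) F) : Matrix (Fin 2) (Fin 2) F) * A = A.det • ((J2 F : GL (Fin 2) F) : Matrix (Fin 2) (Fin 2) F) := by
  ext i j
  fin_cases i <;> fin_cases j <;> simp [J2, Matrix.mul_apply, Fin.sum_univ_two, Matrix.det_fin_two] <;> ring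

theorem tensorMat_scalar {κ : Type} [Fintype κ] [DecidableEq κ] {d : κ → ℕ} (c : κ → F) (B : ∀ i, Matrix (Fin (d i)) (Fin (d i)) F) :
    tensorMat (fun i => c i • B i) = (∏ i, c i) • tensorMat B := by
  ext x y
  simp [tensorMat, Finset.prod_mul_distrib]

theorem reindex_transpose {ι κ : Type} [Fintype ι] [DecidableEq ι] [Fintype κ] [DecidableEq κ] (e : κ ≃ ι) (M : Matrix κ κ F) :
    (Matrix.reindexAlgEquiv F F e M)ᵀ = Matrix.reindexAlgEquiv F F e Mᵀ := by
  ext i j
  simp [Matrix.reindexAlgEquiv_apply]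

theorem permMat_transpose {t m : ℕ} (π : Equiv.Perm (Fin t)) :
    (permMat (F := F) (m := m) π)ᵀ = permMat π⁻¹ := by
  ext x y
  simp only [Matrix.transpose_apply, permMat, Matrix.of_apply]
  have h : (x = y ∘ ⇑π) ↔ (y = x ∘ ⇑π⁻¹) := by
    constructor
    · rintro rfl
      funext j
      simp
    · rintro rfl
      funext j
      simp
  by_cases h1 : x = y ∘ ⇑π
  · rw [if_pos h1, if_pos (h.1 h1)]
  · rw [if_neg h1, if_neg (fun h2 => h1 (h.2 h2))]

/-- Groups of tensors of two-dimensional factors lie in a form class. -/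
theorem bad_of_wreath2 (hn3 : 3 ≤ n) {t : ℕ} (ht : 2 ≤ t) {H : Subgroup (GL (Fin n) F)} (e : Fin n ≃ (Fin t → Fin 2)) (P : GL (Fin n) F)
    (hform : ∀ h ∈ H, ∃ (π : Equiv.Perm (Fin t)) (B' : Fin t → GL (Fin 2) F),
      h = P * glReindex e.symm (permGL π * tensorGL (d := fun _ => 2) B') * P⁻¹) : Bad H := by
  classical
  have hn : 0 < n := by omega
  haveI : Nonempty (Fin t) := ⟨⟨0, by omega⟩⟩
  let J : Matrix (Fin 2) (Fin 2) F := ((J2 F : GL (Fin 2) F) : Matrix (Fin 2) (Fin 2) F)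
  let T₀G : GL (Fin t → Fin 2) F := tensorGL (d := fun _ => 2) (fun _ => J2 F)
  let Ψ := Matrix.reindexAlgEquiv F F e.symm
  let T₀ : Matrix (Fin t → Fin 2) (Fin t → Fin 2) F := (T₀G : Matrix (Fin t → Fin 2) (Fin t → Fin 2) F)
  have hT₀ : T₀ = tensorMat (d := fun _ => 2) (fun _ => J) := rfl
  -- the transposition behaviour
  have hJt : Jᵀ = (-1 : F) • J := by
    ext i j
    fin_cases i <;> fin_cases j <;> simp [J, J2]
  have hT₀t : T₀ᵀ = (-1 : F) ^ t • T₀ := by
    rw [hT₀, tensorMat_transpose]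
    simp only [hJt]
    have := tensorMat_scalar (d := fun _ : Fin t => 2) (fun _ => (-1 : F)) (fun _ => J)
    simpa using this
  have hT₀d : ∀ x, T₀ x x = 0 := by
    intro x
    rw [hT₀]
    simp only [tensorMat, Matrix.of_apply]
    apply Finset.prod_eq_zero (Finset.mem_univ ⟨0, by omega⟩)
    have : ∀ a : Fin 2, J a a = 0 := by
      intro a
      fin_cases a <;> simp [J, J2]
    exact this _
  -- the behaviour under the group
  have hs : ∀ (π : Equiv.Perm (Fin t)) (B' : Fin t → GL (Fin 2) F), ∃ c : Fˣ,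
      ((permGL π * tensorGL (d := fun _ => 2) B' : GL (Fin t → Fin 2) F) : Matrix (Fin t → Fin 2) (Fin t → Fin 2) F)ᵀ * T₀ *
        ((permGL π * tensorGL (d := fun _ => 2) B' : GL (Fin t → Fin 2) F) : Matrix (Fin t → Fin 2) (Fin t → Fin 2) F) = (c : F) • T₀ := by
    intro π B'
    let B₀ : Matrix (Fin t → Fin 2) (Fin t → Fin 2) F := tensorMat (d := fun _ => 2) (fun i => ((B' i : GL (Fin 2) F) : Matrix (Fin 2) (Fin 2) F))
    have hval : ((permGL π * tensorGL (d := fun _ => 2) B' : GL (Fin t → Fin 2) F) : Matrix (Fin t → Fin 2) (Fin t → Fin 2) F) = permMat π * B₀ := rfl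
    rw [hval, Matrix.transpose_mul, permMat_transpose]
    have hperm : permMat (F := F) (m := 2) π⁻¹ * T₀ * permMat π = T₀ := by
      ext x y
      rw [mul_permMat_apply, permMat_mul_apply, hT₀]
      simp only [tensorMat, Matrix.of_apply, Function.comp_apply]
      exact Equiv.prod_comp π⁻¹ (fun i => J (x i) (y i))
    have hdet : ∀ i, ((B' i : GL (Fin 2) F) : Matrix (Fin 2) (Fin 2) F).det ≠ 0 := fun i => by
      have := (Matrix.isUnit_iff_isUnit_det _).1 (B' i).isUnit
      exact this.ne_zero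
    refine ⟨Units.mk0 (∏ i, ((B' i : GL (Fin 2) F) : Matrix (Fin 2) (Fin 2) F).det) (Finset.prod_ne_zero_iff.2 fun i _ => hdet i), ?_⟩
    calc B₀ᵀ * permMat π⁻¹ * T₀ * (permMat π * B₀) = B₀ᵀ * (permMat π⁻¹ * T₀ * permMat π) * B₀ := by
          simp only [mul_assoc]
      _ = B₀ᵀ * T₀ * B₀ := by rw [hperm]
      _ = _ := by
          simp only [B₀]
          rw [tensorMat_transpose, hT₀, tensorMat_mul, tensorMat_mul]
          simp only [J]
          simp only [J2_conj]
          have := tensorMat_scalar (d := fun _ : Fin t => 2) (fun i => ((B' i : GL (Fin 2) F) : Matrix (Fin 2) (Fin 2) F).det) (fun _ => ((J2 F : GL (Fin 2) F) : Matrix (Fin 2) (Fin 2) F))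
          exact this
  -- the transported form
  let Q : GL (Fin n) F := P⁻¹
  let Qt : MM := (Q : MM)ᵀ
  let T' : MM := Ψ T₀
  let T₁ : GL (Fin n) F :=
    { val := (Q : MM)ᵀ * T' * Q
      inv := ((Q⁻¹ : GL (Fin n) F) : MM) * Ψ (((T₀G⁻¹ : GL (Fin t → Fin 2) F)) : Matrix (Fin t → Fin 2) (Fin t → Fin 2) F) * ((Q⁻¹ : GL (Fin n) F) : MM)ᵀ
      val_inv := by
        have h1 : T' * Ψ (((T₀G⁻¹ : GL (Fin t → Fin 2) F)) : Matrix (Fin t → Fin 2) (Fin t → Fin 2) F) = 1 := by
          simp only [T']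
          rw [← map_mul, hT₀]
          have : T₀G.1 * ((T₀G⁻¹ : GL (Fin t → Fin 2) F)).1 = 1 := Units.mul_inv _
          exact (congrArg Ψ this).trans (map_one Ψ)
        have h2 : ((Q⁻¹ : GL (Fin n) F) : MM)ᵀ * (Q : MM)ᵀ = 1 := by
          rw [← Matrix.transpose_mul, Units.mul_inv, Matrix.transpose_one]
        calc (Q : MM)ᵀ * T' * Q * (((Q⁻¹ : GL (Fin n) F) : MM) * Ψ (((T₀G⁻¹ : GL (Fin t → Fin 2) F)) : Matrix (Fin t → Fin 2) (Fin t → Fin 2) F) * ((Q⁻¹ : GL (Fin n) F) : MM)ᵀ)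
            = (Q : MM)ᵀ * (T' * ((Q : MM) * ((Q⁻¹ : GL (Fin n) F) : MM)) * Ψ (((T₀G⁻¹ : GL (Fin t → Fin 2) F)) : Matrix (Fin t → Fin 2) (Fin t → Fin 2) F)) * ((Q⁻¹ : GL (Fin n) F) : MM)ᵀ := by
              simp only [mul_assoc]
          _ = (Q : MM)ᵀ * ((Q⁻¹ : GL (Fin n) F) : MM)ᵀ := by
              rw [Units.mul_inv, mul_one, h1, mul_one]
          _ = 1 := by
              rw [← Matrix.transpose_mul, Units.inv_mul, Matrix.transpose_one]
      inv_val := by
        have h1 : Ψ (((T₀G⁻¹ : GL (Fin t → Fin 2) F)) : Matrix (Fin t → Fin 2) (Fin t → Fin 2) F) * T' = 1 := by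
          simp only [T']
          rw [← map_mul, hT₀]
          have : ((T₀G⁻¹ : GL (Fin t → Fin 2) F)).1 * T₀G.1 = 1 := Units.inv_mul _
          exact (congrArg Ψ this).trans (map_one Ψ)
        calc ((Q⁻¹ : GL (Fin n) F) : MM) * Ψ (((T₀G⁻¹ : GL (Fin t → Fin 2) F)) : Matrix (Fin t → Fin 2) (Fin t → Fin 2) F) * ((Q⁻¹ : GL (Fin n) F) : MM)ᵀ * ((Q : MM)ᵀ * T' * Q)
            = ((Q⁻¹ : GL (Fin n) F) : MM) * (Ψ (((T₀G⁻¹ : GL (Fin t → Fin 2) F)) : Matrix (Fin t → Fin 2) (Fin t → Fin 2) F) * (((Q⁻¹ : GL (Fin n) F) : MM)ᵀ * (Q : MM)ᵀ) * T') * Q := by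
              simp only [mul_assoc]
          _ = ((Q⁻¹ : GL (Fin n) F) : MM) * Q := by
              rw [← Matrix.transpose_mul, Units.mul_inv, Matrix.transpose_one, mul_one, h1, mul_one]
          _ = 1 := Units.inv_mul _ }
  have hT₁v : (T₁ : MM) = (Q : MM)ᵀ * T' * Q := rfl
  -- similarity of the transported form
  have hsim : ∀ h ∈ H, ∃ c : Fˣ, (h : MM)ᵀ * T₁ * (h : MM).map (RingEquiv.refl F) = (c : F) • (T₁ : MM) := by
    intro h hh
    obtain ⟨π, B', rfl⟩ := hform h hh
    obtain ⟨c, hc⟩ := hs π B'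
    refine ⟨c, ?_⟩
    rw [map_refl, hT₁v]
    set s : GL (Fin t → Fin 2) F := permGL π * tensorGL (d := fun _ => 2) B' with hs'
    have hGv : ((glReindex e.symm s : GL (Fin n) F) : MM) = Ψ (s : Matrix (Fin t → Fin 2) (Fin t → Fin 2) F) := rfl
    have hPQ : ((P⁻¹ : GL (Fin n) F) : MM) = (Q : MM) := rfl
    simp only [Units.val_mul, Matrix.transpose_mul, hGv, hPQ]
    have hQP : (P : MM)ᵀ * (Q : MM)ᵀ = 1 := by
      rw [← Matrix.transpose_mul]
      show ((Q : MM) * (P : MM))ᵀ = 1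
      rw [show (Q : MM) * (P : MM) = 1 from Units.inv_mul P, Matrix.transpose_one]
    have hQP' : (Q : MM) * (P : MM) = 1 := Units.inv_mul P
    have h3 : (Ψ (s : Matrix (Fin t → Fin 2) (Fin t → Fin 2) F))ᵀ * T' * Ψ (s : Matrix (Fin t → Fin 2) (Fin t → Fin 2) F) = (c : F) • T' := by
      simp only [T']
      rw [reindex_transpose, ← map_mul, ← map_mul, hc, map_smul]
    calc (Q : MM)ᵀ * ((Ψ (s : Matrix (Fin t → Fin 2) (Fin t → Fin 2) F))ᵀ * (P : MM)ᵀ) * ((Q : MM)ᵀ * T' * (Q : MM)) * ((P : MM) * Ψ (s : Matrix (Fin t → Fin 2) (Fin t → Fin 2) F) * (Q : MM))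
        = (Q : MM)ᵀ * ((Ψ (s : Matrix (Fin t → Fin 2) (Fin t → Fin 2) F))ᵀ * ((P : MM)ᵀ * (Q : MM)ᵀ) * T' * ((Q : MM) * (P : MM)) * Ψ (s : Matrix (Fin t → Fin 2) (Fin t → Fin 2) F)) * (Q : MM) := by
          simp only [mul_assoc]
      _ = (Q : MM)ᵀ * ((Ψ (s : Matrix (Fin t → Fin 2) (Fin t → Fin 2) F))ᵀ * T' * Ψ (s : Matrix (Fin t → Fin 2) (Fin t → Fin 2) F)) * (Q : MM) := by
          rw [hQP, hQP', mul_one, mul_one]
      _ = _ := by
          rw [h3, Matrix.mul_smul, Matrix.smul_mul]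
  have hT₁t : (T₁ : MM)ᵀ = (-1 : F) ^ t • (T₁ : MM) := by
    rw [hT₁v, Matrix.transpose_mul, Matrix.transpose_mul, Matrix.transpose_transpose]
    have h4 : T'ᵀ = (-1 : F) ^ t • T' := by
      simp only [T']
      rw [reindex_transpose, hT₀t, map_smul]
    rw [h4]
    simp only [Matrix.smul_mul, Matrix.mul_smul, mul_assoc]
  by_cases hcase : (-1 : F) ^ t = -1
  · -- alternating
    rw [hcase, neg_one_smul] at hT₁t
    have hT't : T'ᵀ = -T' := by
      simp only [T']
      rw [reindex_transpose, hT₀t, hcase, neg_one_smul, map_neg]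
    have hT'd : ∀ k, T' k k = 0 := by
      intro k
      simp only [T', Ψ, Matrix.reindexAlgEquiv_apply, Matrix.reindex_apply, Matrix.submatrix_apply, Equiv.symm_symm]
      exact hT₀d _
    have hd : ∀ i, (T₁ : MM) i i = 0 := by
      intro i
      have h5 := sesq_mul (RingEquiv.refl F) T' (Q : MM) (Pi.single i 1) (Pi.single i 1)
      rw [map_refl, ← hT₁v, sesq_single] at h5
      rw [← h5]
      exact alt_of_skew hT't hT'd _
    have hS := symp_of_matrix T₁ hT₁t hd
    have he := even_of_symp hS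
    have h4 : 4 ≤ n := by
      obtain ⟨k, rfl⟩ := he
      omega
    refine Bad.symp _ hS he h4 ?_
    intro h hh
    obtain ⟨u, hu⟩ := hsim h hh
    exact mem_similarity_of hu
  · have h2 : (2 : F) ≠ 0 := by
      intro h2
      apply hcase
      have h1 : (-1 : F) = 1 := by linear_combination (-1 : F) * h2
      rw [h1, one_pow]
    have hsq : (-1 : F) ^ t = 1 := by
      rcases neg_one_pow_eq_or F t with h | h
      · exact h
      · exact absurd h hcase
    rw [hsq, one_smul] at hT₁t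
    refine Bad.quad _ (quad_of_matrix T₁ hT₁t h2) (odd_card_of_two_ne h2) hn3 ?_
    intro h hh
    obtain ⟨u, hu⟩ := hsim h hh
    exact mem_quadSim_of hu

end classes

end Cfsg.Agent.Lib.ClassMax.Asch
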