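import Mathlib
import Cfsg.Agent.Lib.ClassMax.Asch6

/-!
Normal subgroups of groups outside the classes act absolutely irreducibly.
-/

set_option autoImplicit false
set_option linter.unusedSimpArgs false
set_option linter.unusedVariables false
set_option linter.unusedSectionVars false
set_option linter.unusedFintypeInType false
set_option linter.unusedDecidableInType false

namespace Cfsg.Agent.Lib.ClassMax.Asch

open Module Matrix Cfsg.Geo

section

variable {F : Type*} [Field F] {n : ℕ}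

local notation "MM" => Matrix (Fin n) (Fin n) F

/-- Automorphisms of matrix subalgebras induced by conjugation are inner. -/
theorem exists_conj_inner {a : ℕ} (ha : 0 < a) {A A' : Subalgebra F MM} (θ : Matrix (Fin a) (Fin a) F ≃ₐ[F] A)
    (θ' : Matrix (Fin a) (Fin a) F ≃ₐ[F] A') (g : GL (Fin n) F)
    (hg : ∀ x ∈ A, (g : MM) * x * ((g⁻¹ : GL (Fin n) F) : MM) ∈ A') :
    ∃ B : GL (Fin a) F, ∀ X, (g : MM) * (θ X : MM) = (θ' ((B : Matrix (Fin a) (Fin a) F) * X * ((B⁻¹ : GL (Fin a) F) : Matrix (Fin a) (Fin a) F)) : MM) * (g : MM) := by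
  let φ : Matrix (Fin a) (Fin a) F →ₐ[F] Matrix (Fin a) (Fin a) F :=
    { toFun := fun X => θ'.symm ⟨(g : MM) * (θ X : MM) * ((g⁻¹ : GL (Fin n) F) : MM), hg _ (θ X).2⟩
      map_one' := by
        apply θ'.injective
        apply Subtype.ext
        simp
      map_mul' := by
        intro X Y
        apply θ'.injective
        apply Subtype.ext
        simp only [AlgEquiv.apply_symm_apply, map_mul, Subalgebra.coe_mul]
        exact conj_mul_conj g _ _
      map_zero' := by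
        apply θ'.injective
        apply Subtype.ext
        simp
      map_add' := by
        intro X Y
        apply θ'.injective
        apply Subtype.ext
        simp [mul_add, add_mul]
      commutes' := by
        intro r
        apply θ'.injective
        apply Subtype.ext
        simp only [AlgEquiv.apply_symm_apply, AlgEquiv.commutes]
        show (g : MM) * (algebraMap F MM r) * ((g⁻¹ : GL (Fin n) F) : MM) = algebraMap F MM r
        rw [Algebra.algebraMap_eq_smul_one, mul_smul_comm, smul_mul_assoc, mul_one, Units.mul_inv] }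
  have hφ : ∀ X, (θ' (φ X) : MM) = (g : MM) * (θ X : MM) * ((g⁻¹ : GL (Fin n) F) : MM) := by
    intro X
    show (θ' (θ'.symm _) : MM) = _
    rw [AlgEquiv.apply_symm_apply]
  obtain ⟨B, hB⟩ := skolem_noether ha φ
  refine ⟨B, fun X => ?_⟩
  have h1 : (B : Matrix (Fin a) (Fin a) F) * X * ((B⁻¹ : GL (Fin a) F) : Matrix (Fin a) (Fin a) F) = φ X := by
    rw [← hB, mul_assoc, Units.mul_inv, mul_one]
  rw [h1, hφ, mul_assoc, Units.inv_mul, mul_one]

theorem coe_surj {a : ℕ} {A : Subalgebra F MM} (θ : Matrix (Fin a) (Fin a) F ≃ₐ[F] A) {x : MM} (hx : x ∈ A) :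
    ∃ X, (θ X : MM) = x := by
  obtain ⟨X, hX⟩ := θ.surjective ⟨x, hx⟩
  exact ⟨X, by rw [hX]⟩

/-- A matrix commuting with everything is scalar. -/
theorem scalar_of_comm_all {Y : MM} (h : ∀ x : MM, Y * x = x * Y) : ∃ c : F, Y = c • 1 := by
  obtain ⟨c, hc⟩ := Matrix.mem_range_scalar_of_commute_single (M := Y) (fun i j _ => (h _).symm)
  refine ⟨c, ?_⟩
  rw [← hc]
  ext i j
  simp [Matrix.scalar_apply, Matrix.smul_apply, Matrix.one_apply, Matrix.diagonal_apply]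

/-- Invariance under generators gives invariance under the algebra. -/
theorem inv_adjoin {S : Set MM} {W : Submodule F (Fin n → F)} (hW : ∀ s ∈ S, ∀ w ∈ W, s *ᵥ w ∈ W) {x : MM} (hx : x ∈ Algebra.adjoin F S) :
    ∀ w ∈ W, x *ᵥ w ∈ W := by
  induction hx using Algebra.adjoin_induction with
  | mem x hx => exact hW x hx
  | algebraMap r =>
    intro w hw
    rw [Algebra.algebraMap_eq_smul_one, Matrix.smul_mulVec, Matrix.one_mulVec]
    exact Submodule.smul_mem _ _ hw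
  | add x y _ _ hx hy =>
    intro w hw
    rw [Matrix.add_mulVec]
    exact Submodule.add_mem _ (hx w hw) (hy w hw)
  | mul x y _ _ hx hy =>
    intro w hw
    rw [← Matrix.mulVec_mulVec]
    exact hx _ (hy w hw)

/-- Commuting with generators gives commuting with the algebra. -/
theorem comm_adjoin {S : Set MM} {Y : MM} (hY : ∀ s ∈ S, Y * s = s * Y) {x : MM} (hx : x ∈ Algebra.adjoin F S) :
    Y * x = x * Y := by
  induction hx using Algebra.adjoin_induction with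
  | mem x hx => exact hY x hx
  | algebraMap r =>
    rw [Algebra.algebraMap_eq_smul_one, Matrix.mul_smul, Matrix.smul_mul, one_mul, mul_one]
  | add x y _ _ hx hy =>
    rw [mul_add, add_mul, hx, hy]
  | mul x y _ _ hx hy =>
    rw [← mul_assoc, hx, mul_assoc, hy, mul_assoc]

/-- Subspaces invariant under the full matrix algebra are trivial. -/
theorem triv_of_all_inv {W : Submodule F (Fin n → F)} (hW : ∀ x : MM, ∀ w ∈ W, x *ᵥ w ∈ W) : W = ⊥ ∨ W = ⊤ := by
  by_cases hb : W = ⊥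
  · exact Or.inl hb
  right
  obtain ⟨w, hw, hw0⟩ := Submodule.exists_mem_ne_zero_of_ne_bot hb
  rw [eq_top_iff]
  rintro v -
  obtain ⟨X, rfl⟩ := exists_mat_mulVec hw0 v
  exact hW X w hw

theorem irr_of_adjoin_top {S : Set MM} (hS : Algebra.adjoin F S = ⊤) : ActsIrreducibly S := by
  intro W hW
  apply triv_of_all_inv
  intro x w hw
  refine inv_adjoin (S := S) (W := W) ?_ (x := x) (by rw [hS]; trivial) w hw
  intro s hs w hw
  exact hW s hs ⟨w, hw, rfl⟩

end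

section main

variable {F : Type*} [Field F] [Fintype F] {n : ℕ}

local notation "MM" => Matrix (Fin n) (Fin n) F

/-- Subalgebras with scalar centre normalised by an irreducible group are matrix algebras. -/
theorem alg_matrix (hn : 0 < n) {G : Subgroup (GL (Fin n) F)} (hirr : ActsIrreducibly (matrixSet G)) {A : Subalgebra F MM}
    (hA : ConjClosed G A) (hcen : ∀ x ∈ A, (∀ y ∈ A, x * y = y * x) → ∃ c : F, x = c • 1) :
    ∃ a : ℕ, 0 < a ∧ Nonempty (Matrix (Fin a) (Fin a) F ≃ₐ[F] A) := by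
  haveI : Nonempty (Fin n) := ⟨⟨0, hn⟩⟩
  haveI : Nontrivial A := ⟨⟨0, 1, fun h => zero_ne_one (α := MM) (congrArg Subtype.val h)⟩⟩
  apply matrix_of_central (jacobson_eq_bot_of_conj hn hirr hA)
  intro x hx
  obtain ⟨c, hc⟩ := hcen x.1 x.2 (fun y hy => congrArg Subtype.val (hx ⟨y, hy⟩))
  refine ⟨c, Subtype.ext ?_⟩
  rw [hc]
  show _ = algebraMap F MM c
  rw [Algebra.algebraMap_eq_smul_one]

/-- Normal subgroups with scalar commutant generate the matrix algebra. -/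
theorem adjoin_top_of_comm (hn : 0 < n) {H N : Subgroup (GL (Fin n) F)} (hirr : ActsIrreducibly (matrixSet H))
    (hnorm : ∀ h ∈ H, ∀ x ∈ N, h * x * h⁻¹ ∈ N)
    (hC : ∀ M : MM, (∀ s ∈ matrixSet N, M * s = s * M) → ∃ c : F, M = c • 1) : Algebra.adjoin F (matrixSet N) = ⊤ := by
  have hconj : ConjClosed H (Algebra.adjoin F (matrixSet N)) := by
    apply conjClosed_adjoin
    rintro g hg _ ⟨y, hy, rfl⟩
    exact ⟨g * y * g⁻¹, hnorm g hg y hy, by simp⟩
  obtain ⟨a, ha, ⟨θ⟩⟩ := alg_matrix hn hirr hconj (by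
    intro x hx hcen
    apply hC
    intro s hs
    exact hcen s (Algebra.subset_adjoin hs))
  exact eq_top_of_matrix hn ha _ θ (fun Y hY => hC Y (fun s hs => hY s (Algebra.subset_adjoin hs)))

theorem absirr_of_comm (hn : 0 < n) {H N : Subgroup (GL (Fin n) F)} (hirr : ActsIrreducibly (matrixSet H))
    (hnorm : ∀ h ∈ H, ∀ x ∈ N, h * x * h⁻¹ ∈ N)
    (hC : ∀ M : MM, (∀ s ∈ matrixSet N, M * s = s * M) → ∃ c : F, M = c • 1) : ActsAbsolutelyIrreducibly (matrixSet N) :=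
  ⟨irr_of_adjoin_top (adjoin_top_of_comm hn hirr hnorm hC), hC⟩

/-- Two commuting matrix algebras of different size normalised by a group. -/
theorem tp_of_two {a m : ℕ} (ha : 2 ≤ a) (hlt : a < m) (hn3 : 3 ≤ n) {H : Subgroup (GL (Fin n) F)} {A₁ A₂ : Subalgebra F MM}
    (θ₁ : Matrix (Fin a) (Fin a) F ≃ₐ[F] A₁) (θ₂ : Matrix (Fin m) (Fin m) F ≃ₐ[F] A₂)
    (hcomm : ∀ x ∈ A₁, ∀ y ∈ A₂, x * y = y * x)
    (hirr : ∀ W : Submodule F (Fin n → F), (∀ x ∈ A₁, ∀ w ∈ W, x *ᵥ w ∈ W) → (∀ x ∈ A₂, ∀ w ∈ W, x *ᵥ w ∈ W) → W = ⊥ ∨ W = ⊤)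
    (hc : ∀ Y : MM, (∀ x ∈ A₁, Y * x = x * Y) → (∀ x ∈ A₂, Y * x = x * Y) → ∃ c : F, Y = c • 1)
    (hconj₁ : ConjClosed H A₁) (hconj₂ : ConjClosed H A₂) : Bad H := by
  classical
  have hn : 0 < n := by omega
  let d : Fin 2 → ℕ := ![a, m]
  let t₁ : Matrix (Fin a) (Fin a) F →ₐ[F] MM := A₁.val.comp θ₁.toAlgHom
  let t₂ : Matrix (Fin m) (Fin m) F →ₐ[F] MM := A₂.val.comp θ₂.toAlgHom
  let θ : ∀ i : Fin 2, Matrix (Fin (d i)) (Fin (d i)) F →ₐ[F] MM :=
    (piFinTwoEquiv (fun i : Fin 2 => Matrix (Fin (d i)) (Fin (d i)) F →ₐ[F] MM)).symm (t₁, t₂)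
  have hθ0 : ∀ X, θ 0 X = t₁ X := fun X => rfl
  have hθ1 : ∀ X, θ 1 X = t₂ X := fun X => rfl
  have ht₁ : ∀ X, t₁ X ∈ A₁ := fun X => (θ₁ X).2
  have ht₂ : ∀ X, t₂ X ∈ A₂ := fun X => (θ₂ X).2
  have hcm : ∀ i j : Fin 2, i ≠ j → ∀ X Y, θ i X * θ j Y = θ j Y * θ i X := by
    intro i j hij X Y
    fin_cases i <;> fin_cases j
    · exact absurd rfl hij
    · exact hcomm _ (ht₁ X) _ (ht₂ Y)
    · exact (hcomm _ (ht₁ Y) _ (ht₂ X)).symm
    · exact absurd rfl hij
  have hd : ∀ i, 0 < d i := by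
    intro i
    fin_cases i
    · show 0 < a
      omega
    · show 0 < m
      omega
  obtain ⟨e, P, hP⟩ := tensor_frame (θ := θ) hn hd hcm (by
    intro W hW
    apply hirr W
    · intro x hx w hw
      obtain ⟨X, rfl⟩ := coe_surj θ₁ hx
      exact hW 0 X w hw
    · intro x hx w hw
      obtain ⟨X, rfl⟩ := coe_surj θ₂ hx
      exact hW 1 X w hw)
  have hc' : ∀ Y : MM, (∀ i X, Y * θ i X = θ i X * Y) → ∃ c : F, Y = c • 1 := by
    intro Y hY
    apply hc Y
    · intro x hx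
      obtain ⟨X, rfl⟩ := coe_surj θ₁ hx
      exact hY 0 X
    · intro x hx
      obtain ⟨X, rfl⟩ := coe_surj θ₂ hx
      exact hY 1 X
  let e' : Fin n ≃ Fin a × Fin m := e.trans (piFinTwoEquiv (fun i : Fin 2 => Fin (d i)))
  refine Bad.tp e' P ha hlt ?_
  intro h hh
  obtain ⟨B₁, hB₁⟩ := exists_conj_inner (by omega) θ₁ θ₁ h (hconj₁ h hh)
  obtain ⟨B₂, hB₂⟩ := exists_conj_inner (by omega) θ₂ θ₂ h (hconj₂ h hh)
  let B : ∀ i : Fin 2, GL (Fin (d i)) F := (piFinTwoEquiv (fun i : Fin 2 => GL (Fin (d i)) F)).symm (B₁, B₂)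
  obtain ⟨B', hB'⟩ := conj_lift_eq (θ := θ) hP hc' h B (by
    intro i X
    fin_cases i
    · exact hB₁ X
    · exact hB₂ X)
  let g : GL (Fin a × Fin m) F := glReindex (piFinTwoEquiv (fun i : Fin 2 => Fin (d i))) (tensorGL B')
  have hg : g ∈ kroneckerSubgroup a m F := by
    refine ⟨B' 0, B' 1, ?_⟩
    ext ⟨x₀, x₁⟩ ⟨y₀, y₁⟩
    show tensorMat (d := d) (fun i => ((B' i : GL (Fin (d i)) F) : Matrix (Fin (d i)) (Fin (d i)) F)) _ _ = _
    simp only [tensorMat, Matrix.of_apply, Fin.prod_univ_two, Matrix.kroneckerMap_apply]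
    rfl
  refine ⟨_, ⟨g, hg, rfl⟩, ?_⟩
  rw [hB']
  show P * (glReindex e'.symm g) * P⁻¹ = _
  congr 2

/-- Two commuting matrix algebras of the same size normalised by a group. -/
theorem tw_of_two {a : ℕ} (ha : 2 ≤ a) (hn3 : 3 ≤ n) {H : Subgroup (GL (Fin n) F)} {A₁ A₂ : Subalgebra F MM}
    (θ₁ : Matrix (Fin a) (Fin a) F ≃ₐ[F] A₁) (θ₂ : Matrix (Fin a) (Fin a) F ≃ₐ[F] A₂)
    (hcomm : ∀ x ∈ A₁, ∀ y ∈ A₂, x * y = y * x)
    (hirr : ∀ W : Submodule F (Fin n → F), (∀ x ∈ A₁, ∀ w ∈ W, x *ᵥ w ∈ W) → (∀ x ∈ A₂, ∀ w ∈ W, x *ᵥ w ∈ W) → W = ⊥ ∨ W = ⊤)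
    (hc : ∀ Y : MM, (∀ x ∈ A₁, Y * x = x * Y) → (∀ x ∈ A₂, Y * x = x * Y) → ∃ c : F, Y = c • 1)
    (hconj₁ : ConjClosed H A₁) (hconj₂ : ConjClosed H A₂) : Bad H := by
  classical
  have hn : 0 < n := by omega
  let t₁ : Matrix (Fin a) (Fin a) F →ₐ[F] MM := A₁.val.comp θ₁.toAlgHom
  let t₂ : Matrix (Fin a) (Fin a) F →ₐ[F] MM := A₂.val.comp θ₂.toAlgHom
  let θ : Fin 2 → (Matrix (Fin a) (Fin a) F →ₐ[F] MM) := ![t₁, t₂]
  have ht₁ : ∀ X, t₁ X ∈ A₁ := fun X => (θ₁ X).2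
  have ht₂ : ∀ X, t₂ X ∈ A₂ := fun X => (θ₂ X).2
  have hcm : ∀ i j : Fin 2, i ≠ j → ∀ X Y, θ i X * θ j Y = θ j Y * θ i X := by
    intro i j hij X Y
    fin_cases i <;> fin_cases j
    · exact absurd rfl hij
    · exact hcomm _ (ht₁ X) _ (ht₂ Y)
    · exact (hcomm _ (ht₁ Y) _ (ht₂ X)).symm
    · exact absurd rfl hij
  obtain ⟨e, P, hP⟩ := tensor_frame (d := fun _ => a) (θ := θ) hn (fun _ => by omega) hcm (by
    intro W hW
    apply hirr W
    · intro x hx w hw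
      obtain ⟨X, rfl⟩ := coe_surj θ₁ hx
      exact hW 0 X w hw
    · intro x hx w hw
      obtain ⟨X, rfl⟩ := coe_surj θ₂ hx
      exact hW 1 X w hw)
  have hc' : ∀ Y : MM, (∀ i X, Y * θ i X = θ i X * Y) → ∃ c : F, Y = c • 1 := by
    intro Y hY
    apply hc Y
    · intro x hx
      obtain ⟨X, rfl⟩ := coe_surj θ₁ hx
      exact hY 0 X
    · intro x hx
      obtain ⟨X, rfl⟩ := coe_surj θ₂ hx
      exact hY 1 X
  have hform : ∀ h ∈ H, ∃ (π : Equiv.Perm (Fin 2)) (B' : Fin 2 → GL (Fin a) F),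
      h = P * glReindex e.symm (permGL π * tensorGL (d := fun _ => a) B') * P⁻¹ := by
    intro h hh
    obtain ⟨B₁, hB₁⟩ := exists_conj_inner (by omega) θ₁ θ₁ h (hconj₁ h hh)
    obtain ⟨B₂, hB₂⟩ := exists_conj_inner (by omega) θ₂ θ₂ h (hconj₂ h hh)
    obtain ⟨B', hB'⟩ := wreath_form (θ := θ) (by omega) hP hc' h 1 ![B₁, B₂] (by
      intro i X
      fin_cases i
      · exact hB₁ X
      · exact hB₂ X)
    exact ⟨1, B', hB'⟩
  by_cases h3 : 3 ≤ a
  · refine Bad.tw e P h3 le_rfl ?_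
    intro h hh
    obtain ⟨π, B', hB'⟩ := hform h hh
    exact mem_wreath_of_form hB'
  · have h2 : a = 2 := by omega
    subst h2
    exact bad_of_wreath2 hn3 le_rfl e P hform

/-- Reduction: a nonscalar normal subgroup of a group outside the classes has scalar commutant. -/
theorem comm_scalar_of_normal (hn3 : 3 ≤ n) {H N : Subgroup (GL (Fin n) F)} (hH : ¬ Bad H)
    (hnorm : ∀ h ∈ H, ∀ x ∈ N, h * x * h⁻¹ ∈ N) (hN : ¬ N ≤ scalars (Fin n) F) :
    ∀ M : MM, (∀ s ∈ matrixSet N, M * s = s * M) → ∃ c : F, M = c • 1 := by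
  classical
  have hn : 0 < n := by omega
  haveI : Nonempty (Fin n) := ⟨⟨0, hn⟩⟩
  have hirr := irr_of_not_bad hH
  let C : Subalgebra F MM := Subalgebra.centralizer F (matrixSet N)
  let C' : Subalgebra F MM := Subalgebra.centralizer F (C : Set MM)
  have hSconj : ∀ g ∈ H, ∀ s ∈ matrixSet N, (g : MM) * s * ((g⁻¹ : GL (Fin n) F) : MM) ∈ matrixSet N := by
    rintro g hg _ ⟨y, hy, rfl⟩
    exact ⟨g * y * g⁻¹, hnorm g hg y hy, by simp⟩
  have hCc : ConjClosed H C := conjClosed_centralizer hSconj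
  have hC'c : ConjClosed H C' := conjClosed_centralizer (fun g hg x hx => hCc g hg x hx)
  have hmemC : ∀ x, x ∈ C ↔ ∀ s ∈ matrixSet N, s * x = x * s := fun x => Subalgebra.mem_centralizer_iff F
  have hmemC' : ∀ x, x ∈ C' ↔ ∀ s ∈ C, s * x = x * s := fun x => Subalgebra.mem_centralizer_iff F
  have hNC' : ∀ s ∈ matrixSet N, s ∈ C' := by
    intro s hs
    rw [hmemC']
    intro t ht
    exact ((hmemC t).1 ht s hs).symm
  -- the centre
  have hZ : ∀ x ∈ C ⊓ C', ∃ c : F, x = c • 1 := by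
    apply comm_scalar hn hH
    · rintro x ⟨hx1, hx2⟩ y ⟨hy1, hy2⟩
      exact ((hmemC' y).1 hy2 x hx1)
    · intro g hg x hx
      exact ⟨hCc g hg x hx.1, hC'c g hg x hx.2⟩
  obtain ⟨a, ha, ⟨θ₁⟩⟩ := alg_matrix hn hirr hCc (by
    intro x hx hcen
    apply hZ
    refine ⟨hx, (hmemC' x).2 (fun s hs => (hcen s hs).symm)⟩)
  intro M hM
  have hMC : M ∈ C := (hmemC M).2 (fun s hs => (hM s hs).symm)
  by_cases ha1 : a = 1
  · subst ha1
    obtain ⟨X, hX⟩ := θ₁.surjective ⟨M, hMC⟩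
    refine ⟨X 0 0, ?_⟩
    have hXs : X = X 0 0 • 1 := by
      ext i j
      fin_cases i
      fin_cases j
      simp
    have h2 : M = ((θ₁ X : C) : MM) := by rw [hX]
    rw [h2, hXs, map_smul, map_one]
    simp
  exfalso
  obtain ⟨m, hm, ⟨θ₂⟩⟩ := alg_matrix hn hirr hC'c (by
    intro x hx hcen
    apply hZ
    refine ⟨(hmemC x).2 ?_, hx⟩
    intro s hs
    exact (hcen s (hNC' s hs)).symm)
  have hm2 : 2 ≤ m := by
    by_contra hlt
    have hm1 : m = 1 := by omega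
    subst hm1
    apply hN
    intro x hx
    obtain ⟨X, hX⟩ := θ₂.surjective ⟨(x : MM), hNC' _ ⟨x, hx, rfl⟩⟩
    have hXs : X = X 0 0 • 1 := by
      ext i j
      fin_cases i
      fin_cases j
      simp
    have h2 : (x : MM) = X 0 0 • 1 := by
      have h3 : (x : MM) = ((θ₂ X : C') : MM) := by rw [hX]
      rw [h3, hXs, map_smul, map_one]
      simp
    rw [mem_scalars_iff]
    have hc0 : X 0 0 ≠ 0 := by
      intro h0
      rw [h0, zero_smul] at h2
      have h4 : (x : MM) * ((x⁻¹ : GL (Fin n) F) : MM) = 1 := Units.mul_inv _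
      rw [h2, zero_mul] at h4
      exact zero_ne_one h4
    exact ⟨Units.mk0 _ hc0, h2⟩
  have ha2 : 2 ≤ a := by omega
  -- the two algebras generate
  let S : Set MM := (C : Set MM) ∪ (C' : Set MM)
  have hcS : ∀ Y : MM, (∀ x ∈ C, Y * x = x * Y) → (∀ x ∈ C', Y * x = x * Y) → ∃ c : F, Y = c • 1 := by
    intro Y h1 h2
    apply hZ
    refine ⟨(hmemC Y).2 (fun s hs => (h2 s (hNC' s hs)).symm), (hmemC' Y).2 (fun s hs => (h1 s hs).symm)⟩
  have hAconj : ConjClosed H (Algebra.adjoin F S) := by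
    apply conjClosed_adjoin
    rintro g hg s (hs | hs)
    · exact Or.inl (hCc g hg s hs)
    · exact Or.inr (hC'c g hg s hs)
  have hsub1 : ∀ x ∈ C, x ∈ Algebra.adjoin F S := fun x hx => Algebra.subset_adjoin (Or.inl hx)
  have hsub2 : ∀ x ∈ C', x ∈ Algebra.adjoin F S := fun x hx => Algebra.subset_adjoin (Or.inr hx)
  obtain ⟨b, hb, ⟨θ⟩⟩ := alg_matrix hn hirr hAconj (by
    intro x hx hcen
    exact hcS x (fun y hy => hcen y (hsub1 y hy)) (fun y hy => hcen y (hsub2 y hy)))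
  have htop : Algebra.adjoin F S = ⊤ := eq_top_of_matrix hn hb _ θ (fun Y hY =>
    hcS Y (fun y hy => hY y (hsub1 y hy)) (fun y hy => hY y (hsub2 y hy)))
  have hirr2 : ∀ W : Submodule F (Fin n → F), (∀ x ∈ C, ∀ w ∈ W, x *ᵥ w ∈ W) → (∀ x ∈ C', ∀ w ∈ W, x *ᵥ w ∈ W) → W = ⊥ ∨ W = ⊤ := by
    intro W h1 h2
    apply triv_of_all_inv
    intro x w hw
    refine inv_adjoin (S := S) (W := W) ?_ (x := x) (by rw [htop]; trivial) w hw
    rintro s (hs | hs) w hw
    · exact h1 s hs w hw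
    · exact h2 s hs w hw
  have hcomm : ∀ x ∈ C, ∀ y ∈ C', x * y = y * x := fun x hx y hy => (hmemC' y).1 hy x hx
  have hbad : Bad H := by
    rcases lt_trichotomy a m with hlt | heq | hgt
    · exact tp_of_two ha2 hlt hn3 θ₁ θ₂ hcomm hirr2 hcS hCc hC'c
    · subst heq
      exact tw_of_two ha2 hn3 θ₁ θ₂ hcomm hirr2 hcS hCc hC'c
    · exact tp_of_two hm2 hgt hn3 θ₂ θ₁ (fun x hx y hy => (hcomm y hy x hx).symm)
        (fun W h1 h2 => hirr2 W h2 h1) (fun Y h1 h2 => hcS Y h2 h1) hC'c hCc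
  exact hH hbad

end main

end Cfsg.Agent.Lib.ClassMax.Asch
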