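import Mathlib
import Cfsg.Prelude.Def_GeometricClasses

/-! Tools for subfield subgroups: dihedral dichotomy for two involutions, rational vectors and matrices over a
subfield, intermediate fields for a prime degree, scalar multiples of rational matrices. -/

set_option autoImplicit false

namespace Cfsg.Agent.Lib.ClassMax.SubfieldCore

open Matrix Cfsg.Geo

section dih

variable {G : Type*} [Group G] [Finite G]

/-- Two involutions are conjugate in the group they generate or this group contains a central involution. -/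
theorem dihedral_dichotomy {t s : G} (ht : t * t = 1) (hs : s * s = 1) :
    (∃ w ∈ Subgroup.closure {t, s}, w * t * w⁻¹ = s) ∨
      (∃ z ∈ Subgroup.closure {t, s}, z ≠ 1 ∧ z * z = 1 ∧ z * t = t * z ∧ z * s = s * z) := by
  obtain ⟨y, hy⟩ : ∃ y, y = t * s := ⟨_, rfl⟩
  have htm : t ∈ Subgroup.closure {t, s} := Subgroup.subset_closure (by simp)
  have hsm : s ∈ Subgroup.closure {t, s} := Subgroup.subset_closure (by simp)
  have hym : y ∈ Subgroup.closure {t, s} := hy ▸ Subgroup.mul_mem _ htm hsm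
  have hti : t⁻¹ = t := inv_eq_of_mul_eq_one_left ht
  have hsi : s⁻¹ = s := inv_eq_of_mul_eq_one_left hs
  have hyi : y⁻¹ = s * t := by
    rw [hy, _root_.mul_inv_rev, hti, hsi]
  have hty : t * y = y⁻¹ * t := by
    rw [hyi, hy, ← mul_assoc, ht, one_mul, mul_assoc, ht, mul_one]
  have hcj : ∀ k : ℕ, t * y ^ k = (y⁻¹) ^ k * t := by
    intro k
    induction k with
    | zero => simp
    | succ k ih =>
      rw [pow_succ, ← mul_assoc, ih, mul_assoc, hty, ← mul_assoc, pow_succ]
  have hsy : s = t * y := by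
    rw [hy, ← mul_assoc, ht, one_mul]
  have hm : 0 < orderOf y := orderOf_pos y
  rcases Nat.even_or_odd (orderOf y) with ⟨k, hk⟩ | ⟨k, hk⟩
  · right
    have hk0 : 0 < k := by omega
    have hkl : k < orderOf y := by omega
    have hzz : y ^ k * y ^ k = 1 := by
      rw [← pow_add, ← hk, pow_orderOf_eq_one]
    have hzi : (y ^ k)⁻¹ = y ^ k := inv_eq_of_mul_eq_one_left hzz
    have hct : y ^ k * t = t * y ^ k := by
      rw [hcj, inv_pow, hzi]
    refine ⟨y ^ k, Subgroup.pow_mem _ hym k, pow_ne_one_of_lt_orderOf hk0.ne' hkl, hzz, hct, ?_⟩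
    rw [hsy, ← mul_assoc, hct, mul_assoc, mul_assoc, ← pow_succ', pow_succ]
  · left
    refine ⟨y ^ k, Subgroup.pow_mem _ hym k, ?_⟩
    have h1 : y ^ k * t * (y ^ k)⁻¹ = y ^ k * y ^ k * t := by
      have h2 := hcj k
      have h3 : t * (y ^ k)⁻¹ = y ^ k * t := by
        have h4 : t * (y⁻¹) ^ k = y ^ k * t := by
          have h5 := hcj k
          calc t * (y⁻¹) ^ k = t * (y⁻¹) ^ k * (t * t) := by rw [ht, mul_one]
            _ = t * ((y⁻¹) ^ k * t) * t := by simp only [mul_assoc]
            _ = t * (t * y ^ k) * t := by rw [h5]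
            _ = y ^ k * t := by rw [← mul_assoc t t, ht, one_mul]
        rw [← inv_pow]
        exact h4
      rw [mul_assoc, h3, ← mul_assoc]
    rw [h1, ← pow_add]
    have h6 : y ^ (k + k) = y⁻¹ := by
      apply eq_inv_of_mul_eq_one_left
      rw [← pow_succ, show k + k + 1 = orderOf y by omega, pow_orderOf_eq_one]
    rw [h6, hyi, mul_assoc, ht, mul_one]

end dih

variable {F : Type*} [Field F]

section field

variable [Fintype F]

/-- The elements fixed by the power map of the order of a subfield are exactly the elements of this subfield. -/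
theorem mem_of_pow_eq (F₀ : Subfield F) [Fintype F₀] {x : F} (hx : x ^ Fintype.card F₀ = x) : x ∈ F₀ := by
  classical
  by_contra hnot
  have hq : 1 < Fintype.card F₀ := Fintype.one_lt_card
  have hdeg : (Polynomial.X ^ Fintype.card F₀ - Polynomial.X : Polynomial F).natDegree = Fintype.card F₀ :=
    FiniteField.X_pow_card_sub_X_natDegree_eq F hq
  have hne : (Polynomial.X ^ Fintype.card F₀ - Polynomial.X : Polynomial F) ≠ 0 := by
    intro h0
    rw [h0, Polynomial.natDegree_zero] at hdeg
    omega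
  let S : Finset F := insert x ((Finset.univ : Finset F₀).image Subtype.val)
  have hS : S ⊆ (Polynomial.X ^ Fintype.card F₀ - Polynomial.X : Polynomial F).roots.toFinset := by
    intro a ha
    rw [Multiset.mem_toFinset, Polynomial.mem_roots hne, Polynomial.IsRoot, Polynomial.eval_sub, Polynomial.eval_pow, Polynomial.eval_X]
    rcases Finset.mem_insert.mp ha with rfl | ha'
    · rw [hx, sub_self]
    · obtain ⟨b, -, rfl⟩ := Finset.mem_image.mp ha'
      rw [← SubmonoidClass.coe_pow, FiniteField.pow_card, sub_self]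
  have hcard : S.card = Fintype.card F₀ + 1 := by
    rw [Finset.card_insert_of_notMem, Finset.card_image_of_injective _ Subtype.val_injective, Finset.card_univ]
    intro h
    obtain ⟨b, -, rfl⟩ := Finset.mem_image.mp h
    exact hnot b.2
  have h1 := Finset.card_le_card hS
  have h2 := Multiset.toFinset_card_le (Polynomial.X ^ Fintype.card F₀ - Polynomial.X : Polynomial F).roots
  have h3 := Polynomial.card_roots' (Polynomial.X ^ Fintype.card F₀ - Polynomial.X : Polynomial F)
  omega

/-- A subfield containing a subfield of prime degree is equal to this subfield or to the whole field. -/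
theorem eq_or_top_of_prime (F₀ : Subfield F) {r : ℕ} (hr : r.Prime) (hcard : Fintype.card F = Nat.card F₀ ^ r)
    (K : Subfield F) (h : F₀ ≤ K) : K = F₀ ∨ K = ⊤ := by
  classical
  letI : Fintype F₀ := Fintype.ofFinite _
  letI : Fintype K := Fintype.ofFinite _
  letI alg : Algebra F₀ K := (Subfield.inclusion h).toAlgebra
  have hK : Fintype.card K = Fintype.card F₀ ^ Module.finrank F₀ K := Module.card_eq_pow_finrank
  have hF : Fintype.card F = Fintype.card K ^ Module.finrank K F := Module.card_eq_pow_finrank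
  have hq : 1 < Fintype.card F₀ := Fintype.one_lt_card
  rw [Nat.card_eq_fintype_card] at hcard
  have hmul : Module.finrank F₀ K * Module.finrank K F = r := by
    have : Fintype.card F₀ ^ (Module.finrank F₀ K * Module.finrank K F) = Fintype.card F₀ ^ r := by
      rw [pow_mul, ← hK, ← hF, hcard]
    exact Nat.pow_right_injective (by omega) this
  have hdv : Module.finrank F₀ K ∣ r := ⟨_, hmul.symm⟩
  rcases (Nat.dvd_prime hr).mp hdv with h1 | h1
  · left
    rw [h1, pow_one] at hK
    apply le_antisymm _ h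
    have hinj : Function.Injective (Subfield.inclusion h) := (Subfield.inclusion h).injective
    have hsurj : Function.Surjective (Subfield.inclusion h) :=
      (Fintype.bijective_iff_injective_and_card _).mpr ⟨hinj, hK.symm⟩ |>.2
    intro x hx
    obtain ⟨y, hy⟩ := hsurj ⟨x, hx⟩
    have : (y : F) = x := congrArg Subtype.val hy
    rw [← this]
    exact y.2
  · right
    rw [h1] at hmul
    have h2 : Module.finrank K F = 1 := by
      have : 0 < r := hr.pos
      nlinarith
    rw [h2, pow_one] at hF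
    rw [eq_top_iff]
    intro x _
    have hsurj : Function.Surjective (Subtype.val : K → F) :=
      (Fintype.bijective_iff_injective_and_card _).mpr ⟨Subtype.val_injective, hF.symm⟩ |>.2
    obtain ⟨y, hy⟩ := hsurj x
    rw [← hy]
    exact y.2

end field

section rat

variable (F₀ : Subfield F) {ι : Type} [Fintype ι] [DecidableEq ι]

/-- A vector with coordinates in the subfield. -/
def RatV (v : ι → F) : Prop := ∀ i, v i ∈ F₀

/-- A matrix with entries in the subfield. -/
def RatM (A : Matrix ι ι F) : Prop := ∀ i j, A i j ∈ F₀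

variable {F₀}

theorem RatV.dot {x y : ι → F} (hx : RatV F₀ x) (hy : RatV F₀ y) : x ⬝ᵥ y ∈ F₀ :=
  F₀.sum_mem fun i _ => F₀.mul_mem (hx i) (hy i)

theorem RatM.mulVec {A : Matrix ι ι F} {x : ι → F} (hA : RatM F₀ A) (hx : RatV F₀ x) : RatV F₀ (A *ᵥ x) :=
  fun i => F₀.sum_mem fun j _ => F₀.mul_mem (hA i j) (hx j)

theorem RatM.vecMul {A : Matrix ι ι F} {x : ι → F} (hA : RatM F₀ A) (hx : RatV F₀ x) : RatV F₀ (x ᵥ* A) :=
  fun j => F₀.sum_mem fun i _ => F₀.mul_mem (hx i) (hA i j)

theorem RatM.mul {A B : Matrix ι ι F} (hA : RatM F₀ A) (hB : RatM F₀ B) : RatM F₀ (A * B) :=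
  fun i j => by
    rw [Matrix.mul_apply]
    exact F₀.sum_mem fun k _ => F₀.mul_mem (hA i k) (hB k j)

theorem RatM.add {A B : Matrix ι ι F} (hA : RatM F₀ A) (hB : RatM F₀ B) : RatM F₀ (A + B) :=
  fun i j => F₀.add_mem (hA i j) (hB i j)

theorem RatM.sub {A B : Matrix ι ι F} (hA : RatM F₀ A) (hB : RatM F₀ B) : RatM F₀ (A - B) :=
  fun i j => F₀.sub_mem (hA i j) (hB i j)

theorem RatM.smul {A : Matrix ι ι F} {c : F} (hc : c ∈ F₀) (hA : RatM F₀ A) : RatM F₀ (c • A) :=
  fun i j => F₀.mul_mem hc (hA i j)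

theorem ratM_one : RatM F₀ (1 : Matrix ι ι F) := fun i j => by
  rw [Matrix.one_apply]
  split_ifs
  · exact F₀.one_mem
  · exact F₀.zero_mem

theorem RatV.smul {v : ι → F} {c : F} (hc : c ∈ F₀) (hv : RatV F₀ v) : RatV F₀ (c • v) :=
  fun i => F₀.mul_mem hc (hv i)

theorem RatV.add {v w : ι → F} (hv : RatV F₀ v) (hw : RatV F₀ w) : RatV F₀ (v + w) :=
  fun i => F₀.add_mem (hv i) (hw i)

theorem RatV.sub {v w : ι → F} (hv : RatV F₀ v) (hw : RatV F₀ w) : RatV F₀ (v - w) :=
  fun i => F₀.sub_mem (hv i) (hw i)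

theorem ratV_single (i : ι) : RatV F₀ (Pi.single i 1 : ι → F) := fun j => by
  rw [Pi.single_apply]
  split_ifs
  · exact F₀.one_mem
  · exact F₀.zero_mem

theorem ratV_zero : RatV F₀ (0 : ι → F) := fun _ => F₀.zero_mem

theorem ratM_vecMulVec {x y : ι → F} (hx : RatV F₀ x) (hy : RatV F₀ y) : RatM F₀ (vecMulVec x y) :=
  fun i j => by
    rw [vecMulVec_apply]
    exact F₀.mul_mem (hx i) (hy j)

/-- Fewer rational equations than variables have a non-zero rational solution. -/
theorem exists_rat_perp {k : ℕ} (hk : k < Fintype.card ι) (ω : Fin k → ι → F) (hω : ∀ i, RatV F₀ (ω i)) :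
    ∃ u : ι → F, RatV F₀ u ∧ u ≠ 0 ∧ ∀ i, ω i ⬝ᵥ u = 0 := by
  let A : Matrix (Fin k) ι F₀ := fun i j => ⟨ω i j, hω i j⟩
  have hker : LinearMap.ker A.mulVecLin ≠ ⊥ := by
    apply LinearMap.ker_ne_bot_of_finrank_lt
    simpa using hk
  obtain ⟨u₀, hu₀, hu₀0⟩ := Submodule.exists_mem_ne_zero_of_ne_bot hker
  refine ⟨fun j => (u₀ j : F), fun j => (u₀ j).2, ?_, ?_⟩
  · intro h
    apply hu₀0
    funext j
    have := congrFun h j
    exact Subtype.ext this
  · intro i
    have h1 : A.mulVecLin u₀ = 0 := hu₀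
    have h2 : (∑ j, A i j * u₀ j : F₀) = 0 := congrFun h1 i
    have h3 := congrArg (Subtype.val) h2
    rw [AddSubmonoidClass.coe_finset_sum] at h3
    exact h3

/-- The matrix over the subfield underlying a rational matrix. -/
def liftM (A : Matrix ι ι F) (hA : RatM F₀ A) : Matrix ι ι F₀ := fun i j => ⟨A i j, hA i j⟩

theorem map_liftM (A : Matrix ι ι F) (hA : RatM F₀ A) : (liftM A hA).map F₀.subtype = A := by
  ext i j
  rfl

/-- The inverse of a rational matrix is rational. -/
theorem RatM.inv {A : Matrix ι ι F} (hA : RatM F₀ A) : RatM F₀ A⁻¹ := by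
  have h1 : A⁻¹ = ((liftM A hA)⁻¹).map F₀.subtype := by
    rw [Matrix.inv_def, Matrix.inv_def]
    conv_lhs => rw [← map_liftM A hA]
    ext i j
    have h2 : (((liftM A hA).map F₀.subtype).det) = F₀.subtype (liftM A hA).det :=
      (RingHom.map_det F₀.subtype (liftM A hA)).symm
    have h3 : ((liftM A hA).map F₀.subtype).adjugate = ((liftM A hA).adjugate).map F₀.subtype :=
      (RingHom.map_adjugate F₀.subtype (liftM A hA)).symm
    simp only [Matrix.smul_apply, Matrix.map_apply, h2, h3, smul_eq_mul, Ring.inverse_eq_inv']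
    simp
  rw [h1]
  intro i j
  exact ((liftM A hA)⁻¹ i j).2

/-- The subgroup of scalar multiples of rational matrices. -/
def ratScal (F₀ : Subfield F) (ι : Type) [Fintype ι] [DecidableEq ι] : Subgroup (GL ι F) where
  carrier := {g | ∃ c : F, c ≠ 0 ∧ RatM F₀ (c • (g : Matrix ι ι F))}
  mul_mem' := by
    rintro a b ⟨c, hc, ha⟩ ⟨d, hd, hb⟩
    refine ⟨c * d, mul_ne_zero hc hd, ?_⟩
    have : (c * d) • ((a * b : GL ι F) : Matrix ι ι F) = (c • (a : Matrix ι ι F)) * (d • (b : Matrix ι ι F)) := by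
      rw [Units.val_mul, Matrix.smul_mul, Matrix.mul_smul, smul_smul]
    rw [this]
    exact ha.mul hb
  one_mem' := ⟨1, one_ne_zero, by
    rw [one_smul, Units.val_one]
    exact ratM_one⟩
  inv_mem' := by
    rintro a ⟨c, hc, ha⟩
    refine ⟨c⁻¹, inv_ne_zero hc, ?_⟩
    have h1 : c⁻¹ • ((a⁻¹ : GL ι F) : Matrix ι ι F) = (c • (a : Matrix ι ι F))⁻¹ := by
      symm
      apply Matrix.inv_eq_left_inv
      rw [Matrix.smul_mul, Matrix.mul_smul, smul_smul, inv_mul_cancel₀ hc, one_smul, ← Units.val_mul, inv_mul_cancel, Units.val_one]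
    rw [h1]
    exact ha.inv

theorem mem_ratScal {g : GL ι F} : g ∈ ratScal F₀ ι ↔ ∃ c : F, c ≠ 0 ∧ RatM F₀ (c • (g : Matrix ι ι F)) := Iff.rfl

/-- The product of the rational invertible matrices with the scalars is the group of scalar multiples of rational
matrices. -/
theorem sup_eq_ratScal :
    (Matrix.GeneralLinearGroup.map (F₀.subtype : F₀ →+* F)).range ⊔ scalars ι F = ratScal F₀ ι := by
  apply le_antisymm
  · apply sup_le
    · rintro _ ⟨r, rfl⟩
      refine ⟨1, one_ne_zero, ?_⟩
      intro i j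
      rw [one_smul]
      exact ((r : Matrix ι ι F₀) i j).2
    · rintro _ ⟨c, rfl⟩
      refine ⟨((c⁻¹ : Fˣ) : F), Units.ne_zero _, ?_⟩
      have : (((c⁻¹ : Fˣ) : F)) • (((Units.map (Matrix.scalar ι : F →+* Matrix ι ι F).toMonoidHom c : GL ι F)) : Matrix ι ι F) = 1 := by
        ext i j
        simp [Matrix.one_apply, Matrix.diagonal_apply]
      rw [this]
      exact ratM_one
  · rintro g ⟨c, hc, hg⟩
    have hdet0 : (g : Matrix ι ι F).det ≠ 0 := (Matrix.isUnits_det_units g).ne_zero
    have hdet : (liftM _ hg).det ≠ 0 := by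
      intro h0
      have h1 : ((liftM _ hg).map F₀.subtype).det = F₀.subtype (liftM _ hg).det :=
        (RingHom.map_det F₀.subtype (liftM _ hg)).symm
      rw [h0, map_zero, map_liftM, Matrix.det_smul] at h1
      exact (mul_ne_zero (pow_ne_zero _ hc) hdet0) h1
    let r : GL ι F₀ := Matrix.GeneralLinearGroup.mkOfDetNeZero (liftM _ hg) hdet
    let u : Fˣ := Units.mk0 c hc
    have hval : (g : GL ι F) = (Units.map (Matrix.scalar ι : F →+* Matrix ι ι F).toMonoidHom u⁻¹ : GL ι F) * Matrix.GeneralLinearGroup.map (F₀.subtype : F₀ →+* F) r := by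
      apply Units.ext
      have h2 : ((Matrix.GeneralLinearGroup.map (F₀.subtype : F₀ →+* F) r : GL ι F) : Matrix ι ι F) = c • (g : Matrix ι ι F) := by
        show (liftM _ hg).map F₀.subtype = _
        exact map_liftM _ hg
      rw [Units.val_mul, h2]
      ext i j
      simp [u, Matrix.mul_apply, Matrix.smul_apply, hc, Matrix.diagonal_apply]
    rw [hval]
    exact Subgroup.mul_mem _ (Subgroup.mem_sup_right ⟨u⁻¹, rfl⟩) (Subgroup.mem_sup_left ⟨r, rfl⟩)

/-- The rank does not change under the extension of scalars from the subfield. -/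
theorem rank_map_subtype (B : Matrix ι ι F₀) : (B.map F₀.subtype).rank = B.rank := by
  classical
  obtain ⟨V, U, e, hV, hU, h⟩ := Matrix.exists_rank_normal_form B
  have hmap : (V.map F₀.subtype) * (B.map F₀.subtype) * (U.map F₀.subtype) =
      ((fromBlocks (1 : Matrix (Fin B.rank) (Fin B.rank) F) (0 : Matrix (Fin B.rank) (Fin (Fintype.card ι - B.rank)) F) (0 : Matrix (Fin (Fintype.card ι - B.rank)) (Fin B.rank) F) (0 : Matrix (Fin (Fintype.card ι - B.rank)) (Fin (Fintype.card ι - B.rank)) F))).submatrix e e := by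
    have := congrArg (fun X => X.map F₀.subtype) h
    simp only [Matrix.map_mul] at this
    rw [this]
    ext i j
    rcases hi : e i with a | a <;> rcases hj : e j with b | b <;>
      simp [hi, hj, Matrix.one_apply, Subtype.ext_iff] <;> split_ifs <;> simp
  have hVd : IsUnit (V.map F₀.subtype).det := by
    have h3 : (V.map F₀.subtype).det = F₀.subtype V.det := (RingHom.map_det F₀.subtype V).symm
    rw [h3]
    exact ((Matrix.isUnit_iff_isUnit_det _).mp hV).map F₀.subtype
  have hUd : IsUnit (U.map F₀.subtype).det := by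
    have h3 : (U.map F₀.subtype).det = F₀.subtype U.det := (RingHom.map_det F₀.subtype U).symm
    rw [h3]
    exact ((Matrix.isUnit_iff_isUnit_det _).mp hU).map F₀.subtype
  have h1 : (B.map F₀.subtype).rank = ((fromBlocks (1 : Matrix (Fin B.rank) (Fin B.rank) F) (0 : Matrix (Fin B.rank) (Fin (Fintype.card ι - B.rank)) F) (0 : Matrix (Fin (Fintype.card ι - B.rank)) (Fin B.rank) F) (0 : Matrix (Fin (Fintype.card ι - B.rank)) (Fin (Fintype.card ι - B.rank)) F))).rank := by
    rw [← Matrix.rank_submatrix _ e e, ← hmap, Matrix.rank_mul_eq_left_of_isUnit_det _ _ hUd, Matrix.rank_mul_eq_right_of_isUnit_det _ _ hVd]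
  rw [h1]
  have h2 : fromBlocks (1 : Matrix (Fin B.rank) (Fin B.rank) F) (0 : Matrix (Fin B.rank) (Fin (Fintype.card ι - B.rank)) F) (0 : Matrix (Fin (Fintype.card ι - B.rank)) (Fin B.rank) F) (0 : Matrix (Fin (Fintype.card ι - B.rank)) (Fin (Fintype.card ι - B.rank)) F) =
      diagonal (Sum.elim (fun _ => (1 : F)) (fun _ => 0)) := by
    rw [← diagonal_one, ← diagonal_zero, fromBlocks_diagonal]
  rw [h2, Matrix.rank_diagonal]
  have h3 : Fintype.card {i : Fin B.rank ⊕ Fin (Fintype.card ι - B.rank) // Sum.elim (fun _ => (1 : F)) (fun _ => (0 : F)) i ≠ 0} = Fintype.card (Fin B.rank) := by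
    apply Fintype.card_congr
    refine ⟨fun x => match x with
      | ⟨Sum.inl a, _⟩ => a
      | ⟨Sum.inr a, h⟩ => absurd rfl h, fun a => ⟨Sum.inl a, by simp⟩, ?_, ?_⟩
    · rintro ⟨a | a, h⟩
      · rfl
      · exact absurd rfl h
    · intro a
      rfl
  rw [h3, Fintype.card_fin]

/-- A rational matrix with a large kernel has a rational kernel vector and a rational left kernel vector which are
orthogonal. -/
theorem exists_good {B : Matrix ι ι F} (hB : RatM F₀ B) (hk : 2 ≤ Module.finrank F (LinearMap.ker B.mulVecLin)) :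
    ∃ a ω : ι → F, RatV F₀ a ∧ RatV F₀ ω ∧ a ≠ 0 ∧ ω ≠ 0 ∧ B *ᵥ a = 0 ∧ ω ᵥ* B = 0 ∧ ω ⬝ᵥ a = 0 := by
  classical
  obtain ⟨B₀, hB₀⟩ : ∃ B₀ : Matrix ι ι F₀, B₀.map F₀.subtype = B := ⟨liftM B hB, map_liftM B hB⟩
  have hr : B.rank + 2 ≤ Fintype.card ι := by
    have h1 := LinearMap.finrank_range_add_finrank_ker B.mulVecLin
    rw [Module.finrank_fintype_fun_eq_card] at h1
    have h2 : B.rank = Module.finrank F (LinearMap.range B.mulVecLin) := rfl
    omega
  have hr₀ : B₀.rank + 2 ≤ Fintype.card ι := by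
    rw [← rank_map_subtype B₀, hB₀]
    exact hr
  -- the right kernel
  have h1 : 0 < Module.finrank F₀ (LinearMap.ker B₀.mulVecLin) := by
    have h1 := LinearMap.finrank_range_add_finrank_ker B₀.mulVecLin
    rw [Module.finrank_fintype_fun_eq_card] at h1
    have h2 : B₀.rank = Module.finrank F₀ (LinearMap.range B₀.mulVecLin) := rfl
    omega
  have hb0 : LinearMap.ker B₀.mulVecLin ≠ ⊥ := by
    intro h0
    rw [h0, finrank_bot] at h1
    omega
  obtain ⟨a₀, ha₀, ha₀0⟩ := Submodule.exists_mem_ne_zero_of_ne_bot hb0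
  -- the left kernel, with one more equation
  have h2 : 2 ≤ Module.finrank F₀ (LinearMap.ker (Matrix.mulVecLin B₀ᵀ)) := by
    have h1 := LinearMap.finrank_range_add_finrank_ker (Matrix.mulVecLin B₀ᵀ)
    rw [Module.finrank_fintype_fun_eq_card] at h1
    have h2 : B₀ᵀ.rank = Module.finrank F₀ (LinearMap.range (Matrix.mulVecLin B₀ᵀ)) := rfl
    rw [Matrix.rank_transpose] at h2
    omega
  let g : (ι → F₀) →ₗ[F₀] F₀ :=
    { toFun := fun x => x ⬝ᵥ a₀
      map_add' := by simp [add_dotProduct]
      map_smul' := by simp [smul_dotProduct] }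
  have hg : LinearMap.ker (g.domRestrict (LinearMap.ker (Matrix.mulVecLin B₀ᵀ))) ≠ ⊥ := by
    apply LinearMap.ker_ne_bot_of_finrank_lt
    rw [Module.finrank_self]
    omega
  obtain ⟨⟨ω₀, hω₀⟩, hω₀g, hω₀0⟩ := Submodule.exists_mem_ne_zero_of_ne_bot hg
  have hω₀0' : ω₀ ≠ 0 := fun h => hω₀0 (Subtype.ext h)
  have hω₀g' : ω₀ ⬝ᵥ a₀ = 0 := hω₀g
  have hcv : ∀ x y : ι → F₀, (fun i => (x i : F)) ⬝ᵥ (fun i => (y i : F)) = ((x ⬝ᵥ y : F₀) : F) := by
    intro x y
    simp [dotProduct]
  refine ⟨fun i => (a₀ i : F), fun i => (ω₀ i : F), fun i => (a₀ i).2, fun i => (ω₀ i).2, ?_, ?_, ?_, ?_, ?_⟩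
  · intro h
    exact ha₀0 (funext fun j => Subtype.ext (congrFun h j))
  · intro h
    exact hω₀0' (funext fun j => Subtype.ext (congrFun h j))
  · rw [← hB₀]
    funext i
    have h3 : (B₀ *ᵥ a₀) i = 0 := congrFun (show B₀ *ᵥ a₀ = 0 from ha₀) i
    have h4 := congrArg Subtype.val h3
    simpa [Matrix.mulVec, dotProduct] using h4
  · rw [← hB₀]
    funext j
    have h3 : (B₀ᵀ *ᵥ ω₀) j = 0 := congrFun (show B₀ᵀ *ᵥ ω₀ = 0 from hω₀) j
    have h4 := congrArg Subtype.val h3
    simpa [Matrix.mulVec, Matrix.vecMul, dotProduct, mul_comm] using h4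
  · rw [hcv, hω₀g']
    rfl

/-- A scalar multiple of a rational matrix which fixes more than half of the space is rational. -/
theorem rat_of_big_fix [Fintype F] {z : Matrix ι ι F} {c : F} (hc : c ≠ 0) (hR : RatM F₀ (c • z))
    (hk : Fintype.card ι < 2 * Module.finrank F (LinearMap.ker (z - 1).mulVecLin)) : RatM F₀ z := by
  classical
  letI : Fintype F₀ := Fintype.ofFinite _
  obtain ⟨R, hRdef⟩ : ∃ R, R = c • z := ⟨_, rfl⟩
  rw [← hRdef] at hR
  have hcF : c ∈ F₀ := by
    by_contra hnot
    let φ := FiniteField.frobeniusAlgHom F₀ F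
    have hφ : ∀ a ∈ F₀, φ a = a := fun a ha => φ.commutes (⟨a, ha⟩ : F₀)
    have hφc : φ c ≠ c := fun h => hnot (mem_of_pow_eq F₀ h)
    let E : F → Submodule F (ι → F) := fun μ => LinearMap.ker (R - μ • (1 : Matrix ι ι F)).mulVecLin
    have hE : ∀ μ v, v ∈ E μ ↔ R *ᵥ v = μ • v := by
      intro μ v
      show (R - μ • (1 : Matrix ι ι F)).mulVecLin v = 0 ↔ _
      rw [Matrix.mulVecLin_apply, Matrix.sub_mulVec, Matrix.smul_mulVec, Matrix.one_mulVec, sub_eq_zero]
    have hW : LinearMap.ker (z - 1).mulVecLin ≤ E c := by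
      intro v hv
      rw [hE, hRdef, Matrix.smul_mulVec]
      have : (z - 1).mulVecLin v = 0 := hv
      rw [Matrix.mulVecLin_apply, Matrix.sub_mulVec, Matrix.one_mulVec, sub_eq_zero] at this
      rw [this]
    let Φ : (ι → F) → (ι → F) := fun v i => φ (v i)
    have hΦinj : Function.Injective Φ := fun v w h =>
      funext fun i => φ.toRingHom.injective (congrFun h i)
    have hΦ : ∀ v ∈ E c, Φ v ∈ E (φ c) := by
      intro v hv
      rw [hE] at hv ⊢
      funext i
      have h1 := congrFun hv i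
      have h2 := congrArg φ h1
      simp only [Matrix.mulVec, dotProduct, Pi.smul_apply, smul_eq_mul, map_sum, map_mul] at h2 ⊢
      rw [← h2]
      exact Finset.sum_congr rfl fun j _ => by rw [hφ _ (hR i j)]
    have hcard : Nat.card (E c) ≤ Nat.card (E (φ c)) := by
      apply Nat.card_le_card_of_injective (fun x : E c => (⟨Φ x.1, hΦ x.1 x.2⟩ : E (φ c)))
      intro x y h
      exact Subtype.ext (hΦinj (congrArg Subtype.val h))
    have hpow : ∀ μ, Nat.card (E μ) = Fintype.card F ^ Module.finrank F (E μ) := by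
      intro μ
      rw [Nat.card_eq_fintype_card]
      exact Module.card_eq_pow_finrank
    rw [hpow, hpow] at hcard
    have hle : Module.finrank F (E c) ≤ Module.finrank F (E (φ c)) :=
      (Nat.pow_le_pow_iff_right Fintype.one_lt_card).mp hcard
    have hdis : Disjoint (E c) (E (φ c)) := by
      rw [Submodule.disjoint_def]
      intro v hv hv'
      rw [hE] at hv hv'
      have h3 : (c - φ c) • v = 0 := by
        rw [sub_smul, ← hv, ← hv', sub_self]
      rcases smul_eq_zero.mp h3 with h4 | h4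
      · exact absurd (sub_eq_zero.mp h4).symm hφc
      · exact h4
    have h5 := Submodule.finrank_add_finrank_le_of_disjoint hdis
    rw [Module.finrank_fintype_fun_eq_card] at h5
    have h6 := Submodule.finrank_mono hW
    omega
  have hz : z = c⁻¹ • R := by
    rw [hRdef, smul_smul, inv_mul_cancel₀ hc, one_smul]
  rw [hz]
  exact hR.smul (F₀.inv_mem hcF)

end rat

/-- Maximality is preserved by conjugation. -/
theorem isMaximalIn_map_conj {G : Type*} [Group G] (P : G) {K H : Subgroup G} (h : IsMaximalIn K H) :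
    IsMaximalIn (K.map (MulAut.conj P).toMonoidHom) (H.map (MulAut.conj P).toMonoidHom) := by
  have hinj : Function.Injective (MulAut.conj P).toMonoidHom := (MulAut.conj P).injective
  have hcomp : ((MulAut.conj P⁻¹).toMonoidHom).comp (MulAut.conj P).toMonoidHom = MonoidHom.id G := by
    ext g
    simp [MulAut.conj_apply]
    group
  have hcomp' : ((MulAut.conj P).toMonoidHom).comp (MulAut.conj P⁻¹).toMonoidHom = MonoidHom.id G := by
    ext g
    simp [MulAut.conj_apply]
    group
  have hback : ∀ A : Subgroup G, (A.map (MulAut.conj P).toMonoidHom).map (MulAut.conj P⁻¹).toMonoidHom = A := by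
    intro A
    rw [Subgroup.map_map, hcomp, Subgroup.map_id]
  have hback' : ∀ A : Subgroup G, (A.map (MulAut.conj P⁻¹).toMonoidHom).map (MulAut.conj P).toMonoidHom = A := by
    intro A
    rw [Subgroup.map_map, hcomp', Subgroup.map_id]
  refine ⟨(Subgroup.map_lt_map_iff_of_injective hinj).mpr h.1, ?_⟩
  intro M h1 h2
  have h3 : H ≤ M.map (MulAut.conj P⁻¹).toMonoidHom := by
    rw [← hback H]
    exact Subgroup.map_mono h1
  have h4 : M.map (MulAut.conj P⁻¹).toMonoidHom ≤ K := by
    rw [← hback K]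
    exact Subgroup.map_mono h2
  rcases h.2 _ h3 h4 with h5 | h5
  · left
    rw [← h5, hback']
  · right
    rw [← h5, hback']

end Cfsg.Agent.Lib.ClassMax.SubfieldCore
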