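import Mathlib
import Cfsg.Agent.Lib.ClassMax.Asch7
import Cfsg.Agent.Lib.ClassMax.SubfieldCore

/-!
Realisability over subfields: descent of normalisers, and realisability from traces.
-/

set_option autoImplicit false
set_option linter.unusedSimpArgs false
set_option linter.unusedVariables false
set_option linter.unusedSectionVars false
set_option linter.unusedFintypeInType false
set_option linter.unusedDecidableInType false

namespace Cfsg.Agent.Lib.ClassMax.Asch

open Module Matrix Cfsg.Geo Cfsg.Agent.Lib.ClassMax.SubfieldCore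

section field

variable {F : Type*} [Field F] [Fintype F]

/-- Intermediate fields of prime index with their Frobenius maps. -/
theorem exists_prime_subfield (F₀ : Subfield F) (hF₀ : F₀ ≠ ⊤) :
    ∃ (Q s : ℕ) (F₁ : Subfield F) (σ : F ≃+* F), s.Prime ∧ Fintype.card F = Q ^ s ∧ Nat.card F₁ = Q ∧ (∀ x, σ x = x ^ Q) ∧
      (∀ x ∈ F₀, σ x = x) := by
  classical
  letI : Fintype F₀ := Fintype.ofFinite _
  haveI : Module.Finite F₀ F := Module.Finite.of_finite
  have hk1 : finrank F₀ F ≠ 1 := by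
    intro h
    apply hF₀
    rw [eq_top_iff]
    intro x _
    obtain ⟨c, hc⟩ := (finrank_eq_one_iff_of_nonzero' (1 : F) one_ne_zero).1 h x
    rw [← hc, Algebra.smul_def, mul_one]
    exact c.2
  have hk0 : finrank F₀ F ≠ 0 := Module.finrank_pos.ne'
  set k := finrank F₀ F with hk
  set s := Nat.minFac k with hs
  have hsp : s.Prime := Nat.minFac_prime hk1
  obtain ⟨t, ht⟩ : s ∣ k := Nat.minFac_dvd k
  have ht0 : 0 < t := by
    rcases Nat.eq_zero_or_pos t with h | h
    · rw [h, mul_zero] at ht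
      exact absurd ht hk0
    · exact h
  obtain ⟨K', hK', hmem⟩ := exists_subfield_deg (F := F₀) (E := F) ht0 ⟨s, by rw [← hk, ht, mul_comm]⟩
  set Q₀ := Fintype.card F₀ with hQ₀
  set Q := Q₀ ^ t with hQ
  let φ : F →ₐ[F₀] F := FiniteField.frobeniusAlgHom F₀ F
  have hφ : ∀ x, (φ ^ t) x = x ^ Q := by
    intro x
    rw [AlgHom.coe_pow]
    have h1 : (⇑φ) = fun y : F => y ^ Q₀ := rfl
    rw [h1, pow_iterate]
  have hinj : Function.Injective (φ ^ t) := (φ ^ t).toRingHom.injective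
  have hbij : Function.Bijective (φ ^ t) := ⟨hinj, Finite.injective_iff_surjective.1 hinj⟩
  let σ : F ≃+* F := RingEquiv.ofBijective (φ ^ t) hbij
  have hσ : ∀ x, σ x = x ^ Q := fun x => hφ x
  let F₁ : Subfield F := (φ ^ t).toRingHom.eqLocusField (RingHom.id F)
  have hF₁ : ∀ x, x ∈ F₁ ↔ x ^ Q = x := by
    intro x
    show (φ ^ t) x = x ↔ _
    rw [hφ]
  have hcardF : Fintype.card F = Q ^ s := by
    have h1 : Fintype.card F = Q₀ ^ k := Module.card_eq_pow_finrank
    rw [h1, ht, hQ, ← pow_mul, mul_comm]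
  have hcardF₁ : Nat.card F₁ = Q := by
    have h1 : Nat.card F₁ = Nat.card K' := Nat.card_congr (Equiv.subtypeEquivRight (fun x => by rw [hF₁, hmem]))
    letI : Fintype K' := Fintype.ofFinite _
    have h2 : Fintype.card K' = Q₀ ^ finrank F₀ K' := Module.card_eq_pow_finrank
    rw [h1, Nat.card_eq_fintype_card, h2, hK']
  refine ⟨Q, s, F₁, σ, hsp, hcardF, hcardF₁, hσ, ?_⟩
  intro x hx
  show (φ ^ t) x = x
  exact (φ ^ t).commutes ⟨x, hx⟩

/-- Hilbert 90 for the norm of a finite field. -/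
theorem norm_h90 {Q s : ℕ} (hQ : 2 ≤ Q) (hs : 0 < s) (hcard : Fintype.card F = Q ^ s) {c : F} (hc0 : c ≠ 0)
    (hN : ∏ j ∈ Finset.range s, c ^ (Q ^ j) = 1) : ∃ d : F, d ≠ 0 ∧ d ^ (Q - 1) = c := by
  classical
  obtain ⟨g, hg⟩ := IsCyclic.exists_generator (α := Fˣ)
  have hordg : orderOf g = Q ^ s - 1 := by
    rw [orderOf_eq_card_of_forall_mem_zpowers hg, Nat.card_units, Nat.card_eq_fintype_card, hcard]
  set E := ∑ j ∈ Finset.range s, Q ^ j with hE
  have h1Q : 1 ≤ Q := by omega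
  have hgeo : E * (Q - 1) + 1 = Q ^ s := by
    have := geom_sum_mul_add (Q - 1) s
    rwa [Nat.sub_add_cancel h1Q] at this
  have hQs : 1 < Q ^ s := Nat.one_lt_pow hs.ne' (by omega)
  have hE0 : 0 < E := by
    rcases Nat.eq_zero_or_pos E with h | h
    · rw [h] at hgeo
      omega
    · exact h
  have hcE : c ^ E = 1 := by
    rw [hE, ← Finset.prod_pow_eq_pow_sum]
    exact hN
  let u : Fˣ := Units.mk0 c hc0
  have huE : u ^ E = 1 := Units.ext (by simpa [u] using hcE)
  obtain ⟨a, ha'⟩ := (mem_powers_iff_mem_zpowers.2 (hg u))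
  have ha : g ^ a = u := ha'
  have h1 : orderOf g ∣ a * E := by
    apply orderOf_dvd_of_pow_eq_one
    rw [pow_mul, ha, huE]
  have h2 : E * (Q - 1) = orderOf g := by
    rw [hordg]
    omega
  rw [← h2, mul_comm a E] at h1
  obtain ⟨b, hb⟩ := Nat.dvd_of_mul_dvd_mul_left hE0 h1
  refine ⟨((g ^ b : Fˣ) : F), Units.ne_zero _, ?_⟩
  have h3 : (g ^ b) ^ (Q - 1) = u := by
    rw [← pow_mul, mul_comm, ← hb, ← ha]
  have := congrArg Units.val h3
  simpa [u] using this

end field

theorem comm_conj_aux {ι : Type} [Fintype ι] [DecidableEq ι] {F : Type*} [Field F] {Bi B g g₀ W : Matrix ι ι F} (hg₀ : g₀ * B = B * g) (hg₀' : Bi * g₀ = g * Bi)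
    (hW : W * g₀ = g₀ * W) : Bi * W * B * g = g * (Bi * W * B) := by
  calc Bi * W * B * g = Bi * W * (B * g) := by simp only [mul_assoc]
    _ = Bi * W * (g₀ * B) := by rw [hg₀]
    _ = Bi * (W * g₀) * B := by simp only [mul_assoc]
    _ = Bi * (g₀ * W) * B := by rw [hW]
    _ = (Bi * g₀) * W * B := by simp only [mul_assoc]
    _ = g * Bi * W * B := by rw [hg₀']
    _ = _ := by simp only [mul_assoc]

section descent

variable {F : Type*} [Field F] [Fintype F] {n : ℕ}

local notation "MM" => Matrix (Fin n) (Fin n) F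

/-- Groups normalising an absolutely irreducible group realisable over a proper subfield lie in the subfield class. -/
theorem bad_of_realisable (hn : 0 < n) {N H : Subgroup (GL (Fin n) F)}
    (hC : ∀ M : MM, (∀ s ∈ matrixSet N, M * s = s * M) → ∃ c : F, M = c • 1)
    (hnorm : ∀ h ∈ H, ∀ x ∈ N, h * x * h⁻¹ ∈ N) (F₀ : Subfield F) (hF₀ : F₀ ≠ ⊤)
    (hreal : RealisableOver F₀ (matrixSet N)) : Bad H := by
  classical
  haveI : Nonempty (Fin n) := ⟨⟨0, hn⟩⟩
  obtain ⟨Q, s, F₁, σ, hs, hcard, hcardF₁, hσ, hσ₀⟩ := exists_prime_subfield F₀ hF₀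
  obtain ⟨B, hB⟩ := hreal
  letI : Fintype F₁ := Fintype.ofFinite _
  have hQ2 : 2 ≤ Q := by
    rw [← hcardF₁, Nat.card_eq_fintype_card]
    exact Fintype.one_lt_card
  refine Bad.sbf F₁ B⁻¹ hs (by rw [hcard, hcardF₁]) ?_
  intro h hh
  let h₀ : GL (Fin n) F := B * h * B⁻¹
  -- conjugates of the normal subgroup are fixed
  have hfix : ∀ g ∈ N, ((B * g * B⁻¹ : GL (Fin n) F) : MM).map σ = ((B * g * B⁻¹ : GL (Fin n) F) : MM) := by
    intro g hg
    ext i j
    exact hσ₀ _ (hB _ ⟨g, hg, rfl⟩ i j)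
  have hmapinv : ∀ A : GL (Fin n) F, (A : MM).map σ * ((A⁻¹ : GL (Fin n) F) : MM).map σ = 1 := by
    intro A
    rw [← Matrix.map_mul, Units.mul_inv]
    ext i j
    simp [Matrix.one_apply, apply_ite σ]
  have hmapinv' : ∀ A : GL (Fin n) F, ((A⁻¹ : GL (Fin n) F) : MM).map σ * (A : MM).map σ = 1 := by
    intro A
    rw [← Matrix.map_mul, Units.inv_mul]
    ext i j
    simp [Matrix.one_apply, apply_ite σ]
  -- the commutant
  let Y : MM := ((B⁻¹ : GL (Fin n) F) : MM) * (((h₀⁻¹ : GL (Fin n) F) : MM) * (h₀ : MM).map σ) * (B : MM)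
  obtain ⟨c, hc⟩ := hC Y (by
    rintro _ ⟨g, hg, rfl⟩
    let g₀ : GL (Fin n) F := B * g * B⁻¹
    have h1 := hfix g hg
    have h2 := hfix _ (hnorm h hh g hg)
    have h3 : (B * (h * g * h⁻¹) * B⁻¹ : GL (Fin n) F) = h₀ * g₀ * h₀⁻¹ := by
      simp only [h₀, g₀]
      group
    rw [h3] at h2
    have h4 : (h₀ : MM).map σ * (g₀ : MM) * ((h₀⁻¹ : GL (Fin n) F) : MM).map σ = (h₀ : MM) * (g₀ : MM) * ((h₀⁻¹ : GL (Fin n) F) : MM) := by
      have h5 : (((h₀ * g₀ * h₀⁻¹ : GL (Fin n) F)) : MM).map σ = (h₀ : MM).map σ * (g₀ : MM).map σ * ((h₀⁻¹ : GL (Fin n) F) : MM).map σ := by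
        simp only [Units.val_mul, Matrix.map_mul]
      rw [h5, h1] at h2
      rw [h2]
      simp only [Units.val_mul]
    have h6 : ((h₀⁻¹ : GL (Fin n) F) : MM) * (h₀ : MM).map σ * (g₀ : MM) = (g₀ : MM) * (((h₀⁻¹ : GL (Fin n) F) : MM) * (h₀ : MM).map σ) := by
      calc ((h₀⁻¹ : GL (Fin n) F) : MM) * (h₀ : MM).map σ * (g₀ : MM)
          = ((h₀⁻¹ : GL (Fin n) F) : MM) * ((h₀ : MM).map σ * (g₀ : MM) * (((h₀⁻¹ : GL (Fin n) F) : MM).map σ * (h₀ : MM).map σ)) := by
            rw [hmapinv', mul_one, mul_assoc]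
        _ = ((h₀⁻¹ : GL (Fin n) F) : MM) * ((h₀ : MM).map σ * (g₀ : MM) * ((h₀⁻¹ : GL (Fin n) F) : MM).map σ) * (h₀ : MM).map σ := by
            simp only [mul_assoc]
        _ = ((h₀⁻¹ : GL (Fin n) F) : MM) * ((h₀ : MM) * (g₀ : MM) * ((h₀⁻¹ : GL (Fin n) F) : MM)) * (h₀ : MM).map σ := by rw [h4]
        _ = _ := by
            simp only [mul_assoc, Units.inv_mul_cancel_left]
    have hg₀ : (g₀ : MM) * (B : MM) = (B : MM) * (g : MM) := by
      simp only [g₀, Units.val_mul, mul_assoc, Units.inv_mul, mul_one]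
    have hg₀' : ((B⁻¹ : GL (Fin n) F) : MM) * (g₀ : MM) = (g : MM) * ((B⁻¹ : GL (Fin n) F) : MM) := inv_intertw hg₀.symm
    show Y * (g : MM) = (g : MM) * Y
    simp only [Y]
    exact comm_conj_aux hg₀ hg₀' h6)
  -- the matrix relation
  have hrel : (h₀ : MM).map σ = c • (h₀ : MM) := by
    have h1 : ((h₀⁻¹ : GL (Fin n) F) : MM) * (h₀ : MM).map σ = c • 1 := by
      have h2 : (B : MM) * Y * ((B⁻¹ : GL (Fin n) F) : MM) = ((h₀⁻¹ : GL (Fin n) F) : MM) * (h₀ : MM).map σ := by
        simp only [Y, mul_assoc, Units.mul_inv_cancel_left, Units.mul_inv, mul_one]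
      rw [← h2, hc]
      simp only [Matrix.mul_smul, Matrix.smul_mul, mul_one, Units.mul_inv]
    calc (h₀ : MM).map σ = (h₀ : MM) * (((h₀⁻¹ : GL (Fin n) F) : MM) * (h₀ : MM).map σ) := by
          rw [Units.mul_inv_cancel_left]
      _ = _ := by
          rw [h1, Matrix.mul_smul, mul_one]
  have hentry : ∀ a b, ((h₀ : MM) a b) ^ Q = c * (h₀ : MM) a b := by
    intro a b
    have := congrFun (congrFun hrel a) b
    simp only [Matrix.map_apply, hσ, Matrix.smul_apply, smul_eq_mul] at this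
    exact this
  obtain ⟨a₀, b₀, hab⟩ : ∃ a b, (h₀ : MM) a b ≠ 0 := by
    by_contra hcon
    push Not at hcon
    have h0 : (h₀ : MM) = 0 := by
      ext a b
      exact hcon a b
    have h1 : (h₀ : MM) * ((h₀⁻¹ : GL (Fin n) F) : MM) = 1 := Units.mul_inv _
    rw [h0, zero_mul] at h1
    exact zero_ne_one h1
  have hc0 : c ≠ 0 := by
    rintro rfl
    have := hentry a₀ b₀
    rw [zero_mul] at this
    exact hab (pow_eq_zero_iff (by omega) |>.1 this)
  have hiter : ∀ i, ∀ a b, ((h₀ : MM) a b) ^ (Q ^ i) = (∏ j ∈ Finset.range i, c ^ (Q ^ j)) * (h₀ : MM) a b := by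
    intro i
    induction i with
    | zero =>
      intro a b
      simp
    | succ i ih =>
      intro a b
      rw [pow_succ, pow_mul, ih, mul_pow, hentry, Finset.prod_range_succ', ← Finset.prod_pow]
      simp only [pow_succ Q, pow_mul, pow_zero, pow_one]
      ring
  have hnorm1 : ∏ j ∈ Finset.range s, c ^ (Q ^ j) = 1 := by
    have h1 := hiter s a₀ b₀
    rw [← hcard, FiniteField.pow_card] at h1
    have h2 : (∏ j ∈ Finset.range s, c ^ (Q ^ j) - 1) * (h₀ : MM) a₀ b₀ = 0 := by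
      linear_combination -h1
    have h3 := (mul_eq_zero.1 h2).resolve_right hab
    linear_combination h3
  obtain ⟨d, hd0, hd⟩ := norm_h90 hQ2 hs.pos hcard hc0 hnorm1
  have hrat : h₀ ∈ ratScal F₁ (Fin n) := by
    refine ⟨d⁻¹, inv_ne_zero hd0, ?_⟩
    intro a b
    apply mem_of_pow_eq F₁
    rw [← Nat.card_eq_fintype_card, hcardF₁]
    simp only [Matrix.smul_apply, smul_eq_mul, mul_pow, hentry, inv_pow]
    rw [← hd]
    have h1 : d ^ Q = d ^ (Q - 1) * d := by
      rw [← pow_succ, Nat.sub_add_cancel (by omega)]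
    rw [h1]
    field_simp
  rw [← sup_eq_ratScal] at hrat
  refine ⟨h₀, hrat, ?_⟩
  show B⁻¹ * h₀ * (B⁻¹)⁻¹ = h
  simp only [h₀]
  group

theorem sn_entry {F : Type*} [Field F] {a b : ℕ} (hab : b = a) (ha : 0 < a) (Θ : Matrix (Fin b) (Fin b) F →ₐ[F] Matrix (Fin a) (Fin a) F) :
    ∃ B : GL (Fin a) F, ∀ X i j, ∃ k l, (((B⁻¹ : GL (Fin a) F) : Matrix (Fin a) (Fin a) F) * Θ X * (B : Matrix (Fin a) (Fin a) F)) i j = X k l := by
  subst hab
  obtain ⟨B, hB⟩ := skolem_noether ha Θ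
  refine ⟨B, fun X i j => ⟨i, j, ?_⟩⟩
  rw [mul_assoc, hB, Units.inv_mul_cancel_left]

/-- Realisability from traces. -/
theorem realisable_of_trace (hn : 0 < n) (hnF : (n : F) ≠ 0) {N : Subgroup (GL (Fin n) F)}
    (hTop : Algebra.adjoin F (matrixSet N) = ⊤)
    (hC : ∀ M : MM, (∀ s ∈ matrixSet N, M * s = s * M) → ∃ c : F, M = c • 1) (F₀ : Subfield F)
    (htr : ∀ g ∈ N, Matrix.trace (g : MM) ∈ F₀) : RealisableOver F₀ (matrixSet N) := by
  classical
  haveI : Nonempty (Fin n) := ⟨⟨0, hn⟩⟩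
  let A₀ : Subalgebra F₀ MM := Algebra.adjoin F₀ (matrixSet N)
  have hconj : ConjClosed N A₀ := by
    apply conjClosed_adjoin
    rintro g hg _ ⟨y, hy, rfl⟩
    exact ⟨g * y * g⁻¹, N.mul_mem (N.mul_mem hg hy) (N.inv_mem hg), by simp⟩
  have hirr : ActsIrreducibly (matrixSet N) := irr_of_adjoin_top hTop
  have hJ : Ring.jacobson A₀ = ⊥ := jacobson_eq_bot_of_conj hn hirr hconj
  -- traces of the algebra
  have hclos : ∀ x ∈ Submonoid.closure (matrixSet N), x ∈ matrixSet N := by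
    intro x hx
    induction hx using Submonoid.closure_induction with
    | mem x hx => exact hx
    | one => exact ⟨1, N.one_mem, rfl⟩
    | mul x y _ _ hx hy =>
      obtain ⟨u, hu, rfl⟩ := hx
      obtain ⟨v, hv, rfl⟩ := hy
      exact ⟨u * v, N.mul_mem hu hv, rfl⟩
  have hspan' : ∀ x ∈ Submodule.span F₀ (Submonoid.closure (matrixSet N) : Set MM), Matrix.trace x ∈ F₀ := by
    intro x h1
    induction h1 using Submodule.span_induction with
    | mem x hx =>
      obtain ⟨g, hg, rfl⟩ := hclos x hx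
      exact htr g hg
    | zero => simpa using F₀.zero_mem
    | add x y _ _ hx hy =>
      rw [Matrix.trace_add]
      exact F₀.add_mem hx hy
    | smul a x _ hx =>
      rw [Matrix.trace_smul]
      exact F₀.mul_mem a.2 hx
  have hspan : ∀ x ∈ A₀, Matrix.trace x ∈ F₀ := fun x hx => hspan' x (by
    have h1 : x ∈ Subalgebra.toSubmodule A₀ := hx
    rwa [Algebra.adjoin_eq_span] at h1)
  haveI : Nontrivial A₀ := ⟨⟨0, 1, fun h => zero_ne_one (α := MM) (congrArg Subtype.val h)⟩⟩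
  haveI : Module.Finite F₀ A₀ := Module.Finite.of_finite
  obtain ⟨b, hb, ⟨θ⟩⟩ := matrix_of_central (K := F₀) (A := A₀) hJ (by
    intro x hx
    obtain ⟨c, hc⟩ := hC x.1 (fun s hs => congrArg Subtype.val (hx ⟨s, Algebra.subset_adjoin hs⟩))
    have h1 := hspan x.1 x.2
    rw [hc, Matrix.trace_smul, Matrix.trace_one, Fintype.card_fin, smul_eq_mul] at h1
    have h2 : c ∈ F₀ := by
      have h3 : c = c * (n : F) * (n : F)⁻¹ := by
        field_simp
      rw [h3]
      exact F₀.mul_mem h1 (F₀.inv_mem (natCast_mem F₀ n))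
    refine ⟨⟨c, h2⟩, Subtype.ext ?_⟩
    rw [hc]
    show _ = algebraMap F₀ MM ⟨c, h2⟩
    rw [Algebra.algebraMap_eq_smul_one]
    rfl)
  let E₀ : Fin b → Fin b → Matrix (Fin b) (Fin b) F₀ := fun u v => Matrix.single u v 1
  let e : Fin b → Fin b → MM := fun u v => (θ (E₀ u v) : MM)
  have he : ∀ u v s t, e u v * e s t = if v = s then e u t else 0 := by
    intro u v s t
    show ((θ (E₀ u v) : A₀) : MM) * (θ (E₀ s t) : A₀) = _
    rw [← Subalgebra.coe_mul, ← map_mul]
    simp only [E₀]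
    rw [E_mul]
    by_cases h : v = s
    · simp [h, e, E₀]
    · simp [h]
  have hsum : ∑ u, e u u = 1 := by
    have h1 : ∑ u, E₀ u u = 1 := sum_E b
    have h2 := congrArg (fun x => ((θ x : A₀) : MM)) h1
    simpa [map_sum, AddSubmonoidClass.coe_finset_sum, e] using h2
  let i0 : Fin b := ⟨0, hb⟩
  have he0 : e i0 i0 ≠ 0 := by
    intro h
    apply one_ne_zero (α := MM)
    rw [← hsum]
    apply Finset.sum_eq_zero
    intro u _
    have h1 : e u u = e u i0 * e i0 i0 * e i0 u := by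
      rw [he, if_pos rfl, he, if_pos rfl]
    rw [h1, h]
    simp
  let L : Matrix (Fin b) (Fin b) F →ₗ[F] MM :=
    { toFun := fun X => ∑ u, ∑ v, X u v • e u v
      map_add' := by
        intro X Y
        simp only [Matrix.add_apply, add_smul, Finset.sum_add_distrib]
      map_smul' := by
        intro c X
        simp only [Matrix.smul_apply, smul_eq_mul, mul_smul, Finset.smul_sum, RingHom.id_apply] }
  have hL : ∀ X, L X = ∑ u, ∑ v, X u v • e u v := fun X => rfl
  have hLsingle : ∀ X s t, e i0 s * L X * e t i0 = X s t • e i0 i0 := by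
    intro X s t
    rw [hL, Finset.mul_sum, Finset.sum_mul, Finset.sum_eq_single s]
    · rw [Finset.mul_sum, Finset.sum_mul, Finset.sum_eq_single t]
      · rw [Matrix.mul_smul, Matrix.smul_mul, he, if_pos rfl, he, if_pos rfl]
      · intro v _ hv
        rw [Matrix.mul_smul, Matrix.smul_mul, he, if_pos rfl, he, if_neg hv, smul_zero]
      · simp
    · intro u _ hu
      rw [Finset.mul_sum, Finset.sum_mul]
      apply Finset.sum_eq_zero
      intro v _
      rw [Matrix.mul_smul, Matrix.smul_mul, he, if_neg (Ne.symm hu), zero_mul, smul_zero]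
    · simp
  let Θ : Matrix (Fin b) (Fin b) F →ₐ[F] MM := AlgHom.ofLinearMap L (by
      rw [hL]
      rw [← hsum]
      apply Finset.sum_congr rfl
      intro u _
      rw [Finset.sum_eq_single u]
      · simp
      · intro v _ hv
        rw [Matrix.one_apply_ne (Ne.symm hv), zero_smul]
      · simp) (by
      intro X Y
      have hk : ∀ u v, (X u v • e u v) * L Y = ∑ t, (X u v * Y v t) • e u t := by
        intro u v
        rw [hL, Finset.mul_sum, Finset.sum_eq_single v]
        · rw [Finset.mul_sum]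
          apply Finset.sum_congr rfl
          intro t _
          rw [Matrix.smul_mul, Matrix.mul_smul, he, if_pos rfl, smul_smul]
        · intro s _ hs
          rw [Finset.mul_sum]
          apply Finset.sum_eq_zero
          intro t _
          rw [Matrix.smul_mul, Matrix.mul_smul, he, if_neg (Ne.symm hs), smul_zero, smul_zero]
        · simp
      rw [hL (X * Y), hL X, Finset.sum_mul]
      apply Finset.sum_congr rfl
      intro u _
      rw [Finset.sum_mul]
      simp only [hk, Matrix.mul_apply, Finset.sum_smul]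
      exact Finset.sum_comm)
  have hΘ : ∀ X, Θ X = L X := fun X => rfl
  have hinj : Function.Injective Θ := by
    rw [injective_iff_map_eq_zero]
    intro X hX
    ext s t
    have h1 := hLsingle X s t
    rw [← hΘ, hX, mul_zero, zero_mul] at h1
    exact ((smul_eq_zero.1 h1.symm).resolve_right he0)
  have hmem : ∀ x ∈ A₀, ∃ X₀ : Matrix (Fin b) (Fin b) F₀, Θ (X₀.map (F₀.subtype : F₀ →+* F)) = x := by
    intro x hx
    obtain ⟨X₀, hX₀⟩ := θ.surjective ⟨x, hx⟩
    refine ⟨X₀, ?_⟩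
    have h1 : x = ((θ X₀ : A₀) : MM) := by rw [hX₀]
    rw [h1, hΘ, hL]
    have h2 : θ X₀ = ∑ u, ∑ v, X₀ u v • θ (E₀ u v) := by
      conv_lhs => rw [mat_eq_sum b X₀]
      simp only [map_sum, map_smul, E₀]
    rw [h2]
    simp only [AddSubmonoidClass.coe_finset_sum]
    rfl
  have hsurj : Function.Surjective Θ := by
    intro y
    have h1 : Algebra.adjoin F (matrixSet N) ≤ Θ.range := by
      apply Algebra.adjoin_le
      intro s hs
      obtain ⟨X₀, hX₀⟩ := hmem s (Algebra.subset_adjoin hs)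
      exact ⟨_, hX₀⟩
    rw [hTop] at h1
    exact h1 (Algebra.mem_top (x := y))
  have hbn : b = n := by
    have h1 := (LinearEquiv.ofBijective L ⟨hinj, hsurj⟩).finrank_eq
    rw [finrank_matrix, finrank_matrix] at h1
    simp only [finrank_self, mul_one, Fintype.card_fin] at h1
    exact Nat.mul_self_inj.1 h1
  obtain ⟨B, hB⟩ := sn_entry hbn hn Θ
  refine ⟨B⁻¹, ?_⟩
  rintro _ ⟨g, hg, rfl⟩ i j
  obtain ⟨X₀, hX₀⟩ := hmem (g : MM) (Algebra.subset_adjoin ⟨g, hg, rfl⟩)
  obtain ⟨k, l, hkl⟩ := hB (X₀.map (F₀.subtype : F₀ →+* F)) i j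
  rw [hX₀] at hkl
  have h2 : (((B⁻¹ : GL (Fin n) F) : MM) * (g : MM) * (((B⁻¹)⁻¹ : GL (Fin n) F) : MM)) i j = X₀.map (F₀.subtype : F₀ →+* F) k l := by
    rw [inv_inv]
    exact hkl
  show (((B⁻¹ : GL (Fin n) F) : MM) * (g : MM) * (((B⁻¹)⁻¹ : GL (Fin n) F) : MM)) i j ∈ F₀
  rw [h2]
  exact (X₀ k l).2

end descent

end Cfsg.Agent.Lib.ClassMax.Asch
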