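import Mathlib
import Cfsg.Agent.Lib.ClassMax.Asch8
import Cfsg.Agent.Lib.Components.Core2
import Cfsg.Agent.Lib.Components.Layer

/-!
Minimal normal subgroups with scalar commutators: structure.
-/

set_option autoImplicit false
set_option linter.unusedSimpArgs false
set_option linter.unusedVariables false
set_option linter.unusedSectionVars false
set_option linter.unusedFintypeInType false
set_option linter.unusedDecidableInType false

namespace Cfsg.Agent.Lib.ClassMax.Asch

open Module Matrix Cfsg.Geo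

variable {F : Type*} [Field F] [Fintype F] {n : ℕ}

local notation "MM" => Matrix (Fin n) (Fin n) F

omit [Fintype F] in
theorem scal_comm {x : GL (Fin n) F} (hx : x ∈ scalars (Fin n) F) (y : GL (Fin n) F) : x * y = y * x := by
  rw [mem_scalars_iff] at hx
  obtain ⟨c, hc⟩ := hx
  apply Units.ext
  rw [Units.val_mul, Units.val_mul, hc, Matrix.smul_mul, Matrix.mul_smul, one_mul, mul_one]

omit [Fintype F] in
theorem scal_of_eq (hn : 0 < n) {x : GL (Fin n) F} {c : F} (h : (x : MM) = c • 1) : x ∈ scalars (Fin n) F := by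
  haveI : Nonempty (Fin n) := ⟨⟨0, hn⟩⟩
  have hc0 : c ≠ 0 := by
    rintro rfl
    rw [zero_smul] at h
    have h4 : (x : MM) * ((x⁻¹ : GL (Fin n) F) : MM) = 1 := Units.mul_inv _
    rw [h, zero_mul] at h4
    exact zero_ne_one h4
  exact (mem_scalars_iff x).2 ⟨Units.mk0 c hc0, h⟩

/-- The hypotheses on a minimal normal subgroup with scalar commutators. -/
structure ExtraHyp (H R : Subgroup (GL (Fin n) F)) : Prop where
  hn3 : 3 ≤ n
  hbad : ¬ Bad H
  hnorm : ∀ h ∈ H, ∀ x ∈ R, h * x * h⁻¹ ∈ R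
  hns : ¬ R ≤ scalars (Fin n) F
  hmin : ∀ N : Subgroup (GL (Fin n) F), N ≤ R → (∀ h ∈ H, ∀ x ∈ N, h * x * h⁻¹ ∈ N) → ¬ N ≤ scalars (Fin n) F → N = R
  hcs : ∀ x ∈ R, ∀ y ∈ R, x * y * x⁻¹ * y⁻¹ ∈ scalars (Fin n) F

namespace ExtraHyp

variable {H R : Subgroup (GL (Fin n) F)} (E : ExtraHyp H R)

include E

theorem n_pos : 0 < n := by
  have := E.hn3
  omega

theorem hC : ∀ M : MM, (∀ s ∈ matrixSet R, M * s = s * M) → ∃ c : F, M = c • 1 :=
  comm_scalar_of_normal E.hn3 E.hbad E.hnorm E.hns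

theorem hTop : Algebra.adjoin F (matrixSet R) = ⊤ :=
  adjoin_top_of_comm E.n_pos (irr_of_not_bad E.hbad) E.hnorm E.hC

theorem hirr : ActsIrreducibly (matrixSet R) := irr_of_adjoin_top E.hTop

theorem hinvnorm {h : GL (Fin n) F} (hh : h ∈ H) : h ∈ Subgroup.normalizer (R : Set (GL (Fin n) F)) := by
  rw [Subgroup.mem_normalizer_iff]
  intro x
  refine ⟨fun hx => E.hnorm h hh x hx, fun hx => ?_⟩
  have h1 := E.hnorm h⁻¹ (H.inv_mem hh) _ hx
  have h2 : h⁻¹ * (h * x * h⁻¹) * h⁻¹⁻¹ = x := by group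
  rwa [h2] at h1

theorem central {x : GL (Fin n) F} (hc : ∀ y ∈ R, x * y = y * x) : x ∈ scalars (Fin n) F := by
  obtain ⟨c, hc'⟩ := E.hC x (by
    rintro _ ⟨y, hy, rfl⟩
    show (x : MM) * y = y * x
    rw [← Units.val_mul, ← Units.val_mul, hc y hy])
  exact scal_of_eq E.n_pos hc'

theorem comm_cen : ∀ x ∈ R, ∀ y ∈ R, (x * y * x⁻¹ * y⁻¹) * y = y * (x * y * x⁻¹ * y⁻¹) := fun x hx y hy => scal_comm (E.hcs x hx y hy) y

/-- The group is a group of prime power order. -/
theorem exists_prime_pgroup : ∃ r : ℕ, r.Prime ∧ IsPGroup r R := by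
  classical
  obtain ⟨x, hx, hxs⟩ := SetLike.not_le_iff_exists.1 E.hns
  let π := QuotientGroup.mk' (scalars (Fin n) F)
  have hπ : ∀ g, π g = 1 ↔ g ∈ scalars (Fin n) F := fun g => QuotientGroup.eq_one_iff g
  have hπx : π x ≠ 1 := fun h => hxs ((hπ x).1 h)
  have ho1 : orderOf (π x) ≠ 1 := fun h => hπx (orderOf_eq_one_iff.1 h)
  have ho0 : 0 < orderOf (π x) := orderOf_pos _
  set r := Nat.minFac (orderOf (π x)) with hr
  have hrp : r.Prime := Nat.minFac_prime ho1
  have hrd : r ∣ orderOf (π x) := Nat.minFac_dvd _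
  haveI : Fact r.Prime := ⟨hrp⟩
  let x₁ := x ^ (orderOf (π x) / r)
  have hx₁R : x₁ ∈ R := R.pow_mem hx _
  have hx₁s : x₁ ∉ scalars (Fin n) F := by
    intro h
    have h1 := (hπ _).2 h
    rw [map_pow] at h1
    have h2 : orderOf (π x) / r < orderOf (π x) := Nat.div_lt_self ho0 hrp.one_lt
    have h3 : 0 < orderOf (π x) / r := Nat.div_pos (Nat.le_of_dvd ho0 hrd) hrp.pos
    exact pow_ne_one_of_lt_orderOf h3.ne' h2 h1
  have hx₁r : x₁ ^ r ∈ scalars (Fin n) F := by
    rw [← hπ, map_pow, map_pow, ← pow_mul, Nat.div_mul_cancel hrd, pow_orderOf_eq_one]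
  obtain ⟨k, m, hm, hkm⟩ := Nat.exists_eq_pow_mul_and_not_dvd (orderOf_pos x₁).ne' r hrp.ne_one
  have hcop : Nat.Coprime m r := (Nat.Prime.coprime_iff_not_dvd hrp).2 hm |>.symm
  obtain ⟨u, hu⟩ := Nat.exists_mul_mod_eq_one_of_coprime hcop hrp.one_lt
  have huv : m * u = r * (m * u / r) + 1 := by
    conv_lhs => rw [← Nat.div_add_mod (m * u) r, hu.2]
  set v := m * u / r with hv
  let y := x₁ ^ (m * u)
  have hyR : y ∈ R := R.pow_mem hx₁R _
  have hys : y ∉ scalars (Fin n) F := by
    intro h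
    apply hx₁s
    have h1 : y = (x₁ ^ r) ^ v * x₁ := by
      simp only [y]
      rw [huv, pow_succ, pow_mul]
    have h2 : x₁ = ((x₁ ^ r) ^ v)⁻¹ * y := by
      rw [h1]
      group
    rw [h2]
    exact Subgroup.mul_mem _ (Subgroup.inv_mem _ (Subgroup.pow_mem _ hx₁r _)) h
  have hyk : y ^ (r ^ k) = 1 := by
    simp only [y]
    rw [← pow_mul]
    have : m * u * r ^ k = orderOf x₁ * u := by
      rw [hkm]
      ring
    rw [this, pow_mul, pow_orderOf_eq_one, one_pow]
  let y' : R := ⟨y, hyR⟩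
  have hyk' : y' ^ (r ^ k) = 1 := Subtype.ext hyk
  have hzp : IsPGroup r (Subgroup.zpowers y') := by
    obtain ⟨l, -, hl⟩ := (Nat.dvd_prime_pow hrp).1 (orderOf_dvd_of_pow_eq_one hyk')
    apply IsPGroup.of_card (n := l)
    rw [Nat.card_zpowers, hl]
  obtain ⟨Q, hQ⟩ := hzp.exists_le_sylow
  have hnil : Group.IsNilpotent R := by
    apply Cfsg.Agent.Lib.Components.isNilpotent_of_commutator_le_center
    rw [commutator_def, Subgroup.commutator_le]
    rintro ⟨a, ha⟩ - ⟨b, hb⟩ -
    rw [Subgroup.mem_center_iff]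
    rintro ⟨c, hc⟩
    apply Subtype.ext
    exact (scal_comm (E.hcs a ha b hb) c).symm
  have hQn : (Q : Subgroup R).Normal := by
    haveI := hnil
    infer_instance
  have hQc := Cfsg.Agent.Lib.Components.le_pCore hQn Q.isPGroup'
  have hmem : y ∈ Cfsg.Agent.Lib.Components.subPCore r R := by
    refine ⟨y', hQc (hQ (Subgroup.mem_zpowers y')), rfl⟩
  have heq := E.hmin (Cfsg.Agent.Lib.Components.subPCore r R) (Cfsg.Agent.Lib.Components.subPCore_le R)
    (fun h hh x hx => Cfsg.Agent.Lib.Components.conj_mem_subPCore (E.hinvnorm hh) hx)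
    (fun hle => hys (hle hmem))
  refine ⟨r, hrp, ?_⟩
  have := Cfsg.Agent.Lib.Components.subPCore_isPGroup (p := r) R
  rwa [heq] at this

/-- Non-scalar elements have trace zero. -/
theorem trace_zero {g : GL (Fin n) F} (hg : g ∈ R) (hgs : g ∉ scalars (Fin n) F) : Matrix.trace (g : MM) = 0 := by
  have h1 : ∃ y ∈ R, g * y ≠ y * g := by
    by_contra hcon
    push Not at hcon
    exact hgs (E.central hcon)
  obtain ⟨y, hy, hne⟩ := h1
  obtain ⟨c, hc⟩ := (mem_scalars_iff _).1 (E.hcs y hy g hg)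
  have h2 : (y : MM) * (g : MM) * ((y⁻¹ : GL (Fin n) F) : MM) = (c : F) • (g : MM) := by
    have h3 : (y * g * y⁻¹ : GL (Fin n) F) = (y * g * y⁻¹ * g⁻¹) * g := by group
    have h4 := congrArg (fun u : GL (Fin n) F => (u : MM)) h3
    simp only [Units.val_mul] at h4 hc ⊢
    rw [h4, hc, Matrix.smul_mul, one_mul]
  have h5 : Matrix.trace (g : MM) = (c : F) * Matrix.trace (g : MM) := by
    have h6 := Matrix.trace_units_conj y (g : MM)
    rw [h2, Matrix.trace_smul, smul_eq_mul] at h6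
    exact h6.symm
  have hc1 : (c : F) ≠ 1 := by
    intro h7
    apply hne
    have h8 : (y * g * y⁻¹ * g⁻¹ : GL (Fin n) F) = 1 := by
      apply Units.ext
      rw [hc, h7, one_smul]
      rfl
    have h9 : y * g = g * y := by
      calc y * g = (y * g * y⁻¹ * g⁻¹) * (g * y) := by group
        _ = _ := by rw [h8, one_mul]
    exact h9.symm
  have h10 : ((c : F) - 1) * Matrix.trace (g : MM) = 0 := by
    linear_combination -h5
  exact (mul_eq_zero.1 h10).resolve_left (sub_ne_zero.2 hc1)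

/-- The group spans the matrix algebra. -/
theorem span_top : Submodule.span F (matrixSet R) = ⊤ := by
  have h1 := Algebra.adjoin_eq_span F (matrixSet R)
  rw [E.hTop, Algebra.top_toSubmodule] at h1
  rw [eq_top_iff, h1]
  apply Submodule.span_le.2
  intro x hx
  have hclos : x ∈ matrixSet R := by
    induction hx using Submonoid.closure_induction with
    | mem x hx => exact hx
    | one => exact ⟨1, R.one_mem, rfl⟩
    | mul x y _ _ hx hy =>
      obtain ⟨u, hu, rfl⟩ := hx
      obtain ⟨v, hv, rfl⟩ := hy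
      exact ⟨u * v, R.mul_mem hu hv, rfl⟩
  exact Submodule.subset_span hclos

/-- The characteristic does not divide the dimension. -/
theorem n_ne_zero : (n : F) ≠ 0 := by
  intro h0
  haveI : Nonempty (Fin n) := ⟨⟨0, E.n_pos⟩⟩
  have hall : ∀ x ∈ Submodule.span F (matrixSet R), Matrix.trace x = 0 := by
    intro x hx
    induction hx using Submodule.span_induction with
    | mem x hx =>
      obtain ⟨g, hg, rfl⟩ := hx
      by_cases hs : g ∈ scalars (Fin n) F
      · obtain ⟨c, hc⟩ := (mem_scalars_iff _).1 hs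
        show Matrix.trace (g : MM) = 0
        rw [hc, Matrix.trace_smul, Matrix.trace_one, Fintype.card_fin, h0, smul_zero]
      · exact E.trace_zero hg hs
    | zero => simp
    | add x y _ _ hx hy => rw [Matrix.trace_add, hx, hy, add_zero]
    | smul a x _ hx => rw [Matrix.trace_smul, hx, smul_zero]
  have h1 := hall (Matrix.single ⟨0, E.n_pos⟩ ⟨0, E.n_pos⟩ 1) (by rw [E.span_top]; trivial)
  rw [Matrix.trace_single_eq_same] at h1
  exact one_ne_zero h1

/-- Cosets of the scalars form a basis. -/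
theorem card_quot : Nat.card (R ⧸ (scalars (Fin n) F).subgroupOf R) = n * n := by
  classical
  let Q := R ⧸ (scalars (Fin n) F).subgroupOf R
  letI : Fintype Q := Fintype.ofFinite Q
  let rep : Q → GL (Fin n) F := fun c => ((Quotient.out c : R) : GL (Fin n) F)
  have hrepR : ∀ c, rep c ∈ R := fun c => (Quotient.out c : R).2
  have hrepne : ∀ c c', c ≠ c' → rep c * (rep c')⁻¹ ∉ scalars (Fin n) F := by
    intro c c' hne hs
    apply hne
    rw [← QuotientGroup.out_eq' c, ← QuotientGroup.out_eq' c']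
    rw [QuotientGroup.eq]
    rw [Subgroup.mem_subgroupOf]
    have h1 : ((Quotient.out c)⁻¹ * Quotient.out c' : R) = ((rep c)⁻¹ * rep c' : GL (Fin n) F) := rfl
    show (((Quotient.out c)⁻¹ * Quotient.out c' : R) : GL (Fin n) F) ∈ _
    rw [h1]
    have h2 : (rep c)⁻¹ * rep c' = (rep c)⁻¹ * ((rep c * (rep c')⁻¹)⁻¹) * rep c := by group
    rw [h2]
    have h3 := Subgroup.Normal.conj_mem (scalars_normal (ι := Fin n) (F := F)) _ (Subgroup.inv_mem _ hs) (rep c)⁻¹
    rwa [inv_inv] at h3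
  have hli : LinearIndependent F (fun c => (rep c : MM)) := by
    rw [Fintype.linearIndependent_iff]
    intro a ha c₀
    have h1 := congrArg (fun M : MM => Matrix.trace (M * ((rep c₀)⁻¹ : GL (Fin n) F).1)) ha
    simp only [Finset.sum_mul, Matrix.smul_mul, Matrix.trace_sum, Matrix.trace_smul, zero_mul, Matrix.trace_zero] at h1
    rw [Finset.sum_eq_single c₀] at h1
    · rw [← Units.val_mul, mul_inv_cancel, Units.val_one, Matrix.trace_one, Fintype.card_fin, smul_eq_mul] at h1
      exact (mul_eq_zero.1 h1).resolve_right E.n_ne_zero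
    · intro c _ hc
      have h2 : Matrix.trace ((rep c : MM) * ((rep c₀)⁻¹ : GL (Fin n) F).1) = 0 := by
        rw [← Units.val_mul]
        exact E.trace_zero (R.mul_mem (hrepR c) (R.inv_mem (hrepR c₀))) (hrepne c c₀ hc)
      rw [h2, smul_zero]
    · simp
  have hsp : Submodule.span F (Set.range fun c => (rep c : MM)) = ⊤ := by
    rw [eq_top_iff, ← E.span_top]
    apply Submodule.span_le.2
    rintro _ ⟨g, hg, rfl⟩
    let g' : R := ⟨g, hg⟩
    let c : Q := QuotientGroup.mk g'
    have h1 : (Quotient.out c : R)⁻¹ * g' ∈ (scalars (Fin n) F).subgroupOf R := by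
      rw [← QuotientGroup.eq]
      exact QuotientGroup.out_eq' c
    rw [Subgroup.mem_subgroupOf] at h1
    obtain ⟨z, hz⟩ := (mem_scalars_iff _).1 h1
    have h2 : (g : MM) = (z : F) • (rep c : MM) := by
      have h3 : g = rep c * ((rep c)⁻¹ * g) := by group
      have h4 : ((rep c)⁻¹ * g : GL (Fin n) F) = (((Quotient.out c : R)⁻¹ * g' : R) : GL (Fin n) F) := rfl
      rw [h4] at h3
      conv_lhs => rw [h3]
      rw [Units.val_mul, hz, Matrix.mul_smul, mul_one]
    show (g : MM) ∈ _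
    rw [h2]
    exact Submodule.smul_mem _ _ (Submodule.subset_span ⟨c, rfl⟩)
  have h1 := finrank_span_eq_card hli
  rw [hsp, finrank_top, finrank_matrix] at h1
  simp only [finrank_self, mul_one, Fintype.card_fin] at h1
  rw [Nat.card_eq_fintype_card]
  exact h1.symm

end ExtraHyp

end Cfsg.Agent.Lib.ClassMax.Asch
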