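import Mathlib
import Cfsg.Agent.Lib.ClassMax.Asch9

/-!
Minimal normal subgroups with scalar commutators: exponent, centre, forms.
-/

set_option autoImplicit false
set_option linter.unusedSimpArgs false
set_option linter.unusedVariables false
set_option linter.unusedSectionVars false
set_option linter.unusedFintypeInType false
set_option linter.unusedDecidableInType false

namespace Cfsg.Agent.Lib.ClassMax.Asch

open Module Matrix Cfsg.Geo

section class2

variable {G : Type*} [Group G]

theorem y_pow_x {x y c : G} (hc : ∀ g, c * g = g * c) (h : y * x = c * (x * y)) (k : ℕ) :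
    y ^ k * x = c ^ k * (x * y ^ k) := by
  induction k with
  | zero => simp
  | succ k ih =>
    calc y ^ (k + 1) * x = y ^ k * (y * x) := by rw [pow_succ, mul_assoc]
      _ = y ^ k * (c * (x * y)) := by rw [h]
      _ = (y ^ k * c) * (x * y) := by rw [mul_assoc]
      _ = (c * y ^ k) * (x * y) := by rw [hc]
      _ = c * ((y ^ k * x) * y) := by simp only [mul_assoc]
      _ = c * ((c ^ k * (x * y ^ k)) * y) := by rw [ih]
      _ = c ^ (k + 1) * (x * y ^ (k + 1)) := by
          rw [pow_succ' c, pow_succ y]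
          simp only [mul_assoc]

theorem mul_pow_class2 {x y c : G} (hc : ∀ g, c * g = g * c) (h : y * x = c * (x * y)) (m : ℕ) :
    (x * y) ^ m = c ^ (∑ i ∈ Finset.range m, i) * (x ^ m * y ^ m) := by
  induction m with
  | zero => simp
  | succ m ih =>
    have hcp : ∀ (k : ℕ) (g : G), c ^ k * g = g * c ^ k := by
      intro k g
      induction k with
      | zero => simp
      | succ k ihk =>
        rw [pow_succ, mul_assoc, hc, ← mul_assoc, ihk, mul_assoc]
    rw [pow_succ, ih, Finset.sum_range_succ]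
    calc c ^ (∑ i ∈ Finset.range m, i) * (x ^ m * y ^ m) * (x * y)
        = c ^ (∑ i ∈ Finset.range m, i) * (x ^ m * ((y ^ m * x) * y)) := by simp only [mul_assoc]
      _ = c ^ (∑ i ∈ Finset.range m, i) * (x ^ m * ((c ^ m * (x * y ^ m)) * y)) := by rw [y_pow_x hc h]
      _ = c ^ (∑ i ∈ Finset.range m, i) * ((x ^ m * c ^ m) * (x * (y ^ m * y))) := by simp only [mul_assoc]
      _ = c ^ (∑ i ∈ Finset.range m, i) * ((c ^ m * x ^ m) * (x * (y ^ m * y))) := by rw [hcp m (x ^ m)]
      _ = _ := by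
          rw [pow_add c, pow_succ x, pow_succ y]
          simp only [mul_assoc]

theorem c_pow_eq_one {x y c : G} (hc : ∀ g, c * g = g * c) (h : y * x = c * (x * y)) {r : ℕ} (hy : y ^ r * x = x * y ^ r) : c ^ r = 1 := by
  have h1 := y_pow_x hc h r
  rw [hy] at h1
  exact (mul_eq_right.1 h1.symm)

theorem dvd_sum_range {r : ℕ} (hr : r.Prime) : r ∣ ∑ i ∈ Finset.range (r * Nat.gcd 2 r), i := by
  rcases hr.eq_two_or_odd' with rfl | hodd
  · decide
  · have h1 : Nat.gcd 2 r = 1 := by
      exact (Nat.coprime_two_left.2 hodd)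
    rw [h1, mul_one]
    have h2 := Finset.sum_range_id_mul_two r
    have h3 : r ∣ (∑ i ∈ Finset.range r, i) * 2 := by
      rw [h2]
      exact Dvd.intro _ rfl
    exact (Nat.Coprime.dvd_of_dvd_mul_right (Nat.coprime_two_right.2 hodd) h3)

end class2

variable {F : Type*} [Field F] [Fintype F] {n : ℕ}

local notation "MM" => Matrix (Fin n) (Fin n) F

theorem entry_aux (A B : MM) (a b c d : Fin n) : (A * Matrix.single a b (1 : F) * B) c d = A c a * B b d := by
  rw [Matrix.mul_apply, Finset.sum_eq_single b]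
  · rw [Matrix.mul_single_apply_same, mul_one]
  · intro k _ hk
    rw [Matrix.mul_single_apply_of_ne (hbj := hk), zero_mul]
  · simp

/-- The scalars form a cyclic group. -/
theorem scalars_cyclic (hn : 0 < n) : IsCyclic (scalars (Fin n) F) := by
  let i0 : Fin n := ⟨0, hn⟩
  have hc : ∀ g : scalars (Fin n) F, ∃ c : F, ((g : GL (Fin n) F) : MM) = c • 1 := by
    intro g
    obtain ⟨c, hc⟩ := (mem_scalars_iff _).1 g.2
    exact ⟨c, hc⟩
  have hent : ∀ (g : scalars (Fin n) F) (c : F), ((g : GL (Fin n) F) : MM) = c • 1 → ((g : GL (Fin n) F) : MM) i0 i0 = c := by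
    intro g c h
    rw [h]
    simp
  let f : scalars (Fin n) F →* F :=
    { toFun := fun g => ((g : GL (Fin n) F) : MM) i0 i0
      map_one' := by simp
      map_mul' := by
        intro a b
        obtain ⟨c, hc'⟩ := hc a
        obtain ⟨d, hd⟩ := hc b
        simp only [Subgroup.coe_mul, Units.val_mul]
        rw [hc', hd]
        simp [mul_comm] }
  apply isCyclic_of_injective_ringHom f
  intro a b hab
  obtain ⟨c, hc'⟩ := hc a
  obtain ⟨d, hd⟩ := hc b
  have h1 : c = d := by
    rw [← hent a c hc', ← hent b d hd]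
    exact hab
  apply Subtype.ext
  apply Units.ext
  rw [hc', hd, h1]

namespace ExtraHyp

variable {H R : Subgroup (GL (Fin n) F)} (E : ExtraHyp H R)

include E

theorem dim_power {r : ℕ} (hr : r.Prime) (hR : IsPGroup r R) :
    ∃ m : ℕ, 1 ≤ m ∧ n = r ^ m ∧ Nat.card (R ⧸ (scalars (Fin n) F).subgroupOf R) = r ^ (2 * m) := by
  haveI : Fact r.Prime := ⟨hr⟩
  obtain ⟨K, hK⟩ := IsPGroup.iff_card.1 hR
  have h1 : Nat.card (R ⧸ (scalars (Fin n) F).subgroupOf R) ∣ Nat.card R := Subgroup.card_quotient_dvd_card _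
  rw [E.card_quot, hK] at h1
  obtain ⟨m, -, hm⟩ := (Nat.dvd_prime_pow hr).1 (Dvd.dvd.trans (Dvd.intro _ rfl) h1)
  have hn3 := E.hn3
  have hm1 : 1 ≤ m := by
    rcases Nat.eq_zero_or_pos m with rfl | h
    · simp at hm
      omega
    · exact h
  refine ⟨m, hm1, hm, ?_⟩
  rw [E.card_quot, hm, two_mul, pow_add]

theorem r_ne_zero {r : ℕ} (hr : r.Prime) (hR : IsPGroup r R) : (r : F) ≠ 0 := by
  obtain ⟨m, hm1, hm, -⟩ := E.dim_power hr hR
  intro h
  apply E.n_ne_zero
  rw [hm]
  push_cast
  rw [h, zero_pow (by omega)]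

theorem pow_r_scalar {r : ℕ} (hr : r.Prime) (hR : IsPGroup r R) : ∀ x ∈ R, x ^ r ∈ scalars (Fin n) F := by
  classical
  haveI : Fact r.Prime := ⟨hr⟩
  let π := QuotientGroup.mk' (scalars (Fin n) F)
  have hπ : ∀ g, π g = 1 ↔ g ∈ scalars (Fin n) F := fun g => QuotientGroup.eq_one_iff g
  have hcomm : ∀ a ∈ R, ∀ b ∈ R, Commute (π a) (π b) := by
    intro a ha b hb
    have h1 := (hπ _).2 (E.hcs a ha b hb)
    simp only [map_mul, map_inv] at h1
    show π a * π b = π b * π a
    calc π a * π b = (π a * π b * (π a)⁻¹ * (π b)⁻¹) * (π b * π a) := by group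
      _ = _ := by rw [h1, one_mul]
  let S₁ : Subgroup (GL (Fin n) F) :=
    { carrier := {x | x ∈ R ∧ x ^ r ∈ scalars (Fin n) F}
      mul_mem' := by
        rintro a b ⟨ha, ha'⟩ ⟨hb, hb'⟩
        refine ⟨R.mul_mem ha hb, ?_⟩
        rw [← hπ, map_pow, map_mul, (hcomm a ha b hb).mul_pow, ← map_pow, ← map_pow, (hπ _).2 ha', (hπ _).2 hb', one_mul]
      one_mem' := ⟨R.one_mem, by simp [Subgroup.one_mem]⟩
      inv_mem' := by
        rintro a ⟨ha, ha'⟩
        refine ⟨R.inv_mem ha, ?_⟩
        rw [inv_pow]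
        exact Subgroup.inv_mem _ ha' }
  have hS₁ : S₁ = R := by
    apply E.hmin S₁ (fun x hx => hx.1)
    · rintro h hh x ⟨hx, hx'⟩
      refine ⟨E.hnorm h hh x hx, ?_⟩
      rw [conj_pow]
      exact (scalars_normal (ι := Fin n) (F := F)).conj_mem _ hx' h
    · obtain ⟨x, hx, hxs⟩ := SetLike.not_le_iff_exists.1 E.hns
      have hπx : π x ≠ 1 := fun h => hxs ((hπ x).1 h)
      obtain ⟨a, ha⟩ := IsPGroup.iff_orderOf.1 hR ⟨x, hx⟩
      have h1 : orderOf (π x) ∣ r ^ a := by
        have h2 : orderOf x = r ^ a := by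
          rw [← ha]
          exact (Subgroup.orderOf_mk x hx).symm
        rw [← h2]
        exact orderOf_map_dvd π x
      obtain ⟨k, -, hk⟩ := (Nat.dvd_prime_pow hr).1 h1
      have hk1 : 1 ≤ k := by
        rcases Nat.eq_zero_or_pos k with rfl | h
        · rw [pow_zero] at hk
          exact absurd (orderOf_eq_one_iff.1 hk) hπx
        · exact h
      obtain ⟨l, rfl⟩ : ∃ l, k = l + 1 := ⟨k - 1, by omega⟩
      intro hle
      have h2 : x ^ (r ^ l) ∈ S₁ := by
        refine ⟨R.pow_mem hx _, ?_⟩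
        rw [← hπ, ← pow_mul, map_pow, ← pow_succ, ← hk, pow_orderOf_eq_one]
      have h3 := hle h2
      rw [← hπ, map_pow] at h3
      have h4 : r ^ l < orderOf (π x) := by
        rw [hk]
        exact Nat.pow_lt_pow_right hr.one_lt (Nat.lt_succ_self l)
      exact pow_ne_one_of_lt_orderOf (pow_pos hr.pos l).ne' h4 h3
  intro x hx
  have h1 : x ∈ S₁ := by rw [hS₁]; exact hx
  exact h1.2

theorem pow_E_mul {r : ℕ} (hr : r.Prime) (hR : IsPGroup r R) {x y : GL (Fin n) F} (hx : x ∈ R) (hy : y ∈ R) :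
    (x * y) ^ (r * Nat.gcd 2 r) = x ^ (r * Nat.gcd 2 r) * y ^ (r * Nat.gcd 2 r) := by
  let c := y * x * y⁻¹ * x⁻¹
  have hcs : c ∈ scalars (Fin n) F := E.hcs y hy x hx
  have hc : ∀ g, c * g = g * c := fun g => scal_comm hcs g
  have h : y * x = c * (x * y) := by
    simp only [c]
    group
  have hyr : y ^ r * x = x * y ^ r := scal_comm (E.pow_r_scalar hr hR y hy) x
  have hcr : c ^ r = 1 := c_pow_eq_one hc h hyr
  rw [mul_pow_class2 hc h]
  obtain ⟨t, ht⟩ := dvd_sum_range hr
  rw [ht, pow_mul, hcr, one_pow, one_mul]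

theorem exponent {r : ℕ} (hr : r.Prime) (hR : IsPGroup r R) : ∀ x ∈ R, x ^ (r * Nat.gcd 2 r) = 1 := by
  classical
  set e := r * Nat.gcd 2 r with he
  let Y : Subgroup (GL (Fin n) F) :=
    { carrier := {x | x ∈ R ∧ x ^ e = 1}
      mul_mem' := by
        rintro a b ⟨ha, ha'⟩ ⟨hb, hb'⟩
        refine ⟨R.mul_mem ha hb, ?_⟩
        rw [he, E.pow_E_mul hr hR ha hb, ← he, ha', hb', one_mul]
      one_mem' := ⟨R.one_mem, by simp⟩
      inv_mem' := by
        rintro a ⟨ha, ha'⟩
        refine ⟨R.inv_mem ha, ?_⟩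
        rw [inv_pow, ha', inv_one] }
  have hY : Y = R := by
    apply E.hmin Y (fun x hx => hx.1)
    · rintro h hh x ⟨hx, hx'⟩
      refine ⟨E.hnorm h hh x hx, ?_⟩
      rw [conj_pow, hx']
      simp
    · intro hle
      have hem : ∀ x : R, ((x : GL (Fin n) F)) ^ e ∈ scalars (Fin n) F := by
        intro x
        rw [he, pow_mul]
        exact Subgroup.pow_mem _ (E.pow_r_scalar hr hR x x.2) _
      let ψ : R →* scalars (Fin n) F :=
        { toFun := fun x => ⟨(x : GL (Fin n) F) ^ e, hem x⟩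
          map_one' := by
            apply Subtype.ext
            simp
          map_mul' := by
            intro a b
            apply Subtype.ext
            simp only [Subgroup.coe_mul]
            exact E.pow_E_mul hr hR a.2 b.2 }
      haveI := scalars_cyclic (F := F) E.n_pos
      have hker : ψ.ker ≤ Subgroup.center R := by
        intro x hx
        have h1 : (x : GL (Fin n) F) ^ e = 1 := by
          have h2 : ψ x = 1 := hx
          exact congrArg Subtype.val h2
        have h3 : (x : GL (Fin n) F) ∈ scalars (Fin n) F := hle ⟨x.2, h1⟩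
        rw [Subgroup.mem_center_iff]
        intro g
        apply Subtype.ext
        exact (scal_comm h3 g).symm
      have hcm := ψ.isMulCommutative_of_isCyclic_of_ker_le_center hker
      apply E.hns
      apply abelian_scalar E.n_pos E.hbad E.hnorm
      intro a ha b hb
      have := hcm.is_comm.comm ⟨a, ha⟩ ⟨b, hb⟩
      exact congrArg Subtype.val this
  intro x hx
  have h1 : x ∈ Y := by rw [hY]; exact hx
  exact h1.2

theorem mem_center_iff' (x : R) : x ∈ Subgroup.center R ↔ (x : GL (Fin n) F) ∈ scalars (Fin n) F := by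
  rw [Subgroup.mem_center_iff]
  constructor
  · intro h
    apply E.central
    intro y hy
    have := h ⟨y, hy⟩
    exact (congrArg Subtype.val this).symm
  · intro h g
    apply Subtype.ext
    exact (scal_comm h g).symm

theorem center_cyclic : IsCyclic (Subgroup.center R) := by
  haveI := scalars_cyclic (F := F) E.n_pos
  let f : Subgroup.center R →* scalars (Fin n) F :=
    { toFun := fun x => ⟨((x : R) : GL (Fin n) F), (E.mem_center_iff' x).1 x.2⟩
      map_one' := rfl
      map_mul' := fun a b => rfl }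
  apply isCyclic_of_injective f
  intro a b hab
  apply Subtype.ext
  apply Subtype.ext
  have h : f a = f b := hab
  exact congrArg (fun u : scalars (Fin n) F => (u : GL (Fin n) F)) h

theorem center_ne_one : Nat.card (Subgroup.center R) ≠ 1 := by
  intro h
  have h1 : Subsingleton (Subgroup.center R) := (Nat.card_eq_one_iff_unique.1 h).1
  apply E.hns
  apply abelian_scalar E.n_pos E.hbad E.hnorm
  intro a ha b hb
  have hc : (⟨a * b * a⁻¹ * b⁻¹, R.mul_mem (R.mul_mem (R.mul_mem ha hb) (R.inv_mem ha)) (R.inv_mem hb)⟩ : R) ∈ Subgroup.center R :=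
    (E.mem_center_iff' _).2 (E.hcs a ha b hb)
  have h2 : (⟨_, hc⟩ : Subgroup.center R) = 1 := Subsingleton.elim _ _
  have h3 : a * b * a⁻¹ * b⁻¹ = 1 := by
    have := congrArg (fun u : Subgroup.center R => ((u : R) : GL (Fin n) F)) h2
    exact this
  calc a * b = (a * b * a⁻¹ * b⁻¹) * (b * a) := by group
    _ = _ := by rw [h3, one_mul]

theorem center_dvd {r : ℕ} (hr : r.Prime) (hR : IsPGroup r R) : Nat.card (Subgroup.center R) ∣ r * Nat.gcd 2 r := by
  haveI := E.center_cyclic
  obtain ⟨g, hg⟩ := IsCyclic.exists_generator (α := Subgroup.center R)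
  rw [← orderOf_eq_card_of_forall_mem_zpowers hg]
  apply orderOf_dvd_of_pow_eq_one
  apply Subtype.ext
  apply Subtype.ext
  exact E.exponent hr hR _ (g : R).2

/-- A scalar in the group is a root of unity of the order of the centre. -/
theorem scalar_pow {x : GL (Fin n) F} (hx : x ∈ R) (hs : x ∈ scalars (Fin n) F) {c : F} (hc : (x : MM) = c • 1) :
    c ^ Nat.card (Subgroup.center R) = 1 := by
  haveI : Nonempty (Fin n) := ⟨⟨0, E.n_pos⟩⟩
  have h1 : (⟨⟨x, hx⟩, (E.mem_center_iff' ⟨x, hx⟩).2 hs⟩ : Subgroup.center R) ^ Nat.card (Subgroup.center R) = 1 := pow_card_eq_one'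
  have h2 : x ^ Nat.card (Subgroup.center R) = 1 := by
    have := congrArg (fun u : Subgroup.center R => ((u : R) : GL (Fin n) F)) h1
    exact this
  have h3 : (x : MM) ^ Nat.card (Subgroup.center R) = 1 := by
    rw [← Units.val_pow_eq_pow_val, h2]
    rfl
  rw [hc, smul_pow, one_pow] at h3
  have h4 := congrFun (congrFun h3 ⟨0, E.n_pos⟩) ⟨0, E.n_pos⟩
  simpa using h4

/-- Existence of an invariant form. -/
theorem exists_inv_form (σ : F ≃+* F) (hσ : ∀ x ∈ R, ∀ c : F, (x : MM) = c • 1 → c * σ c = 1)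
    (hz : (Nat.card (Subgroup.center R) : F) ≠ 0) :
    ∃ T : GL (Fin n) F, ∀ g ∈ R, (g : MM)ᵀ * T * (g : MM).map σ = T := by
  classical
  haveI : Nonempty (Fin n) := ⟨⟨0, E.n_pos⟩⟩
  letI : Fintype R := Fintype.ofFinite _
  let TX : MM → MM := fun X => ∑ g : R, ((g : GL (Fin n) F) : MM)ᵀ * X * ((g : GL (Fin n) F) : MM).map σ
  have hinv : ∀ X, ∀ h ∈ R, (h : MM)ᵀ * TX X * (h : MM).map σ = TX X := by
    intro X h hh
    simp only [TX, Finset.mul_sum, Finset.sum_mul]
    apply Fintype.sum_equiv (Equiv.mulRight (⟨h, hh⟩ : R))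
    intro g
    show (h : MM)ᵀ * (((g : GL (Fin n) F) : MM)ᵀ * X * ((g : GL (Fin n) F) : MM).map σ) * (h : MM).map σ =
      (((g : GL (Fin n) F) : MM) * (h : MM))ᵀ * X * (((g : GL (Fin n) F) : MM) * (h : MM)).map σ
    rw [Matrix.transpose_mul, Matrix.map_mul]
    simp only [mul_assoc]
  have hex : ∃ a b, TX (Matrix.single a b 1) ≠ 0 := by
    by_contra hcon
    push Not at hcon
    have h1 : ∑ a, ∑ b, (TX (Matrix.single a b 1)) a b = 0 := by
      simp [hcon]
    have h2 : ∀ a b, (TX (Matrix.single a b 1)) a b = ∑ g : R, ((g : GL (Fin n) F) : MM) a a * σ (((g : GL (Fin n) F) : MM) b b) := by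
      intro a b
      simp only [TX, Matrix.sum_apply, entry_aux, Matrix.transpose_apply, Matrix.map_apply]
    have h3 : ∑ g : R, Matrix.trace ((g : GL (Fin n) F) : MM) * σ (Matrix.trace ((g : GL (Fin n) F) : MM)) = 0 := by
      rw [← h1]
      simp only [h2]
      have hsw : ∀ g : R, Matrix.trace ((g : GL (Fin n) F) : MM) * σ (Matrix.trace ((g : GL (Fin n) F) : MM)) =
          ∑ a, ∑ b, ((g : GL (Fin n) F) : MM) a a * σ (((g : GL (Fin n) F) : MM) b b) := by
        intro g
        simp only [Matrix.trace, Matrix.diag_apply, map_sum, Finset.sum_mul, Finset.mul_sum]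
        rw [Finset.sum_comm]
      simp only [hsw]
      rw [Finset.sum_comm]
      apply Finset.sum_congr rfl
      intro a _
      rw [Finset.sum_comm]
    have h4 : ∀ g : R, Matrix.trace ((g : GL (Fin n) F) : MM) * σ (Matrix.trace ((g : GL (Fin n) F) : MM)) =
        if ((g : GL (Fin n) F)) ∈ scalars (Fin n) F then (n : F) * n else 0 := by
      intro g
      by_cases hs : ((g : GL (Fin n) F)) ∈ scalars (Fin n) F
      · rw [if_pos hs]
        obtain ⟨c, hc⟩ := (mem_scalars_iff _).1 hs
        rw [hc, Matrix.trace_smul, Matrix.trace_one, Fintype.card_fin, smul_eq_mul, map_mul, map_natCast]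
        have := hσ _ g.2 _ hc
        linear_combination (n : F) * n * this
      · rw [if_neg hs, E.trace_zero g.2 hs, zero_mul]
    simp only [h4] at h3
    rw [Finset.sum_ite, Finset.sum_const, Finset.sum_const_zero, add_zero, nsmul_eq_mul] at h3
    have h5 : Nat.card (Subgroup.center R) = (Finset.univ.filter (fun g : R => ((g : GL (Fin n) F)) ∈ scalars (Fin n) F)).card := by
      apply Nat.subtype_card
      intro x
      simp [E.mem_center_iff']
    rw [← h5] at h3
    have hnn := E.n_ne_zero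
    exact mul_ne_zero hz (mul_ne_zero hnn hnn) h3
  obtain ⟨a, b, hab⟩ := hex
  set T₀ := TX (Matrix.single a b 1) with hT₀
  have hinv₀ := hinv (Matrix.single a b 1)
  rw [← hT₀] at hinv₀
  let W : Submodule F (Fin n → F) := LinearMap.ker (Matrix.mulVecLin T₀ᵀ)
  have hW : ∀ u, u ∈ W ↔ u ᵥ* T₀ = 0 := by
    intro u
    show T₀ᵀ *ᵥ u = 0 ↔ _
    rw [Matrix.mulVec_transpose]
  have hWinv : ∀ g ∈ R, ∀ u ∈ W, (g : MM) *ᵥ u ∈ W := by
    intro g hg u hu
    rw [hW] at hu ⊢
    have h1 : (g : MM)ᵀ * T₀ = T₀ * ((g⁻¹ : GL (Fin n) F) : MM).map σ := by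
      conv_rhs => rw [← hinv₀ g hg]
      rw [mul_assoc _ ((g : MM).map σ), ← Matrix.map_mul, Units.mul_inv]
      have : (1 : MM).map σ = 1 := by
        ext i j
        simp [Matrix.one_apply, apply_ite σ]
      rw [this, mul_one]
    rw [← Matrix.vecMul_transpose, Matrix.vecMul_vecMul, h1, ← Matrix.vecMul_vecMul, hu, Matrix.zero_vecMul]
  have hWt : W = ⊥ ∨ W = ⊤ := E.hirr W (by
    rintro _ ⟨g, hg, rfl⟩ _ ⟨u, hu, rfl⟩
    exact hWinv g hg u hu)
  have hWb : W = ⊥ := by
    refine hWt.resolve_right ?_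
    intro htop
    apply hab
    ext i j
    have h1 : (Pi.single i 1 : Fin n → F) ∈ W := by rw [htop]; trivial
    have h2 := congrFun ((hW _).1 h1) j
    simpa [Matrix.vecMul, dotProduct, Pi.single_apply] using h2
  have hinjT : Function.Injective (T₀ᵀ).mulVec := by
    show Function.Injective (Matrix.mulVecLin T₀ᵀ)
    rw [← LinearMap.ker_eq_bot]
    exact hWb
  have hu : IsUnit T₀ := by
    have h1 : IsUnit T₀ᵀ := Matrix.mulVec_injective_iff_isUnit.1 hinjT
    rw [Matrix.isUnit_iff_isUnit_det] at h1 ⊢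
    rwa [Matrix.det_transpose] at h1
  obtain ⟨T, hT⟩ := hu
  refine ⟨T, ?_⟩
  intro g hg
  rw [hT]
  exact hinv₀ g hg

end ExtraHyp

end Cfsg.Agent.Lib.ClassMax.Asch
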