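import Mathlib
import Cfsg.Agent.Lib.ClassMax.Asch10

/-!
Minimal normal subgroups with scalar commutators lie in the geometric classes.
-/

set_option autoImplicit false
set_option linter.unusedSimpArgs false
set_option linter.unusedVariables false
set_option linter.unusedSectionVars false
set_option linter.unusedFintypeInType false
set_option linter.unusedDecidableInType false

namespace Cfsg.Agent.Lib.ClassMax.Asch

open Module Matrix Cfsg.Geo

variable {F : Type*} [Field F] [Fintype F] {n : ℕ}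

local notation "MM" => Matrix (Fin n) (Fin n) F

theorem exists_not_fixed {p : ℕ} (hp : p.Prime) {f d : ℕ} (hcard : Fintype.card F = p ^ f) (hd0 : 0 < d) (hd : d < f) :
    ∃ x : F, x ^ (p ^ d) ≠ x := by
  classical
  by_contra hcon
  push Not at hcon
  have hQ1 : 1 < p ^ d := Nat.one_lt_pow hd0.ne' hp.one_lt
  have hne : (Polynomial.X ^ (p ^ d) - Polynomial.X : Polynomial F) ≠ 0 := FiniteField.X_pow_card_sub_X_ne_zero F hQ1
  have hdeg := Polynomial.card_roots' (Polynomial.X ^ (p ^ d) - Polynomial.X : Polynomial F)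
  rw [FiniteField.X_pow_card_sub_X_natDegree_eq F hQ1] at hdeg
  have hsub : (Finset.univ : Finset F) ⊆ (Polynomial.X ^ (p ^ d) - Polynomial.X : Polynomial F).roots.toFinset := by
    intro y _
    rw [Multiset.mem_toFinset, Polynomial.mem_roots hne]
    simp [hcon y]
  have h2 := Finset.card_le_card hsub
  have h3 := Multiset.toFinset_card_le (Polynomial.X ^ (p ^ d) - Polynomial.X : Polynomial F).roots
  rw [Finset.card_univ, hcard] at h2
  have h4 : p ^ f ≤ p ^ d := by omega
  have h5 : p ^ d < p ^ f := Nat.pow_lt_pow_right hp.one_lt hd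
  omega

namespace ExtraHyp

variable {H R : Subgroup (GL (Fin n) F)} (E : ExtraHyp H R)

include E

theorem exists_root : ∃ c₀ : F, c₀ ≠ 0 ∧ (∃ g₀ ∈ R, (g₀ : MM) = c₀ • 1) ∧ orderOf c₀ = Nat.card (Subgroup.center R) := by
  haveI := E.center_cyclic
  obtain ⟨g, hg⟩ := IsCyclic.exists_generator (α := Subgroup.center R)
  have hs : (((g : R)) : GL (Fin n) F) ∈ scalars (Fin n) F := (E.mem_center_iff' _).1 g.2
  obtain ⟨c, hc⟩ := (mem_scalars_iff _).1 hs
  refine ⟨c, c.ne_zero, ⟨_, (g : R).2, hc⟩, ?_⟩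
  rw [← orderOf_eq_card_of_forall_mem_zpowers hg]
  rw [orderOf_eq_orderOf_iff]
  intro k
  have hk : ((((g : R)) : GL (Fin n) F) : MM) ^ k = ((c : F) ^ k) • 1 := by
    rw [hc, smul_pow, one_pow]
  haveI : Nonempty (Fin n) := ⟨⟨0, E.n_pos⟩⟩
  constructor
  · intro h
    rw [h, one_smul] at hk
    apply Subtype.ext
    apply Subtype.ext
    apply Units.ext
    exact hk
  · intro h
    have h1 : ((((g : R)) : GL (Fin n) F)) ^ k = 1 := by
      have := congrArg (fun u : Subgroup.center R => ((u : R) : GL (Fin n) F)) h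
      exact this
    have h2 : ((((g : R)) : GL (Fin n) F) : MM) ^ k = 1 := by
      rw [← Units.val_pow_eq_pow_val, h1]
      rfl
    rw [h2] at hk
    have h3 := congrFun (congrFun hk ⟨0, E.n_pos⟩) ⟨0, E.n_pos⟩
    simpa using h3.symm

theorem card_R {r m : ℕ} (hQ : Nat.card (R ⧸ (scalars (Fin n) F).subgroupOf R) = r ^ (2 * m)) :
    Nat.card R = r ^ (2 * m) * Nat.card (Subgroup.center R) := by
  rw [Subgroup.card_eq_card_quotient_mul_card_subgroup ((scalars (Fin n) F).subgroupOf R), hQ]
  have h : (scalars (Fin n) F).subgroupOf R = Subgroup.center R := by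
    apply Subgroup.ext
    intro x
    rw [E.mem_center_iff']
    exact Subgroup.mem_subgroupOf
  rw [h]

theorem char_cyclic (A : Subgroup R) (hA : A.Characteristic) (hc : IsMulCommutative A) : IsCyclic A := by
  haveI := scalars_cyclic (F := F) E.n_pos
  have hN : (A.map R.subtype) ≤ scalars (Fin n) F := by
    apply abelian_scalar E.n_pos E.hbad
    · rintro h hh _ ⟨x, hx, rfl⟩
      let φ : R ≃* R :=
        { toFun := fun y => ⟨h * y * h⁻¹, E.hnorm h hh y y.2⟩
          invFun := fun y => ⟨h⁻¹ * y * h, by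
            have := E.hnorm h⁻¹ (H.inv_mem hh) y y.2
            simpa using this⟩
          left_inv := fun y => by
            apply Subtype.ext
            simp [mul_assoc]
          right_inv := fun y => by
            apply Subtype.ext
            simp [mul_assoc]
          map_mul' := fun a b => by
            apply Subtype.ext
            simp [mul_assoc] }
      have h1 : A.comap φ.symm.toMonoidHom = A := (Subgroup.characteristic_iff_comap_eq.1 hA) φ.symm
      have h2 : φ x ∈ A := by
        rw [← h1]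
        show φ.symm (φ x) ∈ A
        simpa using hx
      exact ⟨φ x, h2, rfl⟩
    · rintro _ ⟨x, hx, rfl⟩ _ ⟨y, hy, rfl⟩
      have := hc.is_comm.comm ⟨x, hx⟩ ⟨y, hy⟩
      exact congrArg (fun u : A => ((u : R) : GL (Fin n) F)) this
  let f : A →* scalars (Fin n) F :=
    { toFun := fun x => ⟨((x : R) : GL (Fin n) F), hN ⟨x, x.2, rfl⟩⟩
      map_one' := rfl
      map_mul' := fun a b => rfl }
  apply isCyclic_of_injective f
  intro a b hab
  apply Subtype.ext
  apply Subtype.ext
  have h : f a = f b := hab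
  exact congrArg (fun u : scalars (Fin n) F => (u : GL (Fin n) F)) h

theorem symp_type {r : ℕ} (hr : r.Prime) (hR : IsPGroup r R) (hz : Nat.card (Subgroup.center R) = r * Nat.gcd 2 r) :
    IsSymplecticTypeGroup r R := by
  refine ⟨hr, hR, E.char_cyclic, ?_⟩
  haveI := E.center_cyclic
  apply Nat.dvd_antisymm
  · apply Monoid.exponent_dvd_of_forall_pow_eq_one
    intro x
    apply Subtype.ext
    exact E.exponent hr hR x x.2
  · rw [← hz]
    obtain ⟨g, hg⟩ := IsCyclic.exists_generator (α := Subgroup.center R)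
    rw [← orderOf_eq_card_of_forall_mem_zpowers hg]
    have h1 : orderOf g = orderOf (g : R) := (Subgroup.orderOf_coe g).symm
    rw [h1]
    exact Monoid.order_dvd_exponent _

theorem bad_of_smaller {p : ℕ} (hp : p.Prime) [CharP F p] {f d : ℕ} (hcard : Fintype.card F = p ^ f) (hd0 : 0 < d) (hd : d < f)
    {r : ℕ} (hr : r.Prime) (hR : IsPGroup r R)
    (hz : Nat.card (Subgroup.center R) ∣ p ^ d - 1) : Bad H := by
  classical
  haveI : Fact p.Prime := ⟨hp⟩
  haveI : ExpChar F p := ExpChar.prime hp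
  let F₀ : Subfield F := (iterateFrobenius F p d).eqLocusField (RingHom.id F)
  have hmem : ∀ x, x ∈ F₀ ↔ x ^ (p ^ d) = x := by
    intro x
    show iterateFrobenius F p d x = x ↔ _
    rw [iterateFrobenius_def]
  have hF₀ : F₀ ≠ ⊤ := by
    intro h
    obtain ⟨x, hx⟩ := exists_not_fixed (F := F) hp hcard hd0 hd
    apply hx
    rw [← hmem, h]
    trivial
  have hnF := E.n_ne_zero
  apply bad_of_realisable E.n_pos E.hC E.hnorm F₀ hF₀
  apply realisable_of_trace E.n_pos hnF E.hTop E.hC
  intro g hg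
  by_cases hs : g ∈ scalars (Fin n) F
  · obtain ⟨c, hc⟩ := (mem_scalars_iff _).1 hs
    rw [hc, Matrix.trace_smul, Matrix.trace_one, Fintype.card_fin, smul_eq_mul]
    apply F₀.mul_mem
    · rw [hmem]
      have hcz := E.scalar_pow hg hs hc
      obtain ⟨k, hk⟩ := hz
      have hpd : 1 ≤ p ^ d := Nat.one_le_pow _ _ hp.pos
      have h1 : p ^ d = (p ^ d - 1) + 1 := by omega
      rw [h1, pow_succ, hk, pow_mul, hcz, one_pow, one_mul]
    · exact natCast_mem F₀ n
  · rw [E.trace_zero hg hs]
    exact F₀.zero_mem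

theorem bad_of_unit_case {p : ℕ} (hp : p.Prime) [CharP F p] {g : ℕ} (hcard : Fintype.card F = p ^ (2 * g)) (hg : 0 < g)
    (hz0 : (Nat.card (Subgroup.center R) : F) ≠ 0) (hz : Nat.card (Subgroup.center R) ∣ p ^ g + 1) : Bad H := by
  classical
  haveI : Fact p.Prime := ⟨hp⟩
  haveI : ExpChar F p := ExpChar.prime hp
  have hinj : Function.Injective (iterateFrobenius F p g) := (iterateFrobenius F p g).injective
  let σ : F ≃+* F := RingEquiv.ofBijective (iterateFrobenius F p g) ⟨hinj, Finite.injective_iff_surjective.1 hinj⟩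
  have hσ : ∀ x, σ x = x ^ p ^ g := fun x => by
    show iterateFrobenius F p g x = _
    rw [iterateFrobenius_def]
  have hσ2 : ∀ a, σ (σ a) = a := by
    intro a
    rw [hσ, hσ, ← pow_mul, ← pow_add, ← two_mul, ← hcard, FiniteField.pow_card]
  have hσ1 : σ ≠ RingEquiv.refl F := by
    intro h
    obtain ⟨x, hx⟩ := exists_not_fixed (F := F) hp (f := 2 * g) hcard hg (by omega)
    apply hx
    rw [← hσ, h]
    rfl
  obtain ⟨T, hT⟩ := E.exists_inv_form σ (by
    intro x hx c hc
    have hs := scal_of_eq E.n_pos hc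
    have hcz := E.scalar_pow hx hs hc
    rw [hσ]
    obtain ⟨k, hk⟩ := hz
    calc c * c ^ p ^ g = c ^ (p ^ g + 1) := by rw [pow_succ, mul_comm]
      _ = 1 := by rw [hk, pow_mul, hcz, one_pow]) hz0
  exact bad_of_invariant_unit E.hn3 E.hC E.hnorm σ hσ2 hσ1 T hT

theorem bad_of_two (h2 : (2 : F) ≠ 0) (hz : Nat.card (Subgroup.center R) = 2) : Bad H := by
  obtain ⟨T, hT⟩ := E.exists_inv_form (RingEquiv.refl F) (by
    intro x hx c hc
    have hs := scal_of_eq E.n_pos hc
    have hcz := E.scalar_pow hx hs hc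
    rw [hz] at hcz
    show c * c = 1
    rw [← pow_two, hcz]) (by rw [hz]; exact_mod_cast h2)
  exact bad_of_invariant_refl E.hn3 E.hC E.hnorm h2 T hT

/-- The main theorem for minimal normal subgroups with scalar commutators. -/
theorem bad : Bad H := by
  classical
  obtain ⟨r, hr, hR⟩ := E.exists_prime_pgroup
  obtain ⟨m, hm1, hnm, hQ⟩ := E.dim_power hr hR
  have hzd := E.center_dvd hr hR
  have hz1 := E.center_ne_one
  have hrF := E.r_ne_zero hr hR
  have hcR := E.card_R hQ
  set z := Nat.card (Subgroup.center R) with hzdef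
  obtain ⟨p, hchar⟩ := CharP.exists F
  haveI := hchar
  obtain ⟨f', hp, hcard⟩ := FiniteField.card F p
  have hf0 : 0 < (f' : ℕ) := f'.pos
  set f : ℕ := (f' : ℕ) with hfdef
  have hrp : r ≠ p := by
    rintro rfl
    exact hrF (CharP.cast_eq_zero F r)
  have hpF : ∀ x : F, x ≠ 0 → x ^ (p ^ f - 1) = 1 := by
    intro x hx
    rw [← hcard]
    exact FiniteField.pow_card_sub_one_eq_one x hx
  obtain ⟨c₀, hc₀0, -, hc₀⟩ := E.exists_root
  have hzf : z ∣ p ^ f - 1 := by
    have hc₀' : orderOf c₀ = z := hc₀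
    rw [← hc₀']
    exact orderOf_dvd_of_pow_eq_one (hpF c₀ hc₀0)
  -- the value of z
  have hzcases : (r ≠ 2 ∧ z = r) ∨ (r = 2 ∧ z = 2) ∨ (r = 2 ∧ z = 4) := by
    rcases hr.eq_two_or_odd' with rfl | hodd
    · right
      have hgcd : 2 * Nat.gcd 2 2 = 4 := by decide
      rw [hgcd] at hzd
      have hle : z ≤ 4 := Nat.le_of_dvd (by norm_num) hzd
      have hpos : 0 < z := Nat.pos_of_ne_zero (by
        intro h
        rw [h] at hzd
        norm_num at hzd)
      interval_cases h : z
      · exact absurd rfl hz1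
      · left; exact ⟨rfl, rfl⟩
      · norm_num at hzd
      · right; exact ⟨rfl, rfl⟩
    · left
      have h1 : Nat.gcd 2 r = 1 := Nat.coprime_two_left.2 hodd
      rw [h1, mul_one] at hzd
      have hne2 : r ≠ 2 := by
        rintro rfl
        exact absurd hodd (by decide)
      refine ⟨hne2, ?_⟩
      exact ((Nat.dvd_prime hr).1 hzd).resolve_left hz1
  have hz2 : z = 2 → Bad H := by
    intro h
    have hr2 : r = 2 := by
      rcases hzcases with ⟨-, h1⟩ | ⟨h1, -⟩ | ⟨h1, -⟩
      · rw [← h1, h]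
      · exact h1
      · exact h1
    subst hr2
    exact E.bad_of_two (by exact_mod_cast hrF) h
  have hzF : (z : F) ≠ 0 := by
    rcases hzcases with ⟨-, h1⟩ | ⟨rfl, h1⟩ | ⟨rfl, h1⟩
    · rw [h1]; exact hrF
    · rw [h1]; exact hrF
    · rw [h1]
      intro h
      apply hrF
      have h4 : ((2 : ℕ) : F) * ((2 : ℕ) : F) = 0 := by
        rw [← Nat.cast_mul]
        exact_mod_cast h
      exact mul_self_eq_zero.1 h4
  by_cases hsmall : ∃ d, 0 < d ∧ d < f ∧ z ∣ p ^ d - 1
  · obtain ⟨d, hd0, hd, hzd'⟩ := hsmall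
    exact E.bad_of_smaller hp hcard hd0 hd hr hR hzd'
  push Not at hsmall
  have hminf : IsMinimalFieldFor z p f F := ⟨hp, hchar, hcard, hzf, fun d hd0 hd => hsmall d hd0 hd⟩
  have hnormal : H ≤ subgroupNormalizer R := fun h hh => E.hinvnorm hh
  have habsirr : ActsAbsolutelyIrreducibly (matrixSet R) := ⟨E.hirr, E.hC⟩
  rcases hzcases with ⟨hne2, hzr⟩ | ⟨hr2, hz2'⟩ | ⟨hr2, hz4⟩
  · -- odd r
    have hodd : Odd r := hr.odd_of_ne_two hne2
    have hgcd : Nat.gcd 2 r = 1 := Nat.coprime_two_left.2 hodd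
    rcases Nat.even_or_odd f with hfe | hfo
    · obtain ⟨g, hg⟩ := hfe
      have hg2 : f = 2 * g := by omega
      have hg0 : 0 < g := by omega
      have hdv : r ∣ (p ^ g - 1) * (p ^ g + 1) := by
        have h1 : (p ^ g - 1) * (p ^ g + 1) = p ^ f - 1 := by
          have h2 : 1 ≤ p ^ g := Nat.one_le_pow _ _ hp.pos
          obtain ⟨u, hu⟩ : ∃ u, p ^ g = u + 1 := ⟨p ^ g - 1, by omega⟩
          rw [hg2, two_mul, pow_add, hu]
          simp only [Nat.add_sub_cancel]
          have : (u + 1) * (u + 1) - 1 = u * (u + 2) := by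
            have : (u + 1) * (u + 1) = u * (u + 2) + 1 := by ring
            omega
          rw [this]
        rw [h1, ← hzr]
        exact hzf
      rcases (Nat.Prime.dvd_mul hr).1 hdv with h | h
      · exact absurd (by rw [hzr]; exact h) (hsmall g hg0 (by omega))
      · exact E.bad_of_unit_case hp (by rw [hcard, hg2]) hg0 hzF (by show z ∣ _; rw [hzr]; exact h)
    · refine Bad.six R ⟨E.symp_type hr hR (by show z = _; rw [hgcd, mul_one]; exact hzr), habsirr,
        p, f, hrp, hminf, Or.inl ⟨hodd, hfo, hzr, m, hm1, ?_⟩⟩ hnm hnormal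
      rw [hcR, hzr, pow_add, pow_one, mul_comm]
  · subst hr2
    exact hz2 hz2'
  · subst hr2
    -- r = 2, z = 4
    have hp2 : p ≠ 2 := fun h => hrp h.symm
    have hpodd : Odd p := hp.odd_of_ne_two hp2
    have hp4 : p ^ 2 - 1 = (p - 1) * (p + 1) := by
      obtain ⟨u, hu⟩ : ∃ u, p = u + 1 := ⟨p - 1, by have := hp.pos; omega⟩
      rw [hu]
      simp only [Nat.add_sub_cancel]
      have : (u + 1) ^ 2 = u * (u + 1 + 1) + 1 := by ring
      omega
    have hp4dvd : 4 ∣ p ^ 2 - 1 := by
      obtain ⟨k, hk⟩ := hpodd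
      rw [hp4, hk]
      simp only [Nat.add_sub_cancel]
      refine ⟨k * (k + 1), ?_⟩
      ring
    rcases (by omega : f = 1 ∨ f = 2 ∨ 3 ≤ f) with hf1 | hf2 | hf3
    · refine Bad.six R ⟨E.symp_type hr hR (by show z = _; rw [hz4]; decide), habsirr,
        p, f, hrp, hminf, Or.inr (Or.inl ⟨rfl, hf1, hz4, ?_, 2 * m - 2 + 0 - (2 * m - 2) + (m - 0) , ?_⟩)⟩ hnm hnormal
      · rw [Fintype.card_fin]
        have hn3 := E.hn3
        rw [hnm] at hn3 ⊢
        have hm2 : 2 ≤ m := by
          by_contra hlt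
          have : m = 1 := by omega
          rw [this] at hn3
          omega
        calc 4 = 2 ^ 2 := by norm_num
          _ ≤ 2 ^ m := Nat.pow_le_pow_right (by norm_num) hm2
      · rw [hcR, hz4]
        have h0 : 2 * m - 2 + 0 - (2 * m - 2) + (m - 0) = m := by omega
        rw [h0, pow_add, mul_comm]
        norm_num
    · -- f = 2, unitary
      have h1 := hsmall 1 (by omega) (by omega)
      rw [pow_one, hz4] at h1
      have h2 : 4 ∣ p ^ 1 + 1 := by
        rw [pow_one]
        have hpo : p % 2 = 1 := Nat.odd_iff.1 hpodd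
        omega
      exact E.bad_of_unit_case hp (g := 1) (by rw [hcard, hf2]) (by norm_num) hzF (by show z ∣ _; rw [hz4]; exact h2)
    · exact absurd (by rw [hz4]; exact hp4dvd) (hsmall 2 (by omega) (by omega))

end ExtraHyp

end Cfsg.Agent.Lib.ClassMax.Asch
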