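import Mathlib
import Cfsg.Agent.Lib.ClassMax.Asch11
import Cfsg.Agent.Lib.ClassMax.CompLen2

/-!
Minimal normal subgroups which are central products of quasisimple groups: factors.
-/

set_option autoImplicit false
set_option linter.unusedSimpArgs false
set_option linter.unusedVariables false
set_option linter.unusedSectionVars false
set_option linter.unusedFintypeInType false
set_option linter.unusedDecidableInType false

namespace Cfsg.Agent.Lib.ClassMax.Asch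

open Module Matrix Cfsg.Geo
open scoped commutatorElement

theorem comm_commutator_of_central {G : Type*} [Group G] {a b y s t : G} (hs : ∀ g, s * g = g * s) (ht : ∀ g, t * g = g * t)
    (ha : a * y = s * (y * a)) (hb : b * y = t * (y * b)) : (a * b * a⁻¹ * b⁻¹) * y = y * (a * b * a⁻¹ * b⁻¹) := by
  have hs' : ∀ g, Commute s g := hs
  have ht' : ∀ g, Commute t g := ht
  have hsi : ∀ g, s⁻¹ * g = g * s⁻¹ := fun g => (hs' g).inv_left
  have hti : ∀ g, t⁻¹ * g = g * t⁻¹ := fun g => (ht' g).inv_left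
  have aux : ∀ {w r : G}, (∀ g, r * g = g * r) → w * y = r * (y * w) → w⁻¹ * y = r⁻¹ * (y * w⁻¹) := by
    intro w r hr h
    have hr' : ∀ g, Commute r g := hr
    have h1 : y = w⁻¹ * (r * (y * w)) := by rw [← h]; group
    have h2 : y * w⁻¹ = r * (w⁻¹ * y) := by
      calc y * w⁻¹ = (w⁻¹ * (r * (y * w))) * w⁻¹ := by rw [← h1]
        _ = (w⁻¹ * r) * y := by group
        _ = (r * w⁻¹) * y := by rw [hr]
        _ = r * (w⁻¹ * y) := by group
    rw [h2]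
    group
  have ha' := aux hs ha
  have hb' := aux ht hb
  calc (a * b * a⁻¹ * b⁻¹) * y = a * b * a⁻¹ * (b⁻¹ * y) := by group
    _ = a * b * a⁻¹ * (t⁻¹ * (y * b⁻¹)) := by rw [hb']
    _ = (a * b * a⁻¹ * t⁻¹) * (y * b⁻¹) := by group
    _ = (t⁻¹ * (a * b * a⁻¹)) * (y * b⁻¹) := by rw [hti]
    _ = t⁻¹ * (a * b * (a⁻¹ * y) * b⁻¹) := by group
    _ = t⁻¹ * (a * b * (s⁻¹ * (y * a⁻¹)) * b⁻¹) := by rw [ha']
    _ = t⁻¹ * ((a * b * s⁻¹) * (y * a⁻¹ * b⁻¹)) := by group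
    _ = t⁻¹ * ((s⁻¹ * (a * b)) * (y * a⁻¹ * b⁻¹)) := by rw [hsi]
    _ = t⁻¹ * (s⁻¹ * (a * (b * y) * a⁻¹ * b⁻¹)) := by group
    _ = t⁻¹ * (s⁻¹ * (a * (t * (y * b)) * a⁻¹ * b⁻¹)) := by rw [hb]
    _ = t⁻¹ * (s⁻¹ * ((a * t) * (y * b * a⁻¹ * b⁻¹))) := by group
    _ = t⁻¹ * (s⁻¹ * ((t * a) * (y * b * a⁻¹ * b⁻¹))) := by rw [ht]
    _ = t⁻¹ * (s⁻¹ * t) * ((a * y) * (b * a⁻¹ * b⁻¹)) := by group
    _ = t⁻¹ * (s⁻¹ * t) * ((s * (y * a)) * (b * a⁻¹ * b⁻¹)) := by rw [ha]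
    _ = (t⁻¹ * (s⁻¹ * t) * s) * (y * (a * b * a⁻¹ * b⁻¹)) := by group
    _ = y * (a * b * a⁻¹ * b⁻¹) := by
        have h1 : t⁻¹ * (s⁻¹ * t) * s = 1 := by
          rw [← hs, hsi]
          group
        rw [h1, one_mul]

theorem simple_perfect {T : Type*} [Group T] (hT : IsSimpleGroup T) (hnc : ¬ ∀ a b : T, a * b = b * a) :
    ⁅(⊤ : Subgroup T), (⊤ : Subgroup T)⁆ = ⊤ := by
  haveI : (⁅(⊤ : Subgroup T), (⊤ : Subgroup T)⁆).Normal := inferInstance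
  rcases hT.eq_bot_or_eq_top_of_normal _ this with h | h
  · exfalso
    apply hnc
    intro a b
    have h1 : ⁅a, b⁆ ∈ ⁅(⊤ : Subgroup T), (⊤ : Subgroup T)⁆ := Subgroup.commutator_mem_commutator trivial trivial
    rw [h, Subgroup.mem_bot, commutatorElement_eq_one_iff_mul_comm] at h1
    exact h1
  · exact h

/-- An automorphism of a power of a non-abelian simple group permutes the factors. -/
theorem exists_perm_of_aut {T : Type*} [Group T] {m : ℕ} (hT : IsSimpleGroup T) (hnc : ¬ ∀ a b : T, a * b = b * a)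
    (α : (Fin m → T) ≃* (Fin m → T)) :
    ∃ π : Equiv.Perm (Fin m), ∀ i t j, j ≠ π i → α (Pi.mulSingle i t) j = 1 := by
  classical
  haveI := hT.toNontrivial
  choose f hf using CompLen.factor_map hT hnc α
  choose g hg using CompLen.factor_map hT hnc α.symm
  obtain ⟨t, ht⟩ := exists_ne (1 : T)
  have hgf : ∀ i, g (f i) = i := by
    intro i
    by_contra hne
    let y := α (Pi.mulSingle i t)
    have hy : y = Pi.mulSingle (f i) (y (f i)) := by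
      funext k
      by_cases hk : k = f i
      · subst hk
        simp
      · rw [Pi.mulSingle_eq_of_ne hk]
        exact hf i t k hk
    have h1 := hg (f i) (y (f i)) i (Ne.symm hne)
    rw [← hy] at h1
    simp only [y, MulEquiv.symm_apply_apply, Pi.mulSingle_eq_same] at h1
    exact ht h1
  have hinj : Function.Injective f := Function.LeftInverse.injective hgf
  refine ⟨Equiv.ofBijective f (Finite.injective_iff_bijective.1 hinj), ?_⟩
  intro i t' j hj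
  exact hf i t' j hj

variable {F : Type*} [Field F] [Fintype F] {n : ℕ} {P : Subgroup (GL (Fin n) F)} {T : Type} [Group T] {m : ℕ}

local notation "MM" => Matrix (Fin n) (Fin n) F

/-- The preimage of a factor. -/
def Lf (ρ : P →* (Fin m → T)) (i : Fin m) : Subgroup (GL (Fin n) F) where
  carrier := {x | ∃ hx : x ∈ P, ∀ j, j ≠ i → ρ ⟨x, hx⟩ j = 1}
  mul_mem' := by
    rintro a b ⟨ha, ha'⟩ ⟨hb, hb'⟩
    refine ⟨P.mul_mem ha hb, fun j hj => ?_⟩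
    have : (⟨a * b, P.mul_mem ha hb⟩ : P) = ⟨a, ha⟩ * ⟨b, hb⟩ := rfl
    rw [this, map_mul, Pi.mul_apply, ha' j hj, hb' j hj, one_mul]
  one_mem' := ⟨P.one_mem, fun j _ => by
    have : (⟨1, P.one_mem⟩ : P) = 1 := rfl
    rw [this, map_one]
    rfl⟩
  inv_mem' := by
    rintro a ⟨ha, ha'⟩
    refine ⟨P.inv_mem ha, fun j hj => ?_⟩
    have : (⟨a⁻¹, P.inv_mem ha⟩ : P) = (⟨a, ha⟩ : P)⁻¹ := rfl
    rw [this, map_inv, Pi.inv_apply, ha' j hj, inv_one]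

/-- The derived subgroup of the preimage of a factor. -/
def Df (ρ : P →* (Fin m → T)) (i : Fin m) : Subgroup (GL (Fin n) F) := ⁅Lf ρ i, Lf ρ i⁆

theorem Lf_le (ρ : P →* (Fin m → T)) (i : Fin m) : Lf ρ i ≤ P := fun _ hx => hx.1

theorem Df_le_Lf (ρ : P →* (Fin m → T)) (i : Fin m) : Df ρ i ≤ Lf ρ i := by
  rw [Df, Subgroup.commutator_le]
  intro a ha b hb
  rw [commutatorElement_def]
  exact (Lf ρ i).mul_mem ((Lf ρ i).mul_mem ((Lf ρ i).mul_mem ha hb) ((Lf ρ i).inv_mem ha)) ((Lf ρ i).inv_mem hb)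

theorem Df_le (ρ : P →* (Fin m → T)) (i : Fin m) : Df ρ i ≤ P := (Df_le_Lf ρ i).trans (Lf_le ρ i)

theorem Df_conj_of (ρ : P →* (Fin m → T)) {i j : Fin m} (h : GL (Fin n) F) (hh : ∀ x ∈ Lf ρ i, h * x * h⁻¹ ∈ Lf ρ j) :
    ∀ x ∈ Df ρ i, h * x * h⁻¹ ∈ Df ρ j := by
  have h1 : Df ρ i ≤ (Df ρ j).comap (MulAut.conj h).toMonoidHom := by
    rw [Df, Subgroup.commutator_le]
    intro a ha b hb
    show (MulAut.conj h).toMonoidHom ⁅a, b⁆ ∈ Df ρ j
    rw [map_commutatorElement]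
    exact Subgroup.commutator_mem_commutator (hh a ha) (hh b hb)
  intro x hx
  exact h1 hx

/-- The hypotheses of the product case. -/
structure ProdHyp (H P : Subgroup (GL (Fin n) F)) (ρ : P →* (Fin m → T)) : Prop where
  hn3 : 3 ≤ n
  hbad : ¬ Bad H
  hnorm : ∀ h ∈ H, ∀ x ∈ P, h * x * h⁻¹ ∈ P
  hns : ¬ P ≤ scalars (Fin n) F
  hmin : ∀ N : Subgroup (GL (Fin n) F), N ≤ P → (∀ h ∈ H, ∀ x ∈ N, h * x * h⁻¹ ∈ N) → ¬ N ≤ scalars (Fin n) F → N = P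
  hsurj : Function.Surjective ρ
  hker : ∀ x : P, ρ x = 1 ↔ (x : GL (Fin n) F) ∈ scalars (Fin n) F
  hT : IsSimpleGroup T
  hnc : ¬ ∀ a b : T, a * b = b * a
  hm : 2 ≤ m
  haut : ∀ h ∈ H, ∃ α : (Fin m → T) ≃* (Fin m → T), ∀ (x : GL (Fin n) F) (hx : x ∈ P) (hx' : h * x * h⁻¹ ∈ P),
    α (ρ ⟨x, hx⟩) = ρ ⟨h * x * h⁻¹, hx'⟩

namespace ProdHyp

variable {H : Subgroup (GL (Fin n) F)} {ρ : P →* (Fin m → T)} (E : ProdHyp H P ρ)

include E

theorem n_pos : 0 < n := by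
  have := E.hn3
  omega

theorem hC : ∀ M : MM, (∀ s ∈ matrixSet P, M * s = s * M) → ∃ c : F, M = c • 1 :=
  comm_scalar_of_normal E.hn3 E.hbad E.hnorm E.hns

theorem hTop : Algebra.adjoin F (matrixSet P) = ⊤ :=
  adjoin_top_of_comm E.n_pos (irr_of_not_bad E.hbad) E.hnorm E.hC

theorem hirr : ActsIrreducibly (matrixSet P) := irr_of_adjoin_top E.hTop

theorem comm_L {i j : Fin m} (hij : i ≠ j) {x y : GL (Fin n) F} (hx : x ∈ Lf ρ i) (hy : y ∈ Lf ρ j) :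
    x * y * x⁻¹ * y⁻¹ ∈ scalars (Fin n) F := by
  obtain ⟨hxP, hx'⟩ := hx
  obtain ⟨hyP, hy'⟩ := hy
  have hmm : x * y * x⁻¹ * y⁻¹ ∈ P := P.mul_mem (P.mul_mem (P.mul_mem hxP hyP) (P.inv_mem hxP)) (P.inv_mem hyP)
  refine (E.hker ⟨_, hmm⟩).1 ?_
  have h1 : (⟨x * y * x⁻¹ * y⁻¹, hmm⟩ : P) = ⟨x, hxP⟩ * ⟨y, hyP⟩ * (⟨x, hxP⟩ : P)⁻¹ * (⟨y, hyP⟩ : P)⁻¹ := rfl
  rw [h1, map_mul, map_mul, map_mul, map_inv, map_inv]
  funext k
  simp only [Pi.mul_apply, Pi.inv_apply, Pi.one_apply]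
  by_cases hk : k = i
  · subst hk
    rw [hy' k hij]
    simp
  · rw [hx' k hk]
    simp

theorem comm_D {i j : Fin m} (hij : i ≠ j) {x y : GL (Fin n) F} (hx : x ∈ Df ρ i) (hy : y ∈ Lf ρ j) : x * y = y * x := by
  have hle : Df ρ i ≤ Subgroup.centralizer {y} := by
    rw [Df, Subgroup.commutator_le]
    intro a ha b hb
    rw [Subgroup.mem_centralizer_iff]
    rintro _ rfl
    rw [commutatorElement_def]
    have hs := E.comm_L hij ha hy
    have ht := E.comm_L hij hb hy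
    refine (comm_commutator_of_central (fun g => scal_comm hs g) (fun g => scal_comm ht g) (by group) (by group)).symm
  have := hle hx
  rw [Subgroup.mem_centralizer_iff] at this
  exact (this y rfl).symm

theorem D_single (i : Fin m) (t : T) : ∃ x, ∃ hx : x ∈ Df ρ i, ρ ⟨x, Df_le ρ i hx⟩ = Pi.mulSingle i t := by
  classical
  let W : Subgroup T := (((Df ρ i).subgroupOf P).map ρ).comap (MonoidHom.mulSingle (fun _ => T) i)
  have hW : W = ⊤ := by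
    rw [eq_top_iff, ← simple_perfect E.hT E.hnc, Subgroup.commutator_le]
    rintro a - b -
    obtain ⟨x, hx⟩ := E.hsurj (Pi.mulSingle i a)
    obtain ⟨y, hy⟩ := E.hsurj (Pi.mulSingle i b)
    have hxL : (x : GL (Fin n) F) ∈ Lf ρ i := ⟨x.2, fun j hj => by
      show ρ x j = 1
      rw [hx, Pi.mulSingle_eq_of_ne hj]⟩
    have hyL : (y : GL (Fin n) F) ∈ Lf ρ i := ⟨y.2, fun j hj => by
      show ρ y j = 1
      rw [hy, Pi.mulSingle_eq_of_ne hj]⟩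
    refine ⟨⁅x, y⁆, ?_, ?_⟩
    · rw [SetLike.mem_coe, Subgroup.mem_subgroupOf]
      exact Subgroup.commutator_mem_commutator hxL hyL
    · rw [map_commutatorElement, hx, hy]
      show _ = MonoidHom.mulSingle (fun _ => T) i ⁅a, b⁆
      rw [map_commutatorElement]
      rfl
  have ht : t ∈ W := by rw [hW]; trivial
  obtain ⟨x, hx, hx'⟩ := ht
  exact ⟨x, hx, hx'⟩

theorem exists_ne_one : ∃ t : T, t ≠ 1 := by
  haveI := E.hT.toNontrivial
  exact exists_ne (1 : T)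

theorem D_not_scalar (i : Fin m) : ¬ Df ρ i ≤ scalars (Fin n) F := by
  classical
  obtain ⟨t, ht⟩ := E.exists_ne_one
  obtain ⟨x, hx, hx'⟩ := E.D_single i t
  intro hle
  have h1 := (E.hker ⟨x, Df_le ρ i hx⟩).2 (hle hx)
  rw [hx'] at h1
  apply ht
  have := congrFun h1 i
  simpa using this

/-- The action of a group element of `H` on the factors. -/
theorem exists_perm (h : GL (Fin n) F) (hh : h ∈ H) : ∃ π : Equiv.Perm (Fin m), ∀ i, ∀ x ∈ Lf ρ i, h * x * h⁻¹ ∈ Lf ρ (π i) := by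
  classical
  obtain ⟨α, hα⟩ := E.haut h hh
  obtain ⟨π, hπ⟩ := exists_perm_of_aut E.hT E.hnc α
  refine ⟨π, ?_⟩
  rintro i x ⟨hxP, hx⟩
  have hx'P := E.hnorm h hh x hxP
  refine ⟨hx'P, fun j hj => ?_⟩
  rw [← hα x hxP hx'P]
  have h1 : ρ ⟨x, hxP⟩ = Pi.mulSingle i (ρ ⟨x, hxP⟩ i) := by
    funext k
    by_cases hk : k = i
    · subst hk
      simp
    · rw [Pi.mulSingle_eq_of_ne hk]
      exact hx k hk
  rw [h1]
  exact hπ i _ j hj

theorem conj_P_L {g x : GL (Fin n) F} (hg : g ∈ P) {i : Fin m} (hx : x ∈ Lf ρ i) : g * x * g⁻¹ ∈ Lf ρ i := by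
  obtain ⟨hxP, hx'⟩ := hx
  have hm' : g * x * g⁻¹ ∈ P := P.mul_mem (P.mul_mem hg hxP) (P.inv_mem hg)
  refine ⟨hm', fun j hj => ?_⟩
  have h1 : (⟨g * x * g⁻¹, hm'⟩ : P) = ⟨g, hg⟩ * ⟨x, hxP⟩ * (⟨g, hg⟩ : P)⁻¹ := rfl
  rw [h1, map_mul, map_mul, map_inv]
  simp only [Pi.mul_apply, Pi.inv_apply]
  rw [hx' j hj]
  simp

/-- The subgroup generated by a set of factors. -/
theorem iSup_eq (S : Finset (Fin m)) (hS : S.Nonempty) (hinv : ∀ h ∈ H, ∃ π : Equiv.Perm (Fin m),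
    (∀ i, ∀ x ∈ Lf ρ i, h * x * h⁻¹ ∈ Lf ρ (π i)) ∧ ∀ i ∈ S, π i ∈ S) : (⨆ i ∈ S, Df ρ i) = P := by
  apply E.hmin
  · exact iSup₂_le fun i _ => Df_le ρ i
  · intro h hh
    obtain ⟨π, hπ, hπS⟩ := hinv h hh
    have h1 : (⨆ i ∈ S, Df ρ i) ≤ (⨆ i ∈ S, Df ρ i).comap (MulAut.conj h).toMonoidHom := by
      refine iSup₂_le fun i hi x hx => ?_
      show h * x * h⁻¹ ∈ (⨆ i ∈ S, Df ρ i)
      have h2 := Df_conj_of ρ h (hπ i) x hx
      exact (le_iSup₂_of_le (π i) (hπS i hi) le_rfl : Df ρ (π i) ≤ ⨆ i ∈ S, Df ρ i) h2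
    intro x hx
    exact h1 hx
  · obtain ⟨i, hi⟩ := hS
    intro hle
    exact E.D_not_scalar i ((le_iSup₂_of_le i hi le_rfl : Df ρ i ≤ ⨆ i ∈ S, Df ρ i).trans hle)

theorem iSup_univ : (⨆ i ∈ (Finset.univ : Finset (Fin m)), Df ρ i) = P := by
  haveI : Nonempty (Fin m) := ⟨⟨0, by have := E.hm; omega⟩⟩
  apply E.iSup_eq _ Finset.univ_nonempty
  intro h hh
  obtain ⟨π, hπ⟩ := E.exists_perm h hh
  exact ⟨π, hπ, fun _ _ => Finset.mem_univ _⟩

end ProdHyp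

end Cfsg.Agent.Lib.ClassMax.Asch
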