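import Mathlib
import Cfsg.Agent.Lib.ClassMax.Asch12

/-!
Minimal normal subgroups which are central products of quasisimple groups: tensor decompositions.
-/

set_option autoImplicit false
set_option linter.unusedSimpArgs false
set_option linter.unusedVariables false
set_option linter.unusedSectionVars false
set_option linter.unusedFintypeInType false
set_option linter.unusedDecidableInType false

namespace Cfsg.Agent.Lib.ClassMax.Asch

open Module Matrix Cfsg.Geo
open scoped commutatorElement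

variable {F : Type*} [Field F] [Fintype F] {n : ℕ} {P : Subgroup (GL (Fin n) F)} {T : Type} [Group T] {m : ℕ}

local notation "MM" => Matrix (Fin n) (Fin n) F

/-- The algebra generated by a factor. -/
def Af (ρ : P →* (Fin m → T)) (i : Fin m) : Subalgebra F MM := Algebra.adjoin F (matrixSet (Df ρ i))

theorem conj_adjoin {S S' : Set MM} (h : GL (Fin n) F) (hS : ∀ s ∈ S, (h : MM) * s * ((h⁻¹ : GL (Fin n) F) : MM) ∈ S') {x : MM}
    (hx : x ∈ Algebra.adjoin F S) : (h : MM) * x * ((h⁻¹ : GL (Fin n) F) : MM) ∈ Algebra.adjoin F S' := by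
  induction hx using Algebra.adjoin_induction with
  | mem x hx => exact Algebra.subset_adjoin (hS x hx)
  | algebraMap r =>
    have : (h : MM) * (algebraMap F MM r) * ((h⁻¹ : GL (Fin n) F) : MM) = algebraMap F MM r := by
      rw [Algebra.algebraMap_eq_smul_one, Matrix.mul_smul, Matrix.smul_mul, mul_one, ← Units.val_mul, mul_inv_cancel]
      rfl
    rw [this]
    exact Subalgebra.algebraMap_mem _ r
  | add x y _ _ hx hy =>
    rw [mul_add, add_mul]
    exact Subalgebra.add_mem _ hx hy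
  | mul x y _ _ hx hy =>
    rw [conj_mul_conj]
    exact Subalgebra.mul_mem _ hx hy

theorem finrank_le_of_conj [Nonempty (Fin n)] {A A' : Subalgebra F MM} (h : GL (Fin n) F)
    (hS : ∀ x ∈ A, (h : MM) * x * ((h⁻¹ : GL (Fin n) F) : MM) ∈ A') : finrank F A ≤ finrank F A' := by
  let L : A →ₗ[F] A' :=
    { toFun := fun x => ⟨(h : MM) * x * ((h⁻¹ : GL (Fin n) F) : MM), hS x x.2⟩
      map_add' := by
        intro x y
        apply Subtype.ext
        simp [mul_add, add_mul]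
      map_smul' := by
        intro c x
        apply Subtype.ext
        simp [Matrix.mul_smul, Matrix.smul_mul] }
  apply LinearMap.finrank_le_finrank_of_injective (f := L)
  intro x y hxy
  apply Subtype.ext
  have h1 : (h : MM) * x * ((h⁻¹ : GL (Fin n) F) : MM) = (h : MM) * y * ((h⁻¹ : GL (Fin n) F) : MM) :=
    congrArg Subtype.val hxy
  have h2 := congrArg (fun z => ((h⁻¹ : GL (Fin n) F) : MM) * z * (h : MM)) h1
  simpa [mul_assoc, ← Units.val_mul] using h2

theorem finrank_of_equiv {a : ℕ} {A : Subalgebra F MM} (θ : Matrix (Fin a) (Fin a) F ≃ₐ[F] A) : finrank F A = a * a := by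
  rw [← θ.toLinearEquiv.finrank_eq, Module.finrank_matrix]
  simp

namespace ProdHyp

variable {H : Subgroup (GL (Fin n) F)} {ρ : P →* (Fin m → T)} (E : ProdHyp H P ρ)

include E

theorem nonempty_n : Nonempty (Fin n) := ⟨⟨0, E.n_pos⟩⟩

theorem nonempty_m : Nonempty (Fin m) := ⟨⟨0, by have := E.hm; omega⟩⟩

/-- Elements commuting with every factor commute with all of the group. -/
theorem comm_of_factors {Y : MM} (hY : ∀ i, ∀ x ∈ Df ρ i, Y * (x : MM) = (x : MM) * Y) : ∀ s ∈ matrixSet P, Y * s = s * Y := by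
  let U : Subgroup (GL (Fin n) F) :=
    { carrier := {g | Y * (g : MM) = (g : MM) * Y}
      mul_mem' := by
        intro a b ha hb
        show Y * ((a * b : GL (Fin n) F) : MM) = ((a * b : GL (Fin n) F) : MM) * Y
        rw [Units.val_mul, ← mul_assoc, ha, mul_assoc, hb, mul_assoc]
      one_mem' := by
        show Y * ((1 : GL (Fin n) F) : MM) = ((1 : GL (Fin n) F) : MM) * Y
        simp
      inv_mem' := by
        intro a ha
        show Y * ((a⁻¹ : GL (Fin n) F) : MM) = ((a⁻¹ : GL (Fin n) F) : MM) * Y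
        have ha' : Y * (a : MM) = (a : MM) * Y := ha
        calc Y * ((a⁻¹ : GL (Fin n) F) : MM) = ((a⁻¹ : GL (Fin n) F) : MM) * ((a : MM) * Y) * ((a⁻¹ : GL (Fin n) F) : MM) := by
              rw [← mul_assoc _ (a : MM) Y, ← Units.val_mul, inv_mul_cancel, Units.val_one, one_mul]
          _ = ((a⁻¹ : GL (Fin n) F) : MM) * (Y * (a : MM)) * ((a⁻¹ : GL (Fin n) F) : MM) := by rw [ha']
          _ = ((a⁻¹ : GL (Fin n) F) : MM) * Y := by
              rw [mul_assoc, mul_assoc, ← Units.val_mul, mul_inv_cancel, Units.val_one, mul_one] }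
  have h1 : P ≤ U := by
    rw [← E.iSup_univ]
    exact iSup₂_le fun i _ x hx => hY i x hx
  rintro _ ⟨x, hx, rfl⟩
  exact h1 hx

/-- A subspace invariant under every factor is invariant under the group. -/
theorem inv_of_factors {W : Submodule F (Fin n → F)} (hW : ∀ i, ∀ x ∈ Df ρ i, ∀ w ∈ W, (x : MM) *ᵥ w ∈ W) :
    W = ⊥ ∨ W = ⊤ := by
  let U : Subgroup (GL (Fin n) F) :=
    { carrier := {g | (∀ w ∈ W, (g : MM) *ᵥ w ∈ W) ∧ (∀ w ∈ W, ((g⁻¹ : GL (Fin n) F) : MM) *ᵥ w ∈ W)}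
      mul_mem' := by
        rintro a b ⟨ha, ha'⟩ ⟨hb, hb'⟩
        constructor
        · intro w hw
          rw [Units.val_mul, ← Matrix.mulVec_mulVec]
          exact ha _ (hb _ hw)
        · intro w hw
          rw [_root_.mul_inv_rev, Units.val_mul, ← Matrix.mulVec_mulVec]
          exact hb' _ (ha' _ hw)
      one_mem' := by
        constructor <;> intro w hw <;> simpa using hw
      inv_mem' := by
        rintro a ⟨ha, ha'⟩
        refine ⟨ha', ?_⟩
        simpa using ha }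
  have h1 : P ≤ U := by
    rw [← E.iSup_univ]
    refine iSup₂_le fun i _ x hx => ⟨hW i x hx, hW i x⁻¹ (Subgroup.inv_mem _ hx)⟩
  apply E.hirr W
  rintro _ ⟨x, hx, rfl⟩ _ ⟨w, hw, rfl⟩
  exact (h1 hx).1 w hw

theorem conjP (i : Fin m) : ConjClosed P (Af ρ i) := by
  apply conjClosed_adjoin
  rintro g hg _ ⟨y, hy, rfl⟩
  exact ⟨g * y * g⁻¹, Df_conj_of ρ g (fun x hx => E.conj_P_L hg hx) y hy, rfl⟩

theorem mem_A {i : Fin m} {x : GL (Fin n) F} (hx : x ∈ Df ρ i) : (x : MM) ∈ Af ρ i :=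
  Algebra.subset_adjoin ⟨x, hx, rfl⟩

theorem comm_D_A {i j : Fin m} (hij : i ≠ j) {y : GL (Fin n) F} (hy : y ∈ Df ρ j) {x : MM} (hx : x ∈ Af ρ i) :
    (y : MM) * x = x * (y : MM) := by
  refine comm_adjoin (S := matrixSet (Df ρ i)) (Y := (y : MM)) ?_ hx
  rintro _ ⟨b, hb, rfl⟩
  have := E.comm_D hij hb (Df_le_Lf ρ j hy)
  show (y : MM) * (b : MM) = (b : MM) * y
  rw [← Units.val_mul, ← Units.val_mul, this]

theorem comm_A {i j : Fin m} (hij : i ≠ j) {x y : MM} (hx : x ∈ Af ρ i) (hy : y ∈ Af ρ j) : x * y = y * x := by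
  refine comm_adjoin (S := matrixSet (Df ρ j)) (Y := x) ?_ hy
  rintro _ ⟨b, hb, rfl⟩
  exact (E.comm_D_A hij hb hx).symm

theorem cen_A (i : Fin m) : ∀ x ∈ Af ρ i, (∀ y ∈ Af ρ i, x * y = y * x) → ∃ c : F, x = c • 1 := by
  intro x hx hc
  apply E.hC
  apply E.comm_of_factors
  intro j y hy
  by_cases hij : i = j
  · subst hij
    exact hc _ (E.mem_A hy)
  · exact (E.comm_D_A hij hy hx).symm

theorem exists_mat (i : Fin m) : ∃ a : ℕ, 0 < a ∧ Nonempty (Matrix (Fin a) (Fin a) F ≃ₐ[F] Af ρ i) :=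
  alg_matrix E.n_pos E.hirr (E.conjP i) (E.cen_A i)

theorem all_equal : ∃ a : ℕ, 0 < a ∧ ∀ i, Nonempty (Matrix (Fin a) (Fin a) F ≃ₐ[F] Af ρ i) := by
  classical
  haveI := E.nonempty_n
  haveI := E.nonempty_m
  obtain ⟨i0, -, hi0⟩ := Finset.exists_max_image (Finset.univ : Finset (Fin m)) (fun i => finrank F (Af ρ i)) Finset.univ_nonempty
  let S : Finset (Fin m) := Finset.univ.filter (fun i => finrank F (Af ρ i) = finrank F (Af ρ i0))
  have hS : S.Nonempty := ⟨i0, by simp [S]⟩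
  have hsup := E.iSup_eq S hS (by
    intro h hh
    obtain ⟨π, hπ⟩ := E.exists_perm h hh
    refine ⟨π, hπ, fun i hi => ?_⟩
    have h1 : finrank F (Af ρ i) = finrank F (Af ρ i0) := by simpa [S] using hi
    have h2 : finrank F (Af ρ i) ≤ finrank F (Af ρ (π i)) := by
      apply finrank_le_of_conj h
      intro x hx
      apply conj_adjoin h _ hx
      rintro _ ⟨y, hy, rfl⟩
      exact ⟨h * y * h⁻¹, Df_conj_of ρ h (hπ i) y hy, rfl⟩
    have h3 := hi0 (π i) (Finset.mem_univ _)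
    simp only [S, Finset.mem_filter, Finset.mem_univ, true_and]
    omega)
  have hSu : ∀ j, j ∈ S := by
    intro j
    by_contra hj
    apply E.hnc
    intro a b
    obtain ⟨x, hx, hx'⟩ := E.D_single j a
    obtain ⟨y, hy, hy'⟩ := E.D_single j b
    have hle : (⨆ i ∈ S, Df ρ i) ≤ Subgroup.centralizer {x} := by
      refine iSup₂_le fun i hi z hz => ?_
      rw [Subgroup.mem_centralizer_iff]
      rintro _ rfl
      have hij : i ≠ j := by
        rintro rfl
        exact hj hi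
      exact (E.comm_D hij hz (Df_le_Lf ρ j hx)).symm
    rw [hsup] at hle
    have h1 := hle (Df_le ρ j hy)
    rw [Subgroup.mem_centralizer_iff] at h1
    have h2 : x * y = y * x := h1 x rfl
    have h3 : (⟨x, Df_le ρ j hx⟩ : P) * ⟨y, Df_le ρ j hy⟩ = ⟨y, Df_le ρ j hy⟩ * ⟨x, Df_le ρ j hx⟩ := Subtype.ext h2
    have h4 := congrArg ρ h3
    rw [map_mul, map_mul, hx', hy'] at h4
    have h5 := congrFun h4 j
    simpa using h5
  obtain ⟨a, ha, ⟨θ₀⟩⟩ := E.exists_mat i0
  refine ⟨a, ha, fun i => ?_⟩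
  obtain ⟨a', ha', ⟨θ'⟩⟩ := E.exists_mat i
  have h1 : finrank F (Af ρ i) = finrank F (Af ρ i0) := by simpa [S] using hSu i
  rw [finrank_of_equiv θ₀, finrank_of_equiv θ'] at h1
  have h2 : a' = a := by
    have h3 : a' ^ 2 = a ^ 2 := by
      rw [pow_two, pow_two]
      exact h1
    exact Nat.pow_left_injective (n := 2) (by norm_num) h3
  subst h2
  exact ⟨θ'⟩

theorem two_le_of_equiv {a : ℕ} (ha : 0 < a) {i : Fin m} (θ : Matrix (Fin a) (Fin a) F ≃ₐ[F] Af ρ i) : 2 ≤ a := by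
  by_contra hlt
  have h1 : a = 1 := by omega
  subst h1
  apply E.D_not_scalar i
  intro x hx
  obtain ⟨X, hX⟩ := coe_surj θ (E.mem_A hx)
  have h2 : X = (X 0 0) • (1 : Matrix (Fin 1) (Fin 1) F) := by
    ext i j
    fin_cases i
    fin_cases j
    simp
  have h3 : (θ X : MM) = (X 0 0) • 1 := by
    conv_lhs => rw [h2]
    rw [map_smul, map_one]
    rfl
  rw [hX] at h3
  exact scal_of_eq E.n_pos h3

/-- The product case does not occur. -/
theorem false_of : False := by
  classical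
  haveI := E.nonempty_n
  haveI := E.nonempty_m
  apply E.hbad
  obtain ⟨a, ha, hθ⟩ := E.all_equal
  let θ : ∀ i, Matrix (Fin a) (Fin a) F ≃ₐ[F] Af ρ i := fun i => (hθ i).some
  have ha2 : 2 ≤ a := E.two_le_of_equiv ha (θ ⟨0, by have := E.hm; omega⟩)
  let θ' : Fin m → Matrix (Fin a) (Fin a) F →ₐ[F] MM := fun i => (Af ρ i).val.comp (θ i).toAlgHom
  have hθ' : ∀ i X, θ' i X = (θ i X : MM) := fun i X => rfl
  have hsurj : ∀ i, ∀ {x : MM}, x ∈ Af ρ i → ∃ X, θ' i X = x := fun i x hx => coe_surj (θ i) hx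
  have hcomm : ∀ i j, i ≠ j → ∀ X Y, θ' i X * θ' j Y = θ' j Y * θ' i X := by
    intro i j hij X Y
    rw [hθ', hθ']
    exact E.comm_A hij (θ i X).2 (θ j Y).2
  have hirr : ∀ W : Submodule F (Fin n → F), (∀ i X, ∀ w ∈ W, θ' i X *ᵥ w ∈ W) → W = ⊥ ∨ W = ⊤ := by
    intro W hW
    apply E.inv_of_factors
    intro i x hx w hw
    obtain ⟨X, hX⟩ := hsurj i (E.mem_A hx)
    rw [← hX]
    exact hW i X w hw
  have hc : ∀ Y : MM, (∀ i X, Y * θ' i X = θ' i X * Y) → ∃ c : F, Y = c • 1 := by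
    intro Y hY
    apply E.hC
    apply E.comm_of_factors
    intro i x hx
    obtain ⟨X, hX⟩ := hsurj i (E.mem_A hx)
    rw [← hX]
    exact hY i X
  obtain ⟨e, Pm, hP⟩ := tensor_frame (d := fun _ : Fin m => a) (θ := θ') E.n_pos (fun _ => ha) hcomm hirr
  have hform : ∀ h ∈ H, ∃ (π : Equiv.Perm (Fin m)) (B' : Fin m → GL (Fin a) F),
      h = Pm * glReindex (e := (show Fin n ≃ (Fin m → Fin a) from e).symm) (permGL π * tensorGL (d := fun _ => a) B') * Pm⁻¹ := by
    intro h hh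
    obtain ⟨π, hπ⟩ := E.exists_perm h hh
    have hB : ∀ i, ∃ B : GL (Fin a) F, ∀ X, (h : MM) * (θ i X : MM) =
        (θ (π i) ((B : Matrix (Fin a) (Fin a) F) * X * ((B⁻¹ : GL (Fin a) F) : Matrix (Fin a) (Fin a) F)) : MM) * (h : MM) := by
      intro i
      apply exists_conj_inner ha (θ i) (θ (π i)) h
      intro x hx
      apply conj_adjoin h _ hx
      rintro _ ⟨y, hy, rfl⟩
      exact ⟨h * y * h⁻¹, Df_conj_of ρ h (hπ i) y hy, rfl⟩
    choose B hB using hB
    obtain ⟨B', hB'⟩ := wreath_form (t := m) (m := a) (θ := θ') (by have := E.hm; omega) (e := e) (P := Pm) hP hc h π B hB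
    exact ⟨π, B', hB'⟩
  rcases (by omega : a = 2 ∨ 3 ≤ a) with rfl | ha3
  · exact bad_of_wreath2 E.hn3 E.hm e Pm hform
  · refine Bad.tw e Pm ha3 E.hm ?_
    intro h hh
    obtain ⟨π, B', hB'⟩ := hform h hh
    exact mem_wreath_of_form hB'

end ProdHyp

end Cfsg.Agent.Lib.ClassMax.Asch
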