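import Mathlib
import Cfsg.Agent.Lib.ClassMax.Asch13
import Cfsg.Agent.Lib.Perm.MinNormalPower

/-!
The dichotomy: a subgroup of the general linear group in dimension at least three lies in a geometric class or
in the residual class.
-/

set_option autoImplicit false
set_option linter.unusedSimpArgs false
set_option linter.unusedVariables false
set_option linter.unusedSectionVars false
set_option linter.unusedFintypeInType false
set_option linter.unusedDecidableInType false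

namespace Cfsg.Agent.Lib.ClassMax.Asch

open Module Matrix Cfsg.Geo
open scoped commutatorElement

variable {F : Type*} [Field F] [Fintype F] {n : ℕ} {H P : Subgroup (GL (Fin n) F)}

local notation "MM" => Matrix (Fin n) (Fin n) F

/-- The scalars inside a subgroup. -/
abbrev ZZs (P : Subgroup (GL (Fin n) F)) : Subgroup P := (scalars (Fin n) F).subgroupOf P

/-- Conjugation by an element of `H` on a normalised subgroup. -/
def conjAut (hnorm : ∀ h ∈ H, ∀ x ∈ P, h * x * h⁻¹ ∈ P) (h : H) : P ≃* P where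
  toFun x := ⟨h * x * (h : GL (Fin n) F)⁻¹, hnorm h h.2 x x.2⟩
  invFun x := ⟨(h : GL (Fin n) F)⁻¹ * x * h, by simpa using hnorm (h : GL (Fin n) F)⁻¹ (H.inv_mem h.2) x x.2⟩
  left_inv x := Subtype.ext (by simp [mul_assoc])
  right_inv x := Subtype.ext (by simp [mul_assoc])
  map_mul' a b := Subtype.ext (by simp [mul_assoc])

theorem conjAut_Z (hnorm : ∀ h ∈ H, ∀ x ∈ P, h * x * h⁻¹ ∈ P) (h : H) :
    (ZZs P).map (conjAut hnorm h : P →* P) = (ZZs P) := by
  apply Subgroup.ext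
  intro x
  constructor
  · rintro ⟨y, hy, rfl⟩
    rw [SetLike.mem_coe, Subgroup.mem_subgroupOf] at hy
    rw [Subgroup.mem_subgroupOf]
    exact (scalars_normal (ι := Fin n) (F := F)).conj_mem _ hy _
  · intro hx
    rw [Subgroup.mem_subgroupOf] at hx
    refine ⟨(conjAut hnorm h).symm x, ?_, ?_⟩
    · rw [SetLike.mem_coe, Subgroup.mem_subgroupOf]
      have := (scalars_normal (ι := Fin n) (F := F)).conj_mem _ hx (h : GL (Fin n) F)⁻¹
      have h2 : (((conjAut hnorm h).symm x : P) : GL (Fin n) F) = (h : GL (Fin n) F)⁻¹ * x * h := rfl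
      rw [h2]
      simpa using this
    · exact (conjAut hnorm h).apply_symm_apply x

/-- The action on the quotient by the scalars. -/
noncomputable def actΦ (hnorm : ∀ h ∈ H, ∀ x ∈ P, h * x * h⁻¹ ∈ P) : H →* MulAut (P ⧸ (ZZs P)) :=
  MonoidHom.mk' (fun h => QuotientGroup.congr (ZZs P) (ZZs P) (conjAut hnorm h) (conjAut_Z hnorm h)) (by
    intro a b
    ext q
    induction q using QuotientGroup.induction_on with
    | H x =>
      apply congrArg (fun y : P => ((y : P) : P ⧸ (ZZs P)))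
      apply Subtype.ext
      simp [conjAut, mul_assoc])

theorem actΦ_mk (hnorm : ∀ h ∈ H, ∀ x ∈ P, h * x * h⁻¹ ∈ P) (h : H) (x : P) :
    actΦ hnorm h (x : P ⧸ (ZZs P)) = ((⟨h * x * (h : GL (Fin n) F)⁻¹, hnorm h h.2 x x.2⟩ : P) : P ⧸ (ZZs P)) := rfl

/-- The hypotheses of the perfect case. -/
structure PerfHyp (H P : Subgroup (GL (Fin n) F)) : Prop where
  hn3 : 3 ≤ n
  hbad : ¬ Bad H
  hle : P ≤ H
  hnorm : ∀ h ∈ H, ∀ x ∈ P, h * x * h⁻¹ ∈ P
  hns : ¬ P ≤ scalars (Fin n) F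
  hmin : ∀ N : Subgroup (GL (Fin n) F), N ≤ P → (∀ h ∈ H, ∀ x ∈ N, h * x * h⁻¹ ∈ N) → ¬ N ≤ scalars (Fin n) F → N = P
  hperf : ⁅P, P⁆ = P

namespace PerfHyp

variable (E : PerfHyp H P)

include E

theorem n_pos : 0 < n := by
  have := E.hn3
  omega

theorem hC : ∀ M : MM, (∀ s ∈ matrixSet P, M * s = s * M) → ∃ c : F, M = c • 1 :=
  comm_scalar_of_normal E.hn3 E.hbad E.hnorm E.hns

theorem hTop : Algebra.adjoin F (matrixSet P) = ⊤ :=
  adjoin_top_of_comm E.n_pos (irr_of_not_bad E.hbad) E.hnorm E.hC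

theorem hirr : ActsIrreducibly (matrixSet P) := irr_of_adjoin_top E.hTop

theorem mk_eq_one_iff (x : P) : ((x : P) : P ⧸ (ZZs P)) = 1 ↔ (x : GL (Fin n) F) ∈ scalars (Fin n) F := by
  rw [QuotientGroup.eq_one_iff]
  exact Subgroup.mem_subgroupOf

theorem nontrivial_Q : Nontrivial (P ⧸ (ZZs P)) := by
  obtain ⟨x, hx, hxs⟩ := SetLike.not_le_iff_exists.1 E.hns
  refine ⟨⟨((⟨x, hx⟩ : P) : P ⧸ (ZZs P)), 1, fun h => hxs ?_⟩⟩
  exact (E.mk_eq_one_iff ⟨x, hx⟩).1 h

theorem noncomm_Q : ¬ ∀ a b : P ⧸ (ZZs P), a * b = b * a := by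
  intro hc
  apply E.hns
  rw [← E.hperf, Subgroup.commutator_le]
  intro a ha b hb
  have h1 := hc ((⟨a, ha⟩ : P) : P ⧸ (ZZs P)) ((⟨b, hb⟩ : P) : P ⧸ (ZZs P))
  have hm : a * b * a⁻¹ * b⁻¹ ∈ P := P.mul_mem (P.mul_mem (P.mul_mem ha hb) (P.inv_mem ha)) (P.inv_mem hb)
  have h2 := (E.mk_eq_one_iff ⟨a * b * a⁻¹ * b⁻¹, hm⟩).1 (by
    have h3 : (⟨a * b * a⁻¹ * b⁻¹, hm⟩ : P) = ⟨a, ha⟩ * ⟨b, hb⟩ * (⟨a, ha⟩ : P)⁻¹ * (⟨b, hb⟩ : P)⁻¹ := rfl
    rw [h3, QuotientGroup.mk_mul, QuotientGroup.mk_mul, QuotientGroup.mk_mul, QuotientGroup.mk_inv, QuotientGroup.mk_inv, h1]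
    group)
  rw [commutatorElement_def]
  exact h2

theorem exists_decomp : ∃ (T : Type) (_ : Group T) (m : ℕ), IsSimpleGroup T ∧ 0 < m ∧ Nonempty ((P ⧸ (ZZs P)) ≃* (Fin m → T)) := by
  haveI := E.nontrivial_Q
  apply Perm.exists_power_of_no_invariant (actΦ E.hnorm)
  intro K hK _ hinv
  -- the preimage
  let N : Subgroup (GL (Fin n) F) := (K.comap (QuotientGroup.mk' (ZZs P))).map P.subtype
  have hN : N ≤ P := by
    rintro _ ⟨x, -, rfl⟩
    exact x.2
  have hNeq : N = P := by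
    apply E.hmin N hN
    · rintro h hh _ ⟨x, hx, rfl⟩
      refine ⟨⟨h * x * h⁻¹, E.hnorm h hh x x.2⟩, ?_, rfl⟩
      have h1 := hinv ⟨h, hh⟩
      exact h1 ⟨_, hx, rfl⟩
    · obtain ⟨q, hq, hq1⟩ := (Subgroup.ne_bot_iff_exists_ne_one.1 hK).imp (fun q hq => hq) |>.elim (fun q hq => (⟨q.1, q.2, fun h => hq (Subtype.ext h)⟩ : ∃ q, q ∈ K ∧ q ≠ 1))
      induction q using QuotientGroup.induction_on with
      | H x =>
        intro hle
        apply hq1
        rw [E.mk_eq_one_iff]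
        exact hle ⟨x, hq, rfl⟩
  rw [eq_top_iff]
  intro q _
  induction q using QuotientGroup.induction_on with
  | H x =>
    have h1 : (x : GL (Fin n) F) ∈ N := by rw [hNeq]; exact x.2
    obtain ⟨y, hy, hxy⟩ := h1
    have : y = x := Subtype.ext hxy
    rw [← this]
    exact hy

/-- The quotient by the scalars is simple. -/
theorem simple_Q : IsSimpleGroup (P ⧸ (ZZs P)) := by
  obtain ⟨T, iT, m, hT, hm, ⟨φ⟩⟩ := E.exists_decomp
  have hnc : ¬ ∀ a b : T, a * b = b * a := by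
    intro hc
    apply E.noncomm_Q
    intro a b
    apply φ.injective
    rw [map_mul, map_mul]
    funext k
    exact hc _ _
  rcases (by omega : m = 1 ∨ 2 ≤ m) with rfl | hm2
  · haveI := hT
    exact (φ.trans (MulEquiv.funUnique (Fin 1) T)).isSimpleGroup
  · exfalso
    let ρ : P →* (Fin m → T) := φ.toMonoidHom.comp (QuotientGroup.mk' (ZZs P))
    have E' : ProdHyp H P ρ :=
      { hn3 := E.hn3
        hbad := E.hbad
        hnorm := E.hnorm
        hns := E.hns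
        hmin := E.hmin
        hsurj := φ.surjective.comp (QuotientGroup.mk'_surjective _)
        hker := by
          intro x
          rw [← E.mk_eq_one_iff]
          show φ ((x : P) : P ⧸ (ZZs P)) = 1 ↔ _
          rw [map_eq_one_iff φ φ.injective]
        hT := hT
        hnc := hnc
        hm := hm2
        haut := by
          intro h hh
          refine ⟨φ.symm.trans ((actΦ E.hnorm ⟨h, hh⟩).trans φ), ?_⟩
          intro x hx hx'
          show φ (actΦ E.hnorm ⟨h, hh⟩ (φ.symm (φ ((⟨x, hx⟩ : P) : P ⧸ (ZZs P))))) = φ ((⟨h * x * h⁻¹, hx'⟩ : P) : P ⧸ (ZZs P))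
          rw [φ.symm_apply_apply, actΦ_mk] }
    exact E'.false_of

theorem centralizer_scalar {h : GL (Fin n) F} (hx : ∀ x ∈ P, h * x * h⁻¹ * x⁻¹ ∈ scalars (Fin n) F) : h ∈ scalars (Fin n) F := by
  have hP : P ≤ Subgroup.centralizer {h} := by
    rw [← E.hperf, Subgroup.commutator_le]
    intro a ha b hb
    rw [Subgroup.mem_centralizer_iff]
    intro g hg
    have hg' : g = h := hg
    rw [hg', commutatorElement_def]
    have hs : a * h * a⁻¹ * h⁻¹ ∈ scalars (Fin n) F := by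
      have := Subgroup.inv_mem _ (hx a ha)
      have h2 : (h * a * h⁻¹ * a⁻¹)⁻¹ = a * h * a⁻¹ * h⁻¹ := by group
      rwa [h2] at this
    have ht : b * h * b⁻¹ * h⁻¹ ∈ scalars (Fin n) F := by
      have := Subgroup.inv_mem _ (hx b hb)
      have h2 : (h * b * h⁻¹ * b⁻¹)⁻¹ = b * h * b⁻¹ * h⁻¹ := by group
      rwa [h2] at this
    exact (comm_commutator_of_central (fun g => scal_comm hs g) (fun g => scal_comm ht g) (by group) (by group)).symm
  obtain ⟨c, hc⟩ := E.hC h (by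
    rintro _ ⟨y, hy, rfl⟩
    have h1 := hP hy
    rw [Subgroup.mem_centralizer_iff] at h1
    have h2 : h * y = y * h := h1 h rfl
    show (h : MM) * (y : MM) = (y : MM) * h
    rw [← Units.val_mul, ← Units.val_mul, h2])
  exact scal_of_eq E.n_pos hc

theorem residual : InLinearResidualClass H := by
  refine ⟨P, ⟨E.hle, E.hnorm, E.hperf, E.simple_Q, fun hc => E.noncomm_Q hc.is_comm.comm,
    fun h _ hx => E.centralizer_scalar hx, ⟨E.hirr, E.hC⟩, fun F₀ hF₀ hreal =>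
      E.hbad (bad_of_realisable E.n_pos E.hC E.hnorm F₀ hF₀ hreal)⟩, ?_, ?_, ?_⟩
  · rintro ⟨Q, hQ, hfix⟩
    exact E.hbad (bad_of_fixes_quad E.hn3 E.hC E.hnorm hQ hfix)
  · rintro ⟨f, hf, hfix⟩
    exact E.hbad (bad_of_fixes_symp E.hn3 E.hC E.hnorm hf hfix)
  · rintro ⟨σ, f, hf, hfix⟩
    exact E.hbad (bad_of_fixes_unit E.hn3 E.hC E.hnorm hf hfix)

end PerfHyp

/-- The main dichotomy. -/
theorem bad_or_residual (hn3 : 3 ≤ n) (H : Subgroup (GL (Fin n) F)) : Bad H ∨ InLinearResidualClass H := by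
  classical
  by_cases hbad : Bad H
  · exact Or.inl hbad
  right
  have hn0 : 0 < n := by omega
  have hHns : ¬ H ≤ scalars (Fin n) F := by
    intro hle
    apply hbad
    let i0 : Fin n := ⟨0, hn0⟩
    let i1 : Fin n := ⟨1, by omega⟩
    refine Bad.sub (Submodule.span F {(Pi.single i0 1 : Fin n → F)}) ?_ ?_ ?_
    · intro h
      rw [Submodule.span_singleton_eq_bot] at h
      have := congrFun h i0
      simp at this
    · intro h
      have h1 : (Pi.single i1 1 : Fin n → F) ∈ Submodule.span F {(Pi.single i0 1 : Fin n → F)} := by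
        rw [h]
        trivial
      obtain ⟨c, hc⟩ := Submodule.mem_span_singleton.1 h1
      have h2 := congrFun hc i1
      have h3 : i1 ≠ i0 := by
        intro h
        have := congrArg Fin.val h
        simp [i0, i1] at this
      simp [Pi.single_apply, h3] at h2
    · intro h hh
      obtain ⟨c, hc⟩ := (mem_scalars_iff h).1 (hle hh)
      apply Cfsg.Agent.Lib.ClassMax.mem_subspaceStabilizer_of_forall
      intro w hw
      rw [hc, Matrix.smul_mulVec, Matrix.one_mulVec]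
      exact Submodule.smul_mem _ _ hw
  -- a minimal element
  let 𝒮 : Set (Subgroup (GL (Fin n) F)) :=
    {N | N ≤ H ∧ (∀ h ∈ H, ∀ x ∈ N, h * x * h⁻¹ ∈ N) ∧ ¬ N ≤ scalars (Fin n) F}
  have hS : 𝒮.Nonempty := ⟨H, le_rfl, fun h hh x hx => H.mul_mem (H.mul_mem hh hx) (H.inv_mem hh), hHns⟩
  obtain ⟨X, ⟨hXH, hXn, hXs⟩, hXmin⟩ := (wellFounded_lt (α := Subgroup (GL (Fin n) F))).has_min 𝒮 hS
  have hmin : ∀ N : Subgroup (GL (Fin n) F), N ≤ X → (∀ h ∈ H, ∀ x ∈ N, h * x * h⁻¹ ∈ N) → ¬ N ≤ scalars (Fin n) F → N = X := by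
    intro N hNX hNn hNs
    by_contra hne
    exact hXmin N ⟨hNX.trans hXH, hNn, hNs⟩ (lt_of_le_of_ne hNX hne)
  have hcomX : ⁅X, X⁆ ≤ X := by
    rw [Subgroup.commutator_le]
    intro a ha b hb
    rw [commutatorElement_def]
    exact X.mul_mem (X.mul_mem (X.mul_mem ha hb) (X.inv_mem ha)) (X.inv_mem hb)
  by_cases hcs : ⁅X, X⁆ ≤ scalars (Fin n) F
  · exfalso
    have E : ExtraHyp H X :=
      { hn3 := hn3
        hbad := hbad
        hnorm := hXn
        hns := hXs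
        hmin := hmin
        hcs := fun x hx y hy => hcs (Subgroup.commutator_mem_commutator hx hy) }
    exact hbad E.bad
  · have hperf : ⁅X, X⁆ = X := by
      apply hmin _ hcomX _ hcs
      intro h hh x hx
      have h1 : ⁅X, X⁆ ≤ (⁅X, X⁆).comap (MulAut.conj h).toMonoidHom := by
        rw [Subgroup.commutator_le]
        intro a ha b hb
        show (MulAut.conj h).toMonoidHom ⁅a, b⁆ ∈ ⁅X, X⁆
        rw [map_commutatorElement]
        exact Subgroup.commutator_mem_commutator (hXn h hh a ha) (hXn h hh b hb)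
      exact h1 hx
    have E : PerfHyp H X :=
      { hn3 := hn3
        hbad := hbad
        hle := hXH
        hnorm := hXn
        hns := hXs
        hmin := hmin
        hperf := hperf }
    exact E.residual

/-- From the predicate to the union of the classes. -/
theorem exists_class_of_bad (hn3 : 3 ≤ n) {H : Subgroup (GL (Fin n) F)} (hB : Bad H) :
    ∃ M : Subgroup (GL (Fin n) F), InLinearClass n F M ∧ H ≤ M := by
  rcases hB with ⟨W, h0, h1, h⟩ | ⟨D, hD, h⟩ | ⟨K, hr, hK, h⟩ | ⟨e, P, h1, h2, h⟩ | ⟨F₀, P, hr, hc, h⟩ | ⟨R, hR, hn, h⟩ |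
    ⟨e, P, h1, h2, h⟩ | ⟨f, hf, he, h4, h⟩ | ⟨σ, f, hf, h3, h⟩ | ⟨Q, hQ, ho, h3, h⟩
  · exact ⟨_, Or.inl ⟨W, h0, h1, rfl⟩, h⟩
  · exact ⟨_, Or.inr (Or.inr (Or.inr (Or.inl ⟨_, _, D, hD, rfl⟩))), h⟩
  · exact ⟨_, Or.inr (Or.inr (Or.inr (Or.inr (Or.inl ⟨_, K, hr, hK, rfl⟩)))), h⟩
  · exact ⟨_, Or.inr (Or.inr (Or.inr (Or.inr (Or.inr (Or.inl ⟨_, _, e, P, h1, h2, rfl⟩))))), h⟩
  · exact ⟨_, Or.inr (Or.inr (Or.inr (Or.inr (Or.inr (Or.inr (Or.inl ⟨F₀, _, P, hr, hc, rfl⟩)))))), h⟩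
  · exact ⟨_, Or.inr (Or.inr (Or.inr (Or.inr (Or.inr (Or.inr (Or.inr (Or.inl ⟨_, R, hR, rfl⟩))))))), h⟩
  · exact ⟨_, Or.inr (Or.inr (Or.inr (Or.inr (Or.inr (Or.inr (Or.inr (Or.inr (Or.inl ⟨_, _, e, P, h1, h2, rfl⟩)))))))), h⟩
  · exact ⟨_, Or.inr (Or.inr (Or.inr (Or.inr (Or.inr (Or.inr (Or.inr (Or.inr (Or.inr (Or.inl ⟨f, hf, he, h4, rfl⟩))))))))), h⟩
  · exact ⟨_, Or.inr (Or.inr (Or.inr (Or.inr (Or.inr (Or.inr (Or.inr (Or.inr (Or.inr (Or.inr (Or.inl ⟨σ, f, hf, h3, rfl⟩)))))))))), h⟩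
  · exact ⟨_, Or.inr (Or.inr (Or.inr (Or.inr (Or.inr (Or.inr (Or.inr (Or.inr (Or.inr (Or.inr (Or.inr ⟨Q, hQ, ho, h3, rfl⟩)))))))))), h⟩

end Cfsg.Agent.Lib.ClassMax.Asch
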