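import Mathlib
import Cfsg.Prelude.Def_GeometricClasses

/-! The number of non-zero components of a vector with respect to a decomposition, as an element of the field. -/

set_option autoImplicit false

namespace Cfsg.Agent.Lib.ClassMax.PhiCount

open Matrix Cfsg.Geo

variable {ι : Type} [Fintype ι] [DecidableEq ι] {F : Type*} [Field F] {t : ℕ}

/-- The sum of all parts but one. -/
def Wc (D : Fin t → Submodule F (ι → F)) (i : Fin t) : Submodule F (ι → F) := ⨆ (j : Fin t) (_ : j ≠ i), D j

open Classical in
/-- The number of non-zero components, in the field. -/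
noncomputable def Phi (D : Fin t → Submodule F (ι → F)) (v : ι → F) : F :=
  ∑ i, if v ∈ Wc D i then 0 else 1

open Classical in
/-- The indicator of being non-zero. -/
noncomputable def nz (x : ι → F) : F := if x = 0 then 0 else 1

theorem nz_zero : nz (0 : ι → F) = 0 := by
  unfold nz
  simp

theorem nz_ne {x : ι → F} (h : x ≠ 0) : nz x = 1 := by
  unfold nz
  simp [h]

theorem gl_injective (g : GL ι F) {x y : ι → F} (h : (g : Matrix ι ι F) *ᵥ x = (g : Matrix ι ι F) *ᵥ y) : x = y := by
  have := congrArg (fun w => ((g⁻¹ : GL ι F) : Matrix ι ι F) *ᵥ w) h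
  simpa [Matrix.mulVec_mulVec] using this

/-- Images of the sums of parts under an element permuting the parts. -/
theorem map_Wc {D : Fin t → Submodule F (ι → F)} {g : GL ι F} {σ : Equiv.Perm (Fin t)}
    (hσ : ∀ i, (D i).map (Matrix.toLin' (g : Matrix ι ι F)) = D (σ i)) (i : Fin t) :
    (Wc D i).map (Matrix.toLin' (g : Matrix ι ι F)) = Wc D (σ i) := by
  unfold Wc
  simp only [Submodule.map_iSup, hσ]
  apply le_antisymm
  · refine iSup_le fun j => iSup_le fun hj => ?_
    exact le_iSup₂_of_le (σ j) (fun h => hj (σ.injective h)) le_rfl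
  · refine iSup_le fun j => iSup_le fun hj => ?_
    refine le_iSup₂_of_le (σ.symm j) (fun h => hj (by rw [← h, Equiv.apply_symm_apply])) ?_
    rw [Equiv.apply_symm_apply]

theorem mem_Wc_iff_map {D : Fin t → Submodule F (ι → F)} {g : GL ι F} {σ : Equiv.Perm (Fin t)}
    (hσ : ∀ i, (D i).map (Matrix.toLin' (g : Matrix ι ι F)) = D (σ i)) (i : Fin t) (v : ι → F) :
    (g : Matrix ι ι F) *ᵥ v ∈ Wc D (σ i) ↔ v ∈ Wc D i := by
  rw [← map_Wc hσ i]
  constructor
  · rintro ⟨w, hw, h⟩
    have : w = v := gl_injective g (by simpa using h)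
    exact this ▸ hw
  · intro hv
    exact ⟨v, hv, by simp⟩

/-- The count is preserved by the stabiliser of the decomposition. -/
theorem Phi_stab {D : Fin t → Submodule F (ι → F)} {g : GL ι F} (hg : g ∈ decompositionStabilizer D) (v : ι → F) :
    Phi D ((g : Matrix ι ι F) *ᵥ v) = Phi D v := by
  classical
  obtain ⟨σ, hσ⟩ := hg
  unfold Phi
  rw [← Equiv.sum_comp σ]
  refine Finset.sum_congr rfl fun i _ => ?_
  simp only [mem_Wc_iff_map hσ i v]

theorem exists_family' {m : ℕ} {D : Fin t → Submodule F (ι → F)} (hD : IsMDecomposition m D) (v : ι → F) :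
    ∃ c : Fin t → (ι → F), (∀ i, c i ∈ D i) ∧ v = ∑ i, c i := by
  classical
  have hv : v ∈ ⨆ i, D i := by rw [hD.iSup_eq_top]; trivial
  induction hv using Submodule.iSup_induction' with
  | mem i x hx =>
    refine ⟨Function.update 0 i x, fun j => ?_, ?_⟩
    · by_cases hj : j = i
      · subst hj; simpa using hx
      · simp [Function.update_of_ne hj]
    · simp [Finset.sum_update_of_mem]
  | zero => exact ⟨0, fun i => (D i).zero_mem, by simp⟩
  | add x y _ _ hx hy =>
    obtain ⟨c, hc, rfl⟩ := hx
    obtain ⟨d, hd, rfl⟩ := hy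
    exact ⟨c + d, fun i => (D i).add_mem (hc i) (hd i), by simp [Finset.sum_add_distrib]⟩

/-- Membership in the sum of the other parts, in terms of a family. -/
theorem sum_mem_Wc_iff {m : ℕ} {D : Fin t → Submodule F (ι → F)} (hD : IsMDecomposition m D) {c : Fin t → (ι → F)} (hc : ∀ i, c i ∈ D i) (i : Fin t) :
    (∑ j, c j) ∈ Wc D i ↔ c i = 0 := by
  classical
  have hrest : (∑ j ∈ Finset.univ.erase i, c j) ∈ Wc D i :=
    Submodule.sum_mem _ fun j hj => Submodule.mem_iSup_of_mem j (Submodule.mem_iSup_of_mem (Finset.ne_of_mem_erase hj) (hc j))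
  have hsplit : ∑ j, c j = c i + ∑ j ∈ Finset.univ.erase i, c j := (Finset.add_sum_erase _ _ (Finset.mem_univ i)).symm
  constructor
  · intro h
    have h1 : c i ∈ Wc D i := by
      have : c i = (∑ j, c j) - ∑ j ∈ Finset.univ.erase i, c j := by rw [hsplit]; abel
      rw [this]
      exact Submodule.sub_mem _ h hrest
    exact Submodule.disjoint_def.mp (hD.indep i) _ (hc i) h1
  · intro h
    rw [hsplit, h, zero_add]
    exact hrest

/-- The count on a family. -/
theorem Phi_sum {m : ℕ} {D : Fin t → Submodule F (ι → F)} (hD : IsMDecomposition m D) {c : Fin t → (ι → F)} (hc : ∀ i, c i ∈ D i) :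
    Phi D (∑ j, c j) = ∑ i, nz (c i) := by
  classical
  unfold Phi nz
  simp only [sum_mem_Wc_iff hD hc]

/-- The count on a single part. -/
theorem Phi_mem {m : ℕ} {D : Fin t → Submodule F (ι → F)} (hD : IsMDecomposition m D) {i : Fin t} {z : ι → F} (hz : z ∈ D i) : Phi D z = nz z := by
  classical
  have h1 : z = ∑ j, (Function.update (0 : Fin t → (ι → F)) i z) j := by
    simp [Finset.sum_update_of_mem]
  have h2 : ∀ j, (Function.update (0 : Fin t → (ι → F)) i z) j ∈ D j := by
    intro j
    by_cases hj : j = i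
    · subst hj; simpa using hz
    · simp [Function.update_of_ne hj]
  conv_lhs => rw [h1]
  rw [Phi_sum hD h2, Finset.sum_eq_single i]
  · simp
  · intro j _ hj
    rw [Function.update_of_ne hj]
    exact nz_zero
  · simp

/-- A non-zero vector in a part does not lie in the sum of the other parts. -/
theorem not_mem_Wc {m : ℕ} {D : Fin t → Submodule F (ι → F)} (hD : IsMDecomposition m D) {i : Fin t} {z : ι → F} (hz : z ∈ D i) (hz0 : z ≠ 0) : z ∉ Wc D i :=
  fun h => hz0 (Submodule.disjoint_def.mp (hD.indep i) _ hz h)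

theorem mem_Wc_of_ne {D : Fin t → Submodule F (ι → F)} {i j : Fin t} (h : j ≠ i) {z : ι → F} (hz : z ∈ D j) : z ∈ Wc D i :=
  Submodule.mem_iSup_of_mem j (Submodule.mem_iSup_of_mem h hz)

/-- Uniqueness of components. -/
theorem family_unique {m : ℕ} {D : Fin t → Submodule F (ι → F)} (hD : IsMDecomposition m D) {c d : Fin t → (ι → F)} (hc : ∀ i, c i ∈ D i)
    (hd : ∀ i, d i ∈ D i) (h : ∑ j, c j = ∑ j, d j) (i : Fin t) : c i = d i := by
  have h1 : ∑ j, (c j - d j) = 0 := by
    rw [Finset.sum_sub_distrib, h, sub_self]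
  have h2 := (sum_mem_Wc_iff hD (fun i => (D i).sub_mem (hc i) (hd i)) i).mp (by rw [h1]; exact Submodule.zero_mem _)
  exact sub_eq_zero.mp h2

/-- Dimension count for a decomposition. -/
theorem card_le_of_decomp {m : ℕ} {D : Fin t → Submodule F (ι → F)} (hD : IsMDecomposition m D) : Fintype.card ι ≤ t * m := by
  classical
  have key : ∀ s : Finset (Fin t), Module.finrank F (⨆ i ∈ s, D i : Submodule F (ι → F)) ≤ s.card * m := by
    intro s
    induction s using Finset.induction_on with
    | empty => simp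
    | insert a s ha ih =>
      rw [Finset.iSup_insert, Finset.card_insert_of_notMem ha]
      have h1 := Submodule.finrank_add_le_finrank_add_finrank (D a) (⨆ i ∈ s, D i)
      have h2 := hD.finrank_eq a
      nlinarith
  have h := key Finset.univ
  have h2 : (⨆ i ∈ (Finset.univ : Finset (Fin t)), D i) = ⊤ := by
    simpa using hD.iSup_eq_top
  rw [h2, finrank_top] at h
  simpa using h

end Cfsg.Agent.Lib.ClassMax.PhiCount
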