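import Mathlib
import Cfsg.Agent.Lib.ClassMax.PhiCount
import Cfsg.Agent.Lib.ClassMax.Transv
import Cfsg.Agent.Lib.ClassMax.OmegaCore

/-! Monomial groups over small fields and stabilisers of decompositions into planes over the field with two elements
are not maximal in the special linear group: they preserve the number of non-zero components, modulo the characteristic. -/

set_option autoImplicit false

namespace Cfsg.Agent.Lib.ClassMax.PhiCount

open Matrix Cfsg.Geo Cfsg.Agent.Lib.ClassMax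

variable {ι : Type} [Fintype ι] [DecidableEq ι] {F : Type*} [Field F] {t : ℕ}

/-- The count on two parts. -/
theorem Phi_two {m : ℕ} {D : Fin t → Submodule F (ι → F)} (hD : IsMDecomposition m D) {i j : Fin t} (hij : i ≠ j) {x y : ι → F} (hx : x ∈ D i) (hy : y ∈ D j) :
    Phi D (x + y) = nz x + nz y := by
  classical
  have h1 : x + y = ∑ l, (if l = i then x else if l = j then y else 0) := by
    rw [Finset.sum_eq_add_of_mem i j (Finset.mem_univ _) (Finset.mem_univ _) hij]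
    · simp [hij.symm]
    · intro c _ hc
      simp [hc.1, hc.2]
  have h2 : ∀ l, (if l = i then x else if l = j then y else 0) ∈ D l := by
    intro l
    by_cases h : l = i
    · subst h; simpa using hx
    · by_cases h' : l = j
      · subst h'; simpa [h] using hy
      · simp [h, h']
  rw [h1, Phi_sum hD h2, Finset.sum_eq_add_of_mem i j (Finset.mem_univ _) (Finset.mem_univ _) hij]
  · simp only [if_true, if_neg hij.symm]
  · intro c _ hc
    simp [hc.1, hc.2, nz_zero]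

/-- Any proper intermediate group of invariance of the count stays proper in the special linear group. -/
theorem sl_not_le_of_count {m : ℕ} {D : Fin t → Submodule F (ι → F)} (hD : IsMDecomposition m D) (ht : 2 ≤ t) :
    ¬ (specialLinear ι F ≤ Cfsg.isometryGroup F (Phi D)) := by
  intro hle
  have hne : ∀ i, ∃ z ∈ D i, z ≠ 0 := fun i => by
    apply Submodule.exists_mem_ne_zero_of_ne_bot
    intro hbot
    have h1 := hD.finrank_eq i
    have h2 := hD.pos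
    rw [hbot, finrank_bot] at h1
    omega
  obtain ⟨i₀, i₁, h01⟩ : ∃ i₀ i₁ : Fin t, i₀ ≠ i₁ := ⟨⟨0, by omega⟩, ⟨1, by omega⟩, by simp [Fin.ext_iff]⟩
  obtain ⟨a, ha, ha0⟩ := hne i₀
  obtain ⟨b, hb, hb0⟩ := hne i₁
  obtain ⟨l, hl1, hl2⟩ := exists_dotProduct_of_notMem (not_mem_Wc hD ha ha0)
  have hlb : l ⬝ᵥ b = 0 := hl1 _ (mem_Wc_of_ne h01.symm hb)
  have h1 := hle (tv_mem_specialLinear b l hlb)
  have h2 := (OmegaCore.mem_iso_iff _).mp h1 a
  rw [tv_mulVec, hl2, one_smul, Phi_two hD h01 ha hb, Phi_mem hD ha, nz_ne ha0, nz_ne hb0] at h2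
  exact one_ne_zero (by linear_combination h2)

/-- Coordinates for a decomposition into lines. -/
theorem line_data {D : Fin t → Submodule F (ι → F)} (hD : IsMDecomposition 1 D) :
    ∃ a l : Fin t → ι → F, (∀ i, a i ∈ D i) ∧ (∀ i, a i ≠ 0) ∧ (∀ i, l i ⬝ᵥ a i = 1) ∧ (∀ i j, j ≠ i → l i ⬝ᵥ a j = 0) ∧
      ∀ v, v = ∑ j, (l j ⬝ᵥ v) • a j := by
  have hne : ∀ i, ∃ z ∈ D i, z ≠ 0 := fun i => by
    apply Submodule.exists_mem_ne_zero_of_ne_bot
    intro hbot
    have h1 := hD.finrank_eq i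
    rw [hbot, finrank_bot] at h1
    omega
  choose a ha ha0 using hne
  have hfun := fun i => exists_dotProduct_of_notMem (not_mem_Wc hD (ha i) (ha0 i))
  choose l hl1 hl2 using hfun
  have hl3 : ∀ i j, j ≠ i → l i ⬝ᵥ a j = 0 := fun i j h => hl1 i _ (mem_Wc_of_ne h (ha j))
  refine ⟨a, l, ha, ha0, hl2, hl3, fun v => ?_⟩
  obtain ⟨c, hc, rfl⟩ := exists_family' hD v
  have hcoord : ∀ i, ∃ β : F, c i = β • a i := by
    intro i
    have h1 := (finrank_eq_one_iff_of_nonzero' (⟨a i, ha i⟩ : D i) (fun h => ha0 i (congrArg Subtype.val h))).mp (hD.finrank_eq i) ⟨c i, hc i⟩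
    obtain ⟨β, hβ⟩ := h1
    exact ⟨β, (congrArg Subtype.val hβ).symm⟩
  choose β hβ using hcoord
  have h2 : ∀ i, l i ⬝ᵥ (∑ j, c j) = β i := by
    intro i
    rw [dotProduct_sum, Finset.sum_eq_single i]
    · rw [hβ, dotProduct_smul, hl2, smul_eq_mul, mul_one]
    · intro j _ hj
      rw [hβ, dotProduct_smul, hl3 i j hj, smul_zero]
    · simp
  refine Finset.sum_congr rfl fun i _ => ?_
  rw [h2, hβ]

section Small

variable [Fintype F]

/-- The count in coordinates. -/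
theorem Phi_line {D : Fin t → Submodule F (ι → F)} (hD : IsMDecomposition 1 D) {a l : Fin t → ι → F} (ha : ∀ i, a i ∈ D i) (ha0 : ∀ i, a i ≠ 0)
    (hv : ∀ v, v = ∑ j, (l j ⬝ᵥ v) • a j) (v : ι → F) : Phi D v = ∑ j, (l j ⬝ᵥ v) ^ (Fintype.card F - 1) := by
  have h1 := Phi_sum hD (c := fun j => (l j ⬝ᵥ v) • a j) (fun j => (D j).smul_mem _ (ha j))
  rw [← hv v] at h1
  rw [h1]
  refine Finset.sum_congr rfl fun j _ => ?_
  have hq : 1 < Fintype.card F := Fintype.one_lt_card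
  by_cases hb : l j ⬝ᵥ v = 0
  · rw [hb, zero_smul, nz_zero, zero_pow (by omega)]
  · rw [nz_ne (smul_ne_zero hb (ha0 j)), FiniteField.pow_card_sub_one_eq_one _ hb]

/-- The identity behind the invariance of the count. -/
theorem key_identity (hq : Fintype.card F ≤ 4) (x₀ x₁ x₂ x₃ x₄ : F) :
    (x₀ + (x₀ + x₁ + x₂ + x₃)) ^ (Fintype.card F - 1) + (x₁ + (x₀ + x₁ + x₂ + x₃)) ^ (Fintype.card F - 1) + (x₂ + (x₀ + x₁ + x₂ + x₃)) ^ (Fintype.card F - 1)
      + (x₃ + (x₀ + x₁ + x₂ + x₃)) ^ (Fintype.card F - 1) + (-x₄) ^ (Fintype.card F - 1)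
    = x₀ ^ (Fintype.card F - 1) + x₁ ^ (Fintype.card F - 1) + x₂ ^ (Fintype.card F - 1) + x₃ ^ (Fintype.card F - 1) + x₄ ^ (Fintype.card F - 1) := by
  have h0 : ((Fintype.card F : ℕ) : F) = 0 := Nat.cast_card_eq_zero F
  have h1 : 1 < Fintype.card F := Fintype.one_lt_card
  obtain h | h | h : Fintype.card F = 2 ∨ Fintype.card F = 3 ∨ Fintype.card F = 4 := by omega
  · rw [h] at h0 ⊢
    norm_num at h0 ⊢
    linear_combination (2 * x₀ + 2 * x₁ + 2 * x₂ + 2 * x₃ + x₀ + x₁ + x₂ + x₃ - x₄) * h0 - (x₀ + x₁ + x₂ + x₃) * h0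
  · rw [h] at h0 ⊢
    norm_num at h0 ⊢
    linear_combination (2 * (x₀ + x₁ + x₂ + x₃) ^ 2) * h0
  · rw [h] at h0 ⊢
    have h2 : (2 : F) = 0 := by
      have h3 : (2 : F) * 2 = 0 := by
        norm_num at h0 ⊢
        exact h0
      simpa using h3
    norm_num
    linear_combination (5 * (x₀ + x₁ + x₂ + x₃) ^ 3 - 3 * (x₀ + x₁ + x₂ + x₃) * (x₀ * x₁ + x₀ * x₂ + x₀ * x₃ + x₁ * x₂ + x₁ * x₃ + x₂ * x₃) - x₄ ^ 3) * h2

theorem six_zero (hq : Fintype.card F ≤ 4) : (6 : F) = 0 := by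
  have h0 : ((Fintype.card F : ℕ) : F) = 0 := Nat.cast_card_eq_zero F
  have h1 : 1 < Fintype.card F := Fintype.one_lt_card
  obtain h | h | h : Fintype.card F = 2 ∨ Fintype.card F = 3 ∨ Fintype.card F = 4 := by omega
  · rw [h] at h0
    norm_num at h0
    linear_combination 3 * h0
  · rw [h] at h0
    norm_num at h0
    linear_combination 2 * h0
  · rw [h] at h0
    have h2 : (2 : F) = 0 := by
      have h3 : (2 : F) * 2 = 0 := by
        norm_num at h0 ⊢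
        exact h0
      simpa using h3
    linear_combination 3 * h2

/-- The case of lines over small fields. -/
theorem main_line (hq : Fintype.card F ≤ 4) (hn : 13 ≤ Fintype.card ι) {D : Fin t → Submodule F (ι → F)} (hD : IsMDecomposition 1 D) :
    ∃ K : Subgroup (GL ι F), decompositionStabilizer D ⊓ specialLinear ι F < K ∧ K < specialLinear ι F := by
  have h6 := six_zero hq
  have hcard := card_le_of_decomp hD
  have ht : 5 ≤ t := by omega
  obtain ⟨a, l, ha, ha0, hl1, hl2, hv⟩ := line_data hD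
  obtain ⟨i₀, i₁, i₂, i₃, i₄, h01, h02, h03, h04, h12, h13, h14, h23, h24, h34⟩ :
      ∃ i₀ i₁ i₂ i₃ i₄ : Fin t, i₀ ≠ i₁ ∧ i₀ ≠ i₂ ∧ i₀ ≠ i₃ ∧ i₀ ≠ i₄ ∧ i₁ ≠ i₂ ∧ i₁ ≠ i₃ ∧ i₁ ≠ i₄ ∧ i₂ ≠ i₃ ∧ i₂ ≠ i₄ ∧ i₃ ≠ i₄ :=
    ⟨⟨0, by omega⟩, ⟨1, by omega⟩, ⟨2, by omega⟩, ⟨3, by omega⟩, ⟨4, by omega⟩, by simp [Fin.ext_iff], by simp [Fin.ext_iff], by simp [Fin.ext_iff], by simp [Fin.ext_iff],
      by simp [Fin.ext_iff], by simp [Fin.ext_iff], by simp [Fin.ext_iff], by simp [Fin.ext_iff], by simp [Fin.ext_iff], by simp [Fin.ext_iff]⟩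
  obtain ⟨z, hz⟩ : ∃ z, z = a i₀ + a i₁ + a i₂ + a i₃ := ⟨_, rfl⟩
  obtain ⟨φ, hφ⟩ : ∃ φ, φ = l i₀ + l i₁ + l i₂ + l i₃ := ⟨_, rfl⟩
  obtain ⟨ψ, hψ⟩ : ∃ ψ, ψ = (-2 : F) • l i₄ := ⟨_, rfl⟩
  have hφz : φ ⬝ᵥ z = 4 := by
    rw [hφ, hz]
    simp only [add_dotProduct, dotProduct_add, hl1, hl2 i₀ i₁ h01.symm, hl2 i₀ i₂ h02.symm, hl2 i₀ i₃ h03.symm, hl2 i₁ i₀ h01, hl2 i₁ i₂ h12.symm, hl2 i₁ i₃ h13.symm,
      hl2 i₂ i₀ h02, hl2 i₂ i₁ h12, hl2 i₂ i₃ h23.symm, hl2 i₃ i₀ h03, hl2 i₃ i₁ h13, hl2 i₃ i₂ h23]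
    ring
  have hψa : ψ ⬝ᵥ a i₄ = -2 := by
    rw [hψ, smul_dotProduct, hl1, smul_eq_mul, mul_one]
  have hφa₄ : φ ⬝ᵥ a i₄ = 0 := by
    rw [hφ]
    simp only [add_dotProduct, hl2 i₀ i₄ h04.symm, hl2 i₁ i₄ h14.symm, hl2 i₂ i₄ h24.symm, hl2 i₃ i₄ h34.symm, add_zero]
  have hdet : (tvMat z φ * tvMat (a i₄) ψ).det = 1 := by
    rw [Matrix.det_mul, tvMat, tvMat, vecMulVec_eq Unit, vecMulVec_eq Unit, det_one_add_replicateCol_mul_replicateRow, det_one_add_replicateCol_mul_replicateRow, hφz, hψa]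
    linear_combination -h6
  let G : GL ι F := Matrix.GeneralLinearGroup.mkOfDetNeZero (tvMat z φ * tvMat (a i₄) ψ) (by rw [hdet]; exact one_ne_zero)
  have hGval : (G : Matrix ι ι F) = tvMat z φ * tvMat (a i₄) ψ := rfl
  have hGv : ∀ v : ι → F, (G : Matrix ι ι F) *ᵥ v = v + (ψ ⬝ᵥ v) • a i₄ + (φ ⬝ᵥ v) • z := by
    intro v
    rw [hGval, ← Matrix.mulVec_mulVec, tvMat_mulVec, tvMat_mulVec, dotProduct_add, dotProduct_smul, hφa₄, smul_zero, add_zero]
  have hGsl : G ∈ specialLinear ι F := by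
    show Matrix.GeneralLinearGroup.det G = 1
    apply Units.ext
    simp only [Matrix.GeneralLinearGroup.val_det_apply, Units.val_one]
    exact hdet
  have hGΦ : G ∈ Cfsg.isometryGroup F (Phi D) := by
    rw [OmegaCore.mem_iso_iff]
    intro v
    rw [Phi_line hD ha ha0 hv, Phi_line hD ha ha0 hv, hGv]
    obtain ⟨β, hβ⟩ : ∃ β : Fin t → F, β = fun j => l j ⬝ᵥ v := ⟨_, rfl⟩
    have hco : ∀ j, l j ⬝ᵥ (v + (ψ ⬝ᵥ v) • a i₄ + (φ ⬝ᵥ v) • z) = β j + (ψ ⬝ᵥ v) * (l j ⬝ᵥ a i₄) + (φ ⬝ᵥ v) * (l j ⬝ᵥ z) := by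
      intro j
      rw [dotProduct_add, dotProduct_add, dotProduct_smul, dotProduct_smul, hβ]
      simp
    have hβ' : ∀ j, l j ⬝ᵥ v = β j := fun j => by rw [hβ]
    simp only [hco, hβ']
    have hs : φ ⬝ᵥ v = β i₀ + β i₁ + β i₂ + β i₃ := by
      rw [hφ, hβ]
      simp only [add_dotProduct]
    have hpsi : ψ ⬝ᵥ v = -2 * β i₄ := by
      rw [hψ, hβ, smul_dotProduct, smul_eq_mul]
    have hlz : ∀ j, l j ⬝ᵥ z = l j ⬝ᵥ a i₀ + l j ⬝ᵥ a i₁ + l j ⬝ᵥ a i₂ + l j ⬝ᵥ a i₃ := by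
      intro j
      rw [hz]
      simp only [dotProduct_add]
    -- separate the five special coordinates
    have hdiff : ∀ j, j ≠ i₀ → j ≠ i₁ → j ≠ i₂ → j ≠ i₃ → j ≠ i₄ →
        (β j + (ψ ⬝ᵥ v) * (l j ⬝ᵥ a i₄) + (φ ⬝ᵥ v) * (l j ⬝ᵥ z)) ^ (Fintype.card F - 1) = β j ^ (Fintype.card F - 1) := by
      intro j h0 h1 h2 h3 h4
      rw [hlz, hl2 j i₀ h0.symm, hl2 j i₁ h1.symm, hl2 j i₂ h2.symm, hl2 j i₃ h3.symm, hl2 j i₄ h4.symm]
      simp
    have e0 : β i₀ + (ψ ⬝ᵥ v) * (l i₀ ⬝ᵥ a i₄) + (φ ⬝ᵥ v) * (l i₀ ⬝ᵥ z) = β i₀ + (β i₀ + β i₁ + β i₂ + β i₃) := by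
      rw [hlz, hs, hl1, hl2 i₀ i₁ h01.symm, hl2 i₀ i₂ h02.symm, hl2 i₀ i₃ h03.symm, hl2 i₀ i₄ h04.symm]
      ring
    have e1 : β i₁ + (ψ ⬝ᵥ v) * (l i₁ ⬝ᵥ a i₄) + (φ ⬝ᵥ v) * (l i₁ ⬝ᵥ z) = β i₁ + (β i₀ + β i₁ + β i₂ + β i₃) := by
      rw [hlz, hs, hl1, hl2 i₁ i₀ h01, hl2 i₁ i₂ h12.symm, hl2 i₁ i₃ h13.symm, hl2 i₁ i₄ h14.symm]
      ring
    have e2 : β i₂ + (ψ ⬝ᵥ v) * (l i₂ ⬝ᵥ a i₄) + (φ ⬝ᵥ v) * (l i₂ ⬝ᵥ z) = β i₂ + (β i₀ + β i₁ + β i₂ + β i₃) := by
      rw [hlz, hs, hl1, hl2 i₂ i₀ h02, hl2 i₂ i₁ h12, hl2 i₂ i₃ h23.symm, hl2 i₂ i₄ h24.symm]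
      ring
    have e3 : β i₃ + (ψ ⬝ᵥ v) * (l i₃ ⬝ᵥ a i₄) + (φ ⬝ᵥ v) * (l i₃ ⬝ᵥ z) = β i₃ + (β i₀ + β i₁ + β i₂ + β i₃) := by
      rw [hlz, hs, hl1, hl2 i₃ i₀ h03, hl2 i₃ i₁ h13, hl2 i₃ i₂ h23, hl2 i₃ i₄ h34.symm]
      ring
    have e4 : β i₄ + (ψ ⬝ᵥ v) * (l i₄ ⬝ᵥ a i₄) + (φ ⬝ᵥ v) * (l i₄ ⬝ᵥ z) = - β i₄ := by
      rw [hlz, hpsi, hl1, hl2 i₄ i₀ h04, hl2 i₄ i₁ h14, hl2 i₄ i₂ h24, hl2 i₄ i₃ h34]
      ring
    rw [← sub_eq_zero, ← Finset.sum_sub_distrib]
    classical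
    rw [← Finset.sum_subset (Finset.subset_univ ({i₀, i₁, i₂, i₃, i₄} : Finset (Fin t))) (fun j _ hj => by
      simp only [Finset.mem_insert, Finset.mem_singleton, not_or] at hj
      rw [hdiff j hj.1 hj.2.1 hj.2.2.1 hj.2.2.2.1 hj.2.2.2.2, sub_self])]
    rw [Finset.sum_insert (by simp [h01, h02, h03, h04]), Finset.sum_insert (by simp [h12, h13, h14]), Finset.sum_insert (by simp [h23, h24]),
      Finset.sum_insert (by simp [h34]), Finset.sum_singleton, e0, e1, e2, e3, e4]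
    have := key_identity hq (β i₀) (β i₁) (β i₂) (β i₃) (β i₄)
    linear_combination this
  refine ⟨Cfsg.isometryGroup F (Phi D) ⊓ specialLinear ι F, lt_of_le_of_ne ?_ ?_, lt_of_le_of_ne inf_le_right ?_⟩
  · rintro g ⟨hg1, hg2⟩
    exact ⟨(OmegaCore.mem_iso_iff g).mpr (Phi_stab hg1), hg2⟩
  · intro heq
    have h3 : G ∈ Cfsg.isometryGroup F (Phi D) ⊓ specialLinear ι F := ⟨hGΦ, hGsl⟩
    rw [← heq] at h3
    obtain ⟨σ, hσ⟩ := h3.1
    have hmem : a i₀ + z ∈ D (σ i₀) := by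
      rw [← hσ i₀]
      refine ⟨a i₀, ha i₀, ?_⟩
      rw [Matrix.toLin'_apply, hGv, hψ, smul_dotProduct, hl2 i₄ i₀ h04, hφ]
      simp only [add_dotProduct, hl1, hl2 i₁ i₀ h01, hl2 i₂ i₀ h02, hl2 i₃ i₀ h03, smul_zero, zero_smul, add_zero, one_smul]
    by_cases hj : σ i₀ = i₁
    · refine not_mem_Wc hD (ha i₂) (ha0 i₂) ?_
      have e : a i₂ = a i₀ + z - (a i₀ + a i₀ + a i₁ + a i₃) := by
        rw [hz]
        abel
      rw [e]
      refine Submodule.sub_mem _ (mem_Wc_of_ne (by rw [hj]; exact h12) hmem) ?_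
      exact Submodule.add_mem _ (Submodule.add_mem _ (Submodule.add_mem _ (mem_Wc_of_ne h02 (ha _)) (mem_Wc_of_ne h02 (ha _))) (mem_Wc_of_ne h12 (ha _))) (mem_Wc_of_ne h23.symm (ha _))
    · refine not_mem_Wc hD (ha i₁) (ha0 i₁) ?_
      have e : a i₁ = a i₀ + z - (a i₀ + a i₀ + a i₂ + a i₃) := by
        rw [hz]
        abel
      rw [e]
      refine Submodule.sub_mem _ (mem_Wc_of_ne hj hmem) ?_
      exact Submodule.add_mem _ (Submodule.add_mem _ (Submodule.add_mem _ (mem_Wc_of_ne h01 (ha _)) (mem_Wc_of_ne h01 (ha _))) (mem_Wc_of_ne h12.symm (ha _))) (mem_Wc_of_ne h13.symm (ha _))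
  · intro heq
    refine sl_not_le_of_count hD (by omega) ?_
    rw [← heq]
    exact inf_le_left

/-- The case of planes over the field with two elements. -/
theorem main_plane (hq : Fintype.card F = 2) (hn : 13 ≤ Fintype.card ι) {D : Fin t → Submodule F (ι → F)} (hD : IsMDecomposition 2 D) :
    ∃ K : Subgroup (GL ι F), decompositionStabilizer D ⊓ specialLinear ι F < K ∧ K < specialLinear ι F := by
  classical
  have hF2 : ∀ x : F, x ≠ 0 → x = 1 := fun x hx => by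
    have := FiniteField.pow_card_sub_one_eq_one x hx
    rwa [hq, show 2 - 1 = 1 from rfl, pow_one] at this
  have htwo : (1 : F) + 1 = 0 := by
    by_contra h
    have := hF2 _ h
    exact one_ne_zero (by linear_combination this)
  have hcard := card_le_of_decomp hD
  have ht : 3 ≤ t := by omega
  have hne : ∀ i, ∃ z ∈ D i, z ≠ 0 := fun i => by
    apply Submodule.exists_mem_ne_zero_of_ne_bot
    intro hbot
    have h1 := hD.finrank_eq i
    rw [hbot, finrank_bot] at h1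
    omega
  choose p hp hp0 using hne
  have hr : ∀ i, ∃ r ∈ D i, r ∉ Submodule.span F {p i} := by
    intro i
    by_contra hcon
    push Not at hcon
    have h1 := Submodule.finrank_mono (show D i ≤ Submodule.span F {p i} from hcon)
    have h2 := finrank_span_le_card (R := F) ({p i} : Set (ι → F))
    simp only [Set.toFinset_singleton, Finset.card_singleton] at h2
    rw [hD.finrank_eq] at h1
    omega
  choose r hr hrn using hr
  have hrS : ∀ i, r i ∉ Wc D i ⊔ Submodule.span F {p i} := by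
    intro i hin
    obtain ⟨w, hw, y, hy, e⟩ := Submodule.mem_sup.mp hin
    obtain ⟨c, rfl⟩ := Submodule.mem_span_singleton.mp hy
    apply hrn i
    have h1 : r i - c • p i ∈ D i := (D i).sub_mem (hr i) ((D i).smul_mem _ (hp i))
    have h2 : r i - c • p i ∈ Wc D i := by
      rw [← e]
      simpa using hw
    have h3 := Submodule.disjoint_def.mp (hD.indep i) _ h1 h2
    rw [sub_eq_zero.mp h3]
    exact Submodule.smul_mem _ _ (Submodule.mem_span_singleton_self _)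
  have hfun := fun i => exists_dotProduct_of_notMem (hrS i)
  choose l hl1 hl2 using hfun
  have hlw : ∀ i, ∀ w ∈ Wc D i, l i ⬝ᵥ w = 0 := fun i w hw => hl1 i w (Submodule.mem_sup_left hw)
  have hlp : ∀ i, l i ⬝ᵥ p i = 0 := fun i => hl1 i _ (Submodule.mem_sup_right (Submodule.mem_span_singleton_self _))
  -- the structure of a plane
  have hspan : ∀ i, ∀ c ∈ D i, ∃ α β : F, c = α • p i + β • r i := by
    intro i c hc
    have hind : LinearIndependent F ![p i, r i] := by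
      refine LinearIndependent.pair_iff.mpr fun a b h => ?_
      by_cases hb : b = 0
      · subst hb
        rw [zero_smul, add_zero] at h
        exact ⟨(smul_eq_zero.mp h).resolve_right (hp0 i), rfl⟩
      · exfalso
        apply hrn i
        have e : r i = (-(b⁻¹ * a)) • p i := by
          have : b • r i = (-a) • p i := by
            rw [neg_smul]
            exact eq_neg_of_add_eq_zero_right h
          have := congrArg (fun w => b⁻¹ • w) this
          simp only [smul_smul, inv_mul_cancel₀ hb, one_smul] at this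
          rw [this]
          congr 1
          ring
        rw [e]
        exact Submodule.smul_mem _ _ (Submodule.mem_span_singleton_self _)
    have hfr := finrank_span_eq_card hind
    have hle : Submodule.span F (Set.range ![p i, r i]) ≤ D i := by
      rw [Submodule.span_le]
      rintro x ⟨k, rfl⟩
      fin_cases k
      · exact hp i
      · exact hr i
    have heq := Submodule.eq_of_le_of_finrank_eq hle (by rw [hfr, hD.finrank_eq]; simp)
    rw [← heq, Submodule.mem_span_range_iff_exists_fun] at hc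
    obtain ⟨e, rfl⟩ := hc
    refine ⟨e 0, e 1, ?_⟩
    rw [Fin.sum_univ_two]
    rfl
  have hnz : ∀ i (α β : F), nz (α • p i + β • r i) = α + β + α * β := by
    intro i α β
    by_cases hα : α = 0
    · subst hα
      by_cases hβ : β = 0
      · subst hβ
        simp [nz_zero]
      · rw [hF2 β hβ, zero_smul, zero_add, one_smul, nz_ne (fun h => hrn i (by rw [h]; exact Submodule.zero_mem _))]
        ring
    · rw [hF2 α hα]
      by_cases hβ : β = 0
      · subst hβ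
        rw [zero_smul, add_zero, one_smul, nz_ne (hp0 i)]
        ring
      · rw [hF2 β hβ, one_smul, one_smul, nz_ne]
        · linear_combination -htwo
        · intro h0
          apply hrn i
          rw [eq_neg_of_add_eq_zero_right h0]
          exact Submodule.neg_mem _ (Submodule.mem_span_singleton_self _)
  have hnzp : ∀ i, ∀ c ∈ D i, nz (c + p i) = nz c + 1 + l i ⬝ᵥ c := by
    intro i c hc
    obtain ⟨α, β, rfl⟩ := hspan i c hc
    have e : α • p i + β • r i + p i = (α + 1) • p i + β • r i := by module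
    rw [e, hnz, hnz, dotProduct_add, dotProduct_smul, dotProduct_smul, hlp, hl2]
    simp only [smul_eq_mul, mul_zero, mul_one, zero_add]
    ring
  obtain ⟨i₀, i₁, i₂, h01, h02, h12⟩ : ∃ i₀ i₁ i₂ : Fin t, i₀ ≠ i₁ ∧ i₀ ≠ i₂ ∧ i₁ ≠ i₂ :=
    ⟨⟨0, by omega⟩, ⟨1, by omega⟩, ⟨2, by omega⟩, by simp [Fin.ext_iff], by simp [Fin.ext_iff], by simp [Fin.ext_iff]⟩
  obtain ⟨x, hx⟩ : ∃ x, x = p i₀ + p i₁ + p i₂ := ⟨_, rfl⟩
  obtain ⟨φ, hφ⟩ : ∃ φ, φ = l i₀ + l i₁ + l i₂ := ⟨_, rfl⟩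
  have hφx : φ ⬝ᵥ x = 0 := by
    rw [hφ, hx]
    simp only [add_dotProduct, dotProduct_add, hlp, hlw i₀ _ (mem_Wc_of_ne h01.symm (hp i₁)), hlw i₀ _ (mem_Wc_of_ne h02.symm (hp i₂)),
      hlw i₁ _ (mem_Wc_of_ne h01 (hp i₀)), hlw i₁ _ (mem_Wc_of_ne h12.symm (hp i₂)), hlw i₂ _ (mem_Wc_of_ne h02 (hp i₀)), hlw i₂ _ (mem_Wc_of_ne h12 (hp i₁)), add_zero]
  have hGΦ : tv x φ hφx ∈ Cfsg.isometryGroup F (Phi D) := by
    rw [OmegaCore.mem_iso_iff]
    intro v
    rw [tv_mulVec]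
    by_cases hs : φ ⬝ᵥ v = 0
    · rw [hs, zero_smul, add_zero]
    rw [hF2 _ hs, one_smul]
    obtain ⟨c, hc, rfl⟩ := exists_family' hD v
    have hcoord : ∀ k, l k ⬝ᵥ (∑ j, c j) = l k ⬝ᵥ c k := by
      intro k
      rw [dotProduct_sum, Finset.sum_eq_single k]
      · intro j _ hj
        exact hlw k _ (mem_Wc_of_ne hj (hc j))
      · simp
    have hs1 : l i₀ ⬝ᵥ c i₀ + l i₁ ⬝ᵥ c i₁ + l i₂ ⬝ᵥ c i₂ = 1 := by
      have := hF2 _ hs
      rw [hφ, add_dotProduct, add_dotProduct, hcoord, hcoord, hcoord] at this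
      exact this
    obtain ⟨e, he⟩ : ∃ e : Fin t → ι → F, e = fun j => if j = i₀ then p i₀ else if j = i₁ then p i₁ else if j = i₂ then p i₂ else 0 := ⟨_, rfl⟩
    have he0 : e i₀ = p i₀ := by rw [he]; simp
    have he1 : e i₁ = p i₁ := by rw [he]; simp [h01.symm]
    have he2 : e i₂ = p i₂ := by rw [he]; simp [h02.symm, h12.symm]
    have heo : ∀ j, j ≠ i₀ → j ≠ i₁ → j ≠ i₂ → e j = 0 := by
      intro j a1 a2 a3
      rw [he]
      simp [a1, a2, a3]
    have hem : ∀ j, e j ∈ D j := by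
      intro j
      by_cases a1 : j = i₀
      · subst a1; rw [he0]; exact hp _
      by_cases a2 : j = i₁
      · subst a2; rw [he1]; exact hp _
      by_cases a3 : j = i₂
      · subst a3; rw [he2]; exact hp _
      rw [heo j a1 a2 a3]
      exact Submodule.zero_mem _
    have hsum : x = ∑ j, e j := by
      rw [← Finset.sum_subset (Finset.subset_univ ({i₀, i₁, i₂} : Finset (Fin t))) (fun j _ hj => by
        simp only [Finset.mem_insert, Finset.mem_singleton, not_or] at hj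
        exact heo j hj.1 hj.2.1 hj.2.2)]
      rw [Finset.sum_insert (by simp [h01, h02]), Finset.sum_insert (by simp [h12]), Finset.sum_singleton, he0, he1, he2, hx, add_assoc]
    rw [hsum, ← Finset.sum_add_distrib, Phi_sum hD (c := fun j => c j + e j) (fun j => (D j).add_mem (hc j) (hem j)), Phi_sum hD hc,
      ← sub_eq_zero, ← Finset.sum_sub_distrib]
    rw [← Finset.sum_subset (Finset.subset_univ ({i₀, i₁, i₂} : Finset (Fin t))) (fun j _ hj => by
        simp only [Finset.mem_insert, Finset.mem_singleton, not_or] at hj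
        rw [heo j hj.1 hj.2.1 hj.2.2, add_zero, sub_self])]
    rw [Finset.sum_insert (by simp [h01, h02]), Finset.sum_insert (by simp [h12]), Finset.sum_singleton, he0, he1, he2,
      hnzp _ _ (hc _), hnzp _ _ (hc _), hnzp _ _ (hc _)]
    linear_combination hs1 + 2 * htwo
  refine ⟨Cfsg.isometryGroup F (Phi D) ⊓ specialLinear ι F, lt_of_le_of_ne ?_ ?_, lt_of_le_of_ne inf_le_right ?_⟩
  · rintro g ⟨hg1, hg2⟩
    exact ⟨(OmegaCore.mem_iso_iff g).mpr (Phi_stab hg1), hg2⟩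
  · intro heq
    have h3 : tv x φ hφx ∈ Cfsg.isometryGroup F (Phi D) ⊓ specialLinear ι F := ⟨hGΦ, tv_mem_specialLinear _ _ _⟩
    rw [← heq] at h3
    obtain ⟨σ, hσ⟩ := h3.1
    have hmem : r i₀ + x ∈ D (σ i₀) := by
      rw [← hσ i₀]
      refine ⟨r i₀, hr i₀, ?_⟩
      rw [Matrix.toLin'_apply, tv_mulVec, hφ]
      simp only [add_dotProduct, hl2, hlw i₁ _ (mem_Wc_of_ne h01 (hr i₀)), hlw i₂ _ (mem_Wc_of_ne h02 (hr i₀)), add_zero, one_smul]
    by_cases hj : σ i₀ = i₁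
    · refine not_mem_Wc hD (hp i₂) (hp0 i₂) ?_
      have e : p i₂ = r i₀ + x - (r i₀ + p i₀ + p i₁) := by
        rw [hx]
        abel
      rw [e]
      refine Submodule.sub_mem _ (mem_Wc_of_ne (by rw [hj]; exact h12) hmem) ?_
      exact Submodule.add_mem _ (Submodule.add_mem _ (mem_Wc_of_ne h02 (hr _)) (mem_Wc_of_ne h02 (hp _))) (mem_Wc_of_ne h12 (hp _))
    · refine not_mem_Wc hD (hp i₁) (hp0 i₁) ?_
      have e : p i₁ = r i₀ + x - (r i₀ + p i₀ + p i₂) := by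
        rw [hx]
        abel
      rw [e]
      refine Submodule.sub_mem _ (mem_Wc_of_ne hj hmem) ?_
      exact Submodule.add_mem _ (Submodule.add_mem _ (mem_Wc_of_ne h01 (hr _)) (mem_Wc_of_ne h01 (hp _))) (mem_Wc_of_ne h12.symm (hp _))
  · intro heq
    refine sl_not_le_of_count hD (by omega) ?_
    rw [← heq]
    exact inf_le_left

end Small

end Cfsg.Agent.Lib.ClassMax.PhiCount
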