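import Mathlib
import Cfsg.Agent.Lib.ClassMax.Asch14
import Cfsg.Agent.Lib.ClassMax.MonoSmall
import Cfsg.Agent.Lib.Classical.PSL

/-!
The special linear group is contained in no member of the geometric classes.
-/

set_option autoImplicit false
set_option linter.unusedSimpArgs false
set_option linter.unusedVariables false
set_option linter.unusedSectionVars false
set_option linter.unusedFintypeInType false
set_option linter.unusedDecidableInType false

namespace Cfsg.Agent.Lib.ClassMax.Asch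

open Module Matrix Cfsg.Geo Cfsg.Agent.Lib.ClassMax
open scoped commutatorElement

variable {F : Type*} [Field F] [Fintype F] {n : ℕ}

local notation "MM" => Matrix (Fin n) (Fin n) F

theorem eq_inf_of_le {H M : Subgroup (GL (Fin n) F)} (hH : IsMaximalIn (specialLinear (Fin n) F) H) (hle : H ≤ M)
    (hnot : ¬ specialLinear (Fin n) F ≤ M) : H = M ⊓ specialLinear (Fin n) F := by
  rcases hH.2 (M ⊓ specialLinear (Fin n) F) (le_inf hle hH.1.le) inf_le_right with h | h
  · exact h.symm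
  · exact absurd (by rw [← h]; exact inf_le_left) hnot

theorem sl_not_le_stab {W : Submodule F (Fin n → F)} (h0 : W ≠ ⊥) (h1 : W ≠ ⊤) : ¬ specialLinear (Fin n) F ≤ subspaceStabilizer W := by
  intro hle
  exact (isMaximalIn_subspaceStabilizer_specialLinear W h0 h1).1.ne (inf_eq_right.2 hle)

theorem sl_not_le_dec {t m : ℕ} {D : Fin t → Submodule F (Fin n → F)} (hD : IsMDecomposition m D) :
    ¬ specialLinear (Fin n) F ≤ decompositionStabilizer D := by
  intro hle
  apply PhiCount.sl_not_le_of_count hD hD.two_le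
  intro g hg
  rw [OmegaCore.mem_iso_iff]
  exact PhiCount.Phi_stab (hle hg)

theorem single_dot_single {i j : Fin n} (hij : i ≠ j) : (Pi.single j (1 : F) : Fin n → F) ⬝ᵥ (Pi.single i 1 : Fin n → F) = 0 := by
  simp [hij]

theorem tvMat_single (i j : Fin n) : tvMat (Pi.single i (1 : F) : Fin n → F) (Pi.single j 1) = 1 + Matrix.single i j (1 : F) := by
  unfold tvMat
  congr 1
  ext a b
  simp only [vecMulVec_apply, Matrix.single_apply, Pi.single_apply]
  by_cases h : a = i
  · subst h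
    by_cases h' : b = j
    · subst h'
      simp
    · simp [h', Ne.symm h']
  · simp [h, Ne.symm h]

theorem scalar_of_comm_tv {Y : MM} (h : ∀ (i j : Fin n) (hij : i ≠ j), tvMat (Pi.single i (1 : F) : Fin n → F) (Pi.single j 1) * Y = Y * tvMat (Pi.single i (1 : F) : Fin n → F) (Pi.single j 1)) :
    ∃ c : F, Y = c • 1 := by
  obtain ⟨c, hc⟩ := Matrix.mem_range_scalar_of_commute_single (M := Y) (fun i j hij => by
    have h1 := h i j hij
    rw [tvMat_single, add_mul, mul_add, one_mul, mul_one] at h1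
    exact add_left_cancel h1)
  refine ⟨c, ?_⟩
  rw [← hc]
  ext i j
  simp [Matrix.scalar_apply, Matrix.smul_apply, Matrix.one_apply, Matrix.diagonal_apply]

theorem exists_ker_two (hn3 : 3 ≤ n) (φ ψ : Fin n → F) : ∃ v : Fin n → F, v ≠ 0 ∧ φ ⬝ᵥ v = 0 ∧ ψ ⬝ᵥ v = 0 := by
  let L : (Fin n → F) →ₗ[F] (Fin 2 → F) :=
    { toFun := fun v => ![φ ⬝ᵥ v, ψ ⬝ᵥ v]
      map_add' := by
        intro x y
        ext i
        fin_cases i <;> simp [dotProduct_add]
      map_smul' := by
        intro c x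
        ext i
        fin_cases i <;> simp [dotProduct_smul] }
  have hk : LinearMap.ker L ≠ ⊥ := by
    apply LinearMap.ker_ne_bot_of_finrank_lt
    simp
    omega
  obtain ⟨v, hv, hv0⟩ := Submodule.exists_mem_ne_zero_of_ne_bot hk
  have h1 : L v = 0 := hv
  exact ⟨v, hv0, congrFun h1 0, congrFun h1 1⟩

theorem sl_not_le_fld (hn3 : 3 ≤ n) {r : ℕ} (hr : 2 ≤ r) {K : Subalgebra F MM} (hK : IsFieldSubalgebra r K) :
    ¬ specialLinear (Fin n) F ≤ subalgebraNormalizer K := by
  intro hle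
  have hcomm : ∀ x ∈ K, ∀ (w φ : Fin n → F) (h : φ ⬝ᵥ w = 0), tvMat w φ * x = x * tvMat w φ := by
    intro x hx w φ h
    let t : GL (Fin n) F := tv w φ h
    have ht : (t : MM) = tvMat w φ := rfl
    have hts : t ∈ specialLinear (Fin n) F := tv_mem_specialLinear _ _ _
    have h1 : (t : MM) * x * ((t⁻¹ : GL (Fin n) F) : MM) ∈ K := ((hle hts) x).1 hx
    let y : MM := (t : MM) * x * ((t⁻¹ : GL (Fin n) F) : MM) - x
    have hy : y ∈ K := K.sub_mem h1 hx
    by_cases hy0 : y = 0
    · have h2 : (t : MM) * x * ((t⁻¹ : GL (Fin n) F) : MM) = x := sub_eq_zero.1 hy0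
      rw [← ht]
      calc (t : MM) * x = (t : MM) * x * (((t⁻¹ : GL (Fin n) F) : MM) * (t : MM)) := by
            rw [← Units.val_mul, inv_mul_cancel, Units.val_one, mul_one]
        _ = ((t : MM) * x * ((t⁻¹ : GL (Fin n) F) : MM)) * t := by simp only [mul_assoc]
        _ = x * t := by rw [h2]
    · exfalso
      obtain ⟨z, hz, hyz⟩ := hK.inv y hy hy0
      obtain ⟨v, hv0, hv1, hv2⟩ := exists_ker_two hn3 φ (φ ᵥ* x)
      have hv2' : φ ⬝ᵥ (x *ᵥ v) = 0 := by rw [Matrix.dotProduct_mulVec]; exact hv2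
      have hyv : y *ᵥ v = 0 := by
        have h3 : ((t⁻¹ : GL (Fin n) F) : MM) *ᵥ v = v := by
          rw [tv_inv_mulVec, hv1, zero_smul, sub_zero]
        have h4 : (t : MM) *ᵥ (x *ᵥ v) = x *ᵥ v := by
          rw [tv_mulVec, hv2', zero_smul, add_zero]
        simp only [y]
        rw [Matrix.sub_mulVec, ← Matrix.mulVec_mulVec, ← Matrix.mulVec_mulVec, h3, h4, sub_self]
      have hzy : z * y = 1 := mul_eq_one_comm.1 hyz
      apply hv0
      rw [← Matrix.one_mulVec v, ← hzy, ← Matrix.mulVec_mulVec, hyv, Matrix.mulVec_zero]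
  have hsc : ∀ x ∈ K, ∃ c : F, x = c • 1 := fun x hx =>
    scalar_of_comm_tv (fun i j hij => hcomm x hx _ _ (single_dot_single hij))
  have h1 : finrank F K ≤ 1 := by
    apply finrank_le_one (⟨1, K.one_mem⟩ : K)
    intro w
    obtain ⟨c, hc⟩ := hsc w w.2
    refine ⟨c, Subtype.ext ?_⟩
    exact hc.symm
  rw [hK.finrank_eq] at h1
  omega

theorem conj_mem_sl (P T : GL (Fin n) F) (hT : T ∈ specialLinear (Fin n) F) : P * T * P⁻¹ ∈ specialLinear (Fin n) F := by
  have hn : (specialLinear (Fin n) F).Normal := MonoidHom.normal_ker _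
  exact hn.conj_mem T hT P

theorem sl_not_le_tp {n₁ n₂ : ℕ} (h1 : 2 ≤ n₁) (h2 : 2 ≤ n₂) (e : Fin n ≃ Fin n₁ × Fin n₂) (P : GL (Fin n) F) :
    ¬ specialLinear (Fin n) F ≤ tensorProductSubgroup n₁ n₂ e P := by
  intro hle
  let a0 : Fin n₁ := ⟨0, by omega⟩
  let a1 : Fin n₁ := ⟨1, by omega⟩
  let b0 : Fin n₂ := ⟨0, by omega⟩
  let b1 : Fin n₂ := ⟨1, by omega⟩
  have hb : b0 ≠ b1 := by simp [b0, b1, Fin.ext_iff]
  have ha : a0 ≠ a1 := by simp [a0, a1, Fin.ext_iff]
  have hij : e.symm (a0, b0) ≠ e.symm (a0, b1) := by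
    intro h
    have := e.symm.injective h
    simp only [Prod.mk.injEq, true_and] at this
    exact hb this
  let T : GL (Fin n) F := tv (Pi.single (e.symm (a0, b0)) 1) (Pi.single (e.symm (a0, b1)) 1) (single_dot_single hij)
  have hTv : (T : MM) = 1 + Matrix.single (e.symm (a0, b0)) (e.symm (a0, b1)) (1 : F) := tvMat_single _ _
  have hT : P * T * P⁻¹ ∈ specialLinear (Fin n) F := conj_mem_sl P T (tv_mem_specialLinear _ _ _)
  obtain ⟨y, ⟨g, ⟨x, y', hxy⟩, rfl⟩, hy⟩ := hle hT
  have hy1 : P * (glReindex e.symm g) * P⁻¹ = P * T * P⁻¹ := hy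
  have hy2 : glReindex e.symm g = T := by
    simpa using hy1
  have hent : ∀ u v : Fin n₁ × Fin n₂, (x : Matrix _ _ F) u.1 v.1 * (y' : Matrix _ _ F) u.2 v.2 = (T : MM) (e.symm u) (e.symm v) := by
    intro u v
    rw [← hy2]
    have h3 : ((glReindex e.symm g : GL (Fin n) F) : MM) (e.symm u) (e.symm v) = (g : Matrix (Fin n₁ × Fin n₂) (Fin n₁ × Fin n₂) F) u v := by
      show Matrix.reindexAlgEquiv F F e.symm (g : Matrix (Fin n₁ × Fin n₂) (Fin n₁ × Fin n₂) F) (e.symm u) (e.symm v) = _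
      simp [Matrix.reindexAlgEquiv_apply]
    rw [h3, hxy]
    rfl
  have e1 := hent (a1, b0) (a1, b0)
  have e2 := hent (a1, b0) (a1, b1)
  have e3 := hent (a0, b0) (a0, b1)
  simp only [hTv, Matrix.add_apply, Matrix.one_apply, Matrix.single_apply, EmbeddingLike.apply_eq_iff_eq, Prod.mk.injEq] at e1 e2 e3
  simp only [true_and, and_true, true_and, ha.symm, hb, hb.symm, false_and, and_false, if_true, if_false, add_zero, zero_add, and_self] at e1 e2 e3
  have h5 : (x : Matrix _ _ F) a1 a1 ≠ 0 := fun h => by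
    rw [h, zero_mul] at e1
    exact zero_ne_one e1
  have h6 : (y' : Matrix _ _ F) b0 b1 = 0 := (mul_eq_zero.1 e2).resolve_left h5
  rw [h6, mul_zero] at e3
  exact zero_ne_one e3

theorem sl_not_le_sbf {F₀ : Subfield F} (hF₀ : F₀ ≠ ⊤) (hn : 2 ≤ n) (P : GL (Fin n) F) : ¬ specialLinear (Fin n) F ≤ subfieldSubgroup F₀ P := by
  intro hle
  obtain ⟨a, ha⟩ : ∃ a, a ∉ F₀ := by
    by_contra hcon
    push Not at hcon
    exact hF₀ (eq_top_iff.2 fun x _ => hcon x)
  let i : Fin n := ⟨0, by omega⟩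
  let j : Fin n := ⟨1, by omega⟩
  have hij : i ≠ j := by simp [i, j, Fin.ext_iff]
  have hd : (a • (Pi.single j 1 : Fin n → F)) ⬝ᵥ (Pi.single i (1 : F) : Fin n → F) = 0 := by
    rw [smul_dotProduct, single_dot_single hij, smul_zero]
  let T : GL (Fin n) F := tv (Pi.single i 1) (a • (Pi.single j 1)) hd
  have hTe : ∀ u v, (T : MM) u v = (1 : MM) u v + (Pi.single i (1 : F) : Fin n → F) u * (a • (Pi.single j (1 : F) : Fin n → F)) v := by
    intro u v
    show tvMat _ _ u v = _
    simp [tvMat, vecMulVec_apply]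
    ring
  have hT : P * T * P⁻¹ ∈ specialLinear (Fin n) F := conj_mem_sl P T (tv_mem_specialLinear _ _ _)
  obtain ⟨g, hg, hgt⟩ := hle hT
  have hg' : g ∈ SubfieldCore.ratScal F₀ (Fin n) := by
    rw [← SubfieldCore.sup_eq_ratScal]
    exact hg
  have h1 : P * g * P⁻¹ = P * T * P⁻¹ := hgt
  have h2 : g = T := by simpa using h1
  rw [h2] at hg'
  obtain ⟨c, hc, hr⟩ := SubfieldCore.mem_ratScal.1 hg'
  have e1 := hr i i
  have e2 := hr i j
  rw [Matrix.smul_apply, hTe] at e1 e2
  simp [hij, hij.symm] at e1 e2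
  have h3 : a = c⁻¹ * (c * a) := by field_simp
  rw [h3] at ha
  exact ha (F₀.mul_mem (F₀.inv_mem e1) e2)

/-- A bi-additive form with left linearity is not preserved up to scalars by the special linear group. -/
theorem sl_not_le_sim_aux (hn3 : 3 ≤ n) {f : (Fin n → F) → (Fin n → F) → F}
    (hal : ∀ x y v, f (x + y) v = f x v + f y v) (hsl : ∀ (c : F) (x v : Fin n → F), f (c • x) v = c * f x v)
    (har : ∀ v x y, f v (x + y) = f v x + f v y) (h0 : ∀ u v, f v u = 0 → f u v = 0)
    (hnd : ∀ u, u ≠ 0 → ∃ w, f u w ≠ 0) : ¬ specialLinear (Fin n) F ≤ similarityGroup f := by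
  classical
  intro hle
  let i0 : Fin n := ⟨0, by omega⟩
  let u : Fin n → F := Pi.single i0 1
  have hu : u ≠ 0 := by
    intro h
    have := congrFun h i0
    simp [u] at this
  let ψ : (Fin n → F) →ₗ[F] F :=
    { toFun := fun v => f v u
      map_add' := fun x y => hal x y u
      map_smul' := fun c x => hsl c x u }
  -- a vector orthogonal to u, off the line of u
  have hdim : 2 ≤ finrank F (LinearMap.ker ψ) := by
    have h1 := LinearMap.finrank_range_add_finrank_ker ψ
    have h2 : finrank F (LinearMap.range ψ) ≤ 1 := by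
      have := Submodule.finrank_le (LinearMap.range ψ)
      simpa using this
    simp only [Module.finrank_fin_fun] at h1
    omega
  obtain ⟨v, hv, hvu⟩ : ∃ v ∈ LinearMap.ker ψ, v ∉ Submodule.span F {u} := by
    by_contra hcon
    push Not at hcon
    have h1 : LinearMap.ker ψ ≤ Submodule.span F {u} := hcon
    have h2 := Submodule.finrank_mono h1
    have h3 := finrank_span_singleton (K := F) hu
    omega
  have hvf : f v u = 0 := hv
  have huv : f u v = 0 := h0 u v hvf
  obtain ⟨w₀, hw₀⟩ := hnd u hu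
  obtain ⟨w, hw, hvw⟩ : ∃ w, f u w ≠ 0 ∧ v ∉ Submodule.span F {u, w} := by
    by_cases huu : f u u = 0
    · refine ⟨w₀, hw₀, ?_⟩
      intro hmem
      obtain ⟨a, b, hab⟩ := Submodule.mem_span_pair.1 hmem
      have hw₁ : f w₀ u ≠ 0 := fun h => hw₀ (h0 u w₀ h)
      have h1 : f v u = a * f u u + b * f w₀ u := by
        rw [← hab, hal, hsl, hsl]
      rw [hvf, huu, mul_zero, zero_add] at h1
      have hb : b = 0 := (mul_eq_zero.1 h1.symm).resolve_right hw₁
      apply hvu
      rw [← hab, hb, zero_smul, add_zero]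
      exact Submodule.smul_mem _ _ (Submodule.mem_span_singleton_self u)
    · refine ⟨u, huu, ?_⟩
      simpa using hvu
  obtain ⟨φ, hφ1, hφ2⟩ := exists_dotProduct_of_notMem hvw
  have hφu : φ ⬝ᵥ u = 0 := hφ1 u (Submodule.subset_span (by simp))
  have hφw : φ ⬝ᵥ w = 0 := hφ1 w (Submodule.subset_span (by simp))
  have ht := hle (tv_mem_specialLinear w φ hφw)
  obtain ⟨c, hc⟩ := ht
  have h1 := hc u v
  rw [tv_mulVec, tv_mulVec, hφu, hφ2, zero_smul, add_zero, one_smul, huv, mul_zero, har, huv, zero_add] at h1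
  exact hw h1

theorem sl_not_le_symp (hn3 : 3 ≤ n) {f : (Fin n → F) → (Fin n → F) → F} (hf : IsSymplecticForm f) :
    ¬ specialLinear (Fin n) F ≤ similarityGroup f := by
  apply sl_not_le_sim_aux hn3 hf.bilinear.add_left hf.bilinear.smul_left hf.bilinear.add_right
  · intro u v h
    rw [hf.skew, h, neg_zero]
  · intro u hu
    exact (hf.nondegenerate u hu).2

theorem sl_not_le_unit (hn3 : 3 ≤ n) {σ : F ≃+* F} {f : (Fin n → F) → (Fin n → F) → F} (hf : IsUnitaryForm σ f) :
    ¬ specialLinear (Fin n) F ≤ similarityGroup f := by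
  apply sl_not_le_sim_aux hn3 hf.add_left hf.smul_left
  · intro v x y
    rw [hf.herm v (x + y), hf.add_left, map_add, ← hf.herm, ← hf.herm]
  · intro u v h
    rw [hf.herm, h, map_zero]
  · intro u hu
    exact (hf.nondegenerate u hu).2

theorem sl_not_le_quad (hn3 : 3 ≤ n) {Q : (Fin n → F) → F} (hQ : IsNondegenerateQuadraticForm Q) :
    ¬ specialLinear (Fin n) F ≤ quadSimilarityGroup Q := by
  intro hle
  refine sl_not_le_sim_aux hn3 (f := QuadraticMap.polar Q) hQ.polar_bilinear.add_left hQ.polar_bilinear.smul_left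
    hQ.polar_bilinear.add_right ?_ ?_ ?_
  · intro u v h
    rw [QuadraticMap.polar_comm, h]
  · intro u hu
    exact (hQ.nondegenerate u hu).2
  · intro g hg
    obtain ⟨c, hc⟩ := hle hg
    refine ⟨c, fun u v => ?_⟩
    simp only [QuadraticMap.polar]
    rw [← Matrix.mulVec_add, hc, hc, hc]
    ring

end Cfsg.Agent.Lib.ClassMax.Asch
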