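import Mathlib
import Cfsg.Agent.Lib.ClassMax.Asch15

/-!
The special linear group normalises no non-scalar `r`-group (`r` not the characteristic) and lies in no stabiliser of
a tensor decomposition into equal factors.
-/

set_option autoImplicit false
set_option linter.unusedSimpArgs false
set_option linter.unusedVariables false
set_option linter.unusedSectionVars false
set_option linter.unusedFintypeInType false
set_option linter.unusedDecidableInType false

namespace Cfsg.Agent.Lib.ClassMax.Asch

open Module Matrix Cfsg.Geo Cfsg.Agent.Lib.ClassMax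
open scoped commutatorElement

variable {F : Type*} [Field F] [Fintype F] {n : ℕ}

local notation "MM" => Matrix (Fin n) (Fin n) F

theorem one_add_pow' (E : MM) (hE : E * E = 0) (N : ℕ) : (1 + E) ^ N = 1 + (N : F) • E := by
  induction N with
  | zero => simp
  | succ k ih =>
    rw [pow_succ, ih, add_mul, one_mul, mul_add, mul_one, Matrix.smul_mul, hE, smul_zero, add_zero]
    push_cast
    rw [add_smul, one_smul]
    abel

/-- The special linear group normalises no non-scalar `r`-group. -/
theorem sl_not_le_normalizer (hn3 : 3 ≤ n) {R : Subgroup (GL (Fin n) F)} {r : ℕ} (hr : r.Prime) (hR : IsPGroup r R) (hrF : (r : F) ≠ 0)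
    (hns : ¬ R ≤ scalars (Fin n) F) : ¬ specialLinear (Fin n) F ≤ subgroupNormalizer R := by
  classical
  intro hle
  haveI : Fact r.Prime := ⟨hr⟩
  have hn0 : 0 < n := by omega
  haveI : Nonempty (Fin n) := ⟨⟨0, hn0⟩⟩
  haveI hsimple : IsSimpleGroup (Matrix.ProjectiveSpecialLinearGroup (Fin n) F) :=
    Classical.psl_isSimpleGroup_of_three_le (by simpa using hn3)
  have hnor : ∀ g : GL (Fin n) F, g ∈ specialLinear (Fin n) F → ∀ x, x ∈ R ↔ g * x * g⁻¹ ∈ R :=
    fun g hg x => Subgroup.mem_normalizer_iff.1 (hle hg) x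
  have hnormal : (specialLinear (Fin n) F).Normal := MonoidHom.normal_ker _
  have htoGL : ∀ s : Matrix.SpecialLinearGroup (Fin n) F, Matrix.SpecialLinearGroup.toGL s ∈ specialLinear (Fin n) F := by
    intro s
    show Matrix.GeneralLinearGroup.det _ = 1
    apply Units.ext
    simp only [Matrix.GeneralLinearGroup.val_det_apply, Units.val_one]
    exact s.2
  let R₁ : Subgroup (Matrix.SpecialLinearGroup (Fin n) F) := R.comap Matrix.SpecialLinearGroup.toGL
  have hR₁ : R₁.Normal := ⟨fun x hx g => by
    show Matrix.SpecialLinearGroup.toGL (g * x * g⁻¹) ∈ R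
    rw [map_mul, map_mul, map_inv]
    exact (hnor _ (htoGL g) _).1 hx⟩
  let π := QuotientGroup.mk' (Subgroup.center (Matrix.SpecialLinearGroup (Fin n) F))
  have hπn : (R₁.map π).Normal := hR₁.map π (QuotientGroup.mk'_surjective _)
  let i : Fin n := ⟨0, by omega⟩
  let j : Fin n := ⟨1, by omega⟩
  have hij : i ≠ j := by simp [i, j, Fin.ext_iff]
  rcases hsimple.eq_bot_or_eq_top_of_normal _ hπn with hb | ht
  · -- the intersection is central
    obtain ⟨x₀, hx₀, hx₀s⟩ := SetLike.not_le_iff_exists.1 hns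
    have key : ∀ (i j : Fin n) (hij : i ≠ j), tvMat (Pi.single i (1 : F) : Fin n → F) (Pi.single j 1) * x₀ = x₀ * tvMat (Pi.single i (1 : F) : Fin n → F) (Pi.single j 1) := by
      intro i j hij
      let T : GL (Fin n) F := tv (Pi.single i 1) (Pi.single j 1) (single_dot_single hij)
      have hTs : T ∈ specialLinear (Fin n) F := tv_mem_specialLinear _ _ _
      have hTv : (T : MM) = 1 + Matrix.single i j (1 : F) := tvMat_single _ _
      set E : MM := Matrix.single i j (1 : F) with hE
      have hEE : E * E = 0 := by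
        rw [hE, Matrix.single_mul_single_of_ne _ _ _ _ hij.symm]
      let c : GL (Fin n) F := x₀ * T * x₀⁻¹ * T⁻¹
      have hcR : c ∈ R := by
        have h1 : c = x₀ * (T * x₀⁻¹ * T⁻¹) := by
          simp only [c]
          group
        rw [h1]
        exact R.mul_mem hx₀ ((hnor T hTs _).1 (R.inv_mem hx₀))
      have hcS : c ∈ specialLinear (Fin n) F :=
        (specialLinear (Fin n) F).mul_mem (hnormal.conj_mem T hTs x₀) ((specialLinear (Fin n) F).inv_mem hTs)
      have hdet : (c : MM).det = 1 := by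
        have h1 : Matrix.GeneralLinearGroup.det c = 1 := hcS
        have h2 := congrArg Units.val h1
        simpa using h2
      let s' : Matrix.SpecialLinearGroup (Fin n) F := ⟨(c : MM), hdet⟩
      have hs'R : s' ∈ R₁ := by
        show Matrix.SpecialLinearGroup.toGL s' ∈ R
        have h1 : Matrix.SpecialLinearGroup.toGL s' = c := Units.ext rfl
        rw [h1]
        exact hcR
      have hs'c : s' ∈ Subgroup.center (Matrix.SpecialLinearGroup (Fin n) F) := by
        have h1 : π s' ∈ R₁.map π := ⟨s', hs'R, rfl⟩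
        rw [hb, Subgroup.mem_bot] at h1
        exact (QuotientGroup.eq_one_iff _).1 h1
      obtain ⟨a, -, ha⟩ := Matrix.SpecialLinearGroup.mem_center_iff.1 hs'c
      have hca : (c : MM) = a • 1 := by
        have h1 : (c : MM) = (s' : MM) := rfl
        rw [h1, ← ha]
        ext u v
        simp [Matrix.scalar_apply, Matrix.smul_apply, Matrix.one_apply, Matrix.diagonal_apply]
      -- conjugate of T
      have hconj : (x₀ : MM) * (T : MM) * ((x₀⁻¹ : GL (Fin n) F) : MM) = a • (T : MM) := by
        have h1 : x₀ * T * x₀⁻¹ = c * T := by simp [c]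
        have h2 := congrArg (fun g : GL (Fin n) F => (g : MM)) h1
        simp only [Units.val_mul] at h2
        rw [h2, hca, Matrix.smul_mul, one_mul]
      have hsq : ((x₀ : MM) * (T : MM) * ((x₀⁻¹ : GL (Fin n) F) : MM) - 1) * ((x₀ : MM) * (T : MM) * ((x₀⁻¹ : GL (Fin n) F) : MM) - 1) = 0 := by
        have h1 : (x₀ : MM) * (T : MM) * ((x₀⁻¹ : GL (Fin n) F) : MM) - 1 = (x₀ : MM) * E * ((x₀⁻¹ : GL (Fin n) F) : MM) := by
          rw [hTv, mul_add, add_mul, mul_one, ← Units.val_mul, mul_inv_cancel, Units.val_one, add_sub_cancel_left]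
        rw [h1]
        calc (x₀ : MM) * E * ((x₀⁻¹ : GL (Fin n) F) : MM) * ((x₀ : MM) * E * ((x₀⁻¹ : GL (Fin n) F) : MM))
            = (x₀ : MM) * E * (((x₀⁻¹ : GL (Fin n) F) : MM) * (x₀ : MM)) * E * ((x₀⁻¹ : GL (Fin n) F) : MM) := by simp only [mul_assoc]
          _ = (x₀ : MM) * (E * E) * ((x₀⁻¹ : GL (Fin n) F) : MM) := by
              rw [← Units.val_mul, inv_mul_cancel, Units.val_one, mul_one]
              simp only [mul_assoc]
          _ = 0 := by rw [hEE, mul_zero, zero_mul]
      rw [hconj, hTv] at hsq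
      have ha1 : a = 1 := by
        have h1 : a • ((1 : MM) + E) - 1 = (a - 1) • (1 : MM) + a • E := by
          rw [smul_add, sub_smul, one_smul]
          abel
        have h3 : ((a - 1) • (1 : MM) + a • E) * ((a - 1) • (1 : MM) + a • E) = ((a - 1) * (a - 1)) • (1 : MM) + (2 * a * (a - 1)) • E := by
          simp only [add_mul, mul_add, Matrix.smul_mul, Matrix.mul_smul, one_mul, mul_one, hEE, smul_zero, add_zero, smul_smul]
          module
        rw [h1, h3] at hsq
        have h2 := congrFun (congrFun hsq i) i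
        have hEi : E i i = 0 := by
          rw [hE, Matrix.single_apply]
          simp [hij.symm]
        simp [Matrix.add_apply, Matrix.smul_apply, hEi] at h2
        exact sub_eq_zero.1 h2
      rw [ha1, one_smul] at hconj
      show _ = _
      have hTT : tvMat (Pi.single i (1 : F) : Fin n → F) (Pi.single j 1) = (T : MM) := rfl
      rw [hTT]
      calc (T : MM) * x₀ = ((x₀ : MM) * (T : MM) * ((x₀⁻¹ : GL (Fin n) F) : MM)) * x₀ := by rw [hconj]
        _ = (x₀ : MM) * (T : MM) * (((x₀⁻¹ : GL (Fin n) F) : MM) * x₀) := by simp only [mul_assoc]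
        _ = x₀ * T := by
            have h5 : ((x₀⁻¹ : GL (Fin n) F) : MM) * (x₀ : MM) = 1 := by
              rw [← Units.val_mul, inv_mul_cancel]
              rfl
            rw [h5, mul_one]
    obtain ⟨c, hc⟩ := scalar_of_comm_tv key
    exact hx₀s (scal_of_eq hn0 hc)
  · -- the intersection covers the quotient
    let s₀ : Matrix.SpecialLinearGroup (Fin n) F := ⟨tvMat (Pi.single i (1 : F) : Fin n → F) (Pi.single j 1), det_tvMat _ _ (single_dot_single hij)⟩
    have h1 : π s₀ ∈ R₁.map π := by rw [ht]; trivial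
    obtain ⟨y, hy, hyπ⟩ := h1
    let z := y⁻¹ * s₀
    have hzc : z ∈ Subgroup.center (Matrix.SpecialLinearGroup (Fin n) F) := by
      apply (QuotientGroup.eq_one_iff _).1
      show π (y⁻¹ * s₀) = 1
      rw [map_mul, map_inv, hyπ, inv_mul_cancel]
    have hs₀ : s₀ = y * z := by simp [z]
    obtain ⟨a, ha1, ha⟩ := Matrix.SpecialLinearGroup.mem_center_iff.1 hzc
    have ha0 : a ≠ 0 := by
      rintro rfl
      rw [zero_pow (by simpa using hn0.ne')] at ha1
      exact zero_ne_one ha1
    set q := Fintype.card F with hq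
    have hq1 : 1 < q := Fintype.one_lt_card
    have hz1 : z ^ (q - 1) = 1 := by
      apply Subtype.ext
      rw [Matrix.SpecialLinearGroup.coe_pow, ← ha, ← map_pow, FiniteField.pow_card_sub_one_eq_one a ha0, map_one]
      rfl
    have hy1 : y ^ Nat.card R = 1 := by
      apply Matrix.SpecialLinearGroup.toGL_injective
      rw [map_pow, map_one]
      have h2 := pow_card_eq_one' (x := (⟨Matrix.SpecialLinearGroup.toGL y, hy⟩ : R))
      exact congrArg Subtype.val h2
    have hcomm : Commute y z := (Subgroup.mem_center_iff.1 hzc) y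
    have hpow : s₀ ^ (Nat.card R * (q - 1)) = 1 := by
      rw [hs₀, hcomm.mul_pow, pow_mul y, hy1, one_pow, one_mul, mul_comm, pow_mul z, hz1, one_pow]
    have hmat : (s₀ : MM) ^ (Nat.card R * (q - 1)) = 1 := by
      rw [← Matrix.SpecialLinearGroup.coe_pow, hpow]
      rfl
    have hs₀v : (s₀ : MM) = 1 + Matrix.single i j (1 : F) := tvMat_single _ _
    rw [hs₀v, one_add_pow' _ (by rw [Matrix.single_mul_single_of_ne _ _ _ _ hij.symm]), add_eq_left] at hmat
    have h2 := congrFun (congrFun hmat i) j
    rw [Matrix.smul_apply, Matrix.single_apply_same, smul_eq_mul, mul_one] at h2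
    have h3 : ((q - 1 : ℕ) : F) = -1 := by
      rw [Nat.cast_sub hq1.le, Nat.cast_one, hq, Nat.cast_card_eq_zero, zero_sub]
    obtain ⟨k, hk⟩ := IsPGroup.iff_card.1 hR
    rw [hk] at h2
    push_cast at h2
    rw [h3] at h2
    simp [hrF] at h2

section tw

variable {t m : ℕ}

/-- Decomposable tensors. -/
def IsDec (x : (Fin t → Fin m) → F) : Prop := ∃ u : Fin t → Fin m → F, ∀ y, x y = ∏ i, u i (y i)

theorem isDec_pure {g : GL (Fin t → Fin m) F} (hg : IsPureTensor m t g) {x : (Fin t → Fin m) → F} (hx : IsDec x) :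
    IsDec ((g : Matrix (Fin t → Fin m) (Fin t → Fin m) F) *ᵥ x) := by
  classical
  obtain ⟨gs, hgs⟩ := hg
  obtain ⟨u, hu⟩ := hx
  refine ⟨fun i k => ∑ l, (gs i : Matrix (Fin m) (Fin m) F) k l * u i l, fun y => ?_⟩
  rw [Finset.prod_univ_sum]
  simp only [Matrix.mulVec, dotProduct, hgs, hu, Fintype.piFinset_univ]
  refine Finset.sum_congr rfl fun z _ => ?_
  rw [Finset.prod_mul_distrib]

theorem isDec_perm {g : GL (Fin t → Fin m) F} (hg : IsFactorPermutation m t g) {x : (Fin t → Fin m) → F} (hx : IsDec x) :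
    IsDec ((g : Matrix (Fin t → Fin m) (Fin t → Fin m) F) *ᵥ x) := by
  classical
  obtain ⟨σ, hσ⟩ := hg
  obtain ⟨u, hu⟩ := hx
  refine ⟨fun j => u (σ.symm j), fun y => ?_⟩
  simp only [Matrix.mulVec, dotProduct, hσ]
  rw [Finset.sum_eq_single (y ∘ σ)]
  · rw [if_pos rfl, one_mul, hu]
    rw [← Equiv.prod_comp σ (fun j => u (σ.symm j) (y j))]
    simp
  · intro b _ hb
    rw [if_neg hb, zero_mul]
  · simp

theorem isDec_of_mem {g : GL (Fin t → Fin m) F} (hg : g ∈ tensorWreathStandard m t F) :
    ∀ x : (Fin t → Fin m) → F, IsDec x → IsDec ((g : Matrix (Fin t → Fin m) (Fin t → Fin m) F) *ᵥ x) := by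
  classical
  induction hg using Subgroup.closure_induction with
  | mem g hg =>
    rcases hg with hg | hg
    · exact fun x hx => isDec_pure hg hx
    · exact fun x hx => isDec_perm hg hx
  | one => simp
  | mul a b _ _ ha hb =>
    intro x hx
    rw [Units.val_mul, ← Matrix.mulVec_mulVec]
    exact ha _ (hb _ hx)
  | inv a _ ha =>
    have hpow : ∀ k : ℕ, ∀ x : (Fin t → Fin m) → F, IsDec x → IsDec (((a ^ k : GL (Fin t → Fin m) F) : Matrix (Fin t → Fin m) (Fin t → Fin m) F) *ᵥ x) := by
      intro k
      induction k with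
      | zero => simp
      | succ k ih =>
        intro x hx
        rw [pow_succ, Units.val_mul, ← Matrix.mulVec_mulVec]
        exact ih _ (ha _ hx)
    have ho := orderOf_pos a
    have h1 : a ^ (orderOf a - 1) * a = 1 := by
      rw [← pow_succ, Nat.sub_add_cancel ho, pow_orderOf_eq_one]
    have h2 : a⁻¹ = a ^ (orderOf a - 1) := (eq_inv_of_mul_eq_one_left h1).symm
    rw [h2]
    exact hpow _

theorem sl_not_le_tw (hm : 2 ≤ m) (ht : 2 ≤ t) (e : Fin n ≃ (Fin t → Fin m)) (P : GL (Fin n) F) :
    ¬ specialLinear (Fin n) F ≤ tensorWreathSubgroup m t e P := by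
  classical
  intro hle
  let z0 : Fin m := ⟨0, by omega⟩
  let z1 : Fin m := ⟨1, by omega⟩
  have hz : z0 ≠ z1 := by simp [z0, z1, Fin.ext_iff]
  let i0 : Fin t := ⟨0, by omega⟩
  let i1 : Fin t := ⟨1, by omega⟩
  have hi : i1 ≠ i0 := by simp [i0, i1, Fin.ext_iff]
  let a : Fin t → Fin m := fun _ => z0
  let b : Fin t → Fin m := fun _ => z1
  let c : Fin t → Fin m := Function.update a i0 z1
  let d : Fin t → Fin m := Function.update b i0 z0
  have hab : a ≠ b := fun h => hz (congrFun h i0)
  have hca : c ≠ a := fun h => hz.symm (by simpa [c, a] using congrFun h i0)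
  have hcb : c ≠ b := fun h => hz (by simpa [c, a, b, Function.update_of_ne hi] using congrFun h i1)
  have hda : d ≠ a := fun h => hz.symm (by simpa [d, a, b, Function.update_of_ne hi] using congrFun h i1)
  have hdb : d ≠ b := fun h => hz (by simpa [d, b] using congrFun h i0)
  have hij : e.symm a ≠ e.symm b := fun h => hab (e.symm.injective h)
  let T : GL (Fin n) F := tv (Pi.single (e.symm a) 1) (Pi.single (e.symm b) 1) (single_dot_single hij)
  have hTv : (T : MM) = 1 + Matrix.single (e.symm a) (e.symm b) (1 : F) := tvMat_single _ _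
  have hT : P * T * P⁻¹ ∈ specialLinear (Fin n) F := conj_mem_sl P T (tv_mem_specialLinear _ _ _)
  obtain ⟨y, ⟨g, hg, rfl⟩, hy⟩ := hle hT
  have hy1 : P * (glReindex e.symm g) * P⁻¹ = P * T * P⁻¹ := hy
  have hy2 : glReindex e.symm g = T := by
    simpa using hy1
  have hent : ∀ u v : Fin t → Fin m, (g : Matrix (Fin t → Fin m) (Fin t → Fin m) F) u v = (T : MM) (e.symm u) (e.symm v) := by
    intro u v
    rw [← hy2]
    show _ = Matrix.reindexAlgEquiv F F e.symm (g : Matrix (Fin t → Fin m) (Fin t → Fin m) F) (e.symm u) (e.symm v)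
    simp [Matrix.reindexAlgEquiv_apply]
  have hdec : IsDec (Pi.single b (1 : F) : (Fin t → Fin m) → F) := by
    refine ⟨fun i k => if k = b i then 1 else 0, fun y => ?_⟩
    by_cases h : y = b
    · subst h
      simp
    · rw [Pi.single_eq_of_ne h]
      obtain ⟨l, hl⟩ := Function.ne_iff.1 h
      symm
      apply Finset.prod_eq_zero (Finset.mem_univ l)
      simp [hl]
  obtain ⟨u, hu⟩ := isDec_of_mem hg _ hdec
  have hcol : ∀ y, (g : Matrix (Fin t → Fin m) (Fin t → Fin m) F) y b = ∏ i, u i (y i) := by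
    intro y
    rw [← hu y]
    simp
  have h1 : (∏ i, u i (a i)) * (∏ i, u i (b i)) = (∏ i, u i (c i)) * (∏ i, u i (d i)) := by
    rw [← Finset.prod_mul_distrib, ← Finset.prod_mul_distrib]
    refine Finset.prod_congr rfl fun i _ => ?_
    by_cases hi' : i = i0
    · subst hi'
      simp [a, b, c, d, mul_comm]
    · simp [a, b, c, d, Function.update_of_ne hi']
  rw [← hcol a, ← hcol b, ← hcol c, ← hcol d, hent, hent, hent, hent, hTv] at h1
  simp only [Matrix.add_apply, Matrix.one_apply, Matrix.single_apply, EmbeddingLike.apply_eq_iff_eq] at h1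
  simp [hab, hca, hcb, hda, hdb, hca.symm, hcb.symm, hda.symm, hdb.symm] at h1

end tw

end Cfsg.Agent.Lib.ClassMax.Asch
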