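import Mathlib

/-! Linear algebra for eigenspaces of elements normalising extraspecial groups: shifting of eigenspaces
and the eigenspace decomposition of an operator of finite order. -/

set_option autoImplicit false
set_option linter.unusedSectionVars false
set_option linter.unusedVariables false

namespace Cfsg.Agent.Lib.ClassMax.ExtraEig

open Module

section basic

variable {F V : Type*} [Field F] [AddCommGroup V] [Module F V]

/-- Independent subspaces inside a subspace have bounded total dimension. -/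
theorem sum_finrank_le_of_indep {ι : Type*} [Fintype ι] [FiniteDimensional F V] {S : ι → Submodule F V}
    (hS : iSupIndep S) (E : Submodule F V) (hE : ∀ i, S i ≤ E) : ∑ i, finrank F (S i) ≤ finrank F E := by
  classical
  let L : (Π j, S j) →ₗ[F] V := ∑ j, (S j).subtype ∘ₗ LinearMap.proj j
  have hL : ∀ d, L d = ∑ j, (d j : V) := by
    intro d
    simp [L, LinearMap.sum_apply]
  have hinj : Function.Injective L := by
    rw [← LinearMap.ker_eq_bot, LinearMap.ker_eq_bot']
    intro d hd
    funext l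
    rw [hL] at hd
    have h1 : (d l : V) ∈ S l := (d l).2
    have h2 : (d l : V) ∈ ⨆ k, ⨆ (_ : k ≠ l), S k := by
      have e : (d l : V) = - ∑ k ∈ Finset.univ.erase l, (d k : V) := by
        rw [eq_neg_iff_add_eq_zero, ← hd]
        exact Finset.add_sum_erase Finset.univ (fun j => (d j : V)) (Finset.mem_univ l)
      rw [e]
      apply Submodule.neg_mem
      apply Submodule.sum_mem
      intro k hk
      have hkl : k ≠ l := Finset.ne_of_mem_erase hk
      exact (le_iSup₂_of_le k hkl le_rfl : S k ≤ _) (d k).2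
    have h3 := (Submodule.disjoint_def.mp (hS l)) _ h1 h2
    exact Subtype.ext h3
  have hrange : ∀ d, L d ∈ E := by
    intro d
    rw [hL]
    exact Submodule.sum_mem _ fun j _ => hE j (d j).2
  let L' : (Π j, S j) →ₗ[F] E := L.codRestrict E hrange
  have hinj' : Function.Injective L' := by
    intro a b hab
    apply hinj
    exact congrArg Subtype.val hab
  have h := LinearMap.finrank_le_finrank_of_injective hinj'
  rwa [Module.finrank_pi_fintype F] at h

/-- A sum of subspaces has dimension at most the sum of the dimensions. -/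
theorem finrank_iSup_le_sum {ι : Type*} [Fintype ι] [FiniteDimensional F V] (S : ι → Submodule F V) :
    finrank F ((⨆ i, S i : Submodule F V)) ≤ ∑ i, finrank F (S i) := by
  classical
  let L : (Π j, S j) →ₗ[F] V := ∑ j, (S j).subtype ∘ₗ LinearMap.proj j
  have hL : ∀ d, L d = ∑ j, (d j : V) := by
    intro d
    simp [L, LinearMap.sum_apply]
  have hle : (⨆ i, S i : Submodule F V) ≤ LinearMap.range L := by
    apply iSup_le
    intro i v hv
    refine ⟨Function.update 0 i ⟨v, hv⟩, ?_⟩
    rw [hL, Finset.sum_eq_single i]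
    · simp
    · intro b _ hb
      simp [Function.update_of_ne hb]
    · intro h
      exact absurd (Finset.mem_univ i) h
  calc finrank F ((⨆ i, S i : Submodule F V)) ≤ finrank F (LinearMap.range L) := Submodule.finrank_mono hle
    _ ≤ finrank F (Π j, S j) := LinearMap.finrank_range_le L
    _ = ∑ i, finrank F (S i) := Module.finrank_pi_fintype F

/-- An injective map preserves dimension of subspaces. -/
theorem finrank_map_of_inj {t : End F V} (ht : Function.Injective t) (W : Submodule F V) :
    finrank F (W.map t) = finrank F W :=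
  (Submodule.equivMapOfInjective t ht W).finrank_eq.symm

/-- A root of unity of prime order is primitive. -/
theorem prim_of_prime {r : ℕ} (hr : r.Prime) {lam : F} (hlam : lam ^ r = 1) (hlam1 : lam ≠ 1) :
    IsPrimitiveRoot lam r := by
  haveI := Fact.mk hr
  have h := orderOf_eq_prime hlam hlam1
  rw [← h]
  exact IsPrimitiveRoot.orderOf lam

/-- Eigenspaces permuted by an operator shifting the eigenvalue by a root of unity. -/
theorem shift_bound {r : ℕ} (hr : r.Prime) [FiniteDimensional F V] {x t : End F V} {lam c : F}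
    (ht : Function.Injective t) (hxt : x * t = lam • (t * x)) (hlam : lam ^ r = 1) (hlam1 : lam ≠ 1) (hc : c ≠ 0)
    (E W₀ : Submodule F V) (hE : ∀ v ∈ E, t v ∈ E) (hW : W₀ ≤ E) (hW' : W₀ ≤ End.eigenspace x c) :
    r * finrank F W₀ ≤ finrank F E := by
  classical
  have hprim := prim_of_prime hr hlam hlam1
  have hpow : ∀ (i : ℕ) (v : V), x ((t ^ i) v) = lam ^ i • (t ^ i) (x v) := by
    intro i
    induction i with
    | zero => intro v; simp
    | succ i ih =>
      intro v
      have e1 : ∀ w, x (t w) = lam • t (x w) := fun w => by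
        have := congrArg (fun f : End F V => f w) hxt
        simpa using this
      rw [pow_succ', Module.End.mul_apply, Module.End.mul_apply, e1, ih, map_smul, smul_smul]
      congr 1
      ring
  have hinjp : ∀ i : ℕ, Function.Injective (t ^ i) := by
    intro i
    rw [Module.End.coe_pow]
    exact ht.iterate i
  have hEp : ∀ (i : ℕ) (v : V), v ∈ E → (t ^ i) v ∈ E := by
    intro i
    induction i with
    | zero => intro v hv; simpa using hv
    | succ i ih =>
      intro v hv
      rw [pow_succ', Module.End.mul_apply]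
      exact hE _ (ih v hv)
  let S : Fin r → Submodule F V := fun i => W₀.map (t ^ (i : ℕ))
  have hcard : ∀ i, finrank F (S i) = finrank F W₀ := fun i => finrank_map_of_inj (hinjp i) W₀
  have hle : ∀ i : Fin r, S i ≤ End.eigenspace x (lam ^ (i : ℕ) * c) := by
    rintro i _ ⟨v, hv, rfl⟩
    rw [End.mem_eigenspace_iff]
    have h1 := End.mem_eigenspace_iff.mp (hW' hv)
    show x ((t ^ (i : ℕ)) v) = _ • (t ^ (i : ℕ)) v
    rw [hpow, h1, map_smul, smul_smul]
  have hinjf : Function.Injective (fun i : Fin r => lam ^ (i : ℕ) * c) := by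
    intro i j hij
    have h2 : lam ^ (i : ℕ) = lam ^ (j : ℕ) := mul_right_cancel₀ hc hij
    exact Fin.ext (hprim.pow_inj i.2 j.2 h2)
  have hind : iSupIndep S := ((End.eigenspaces_iSupIndep x).comp hinjf).mono hle
  have hSE : ∀ i, S i ≤ E := by
    rintro i _ ⟨v, hv, rfl⟩
    exact hEp _ _ (hW hv)
  have h := sum_finrank_le_of_indep hind E hSE
  simp only [hcard, Finset.sum_const, Finset.card_univ, Fintype.card_fin, smul_eq_mul] at h
  exact h

/-- A cyclic shift of a sum. -/
theorem cyc_sum {A : Type*} [AddCommGroup A] {r : ℕ} (f : ℕ → A) (h : f r = f 0) :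
    ∑ j ∈ Finset.range r, f (j + 1) = ∑ j ∈ Finset.range r, f j := by
  have h1 := Finset.sum_range_succ f r
  have h2 := Finset.sum_range_succ' f r
  rw [h1, h] at h2
  exact (add_right_cancel h2).symm

/-- Projection to an eigenspace of an operator of finite order. -/
noncomputable def prj (u : End F V) (μ : F) (r : ℕ) : End F V :=
  (r : F)⁻¹ • ∑ j ∈ Finset.range r, (μ⁻¹) ^ j • u ^ j

theorem mul_prj {u : End F V} {μ : F} {r : ℕ} (hr0 : r ≠ 0) (hu : u ^ r = 1) (hμ : μ ^ r = 1) :
    u * prj u μ r = μ • prj u μ r := by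
  have hμ0 : μ ≠ 0 := by
    rintro rfl
    rw [zero_pow hr0] at hμ
    exact zero_ne_one hμ
  unfold prj
  rw [mul_smul_comm, smul_comm μ]
  congr 1
  have e := cyc_sum (r := r) (fun j => (μ⁻¹) ^ j • u ^ j) (by simp [hu, hμ])
  rw [Finset.mul_sum, ← e, Finset.smul_sum]
  apply Finset.sum_congr rfl
  intro j _
  rw [smul_smul, pow_succ (μ⁻¹), mul_comm, mul_assoc, inv_mul_cancel₀ hμ0, mul_one, mul_smul_comm, pow_succ']

theorem prj_aux {u : End F V} {μ μ' : F} {r : ℕ} {w : V} (hw : u w = μ' • w) :
    prj u μ r w = (r : F)⁻¹ • (∑ j ∈ Finset.range r, (μ⁻¹ * μ') ^ j) • w := by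
  have hpow : ∀ j : ℕ, (u ^ j) w = μ' ^ j • w := by
    intro j
    induction j with
    | zero => simp
    | succ j ih =>
      rw [pow_succ', Module.End.mul_apply, ih, map_smul, hw, smul_smul, pow_succ]
  unfold prj
  rw [LinearMap.smul_apply, LinearMap.sum_apply, Finset.sum_smul]
  congr 1
  apply Finset.sum_congr rfl
  intro j _
  rw [LinearMap.smul_apply, hpow, smul_smul, mul_pow]

theorem prj_apply_self {u : End F V} {μ : F} {r : ℕ} (hr0 : (r : F) ≠ 0) (hμ0 : μ ≠ 0)
    {w : V} (hw : u w = μ • w) : prj u μ r w = w := by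
  rw [prj_aux hw, inv_mul_cancel₀ hμ0]
  simp [smul_smul, inv_mul_cancel₀ hr0]

theorem prj_apply_ne {u : End F V} {μ μ' : F} {r : ℕ} (hμ : μ ^ r = 1) (hμ' : μ' ^ r = 1) (hμ0 : μ ≠ 0) (hne : μ' ≠ μ)
    {w : V} (hw : u w = μ' • w) : prj u μ r w = 0 := by
  rw [prj_aux hw]
  have hx : μ⁻¹ * μ' ≠ 1 := by
    intro h2
    apply hne
    field_simp at h2
    exact h2
  have hxr : (μ⁻¹ * μ') ^ r = 1 := by
    rw [mul_pow, inv_pow, hμ, hμ', inv_one, one_mul]
  have hs : ∑ j ∈ Finset.range r, (μ⁻¹ * μ') ^ j = 0 := by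
    have h3 := geom_sum_mul (μ⁻¹ * μ') r
    rw [hxr, sub_self] at h3
    exact (mul_eq_zero.mp h3).resolve_right (sub_ne_zero.mpr hx)
  rw [hs]
  simp

theorem comm_prj {u T : End F V} {μ : F} {r : ℕ} (hT : T * u = u * T) : T * prj u μ r = prj u μ r * T := by
  have hpow : ∀ j : ℕ, T * u ^ j = u ^ j * T := fun j => (Commute.pow_right hT j)
  unfold prj
  rw [mul_smul_comm, smul_mul_assoc, Finset.mul_sum, Finset.sum_mul]
  congr 1
  apply Finset.sum_congr rfl
  intro j _
  rw [mul_smul_comm, smul_mul_assoc, hpow]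

/-- Every subspace stable under an operator of order dividing `r` is the sum of its eigencomponents. -/
theorem sum_prj {u : End F V} {μ θ : F} {r : ℕ} (hr : r.Prime) (hθ : IsPrimitiveRoot θ r) (hu : u ^ r = 1) (hμ : μ ^ r = 1) :
    ∑ k ∈ Finset.range r, prj u (μ * θ ^ k) r = 1 := by
  haveI : NeZero r := ⟨hr.ne_zero⟩
  have hr0 : (r : F) ≠ 0 := (hθ.neZero').out
  have hθ0 : θ ≠ 0 := hθ.ne_zero hr.ne_zero
  have hμ0 : μ ≠ 0 := by
    rintro rfl
    rw [zero_pow hr.ne_zero] at hμ
    exact zero_ne_one hμ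
  unfold prj
  rw [← Finset.smul_sum, Finset.sum_comm]
  have hinner : ∀ j ∈ Finset.range r, ∑ k ∈ Finset.range r, ((μ * θ ^ k)⁻¹) ^ j • u ^ j = if j = 0 then (r : F) • (1 : End F V) else 0 := by
    intro j hj
    rw [← Finset.sum_smul]
    split_ifs with h0
    · subst h0
      simp
    · have hjr : j < r := Finset.mem_range.mp hj
      have hjpos : 0 < j := Nat.pos_of_ne_zero h0
      have hx : ((θ⁻¹) ^ j) ≠ 1 := by
        intro h
        have h2 : θ ^ j = 1 := by
          rw [inv_pow] at h
          exact inv_eq_one.mp h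
        have := hθ.dvd_of_pow_eq_one j h2
        exact absurd (Nat.le_of_dvd hjpos this) (by omega)
      have hxr : ((θ⁻¹) ^ j) ^ r = 1 := by
        rw [← pow_mul, mul_comm, pow_mul, inv_pow, hθ.pow_eq_one, inv_one, one_pow]
      have hs : ∑ k ∈ Finset.range r, ((θ⁻¹) ^ j) ^ k = 0 := by
        have h3 := geom_sum_mul ((θ⁻¹) ^ j) r
        rw [hxr, sub_self] at h3
        exact (mul_eq_zero.mp h3).resolve_right (sub_ne_zero.mpr hx)
      have e : ∑ k ∈ Finset.range r, ((μ * θ ^ k)⁻¹) ^ j = (μ⁻¹) ^ j * ∑ k ∈ Finset.range r, ((θ⁻¹) ^ j) ^ k := by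
        rw [Finset.mul_sum]
        apply Finset.sum_congr rfl
        intro k _
        rw [mul_inv, mul_pow, ← inv_pow θ k, ← pow_mul, ← pow_mul, mul_comm j k]
      rw [e, hs, mul_zero, zero_smul]
  rw [Finset.sum_congr rfl hinner, Finset.sum_ite_eq' (Finset.range r) 0]
  simp [hr.pos, smul_smul, inv_mul_cancel₀ hr0]

theorem prj_mem_eig {u : End F V} {μ : F} {r : ℕ} (hr0 : r ≠ 0) (hu : u ^ r = 1) (hμ : μ ^ r = 1) (v : V) :
    prj u μ r v ∈ End.eigenspace u μ := by
  rw [End.mem_eigenspace_iff]
  have := congrArg (fun f : End F V => f v) (mul_prj hr0 hu hμ)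
  simpa using this

theorem prj_mem_of_stable {u : End F V} {μ : F} {r : ℕ} {W : Submodule F V} (hW : ∀ v ∈ W, u v ∈ W) {v : V} (hv : v ∈ W) :
    prj u μ r v ∈ W := by
  have hpow : ∀ j : ℕ, (u ^ j) v ∈ W := by
    intro j
    induction j with
    | zero => simpa using hv
    | succ j ih =>
      rw [pow_succ', Module.End.mul_apply]
      exact hW _ ih
  unfold prj
  rw [LinearMap.smul_apply, LinearMap.sum_apply]
  apply W.smul_mem
  apply W.sum_mem
  intro j _
  rw [LinearMap.smul_apply]
  exact W.smul_mem _ (hpow j)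

/-- A stable subspace is the sum of its intersections with the eigenspaces. -/
theorem le_iSup_inf_eig {u : End F V} {μ θ : F} {r : ℕ} (hr : r.Prime) (hθ : IsPrimitiveRoot θ r) (hu : u ^ r = 1) (hμ : μ ^ r = 1)
    {W : Submodule F V} (hW : ∀ v ∈ W, u v ∈ W) :
    W ≤ ⨆ k : Fin r, W ⊓ End.eigenspace u (μ * θ ^ (k : ℕ)) := by
  intro v hv
  have e : v = ∑ k ∈ Finset.range r, prj u (μ * θ ^ k) r v := by
    have := congrArg (fun f : End F V => f v) (sum_prj hr hθ hu hμ)
    simp only [LinearMap.sum_apply, Module.End.one_apply] at this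
    exact this.symm
  rw [e, Finset.sum_range]
  apply Submodule.sum_mem
  intro k _
  apply Submodule.mem_iSup_of_mem k
  refine ⟨prj_mem_of_stable hW hv, prj_mem_eig hr.ne_zero hu ?_ v⟩
  rw [mul_pow, hμ, one_mul, ← pow_mul, mul_comm, pow_mul, hθ.pow_eq_one, one_pow]

/-- The dimension of a stable subspace is bounded by those of its eigencomponents. -/
theorem finrank_le_sum_eig [FiniteDimensional F V] {u : End F V} {μ θ : F} {r : ℕ} (hr : r.Prime) (hθ : IsPrimitiveRoot θ r) (hu : u ^ r = 1) (hμ : μ ^ r = 1)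
    {W : Submodule F V} (hW : ∀ v ∈ W, u v ∈ W) :
    finrank F W ≤ ∑ k : Fin r, finrank F (W ⊓ End.eigenspace u (μ * θ ^ (k : ℕ)) : Submodule F V) :=
  (Submodule.finrank_mono (le_iSup_inf_eig hr hθ hu hμ hW)).trans (finrank_iSup_le_sum _)

end basic

end Cfsg.Agent.Lib.ClassMax.ExtraEig
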