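import Mathlib
import Cfsg.Agent.Lib.ClassMax.Asch16
import Cfsg.Agent.Lib.ClassMax.ExtraEig1

/-!
Stabilisers of decompositions over small fields lie in other classes.
-/

set_option autoImplicit false
set_option linter.unusedSimpArgs false
set_option linter.unusedVariables false
set_option linter.unusedSectionVars false
set_option linter.unusedFintypeInType false
set_option linter.unusedDecidableInType false

namespace Cfsg.Agent.Lib.ClassMax.Asch

open Module Matrix Cfsg.Geo Cfsg.Agent.Lib.ClassMax Cfsg.Agent.Lib.ClassMax.PhiCount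

variable {F : Type*} [Field F] [Fintype F] {n t : ℕ}

local notation "MM" => Matrix (Fin n) (Fin n) F

/-- Those of the geometric classes which are targets of the passage from small fields. -/
inductive Bad0 (H : Subgroup (GL (Fin n) F)) : Prop
  | sub (W : Submodule F (Fin n → F)) (h0 : W ≠ ⊥) (h1 : W ≠ ⊤) (h : H ≤ subspaceStabilizer W)
  | fld {r : ℕ} (K : Subalgebra F (Matrix (Fin n) (Fin n) F)) (hr : r.Prime) (hK : IsFieldSubalgebra r K)
      (h : H ≤ subalgebraNormalizer K)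
  | symp (f : (Fin n → F) → (Fin n → F) → F) (hf : IsSymplecticForm f) (he : Even n) (h4 : 4 ≤ n) (h : H ≤ similarityGroup f)
  | unit (σ : F ≃+* F) (f : (Fin n → F) → (Fin n → F) → F) (hf : IsUnitaryForm σ f) (h3 : 3 ≤ n) (h : H ≤ similarityGroup f)
  | quad (Q : (Fin n → F) → F) (hQ : IsNondegenerateQuadraticForm Q) (ho : Odd (Fintype.card F)) (h3 : 3 ≤ n)
      (h : H ≤ quadSimilarityGroup Q)

theorem dec_card {m : ℕ} {D : Fin t → Submodule F (Fin n → F)} (hD : IsMDecomposition m D) : t * m = n := by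
  have h1 := card_le_of_decomp hD
  have h2 := ExtraEig.sum_finrank_le_of_indep hD.indep ⊤ (fun _ => le_top)
  simp [hD.finrank_eq] at h1 h2
  omega

section lines

variable {D : Fin t → Submodule F (Fin n → F)} {a l : Fin t → Fin n → F}

theorem line_mem (hD : IsMDecomposition 1 D) (ha : ∀ i, a i ∈ D i) (ha0 : ∀ i, a i ≠ 0) (hl1 : ∀ i, l i ⬝ᵥ a i = 1) {j : Fin t} {w : Fin n → F}
    (hw : w ∈ D j) : w = (l j ⬝ᵥ w) • a j := by
  have h1 := (finrank_eq_one_iff_of_nonzero' (⟨a j, ha j⟩ : D j) (fun h => ha0 j (congrArg Subtype.val h))).mp (hD.finrank_eq j) ⟨w, hw⟩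
  obtain ⟨β, hβ⟩ := h1
  have h2 : β • a j = w := congrArg Subtype.val hβ
  rw [← h2, dotProduct_smul, hl1, smul_eq_mul, mul_one]

/-- A stabiliser of a decomposition into lines is monomial. -/
theorem mono_coord (hD : IsMDecomposition 1 D) (ha : ∀ i, a i ∈ D i) (ha0 : ∀ i, a i ≠ 0) (hl1 : ∀ i, l i ⬝ᵥ a i = 1)
    (hl0 : ∀ i j, j ≠ i → l i ⬝ᵥ a j = 0) (hv : ∀ v, v = ∑ j, (l j ⬝ᵥ v) • a j) {g : GL (Fin n) F} (hg : g ∈ decompositionStabilizer D) :
    ∃ (σ : Equiv.Perm (Fin t)) (c : Fin t → F), (∀ i, c i ≠ 0) ∧ ∀ x i, l (σ i) ⬝ᵥ ((g : MM) *ᵥ x) = c i * (l i ⬝ᵥ x) := by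
  classical
  obtain ⟨σ, hσ⟩ := hg
  have hmem : ∀ i, (g : MM) *ᵥ a i ∈ D (σ i) := by
    intro i
    rw [← hσ i]
    exact ⟨a i, ha i, rfl⟩
  let c : Fin t → F := fun i => l (σ i) ⬝ᵥ ((g : MM) *ᵥ a i)
  have h1 : ∀ i, (g : MM) *ᵥ a i = c i • a (σ i) := fun i => line_mem hD ha ha0 hl1 (hmem i)
  refine ⟨σ, c, ?_, ?_⟩
  · intro i hc
    have h2 := h1 i
    rw [hc, zero_smul] at h2
    apply ha0 i
    apply gl_injective g
    rw [h2, Matrix.mulVec_zero]
  · intro x i
    conv_lhs => rw [hv x]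
    rw [Matrix.mulVec_sum, dotProduct_sum, Finset.sum_eq_single i]
    · rw [Matrix.mulVec_smul, dotProduct_smul, h1, dotProduct_smul, hl1, smul_eq_mul, smul_eq_mul]
      ring
    · intro j _ hj
      rw [Matrix.mulVec_smul, dotProduct_smul, h1, dotProduct_smul, hl0 (σ i) (σ j) (fun h => hj (σ.injective h))]
      simp
    · simp

theorem exists_coord_ne (hv : ∀ v, v = ∑ j, (l j ⬝ᵥ v) • a j) {v : Fin n → F} (hv0 : v ≠ 0) : ∃ j, l j ⬝ᵥ v ≠ 0 := by
  by_contra hcon
  push Not at hcon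
  apply hv0
  rw [hv v]
  simp [hcon]

theorem bad_mono2 (hq : Fintype.card F = 2) (hD : IsMDecomposition 1 D) {H : Subgroup (GL (Fin n) F)} (hH : H ≤ decompositionStabilizer D) : Bad0 H := by
  classical
  obtain ⟨a, l, ha, ha0, hl1, hl0, hv⟩ := line_data hD
  have h1' : ∀ x : F, x ≠ 0 → x = 1 := by
    intro x hx
    have := FiniteField.pow_card_sub_one_eq_one x hx
    rw [hq] at this
    simpa using this
  let s : Fin n → F := ∑ i, a i
  have hls : ∀ j, l j ⬝ᵥ s = 1 := by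
    intro j
    simp only [s]
    rw [dotProduct_sum, Finset.sum_eq_single j]
    · exact hl1 j
    · intro k _ hk
      exact hl0 j k hk
    · simp
  have ht := hD.two_le
  let i0 : Fin t := ⟨0, by omega⟩
  let i1 : Fin t := ⟨1, by omega⟩
  have hi : i1 ≠ i0 := by simp [i0, i1, Fin.ext_iff]
  refine Bad0.sub (Submodule.span F {s}) ?_ ?_ ?_
  · intro h
    rw [Submodule.span_singleton_eq_bot] at h
    have := hls i0
    rw [h, dotProduct_zero] at this
    exact zero_ne_one this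
  · intro h
    have h2 : a i0 ∈ Submodule.span F {s} := by rw [h]; trivial
    obtain ⟨c, hc⟩ := Submodule.mem_span_singleton.1 h2
    have h3 := hl0 i1 i0 hi.symm
    rw [← hc, dotProduct_smul, hls, smul_eq_mul, mul_one] at h3
    rw [h3, zero_smul] at hc
    exact ha0 i0 hc.symm
  · intro g hg
    obtain ⟨σ, c, hc, hf⟩ := mono_coord hD ha ha0 hl1 hl0 hv (hH hg)
    apply mem_subspaceStabilizer_of_forall
    intro w hw
    obtain ⟨d, rfl⟩ := Submodule.mem_span_singleton.1 hw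
    have hgs : (g : MM) *ᵥ s = s := by
      rw [hv ((g : MM) *ᵥ s)]
      have h2 : ∀ j, l j ⬝ᵥ ((g : MM) *ᵥ s) = 1 := by
        intro j
        have h3 := hf s (σ.symm j)
        rw [Equiv.apply_symm_apply] at h3
        rw [h3, hls, h1' _ (hc _), mul_one]
      simp only [h2, one_smul, s]
    rw [Matrix.mulVec_smul, hgs]
    exact Submodule.smul_mem _ _ (Submodule.mem_span_singleton_self s)

theorem bad_mono3 (hn3 : 3 ≤ n) (hq : Fintype.card F = 3) (hD : IsMDecomposition 1 D) {H : Subgroup (GL (Fin n) F)} (hH : H ≤ decompositionStabilizer D) : Bad0 H := by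
  classical
  obtain ⟨a, l, ha, ha0, hl1, hl0, hv⟩ := line_data hD
  have h2 : (2 : F) ≠ 0 := by
    intro h
    have h3 : ((3 : ℕ) : F) = 0 := by
      rw [← hq]
      exact Nat.cast_card_eq_zero F
    have h4 : (1 : F) = 0 := by
      push_cast at h3
      linear_combination h3 - h
    exact one_ne_zero h4
  have hsq : ∀ x : F, x ≠ 0 → x ^ 2 = 1 := by
    intro x hx
    have := FiniteField.pow_card_sub_one_eq_one x hx
    rw [hq] at this
    simpa using this
  let Q : (Fin n → F) → F := fun x => ∑ j, (l j ⬝ᵥ x) ^ 2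
  have hpol : ∀ u v, QuadraticMap.polar Q u v = 2 * ∑ j, (l j ⬝ᵥ u) * (l j ⬝ᵥ v) := by
    intro u v
    simp only [QuadraticMap.polar, Q, Finset.mul_sum]
    rw [← Finset.sum_sub_distrib, ← Finset.sum_sub_distrib]
    refine Finset.sum_congr rfl fun j _ => ?_
    rw [dotProduct_add]
    ring
  have hQ : IsNondegenerateQuadraticForm Q := by
    refine ⟨?_, ⟨?_, ?_, ?_, ?_⟩, ?_⟩
    · intro c v
      simp only [Q, dotProduct_smul, smul_eq_mul, Finset.mul_sum]
      exact Finset.sum_congr rfl fun j _ => by ring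
    · intro x y v
      simp only [hpol, ← mul_add, ← Finset.sum_add_distrib, dotProduct_add, add_mul]
    · intro c x v
      simp only [hpol, dotProduct_smul, smul_eq_mul, Finset.mul_sum]
      exact Finset.sum_congr rfl fun j _ => by ring
    · intro v x y
      simp only [hpol, ← mul_add, ← Finset.sum_add_distrib, dotProduct_add]
    · intro c v x
      simp only [hpol, dotProduct_smul, smul_eq_mul, Finset.mul_sum]
      exact Finset.sum_congr rfl fun j _ => by ring
    · intro v hv0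
      obtain ⟨j, hj⟩ := exists_coord_ne hv hv0
      have e1 : ∀ v, ∑ k, (l k ⬝ᵥ a j) * (l k ⬝ᵥ v) = l j ⬝ᵥ v := by
        intro v
        rw [Finset.sum_eq_single j]
        · rw [hl1, one_mul]
        · intro k _ hk
          rw [hl0 k j hk.symm, zero_mul]
        · simp
      refine ⟨⟨a j, ?_⟩, ⟨a j, ?_⟩⟩
      · rw [hpol, e1]
        exact mul_ne_zero h2 hj
      · rw [hpol]
        simp only [mul_comm (l _ ⬝ᵥ v)]
        rw [e1]
        exact mul_ne_zero h2 hj
  refine Bad0.quad Q hQ (by rw [hq]; decide) hn3 ?_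
  intro g hg
  obtain ⟨σ, c, hc, hf⟩ := mono_coord hD ha ha0 hl1 hl0 hv (hH hg)
  refine ⟨1, fun v => ?_⟩
  simp only [Q, Units.val_one, one_mul]
  rw [← Equiv.sum_comp σ]
  refine Finset.sum_congr rfl fun i _ => ?_
  rw [hf, mul_pow, hsq _ (hc i), one_mul]

theorem exists_frob_four (hq : Fintype.card F = 4) : ∃ σ : F ≃+* F, (∀ x, σ x = x ^ 2) ∧ (∀ a, σ (σ a) = a) ∧ σ ≠ RingEquiv.refl F := by
  classical
  obtain ⟨p, hchar⟩ := CharP.exists F
  haveI := hchar
  obtain ⟨k, hp, hk⟩ := FiniteField.card F p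
  have hp2 : p = 2 := by
    have h1 : p ∣ 2 ^ 2 := by
      have : p ∣ p ^ (k : ℕ) := dvd_pow_self p k.ne_zero
      rw [← hk, hq] at this
      simpa using this
    have h2 := hp.dvd_of_dvd_pow h1
    exact (Nat.prime_dvd_prime_iff_eq hp Nat.prime_two).1 h2
  subst hp2
  haveI : Fact (Nat.Prime 2) := ⟨Nat.prime_two⟩
  haveI : ExpChar F 2 := ExpChar.prime Nat.prime_two
  have hinj : Function.Injective (frobenius F 2) := (frobenius F 2).injective
  let σ : F ≃+* F := RingEquiv.ofBijective (frobenius F 2) ⟨hinj, Finite.injective_iff_surjective.1 hinj⟩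
  have hσ : ∀ x, σ x = x ^ 2 := fun x => frobenius_def 2 x
  refine ⟨σ, hσ, ?_, ?_⟩
  · intro a
    rw [hσ, hσ, ← pow_mul]
    have := FiniteField.pow_card a
    rw [hq] at this
    exact this
  · intro h
    obtain ⟨x, hx⟩ := exists_not_fixed (F := F) Nat.prime_two (f := 2) (d := 1) (by rw [hq]; norm_num) (by norm_num) (by norm_num)
    apply hx
    have := hσ x
    rw [h] at this
    simpa using this.symm

theorem bad_mono4 (hn3 : 3 ≤ n) (hq : Fintype.card F = 4) (hD : IsMDecomposition 1 D) {H : Subgroup (GL (Fin n) F)} (hH : H ≤ decompositionStabilizer D) : Bad0 H := by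
  classical
  obtain ⟨a, l, ha, ha0, hl1, hl0, hv⟩ := line_data hD
  obtain ⟨σ, hσ, hσ2, hσ1⟩ := exists_frob_four (F := F) hq
  have hnorm : ∀ c : F, c ≠ 0 → c * σ c = 1 := by
    intro c hc
    have := FiniteField.pow_card_sub_one_eq_one c hc
    rw [hq] at this
    rw [hσ, ← pow_succ']
    simpa using this
  let f : (Fin n → F) → (Fin n → F) → F := fun x y => ∑ j, (l j ⬝ᵥ x) * σ (l j ⬝ᵥ y)
  have hf : IsUnitaryForm σ f := by
    refine ⟨hσ1, hσ2, ?_, ?_, ?_, ?_⟩
    · intro x y v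
      simp only [f, dotProduct_add, add_mul, Finset.sum_add_distrib]
    · intro c x v
      simp only [f, dotProduct_smul, smul_eq_mul, Finset.mul_sum]
      exact Finset.sum_congr rfl fun j _ => by ring
    · intro v w
      simp only [f, map_sum, map_mul, hσ2]
      exact Finset.sum_congr rfl fun j _ => by ring
    · intro v hv0
      obtain ⟨j, hj⟩ := exists_coord_ne hv hv0
      refine ⟨⟨a j, ?_⟩, ⟨a j, ?_⟩⟩
      · have e1 : f (a j) v = σ (l j ⬝ᵥ v) := by
          simp only [f]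
          rw [Finset.sum_eq_single j]
          · rw [hl1, one_mul]
          · intro k _ hk
            rw [hl0 k j hk.symm, zero_mul]
          · simp
        rw [e1]
        exact (map_ne_zero σ).2 hj
      · have e1 : f v (a j) = l j ⬝ᵥ v := by
          simp only [f]
          rw [Finset.sum_eq_single j]
          · rw [hl1, map_one, mul_one]
          · intro k _ hk
            rw [hl0 k j hk.symm, map_zero, mul_zero]
          · simp
        rw [e1]
        exact hj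
  refine Bad0.unit σ f hf hn3 ?_
  intro g hg
  obtain ⟨τ, c, hc, hfc⟩ := mono_coord hD ha ha0 hl1 hl0 hv (hH hg)
  refine ⟨1, fun u v => ?_⟩
  simp only [f, Units.val_one, one_mul]
  rw [← Equiv.sum_comp τ]
  refine Finset.sum_congr rfl fun i _ => ?_
  rw [hfc, hfc, map_mul]
  have := hnorm _ (hc i)
  linear_combination (l i ⬝ᵥ u) * σ (l i ⬝ᵥ v) * this

/-- The general statement for decompositions into lines over small fields. -/
theorem bad_mono_small (hn3 : 3 ≤ n) (hq : Fintype.card F < 5) (hD : IsMDecomposition 1 D) {H : Subgroup (GL (Fin n) F)} (hH : H ≤ decompositionStabilizer D) : Bad0 H := by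
  have h1 : 1 < Fintype.card F := Fintype.one_lt_card
  rcases (by omega : Fintype.card F = 2 ∨ Fintype.card F = 3 ∨ Fintype.card F = 4) with h | h | h
  · exact bad_mono2 h hD hH
  · exact bad_mono3 hn3 h hD hH
  · exact bad_mono4 hn3 h hD hH

end lines

section planes

variable {D : Fin t → Submodule F (Fin n → F)}

/-- Coordinates for a decomposition into planes. -/
theorem plane_data (hD : IsMDecomposition 2 D) :
    ∃ a b α β : Fin t → Fin n → F, (∀ i, a i ∈ D i) ∧ (∀ i, b i ∈ D i) ∧ (∀ i, α i ⬝ᵥ a i = 1) ∧ (∀ i, α i ⬝ᵥ b i = 0) ∧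
      (∀ i, β i ⬝ᵥ a i = 0) ∧ (∀ i, β i ⬝ᵥ b i = 1) ∧ (∀ i j, j ≠ i → ∀ x ∈ D j, α i ⬝ᵥ x = 0 ∧ β i ⬝ᵥ x = 0) ∧
      (∀ i, ∀ x ∈ D i, x = (α i ⬝ᵥ x) • a i + (β i ⬝ᵥ x) • b i) := by
  classical
  have hne : ∀ i, ∃ a ∈ D i, ∃ b ∈ D i, LinearIndependent F ![a, b] := by
    intro i
    have hbot : D i ≠ ⊥ := by
      intro h
      have h1 := hD.finrank_eq i
      rw [h, finrank_bot] at h1
      omega
    obtain ⟨a, ha, ha0⟩ := Submodule.exists_mem_ne_zero_of_ne_bot hbot
    obtain ⟨b, hb, hba⟩ : ∃ b ∈ D i, b ∉ Submodule.span F {a} := by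
      by_contra hcon
      push Not at hcon
      have h1 : D i ≤ Submodule.span F {a} := hcon
      have h2 := Submodule.finrank_mono h1
      rw [hD.finrank_eq i, finrank_span_singleton ha0] at h2
      omega
    refine ⟨a, ha, b, hb, ?_⟩
    rw [LinearIndependent.pair_iff]
    intro s t hst
    have ht : t = 0 := by
      by_contra ht
      apply hba
      have : b = (-(t⁻¹ * s)) • a := by
        have h1 : t • b = (-s) • a := by
          rw [neg_smul]
          exact eq_neg_of_add_eq_zero_right hst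
        calc b = t⁻¹ • (t • b) := by rw [smul_smul, inv_mul_cancel₀ ht, one_smul]
          _ = _ := by rw [h1, smul_smul]; congr 1; ring
      rw [this]
      exact Submodule.smul_mem _ _ (Submodule.mem_span_singleton_self a)
    subst ht
    rw [zero_smul, add_zero] at hst
    exact ⟨(smul_eq_zero.1 hst).resolve_right ha0, rfl⟩
  choose a ha b hb hab using hne
  have hspan : ∀ i, ∀ x ∈ D i, ∃ c d : F, x = c • a i + d • b i := by
    intro i x hx
    have h1 : Submodule.span F (Set.range ![a i, b i]) = D i := by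
      apply Submodule.eq_of_le_of_finrank_eq
      · rw [Submodule.span_le]
        rintro _ ⟨k, rfl⟩
        fin_cases k
        · exact ha i
        · exact hb i
      · rw [finrank_span_eq_card (hab i), hD.finrank_eq i]
        simp
    rw [← h1] at hx
    have h2 : Set.range ![a i, b i] = {a i, b i} := by
      ext y
      simp [Fin.exists_fin_two, eq_comm, or_comm]
    rw [h2] at hx
    obtain ⟨c, d, hcd⟩ := Submodule.mem_span_pair.1 hx
    exact ⟨c, d, hcd.symm⟩
  -- functionals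
  have hindep : ∀ i, ∀ c d : F, c • a i + d • b i = 0 → c = 0 ∧ d = 0 := by
    intro i c d h
    exact LinearIndependent.pair_iff.1 (hab i) c d h
  have ha0 : ∀ i, a i ≠ 0 := by
    intro i h
    have := (hindep i 1 0 (by rw [h]; simp)).1
    exact one_ne_zero this
  have hb0 : ∀ i, b i ≠ 0 := by
    intro i h
    have := (hindep i 0 1 (by rw [h]; simp)).2
    exact one_ne_zero this
  have hA : ∀ i, a i ∉ Wc D i ⊔ Submodule.span F {b i} := by
    intro i hmem
    obtain ⟨w, hw, y, hy, hwy⟩ := Submodule.mem_sup.1 hmem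
    obtain ⟨d, rfl⟩ := Submodule.mem_span_singleton.1 hy
    have h1 : w = a i - d • b i := by rw [← hwy]; abel
    have h2 : w ∈ D i := by
      rw [h1]
      exact (D i).sub_mem (ha i) ((D i).smul_mem _ (hb i))
    have h3 : w = 0 := by
      by_contra h0
      exact not_mem_Wc hD h2 h0 hw
    rw [h3] at h1
    have h4 := (hindep i 1 (-d) (by
      rw [one_smul, neg_smul]
      rw [← sub_eq_add_neg]
      exact h1.symm)).1
    exact one_ne_zero h4
  have hB : ∀ i, b i ∉ Wc D i ⊔ Submodule.span F {a i} := by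
    intro i hmem
    obtain ⟨w, hw, y, hy, hwy⟩ := Submodule.mem_sup.1 hmem
    obtain ⟨d, rfl⟩ := Submodule.mem_span_singleton.1 hy
    have h1 : w = b i - d • a i := by rw [← hwy]; abel
    have h2 : w ∈ D i := by
      rw [h1]
      exact (D i).sub_mem (hb i) ((D i).smul_mem _ (ha i))
    have h3 : w = 0 := by
      by_contra h0
      exact not_mem_Wc hD h2 h0 hw
    rw [h3] at h1
    have h4 := (hindep i (-d) 1 (by
      rw [one_smul, neg_smul, add_comm]
      rw [← sub_eq_add_neg]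
      exact h1.symm)).2
    exact one_ne_zero h4
  have hαf := fun i => exists_dotProduct_of_notMem (hA i)
  have hβf := fun i => exists_dotProduct_of_notMem (hB i)
  choose α hα1 hα2 using hαf
  choose β hβ1 hβ2 using hβf
  have hαb : ∀ i, α i ⬝ᵥ b i = 0 := fun i => hα1 i _ (Submodule.mem_sup_right (Submodule.mem_span_singleton_self _))
  have hβa : ∀ i, β i ⬝ᵥ a i = 0 := fun i => hβ1 i _ (Submodule.mem_sup_right (Submodule.mem_span_singleton_self _))
  refine ⟨a, b, α, β, ha, hb, hα2, hαb, hβa, hβ2, ?_, ?_⟩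
  · intro i j hij x hx
    exact ⟨hα1 i x (Submodule.mem_sup_left (mem_Wc_of_ne hij hx)), hβ1 i x (Submodule.mem_sup_left (mem_Wc_of_ne hij hx))⟩
  · intro i x hx
    obtain ⟨c, d, rfl⟩ := hspan i x hx
    simp only [dotProduct_add, dotProduct_smul, hα2, hαb, hβa, hβ2, smul_eq_mul, mul_one, mul_zero, add_zero, zero_add]

/-- The block form and the action of a stabiliser on it. -/
theorem plane_form (hD : IsMDecomposition 2 D) {a b α β : Fin t → Fin n → F} (ha : ∀ i, a i ∈ D i) (hb : ∀ i, b i ∈ D i)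
    (hαa : ∀ i, α i ⬝ᵥ a i = 1) (hαb : ∀ i, α i ⬝ᵥ b i = 0) (hβa : ∀ i, β i ⬝ᵥ a i = 0) (hβb : ∀ i, β i ⬝ᵥ b i = 1)
    (h0 : ∀ i j, j ≠ i → ∀ x ∈ D j, α i ⬝ᵥ x = 0 ∧ β i ⬝ᵥ x = 0) (hx : ∀ i, ∀ x ∈ D i, x = (α i ⬝ᵥ x) • a i + (β i ⬝ᵥ x) • b i)
    {g : GL (Fin n) F} {σ : Equiv.Perm (Fin t)} (hσ : ∀ i, (D i).map (Matrix.toLin' (g : MM)) = D (σ i)) :
    ∃ δ : Fin t → F, (∀ i, δ i ≠ 0) ∧ ∀ (u v : Fin n → F) (i : Fin t),
      (α (σ i) ⬝ᵥ ((g : MM) *ᵥ u)) * (β (σ i) ⬝ᵥ ((g : MM) *ᵥ v)) - (β (σ i) ⬝ᵥ ((g : MM) *ᵥ u)) * (α (σ i) ⬝ᵥ ((g : MM) *ᵥ v))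
        = δ i * ((α i ⬝ᵥ u) * (β i ⬝ᵥ v) - (β i ⬝ᵥ u) * (α i ⬝ᵥ v)) := by
  classical
  have hga : ∀ i, (g : MM) *ᵥ a i ∈ D (σ i) := fun i => by
    rw [← hσ i]
    exact ⟨a i, ha i, rfl⟩
  have hgb : ∀ i, (g : MM) *ᵥ b i ∈ D (σ i) := fun i => by
    rw [← hσ i]
    exact ⟨b i, hb i, rfl⟩
  let p : Fin t → F := fun i => α (σ i) ⬝ᵥ ((g : MM) *ᵥ a i)
  let q : Fin t → F := fun i => β (σ i) ⬝ᵥ ((g : MM) *ᵥ a i)
  let r : Fin t → F := fun i => α (σ i) ⬝ᵥ ((g : MM) *ᵥ b i)
  let s : Fin t → F := fun i => β (σ i) ⬝ᵥ ((g : MM) *ᵥ b i)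
  have hexp : ∀ v, v = ∑ k, ((α k ⬝ᵥ v) • a k + (β k ⬝ᵥ v) • b k) := by
    intro v
    obtain ⟨c, hc, rfl⟩ := exists_family' hD v
    refine Finset.sum_congr rfl fun k _ => ?_
    have h1 : ∀ w ∈ [α k, β k], w ⬝ᵥ (∑ i, c i) = w ⬝ᵥ c k := by
      simp only [List.mem_cons, List.not_mem_nil, or_false]
      rintro w (rfl | rfl)
      · rw [dotProduct_sum, Finset.sum_eq_single k]
        · intro j _ hj
          exact (h0 k j hj _ (hc j)).1
        · simp
      · rw [dotProduct_sum, Finset.sum_eq_single k]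
        · intro j _ hj
          exact (h0 k j hj _ (hc j)).2
        · simp
    rw [h1 _ (by simp), h1 _ (by simp)]
    exact hx k _ (hc k)
  have hcoord : ∀ v i, α (σ i) ⬝ᵥ ((g : MM) *ᵥ v) = (α i ⬝ᵥ v) * p i + (β i ⬝ᵥ v) * r i ∧
      β (σ i) ⬝ᵥ ((g : MM) *ᵥ v) = (α i ⬝ᵥ v) * q i + (β i ⬝ᵥ v) * s i := by
    intro v i
    constructor
    · conv_lhs => rw [hexp v]
      rw [Matrix.mulVec_sum, dotProduct_sum, Finset.sum_eq_single i]
      · rw [Matrix.mulVec_add, Matrix.mulVec_smul, Matrix.mulVec_smul, dotProduct_add, dotProduct_smul, dotProduct_smul]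
        rfl
      · intro j _ hj
        have hne : σ j ≠ σ i := fun h => hj (σ.injective h)
        rw [Matrix.mulVec_add, Matrix.mulVec_smul, Matrix.mulVec_smul, dotProduct_add, dotProduct_smul, dotProduct_smul,
          (h0 (σ i) (σ j) hne _ (hga j)).1, (h0 (σ i) (σ j) hne _ (hgb j)).1]
        simp
      · simp
    · conv_lhs => rw [hexp v]
      rw [Matrix.mulVec_sum, dotProduct_sum, Finset.sum_eq_single i]
      · rw [Matrix.mulVec_add, Matrix.mulVec_smul, Matrix.mulVec_smul, dotProduct_add, dotProduct_smul, dotProduct_smul]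
        rfl
      · intro j _ hj
        have hne : σ j ≠ σ i := fun h => hj (σ.injective h)
        rw [Matrix.mulVec_add, Matrix.mulVec_smul, Matrix.mulVec_smul, dotProduct_add, dotProduct_smul, dotProduct_smul,
          (h0 (σ i) (σ j) hne _ (hga j)).2, (h0 (σ i) (σ j) hne _ (hgb j)).2]
        simp
      · simp
  refine ⟨fun i => p i * s i - q i * r i, ?_, ?_⟩
  · intro i hδ
    have e1 : (g : MM) *ᵥ a i = p i • a (σ i) + q i • b (σ i) := hx _ _ (hga i)
    have e2 : (g : MM) *ᵥ b i = r i • a (σ i) + s i • b (σ i) := hx _ _ (hgb i)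
    -- s a - q b is killed
    have hk1 : (g : MM) *ᵥ (s i • a i - q i • b i) = 0 := by
      rw [Matrix.mulVec_sub, Matrix.mulVec_smul, Matrix.mulVec_smul, e1, e2, smul_add, smul_add, smul_smul, smul_smul, smul_smul, smul_smul]
      have h1 : s i * p i = q i * r i := by linear_combination hδ
      rw [h1, mul_comm (s i) (q i)]
      abel
    have hk2 : (g : MM) *ᵥ (r i • a i - p i • b i) = 0 := by
      rw [Matrix.mulVec_sub, Matrix.mulVec_smul, Matrix.mulVec_smul, e1, e2, smul_add, smul_add, smul_smul, smul_smul, smul_smul, smul_smul]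
      have h1 : r i * q i = p i * s i := by linear_combination -hδ
      rw [h1, mul_comm (r i) (p i)]
      abel
    have hz1 : s i • a i - q i • b i = 0 := gl_injective g (by rw [hk1, Matrix.mulVec_zero])
    have hz2 : r i • a i - p i • b i = 0 := gl_injective g (by rw [hk2, Matrix.mulVec_zero])
    have hp : p i = 0 := by
      have := congrArg (fun w => β i ⬝ᵥ w) hz2
      simp only [dotProduct_sub, dotProduct_smul, hβa, hβb, dotProduct_zero, smul_eq_mul, mul_zero, mul_one, zero_sub, neg_eq_zero] at this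
      exact this
    have hq' : q i = 0 := by
      have := congrArg (fun w => β i ⬝ᵥ w) hz1
      simp only [dotProduct_sub, dotProduct_smul, hβa, hβb, dotProduct_zero, smul_eq_mul, mul_zero, mul_one, zero_sub, neg_eq_zero] at this
      exact this
    have h3 : (g : MM) *ᵥ a i = 0 := by
      rw [e1, hp, hq', zero_smul, zero_smul, add_zero]
    have h4 : a i = 0 := gl_injective g (by rw [h3, Matrix.mulVec_zero])
    have h5 := hαa i
    rw [h4, dotProduct_zero] at h5
    exact zero_ne_one h5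
  · intro u v i
    rw [(hcoord u i).1, (hcoord u i).2, (hcoord v i).1, (hcoord v i).2]
    ring

/-- The symplectic form attached to a decomposition into planes. -/
theorem plane_symp (hD : IsMDecomposition 2 D) {a b α β : Fin t → Fin n → F} (ha : ∀ i, a i ∈ D i) (hb : ∀ i, b i ∈ D i)
    (hαa : ∀ i, α i ⬝ᵥ a i = 1) (hαb : ∀ i, α i ⬝ᵥ b i = 0) (hβa : ∀ i, β i ⬝ᵥ a i = 0) (hβb : ∀ i, β i ⬝ᵥ b i = 1)
    (h0 : ∀ i j, j ≠ i → ∀ x ∈ D j, α i ⬝ᵥ x = 0 ∧ β i ⬝ᵥ x = 0) (hx : ∀ i, ∀ x ∈ D i, x = (α i ⬝ᵥ x) • a i + (β i ⬝ᵥ x) • b i) :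
    IsSymplecticForm (fun u v : Fin n → F => ∑ i, ((α i ⬝ᵥ u) * (β i ⬝ᵥ v) - (β i ⬝ᵥ u) * (α i ⬝ᵥ v))) := by
  classical
  have hexp : ∀ v, v = ∑ k, ((α k ⬝ᵥ v) • a k + (β k ⬝ᵥ v) • b k) := by
    intro v
    obtain ⟨c, hc, rfl⟩ := exists_family' hD v
    refine Finset.sum_congr rfl fun k _ => ?_
    have h1 : ∀ w ∈ [α k, β k], w ⬝ᵥ (∑ i, c i) = w ⬝ᵥ c k := by
      simp only [List.mem_cons, List.not_mem_nil, or_false]
      rintro w (rfl | rfl)
      · rw [dotProduct_sum, Finset.sum_eq_single k]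
        · intro j _ hj
          exact (h0 k j hj _ (hc j)).1
        · simp
      · rw [dotProduct_sum, Finset.sum_eq_single k]
        · intro j _ hj
          exact (h0 k j hj _ (hc j)).2
        · simp
    rw [h1 _ (by simp), h1 _ (by simp)]
    exact hx k _ (hc k)
  have hne : ∀ v : Fin n → F, v ≠ 0 → ∃ i, α i ⬝ᵥ v ≠ 0 ∨ β i ⬝ᵥ v ≠ 0 := by
    intro v hv
    by_contra hcon
    push Not at hcon
    apply hv
    rw [hexp v]
    simp [hcon]
  have h1 : ∀ i j, j ≠ i → α i ⬝ᵥ a j = 0 ∧ β i ⬝ᵥ a j = 0 := fun i j h => h0 i j h _ (ha j)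
  have h2 : ∀ i j, j ≠ i → α i ⬝ᵥ b j = 0 ∧ β i ⬝ᵥ b j = 0 := fun i j h => h0 i j h _ (hb j)
  have ea : ∀ j v, (∑ i, ((α i ⬝ᵥ a j) * (β i ⬝ᵥ v) - (β i ⬝ᵥ a j) * (α i ⬝ᵥ v))) = β j ⬝ᵥ v := by
    intro j v
    rw [Finset.sum_eq_single j]
    · rw [hαa, hβa]
      ring
    · intro i _ hi
      rw [(h1 i j hi.symm).1, (h1 i j hi.symm).2]
      ring
    · simp
  have eb : ∀ j v, (∑ i, ((α i ⬝ᵥ b j) * (β i ⬝ᵥ v) - (β i ⬝ᵥ b j) * (α i ⬝ᵥ v))) = - (α j ⬝ᵥ v) := by
    intro j v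
    rw [Finset.sum_eq_single j]
    · rw [hαb, hβb]
      ring
    · intro i _ hi
      rw [(h2 i j hi.symm).1, (h2 i j hi.symm).2]
      ring
    · simp
  have ea' : ∀ j v, (∑ i, ((α i ⬝ᵥ v) * (β i ⬝ᵥ a j) - (β i ⬝ᵥ v) * (α i ⬝ᵥ a j))) = - (β j ⬝ᵥ v) := by
    intro j v
    rw [Finset.sum_eq_single j]
    · rw [hαa, hβa]
      ring
    · intro i _ hi
      rw [(h1 i j hi.symm).1, (h1 i j hi.symm).2]
      ring
    · simp
  have eb' : ∀ j v, (∑ i, ((α i ⬝ᵥ v) * (β i ⬝ᵥ b j) - (β i ⬝ᵥ v) * (α i ⬝ᵥ b j))) = α j ⬝ᵥ v := by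
    intro j v
    rw [Finset.sum_eq_single j]
    · rw [hαb, hβb]
      ring
    · intro i _ hi
      rw [(h2 i j hi.symm).1, (h2 i j hi.symm).2]
      ring
    · simp
  refine ⟨⟨?_, ?_, ?_, ?_⟩, ?_, ?_, ?_⟩
  · intro x y v
    rw [← Finset.sum_add_distrib]
    refine Finset.sum_congr rfl fun i _ => ?_
    rw [dotProduct_add, dotProduct_add]
    ring
  · intro c x v
    rw [Finset.mul_sum]
    refine Finset.sum_congr rfl fun i _ => ?_
    rw [dotProduct_smul, dotProduct_smul, smul_eq_mul, smul_eq_mul]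
    ring
  · intro v x y
    rw [← Finset.sum_add_distrib]
    refine Finset.sum_congr rfl fun i _ => ?_
    rw [dotProduct_add, dotProduct_add]
    ring
  · intro c v x
    rw [Finset.mul_sum]
    refine Finset.sum_congr rfl fun i _ => ?_
    rw [dotProduct_smul, dotProduct_smul, smul_eq_mul, smul_eq_mul]
    ring
  · intro v w
    rw [← Finset.sum_neg_distrib]
    refine Finset.sum_congr rfl fun i _ => ?_
    ring
  · intro v
    refine Finset.sum_eq_zero fun i _ => ?_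
    ring
  · intro v hv
    obtain ⟨i, hi | hi⟩ := hne v hv
    · refine ⟨⟨b i, ?_⟩, ⟨b i, ?_⟩⟩
      · show (∑ j, ((α j ⬝ᵥ b i) * (β j ⬝ᵥ v) - (β j ⬝ᵥ b i) * (α j ⬝ᵥ v))) ≠ 0
        rw [eb]
        exact neg_ne_zero.2 hi
      · show (∑ j, ((α j ⬝ᵥ v) * (β j ⬝ᵥ b i) - (β j ⬝ᵥ v) * (α j ⬝ᵥ b i))) ≠ 0
        rw [eb']
        exact hi
    · refine ⟨⟨a i, ?_⟩, ⟨a i, ?_⟩⟩
      · show (∑ j, ((α j ⬝ᵥ a i) * (β j ⬝ᵥ v) - (β j ⬝ᵥ a i) * (α j ⬝ᵥ v))) ≠ 0
        rw [ea]
        exact hi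
      · show (∑ j, ((α j ⬝ᵥ v) * (β j ⬝ᵥ a i) - (β j ⬝ᵥ v) * (α j ⬝ᵥ a i))) ≠ 0
        rw [ea']
        exact neg_ne_zero.2 hi

theorem bad_plane2 (hn3 : 3 ≤ n) (hq : Fintype.card F = 2) (hD : IsMDecomposition 2 D) {H : Subgroup (GL (Fin n) F)} (hH : H ≤ decompositionStabilizer D) : Bad0 H := by
  classical
  obtain ⟨a, b, α, β, ha, hb, hαa, hαb, hβa, hβb, h0, hx⟩ := plane_data hD
  have hf := plane_symp hD ha hb hαa hαb hβa hβb h0 hx
  have hcard := dec_card hD
  have ht := hD.two_le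
  refine Bad0.symp _ hf ⟨t, by omega⟩ (by omega) ?_
  intro g hg
  obtain ⟨σ, hσ⟩ := hH hg
  obtain ⟨δ, hδ, hf'⟩ := plane_form hD ha hb hαa hαb hβa hβb h0 hx hσ
  have h1' : ∀ x : F, x ≠ 0 → x = 1 := by
    intro x hx
    have := FiniteField.pow_card_sub_one_eq_one x hx
    rw [hq] at this
    simpa using this
  refine ⟨1, fun u v => ?_⟩
  simp only [Units.val_one, one_mul]
  rw [← Equiv.sum_comp σ]
  refine Finset.sum_congr rfl fun i _ => ?_
  rw [hf', h1' _ (hδ i), one_mul]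

end planes

end Cfsg.Agent.Lib.ClassMax.Asch
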