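import Mathlib
import Cfsg.Agent.Lib.ClassMax.Asch17

/-!
Degree of a field subalgebra; tensor decompositions with a factor of dimension two over the field with two elements.
-/

set_option autoImplicit false
set_option linter.unusedSimpArgs false
set_option linter.unusedVariables false
set_option linter.unusedSectionVars false
set_option linter.unusedFintypeInType false
set_option linter.unusedDecidableInType false

namespace Cfsg.Agent.Lib.ClassMax.Asch

open Module Matrix Cfsg.Geo Cfsg.Agent.Lib.ClassMax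
open scoped Kronecker

variable {F : Type*} [Field F] [Fintype F] {n : ℕ}

local notation "MM" => Matrix (Fin n) (Fin n) F

theorem fld_dvd (hn : 0 < n) {k : ℕ} {K : Subalgebra F MM} (hK : IsFieldSubalgebra k K) : k ∣ n := by
  haveI : Nonempty (Fin n) := ⟨⟨0, hn⟩⟩
  have isF : IsField K :=
    { exists_pair_ne := ⟨0, 1, fun h => (one_ne_zero (α := MM)) (congrArg Subtype.val h).symm⟩
      mul_comm := fun a b => Subtype.ext (hK.comm a a.2 b b.2)
      mul_inv_cancel := by
        intro a ha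
        obtain ⟨y, hy, hay⟩ := hK.inv a a.2 (fun h => ha (Subtype.ext h))
        exact ⟨⟨y, hy⟩, Subtype.ext hay⟩ }
  letI fK : Field K := isF.toField
  letI mK : Module K (Fin n → F) :=
    { smul := fun a v => a.1 *ᵥ v
      one_smul := fun v => Matrix.one_mulVec v
      mul_smul := fun a b v => (Matrix.mulVec_mulVec v a.1 b.1).symm
      smul_zero := fun a => Matrix.mulVec_zero _
      smul_add := fun a u v => Matrix.mulVec_add _ _ _
      add_smul := fun a b v => Matrix.add_mulVec _ _ _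
      zero_smul := fun v => Matrix.zero_mulVec v }
  haveI tw : IsScalarTower F K (Fin n → F) := ⟨fun c a v => Matrix.smul_mulVec c a.1 v⟩
  haveI : Finite K := Subtype.finite
  haveI : Module.Finite F K := Module.Finite.of_finite
  haveI : Module.Finite K (Fin n → F) := Module.Finite.of_restrictScalars_finite F K _
  have h := Module.finrank_mul_finrank F K (Fin n → F)
  rw [hK.finrank_eq, finrank_fin_fun] at h
  exact Dvd.intro _ h

section two

variable (hq : Fintype.card F = 2)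

include hq

theorem two_zero : (2 : F) = 0 := by
  have := Nat.cast_card_eq_zero F
  rw [hq] at this
  exact_mod_cast this

theorem zero_or_one (x : F) : x = 0 ∨ x = 1 := by
  by_cases h : x = 0
  · exact Or.inl h
  · right
    have := FiniteField.pow_card_sub_one_eq_one x h
    rw [hq] at this
    simpa using this

theorem add_self' (x : F) : x + x = 0 := by
  have := two_zero (F := F) hq
  linear_combination x * this

/-- The field of four elements generated by an element of order three. -/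
theorem quad_field {θ : MM} (hn : 0 < n) (hθ : θ * θ + θ + 1 = 0) :
    ∃ K : Subalgebra F MM, IsFieldSubalgebra 2 K ∧ ∀ x, x ∈ K ↔ ∃ a b : F, x = a • 1 + b • θ := by
  classical
  haveI : Nonempty (Fin n) := ⟨⟨0, hn⟩⟩
  have h2 : (2 : F) = 0 := two_zero hq
  have hsq : θ * θ = θ + 1 := by
    have h3 : (2 : F) • θ + (2 : F) • (1 : MM) = 0 := by rw [h2, zero_smul, zero_smul, add_zero]
    have h4 : (2 : F) • θ = θ + θ := two_smul F θ
    have h5 : (2 : F) • (1 : MM) = 1 + 1 := two_smul F 1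
    rw [h4, h5] at h3
    calc θ * θ = (θ * θ + θ + 1) + (θ + 1) - ((θ + θ) + (1 + 1)) := by abel
      _ = θ + 1 := by rw [hθ, h3]; simp
  let K : Subalgebra F MM :=
    { carrier := {x | ∃ a b : F, x = a • 1 + b • θ}
      mul_mem' := by
        rintro _ _ ⟨a, b, rfl⟩ ⟨c, d, rfl⟩
        refine ⟨a * c + b * d, a * d + b * c + b * d, ?_⟩
        simp only [add_mul, mul_add, Matrix.smul_mul, Matrix.mul_smul, one_mul, mul_one, hsq, smul_smul, smul_add]
        module
      add_mem' := by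
        rintro _ _ ⟨a, b, rfl⟩ ⟨c, d, rfl⟩
        refine ⟨a + c, b + d, ?_⟩
        module
      algebraMap_mem' := by
        intro r
        refine ⟨r, 0, ?_⟩
        rw [Algebra.algebraMap_eq_smul_one, zero_smul, add_zero] }
  have hmem : ∀ x, x ∈ K ↔ ∃ a b : F, x = a • 1 + b • θ := fun x => Iff.rfl
  have hnot : ∀ c : F, θ ≠ c • 1 := by
    intro c hc
    rw [hc] at hθ
    have h3 := congrFun (congrFun hθ ⟨0, hn⟩) ⟨0, hn⟩
    simp at h3
    rcases zero_or_one hq c with rfl | rfl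
    · simp at h3
    · rw [mul_one] at h3
      have h4 : (1 : F) + 1 = 0 := add_self' hq 1
      rw [h4, zero_add] at h3
      exact one_ne_zero h3
  have hinj : ∀ a b : F, a • (1 : MM) + b • θ = 0 → a = 0 ∧ b = 0 := by
    intro a b h
    have hb : b = 0 := by
      by_contra hb
      apply hnot (-(b⁻¹ * a))
      have h3 : b • θ = (-a) • (1 : MM) := by
        rw [neg_smul]
        exact eq_neg_of_add_eq_zero_right h
      calc θ = b⁻¹ • (b • θ) := by rw [smul_smul, inv_mul_cancel₀ hb, one_smul]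
        _ = _ := by rw [h3, smul_smul]; congr 1; ring
    subst hb
    rw [zero_smul, add_zero] at h
    refine ⟨?_, rfl⟩
    have h3 := congrFun (congrFun h ⟨0, hn⟩) ⟨0, hn⟩
    simpa using h3
  refine ⟨K, ⟨?_, ?_, ?_⟩, hmem⟩
  · rintro _ ⟨a, b, rfl⟩ _ ⟨c, d, rfl⟩
    simp only [add_mul, mul_add, Matrix.smul_mul, Matrix.mul_smul, one_mul, mul_one, smul_smul, smul_add]
    module
  · rintro _ ⟨a, b, rfl⟩ hx
    have hθ1 : θ * (θ + 1) = 1 := by
      rw [mul_add, mul_one, hsq]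
      have h3 : θ + θ = 0 := by
        have : (2 : F) • θ = θ + θ := two_smul F θ
        rw [← this, h2, zero_smul]
      calc θ + 1 + θ = (θ + θ) + 1 := by abel
        _ = 1 := by rw [h3, zero_add]
    rcases zero_or_one hq a with rfl | rfl <;> rcases zero_or_one hq b with rfl | rfl
    · exact absurd (by simp) hx
    · refine ⟨θ + 1, ⟨1, 1, by simp [add_comm]⟩, ?_⟩
      simpa using hθ1
    · exact ⟨1, ⟨1, 0, by simp⟩, by simp⟩
    · refine ⟨θ, ⟨0, 1, by simp⟩, ?_⟩
      simp only [one_smul]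
      have : θ * (θ + 1) = (1 + θ) * θ := by
        rw [add_mul, mul_add, one_mul, mul_one]
        abel
      rw [← this]
      exact hθ1
  · let L : (F × F) →ₗ[F] K :=
      { toFun := fun x => ⟨x.1 • 1 + x.2 • θ, x.1, x.2, rfl⟩
        map_add' := by
          intro x y
          apply Subtype.ext
          show (x.1 + y.1) • (1 : MM) + (x.2 + y.2) • θ = (x.1 • 1 + x.2 • θ) + (y.1 • 1 + y.2 • θ)
          module
        map_smul' := by
          intro c x
          apply Subtype.ext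
          show (c * x.1) • (1 : MM) + (c * x.2) • θ = c • (x.1 • 1 + x.2 • θ)
          module }
    have hLb : Function.Bijective L := by
      constructor
      · rw [injective_iff_map_eq_zero]
        rintro ⟨a, b⟩ h
        have h3 := hinj a b (congrArg Subtype.val h)
        exact Prod.ext h3.1 h3.2
      · rintro ⟨x, a, b, rfl⟩
        exact ⟨(a, b), rfl⟩
    have h3 := (LinearEquiv.ofBijective L hLb).finrank_eq
    rw [← h3]
    simp

/-- Matrices of size two over the field with two elements with `X² + X + 1 = 0`. -/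
theorem sq_cases {X : Matrix (Fin 2) (Fin 2) F} (hX : X * X + X + 1 = 0) :
    X = !![0, 1; 1, 1] ∨ X = !![1, 1; 1, 0] := by
  have e00 := congrFun (congrFun hX 0) 0
  have e01 := congrFun (congrFun hX 0) 1
  have e10 := congrFun (congrFun hX 1) 0
  have e11 := congrFun (congrFun hX 1) 1
  simp only [Matrix.add_apply, Matrix.mul_apply, Fin.sum_univ_two, Matrix.one_apply, Matrix.zero_apply] at e00 e01 e10 e11
  simp at e00 e01 e10 e11
  have hz := zero_or_one hq
  have h2 := add_self' hq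
  rcases hz (X 0 0) with a | a <;> rcases hz (X 0 1) with b | b <;> rcases hz (X 1 0) with c | c <;> rcases hz (X 1 1) with d | d <;>
    simp only [a, b, c, d] at e00 e01 e10 e11 <;> simp [h2] at e00 e01 e10 e11
  · left
    ext i j
    fin_cases i <;> fin_cases j <;> simp [a, b, c, d]
  · right
    ext i j
    fin_cases i <;> fin_cases j <;> simp [a, b, c, d]

theorem bad_tp2 (hn : 0 < n) {k : ℕ} (e : Fin n ≃ Fin 2 × Fin k) (P : GL (Fin n) F) {H : Subgroup (GL (Fin n) F)}
    (hH : H ≤ tensorProductSubgroup 2 k e P) : Bad0 H := by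
  classical
  have hadd := add_self' hq
  let ω : Matrix (Fin 2) (Fin 2) F := !![0, 1; 1, 1]
  let ω' : Matrix (Fin 2) (Fin 2) F := !![1, 1; 1, 0]
  have hω : ω * ω + ω + 1 = 0 := by
    ext i j
    fin_cases i <;> fin_cases j <;> simp [ω, Matrix.mul_apply, Fin.sum_univ_two, hadd]
  have hω' : ω' = ω + 1 := by
    ext i j
    fin_cases i <;> fin_cases j <;> simp [ω, ω', hadd]
  let R : Matrix (Fin 2 × Fin k) (Fin 2 × Fin k) F →ₐ[F] MM := (Matrix.reindexAlgEquiv F F e.symm).toAlgHom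
  let ψ : Matrix (Fin 2) (Fin 2) F → MM := fun X => (P : MM) * R (X ⊗ₖ (1 : Matrix (Fin k) (Fin k) F)) * ((P⁻¹ : GL (Fin n) F) : MM)
  have hPP : ((P⁻¹ : GL (Fin n) F) : MM) * (P : MM) = 1 := by
    rw [← Units.val_mul, inv_mul_cancel]
    rfl
  have hPP' : (P : MM) * ((P⁻¹ : GL (Fin n) F) : MM) = 1 := by
    rw [← Units.val_mul, mul_inv_cancel]
    rfl
  have hψmul : ∀ X Y, ψ X * ψ Y = ψ (X * Y) := by
    intro X Y
    simp only [ψ]
    calc (P : MM) * R (X ⊗ₖ (1 : Matrix (Fin k) (Fin k) F)) * ((P⁻¹ : GL (Fin n) F) : MM) * ((P : MM) * R (Y ⊗ₖ (1 : Matrix (Fin k) (Fin k) F)) * ((P⁻¹ : GL (Fin n) F) : MM))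
        = (P : MM) * R (X ⊗ₖ (1 : Matrix (Fin k) (Fin k) F)) * (((P⁻¹ : GL (Fin n) F) : MM) * (P : MM)) * R (Y ⊗ₖ (1 : Matrix (Fin k) (Fin k) F)) * ((P⁻¹ : GL (Fin n) F) : MM) := by
          simp only [mul_assoc]
      _ = (P : MM) * (R (X ⊗ₖ (1 : Matrix (Fin k) (Fin k) F)) * R (Y ⊗ₖ (1 : Matrix (Fin k) (Fin k) F))) * ((P⁻¹ : GL (Fin n) F) : MM) := by
          rw [hPP, mul_one]
          simp only [mul_assoc]
      _ = _ := by
          rw [← map_mul, ← Matrix.mul_kronecker_mul, one_mul]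
  have hψone : ψ 1 = 1 := by
    simp only [ψ]
    rw [Matrix.one_kronecker_one, map_one, mul_one, hPP']
  have hψadd : ∀ X Y, ψ (X + Y) = ψ X + ψ Y := by
    intro X Y
    simp only [ψ]
    rw [Matrix.add_kronecker, map_add, mul_add, add_mul]
  have hψzero : ψ 0 = 0 := by
    simp only [ψ]
    rw [Matrix.zero_kronecker, map_zero, mul_zero, zero_mul]
  set θ : MM := ψ ω with hθdef
  have hθ : θ * θ + θ + 1 = 0 := by
    rw [hθdef, hψmul, ← hψone, ← hψadd, ← hψadd, hω, hψzero]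
  obtain ⟨K, hK, hKm⟩ := quad_field hq hn hθ
  -- conjugation
  have hconj : ∀ g ∈ tensorProductSubgroup 2 k e P, ∀ x ∈ K, (g : MM) * x * ((g⁻¹ : GL (Fin n) F) : MM) ∈ K := by
    intro g hg x hx
    obtain ⟨y, ⟨h, ⟨A, B, hAB⟩, rfl⟩, hy⟩ := hg
    have hg1 : g = P * glReindex e.symm h * P⁻¹ := hy.symm
    have hgm : (g : MM) = (P : MM) * R (((A : Matrix (Fin 2) (Fin 2) F)) ⊗ₖ ((B : Matrix (Fin k) (Fin k) F))) * ((P⁻¹ : GL (Fin n) F) : MM) := by
      rw [hg1, ← hAB]
      rfl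
    have hggm : ((g⁻¹ : GL (Fin n) F) : MM) * (g : MM) = 1 := by
      rw [← Units.val_mul, inv_mul_cancel]
      rfl
    have hgg : (g : MM) * ((g⁻¹ : GL (Fin n) F) : MM) = 1 := by
      rw [← Units.val_mul, mul_inv_cancel]
      rfl
    have hAA : ((A⁻¹ : GL (Fin 2) F) : Matrix (Fin 2) (Fin 2) F) * (A : Matrix (Fin 2) (Fin 2) F) = 1 := by
      rw [← Units.val_mul, inv_mul_cancel]
      rfl
    have hAA' : (A : Matrix (Fin 2) (Fin 2) F) * ((A⁻¹ : GL (Fin 2) F) : Matrix (Fin 2) (Fin 2) F) = 1 := by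
      rw [← Units.val_mul, mul_inv_cancel]
      rfl
    have hrel : ∀ X, (g : MM) * ψ X = ψ ((A : Matrix (Fin 2) (Fin 2) F) * X * ((A⁻¹ : GL (Fin 2) F) : Matrix (Fin 2) (Fin 2) F)) * (g : MM) := by
      intro X
      simp only [ψ]
      rw [hgm]
      calc (P : MM) * R (((A : Matrix (Fin 2) (Fin 2) F)) ⊗ₖ ((B : Matrix (Fin k) (Fin k) F))) * ((P⁻¹ : GL (Fin n) F) : MM) * ((P : MM) * R (X ⊗ₖ (1 : Matrix (Fin k) (Fin k) F)) * ((P⁻¹ : GL (Fin n) F) : MM))
          = (P : MM) * (R (((A : Matrix (Fin 2) (Fin 2) F)) ⊗ₖ ((B : Matrix (Fin k) (Fin k) F))) * (((P⁻¹ : GL (Fin n) F) : MM) * (P : MM)) * R (X ⊗ₖ (1 : Matrix (Fin k) (Fin k) F))) * ((P⁻¹ : GL (Fin n) F) : MM) := by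
            simp only [mul_assoc]
        _ = (P : MM) * R (((A : Matrix (Fin 2) (Fin 2) F) * X) ⊗ₖ ((B : Matrix (Fin k) (Fin k) F))) * ((P⁻¹ : GL (Fin n) F) : MM) := by
            rw [hPP, mul_one, ← map_mul, ← Matrix.mul_kronecker_mul, mul_one]
        _ = (P : MM) * (R ((((A : Matrix (Fin 2) (Fin 2) F) * X * ((A⁻¹ : GL (Fin 2) F) : Matrix (Fin 2) (Fin 2) F)) ⊗ₖ (1 : Matrix (Fin k) (Fin k) F))) * (((P⁻¹ : GL (Fin n) F) : MM) * (P : MM)) * R (((A : Matrix (Fin 2) (Fin 2) F)) ⊗ₖ ((B : Matrix (Fin k) (Fin k) F)))) * ((P⁻¹ : GL (Fin n) F) : MM) := by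
            rw [hPP, mul_one, ← map_mul, ← Matrix.mul_kronecker_mul, one_mul, mul_assoc _ _ (A : Matrix (Fin 2) (Fin 2) F), hAA, mul_one]
        _ = _ := by
            simp only [mul_assoc]
    have hconjψ : ∀ X, (g : MM) * ψ X * ((g⁻¹ : GL (Fin n) F) : MM) = ψ ((A : Matrix (Fin 2) (Fin 2) F) * X * ((A⁻¹ : GL (Fin 2) F) : Matrix (Fin 2) (Fin 2) F)) := by
      intro X
      rw [hrel, mul_assoc, hgg, mul_one]
    obtain ⟨a, b, rfl⟩ := (hKm x).1 hx
    have h1 : (g : MM) * (a • (1 : MM) + b • θ) * ((g⁻¹ : GL (Fin n) F) : MM) = a • 1 + b • ((g : MM) * θ * ((g⁻¹ : GL (Fin n) F) : MM)) := by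
      rw [mul_add, add_mul, Matrix.mul_smul, Matrix.mul_smul, Matrix.smul_mul, Matrix.smul_mul, mul_one, hgg]
    rw [h1, hθdef, hconjψ]
    set Y := (A : Matrix (Fin 2) (Fin 2) F) * ω * ((A⁻¹ : GL (Fin 2) F) : Matrix (Fin 2) (Fin 2) F) with hY
    have hYq : Y * Y + Y + 1 = 0 := by
      have h2 : Y * Y = (A : Matrix (Fin 2) (Fin 2) F) * (ω * ω) * ((A⁻¹ : GL (Fin 2) F) : Matrix (Fin 2) (Fin 2) F) := by
        rw [hY]
        calc (A : Matrix (Fin 2) (Fin 2) F) * ω * ((A⁻¹ : GL (Fin 2) F) : Matrix (Fin 2) (Fin 2) F) * ((A : Matrix (Fin 2) (Fin 2) F) * ω * ((A⁻¹ : GL (Fin 2) F) : Matrix (Fin 2) (Fin 2) F))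
            = (A : Matrix (Fin 2) (Fin 2) F) * ω * (((A⁻¹ : GL (Fin 2) F) : Matrix (Fin 2) (Fin 2) F) * (A : Matrix (Fin 2) (Fin 2) F)) * ω * ((A⁻¹ : GL (Fin 2) F) : Matrix (Fin 2) (Fin 2) F) := by
              simp only [mul_assoc]
          _ = _ := by
              rw [hAA, mul_one]
              simp only [mul_assoc]
      have h3 : Y * Y + Y + 1 = (A : Matrix (Fin 2) (Fin 2) F) * (ω * ω + ω + 1) * ((A⁻¹ : GL (Fin 2) F) : Matrix (Fin 2) (Fin 2) F) := by
        rw [h2, hY, mul_add, mul_add, add_mul, add_mul, mul_one, hAA']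
      rw [h3, hω, mul_zero, zero_mul]
    rw [hKm]
    rcases sq_cases hq hYq with h4 | h4
    · refine ⟨a, b, ?_⟩
      rw [h4]
    · refine ⟨a + b, b, ?_⟩
      have h5 : Y = ω + 1 := by rw [h4, ← hω']
      rw [h5, hψadd, hψone, ← hθdef]
      module
  refine Bad0.fld K Nat.prime_two hK ?_
  intro g hg k'
  have hgM := hH hg
  constructor
  · exact hconj g hgM k'
  · intro h
    have h1 := hconj g⁻¹ (Subgroup.inv_mem _ hgM) _ h
    have h2 : ((g⁻¹ : GL (Fin n) F) : MM) * ((g : MM) * k' * ((g⁻¹ : GL (Fin n) F) : MM)) * ((g⁻¹⁻¹ : GL (Fin n) F) : MM) = k' := by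
      rw [inv_inv]
      have e1 : ((g⁻¹ : GL (Fin n) F) : MM) * (g : MM) = 1 := by
        rw [← Units.val_mul, inv_mul_cancel]
        rfl
      have e2 : ((g⁻¹ : GL (Fin n) F) : MM) * (g : MM) = 1 := e1
      calc ((g⁻¹ : GL (Fin n) F) : MM) * ((g : MM) * k' * ((g⁻¹ : GL (Fin n) F) : MM)) * (g : MM)
          = (((g⁻¹ : GL (Fin n) F) : MM) * (g : MM)) * k' * (((g⁻¹ : GL (Fin n) F) : MM) * (g : MM)) := by simp only [mul_assoc]
        _ = k' := by rw [e1, one_mul, mul_one]
    rwa [h2] at h1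

end two

end Cfsg.Agent.Lib.ClassMax.Asch
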