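import Mathlib
import Cfsg.Agent.Lib.ClassMax.Asch18

/-!
Maximal subgroups of the special linear group: the general case list, and arithmetic for the sixth class.
-/

set_option autoImplicit false
set_option linter.unusedSimpArgs false
set_option linter.unusedVariables false
set_option linter.unusedSectionVars false
set_option linter.unusedFintypeInType false
set_option linter.unusedDecidableInType false

namespace Cfsg.Agent.Lib.ClassMax.Asch

open Module Matrix Cfsg.Geo Cfsg.Agent.Lib.ClassMax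

variable {F : Type*} [Field F] [Fintype F] {n : ℕ}

local notation "MM" => Matrix (Fin n) (Fin n) F

theorem not_le_scalars_of_irr (hn3 : 3 ≤ n) {R : Subgroup (GL (Fin n) F)} (hirr : ActsIrreducibly (matrixSet R)) : ¬ R ≤ scalars (Fin n) F := by
  intro hle
  let i0 : Fin n := ⟨0, by omega⟩
  let i1 : Fin n := ⟨1, by omega⟩
  rcases hirr (Submodule.span F {(Pi.single i0 1 : Fin n → F)}) (by
    rintro _ ⟨g, hg, rfl⟩ _ ⟨w, hw, rfl⟩
    obtain ⟨c, hc⟩ := (mem_scalars_iff g).1 (hle hg)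
    simp only [Matrix.toLin'_apply]
    rw [hc, Matrix.smul_mulVec, Matrix.one_mulVec]
    exact Submodule.smul_mem _ _ hw) with h | h
  · rw [Submodule.span_singleton_eq_bot] at h
    have := congrFun h i0
    simp at this
  · have h1 : (Pi.single i1 1 : Fin n → F) ∈ Submodule.span F {(Pi.single i0 1 : Fin n → F)} := by
      rw [h]
      trivial
    obtain ⟨c, hc⟩ := Submodule.mem_span_singleton.1 h1
    have h2 := congrFun hc i1
    have h3 : i1 ≠ i0 := by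
      intro h
      have := congrArg Fin.val h
      simp [i0, i1] at this
    simp [Pi.single_apply, h3] at h2

theorem sl_not_le_six (hn3 : 3 ≤ n) {r : ℕ} {R : Subgroup (GL (Fin n) F)} (hR : IsLinearSymplecticTypeData r R) :
    ¬ specialLinear (Fin n) F ≤ subgroupNormalizer R := by
  obtain ⟨p, e, hrp, ⟨hp, hchar, -⟩, -⟩ := hR.field
  refine sl_not_le_normalizer hn3 hR.symplecticType.prime hR.symplecticType.pGroup ?_ (not_le_scalars_of_irr hn3 hR.absIrred.1)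
  intro h0
  haveI := hchar
  have h1 : p ∣ r := (CharP.cast_eq_zero_iff F p r).1 h0
  exact hrp ((Nat.prime_dvd_prime_iff_eq hp hR.symplecticType.prime).1 h1).symm

theorem ne_top_of_card {F₀ : Subfield F} {r : ℕ} (hr : r.Prime) (hc : Fintype.card F = Nat.card F₀ ^ r) : F₀ ≠ ⊤ := by
  rintro rfl
  have h1 : Nat.card (⊤ : Subfield F) = Fintype.card F :=
    (Nat.card_congr Subfield.topEquiv.toEquiv).trans Nat.card_eq_fintype_card
  rw [h1] at hc
  have hq : 1 < Fintype.card F := Fintype.one_lt_card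
  have h2 : Fintype.card F ^ 1 = Fintype.card F ^ r := by rw [pow_one]; exact hc
  have h3 := Nat.pow_right_injective (a := Fintype.card F) (by omega) h2
  exact hr.one_lt.ne h3

/-- The general list of maximal subgroups of the special linear group. -/
abbrev MaxList (H : Subgroup (GL (Fin n) F)) : Prop :=
    (∃ W : Submodule F (Fin n → F), W ≠ ⊥ ∧ W ≠ ⊤ ∧ H = subspaceStabilizer W ⊓ specialLinear (Fin n) F) ∨
    (∃ (t m : ℕ) (D : Fin t → Submodule F (Fin n → F)), IsMDecomposition m D ∧ t * m = n ∧ (m = 1 → 5 ≤ Fintype.card F) ∧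
      (m = 2 → 3 ≤ Fintype.card F) ∧ H = decompositionStabilizer D ⊓ specialLinear (Fin n) F) ∨
    (∃ (r : ℕ) (K : Subalgebra F MM), r.Prime ∧ r ∣ n ∧ IsFieldSubalgebra r K ∧ H = subalgebraNormalizer K ⊓ specialLinear (Fin n) F) ∨
    (∃ (n₁ n₂ : ℕ) (e : Fin n ≃ Fin n₁ × Fin n₂) (P : GL (Fin n) F), 2 ≤ n₁ ∧ n₁ < n₂ ∧ n₁ * n₂ = n ∧ (n₁ = 2 → 3 ≤ Fintype.card F) ∧
      H = tensorProductSubgroup n₁ n₂ e P ⊓ specialLinear (Fin n) F) ∨
    (∃ (F₀ : Subfield F) (r : ℕ) (P : GL (Fin n) F), r.Prime ∧ Fintype.card F = Nat.card F₀ ^ r ∧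
      H = subfieldSubgroup F₀ P ⊓ specialLinear (Fin n) F) ∨
    (∃ (r m : ℕ) (R : Subgroup (GL (Fin n) F)), IsLinearSymplecticTypeData r R ∧ n = r ^ m ∧ H = subgroupNormalizer R ⊓ specialLinear (Fin n) F) ∨
    (∃ (m t : ℕ) (e : Fin n ≃ (Fin t → Fin m)) (P : GL (Fin n) F), 3 ≤ m ∧ 2 ≤ t ∧ m ^ t = n ∧
      H = tensorWreathSubgroup m t e P ⊓ specialLinear (Fin n) F) ∨
    (∃ f : (Fin n → F) → (Fin n → F) → F, IsSymplecticForm f ∧ Even n ∧ 4 ≤ n ∧ H = similarityGroup f ⊓ specialLinear (Fin n) F) ∨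
    (∃ (σ : F ≃+* F) (f : (Fin n → F) → (Fin n → F) → F), IsUnitaryForm σ f ∧ H = similarityGroup f ⊓ specialLinear (Fin n) F) ∨
    (Odd (Fintype.card F) ∧ ∃ Q : (Fin n → F) → F, IsNondegenerateQuadraticForm Q ∧ H = quadSimilarityGroup Q ⊓ specialLinear (Fin n) F) ∨
    InLinearResidualClass H

/-- The general list of maximal subgroups of the special linear group. -/
theorem max_cases (hn3 : 3 ≤ n) {H : Subgroup (GL (Fin n) F)} (hH : IsMaximalIn (specialLinear (Fin n) F) H) : MaxList H := by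
  have hn0 : 0 < n := by omega
  have fsub : ∀ {W : Submodule F (Fin n → F)}, W ≠ ⊥ → W ≠ ⊤ → H ≤ subspaceStabilizer W → MaxList H := fun {W} h0 h1 h =>
    Or.inl ⟨W, h0, h1, eq_inf_of_le hH h (sl_not_le_stab h0 h1)⟩
  rcases bad_or_residual hn3 H with hB | hR
  · have hB0 : Bad0 H → MaxList H := by
      intro hB0
      rcases hB0 with ⟨W, h0, h1, h⟩ | ⟨K, hr, hK, h⟩ | ⟨f, hf, he, h4, h⟩ | ⟨σ, f, hf, h3, h⟩ | ⟨Q, hQ, ho, h3, h⟩
      · exact fsub h0 h1 h
      · exact Or.inr (Or.inr (Or.inl ⟨_, K, hr, fld_dvd hn0 hK, hK, eq_inf_of_le hH h (sl_not_le_fld hn3 hr.two_le hK)⟩))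
      · exact Or.inr (Or.inr (Or.inr (Or.inr (Or.inr (Or.inr (Or.inr (Or.inl ⟨f, hf, he, h4, eq_inf_of_le hH h (sl_not_le_symp hn3 hf)⟩)))))))
      · exact Or.inr (Or.inr (Or.inr (Or.inr (Or.inr (Or.inr (Or.inr (Or.inr (Or.inl ⟨σ, f, hf, eq_inf_of_le hH h (sl_not_le_unit hn3 hf)⟩))))))))
      · exact Or.inr (Or.inr (Or.inr (Or.inr (Or.inr (Or.inr (Or.inr (Or.inr (Or.inr (Or.inl ⟨ho, Q, hQ, eq_inf_of_le hH h (sl_not_le_quad hn3 hQ)⟩)))))))))
    rcases hB with ⟨W, h0, h1, h⟩ | @⟨t, m, D, hD, h⟩ | @⟨r, K, hr, hK, h⟩ | @⟨n₁, n₂, e, P, h1, h2, h⟩ | @⟨F₀, r, P, hr, hc, h⟩ | @⟨r, m, R, hR, hnr, h⟩ |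
      @⟨m, t, e, P, h1, h2, h⟩ | ⟨f, hf, he, h4, h⟩ | ⟨σ, f, hf, h3, h⟩ | ⟨Q, hQ, ho, h3, h⟩
    · exact fsub h0 h1 h
    · by_cases hm1 : m = 1 ∧ Fintype.card F < 5
      · obtain ⟨rfl, hq⟩ := hm1
        exact hB0 (bad_mono_small hn3 hq hD h)
      · by_cases hm2 : m = 2 ∧ Fintype.card F < 3
        · obtain ⟨rfl, hq⟩ := hm2
          have hq1 : 1 < Fintype.card F := Fintype.one_lt_card
          exact hB0 (bad_plane2 hn3 (by omega) hD h)
        · exact Or.inr (Or.inl ⟨t, m, D, hD, dec_card hD, fun h => by by_contra hc; exact hm1 ⟨h, by omega⟩,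
            fun h => by by_contra hc; exact hm2 ⟨h, by omega⟩, eq_inf_of_le hH h (sl_not_le_dec hD)⟩)
    · exact Or.inr (Or.inr (Or.inl ⟨_, K, hr, fld_dvd hn0 hK, hK, eq_inf_of_le hH h (sl_not_le_fld hn3 hr.two_le hK)⟩))
    · have hcard : n₁ * n₂ = n := by
        have := Fintype.card_congr e
        simp at this
        exact this.symm
      by_cases hq : n₁ = 2 ∧ Fintype.card F < 3
      · obtain ⟨rfl, hq⟩ := hq
        have hq1 : 1 < Fintype.card F := Fintype.one_lt_card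
        exact hB0 (bad_tp2 (by omega) hn0 e P h)
      · exact Or.inr (Or.inr (Or.inr (Or.inl ⟨n₁, n₂, e, P, h1, h2, hcard, fun h => by by_contra hc; exact hq ⟨h, by omega⟩,
          eq_inf_of_le hH h (sl_not_le_tp h1 (by omega) e P)⟩)))
    · exact Or.inr (Or.inr (Or.inr (Or.inr (Or.inl ⟨F₀, r, P, hr, hc, eq_inf_of_le hH h (sl_not_le_sbf (ne_top_of_card hr hc) (by omega) P)⟩))))
    · exact Or.inr (Or.inr (Or.inr (Or.inr (Or.inr (Or.inl ⟨r, m, R, hR, hnr, eq_inf_of_le hH h (sl_not_le_six hn3 hR)⟩)))))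
    · have hcard : m ^ t = n := by
        have := Fintype.card_congr e
        simp at this
        exact this.symm
      exact Or.inr (Or.inr (Or.inr (Or.inr (Or.inr (Or.inr (Or.inl ⟨m, t, e, P, h1, h2, hcard, eq_inf_of_le hH h (sl_not_le_tw (by omega) h2 e P)⟩))))))
    · exact Or.inr (Or.inr (Or.inr (Or.inr (Or.inr (Or.inr (Or.inr (Or.inl ⟨f, hf, he, h4, eq_inf_of_le hH h (sl_not_le_symp hn3 hf)⟩)))))))
    · exact Or.inr (Or.inr (Or.inr (Or.inr (Or.inr (Or.inr (Or.inr (Or.inr (Or.inl ⟨σ, f, hf, eq_inf_of_le hH h (sl_not_le_unit hn3 hf)⟩))))))))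
    · exact Or.inr (Or.inr (Or.inr (Or.inr (Or.inr (Or.inr (Or.inr (Or.inr (Or.inr (Or.inl ⟨ho, Q, hQ, eq_inf_of_le hH h (sl_not_le_quad hn3 hQ)⟩)))))))))
  · exact Or.inr (Or.inr (Or.inr (Or.inr (Or.inr (Or.inr (Or.inr (Or.inr (Or.inr (Or.inr hR)))))))))

/-- The field conditions of the sixth class. -/
theorem six_data {r : ℕ} {R : Subgroup (GL (Fin n) F)} (hn3 : 3 ≤ n) (hR : IsLinearSymplecticTypeData r R) :
    ∃ p e : ℕ, p.Prime ∧ CharP F p ∧ Fintype.card F = p ^ e ∧ r ≠ p ∧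
      ((Odd r ∧ Odd e ∧ r ∣ p ^ e - 1 ∧ ∀ d, 0 < d → d < e → ¬ r ∣ p ^ d - 1) ∨ (r = 2 ∧ e = 1 ∧ 4 ∣ p - 1)) := by
  obtain ⟨p, e, hrp, ⟨hp, hchar, hcard, hz, hmin⟩, hcase⟩ := hR.field
  refine ⟨p, e, hp, hchar, hcard, hrp, ?_⟩
  rcases hcase with ⟨hro, he, h1, -⟩ | ⟨h2, he, h1, -⟩ | ⟨-, -, h3, -⟩
  · left
    rw [h1] at hz hmin
    exact ⟨hro, he, hz, hmin⟩
  · right
    rw [h1] at hz
    refine ⟨h2, he, ?_⟩
    rw [he, pow_one] at hz
    exact hz
  · simp at h3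
    omega

theorem res_of {p d r : ℕ} (hp : 0 < p) (h : r ∣ p ^ d - 1) : (p % r) ^ d % r = 1 % r := by
  have h1 : 1 ≤ p ^ d := Nat.one_le_pow _ _ hp
  have h2 := (Nat.modEq_iff_dvd' h1).2 h
  rw [← Nat.pow_mod]
  exact h2.symm

theorem of_res {p d r : ℕ} (hp : 0 < p) (h : (p % r) ^ d % r = 1 % r) : r ∣ p ^ d - 1 := by
  have h1 : 1 ≤ p ^ d := Nat.one_le_pow _ _ hp
  apply (Nat.modEq_iff_dvd' h1).1
  rw [← Nat.pow_mod] at h
  exact h.symm

theorem mod_ne_zero_of {p r : ℕ} (hp : p.Prime) (hr : r.Prime) (hrp : r ≠ p) : p % r ≠ 0 := by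
  intro h
  exact hrp ((Nat.prime_dvd_prime_iff_eq hr hp).1 (Nat.dvd_of_mod_eq_zero h))

theorem arith3 {p e : ℕ} (hp : p.Prime) (hrp : 3 ≠ p) (he : Odd e) (h1 : 3 ∣ p ^ e - 1) (hm : ∀ d, 0 < d → d < e → ¬ 3 ∣ p ^ d - 1) :
    e = 1 ∧ p % 3 = 1 := by
  have ha0 := mod_ne_zero_of hp (by norm_num) hrp
  have ha : p % 3 < 3 := Nat.mod_lt _ (by norm_num)
  have hres := res_of hp.pos h1
  have hle : e ≤ 2 := by
    by_contra hlt
    apply hm 2 (by norm_num) (by omega)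
    apply of_res hp.pos
    generalize p % 3 = a at ha ha0
    interval_cases a <;> simp_all
  have heodd : e % 2 = 1 := Nat.odd_iff.1 he
  have he1 : e = 1 := by omega
  subst he1
  refine ⟨rfl, ?_⟩
  simpa using hres

theorem arith5 {p e : ℕ} (hp : p.Prime) (hrp : 5 ≠ p) (he : Odd e) (h1 : 5 ∣ p ^ e - 1) (hm : ∀ d, 0 < d → d < e → ¬ 5 ∣ p ^ d - 1) :
    e = 1 ∧ p % 5 = 1 := by
  have ha0 := mod_ne_zero_of hp (by norm_num) hrp
  have ha : p % 5 < 5 := Nat.mod_lt _ (by norm_num)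
  have hres := res_of hp.pos h1
  have hle : e ≤ 4 := by
    by_contra hlt
    apply hm 4 (by norm_num) (by omega)
    apply of_res hp.pos
    generalize p % 5 = a at ha ha0
    interval_cases a <;> simp_all
  have heodd : e % 2 = 1 := Nat.odd_iff.1 he
  have h11 : 1 < e → p % 5 ≠ 1 := by
    intro h1e hc
    apply hm 1 (by norm_num) h1e
    apply of_res hp.pos
    rw [hc]
    norm_num
  have h12 : (e = 1 ∨ e = 3) := by omega
  rcases h12 with rfl | rfl
  · exact ⟨rfl, by simpa using hres⟩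
  · exfalso
    have h13 := h11 (by norm_num)
    generalize p % 5 = a at *
    interval_cases a <;> simp_all

theorem arith7 {p e : ℕ} (hp : p.Prime) (hrp : 7 ≠ p) (he : Odd e) (h1 : 7 ∣ p ^ e - 1) (hm : ∀ d, 0 < d → d < e → ¬ 7 ∣ p ^ d - 1) :
    (e = 1 ∧ p % 7 = 1) ∨ (e = 3 ∧ (p % 7 = 2 ∨ p % 7 = 4)) := by
  have ha0 := mod_ne_zero_of hp (by norm_num) hrp
  have ha : p % 7 < 7 := Nat.mod_lt _ (by norm_num)
  have hres := res_of hp.pos h1
  have hle : e ≤ 6 := by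
    by_contra hlt
    apply hm 6 (by norm_num) (by omega)
    apply of_res hp.pos
    generalize p % 7 = a at ha ha0
    interval_cases a <;> simp_all
  have heodd : e % 2 = 1 := Nat.odd_iff.1 he
  have h11 : 1 < e → p % 7 ≠ 1 := by
    intro h1e hc
    apply hm 1 (by norm_num) h1e
    apply of_res hp.pos
    rw [hc]
    norm_num
  have h12 : (e = 1 ∨ e = 3 ∨ e = 5) := by omega
  rcases h12 with rfl | rfl | rfl
  · exact Or.inl ⟨rfl, by simpa using hres⟩
  · right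
    refine ⟨rfl, ?_⟩
    have h13 := h11 (by norm_num)
    generalize p % 7 = a at *
    interval_cases a <;> simp_all
  · exfalso
    have h13 := h11 (by norm_num)
    generalize p % 7 = a at *
    interval_cases a <;> simp_all

theorem arith11 {p e : ℕ} (hp : p.Prime) (hrp : 11 ≠ p) (he : Odd e) (h1 : 11 ∣ p ^ e - 1) (hm : ∀ d, 0 < d → d < e → ¬ 11 ∣ p ^ d - 1) :
    (e = 1 ∧ p % 11 = 1) ∨ (e = 5 ∧ (p % 11 = 3 ∨ p % 11 = 4 ∨ p % 11 = 5 ∨ p % 11 = 9)) := by
  have ha0 := mod_ne_zero_of hp (by norm_num) hrp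
  have ha : p % 11 < 11 := Nat.mod_lt _ (by norm_num)
  have hres := res_of hp.pos h1
  have hle : e ≤ 10 := by
    by_contra hlt
    apply hm 10 (by norm_num) (by omega)
    apply of_res hp.pos
    generalize p % 11 = a at ha ha0
    interval_cases a <;> simp_all
  have heodd : e % 2 = 1 := Nat.odd_iff.1 he
  have h11 : 1 < e → p % 11 ≠ 1 := by
    intro h1e hc
    apply hm 1 (by norm_num) h1e
    apply of_res hp.pos
    rw [hc]
    norm_num
  have h12 : (e = 1 ∨ e = 3 ∨ e = 5 ∨ e = 7 ∨ e = 9) := by omega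
  rcases h12 with rfl | rfl | rfl | rfl | rfl
  · exact Or.inl ⟨rfl, by simpa using hres⟩
  · exfalso
    have h13 := h11 (by norm_num)
    generalize p % 11 = a at *
    interval_cases a <;> simp_all
  · right
    refine ⟨rfl, ?_⟩
    have h13 := h11 (by norm_num)
    generalize p % 11 = a at *
    interval_cases a <;> simp_all
  · exfalso
    have h13 := h11 (by norm_num)
    generalize p % 11 = a at *
    interval_cases a <;> simp_all
  · exfalso
    have h13 := h11 (by norm_num)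
    generalize p % 11 = a at *
    interval_cases a <;> simp_all

theorem r_eq_of_dvd {r m a : ℕ} (hr : r.Prime) (ha : a.Prime) (h : a ∣ r ^ m) : r = a :=
  ((Nat.prime_dvd_prime_iff_eq ha hr).1 (ha.dvd_of_dvd_pow h)).symm

theorem tw_cases {m t n : ℕ} (hm : 3 ≤ m) (ht : 2 ≤ t) (h : m ^ t = n) (hn : n < 16) : m = 3 ∧ t = 2 ∧ n = 9 := by
  have h1 : 3 ^ t ≤ m ^ t := Nat.pow_le_pow_left hm t
  have ht2 : t = 2 := by
    by_contra hne
    have h2 : 3 ^ 3 ≤ 3 ^ t := Nat.pow_le_pow_right (by norm_num) (by omega)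
    omega
  subst ht2
  have hm4 : m < 4 := by
    by_contra hlt
    have h2 : 4 ^ 2 ≤ m ^ 2 := Nat.pow_le_pow_left (by omega) 2
    omega
  have hm3 : m = 3 := by omega
  subst hm3
  refine ⟨rfl, rfl, ?_⟩
  omega

theorem tp_bound {a b n : ℕ} (h1 : 2 ≤ a) (h2 : a < b) (h : a * b = n) (hn : n < 16) : a < 4 := by
  by_contra hlt
  have : 4 * 5 ≤ a * b := Nat.mul_le_mul (by omega) (by omega)
  omega

end Cfsg.Agent.Lib.ClassMax.Asch
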