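import Mathlib

/-!
Conjugacy of semisimple endomorphisms with an annihilating product of pairwise coprime irreducibles:
the endomorphisms are determined up to conjugacy by the dimensions of the kernels of the factors.
-/

set_option autoImplicit false
set_option linter.unusedSimpArgs false
set_option linter.unusedVariables false
set_option linter.unusedSectionVars false

namespace Cfsg.Agent.Lib.ClassMax.EluConj

open Module Polynomial

universe u

section core

variable {F K : Type*} [Field F] [Field K] [Algebra F K] {V : Type*} [AddCommGroup V] [Module F V]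

/-- `V` viewed as a `K`-space through `φ`. -/
def Syn (φ : K →ₐ[F] Module.End F V) : Type _ := V

variable (φ : K →ₐ[F] Module.End F V)

instance : AddCommGroup (Syn φ) := inferInstanceAs (AddCommGroup V)
instance : Module F (Syn φ) := inferInstanceAs (Module F V)
instance synK : Module K (Syn φ) := (Module.compHom V (φ : K →+* Module.End F V) : Module K V)
instance : IsScalarTower F K (Syn φ) := by
  refine ⟨fun c k v => ?_⟩
  show φ (c • k) v = c • φ k v
  rw [map_smul]
  rfl

instance [FiniteDimensional F V] : FiniteDimensional F (Syn φ) := inferInstanceAs (FiniteDimensional F V)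

theorem core {V' : Type*} [AddCommGroup V'] [Module F V'] [Module.Finite F K] [FiniteDimensional F V] [FiniteDimensional F V']
    (φ : K →ₐ[F] Module.End F V) (ψ : K →ₐ[F] Module.End F V') (h : finrank F V = finrank F V') :
    ∃ T : V' ≃ₗ[F] V, ∀ k v, φ k (T v) = T (ψ k v) := by
  haveI : Module.Finite K (Syn φ) := Module.Finite.of_restrictScalars_finite F K _
  haveI : Module.Finite K (Syn ψ) := Module.Finite.of_restrictScalars_finite F K _
  have h1 := Module.finrank_mul_finrank F K (Syn φ)
  have h2 := Module.finrank_mul_finrank F K (Syn ψ)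
  have h3 : finrank F (Syn φ) = finrank F V := rfl
  have h4 : finrank F (Syn ψ) = finrank F V' := rfl
  have hpos : 0 < finrank F K := Module.finrank_pos
  have h5 : finrank K (Syn ψ) = finrank K (Syn φ) := by
    apply Nat.eq_of_mul_eq_mul_left hpos
    rw [h1, h2, h3, h4, h]
  let T₀ : Syn ψ ≃ₗ[K] Syn φ := LinearEquiv.ofFinrankEq _ _ h5
  let T₁ : Syn ψ ≃ₗ[F] Syn φ := T₀.restrictScalars F
  refine ⟨T₁, fun k v => ?_⟩
  exact (T₀.map_smul k v).symm

end core

section irreducible

variable {F : Type*} [Field F]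
  {V V' : Type*} [AddCommGroup V] [Module F V] [AddCommGroup V'] [Module F V']

theorem aeval_span_zero {E : Type*} [Ring E] [Algebra F E] {f : F[X]} (a : E) (ha : aeval a f = 0) :
    ∀ g ∈ Ideal.span {f}, aeval a g = 0 := by
  intro g hg
  obtain ⟨c, rfl⟩ := Ideal.mem_span_singleton'.mp hg
  rw [map_mul, ha, mul_zero]

theorem conj_of_irreducible [FiniteDimensional F V] [FiniteDimensional F V'] {f : F[X]} (hf : Irreducible f)
    (A : Module.End F V) (B : Module.End F V') (hA : aeval A f = 0) (hB : aeval B f = 0)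
    (h : finrank F V = finrank F V') :
    ∃ T : V' ≃ₗ[F] V, ∀ v, A (T v) = T (B v) := by
  classical
  haveI : Fact (Irreducible f) := ⟨hf⟩
  let K := AdjoinRoot f
  haveI : Module.Finite F K := (AdjoinRoot.powerBasis hf.ne_zero).finite
  let φ : K →ₐ[F] Module.End F V := Ideal.Quotient.liftₐ (Ideal.span {f}) (aeval A) (aeval_span_zero A hA)
  let ψ : K →ₐ[F] Module.End F V' := Ideal.Quotient.liftₐ (Ideal.span {f}) (aeval B) (aeval_span_zero B hB)
  obtain ⟨T, hT⟩ := core φ ψ h
  refine ⟨T, fun v => ?_⟩
  have := hT (AdjoinRoot.root f) v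
  have e1 : φ (AdjoinRoot.root f) = A := by
    show Ideal.Quotient.liftₐ (Ideal.span {f}) (aeval A) (aeval_span_zero A hA) (Ideal.Quotient.mk _ X) = A
    exact (Ideal.Quotient.lift_mk (Ideal.span {f}) (aeval A : F[X] →ₐ[F] Module.End F V).toRingHom (aeval_span_zero A hA)).trans (aeval_X A)
  have e2 : ψ (AdjoinRoot.root f) = B := by
    show Ideal.Quotient.liftₐ (Ideal.span {f}) (aeval B) (aeval_span_zero B hB) (Ideal.Quotient.mk _ X) = B
    exact (Ideal.Quotient.lift_mk (Ideal.span {f}) (aeval B : F[X] →ₐ[F] Module.End F V').toRingHom (aeval_span_zero B hB)).trans (aeval_X B)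
  rwa [e1, e2] at this

/-- The degree of an irreducible annihilator divides the dimension. -/
theorem natDegree_dvd_finrank [FiniteDimensional F V] {f : F[X]} (hf : Irreducible f)
    (A : Module.End F V) (hA : aeval A f = 0) : f.natDegree ∣ finrank F V := by
  classical
  haveI : Fact (Irreducible f) := ⟨hf⟩
  let K := AdjoinRoot f
  haveI : Module.Finite F K := (AdjoinRoot.powerBasis hf.ne_zero).finite
  let φ : K →ₐ[F] Module.End F V := Ideal.Quotient.liftₐ (Ideal.span {f}) (aeval A) (aeval_span_zero A hA)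
  have h1 := Module.finrank_mul_finrank F K (Syn φ)
  have h2 : finrank F K = f.natDegree := by
    rw [(AdjoinRoot.powerBasis hf.ne_zero).finrank]
    exact AdjoinRoot.powerBasis_dim hf.ne_zero
  have h3 : finrank F (Syn φ) = finrank F V := rfl
  rw [← h3, ← h1, h2]
  exact Dvd.intro _ rfl

/-- Gluing conjugating maps along direct sums. -/
theorem glue {U₁ U₂ : Submodule F V} (hU : IsCompl U₁ U₂) {W₁ W₂ : Submodule F V'} (hW : IsCompl W₁ W₂)
    (T₁ : W₁ ≃ₗ[F] U₁) (T₂ : W₂ ≃ₗ[F] U₂) (A : Module.End F V) (B : Module.End F V')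
    (hB1 : ∀ w ∈ W₁, B w ∈ W₁) (hB2 : ∀ w ∈ W₂, B w ∈ W₂)
    (h1 : ∀ w : W₁, A (T₁ w : V) = (T₁ ⟨B w, hB1 w w.2⟩ : V))
    (h2 : ∀ w : W₂, A (T₂ w : V) = (T₂ ⟨B w, hB2 w w.2⟩ : V)) :
    ∃ T : V' ≃ₗ[F] V, (∀ v, A (T v) = T (B v)) ∧ (∀ w : W₁, T w = T₁ w) ∧ (∀ w : W₂, T w = T₂ w) := by
  classical
  let T : V' ≃ₗ[F] V := (Submodule.prodEquivOfIsCompl W₁ W₂ hW).symm ≪≫ₗ (T₁.prodCongr T₂) ≪≫ₗ
    Submodule.prodEquivOfIsCompl U₁ U₂ hU
  have hT1 : ∀ w : W₁, T w = T₁ w := by
    intro w
    simp [T, Submodule.prodEquivOfIsCompl_symm_apply_left]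
  have hT2 : ∀ w : W₂, T w = T₂ w := by
    intro w
    simp [T, Submodule.prodEquivOfIsCompl_symm_apply_right]
  refine ⟨T, fun v => ?_, hT1, hT2⟩
  have hv : v ∈ W₁ ⊔ W₂ := by rw [hW.sup_eq_top]; trivial
  obtain ⟨w₁, hw₁, w₂, hw₂, rfl⟩ := Submodule.mem_sup.mp hv
  rw [map_add, map_add, map_add, map_add]
  have e1 := hT1 ⟨w₁, hw₁⟩
  have e2 := hT2 ⟨w₂, hw₂⟩
  have e3 := hT1 ⟨B w₁, hB1 _ hw₁⟩
  have e4 := hT2 ⟨B w₂, hB2 _ hw₂⟩
  simp only at e1 e2 e3 e4
  rw [e1, e2, e3, e4, h1 ⟨w₁, hw₁⟩, h2 ⟨w₂, hw₂⟩]

theorem aeval_comm (A : Module.End F V) (g : F[X]) : aeval A g * A = A * aeval A g := by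
  have h := congrArg (aeval A) (mul_comm g X)
  simpa only [map_mul, aeval_X] using h

theorem ker_aeval_invariant (A : Module.End F V) (g : F[X]) :
    ∀ v ∈ LinearMap.ker (aeval A g), A v ∈ LinearMap.ker (aeval A g) := by
  intro v hv
  rw [LinearMap.mem_ker] at hv ⊢
  have h := congrArg (fun M : Module.End F V => M v) (aeval_comm A g)
  simp only [Module.End.mul_apply] at h
  rw [h, hv, map_zero]

/-- Evaluating a polynomial on a restriction. -/
theorem aeval_restrict (A : Module.End F V) {U : Submodule F V} (hU : ∀ v ∈ U, A v ∈ U) (p : F[X]) (u : U) :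
    ((aeval (A.restrict hU) p) u : V) = aeval A p (u : V) := by
  induction p using Polynomial.induction_on' with
  | add p q hp hq =>
    simp only [map_add, LinearMap.add_apply, Submodule.coe_add, hp, hq]
  | monomial n a =>
    simp only [aeval_monomial, Module.algebraMap_end_eq_smul_id, Module.End.mul_apply, LinearMap.smul_apply,
      LinearMap.id_coe, id_eq, Submodule.coe_smul]
    rw [Module.End.pow_restrict]
    rfl

theorem ker_isCompl (A : Module.End F V) {g h : F[X]} (hc : IsCoprime g h) (hz : aeval A (g * h) = 0) :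
    IsCompl (LinearMap.ker (aeval A g)) (LinearMap.ker (aeval A h)) := by
  obtain ⟨a, b, hab⟩ := hc
  have hone : ∀ v, aeval A a (aeval A g v) + aeval A b (aeval A h v) = v := by
    intro v
    have := congrArg (fun M : Module.End F V => M v) (congrArg (aeval A) hab)
    simpa only [map_add, map_mul, map_one, LinearMap.add_apply, Module.End.mul_apply, Module.End.one_apply] using this
  constructor
  · rw [Submodule.disjoint_def]
    intro v h1 h2
    rw [LinearMap.mem_ker] at h1 h2
    have := hone v
    rw [h1, h2, map_zero, map_zero, add_zero] at this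
    exact this.symm
  · rw [codisjoint_iff, eq_top_iff]
    intro v _
    have hv := hone v
    have hmem2 : aeval A a (aeval A g v) ∈ LinearMap.ker (aeval A h) := by
      rw [LinearMap.mem_ker]
      have e : aeval A h * aeval A a * aeval A g = aeval A a * aeval A (g * h) := by
        rw [← map_mul, ← map_mul, ← map_mul]
        congr 1; ring
      have := congrArg (fun M : Module.End F V => M v) e
      simp only [Module.End.mul_apply, hz] at this
      simpa using this
    have hmem1 : aeval A b (aeval A h v) ∈ LinearMap.ker (aeval A g) := by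
      rw [LinearMap.mem_ker]
      have e : aeval A g * aeval A b * aeval A h = aeval A b * aeval A (g * h) := by
        rw [← map_mul, ← map_mul, ← map_mul]
        congr 1; ring
      have := congrArg (fun M : Module.End F V => M v) e
      simp only [Module.End.mul_apply, hz] at this
      simpa using this
    rw [← hv]
    exact Submodule.add_mem _ (Submodule.mem_sup_right hmem2) (Submodule.mem_sup_left hmem1)

end irreducible

section family

variable {F : Type*} [Field F]

/-- Semisimple endomorphisms annihilated by a product of pairwise coprime irreducibles are conjugate as soon as the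
kernels of the factors have the same dimensions. -/
theorem conj_of_family (s : Finset F[X]) (hirr : ∀ f ∈ s, Irreducible f)
    (hcop : ∀ f ∈ s, ∀ g ∈ s, f ≠ g → IsCoprime f g) :
    ∀ (V V' : Type u) [AddCommGroup V] [Module F V] [AddCommGroup V'] [Module F V']
      [FiniteDimensional F V] [FiniteDimensional F V'] (A : Module.End F V) (B : Module.End F V'),
      aeval A (∏ f ∈ s, f) = 0 → aeval B (∏ f ∈ s, f) = 0 →
      finrank F V = finrank F V' →
      (∀ f ∈ s, finrank F (LinearMap.ker (aeval A f)) = finrank F (LinearMap.ker (aeval B f))) →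
      ∃ T : V' ≃ₗ[F] V, ∀ v, A (T v) = T (B v) := by
  classical
  induction s using Finset.induction_on with
  | empty =>
    intro V V' _ _ _ _ _ _ A B hA hB hd _
    refine ⟨LinearEquiv.ofFinrankEq _ _ hd.symm, fun v => ?_⟩
    simp only [Finset.prod_empty, map_one] at hA hB
    have e1 : ∀ w : V, w = 0 := fun w => by
      have := congrArg (fun M : Module.End F V => M w) hA
      simpa using this
    rw [e1 (A _)]
    exact (e1 _).symm
  | insert f s hfs ih =>
    intro V V' _ _ _ _ _ _ A B hA hB hd hk
    rw [Finset.prod_insert hfs] at hA hB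
    have hcf : IsCoprime f (∏ g ∈ s, g) := by
      apply IsCoprime.prod_right
      intro g hg
      exact hcop f (Finset.mem_insert_self _ _) g (Finset.mem_insert_of_mem hg) (fun e => hfs (e ▸ hg))
    have hUc := ker_isCompl A hcf hA
    have hWc := ker_isCompl B hcf hB
    set h := ∏ g ∈ s, g with hh
    set U₁ := LinearMap.ker (aeval A f) with hU₁
    set U₂ := LinearMap.ker (aeval A h) with hU₂
    set W₁ := LinearMap.ker (aeval B f) with hW₁
    set W₂ := LinearMap.ker (aeval B h) with hW₂
    have hA1 : ∀ v ∈ U₁, A v ∈ U₁ := ker_aeval_invariant A f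
    have hA2 : ∀ v ∈ U₂, A v ∈ U₂ := ker_aeval_invariant A h
    have hB1 : ∀ v ∈ W₁, B v ∈ W₁ := ker_aeval_invariant B f
    have hB2 : ∀ v ∈ W₂, B v ∈ W₂ := ker_aeval_invariant B h
    have hfU : aeval (A.restrict hA1) f = 0 := by
      ext u
      rw [aeval_restrict]
      simpa using (LinearMap.mem_ker.mp u.2)
    have hfW : aeval (B.restrict hB1) f = 0 := by
      ext u
      rw [aeval_restrict]
      simpa using (LinearMap.mem_ker.mp u.2)
    have hhU : aeval (A.restrict hA2) h = 0 := by
      ext u
      rw [aeval_restrict]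
      simpa using (LinearMap.mem_ker.mp u.2)
    have hhW : aeval (B.restrict hB2) h = 0 := by
      ext u
      rw [aeval_restrict]
      simpa using (LinearMap.mem_ker.mp u.2)
    have hd1 : finrank F U₁ = finrank F W₁ := hk f (Finset.mem_insert_self _ _)
    have hd2 : finrank F U₂ = finrank F W₂ := by
      have e1 := Submodule.finrank_add_eq_of_isCompl hUc
      have e2 := Submodule.finrank_add_eq_of_isCompl hWc
      omega
    obtain ⟨T₁, hT₁⟩ := conj_of_irreducible (hirr f (Finset.mem_insert_self _ _)) (A.restrict hA1) (B.restrict hB1) hfU hfW hd1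
    have hkk : ∀ g ∈ s, finrank F (LinearMap.ker (aeval (A.restrict hA2) g)) = finrank F (LinearMap.ker (aeval (B.restrict hB2) g)) := by
      have gen : ∀ (E : Type u) [AddCommGroup E] [Module F E] [FiniteDimensional F E] (C : Module.End F E), ∀ g ∈ s,
          (hC : ∀ v ∈ LinearMap.ker (aeval C (∏ g ∈ s, g)), C v ∈ LinearMap.ker (aeval C (∏ g ∈ s, g))) →
          finrank F (LinearMap.ker (aeval (C.restrict hC) g)) = finrank F (LinearMap.ker (aeval C g)) := by
        intro E _ _ _ C g hg hC
        have hle : LinearMap.ker (aeval C g) ≤ LinearMap.ker (aeval C (∏ g ∈ s, g)) := by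
          intro v hv
          rw [LinearMap.mem_ker] at hv ⊢
          obtain ⟨c, hc⟩ := Finset.dvd_prod_of_mem (fun x => x) hg
          rw [hc, mul_comm, map_mul, Module.End.mul_apply, hv, map_zero]
        have e : LinearMap.ker (aeval (C.restrict hC) g) = (LinearMap.ker (aeval C g)).comap (LinearMap.ker (aeval C (∏ g ∈ s, g))).subtype := by
          ext u
          simp only [LinearMap.mem_ker, Submodule.mem_comap, Submodule.subtype_apply]
          rw [← aeval_restrict C hC g u]
          exact Subtype.ext_iff.trans (by rfl)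
        rw [e]
        exact (Submodule.comapSubtypeEquivOfLe hle).finrank_eq
      intro g hg
      rw [gen V A g hg hA2, gen V' B g hg hB2]
      exact hk g (Finset.mem_insert_of_mem hg)
    obtain ⟨T₂, hT₂⟩ := ih (fun g hg => hirr g (Finset.mem_insert_of_mem hg))
      (fun a ha b hb => hcop a (Finset.mem_insert_of_mem ha) b (Finset.mem_insert_of_mem hb)) U₂ W₂ (A.restrict hA2) (B.restrict hB2) hhU hhW hd2 hkk
    obtain ⟨T, hT, -, -⟩ := glue hUc hWc T₁ T₂ A B hB1 hB2 (fun w => by
        have := hT₁ w
        exact congrArg Subtype.val this) (fun w => by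
        have := hT₂ w
        exact congrArg Subtype.val this)
    exact ⟨T, hT⟩

/-- Matrix form. -/
theorem exists_conj_matrix {n : ℕ} (s : Finset F[X]) (hirr : ∀ f ∈ s, Irreducible f)
    (hcop : ∀ f ∈ s, ∀ g ∈ s, f ≠ g → IsCoprime f g) (A B : Matrix (Fin n) (Fin n) F)
    (hA : aeval A (∏ f ∈ s, f) = 0) (hB : aeval B (∏ f ∈ s, f) = 0)
    (hk : ∀ f ∈ s, finrank F (LinearMap.ker (Matrix.toLin' (aeval A f))) = finrank F (LinearMap.ker (Matrix.toLin' (aeval B f)))) :
    ∃ P : Matrix (Fin n) (Fin n) F, P.det ≠ 0 ∧ A * P = P * B := by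
  classical
  have hconv : ∀ (M : Matrix (Fin n) (Fin n) F) (p : F[X]), aeval (Matrix.toLinAlgEquiv' M) p = Matrix.toLin' (aeval M p) := by
    intro M p
    exact aeval_algHom_apply (Matrix.toLinAlgEquiv' (R := F) (n := Fin n)) M p
  obtain ⟨T, hT⟩ := conj_of_family s hirr hcop (Fin n → F) (Fin n → F) (Matrix.toLinAlgEquiv' A) (Matrix.toLinAlgEquiv' B)
    (by rw [hconv, hA, map_zero]) (by rw [hconv, hB, map_zero]) rfl (by
      intro f hf
      rw [hconv, hconv]
      exact hk f hf)
  refine ⟨LinearMap.toMatrix' (T : (Fin n → F) →ₗ[F] (Fin n → F)), ?_, ?_⟩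
  · rw [LinearMap.det_toMatrix']
    exact (LinearEquiv.isUnit_det' T).ne_zero
  · apply (Matrix.toLin' (R := F) (m := Fin n) (n := Fin n)).injective
    rw [Matrix.toLin'_mul, Matrix.toLin'_mul, Matrix.toLin'_toMatrix']
    apply LinearMap.ext
    intro v
    exact hT v

end family

section det

variable {F : Type*} [Field F] {V : Type*} [AddCommGroup V] [Module F V]

/-- A map given by `c₀` on a direct summand and the identity on a complement. -/
theorem summand_det [FiniteDimensional F V] {U W : Submodule F V} (hc : IsCompl U W) (c₀ : Module.End F U) :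
    ∃ c : Module.End F V, (∀ u : U, c u = c₀ u) ∧ (∀ w ∈ W, c w = w) ∧ LinearMap.det c = LinearMap.det c₀ := by
  classical
  let φ : (U × W) ≃ₗ[F] V := Submodule.prodEquivOfIsCompl U W hc
  let g : Module.End F (U × W) := c₀.prodMap LinearMap.id
  refine ⟨(φ : (U × W) →ₗ[F] V) ∘ₗ g ∘ₗ (φ.symm : V →ₗ[F] (U × W)), ?_, ?_, ?_⟩
  · intro u
    simp [g, φ, Submodule.prodEquivOfIsCompl_symm_apply_left]
  · intro w hw
    have := Submodule.prodEquivOfIsCompl_symm_apply_right U W hc ⟨w, hw⟩
    simp only [LinearMap.comp_apply, LinearEquiv.coe_coe]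
    simp only at this
    simp [φ, this, g]
  · rw [LinearMap.det_conj g φ, LinearMap.det_prodMap, LinearMap.det_id, mul_one]

/-- The commuting property of the map of `summand_det`. -/
theorem summand_commute {U W : Submodule F V} (hc : IsCompl U W) (A c : Module.End F V) (c₀ : Module.End F U)
    (h1 : ∀ u : U, c u = c₀ u) (h2 : ∀ w ∈ W, c w = w) (hU : ∀ u ∈ U, A u ∈ U) (hW : ∀ w ∈ W, A w ∈ W)
    (hcom : ∀ u : U, ((c₀ ⟨A u, hU u u.2⟩ : U) : V) = A (c₀ u)) : ∀ v, c (A v) = A (c v) := by
  intro v
  have hv : v ∈ U ⊔ W := by rw [hc.sup_eq_top]; trivial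
  obtain ⟨u, hu, w, hw, rfl⟩ := Submodule.mem_sup.mp hv
  rw [map_add, map_add, map_add, map_add, h2 w hw, h2 _ (hW w hw)]
  have e1 := h1 ⟨u, hu⟩
  have e2 := h1 ⟨A u, hU u hu⟩
  simp only at e1 e2
  rw [e1, e2]
  have := hcom ⟨u, hu⟩
  simp only at this
  rw [this]

/-- The centraliser of an endomorphism with irreducible annihilator has surjective determinant. -/
theorem exists_commuting_det_irr [Finite F] [FiniteDimensional F V] [Nontrivial V] {f : F[X]} (hf : Irreducible f)
    (A : Module.End F V) (hA : aeval A f = 0) (e : F) :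
    ∃ c : Module.End F V, (∀ v, c (A v) = A (c v)) ∧ LinearMap.det c = e := by
  classical
  haveI : Fact (Irreducible f) := ⟨hf⟩
  let K := AdjoinRoot f
  haveI : Module.Finite F K := (AdjoinRoot.powerBasis hf.ne_zero).finite
  haveI : Finite K := Module.finite_of_finite F
  let φ : K →ₐ[F] Module.End F V := Ideal.Quotient.liftₐ (Ideal.span {f}) (aeval A) (aeval_span_zero A hA)
  have e1 : φ (AdjoinRoot.root f) = A :=
    (Ideal.Quotient.lift_mk (Ideal.span {f}) (aeval A : F[X] →ₐ[F] Module.End F V).toRingHom (aeval_span_zero A hA)).trans (aeval_X A)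
  obtain ⟨v, hv⟩ := exists_ne (0 : V)
  -- the K-line through v
  let L : K →ₗ[F] V :=
    { toFun := fun k => φ k v
      map_add' := fun a b => by simp
      map_smul' := fun c a => by simp }
  have hLinj : Function.Injective L := by
    rw [← LinearMap.ker_eq_bot, LinearMap.ker_eq_bot']
    intro k hk
    by_contra hk0
    apply hv
    have h3 : φ (k⁻¹ * k) v = 0 := by
      rw [map_mul, Module.End.mul_apply]
      have : φ k v = 0 := hk
      rw [this, map_zero]
    rw [inv_mul_cancel₀ hk0, map_one] at h3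
    exact h3
  set U : Submodule F V := LinearMap.range L with hU
  -- a K-complement
  haveI : Module.Finite K (Syn φ) := Module.Finite.of_restrictScalars_finite F K _
  let v' : Syn φ := v
  obtain ⟨W₀, hW₀⟩ := Submodule.exists_isCompl (Submodule.span K {v'})
  have hspan : ∀ x : V, x ∈ U ↔ (show Syn φ from x) ∈ Submodule.span K {v'} := by
    intro x
    rw [Submodule.mem_span_singleton]
    constructor
    · rintro ⟨k, rfl⟩
      exact ⟨k, rfl⟩
    · rintro ⟨k, hk⟩
      exact ⟨k, hk⟩
  let W : Submodule F V :=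
    { carrier := {x | (show Syn φ from x) ∈ W₀}
      add_mem' := fun {a b} ha hb => W₀.add_mem ha hb
      zero_mem' := W₀.zero_mem
      smul_mem' := fun c x hx => by
        have : (c • (show Syn φ from x)) ∈ W₀ := by
          have h5 : c • (show Syn φ from x) = (algebraMap F K c) • (show Syn φ from x) := by
            rw [algebraMap_smul]
          rw [h5]
          exact W₀.smul_mem _ hx
        exact this }
  have hc : IsCompl U W := by
    constructor
    · rw [Submodule.disjoint_def]
      intro x h1 h2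
      have := (Submodule.disjoint_def.mp hW₀.disjoint) x ((hspan x).mp h1) h2
      exact this
    · rw [codisjoint_iff, eq_top_iff]
      intro x _
      have hx : (show Syn φ from x) ∈ Submodule.span K {v'} ⊔ W₀ := by rw [hW₀.sup_eq_top]; trivial
      obtain ⟨a, ha, b, hb, hab⟩ := Submodule.mem_sup.mp hx
      have : x = a + b := hab.symm
      rw [this]
      exact Submodule.add_mem _ (Submodule.mem_sup_left ((hspan a).mpr ha)) (Submodule.mem_sup_right hb)
  have hinvU : ∀ k : K, ∀ u ∈ U, φ k u ∈ U := by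
    rintro k _ ⟨a, rfl⟩
    refine ⟨k * a, ?_⟩
    show φ (k * a) v = φ k (φ a v)
    rw [map_mul, Module.End.mul_apply]
  have hinvW : ∀ k : K, ∀ w ∈ W, φ k w ∈ W := by
    intro k w hw
    exact W₀.smul_mem k hw
  -- the norm
  obtain ⟨a, ha⟩ := FiniteField.norm_surjective F K e
  let c₀ : Module.End F U := (φ a).restrict (hinvU a)
  obtain ⟨c, h1, h2, h3⟩ := summand_det hc c₀
  have hdet : LinearMap.det c₀ = e := by
    let E : K ≃ₗ[F] U := LinearEquiv.ofInjective L hLinj
    have hE : c₀ = (E : K →ₗ[F] U) ∘ₗ (Algebra.lmul F K a) ∘ₗ (E.symm : U →ₗ[F] K) := by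
      apply LinearMap.ext
      intro u
      obtain ⟨k, rfl⟩ := E.surjective u
      apply Subtype.ext
      simp only [LinearMap.comp_apply, LinearEquiv.coe_coe, LinearEquiv.symm_apply_apply]
      show φ a (φ k v) = φ (a * k) v
      rw [map_mul, Module.End.mul_apply]
    rw [hE, LinearMap.det_conj, ← ha, Algebra.norm_apply]
  refine ⟨c, ?_, h3.trans hdet⟩
  have hAU : ∀ u ∈ U, A u ∈ U := fun u hu => by rw [← e1]; exact hinvU _ u hu
  have hAW : ∀ w ∈ W, A w ∈ W := fun w hw => by rw [← e1]; exact hinvW _ w hw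
  apply summand_commute hc A c c₀ h1 h2 hAU hAW
  intro u
  show φ a (A u) = A (φ a u)
  rw [← e1, ← Module.End.mul_apply, ← Module.End.mul_apply, ← map_mul, ← map_mul, mul_comm]

/-- The centraliser of an endomorphism with an irreducible factor acting has surjective determinant. -/
theorem exists_commuting_det [Finite F] [FiniteDimensional F V] {f h : F[X]} (hf : Irreducible f)
    (hcop : IsCoprime f h) (A : Module.End F V) (hA : aeval A (f * h) = 0)
    (hne : LinearMap.ker (aeval A f) ≠ ⊥) (e : F) :
    ∃ c : Module.End F V, (∀ v, c (A v) = A (c v)) ∧ LinearMap.det c = e := by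
  have hc := ker_isCompl A hcop hA
  set U := LinearMap.ker (aeval A f) with hU
  set W := LinearMap.ker (aeval A h) with hW
  have hAU : ∀ u ∈ U, A u ∈ U := ker_aeval_invariant A f
  have hAW : ∀ u ∈ W, A u ∈ W := ker_aeval_invariant A h
  haveI : Nontrivial U := Submodule.nontrivial_iff_ne_bot.mpr hne
  have hfU : aeval (A.restrict hAU) f = 0 := by
    ext u
    rw [aeval_restrict]
    simpa using (LinearMap.mem_ker.mp u.2)
  obtain ⟨c₀, hc₀, hd⟩ := exists_commuting_det_irr hf (A.restrict hAU) hfU e
  obtain ⟨c, h1, h2, h3⟩ := summand_det hc c₀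
  refine ⟨c, ?_, h3.trans hd⟩
  apply summand_commute hc A c c₀ h1 h2 hAU hAW
  intro u
  have := hc₀ u
  exact congrArg Subtype.val this

/-- Conjugacy in `SL_n` of matrices annihilated by a product of pairwise coprime irreducibles. -/
theorem exists_sl_conj_matrix {n : ℕ} [Finite F] (s : Finset F[X]) (hirr : ∀ f ∈ s, Irreducible f)
    (hcop : ∀ f ∈ s, ∀ g ∈ s, f ≠ g → IsCoprime f g) (hn : 0 < n) (A B : Matrix (Fin n) (Fin n) F)
    (hA : aeval A (∏ f ∈ s, f) = 0) (hB : aeval B (∏ f ∈ s, f) = 0)
    (hk : ∀ f ∈ s, finrank F (LinearMap.ker (Matrix.toLin' (aeval A f))) = finrank F (LinearMap.ker (Matrix.toLin' (aeval B f)))) :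
    ∃ P : Matrix (Fin n) (Fin n) F, P.det = 1 ∧ A * P = P * B := by
  classical
  obtain ⟨P, hP, hAP⟩ := exists_conj_matrix s hirr hcop A B hA hB hk
  have hconv : ∀ (p : F[X]), aeval (Matrix.toLinAlgEquiv' B) p = Matrix.toLin' (aeval B p) := by
    intro p
    exact aeval_algHom_apply (Matrix.toLinAlgEquiv' (R := F) (n := Fin n)) B p
  set B' : Module.End F (Fin n → F) := Matrix.toLinAlgEquiv' B with hB'
  haveI : Nontrivial (Fin n → F) := by
    haveI : Nonempty (Fin n) := ⟨⟨0, hn⟩⟩
    infer_instance
  -- some factor acts nontrivially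
  have hex : ∃ f ∈ s, LinearMap.ker (aeval B' f) ≠ ⊥ := by
    by_contra hcon
    push Not at hcon
    have hinj : ∀ t ⊆ s, Function.Injective (aeval B' (∏ f ∈ t, f)) := by
      intro t
      induction t using Finset.induction_on with
      | empty =>
        intro _ a b h
        simpa using h
      | insert a t hat iht =>
        intro hts
        rw [Finset.prod_insert hat, map_mul]
        have h1 := LinearMap.ker_eq_bot.mp (hcon a (hts (Finset.mem_insert_self _ _)))
        have h2 := iht (fun x hx => hts (Finset.mem_insert_of_mem hx))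
        exact h1.comp h2
    have := hinj s (Finset.Subset.refl _)
    rw [hconv, hB, map_zero] at this
    obtain ⟨v, hv⟩ := exists_ne (0 : Fin n → F)
    exact hv (this (by simp))
  obtain ⟨f, hf, hne⟩ := hex
  have hprod : ∏ g ∈ s, g = f * ∏ g ∈ s.erase f, g := (Finset.mul_prod_erase s (fun x => x) hf).symm
  have hcf : IsCoprime f (∏ g ∈ s.erase f, g) := by
    apply IsCoprime.prod_right
    intro g hg
    exact hcop f hf g (Finset.mem_of_mem_erase hg) (Finset.ne_of_mem_erase hg).symm
  have hB2 : aeval B' (f * ∏ g ∈ s.erase f, g) = 0 := by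
    rw [← hprod, hconv, hB, map_zero]
  obtain ⟨c, hc1, hc2⟩ := exists_commuting_det (hirr f hf) hcf B' hB2 hne (P.det)⁻¹
  set C : Matrix (Fin n) (Fin n) F := LinearMap.toMatrix' c with hC
  have hCB : C * B = B * C := by
    apply (Matrix.toLin' (R := F) (m := Fin n) (n := Fin n)).injective
    rw [Matrix.toLin'_mul, Matrix.toLin'_mul, hC, Matrix.toLin'_toMatrix']
    apply LinearMap.ext
    intro v
    exact hc1 v
  refine ⟨P * C, ?_, ?_⟩
  · rw [Matrix.det_mul, hC, LinearMap.det_toMatrix', hc2, mul_inv_cancel₀ hP]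
  · rw [← mul_assoc, hAP, mul_assoc, ← hCB, mul_assoc]

end det

end Cfsg.Agent.Lib.ClassMax.EluConj
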