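import Mathlib
import Cfsg.Agent.Lib.ClassMax.EluConj

/-!
Matrices with scalar square: conjugacy in `SL_n` and determinants.
-/

set_option autoImplicit false
set_option linter.unusedSimpArgs false
set_option linter.unusedVariables false
set_option linter.unusedSectionVars false

namespace Cfsg.Agent.Lib.ClassMax.EluInv

open Module Polynomial Cfsg.Agent.Lib.ClassMax.EluConj
open scoped Kronecker

variable {F : Type*} [Field F] {n : ℕ}

theorem aeval_sub_C (A : Matrix (Fin n) (Fin n) F) (a : F) : aeval A (X - C a) = A - a • 1 := by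
  simp [Algebra.algebraMap_eq_smul_one]

theorem isCompl_split (h2 : (2 : F) ≠ 0) {c : F} (hc : c ≠ 0) (A : Matrix (Fin n) (Fin n) F) (hA : A * A = (c * c) • 1) :
    IsCompl (LinearMap.ker (Matrix.toLin' (A - c • 1))) (LinearMap.ker (Matrix.toLin' (A + c • 1))) := by
  classical
  have hcop : IsCoprime (X - C c) (X - C (-c)) := by
    apply Polynomial.isCoprime_X_sub_C_of_isUnit_sub
    refine IsUnit.mk0 _ ?_
    intro h
    have : (2 : F) * c = 0 := by linear_combination h
    exact (mul_ne_zero h2 hc) this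
  have hconv : ∀ (p : F[X]), aeval (Matrix.toLinAlgEquiv' A) p = Matrix.toLin' (aeval A p) := by
    intro p
    exact aeval_algHom_apply (Matrix.toLinAlgEquiv' (R := F) (n := Fin n)) A p
  have hz : aeval (Matrix.toLinAlgEquiv' A) ((X - C c) * (X - C (-c))) = 0 := by
    rw [hconv, map_mul, aeval_sub_C, aeval_sub_C]
    have : (A - c • 1) * (A - (-c) • 1) = 0 := by
      simp only [sub_mul, mul_sub, Matrix.smul_mul, Matrix.mul_smul, one_mul, mul_one, hA, smul_smul, sub_eq_zero]
      simp [sub_eq_add_neg, smul_add, add_smul]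
      abel_nf
    rw [this, map_zero]
  have := ker_isCompl _ hcop hz
  rw [hconv, hconv, aeval_sub_C, aeval_sub_C] at this
  have e : A - (-c) • 1 = A + c • 1 := by simp [sub_eq_add_neg]
  rwa [e] at this

theorem finrank_split (h2 : (2 : F) ≠ 0) {c : F} (hc : c ≠ 0) (A : Matrix (Fin n) (Fin n) F) (hA : A * A = (c * c) • 1) :
    finrank F (LinearMap.ker (Matrix.toLin' (A - c • 1))) + finrank F (LinearMap.ker (Matrix.toLin' (A + c • 1))) = n := by
  have := Submodule.finrank_add_eq_of_isCompl (isCompl_split h2 hc A hA)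
  simpa using this

/-- Conjugacy of matrices with square `c²` in `SL_n`. -/
theorem conj_split [Finite F] (hn : 0 < n) (h2 : (2 : F) ≠ 0) {c : F} (hc : c ≠ 0) (A B : Matrix (Fin n) (Fin n) F)
    (hA : A * A = (c * c) • 1) (hB : B * B = (c * c) • 1)
    (hk : finrank F (LinearMap.ker (Matrix.toLin' (A + c • 1))) = finrank F (LinearMap.ker (Matrix.toLin' (B + c • 1)))) :
    ∃ P : Matrix (Fin n) (Fin n) F, P.det = 1 ∧ A * P = P * B := by
  classical
  have hne : X - C c ≠ (X - C (-c) : F[X]) := by
    intro h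
    have := congrArg (fun p => eval 0 p) h
    simp at this
    have h3 : (2 : F) * c = 0 := by linear_combination -this
    exact (mul_ne_zero h2 hc) h3
  have hcop : IsCoprime (X - C c) (X - C (-c)) := by
    apply Polynomial.isCoprime_X_sub_C_of_isUnit_sub
    refine IsUnit.mk0 _ ?_
    intro h
    have : (2 : F) * c = 0 := by linear_combination h
    exact (mul_ne_zero h2 hc) this
  have hzero : ∀ M : Matrix (Fin n) (Fin n) F, M * M = (c * c) • 1 → aeval M (∏ f ∈ ({X - C c, X - C (-c)} : Finset F[X]), f) = 0 := by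
    intro M hM
    rw [Finset.prod_pair hne, map_mul, aeval_sub_C, aeval_sub_C]
    simp only [sub_mul, mul_sub, Matrix.smul_mul, Matrix.mul_smul, one_mul, mul_one, hM, smul_smul, sub_eq_zero]
    simp [sub_eq_add_neg, smul_add, add_smul]
    abel_nf
  apply exists_sl_conj_matrix ({X - C c, X - C (-c)} : Finset F[X]) _ _ hn A B (hzero A hA) (hzero B hB)
  · intro f hf
    have e : ∀ M : Matrix (Fin n) (Fin n) F, M - (-c) • 1 = M + c • 1 := by
      intro M; simp [sub_eq_add_neg]
    have ha := finrank_split h2 hc A hA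
    have hb := finrank_split h2 hc B hB
    rcases Finset.mem_insert.mp hf with rfl | hf
    · rw [aeval_sub_C, aeval_sub_C]
      omega
    · rw [Finset.mem_singleton.mp hf, aeval_sub_C, aeval_sub_C, e, e]
      exact hk
  · intro f hf
    rcases Finset.mem_insert.mp hf with rfl | hf
    · exact irreducible_X_sub_C _
    · rw [Finset.mem_singleton.mp hf]; exact irreducible_X_sub_C _
  · intro f hf g hg hfg
    rcases Finset.mem_insert.mp hf with rfl | hf
    · rcases Finset.mem_insert.mp hg with rfl | hg
      · exact absurd rfl hfg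
      · rw [Finset.mem_singleton.mp hg]; exact hcop
    · rw [Finset.mem_singleton.mp hf] at hfg ⊢
      rcases Finset.mem_insert.mp hg with rfl | hg
      · exact hcop.symm
      · rw [Finset.mem_singleton.mp hg] at hfg ⊢; exact absurd rfl hfg

theorem aeval_sq_sub (M : Matrix (Fin n) (Fin n) F) (z : F) : aeval M (X ^ 2 - C z) = M * M - z • 1 := by
  simp [Algebra.algebraMap_eq_smul_one, pow_two]

/-- Conjugacy of matrices with non-square square in `SL_n`. -/
theorem conj_nonsq [Finite F] (hn : 0 < n) {z : F} (hz : ∀ c : F, c * c ≠ z) (A B : Matrix (Fin n) (Fin n) F)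
    (hA : A * A = z • 1) (hB : B * B = z • 1) :
    ∃ P : Matrix (Fin n) (Fin n) F, P.det = 1 ∧ A * P = P * B := by
  classical
  have hirr : Irreducible (X ^ 2 - C z : F[X]) := by
    apply X_pow_sub_C_irreducible_of_prime Nat.prime_two
    intro b hb
    exact hz b (by rw [← hb]; ring)
  have hzero : ∀ M : Matrix (Fin n) (Fin n) F, M * M = z • 1 → aeval M (X ^ 2 - C z) = 0 := by
    intro M hM
    rw [aeval_sq_sub, hM, sub_self]
  apply exists_sl_conj_matrix ({X ^ 2 - C z} : Finset F[X]) _ _ hn A B (by simpa using hzero A hA) (by simpa using hzero B hB)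
  · intro f hf
    rw [Finset.mem_singleton.mp hf, hzero A hA, hzero B hB]
  · intro f hf
    rw [Finset.mem_singleton.mp hf]; exact hirr
  · intro f hf g hg hfg
    rw [Finset.mem_singleton.mp hf, Finset.mem_singleton.mp hg] at hfg
    exact absurd rfl hfg

/-- The diagonal model of an involution. -/
def diagModel (n j : ℕ) (F : Type*) [Field F] : Matrix (Fin n) (Fin n) F :=
  Matrix.diagonal (fun i => if (i : ℕ) < j then -1 else 1)

theorem diagModel_sq (j : ℕ) : diagModel n j F * diagModel n j F = 1 := by
  unfold diagModel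
  rw [Matrix.diagonal_mul_diagonal, ← Matrix.diagonal_one]
  congr 1
  ext i
  split_ifs <;> simp

theorem scaled_diagModel_sq (j : ℕ) (c : F) : (c • diagModel n j F) * (c • diagModel n j F) = (c * c) • 1 := by
  rw [Matrix.smul_mul, Matrix.mul_smul, diagModel_sq, smul_smul]

theorem finrank_ker_diagModel (h2 : (2 : F) ≠ 0) {c : F} (hc : c ≠ 0) {j : ℕ} (hj : j ≤ n) :
    finrank F (LinearMap.ker (Matrix.toLin' (c • diagModel n j F + c • 1))) = j := by
  classical
  have e : c • diagModel n j F + c • (1 : Matrix (Fin n) (Fin n) F) = Matrix.diagonal (fun i : Fin n => if (i : ℕ) < j then 0 else 2 * c) := by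
    unfold diagModel
    ext a b
    by_cases hab : a = b
    · subst hab
      by_cases h : (a : ℕ) < j <;> simp [h] <;> ring
    · simp [Matrix.diagonal_apply_ne _ hab, Matrix.one_apply_ne hab]
  rw [e]
  have hr := LinearMap.finrank_range_add_finrank_ker (Matrix.toLin' (Matrix.diagonal (fun i : Fin n => if (i : ℕ) < j then (0 : F) else 2 * c)))
  have hrank : finrank F (LinearMap.range (Matrix.toLin' (Matrix.diagonal (fun i : Fin n => if (i : ℕ) < j then (0 : F) else 2 * c)))) = n - j := by
    have : finrank F (LinearMap.range (Matrix.toLin' (Matrix.diagonal (fun i : Fin n => if (i : ℕ) < j then (0 : F) else 2 * c)))) =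
        (Matrix.diagonal (fun i : Fin n => if (i : ℕ) < j then (0 : F) else 2 * c)).rank := by
      rw [Matrix.rank]; rfl
    rw [this, Matrix.rank_diagonal]
    have h2c : (2 : F) * c ≠ 0 := mul_ne_zero h2 hc
    have : Fintype.card {i : Fin n // (if (i : ℕ) < j then (0 : F) else 2 * c) ≠ 0} = Fintype.card {i : Fin n // j ≤ (i : ℕ)} := by
      apply Fintype.card_congr
      apply Equiv.subtypeEquivRight
      intro i
      by_cases h : (i : ℕ) < j
      · simp [h]
      · simp [h, h2c]
        omega
    rw [this]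
    rw [Fintype.card_subtype]
    have h3 : (Finset.univ.filter (fun i : Fin n => j ≤ (i : ℕ))).card = n - j := by
      have h4 : (Finset.univ.filter (fun i : Fin n => j ≤ (i : ℕ))) = Finset.univ.filter (fun i : Fin n => ¬ (i : ℕ) < j) := by
        ext i; simp
      rw [h4, Finset.filter_not, Finset.card_sdiff_of_subset (Finset.filter_subset _ _)]
      have h5 : (Finset.univ.filter (fun i : Fin n => (i : ℕ) < j)).card = j := by
        rw [Fin.card_filter_val_lt]
        omega
      rw [h5]; simp
    exact h3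
  rw [hrank, Module.finrank_fin_fun] at hr
  omega

theorem det_diagModel {j : ℕ} (hj : j ≤ n) : (diagModel n j F).det = (-1) ^ j := by
  classical
  unfold diagModel
  rw [Matrix.det_diagonal]
  have : ∀ i : Fin n, (if (i : ℕ) < j then (-1 : F) else 1) = (-1 : F) ^ (if (i : ℕ) < j then 1 else 0) := by
    intro i; split_ifs <;> simp
  simp_rw [this]
  rw [Finset.prod_pow_eq_pow_sum]
  congr 1
  rw [Finset.sum_boole]
  simp only [Nat.cast_id]
  rw [Fin.card_filter_val_lt]
  omega

/-- The determinant of a matrix with square `c²`. -/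
theorem det_split [Finite F] (hn : 0 < n) (h2 : (2 : F) ≠ 0) {c : F} (hc : c ≠ 0) (A : Matrix (Fin n) (Fin n) F)
    (hA : A * A = (c * c) • 1) :
    A.det = c ^ n * (-1) ^ finrank F (LinearMap.ker (Matrix.toLin' (A + c • 1))) := by
  have hj : finrank F (LinearMap.ker (Matrix.toLin' (A + c • 1))) ≤ n := by
    have := finrank_split h2 hc A hA
    omega
  obtain ⟨P, hP, hAP⟩ := conj_split hn h2 hc A (c • diagModel n (finrank F (LinearMap.ker (Matrix.toLin' (A + c • 1)))) F) hA
    (scaled_diagModel_sq _ c) (by rw [finrank_ker_diagModel h2 hc hj])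
  have := congrArg Matrix.det hAP
  rw [Matrix.det_mul, Matrix.det_mul, hP, one_mul, mul_one, Matrix.det_smul, det_diagModel hj, Fintype.card_fin] at this
  exact this

/-- A matrix whose square is a non-square scalar acts on a space of even dimension. -/
theorem even_of_nonsq {z : F} (hz : ∀ c : F, c * c ≠ z) (A : Matrix (Fin n) (Fin n) F) (hA : A * A = z • 1) : Even n := by
  classical
  have hirr : Irreducible (X ^ 2 - C z : F[X]) := by
    apply X_pow_sub_C_irreducible_of_prime Nat.prime_two
    intro b hb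
    exact hz b (by rw [← hb]; ring)
  have hconv : ∀ (p : F[X]), aeval (Matrix.toLinAlgEquiv' A) p = Matrix.toLin' (aeval A p) := by
    intro p
    exact aeval_algHom_apply (Matrix.toLinAlgEquiv' (R := F) (n := Fin n)) A p
  have h0 : aeval (Matrix.toLinAlgEquiv' A) (X ^ 2 - C z : F[X]) = 0 := by
    rw [hconv, aeval_sq_sub, hA, sub_self, map_zero]
  have := natDegree_dvd_finrank hirr _ h0
  rw [natDegree_X_pow_sub_C, Module.finrank_fin_fun] at this
  exact even_iff_two_dvd.mpr this

/-- The model `C ⊗ 1`. -/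
def kronModel {m : ℕ} (C : Matrix (Fin 2) (Fin 2) F) (e : Fin n ≃ Fin 2 × Fin m) : Matrix (Fin n) (Fin n) F :=
  (C ⊗ₖ (1 : Matrix (Fin m) (Fin m) F)).submatrix e e

theorem kronModel_mul {m : ℕ} (C D : Matrix (Fin 2) (Fin 2) F) (e : Fin n ≃ Fin 2 × Fin m) :
    kronModel C e * kronModel D e = kronModel (C * D) e := by
  unfold kronModel
  rw [Matrix.submatrix_mul_equiv, ← Matrix.mul_kronecker_mul, one_mul]

theorem kronModel_smul_one {m : ℕ} (z : F) (e : Fin n ≃ Fin 2 × Fin m) :
    kronModel (z • (1 : Matrix (Fin 2) (Fin 2) F)) e = z • 1 := by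
  unfold kronModel
  rw [Matrix.smul_kronecker, Matrix.one_kronecker_one]
  ext i j
  simp [Matrix.one_apply]

theorem kronModel_det {m : ℕ} (C : Matrix (Fin 2) (Fin 2) F) (e : Fin n ≃ Fin 2 × Fin m) :
    (kronModel C e).det = C.det ^ m := by
  unfold kronModel
  rw [Matrix.det_submatrix_equiv_self, Matrix.det_kronecker]
  simp

/-- The companion matrix of `X² - z`. -/
def compSq (z : F) : Matrix (Fin 2) (Fin 2) F := !![0, z; 1, 0]

theorem compSq_sq (z : F) : compSq z * compSq z = z • 1 := by
  ext i j
  fin_cases i <;> fin_cases j <;> simp [compSq, Matrix.mul_apply, Fin.sum_univ_two]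

theorem compSq_det (z : F) : (compSq z).det = -z := by
  simp [compSq, Matrix.det_fin_two]

theorem exists_equiv_two (m : ℕ) (hn : n = 2 * m) : Nonempty (Fin n ≃ Fin 2 × Fin m) :=
  ⟨Fintype.equivOfCardEq (by simp [hn])⟩

theorem kron_compSq_sq {m : ℕ} (z : F) (e : Fin n ≃ Fin 2 × Fin m) :
    kronModel (compSq z) e * kronModel (compSq z) e = z • 1 := by
  rw [kronModel_mul, compSq_sq, kronModel_smul_one]

/-- The determinant of a matrix with non-square square. -/
theorem det_nonsq [Finite F] {z : F} (hz : ∀ c : F, c * c ≠ z) {m : ℕ} (hn : n = 2 * m) (hn0 : 0 < n)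
    (A : Matrix (Fin n) (Fin n) F) (hA : A * A = z • 1) : A.det = (-z) ^ m := by
  obtain ⟨e⟩ := exists_equiv_two (n := n) m hn
  obtain ⟨P, hP, hAP⟩ := conj_nonsq hn0 hz A (kronModel (compSq z) e) hA (kron_compSq_sq z e)
  have := congrArg Matrix.det hAP
  rw [Matrix.det_mul, Matrix.det_mul, hP, one_mul, mul_one, kronModel_det, compSq_det] at this
  exact this

end Cfsg.Agent.Lib.ClassMax.EluInv
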