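import Mathlib
import Cfsg.Agent.Lib.ClassMax.EluConj

/-!
Nilpotent endomorphisms: a basis permuted up to zero (the existence half of the Jordan form), and the
normal form of endomorphisms of square zero.
-/

set_option autoImplicit false
set_option linter.unusedSimpArgs false
set_option linter.unusedVariables false
set_option linter.unusedSectionVars false

namespace Cfsg.Agent.Lib.ClassMax.EluNil

open Module

variable {F V : Type*} [Field F] [AddCommGroup V] [Module F V] [FiniteDimensional F V]

/-- A nilpotent endomorphism has a basis of every invariant subspace mapped into itself or to zero. -/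
theorem exists_chain_basis (N : Module.End F V) {m : ℕ} (hN : N ^ m = 0) :
    ∀ (d : ℕ) (W : Submodule F V), finrank F W = d → (∀ w ∈ W, N w ∈ W) →
      ∃ s : Finset V, (s : Set V) ⊆ W ∧ LinearIndepOn F id (s : Set V) ∧ Submodule.span F (s : Set V) = W ∧
        ∀ ω ∈ s, N ω = 0 ∨ N ω ∈ s := by
  classical
  intro d
  induction d using Nat.strong_induction_on with
  | _ d ih =>
    intro W hd hW
    by_cases hbot : W = ⊥
    · subst hbot
      exact ⟨∅, by simp, by simp, by simp, by simp⟩
    -- the nilpotency index on `W`
    have hex : ∃ e : ℕ, ∀ w ∈ W, (N ^ e) w = 0 := ⟨m, fun w _ => by rw [hN]; rfl⟩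
    set e := Nat.find hex with he
    have hek : ∀ w ∈ W, (N ^ e) w = 0 := Nat.find_spec hex
    have he0 : e ≠ 0 := by
      intro h0
      apply hbot
      rw [eq_bot_iff]
      intro w hw
      have := hek w hw
      rw [h0, pow_zero] at this
      exact this
    obtain ⟨e', he'⟩ := Nat.exists_eq_succ_of_ne_zero he0
    have hmin := Nat.find_min hex (m := e') (by omega)
    push Not at hmin
    obtain ⟨v, hvW, hv⟩ := hmin
    have hpowW : ∀ k, ∀ w ∈ W, (N ^ k) w ∈ W := by
      intro k
      induction k with
      | zero => intro w hw; simpa using hw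
      | succ k ihk =>
        intro w hw
        rw [pow_succ', Module.End.mul_apply]
        exact hW _ (ihk w hw)
    -- a functional
    have hnot : (N ^ e') v ∉ (⊥ : Submodule F V) := by simpa using hv
    obtain ⟨f, hf1, -⟩ := Submodule.exists_le_ker_of_notMem hnot
    set φ : V →ₗ[F] F := (f ((N ^ e') v))⁻¹ • f with hφ
    have hφ1 : φ ((N ^ e') v) = 1 := by
      simp only [hφ, LinearMap.smul_apply, smul_eq_mul]
      exact inv_mul_cancel₀ hf1
    have hzero : ∀ k, e' < k → (N ^ k) v = 0 := by
      intro k hk
      obtain ⟨t, rfl⟩ : ∃ t, k = t + e := ⟨k - e, by omega⟩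
      rw [pow_add, Module.End.mul_apply, hek v hvW, map_zero]
    set C : Submodule F V := W ⊓ ⨅ k : Fin e, LinearMap.ker (φ ∘ₗ (N ^ (k : ℕ))) with hC
    have hmemC : ∀ w, w ∈ C ↔ w ∈ W ∧ ∀ k, k < e → φ ((N ^ k) w) = 0 := by
      intro w
      simp only [hC, Submodule.mem_inf, Submodule.mem_iInf, LinearMap.mem_ker, LinearMap.comp_apply]
      constructor
      · rintro ⟨h1, h2⟩
        exact ⟨h1, fun k hk => h2 ⟨k, hk⟩⟩
      · rintro ⟨h1, h2⟩
        exact ⟨h1, fun k => h2 k k.2⟩
    have hvC : v ∉ C := by
      intro h
      have := ((hmemC v).mp h).2 e' (by omega)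
      rw [hφ1] at this
      exact one_ne_zero this
    have hCW : C < W := by
      refine lt_of_le_of_ne inf_le_left ?_
      intro h
      exact hvC (by rw [h]; exact hvW)
    have hCinv : ∀ w ∈ C, N w ∈ C := by
      intro w hw
      obtain ⟨h1, h2⟩ := (hmemC w).mp hw
      refine (hmemC _).mpr ⟨hW w h1, fun k hk => ?_⟩
      rw [← Module.End.mul_apply, ← pow_succ]
      by_cases hk2 : k + 1 < e
      · exact h2 _ hk2
      · have : k + 1 = e := by omega
        rw [this, hek w h1, map_zero]
    obtain ⟨s', hs'C, hs'li, hs'span, hs'N⟩ := ih (finrank F C)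
      (by rw [← hd]; exact Submodule.finrank_lt_finrank_of_lt hCW) C rfl hCinv
    have hs'φ : ∀ k, k < e → ∀ w ∈ Submodule.span F (s' : Set V), φ ((N ^ k) w) = 0 := by
      intro k hk w hw
      rw [hs'span] at hw
      exact ((hmemC w).mp hw).2 k hk
    -- adding the chain
    let A : ℕ → Finset V := fun t => s' ∪ (Finset.range t).image (fun j => (N ^ (e' - j)) v)
    have hAφ : ∀ t, t < e → ∀ w ∈ Submodule.span F (A t : Set V), φ ((N ^ t) w) = 0 := by
      intro t ht w hw
      have hlin : Submodule.span F (A t : Set V) ≤ LinearMap.ker (φ ∘ₗ (N ^ t)) := by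
        rw [Submodule.span_le]
        intro u hu
        simp only [Finset.mem_coe, A, Finset.mem_union, Finset.mem_image, Finset.mem_range] at hu
        simp only [SetLike.mem_coe, LinearMap.mem_ker, LinearMap.comp_apply]
        rcases hu with hu | ⟨j, hj, rfl⟩
        · exact hs'φ t ht u (Submodule.subset_span hu)
        · rw [← Module.End.mul_apply, ← pow_add, hzero _ (by omega), map_zero]
      exact hlin hw
    have hAli : ∀ t, t ≤ e → LinearIndepOn F id (A t : Set V) := by
      intro t
      induction t with
      | zero =>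
        intro _
        simpa [A] using hs'li
      | succ t ih2 =>
        intro ht
        have hnew : (N ^ (e' - t)) v ∉ Submodule.span F (A t : Set V) := by
          intro h
          have := hAφ t (by omega) _ h
          rw [← Module.End.mul_apply, ← pow_add] at this
          have h3 : t + (e' - t) = e' := by omega
          rw [h3, hφ1] at this
          exact one_ne_zero this
        have e1 : (A (t + 1) : Set V) = insert ((N ^ (e' - t)) v) (A t : Set V) := by
          ext u
          simp only [A, Finset.coe_union, Finset.coe_image, Set.mem_union, Finset.mem_coe, Set.mem_insert_iff,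
            Set.mem_image, Finset.mem_range, Finset.coe_range, Set.mem_Iio]
          constructor
          · rintro (h | ⟨j, hj, rfl⟩)
            · exact Or.inr (Or.inl h)
            · by_cases hjt : j = t
              · left; rw [hjt]
              · right; right; exact ⟨j, by omega, rfl⟩
          · rintro (rfl | h | ⟨j, hj, rfl⟩)
            · right; exact ⟨t, by omega, rfl⟩
            · left; exact h
            · right; exact ⟨j, by omega, rfl⟩
        rw [e1, linearIndepOn_id_insert (fun h => hnew (Submodule.subset_span h))]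
        exact ⟨ih2 (by omega), hnew⟩
    refine ⟨A e, ?_, hAli e le_rfl, ?_, ?_⟩
    · intro u hu
      simp only [Finset.mem_coe, A, Finset.mem_union, Finset.mem_image, Finset.mem_range] at hu
      rcases hu with hu | ⟨j, hj, rfl⟩
      · exact ((hmemC u).mp (hs'C hu)).1
      · exact hpowW _ v hvW
    · apply le_antisymm
      · rw [Submodule.span_le]
        intro u hu
        simp only [Finset.mem_coe, A, Finset.mem_union, Finset.mem_image, Finset.mem_range] at hu
        rcases hu with hu | ⟨j, hj, rfl⟩
        · exact ((hmemC u).mp (hs'C hu)).1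
        · exact hpowW _ v hvW
      · intro w hw
        -- subtract a chain combination
        have hsub : ∀ t, t ≤ e → ∃ u ∈ Submodule.span F ((Finset.range e).image (fun j => (N ^ (e' - j)) v) : Set V),
            ∀ k, e - t ≤ k → k < e → φ ((N ^ k) (w - u)) = 0 := by
          intro t
          induction t with
          | zero =>
            intro _
            exact ⟨0, Submodule.zero_mem _, fun k h1 h2 => by omega⟩
          | succ t iht =>
            intro ht
            obtain ⟨u, hu, huk⟩ := iht (by omega)
            set k₀ := e - (t + 1) with hk₀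
            set a := φ ((N ^ k₀) (w - u)) with ha
            refine ⟨u + a • (N ^ (e' - k₀)) v, ?_, ?_⟩
            · apply Submodule.add_mem _ hu
              apply Submodule.smul_mem
              apply Submodule.subset_span
              simp only [Finset.coe_image, Set.mem_image, Finset.mem_coe, Finset.mem_range]
              exact ⟨k₀, by omega, rfl⟩
            · intro k h1 h2
              have e3 : w - (u + a • (N ^ (e' - k₀)) v) = (w - u) - a • (N ^ (e' - k₀)) v := by abel
              rw [e3, map_sub, map_sub, map_smul, map_smul, smul_eq_mul, ← Module.End.mul_apply (N ^ k), ← pow_add]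
              by_cases hk : k = k₀
              · rw [hk]
                have h3 : k₀ + (e' - k₀) = e' := by omega
                rw [h3, hφ1, mul_one, ← ha, sub_self]
              · rw [huk k (by omega) h2, hzero _ (by omega)]
                simp
        obtain ⟨u, hu, huk⟩ := hsub e le_rfl
        have hmem : w - u ∈ C := by
          refine (hmemC _).mpr ⟨?_, fun k hk => huk k (by omega) hk⟩
          apply W.sub_mem hw
          have hle : Submodule.span F ((Finset.range e).image (fun j => (N ^ (e' - j)) v) : Set V) ≤ W := by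
            rw [Submodule.span_le]
            intro x hx
            simp only [Finset.coe_image, Set.mem_image, Finset.mem_coe, Finset.mem_range] at hx
            obtain ⟨j, hj, rfl⟩ := hx
            exact hpowW _ v hvW
          exact hle hu
        have e4 : w = (w - u) + u := by abel
        rw [e4]
        apply Submodule.add_mem
        · rw [← hs'span] at hmem
          refine Submodule.span_mono ?_ hmem
          intro x hx
          simp only [Finset.mem_coe] at hx
          simp only [A, Finset.coe_union, Set.mem_union, Finset.mem_coe]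
          exact Or.inl hx
        · refine Submodule.span_mono ?_ hu
          intro x hx
          simp only [A, Finset.coe_union, Set.mem_union, Finset.mem_coe]
          right
          exact hx
    · intro ω hω
      simp only [A, Finset.mem_union, Finset.mem_image, Finset.mem_range] at hω
      rcases hω with hω | ⟨j, hj, rfl⟩
      · rcases hs'N ω hω with h | h
        · exact Or.inl h
        · right
          simp only [A, Finset.mem_union]
          exact Or.inl h
      · rw [← Module.End.mul_apply, ← pow_succ']
        by_cases hj0 : j = 0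
        · left
          rw [hj0]
          exact hzero _ (by omega)
        · right
          simp only [A, Finset.mem_union, Finset.mem_image, Finset.mem_range]
          right
          refine ⟨j - 1, by omega, ?_⟩
          have : e' - (j - 1) = e' - j + 1 := by omega
          rw [this]

/-- The matrix form: a nilpotent matrix is conjugate to a matrix with entries `0` and `1`. -/
theorem exists_rational_model {n m : ℕ} (N : Matrix (Fin n) (Fin n) F) (hN : N ^ m = 0) :
    ∃ P M : Matrix (Fin n) (Fin n) F, P.det ≠ 0 ∧ N * P = P * M ∧ ∀ i j, M i j = 0 ∨ M i j = 1 := by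
  classical
  have hN' : (Matrix.toLin' N) ^ m = 0 := by
    rw [← Matrix.toLin'_pow, hN, map_zero]
  obtain ⟨s, -, hli, hspan, hs⟩ := exists_chain_basis (Matrix.toLin' N) hN' _ ⊤ rfl (fun _ _ => trivial)
  have hcard : s.card = n := by
    have := finrank_span_finset_eq_card hli
    rw [hspan, finrank_top, Module.finrank_fin_fun] at this
    exact this.symm
  have hzero : (0 : Fin n → F) ∉ s := by
    intro h
    exact hli.ne_zero (by simpa using h) rfl
  let e : Fin n ≃ s := (Fintype.equivOfCardEq (by simp [hcard]))
  let P : Matrix (Fin n) (Fin n) F := Matrix.of (fun i j => (e j : Fin n → F) i)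
  let M : Matrix (Fin n) (Fin n) F := Matrix.of (fun i j => if Matrix.toLin' N (e j : Fin n → F) = (e i : Fin n → F) then 1 else 0)
  have hPcol : ∀ j, P.mulVec (Pi.single j 1) = (e j : Fin n → F) := by
    intro j
    ext i
    simp [P, Matrix.mulVec_single_one]
  have hinj : Function.Injective (fun j => (e j : Fin n → F)) := fun a b h => e.injective (Subtype.ext h)
  refine ⟨P, M, ?_, ?_, ?_⟩
  · -- independence of the columns
    have hlin : LinearIndependent F (fun j => (e j : Fin n → F)) := by
      have h1 : LinearIndependent F (fun x : s => ((x : Fin n → F))) := hli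
      exact h1.comp e e.injective
    have hcols : LinearIndependent F P.col := by
      have : P.col = (fun j => (e j : Fin n → F)) := by
        ext j i
        simp [P, Matrix.col]
      rw [this]; exact hlin
    have := Matrix.linearIndependent_cols_iff_isUnit.mp hcols
    exact ((Matrix.isUnit_iff_isUnit_det _).mp this).ne_zero
  · ext i j
    have h1 : (N * P) i j = (Matrix.toLin' N (e j : Fin n → F)) i := by
      simp [Matrix.mul_apply, P, Matrix.mulVec, dotProduct]
    have h2 : (P * M) i j = ∑ k, (e k : Fin n → F) i * (if Matrix.toLin' N (e j : Fin n → F) = (e k : Fin n → F) then 1 else 0) := by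
      simp [Matrix.mul_apply, P, M]
    rw [h1, h2]
    rcases hs (e j) (e j).2 with h | h
    · rw [h]
      rw [Finset.sum_eq_zero]
      · rfl
      · intro k _
        have : (0 : Fin n → F) ≠ (e k : Fin n → F) := by
          intro h3
          apply hzero
          rw [h3]
          exact (e k).2
        rw [if_neg this, mul_zero]
    · obtain ⟨k, hk⟩ := e.surjective ⟨_, h⟩
      have hk' : (e k : Fin n → F) = Matrix.toLin' N (e j : Fin n → F) := congrArg Subtype.val hk
      rw [Finset.sum_eq_single k]
      · rw [← hk']; simp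
      · intro b _ hb
        have : Matrix.toLin' N (e j : Fin n → F) ≠ (e b : Fin n → F) := by
          rw [← hk']
          intro h3
          exact hb (hinj h3).symm
        rw [if_neg this, mul_zero]
      · simp
  · intro i j
    simp only [M, Matrix.of_apply]
    split_ifs
    · exact Or.inr rfl
    · exact Or.inl rfl

/-- A Jordan block of maximal size splits off. -/
theorem exists_block (N : Module.End F V) {e : ℕ} (hN : N ^ (e + 1) = 0) {v : V} (hv : (N ^ e) v ≠ 0) :
    ∃ U W : Submodule F V, IsCompl U W ∧ (∀ u ∈ U, N u ∈ U) ∧ (∀ w ∈ W, N w ∈ W) ∧ finrank F U = e + 1 := by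
  classical
  have hnot : (N ^ e) v ∉ (⊥ : Submodule F V) := by simpa using hv
  obtain ⟨f, hf1, -⟩ := Submodule.exists_le_ker_of_notMem hnot
  set φ : V →ₗ[F] F := (f ((N ^ e) v))⁻¹ • f with hφ
  have hφ1 : φ ((N ^ e) v) = 1 := by
    simp only [hφ, LinearMap.smul_apply, smul_eq_mul]
    exact inv_mul_cancel₀ hf1
  have hzero : ∀ k, e < k → ∀ w, (N ^ k) w = 0 := by
    intro k hk w
    obtain ⟨t, rfl⟩ : ∃ t, k = t + (e + 1) := ⟨k - (e + 1), by omega⟩
    rw [pow_add, hN, mul_zero]
    rfl
  -- the chain from the bottom
  let A : ℕ → Finset V := fun t => (Finset.range t).image (fun j => (N ^ (e - j)) v)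
  set W : Submodule F V := ⨅ k : Fin (e + 1), LinearMap.ker (φ ∘ₗ (N ^ (k : ℕ))) with hW
  have hmemW : ∀ w, w ∈ W ↔ ∀ k, k ≤ e → φ ((N ^ k) w) = 0 := by
    intro w
    simp only [hW, Submodule.mem_iInf, LinearMap.mem_ker, LinearMap.comp_apply]
    constructor
    · intro h k hk
      exact h ⟨k, by omega⟩
    · intro h k
      exact h k (by omega)
  have hAφ : ∀ t, t ≤ e → ∀ w ∈ Submodule.span F (A t : Set V), φ ((N ^ t) w) = 0 := by
    intro t ht w hw
    have hlin : Submodule.span F (A t : Set V) ≤ LinearMap.ker (φ ∘ₗ (N ^ t)) := by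
      rw [Submodule.span_le]
      intro u hu
      simp only [Finset.mem_coe, A, Finset.mem_image, Finset.mem_range] at hu
      simp only [SetLike.mem_coe, LinearMap.mem_ker, LinearMap.comp_apply]
      obtain ⟨j, hj, rfl⟩ := hu
      rw [← Module.End.mul_apply, ← pow_add, hzero _ (by omega), map_zero]
    exact hlin hw
  have hsucc : ∀ t, t ≤ e → (A (t + 1) : Set V) = insert ((N ^ (e - t)) v) (A t : Set V) := by
    intro t _
    ext u
    simp only [A, Finset.coe_image, Set.mem_insert_iff, Set.mem_image, Finset.mem_coe, Finset.mem_range]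
    constructor
    · rintro ⟨j, hj, rfl⟩
      by_cases hjt : j = t
      · left; rw [hjt]
      · right; exact ⟨j, by omega, rfl⟩
    · rintro (rfl | ⟨j, hj, rfl⟩)
      · exact ⟨t, by omega, rfl⟩
      · exact ⟨j, by omega, rfl⟩
  have hnew : ∀ t, t ≤ e → (N ^ (e - t)) v ∉ Submodule.span F (A t : Set V) := by
    intro t ht h
    have := hAφ t ht _ h
    rw [← Module.End.mul_apply, ← pow_add] at this
    have h3 : t + (e - t) = e := by omega
    rw [h3, hφ1] at this
    exact one_ne_zero this
  have hAli : ∀ t, t ≤ e + 1 → LinearIndepOn F id (A t : Set V) := by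
    intro t
    induction t with
    | zero =>
      intro _
      simp [A]
    | succ t ih2 =>
      intro ht
      rw [hsucc t (by omega), linearIndepOn_id_insert (fun h => hnew t (by omega) (Submodule.subset_span h))]
      exact ⟨ih2 (by omega), hnew t (by omega)⟩
  have hdisj : ∀ t, t ≤ e + 1 → ∀ u ∈ Submodule.span F (A t : Set V), u ∈ W → u = 0 := by
    intro t
    induction t with
    | zero =>
      intro _ u hu _
      simpa [A] using hu
    | succ t ih2 =>
      intro ht u hu huW
      rw [hsucc t (by omega)] at hu
      obtain ⟨a, c, hc, rfl⟩ := Submodule.mem_span_insert.mp hu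
      have h1 := (hmemW _).mp huW t (by omega)
      rw [map_add, map_add, hAφ t (by omega) c hc, map_smul, map_smul, ← Module.End.mul_apply, ← pow_add] at h1
      have h3 : t + (e - t) = e := by omega
      rw [h3, hφ1] at h1
      have ha : a = 0 := by simpa using h1
      rw [ha, zero_smul, zero_add] at huW ⊢
      exact ih2 (by omega) c hc huW
  refine ⟨Submodule.span F (A (e + 1) : Set V), W, ⟨?_, ?_⟩, ?_, ?_, ?_⟩
  · rw [Submodule.disjoint_def]
    intro u hu hu2
    exact hdisj (e + 1) le_rfl u hu hu2
  · rw [codisjoint_iff, eq_top_iff]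
    intro w _
    have hsub : ∀ t, t ≤ e + 1 → ∃ u ∈ Submodule.span F (A (e + 1) : Set V),
        ∀ k, e + 1 - t ≤ k → k ≤ e → φ ((N ^ k) (w - u)) = 0 := by
      intro t
      induction t with
      | zero =>
        intro _
        exact ⟨0, Submodule.zero_mem _, fun k h1 h2 => by omega⟩
      | succ t iht =>
        intro ht
        obtain ⟨u, hu, huk⟩ := iht (by omega)
        set k₀ := e + 1 - (t + 1) with hk₀
        set a := φ ((N ^ k₀) (w - u)) with ha
        refine ⟨u + a • (N ^ (e - k₀)) v, ?_, ?_⟩
        · apply Submodule.add_mem _ hu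
          apply Submodule.smul_mem
          apply Submodule.subset_span
          simp only [A, Finset.coe_image, Set.mem_image, Finset.mem_coe, Finset.mem_range]
          exact ⟨k₀, by omega, rfl⟩
        · intro k h1 h2
          have e3 : w - (u + a • (N ^ (e - k₀)) v) = (w - u) - a • (N ^ (e - k₀)) v := by abel
          rw [e3, map_sub, map_sub, map_smul, map_smul, smul_eq_mul, ← Module.End.mul_apply (N ^ k), ← pow_add]
          by_cases hk : k = k₀
          · rw [hk]
            have h3 : k₀ + (e - k₀) = e := by omega
            rw [h3, hφ1, mul_one, ← ha, sub_self]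
          · rw [huk k (by omega) h2, hzero _ (by omega)]
            simp
    obtain ⟨u, hu, huk⟩ := hsub (e + 1) le_rfl
    have hmem : w - u ∈ W := (hmemW _).mpr (fun k hk => huk k (by omega) hk)
    have e4 : w = u + (w - u) := by abel
    rw [e4]
    exact Submodule.add_mem _ (Submodule.mem_sup_left hu) (Submodule.mem_sup_right hmem)
  · intro u hu
    have hlin : Submodule.span F (A (e + 1) : Set V) ≤ (Submodule.span F (A (e + 1) : Set V)).comap N := by
      rw [Submodule.span_le]
      intro x hx
      simp only [Finset.mem_coe, A, Finset.mem_image, Finset.mem_range] at hx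
      obtain ⟨j, hj, rfl⟩ := hx
      simp only [Submodule.comap_coe, Set.mem_preimage, SetLike.mem_coe]
      rw [← Module.End.mul_apply, ← pow_succ']
      by_cases hj0 : j = 0
      · rw [hj0, hzero _ (by omega)]
        exact Submodule.zero_mem _
      · apply Submodule.subset_span
        simp only [A, Finset.coe_image, Set.mem_image, Finset.mem_coe, Finset.mem_range]
        refine ⟨j - 1, by omega, ?_⟩
        have : e - (j - 1) = e - j + 1 := by omega
        rw [this]
    exact hlin hu
  · intro w hw
    refine (hmemW _).mpr (fun k hk => ?_)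
    rw [← Module.End.mul_apply, ← pow_succ]
    by_cases hk2 : k + 1 ≤ e
    · exact (hmemW _).mp hw _ hk2
    · rw [hzero _ (by omega), map_zero]
  · have := finrank_span_finset_eq_card (hAli (e + 1) le_rfl)
    rw [this]
    simp only [A]
    rw [Finset.card_image_of_injOn, Finset.card_range]
    intro i hi j hj hij
    simp only [Finset.coe_range, Set.mem_Iio] at hi hj
    by_contra hne
    have hgen : ∀ i j, i < j → j < e + 1 → (N ^ (e - i)) v ≠ (N ^ (e - j)) v := by
      intro i j hlt hj h
      have h5 : φ ((N ^ j) ((N ^ (e - i)) v)) = φ ((N ^ j) ((N ^ (e - j)) v)) := by rw [h]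
      rw [← Module.End.mul_apply, ← Module.End.mul_apply, ← pow_add, ← pow_add] at h5
      have h6 : j + (e - j) = e := by omega
      rw [h6, hφ1, hzero _ (by omega), map_zero] at h5
      exact zero_ne_one h5
    rcases lt_or_gt_of_ne hne with hlt | hlt
    · exact hgen i j hlt hj hij
    · exact hgen j i hlt hi hij.symm

/-- The centraliser of a nilpotent endomorphism contains elements of determinant `a ^ (e+1)`, for
`e + 1` the nilpotency index. -/
theorem exists_comm_det_block (N : Module.End F V) {e : ℕ} (hN : N ^ (e + 1) = 0) (hN2 : N ^ e ≠ 0) (a : F) :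
    ∃ c : Module.End F V, (∀ v, c (N v) = N (c v)) ∧ LinearMap.det c = a ^ (e + 1) := by
  classical
  obtain ⟨v, hv⟩ : ∃ v, (N ^ e) v ≠ 0 := by
    by_contra hcon
    push Not at hcon
    exact hN2 (LinearMap.ext hcon)
  obtain ⟨U, W, hc, hU, hW, hd⟩ := exists_block N hN hv
  obtain ⟨c, h1, h2, h3⟩ := EluConj.summand_det hc (a • LinearMap.id : Module.End F U)
  refine ⟨c, ?_, ?_⟩
  · apply EluConj.summand_commute hc N c _ h1 h2 hU hW
    intro u
    simp
  · rw [h3, LinearMap.det_smul, LinearMap.det_id, mul_one, hd]

/-- The normal form of an endomorphism of square zero. -/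
theorem sq_zero_normal (N : Module.End F V) (hN : N * N = 0) :
    ∃ s : ℕ, ∃ Φ : V ≃ₗ[F] (Fin (finrank F (LinearMap.range N)) → F) × ((Fin (finrank F (LinearMap.range N)) → F) × (Fin s → F)),
      (∀ v, Φ (N v) = (0, ((Φ v).1, 0))) ∧ 2 * finrank F (LinearMap.range N) + s = finrank F V := by
  classical
  set r := finrank F (LinearMap.range N) with hr
  set K0 := LinearMap.ker N with hK0
  have hRK : LinearMap.range N ≤ K0 := by
    rintro _ ⟨v, rfl⟩
    have := congrArg (fun M : Module.End F V => M v) hN
    simpa [hK0] using this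
  obtain ⟨C, hC⟩ := Submodule.exists_isCompl K0
  -- N on C
  have hCinj : ∀ c ∈ C, N c = 0 → c = 0 := by
    intro c hc h0
    exact (Submodule.disjoint_def.mp hC.disjoint) c (by exact h0) hc
  have hCsurj : ∀ v, ∃ c ∈ C, N c = N v := by
    intro v
    have hv : v ∈ K0 ⊔ C := by rw [hC.sup_eq_top]; trivial
    obtain ⟨k, hk, c, hc, rfl⟩ := Submodule.mem_sup.mp hv
    refine ⟨c, hc, ?_⟩
    have : N k = 0 := hk
    rw [map_add, this, zero_add]
  let R' : Submodule F K0 := (LinearMap.range N).comap K0.subtype
  obtain ⟨K₁, hK₁⟩ := Submodule.exists_isCompl R'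
  let ψ : C →ₗ[F] R' :=
    { toFun := fun c => ⟨⟨N c, hRK ⟨c, rfl⟩⟩, ⟨c, rfl⟩⟩
      map_add' := fun a b => by ext; simp
      map_smul' := fun c a => by ext; simp }
  have hψ : Function.Bijective ψ := by
    constructor
    · intro a b hab
      have h1 : N a = N b := congrArg (fun x : R' => ((x : K0) : V)) hab
      apply Subtype.ext
      have := hCinj (a - b) (C.sub_mem a.2 b.2) (by rw [map_sub, h1, sub_self])
      exact sub_eq_zero.mp this
    · rintro ⟨⟨x, hx⟩, ⟨v, hv⟩⟩
      obtain ⟨c, hc, hcv⟩ := hCsurj v
      refine ⟨⟨c, hc⟩, ?_⟩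
      apply Subtype.ext
      apply Subtype.ext
      show N c = x
      rw [hcv]
      exact hv
  let Ψ : C ≃ₗ[F] R' := LinearEquiv.ofBijective ψ hψ
  have hrC : finrank F C = r := by
    have h1 := Ψ.finrank_eq
    have h2 : finrank F R' = r := by
      have : Function.Injective (K0.subtype) := K0.injective_subtype
      have e : R' ≃ₗ[F] LinearMap.range N := Submodule.comapSubtypeEquivOfLe hRK
      exact e.finrank_eq
    omega
  let e₁ : C ≃ₗ[F] (Fin r → F) := LinearEquiv.ofFinrankEq _ _ (by rw [hrC, Module.finrank_fin_fun])
  let e₂ : K₁ ≃ₗ[F] (Fin (finrank F K₁) → F) := LinearEquiv.ofFinrankEq _ _ (by rw [Module.finrank_fin_fun])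
  let Φ : V ≃ₗ[F] (Fin r → F) × ((Fin r → F) × (Fin (finrank F K₁) → F)) :=
    (Submodule.prodEquivOfIsCompl C K0 hC.symm).symm ≪≫ₗ
      (e₁.prodCongr ((Submodule.prodEquivOfIsCompl R' K₁ hK₁).symm ≪≫ₗ ((Ψ.symm ≪≫ₗ e₁).prodCongr e₂)))
  refine ⟨finrank F K₁, Φ, ?_, ?_⟩
  · intro v
    have hv : v ∈ C ⊔ K0 := by rw [hC.symm.sup_eq_top]; trivial
    obtain ⟨c, hc, k, hk, rfl⟩ := Submodule.mem_sup.mp hv
    have hNk : N k = 0 := hk
    have e0 : (Submodule.prodEquivOfIsCompl C K0 hC.symm).symm (c + k) = (⟨c, hc⟩, ⟨k, hk⟩) := by
      rw [LinearEquiv.symm_apply_eq]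
      rfl
    have eN : N (c + k) = N c := by rw [map_add, hNk, add_zero]
    have e1 : (Submodule.prodEquivOfIsCompl C K0 hC.symm).symm (N c) = (0, ⟨N c, hRK ⟨c, rfl⟩⟩) :=
      Submodule.prodEquivOfIsCompl_symm_apply_right C K0 hC.symm ⟨N c, hRK ⟨c, rfl⟩⟩
    have e2 : (Submodule.prodEquivOfIsCompl R' K₁ hK₁).symm (⟨N c, hRK ⟨c, rfl⟩⟩ : K0) = (ψ ⟨c, hc⟩, 0) :=
      Submodule.prodEquivOfIsCompl_symm_apply_left R' K₁ hK₁ (ψ ⟨c, hc⟩)
    have hΦ : ∀ x, Φ x = (e₁ ((Submodule.prodEquivOfIsCompl C K0 hC.symm).symm x).1,
        (e₁ (Ψ.symm ((Submodule.prodEquivOfIsCompl R' K₁ hK₁).symm ((Submodule.prodEquivOfIsCompl C K0 hC.symm).symm x).2).1),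
          e₂ ((Submodule.prodEquivOfIsCompl R' K₁ hK₁).symm ((Submodule.prodEquivOfIsCompl C K0 hC.symm).symm x).2).2)) := fun x => rfl
    rw [eN, hΦ, hΦ (c + k), e0, e1, e2]
    simp only [map_zero]
    have e3 : Ψ.symm (ψ ⟨c, hc⟩) = ⟨c, hc⟩ := Ψ.symm_apply_apply ⟨c, hc⟩
    rw [e3]
  · have h1 := Submodule.finrank_add_eq_of_isCompl hC.symm
    have h2 := Submodule.finrank_add_eq_of_isCompl hK₁
    have h3 : finrank F R' = r := by
      exact (Submodule.comapSubtypeEquivOfLe hRK).finrank_eq
    omega

end Cfsg.Agent.Lib.ClassMax.EluNil
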