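import Mathlib
import Cfsg.Prelude.Def_GeometricClasses

/-!
Involutions and block systems: an involution of a finite set of size `a * t` preserves a
partition into `t` blocks of size `a`; an endomorphism with scalar square permutes the lines of a
basis.
-/

set_option autoImplicit false
set_option linter.unusedSectionVars false

namespace Cfsg.Agent.Lib.ClassMax.Elusive

section blocks

variable {Ω : Type*} [DecidableEq Ω]

/-- An involution-invariant subset of prescribed size. -/
theorem exists_invariant_subset (π : Ω → Ω) :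
    ∀ (k : ℕ) (S : Finset Ω), (∀ ω ∈ S, π ω ∈ S ∧ π (π ω) = ω) → k ≤ S.card →
      (Even k ∨ ∃ ω ∈ S, π ω = ω) → ∃ A ⊆ S, A.card = k ∧ ∀ ω ∈ A, π ω ∈ A := by
  intro k
  induction k using Nat.strong_induction_on with
  | _ k ih =>
    intro S hS hk hpar
    rcases k with _ | _ | k
    · exact ⟨∅, by simp, by simp, by simp⟩
    · rcases hpar with h | ⟨ω, hω, hfix⟩
      · exact absurd h (by decide)
      · refine ⟨{ω}, by simpa using hω, by simp, ?_⟩
        intro ν hν
        rw [Finset.mem_singleton] at hν
        rw [hν, hfix]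
        simp
    · by_cases hall : ∀ ω ∈ S, π ω = ω
      · obtain ⟨A, hA, hcard⟩ := Finset.exists_subset_card_eq hk
        refine ⟨A, hA, hcard, fun ω hω => ?_⟩
        rw [hall ω (hA hω)]
        exact hω
      · push Not at hall
        obtain ⟨ω, hω, hne⟩ := hall
        obtain ⟨hπω, hπ2⟩ := hS ω hω
        set S' := (S.erase ω).erase (π ω) with hS'
        have hmem : ∀ ν, ν ∈ S' ↔ ν ≠ π ω ∧ ν ≠ ω ∧ ν ∈ S := by
          intro ν
          simp [hS', Finset.mem_erase]
        have hcardS' : S'.card + 2 = S.card := by
          have h1 : (S.erase ω).card + 1 = S.card := Finset.card_erase_add_one hω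
          have h2 : π ω ∈ S.erase ω := Finset.mem_erase.mpr ⟨hne, hπω⟩
          have h3 : S'.card + 1 = (S.erase ω).card := Finset.card_erase_add_one h2
          omega
        have hS'inv : ∀ ν ∈ S', π ν ∈ S' ∧ π (π ν) = ν := by
          intro ν hν
          obtain ⟨h1, h2, h3⟩ := (hmem ν).mp hν
          obtain ⟨h4, h5⟩ := hS ν h3
          refine ⟨(hmem _).mpr ⟨?_, ?_, h4⟩, h5⟩
          · intro h
            apply h2
            rw [← h5, h, hπ2]
          · intro h
            apply h1
            rw [← h5, h]
        have hpar' : Even k ∨ ∃ ν ∈ S', π ν = ν := by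
          rcases hpar with h | ⟨ν, hν, hfix⟩
          · left
            have : Even (k + 2) := by simpa [add_assoc] using h
            exact (Nat.even_add.mp this).mpr (by decide)
          · right
            refine ⟨ν, (hmem ν).mpr ⟨?_, ?_, hν⟩, hfix⟩
            · intro h
              apply hne
              rw [h] at hfix
              rw [hπ2] at hfix
              exact hfix.symm
            · intro h
              apply hne
              rw [← h]
              exact hfix
        obtain ⟨A', hA', hcard', hinv'⟩ := ih k (by omega) S' hS'inv (by omega) hpar'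
        have hωA' : ω ∉ A' := fun h => ((hmem ω).mp (hA' h)).2.1 rfl
        have hπωA' : π ω ∉ A' := fun h => ((hmem _).mp (hA' h)).1 rfl
        refine ⟨insert ω (insert (π ω) A'), ?_, ?_, ?_⟩
        · intro ν hν
          simp only [Finset.mem_insert] at hν
          rcases hν with rfl | rfl | hν
          · exact hω
          · exact hπω
          · exact ((hmem ν).mp (hA' hν)).2.2
        · rw [Finset.card_insert_of_notMem, Finset.card_insert_of_notMem hπωA', hcard']
          simp only [Finset.mem_insert, not_or]
          exact ⟨hne.symm, hωA'⟩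
        · intro ν hν
          simp only [Finset.mem_insert] at hν ⊢
          rcases hν with rfl | rfl | hν
          · right; left; rfl
          · left; exact hπ2
          · right; right; exact hinv' ν hν

/-- A subset meeting its image under a fixed-point-free involution trivially. -/
theorem exists_free_subset (π : Ω → Ω) :
    ∀ (k : ℕ) (S : Finset Ω), (∀ ω ∈ S, π ω ∈ S ∧ π (π ω) = ω ∧ π ω ≠ ω) → 2 * k ≤ S.card →
      ∃ A ⊆ S, A.card = k ∧ ∀ ω ∈ A, π ω ∉ A := by
  intro k
  induction k with
  | zero => exact fun S _ _ => ⟨∅, by simp, by simp, by simp⟩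
  | succ k ih =>
    intro S hS hk
    have hne : S.Nonempty := by
      rw [← Finset.card_pos]; omega
    obtain ⟨ω, hω⟩ := hne
    obtain ⟨hπω, hπ2, hne⟩ := hS ω hω
    set S' := (S.erase ω).erase (π ω) with hS'
    have hmem : ∀ ν, ν ∈ S' ↔ ν ≠ π ω ∧ ν ≠ ω ∧ ν ∈ S := by
      intro ν
      simp [hS', Finset.mem_erase]
    have hcardS' : S'.card + 2 = S.card := by
      have h1 : (S.erase ω).card + 1 = S.card := Finset.card_erase_add_one hω
      have h2 : π ω ∈ S.erase ω := Finset.mem_erase.mpr ⟨hne, hπω⟩
      have h3 : S'.card + 1 = (S.erase ω).card := Finset.card_erase_add_one h2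
      omega
    have hS'inv : ∀ ν ∈ S', π ν ∈ S' ∧ π (π ν) = ν ∧ π ν ≠ ν := by
      intro ν hν
      obtain ⟨h1, h2, h3⟩ := (hmem ν).mp hν
      obtain ⟨h4, h5, h6⟩ := hS ν h3
      refine ⟨(hmem _).mpr ⟨?_, ?_, h4⟩, h5, h6⟩
      · intro h
        apply h2
        rw [← h5, h, hπ2]
      · intro h
        apply h1
        rw [← h5, h]
    obtain ⟨A', hA', hcard', hfree⟩ := ih S' hS'inv (by omega)
    have hωA' : ω ∉ A' := fun h => ((hmem ω).mp (hA' h)).2.1 rfl
    have hπωA' : π ω ∉ A' := fun h => ((hmem _).mp (hA' h)).1 rfl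
    refine ⟨insert ω A', ?_, ?_, ?_⟩
    · intro ν hν
      rw [Finset.mem_insert] at hν
      rcases hν with rfl | hν
      · exact hω
      · exact ((hmem ν).mp (hA' hν)).2.2
    · rw [Finset.card_insert_of_notMem hωA', hcard']
    · intro ν hν
      rw [Finset.mem_insert] at hν ⊢
      rintro (h | h)
      · rcases hν with rfl | hν
        · exact hne h
        · apply ((hmem ν).mp (hA' hν)).1
          have := (hS ν ((hmem ν).mp (hA' hν)).2.2).2.1
          rw [← this, h]
      · rcases hν with rfl | hν
        · exact hπωA' h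
        · exact hfree ν hν h

/-- A fixed-point-free involution forces an even cardinality. -/
theorem even_card_of_free (π : Ω → Ω) (S : Finset Ω)
    (hS : ∀ ω ∈ S, π ω ∈ S ∧ π (π ω) = ω ∧ π ω ≠ ω) : Even S.card := by
  have h : ∑ ω ∈ S, (1 : ZMod 2) = 0 := by
    apply Finset.sum_involution (fun ω _ => π ω)
    · intro ω _
      decide
    · intro ω hω _
      exact (hS ω hω).2.2
    · intro ω hω
      exact (hS ω hω).1
    · intro ω hω
      exact (hS ω hω).2.1
  rw [Finset.sum_const, nsmul_eq_mul, mul_one] at h
  exact (ZMod.natCast_eq_zero_iff_even).mp h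

/-- The block system. -/
theorem exists_block_system (π : Ω → Ω) (a : ℕ) (ha : 0 < a) :
    ∀ (t : ℕ) (S : Finset Ω), (∀ ω ∈ S, π ω ∈ S ∧ π (π ω) = ω) → S.card = a * t →
      ∃ P : Finset (Finset Ω), (∀ A ∈ P, A.card = a ∧ A ⊆ S ∧ A.image π ∈ P) ∧
        (∀ ω ∈ S, ∃ A ∈ P, ω ∈ A) ∧ (P : Set (Finset Ω)).PairwiseDisjoint id := by
  intro t
  induction t using Nat.strong_induction_on with
  | _ t ih =>
    intro S hS hcard
    rcases t with _ | t
    · refine ⟨∅, by simp, ?_, by simp⟩
      have : S = ∅ := by
        rw [← Finset.card_eq_zero, hcard]; simp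
      subst this
      simp
    by_cases hcase : Even a ∨ ∃ ω ∈ S, π ω = ω
    · have hle : a ≤ S.card := by
        rw [hcard]; exact Nat.le_mul_of_pos_right _ (Nat.succ_pos _)
      obtain ⟨A, hAS, hAc, hAinv⟩ := exists_invariant_subset π a S hS hle hcase
      have himg : A.image π = A := by
        apply Finset.eq_of_subset_of_card_le
        · intro ν hν
          obtain ⟨μ, hμ, rfl⟩ := Finset.mem_image.mp hν
          exact hAinv μ hμ
        · rw [Finset.card_image_of_injOn]
          intro u hu v hv huv
          have h1 := (hS u (hAS hu)).2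
          have h2 := (hS v (hAS hv)).2
          rw [← h1, ← h2, huv]
      have hS' : ∀ ω ∈ S \ A, π ω ∈ S \ A ∧ π (π ω) = ω := by
        intro ω hω
        obtain ⟨h1, h2⟩ := Finset.mem_sdiff.mp hω
        obtain ⟨h3, h4⟩ := hS ω h1
        refine ⟨Finset.mem_sdiff.mpr ⟨h3, fun h => h2 ?_⟩, h4⟩
        rw [← h4]
        exact hAinv _ h
      have hc' : (S \ A).card = a * t := by
        rw [Finset.card_sdiff_of_subset hAS, hcard, hAc, Nat.mul_succ]
        omega
      obtain ⟨P, hP1, hP2, hP3⟩ := ih t (Nat.lt_succ_self t) (S \ A) hS' hc'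
      have hAP : ∀ B ∈ P, Disjoint A B := by
        intro B hB
        rw [Finset.disjoint_left]
        intro ν hν hνB
        exact (Finset.mem_sdiff.mp ((hP1 B hB).2.1 hνB)).2 hν
      refine ⟨insert A P, ?_, ?_, ?_⟩
      · intro B hB
        rw [Finset.mem_insert] at hB
        rcases hB with rfl | hB
        · exact ⟨hAc, hAS, by rw [himg]; exact Finset.mem_insert_self _ _⟩
        · obtain ⟨h1, h2, h3⟩ := hP1 B hB
          exact ⟨h1, h2.trans Finset.sdiff_subset, Finset.mem_insert_of_mem h3⟩
      · intro ω hω
        by_cases h : ω ∈ A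
        · exact ⟨A, Finset.mem_insert_self _ _, h⟩
        · obtain ⟨B, hB, hωB⟩ := hP2 ω (Finset.mem_sdiff.mpr ⟨hω, h⟩)
          exact ⟨B, Finset.mem_insert_of_mem hB, hωB⟩
      · rw [Finset.coe_insert]
        apply Set.PairwiseDisjoint.insert hP3
        intro B hB _
        exact hAP B hB
    · push Not at hcase
      obtain ⟨hodd, hfree⟩ := hcase
      have hS2 : ∀ ω ∈ S, π ω ∈ S ∧ π (π ω) = ω ∧ π ω ≠ ω := fun ω hω =>
        ⟨(hS ω hω).1, (hS ω hω).2, hfree ω hω⟩
      have heven := even_card_of_free π S hS2
      rw [hcard, Nat.even_mul] at heven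
      have ht : Even (t + 1) := heven.resolve_left hodd
      obtain ⟨t', ht'⟩ : ∃ t', t = t' + 1 := by
        rcases t with _ | t'
        · exact absurd ht (by decide)
        · exact ⟨t', rfl⟩
      subst ht'
      have hle : 2 * a ≤ S.card := by
        rw [hcard]
        calc 2 * a = a * 2 := by ring
          _ ≤ a * (t' + 1 + 1) := Nat.mul_le_mul_left _ (by omega)
      obtain ⟨A, hAS, hAc, hAfree⟩ := exists_free_subset π a S hS2 hle
      set B := A.image π with hB
      have hinj : Set.InjOn π (A : Set Ω) := by
        intro u hu v hv huv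
        have h1 := (hS u (hAS hu)).2
        have h2 := (hS v (hAS hv)).2
        rw [← h1, ← h2, huv]
      have hBc : B.card = a := by
        rw [hB, Finset.card_image_of_injOn hinj, hAc]
      have hBS : B ⊆ S := by
        intro ν hν
        obtain ⟨μ, hμ, rfl⟩ := Finset.mem_image.mp hν
        exact (hS μ (hAS hμ)).1
      have hABd : Disjoint A B := by
        rw [Finset.disjoint_left]
        intro ν hν hνB
        obtain ⟨μ, hμ, rfl⟩ := Finset.mem_image.mp hνB
        exact hAfree μ hμ hν
      have hBimg : B.image π = A := by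
        rw [hB, Finset.image_image]
        ext ν
        simp only [Finset.mem_image, Function.comp]
        constructor
        · rintro ⟨μ, hμ, rfl⟩
          rw [(hS μ (hAS hμ)).2]
          exact hμ
        · intro hν
          exact ⟨ν, hν, (hS ν (hAS hν)).2⟩
      have hS' : ∀ ω ∈ S \ (A ∪ B), π ω ∈ S \ (A ∪ B) ∧ π (π ω) = ω := by
        intro ω hω
        obtain ⟨h1, h2⟩ := Finset.mem_sdiff.mp hω
        obtain ⟨h3, h4⟩ := hS ω h1
        rw [Finset.mem_union, not_or] at h2
        refine ⟨Finset.mem_sdiff.mpr ⟨h3, ?_⟩, h4⟩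
        rw [Finset.mem_union, not_or]
        constructor
        · intro h
          apply h2.2
          rw [← h4]
          exact Finset.mem_image_of_mem _ h
        · intro h
          apply h2.1
          obtain ⟨μ, hμ, hμe⟩ := Finset.mem_image.mp h
          have h5 := (hS μ (hAS hμ)).2
          have : ω = μ := by
            rw [← h4, ← hμe, h5]
          rw [this]; exact hμ
      have hc' : (S \ (A ∪ B)).card = a * t' := by
        rw [Finset.card_sdiff_of_subset (Finset.union_subset hAS hBS), Finset.card_union_of_disjoint hABd, hcard, hAc, hBc]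
        have : a * (t' + 1 + 1) = a * t' + (a + a) := by ring
        omega
      obtain ⟨P, hP1, hP2, hP3⟩ := ih t' (by omega) (S \ (A ∪ B)) hS' hc'
      have hAP : ∀ C ∈ P, Disjoint A C := by
        intro C hC
        rw [Finset.disjoint_left]
        intro ν hν hνC
        have := (Finset.mem_sdiff.mp ((hP1 C hC).2.1 hνC)).2
        exact this (Finset.mem_union_left _ hν)
      have hBP : ∀ C ∈ P, Disjoint B C := by
        intro C hC
        rw [Finset.disjoint_left]
        intro ν hν hνC
        have := (Finset.mem_sdiff.mp ((hP1 C hC).2.1 hνC)).2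
        exact this (Finset.mem_union_right _ hν)
      refine ⟨insert A (insert B P), ?_, ?_, ?_⟩
      · intro C hC
        simp only [Finset.mem_insert] at hC
        rcases hC with rfl | rfl | hC
        · exact ⟨hAc, hAS, by simp [← hB]⟩
        · refine ⟨hBc, hBS, ?_⟩
          rw [hBimg]
          exact Finset.mem_insert_self _ _
        · obtain ⟨h1, h2, h3⟩ := hP1 C hC
          exact ⟨h1, h2.trans Finset.sdiff_subset,
            Finset.mem_insert_of_mem (Finset.mem_insert_of_mem h3)⟩
      · intro ω hω
        by_cases h : ω ∈ A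
        · exact ⟨A, Finset.mem_insert_self _ _, h⟩
        by_cases h' : ω ∈ B
        · exact ⟨B, Finset.mem_insert_of_mem (Finset.mem_insert_self _ _), h'⟩
        · obtain ⟨C, hC, hωC⟩ := hP2 ω (Finset.mem_sdiff.mpr ⟨hω, by
            rw [Finset.mem_union, not_or]; exact ⟨h, h'⟩⟩)
          exact ⟨C, Finset.mem_insert_of_mem (Finset.mem_insert_of_mem hC), hωC⟩
      · rw [Finset.coe_insert, Finset.coe_insert]
        apply Set.PairwiseDisjoint.insert
        · apply Set.PairwiseDisjoint.insert hP3
          intro C hC _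
          exact hBP C hC
        · intro C hC _
          rw [Set.mem_insert_iff] at hC
          rcases hC with rfl | hC
          · exact hABd
          · exact hAP C hC

/-- Counting the blocks. -/
theorem card_blocks {a : ℕ} (ha : 0 < a) {S : Finset Ω} {P : Finset (Finset Ω)} {t : ℕ}
    (hcard : S.card = a * t) (h1 : ∀ A ∈ P, A.card = a ∧ A ⊆ S)
    (h2 : ∀ ω ∈ S, ∃ A ∈ P, ω ∈ A) (h3 : (P : Set (Finset Ω)).PairwiseDisjoint id) :
    P.card = t := by
  have hS : S = P.biUnion id := by
    ext ω
    simp only [Finset.mem_biUnion, id]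
    constructor
    · exact h2 ω
    · rintro ⟨A, hA, hω⟩
      exact (h1 A hA).2 hω
  have := Finset.card_biUnion (s := P) (t := id) (fun A hA B hB hne => h3 hA hB hne)
  rw [← hS] at this
  have h5 : ∑ u ∈ P, (id u).card = ∑ _u ∈ P, a := Finset.sum_congr rfl (fun A hA => (h1 A hA).1)
  rw [h5, Finset.sum_const, smul_eq_mul, hcard] at this
  have h4 : a * t = a * P.card := by rw [this]; ring
  exact (Nat.eq_of_mul_eq_mul_left ha h4).symm

end blocks

section lines

variable {F V : Type*} [Field F] [AddCommGroup V] [Module F V] [FiniteDimensional F V]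

open Module

/-- An endomorphism with scalar square permutes the lines of a basis of every invariant subspace. -/
theorem exists_line_basis (x : V →ₗ[F] V) (hinj : Function.Injective x) (z : F)
    (hx : ∀ v, x (x v) = z • v) :
    ∀ (d : ℕ) (W : Submodule F V), finrank F W = d → (∀ w ∈ W, x w ∈ W) →
      ∃ s : Finset V, (s : Set V) ⊆ W ∧ LinearIndepOn F id (s : Set V) ∧
        Submodule.span F (s : Set V) = W ∧ ∀ ω ∈ s, ∃ ω' ∈ s, ∃ c : F, c ≠ 0 ∧ x ω = c • ω' := by
  classical
  intro d
  induction d using Nat.strong_induction_on with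
  | _ d ih =>
    intro W hd hW
    by_cases hcase : ∃ v ∈ W, v ≠ 0 ∧ ∀ c : F, x v ≠ c • v
    · obtain ⟨v, hvW, hv0, hv⟩ := hcase
      have hnot : x v ∉ Submodule.span F {v} := by
        intro h
        obtain ⟨c, hc⟩ := Submodule.mem_span_singleton.mp h
        exact hv c hc.symm
      obtain ⟨f, hf1, hf2⟩ := Submodule.exists_le_ker_of_notMem hnot
      have hfv : f v = 0 := hf2 (Submodule.mem_span_singleton_self v)
      set φ : V →ₗ[F] F := (f (x v))⁻¹ • f with hφ
      have hφv : φ v = 0 := by simp [hφ, hfv]
      have hφx : φ (x v) = 1 := by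
        simp only [hφ, LinearMap.smul_apply, smul_eq_mul]
        exact inv_mul_cancel₀ hf1
      have hφxx : φ (x (x v)) = 0 := by
        rw [hx, map_smul, hφv, smul_zero]
      set C : Submodule F V := W ⊓ (LinearMap.ker φ ⊓ LinearMap.ker (φ ∘ₗ x)) with hC
      have hmemC : ∀ w, w ∈ C ↔ w ∈ W ∧ φ w = 0 ∧ φ (x w) = 0 := by
        intro w
        simp [hC, Submodule.mem_inf, LinearMap.mem_ker]
      have hxvW : x v ∈ W := hW v hvW
      have hCW : C < W := by
        refine lt_of_le_of_ne inf_le_left ?_
        intro h
        have : x v ∈ C := by rw [h]; exact hxvW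
        have h2 := ((hmemC _).mp this).2.1
        rw [hφx] at h2
        exact one_ne_zero h2
      have hCinv : ∀ w ∈ C, x w ∈ C := by
        intro w hw
        obtain ⟨h1, h2, h3⟩ := (hmemC w).mp hw
        refine (hmemC _).mpr ⟨hW w h1, h3, ?_⟩
        rw [hx, map_smul, h2, smul_zero]
      obtain ⟨s, hsC, hsli, hsspan, hsx⟩ := ih (finrank F C)
        (by rw [← hd]; exact Submodule.finrank_lt_finrank_of_lt hCW) C rfl hCinv
      have hxvs : x v ∉ Submodule.span F (s : Set V) := by
        rw [hsspan]
        intro h
        have h2 := ((hmemC _).mp h).2.1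
        rw [hφx] at h2
        exact one_ne_zero h2
      have hvs : v ∉ Submodule.span F (insert (x v) (s : Set V)) := by
        intro h
        obtain ⟨β, c, hc, hβ⟩ := Submodule.mem_span_insert.mp h
        rw [hsspan] at hc
        have h1 := congrArg (fun w => φ (x w)) hβ
        simp only [map_add, map_smul, smul_eq_mul] at h1
        rw [hφx, hφxx, ((hmemC c).mp hc).2.2] at h1
        simp at h1
      have hxvns : x v ∉ (s : Set V) := fun h => hxvs (Submodule.subset_span h)
      have hvns : v ∉ insert (x v) (s : Set V) := fun h => hvs (Submodule.subset_span h)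
      have hz0 : z ≠ 0 := by
        intro h
        have h1 := hx v
        rw [h, zero_smul] at h1
        exact hv0 (hinj (hinj (by rw [h1, map_zero, map_zero])))
      refine ⟨insert v (insert (x v) s), ?_, ?_, ?_, ?_⟩
      · intro w hw
        simp only [Finset.coe_insert, Set.mem_insert_iff, Finset.mem_coe] at hw
        rcases hw with rfl | rfl | hw
        · exact hvW
        · exact hxvW
        · exact (hmemC _).mp (hsC hw) |>.1
      · rw [Finset.coe_insert, Finset.coe_insert, linearIndepOn_id_insert hvns,
          linearIndepOn_id_insert hxvns]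
        exact ⟨⟨hsli, hxvs⟩, hvs⟩
      · apply le_antisymm
        · rw [Submodule.span_le]
          intro w hw
          simp only [Finset.coe_insert, Set.mem_insert_iff, Finset.mem_coe] at hw
          rcases hw with rfl | rfl | hw
          · exact hvW
          · exact hxvW
          · exact (hmemC _).mp (hsC hw) |>.1
        · intro w hw
          have hc : w - φ (x w) • v - φ w • x v ∈ C := by
            refine (hmemC _).mpr ⟨?_, ?_, ?_⟩
            · exact W.sub_mem (W.sub_mem hw (W.smul_mem _ hvW)) (W.smul_mem _ hxvW)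
            · simp [hφv, hφx]
            · simp only [map_sub, map_smul, smul_eq_mul, hφx, hφxx]
              ring
          rw [← hsspan] at hc
          have h1 : w = φ (x w) • v + (φ w • x v + (w - φ (x w) • v - φ w • x v)) := by
            abel
          rw [h1]
          rw [Finset.coe_insert, Finset.coe_insert]
          apply Submodule.add_mem
          · exact Submodule.smul_mem _ _ (Submodule.subset_span (Set.mem_insert _ _))
          apply Submodule.add_mem
          · exact Submodule.smul_mem _ _ (Submodule.subset_span (Set.mem_insert_of_mem _ (Set.mem_insert _ _)))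
          · exact Submodule.span_mono (fun u hu => Set.mem_insert_of_mem _ (Set.mem_insert_of_mem _ hu)) hc
      · intro ω hω
        simp only [Finset.mem_insert] at hω
        rcases hω with rfl | rfl | hω
        · exact ⟨x ω, by simp, 1, one_ne_zero, by simp⟩
        · exact ⟨v, by simp, z, hz0, hx v⟩
        · obtain ⟨ω', hω', c, hc, h⟩ := hsx ω hω
          exact ⟨ω', by simp [hω'], c, hc, h⟩
    · push Not at hcase
      obtain ⟨b, hbW, hbspan, hbli⟩ := exists_linearIndependent F (W : Set V)
      have hbfin : b.Finite := hbli.setFinite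
      refine ⟨hbfin.toFinset, ?_, ?_, ?_, ?_⟩
      · rw [Set.Finite.coe_toFinset]; exact hbW
      · rw [Set.Finite.coe_toFinset]; exact hbli
      · rw [Set.Finite.coe_toFinset, hbspan, Submodule.span_eq]
      · intro ω hω
        rw [Set.Finite.mem_toFinset] at hω
        have hω0 : ω ≠ 0 := by
          have := hbli.ne_zero ⟨ω, hω⟩
          simpa using this
        obtain ⟨c, hc⟩ := hcase ω (hbW hω) hω0
        refine ⟨ω, by simpa using hω, c, ?_, hc⟩
        rintro rfl
        rw [zero_smul] at hc
        exact hω0 (hinj (by rw [hc, map_zero]))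

/-- Two proportional members of an independent set coincide. -/
theorem eq_of_smul_eq_smul {s : Set V} (hs : LinearIndepOn F id s) {u w : V} (hu : u ∈ s) (hw : w ∈ s)
    {a b : F} (ha : a ≠ 0) (h : a • u = b • w) : u = w := by
  by_contra hne
  have hpair : LinearIndepOn F id ({u, w} : Set V) := hs.mono (by
    intro y hy
    rcases hy with rfl | rfl
    · exact hu
    · exact hw)
  have := (LinearIndepOn.pair_iff id hne).mp hpair a (-b) (by simp only [id]; rw [neg_smul, h]; abel)
  exact ha this.1

/-- Disjoint parts of an independent family have independent spans. -/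
theorem iSupIndep_span_parts {ι : Type*} (B : ι → Set V) (hd : Pairwise (fun i j => Disjoint (B i) (B j)))
    (hli : LinearIndepOn F id (⋃ i, B i)) : iSupIndep (fun i => Submodule.span F (B i)) := by
  intro i
  have h1 : (⨆ j, ⨆ (_ : j ≠ i), Submodule.span F (B j)) = Submodule.span F (⋃ j, ⋃ (_ : j ≠ i), B j) := by
    simp only [Submodule.span_iUnion]
  show Disjoint (Submodule.span F (B i)) (⨆ j, ⨆ (_ : j ≠ i), Submodule.span F (B j))
  rw [h1]
  have hv : LinearIndependent F (Subtype.val : (⋃ i, B i : Set V) → V) := hli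
  have := hv.disjoint_span_image (s := Subtype.val ⁻¹' (B i)) (t := Subtype.val ⁻¹' (⋃ j, ⋃ (_ : j ≠ i), B j)) ?_
  · convert this using 2
    · ext y
      simp only [Set.mem_image, Set.mem_preimage, Subtype.exists, exists_and_left, exists_prop, exists_eq_right_right]
      constructor
      · intro hy
        exact ⟨hy, Set.mem_iUnion.mpr ⟨i, hy⟩⟩
      · exact fun h => h.1
    · ext y
      simp only [Set.mem_image, Set.mem_preimage, Subtype.exists, exists_and_left, exists_prop, exists_eq_right_right]
      constructor
      · intro hy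
        refine ⟨hy, ?_⟩
        obtain ⟨j, _, hy'⟩ := by simpa using hy
        exact Set.mem_iUnion.mpr ⟨j, hy'⟩
      · exact fun h => h.1
  · rw [Set.disjoint_left]
    intro y hy hy'
    simp only [Set.mem_preimage, Set.mem_iUnion] at hy hy'
    obtain ⟨j, hj, hy''⟩ := hy'
    exact Set.disjoint_left.mp (hd (Ne.symm hj)) hy hy''

/-- The block decomposition attached to an endomorphism with scalar square. -/
theorem exists_parts (x : V →ₗ[F] V) (hinj : Function.Injective x) (z : F)
    (hx : ∀ v, x (x v) = z • v) {a t : ℕ} (ha : 0 < a) (hdim : finrank F V = a * t) :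
    ∃ D : Fin t → Submodule F V, (∀ j, finrank F (D j) = a) ∧ iSupIndep D ∧ iSup D = ⊤ ∧
      ∃ σ : Equiv.Perm (Fin t), ∀ j, (D j).map x = D (σ j) := by
  classical
  obtain ⟨s, -, hli, hspan, hxs⟩ := exists_line_basis x hinj z hx _ ⊤ rfl (fun _ _ => trivial)
  have hcard : s.card = a * t := by
    have := finrank_span_finset_eq_card hli
    rw [hspan, finrank_top, hdim] at this
    exact this.symm
  choose! π hπ using hxs
  have hπs : ∀ ω ∈ s, π ω ∈ s := fun ω hω => (hπ ω hω).1
  have hπ2 : ∀ ω ∈ s, π (π ω) = ω := by
    intro ω hω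
    obtain ⟨-, c, hc, h1⟩ := hπ ω hω
    obtain ⟨-, c', hc', h2⟩ := hπ (π ω) (hπs ω hω)
    have hω0 : ω ≠ 0 := by
      intro h
      have := hli.ne_zero hω
      exact this (by simpa using h)
    have hz0 : z ≠ 0 := by
      intro h
      have h3 := hx ω
      rw [h, zero_smul] at h3
      exact hω0 (hinj (hinj (by rw [h3, map_zero, map_zero])))
    have h3 : z • ω = (c * c') • π (π ω) := by
      rw [← hx, h1, map_smul, h2, smul_smul]
    exact (eq_of_smul_eq_smul hli (by simpa using hω) (by simpa using hπs _ (hπs ω hω)) hz0 h3).symm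
  obtain ⟨P, hP1, hP2, hP3⟩ := exists_block_system π a ha t s
    (fun ω hω => ⟨hπs ω hω, hπ2 ω hω⟩) hcard
  have hPc : P.card = t := card_blocks ha hcard (fun A hA => ⟨(hP1 A hA).1, (hP1 A hA).2.1⟩) hP2 hP3
  let e : P ≃ Fin t := P.equivFinOfCardEq hPc
  let B : Fin t → Finset V := fun j => (e.symm j : Finset V)
  have hB : ∀ j, B j ∈ P := fun j => (e.symm j).2
  let D : Fin t → Submodule F V := fun j => Submodule.span F (B j : Set V)
  have hBs : ∀ j, (B j : Set V) ⊆ s := fun j => by
    intro u hu
    exact (hP1 _ (hB j)).2.1 hu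
  have hD1 : ∀ j, finrank F (D j) = a := by
    intro j
    rw [finrank_span_finset_eq_card (hli.mono (hBs j))]
    exact (hP1 _ (hB j)).1
  have hD2 : iSupIndep D := by
    apply iSupIndep_span_parts (fun j => (B j : Set V))
    · intro i j hij
      have hne : B i ≠ B j := by
        intro h
        apply hij
        have : e.symm i = e.symm j := Subtype.ext h
        exact e.symm.injective this
      have := hP3 (hB i) (hB j) hne
      simpa [Function.onFun, id] using this
    · apply hli.mono
      intro u hu
      obtain ⟨j, hj⟩ := Set.mem_iUnion.mp hu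
      exact hBs j hj
  have hD3 : iSup D = ⊤ := by
    rw [eq_top_iff, ← hspan, Submodule.span_le]
    intro ω hω
    obtain ⟨A, hA, hωA⟩ := hP2 ω hω
    have h1 : e.symm (e ⟨A, hA⟩) = ⟨A, hA⟩ := e.symm_apply_apply _
    have h2 : ω ∈ (B (e ⟨A, hA⟩) : Set V) := by
      show ω ∈ ((e.symm (e ⟨A, hA⟩) : P) : Finset V)
      rw [h1]
      exact hωA
    exact (le_iSup D (e ⟨A, hA⟩)) (Submodule.subset_span h2)
  let τ : Fin t → Fin t := fun j => e ⟨(B j).image π, (hP1 _ (hB j)).2.2⟩
  have hτB : ∀ j, B (τ j) = (B j).image π := by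
    intro j
    show ((e.symm (e ⟨(B j).image π, (hP1 _ (hB j)).2.2⟩) : P) : Finset V) = _
    rw [e.symm_apply_apply]
  have hτ : Function.Involutive τ := by
    intro j
    apply e.symm.injective
    apply Subtype.ext
    show B (τ (τ j)) = B j
    rw [hτB, hτB, Finset.image_image]
    ext u
    simp only [Finset.mem_image, Function.comp]
    constructor
    · rintro ⟨w, hw, rfl⟩
      rw [hπ2 w (hBs j hw)]
      exact hw
    · intro hu
      exact ⟨u, hu, hπ2 u (hBs j hu)⟩
  refine ⟨D, hD1, hD2, hD3, hτ.toPerm, ?_⟩
  intro j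
  show (Submodule.span F (B j : Set V)).map x = Submodule.span F (B (τ j) : Set V)
  rw [hτB, Submodule.map_span]
  apply le_antisymm
  · rw [Submodule.span_le]
    rintro _ ⟨ω, hω, rfl⟩
    obtain ⟨-, c, hc, h1⟩ := hπ ω (hBs j hω)
    rw [h1]
    apply Submodule.smul_mem
    apply Submodule.subset_span
    simp only [Finset.coe_image]
    exact ⟨ω, hω, rfl⟩
  · rw [Submodule.span_le]
    intro u hu
    simp only [Finset.coe_image] at hu
    obtain ⟨ω, hω, rfl⟩ := hu
    obtain ⟨-, c, hc, h1⟩ := hπ ω (hBs j hω)
    have h2 : π ω = c⁻¹ • x ω := by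
      rw [h1, smul_smul, inv_mul_cancel₀ hc, one_smul]
    rw [h2]
    apply Submodule.smul_mem
    exact Submodule.subset_span ⟨ω, hω, rfl⟩

end lines

end Cfsg.Agent.Lib.ClassMax.Elusive
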