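import Mathlib
import Cfsg.Prelude.Def_GeometricClasses
import Cfsg.Agent.Lib.ClassMax.Elusive
import Cfsg.Agent.Lib.KnownSimple.SympForm

/-!
Isometries with scalar square of an alternating form: a hyperbolic family of pairs whose planes are
permuted.
-/

set_option autoImplicit false
set_option linter.unusedSectionVars false

namespace Cfsg.Agent.Lib.ClassMax.ElusiveSp

open Module

variable {F V : Type*} [Field F] [AddCommGroup V] [Module F V] [FiniteDimensional F V]

/-- A family of pairwise orthogonal hyperbolic pairs. -/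
structure Fam (B : LinearMap.BilinForm F V) (s : Finset (V × V)) : Prop where
  hyp : ∀ ω ∈ s, B ω.1 ω.2 = 1
  orth : ∀ ω ∈ s, ∀ η ∈ s, ω ≠ η → B ω.1 η.1 = 0 ∧ B ω.1 η.2 = 0 ∧ B ω.2 η.1 = 0 ∧ B ω.2 η.2 = 0

/-- The plane of a pair. -/
def Pl (ω : V × V) : Submodule F V := Submodule.span F {ω.1, ω.2}

/-- The points of a family of pairs. -/
def Pts (T : Finset (V × V)) : Set V := (fun ω : V × V => ω.1) '' (T : Set (V × V)) ∪ (fun ω : V × V => ω.2) '' (T : Set (V × V))

/-- The non-degeneracy of a form on a subspace. -/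
def Nd (B : LinearMap.BilinForm F V) (W : Submodule F V) : Prop := ∀ u ∈ W, u ≠ 0 → ∃ v ∈ W, B u v ≠ 0

variable {B : LinearMap.BilinForm F V} (halt : ∀ v, B v v = 0)

include halt

theorem skew (u v : V) : B u v = - B v u := by
  have h := halt (u + v)
  simp only [map_add, LinearMap.add_apply, halt, zero_add, add_zero] at h
  exact eq_neg_of_add_eq_zero_right h

/-- The projection attached to a family. -/
noncomputable def proj (B : LinearMap.BilinForm F V) (T : Finset (V × V)) : V →ₗ[F] V :=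
  ∑ ω ∈ T, ((B.flip ω.2).smulRight ω.1 - (B.flip ω.1).smulRight ω.2)

omit halt in
theorem proj_apply (T : Finset (V × V)) (w : V) :
    proj B T w = ∑ ω ∈ T, (B w ω.2 • ω.1 - B w ω.1 • ω.2) := by
  simp [proj, LinearMap.sum_apply]

theorem form_proj_left {T : Finset (V × V)} (hT : Fam B T) (w : V) {η : V × V} (hη : η ∈ T) :
    B (proj B T w) η.1 = B w η.1 ∧ B (proj B T w) η.2 = B w η.2 := by
  classical
  rw [proj_apply]
  simp only [map_sum, LinearMap.sum_apply, map_sub, LinearMap.sub_apply, map_smul, LinearMap.smul_apply, smul_eq_mul]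
  constructor
  · rw [Finset.sum_eq_single η]
    · rw [halt, mul_zero, zero_sub, skew halt η.2 η.1, hT.hyp η hη]
      ring
    · intro ω hω hne
      obtain ⟨h1, -, h3, -⟩ := hT.orth ω hω η hη hne
      rw [h1, h3]; ring
    · intro h; exact absurd hη h
  · rw [Finset.sum_eq_single η]
    · rw [halt, mul_zero, sub_zero, hT.hyp η hη, mul_one]
    · intro ω hω hne
      obtain ⟨-, h2, -, h4⟩ := hT.orth ω hω η hη hne
      rw [h2, h4]; ring
    · intro h; exact absurd hη h

theorem proj_fix {T : Finset (V × V)} (hT : Fam B T) {η : V × V} (hη : η ∈ T) :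
    proj B T η.1 = η.1 ∧ proj B T η.2 = η.2 := by
  classical
  constructor
  · rw [proj_apply, Finset.sum_eq_single η]
    · rw [hT.hyp η hη, halt, one_smul, zero_smul, sub_zero]
    · intro ω hω hne
      obtain ⟨h1, h2, -, -⟩ := hT.orth η hη ω hω (Ne.symm hne)
      rw [h1, h2]; simp
    · intro h; exact absurd hη h
  · rw [proj_apply, Finset.sum_eq_single η]
    · rw [halt, skew halt η.2 η.1, hT.hyp η hη]; simp
    · intro ω hω hne
      obtain ⟨-, -, h3, h4⟩ := hT.orth η hη ω hω (Ne.symm hne)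
      rw [h3, h4]; simp
    · intro h; exact absurd hη h

theorem proj_eq_of_mem {T : Finset (V × V)} (hT : Fam B T) {u : V}
    (hu : u ∈ Submodule.span F (Pts T)) : proj B T u = u := by
  induction hu using Submodule.span_induction with
  | mem x hx =>
    rcases hx with ⟨ω, hω, rfl⟩ | ⟨ω, hω, rfl⟩
    · exact (proj_fix halt hT hω).1
    · exact (proj_fix halt hT hω).2
  | zero => simp
  | add x y _ _ hx hy => rw [map_add, hx, hy]
  | smul a x _ hx => rw [map_smul, hx]

theorem nd_span {T : Finset (V × V)} (hT : Fam B T) : Nd B (Submodule.span F (Pts T)) := by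
  intro u hu hu0
  by_contra hcon
  push Not at hcon
  apply hu0
  rw [← proj_eq_of_mem halt hT hu, proj_apply]
  apply Finset.sum_eq_zero
  intro ω hω
  rw [hcon ω.1 (Submodule.subset_span (Or.inl ⟨ω, hω, rfl⟩)),
    hcon ω.2 (Submodule.subset_span (Or.inr ⟨ω, hω, rfl⟩))]
  simp

omit halt in
theorem orth_of_gens {S S' : Set V} (h : ∀ a ∈ S, ∀ b ∈ S', B a b = 0) {u v : V}
    (hu : u ∈ Submodule.span F S) (hv : v ∈ Submodule.span F S') : B u v = 0 := by
  induction hu using Submodule.span_induction with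
  | mem x hx =>
    induction hv using Submodule.span_induction with
    | mem y hy => exact h x hx y hy
    | zero => simp
    | add y y' _ _ hy hy' => rw [map_add, hy, hy', add_zero]
    | smul a y _ hy => rw [map_smul, hy, smul_zero]
  | zero => simp
  | add y y' _ _ hy hy' => rw [map_add, LinearMap.add_apply, hy, hy', add_zero]
  | smul a y _ hy => rw [map_smul, LinearMap.smul_apply, hy, smul_zero]

/-- The points of a family are independent: the dimension of its span. -/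
theorem finrank_span_pts {T : Finset (V × V)} (hT : Fam B T) :
    finrank F (Submodule.span F (Pts T)) = 2 * T.card := by
  classical
  let b : T × Bool → V := fun i => if i.2 then (i.1 : V × V).2 else (i.1 : V × V).1
  have hb : LinearIndependent F b := by
    rw [Fintype.linearIndependent_iff]
    intro g hg i
    obtain ⟨⟨ω, hω⟩, c⟩ := i
    have h1 : ∀ y : V, B (∑ i, g i • b i) y = ∑ η : T, (g (η, false) * B (η : V × V).1 y + g (η, true) * B (η : V × V).2 y) := by
      intro y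
      rw [Fintype.sum_prod_type]
      simp only [Fintype.sum_bool, map_sum, LinearMap.sum_apply, map_add, LinearMap.add_apply, map_smul, LinearMap.smul_apply, smul_eq_mul, b]
      apply Finset.sum_congr rfl
      intro η _
      simp only [if_true, Bool.false_eq_true, if_false]
      ring
    cases c with
    | false =>
      have h2 := h1 ω.2
      rw [hg] at h2
      simp only [map_zero, LinearMap.zero_apply] at h2
      rw [Finset.sum_eq_single (⟨ω, hω⟩ : T)] at h2
      · simp only at h2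
        rw [hT.hyp ω hω, halt, mul_one, mul_zero, add_zero] at h2
        exact h2.symm
      · intro η _ hne
        have hne' : (η : V × V) ≠ ω := fun h => hne (Subtype.ext h)
        obtain ⟨-, h3, -, h4⟩ := hT.orth η η.2 ω hω hne'
        rw [h3, h4]; ring
      · intro h; exact absurd (Finset.mem_univ _) h
    | true =>
      have h2 := h1 ω.1
      rw [hg] at h2
      simp only [map_zero, LinearMap.zero_apply] at h2
      rw [Finset.sum_eq_single (⟨ω, hω⟩ : T)] at h2
      · simp only at h2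
        rw [skew halt ω.2 ω.1, hT.hyp ω hω, halt, mul_zero, zero_add] at h2
        have : g ((⟨ω, hω⟩ : T), true) * (-1) = 0 := h2.symm
        simpa using this
      · intro η _ hne
        have hne' : (η : V × V) ≠ ω := fun h => hne (Subtype.ext h)
        obtain ⟨h3, -, h4, -⟩ := hT.orth η η.2 ω hω hne'
        rw [h3, h4]; ring
      · intro h; exact absurd (Finset.mem_univ _) h
  have hr : Set.range b = Pts T := by
    ext y
    constructor
    · rintro ⟨⟨⟨ω, hω⟩, c⟩, rfl⟩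
      cases c with
      | false => exact Or.inl ⟨ω, hω, rfl⟩
      | true => exact Or.inr ⟨ω, hω, rfl⟩
    · rintro (⟨ω, hω, rfl⟩ | ⟨ω, hω, rfl⟩)
      · exact ⟨(⟨ω, hω⟩, false), rfl⟩
      · exact ⟨(⟨ω, hω⟩, true), rfl⟩
  rw [← hr, finrank_span_eq_card hb]
  simp [Fintype.card_prod, mul_comm]

omit halt in
/-- Existence of a vector with prescribed values on two independent vectors. -/
theorem exists_dual_pair (halt : ∀ v, B v v = 0) {W : Submodule F V} (hW : Nd B W) {a b : V} (ha : a ∈ W) (hb : b ∈ W)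
    (hb0 : b ≠ 0) (hab : ∀ c : F, a ≠ c • b) : ∃ u ∈ W, B a u = 1 ∧ B b u = 0 := by
  obtain ⟨u₀, hu₀, h1⟩ := hW b hb hb0
  set c := B a u₀ / B b u₀ with hc
  have ha' : a - c • b ≠ 0 := fun h => hab c (sub_eq_zero.mp h)
  obtain ⟨u₁, hu₁, h2⟩ := hW _ (W.sub_mem ha (W.smul_mem _ hb)) ha'
  set d := B b u₁ / B b u₀ with hd
  set u₂ := u₁ - d • u₀ with hu₂
  have h3 : B b u₂ = 0 := by
    simp only [hu₂, map_sub, map_smul, smul_eq_mul, hd]
    field_simp
    ring
  have h4 : B a u₂ ≠ 0 := by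
    have h5 : B (a - c • b) u₀ = 0 := by
      simp only [map_sub, LinearMap.sub_apply, map_smul, LinearMap.smul_apply, smul_eq_mul, hc]
      field_simp
      ring
    have h6 : B (a - c • b) u₂ = B (a - c • b) u₁ := by
      rw [hu₂, map_sub, map_smul, h5]; simp
    intro h7
    apply h2
    rw [← h6]
    simp only [map_sub, LinearMap.sub_apply, map_smul, LinearMap.smul_apply, smul_eq_mul, h7, h3]
    ring
  refine ⟨(B a u₂)⁻¹ • u₂, W.smul_mem _ (W.sub_mem hu₁ (W.smul_mem _ hu₀)), ?_, ?_⟩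
  · rw [map_smul, smul_eq_mul, inv_mul_cancel₀ h4]
  · rw [map_smul, h3, smul_zero]

section main

variable (x : V →ₗ[F] V) (hiso : ∀ u v, B (x u) (x v) = B u v) {z : F} (hz0 : z ≠ 0)
  (hx : ∀ v, x (x v) = z • v)

include hiso hz0 hx

/-- The induction producing the family. -/
theorem exists_family (R : V × V → V × V → Prop)
    (hR : ∀ ω ω', R ω ω' → x ω.1 ∈ Pl (F := F) ω' ∧ x ω.2 ∈ Pl (F := F) ω')
    (hstep : ∀ W : Submodule F V, W ≠ ⊥ → Nd B W → (∀ w ∈ W, x w ∈ W) →
      ∃ T : Finset (V × V), T.Nonempty ∧ Fam B T ∧ (∀ ω ∈ T, ω.1 ∈ W ∧ ω.2 ∈ W) ∧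
        ∀ ω ∈ T, ∃ ω' ∈ T, R ω ω') :
    ∀ (d : ℕ) (W : Submodule F V), finrank F W = d → Nd B W → (∀ w ∈ W, x w ∈ W) →
      ∃ s : Finset (V × V), Fam B s ∧ (∀ ω ∈ s, ω.1 ∈ W ∧ ω.2 ∈ W) ∧
        Submodule.span F (Pts s) = W ∧ ∀ ω ∈ s, ∃ ω' ∈ s, R ω ω' := by
  classical
  intro d
  induction d using Nat.strong_induction_on with
  | _ d ih =>
    intro W hd hnd hinv
    by_cases hbot : W = ⊥
    · subst hbot
      exact ⟨∅, ⟨by simp, by simp⟩, by simp, by simp [Pts], by simp⟩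
    obtain ⟨T, hTne, hTfam, hTW, hTR⟩ := hstep W hbot hnd hinv
    -- the orthogonal complement of the family
    let W' : Submodule F V :=
      { carrier := {w | w ∈ W ∧ ∀ ω ∈ T, B w ω.1 = 0 ∧ B w ω.2 = 0}
        add_mem' := by
          rintro a b ⟨ha, ha'⟩ ⟨hb, hb'⟩
          refine ⟨W.add_mem ha hb, fun ω hω => ?_⟩
          simp [(ha' ω hω).1, (ha' ω hω).2, (hb' ω hω).1, (hb' ω hω).2]
        zero_mem' := ⟨W.zero_mem, by simp⟩
        smul_mem' := by
          rintro c a ⟨ha, ha'⟩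
          refine ⟨W.smul_mem _ ha, fun ω hω => ?_⟩
          simp [(ha' ω hω).1, (ha' ω hω).2] }
    have hW'mem : ∀ w, w ∈ W' ↔ w ∈ W ∧ ∀ ω ∈ T, B w ω.1 = 0 ∧ B w ω.2 = 0 := fun w => Iff.rfl
    have hprojW : ∀ w, proj B T w ∈ W := by
      intro w
      rw [proj_apply]
      apply W.sum_mem
      intro ω hω
      exact W.sub_mem (W.smul_mem _ (hTW ω hω).1) (W.smul_mem _ (hTW ω hω).2)
    have hsubW' : ∀ w ∈ W, w - proj B T w ∈ W' := by
      intro w hw
      refine (hW'mem _).mpr ⟨W.sub_mem hw (hprojW w), fun ω hω => ?_⟩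
      obtain ⟨h1, h2⟩ := form_proj_left halt hTfam w hω
      simp [h1, h2]
    have hW'lt : W' < W := by
      refine lt_of_le_of_ne (fun w hw => hw.1) ?_
      intro h
      obtain ⟨ω, hω⟩ := hTne
      have h1 : ω.1 ∈ W' := by rw [h]; exact (hTW ω hω).1
      have h2 := ((hW'mem _).mp h1).2 ω hω |>.2
      rw [hTfam.hyp ω hω] at h2
      exact one_ne_zero h2
    have hW'nd : Nd B W' := by
      intro u hu hu0
      obtain ⟨y, hy, hyu⟩ := hnd u hu.1 hu0
      refine ⟨y - proj B T y, hsubW' y hy, ?_⟩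
      have h1 : B u (proj B T y) = 0 := by
        rw [proj_apply, map_sum]
        apply Finset.sum_eq_zero
        intro ω hω
        simp [(hu.2 ω hω).1, (hu.2 ω hω).2]
      rw [map_sub, h1, sub_zero]
      exact hyu
    have hW'inv : ∀ w ∈ W', x w ∈ W' := by
      intro w hw
      refine (hW'mem _).mpr ⟨hinv w hw.1, fun ω hω => ?_⟩
      obtain ⟨ω', hω', hr⟩ := hTR ω hω
      obtain ⟨h1, h2⟩ := hR ω ω' hr
      have hpl : ∀ y ∈ Pl (F := F) ω', B w y = 0 := by
        intro y hy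
        obtain ⟨a, b, rfl⟩ := Submodule.mem_span_pair.mp hy
        simp [(hw.2 ω' hω').1, (hw.2 ω' hω').2]
      have hback : ∀ y : V, B (x w) y = z⁻¹ * B w (x y) := by
        intro y
        have h3 : B (x w) (x (x y)) = B w (x y) := hiso _ _
        rw [hx, map_smul, smul_eq_mul] at h3
        rw [← h3, ← mul_assoc, inv_mul_cancel₀ hz0, one_mul]
      rw [hback, hback, hpl _ h1, hpl _ h2]
      simp
    obtain ⟨s, hsfam, hsW, hsspan, hsR⟩ := ih (finrank F W')
      (by rw [← hd]; exact Submodule.finrank_lt_finrank_of_lt hW'lt) W' rfl hW'nd hW'inv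
    have hdisj : Disjoint T s := by
      rw [Finset.disjoint_left]
      intro ω hω hωs
      have h1 := (hsW ω hωs).1.2 ω hω |>.2
      rw [hTfam.hyp ω hω] at h1
      exact one_ne_zero h1
    refine ⟨T ∪ s, ⟨?_, ?_⟩, ?_, ?_, ?_⟩
    · intro ω hω
      rcases Finset.mem_union.mp hω with h | h
      · exact hTfam.hyp ω h
      · exact hsfam.hyp ω h
    · intro ω hω η hη hne
      rcases Finset.mem_union.mp hω with h | h <;> rcases Finset.mem_union.mp hη with h' | h'
      · exact hTfam.orth ω h η h' hne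
      · obtain ⟨h1, h2⟩ := (hsW η h').1.2 ω h
        obtain ⟨h3, h4⟩ := (hsW η h').2.2 ω h
        refine ⟨?_, ?_, ?_, ?_⟩
        · rw [skew halt, h1, neg_zero]
        · rw [skew halt, h3, neg_zero]
        · rw [skew halt, h2, neg_zero]
        · rw [skew halt, h4, neg_zero]
      · obtain ⟨h1, h2⟩ := (hsW ω h).1.2 η h'
        obtain ⟨h3, h4⟩ := (hsW ω h).2.2 η h'
        exact ⟨h1, h2, h3, h4⟩
      · exact hsfam.orth ω h η h' hne
    · intro ω hω
      rcases Finset.mem_union.mp hω with h | h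
      · exact hTW ω h
      · exact ⟨(hsW ω h).1.1, (hsW ω h).2.1⟩
    · apply le_antisymm
      · rw [Submodule.span_le]
        rintro u (⟨ω, hω, rfl⟩ | ⟨ω, hω, rfl⟩)
        · rcases Finset.mem_union.mp hω with h | h
          · exact (hTW ω h).1
          · exact (hsW ω h).1.1
        · rcases Finset.mem_union.mp hω with h | h
          · exact (hTW ω h).2
          · exact (hsW ω h).2.1
      · intro w hw
        have h1 : w = proj B T w + (w - proj B T w) := by abel
        rw [h1]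
        apply Submodule.add_mem
        · rw [proj_apply]
          apply Submodule.sum_mem
          intro ω hω
          apply Submodule.sub_mem
          · exact Submodule.smul_mem _ _ (Submodule.subset_span (Or.inl ⟨ω, Finset.mem_union_left _ hω, rfl⟩))
          · exact Submodule.smul_mem _ _ (Submodule.subset_span (Or.inr ⟨ω, Finset.mem_union_left _ hω, rfl⟩))
        · have h2 := hsubW' w hw
          rw [← hsspan] at h2
          refine Submodule.span_mono ?_ h2
          rintro u (⟨ω, hω, rfl⟩ | ⟨ω, hω, rfl⟩)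
          · exact Or.inl ⟨ω, Finset.mem_union_right _ hω, rfl⟩
          · exact Or.inr ⟨ω, Finset.mem_union_right _ hω, rfl⟩
    · intro ω hω
      rcases Finset.mem_union.mp hω with h | h
      · obtain ⟨ω', h1, h2⟩ := hTR ω h
        exact ⟨ω', Finset.mem_union_left _ h1, h2⟩
      · obtain ⟨ω', h1, h2⟩ := hsR ω h
        exact ⟨ω', Finset.mem_union_right _ h1, h2⟩

end main

/-- Fixing both members of the pairs. -/
def RFix (x : V →ₗ[F] V) (ω ω' : V × V) : Prop := (∃ c : F, x ω.1 = c • ω'.1) ∧ ∃ c : F, x ω.2 = c • ω'.2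

/-- Interchanging the members of the pairs. -/
def RSwap (x : V →ₗ[F] V) (ω ω' : V × V) : Prop := (∃ c : F, x ω.1 = c • ω'.2) ∧ ∃ c : F, x ω.2 = c • ω'.1

/-- Mapping a plane into a plane. -/
def RAny (x : V →ₗ[F] V) (ω ω' : V × V) : Prop := x ω.1 ∈ Pl (F := F) ω' ∧ x ω.2 ∈ Pl (F := F) ω'

omit halt in
theorem fst_mem_Pl (ω : V × V) : ω.1 ∈ Pl (F := F) ω := Submodule.subset_span (by simp)

omit halt in
theorem snd_mem_Pl (ω : V × V) : ω.2 ∈ Pl (F := F) ω := Submodule.subset_span (by simp)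

omit halt in
theorem RFix.any {x : V →ₗ[F] V} {ω ω' : V × V} (h : RFix x ω ω') : RAny x ω ω' := by
  obtain ⟨⟨c, h1⟩, ⟨d, h2⟩⟩ := h
  constructor
  · rw [h1]; exact Submodule.smul_mem _ _ (fst_mem_Pl ω')
  · rw [h2]; exact Submodule.smul_mem _ _ (snd_mem_Pl ω')

omit halt in
theorem RSwap.any {x : V →ₗ[F] V} {ω ω' : V × V} (h : RSwap x ω ω') : RAny x ω ω' := by
  obtain ⟨⟨c, h1⟩, ⟨d, h2⟩⟩ := h
  constructor
  · rw [h1]; exact Submodule.smul_mem _ _ (snd_mem_Pl ω')
  · rw [h2]; exact Submodule.smul_mem _ _ (fst_mem_Pl ω')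

omit halt in
theorem fam_single {a b : V} (h : B a b = 1) : Fam B {(a, b)} := by
  constructor
  · intro ω hω
    rw [Finset.mem_singleton] at hω
    subst hω
    exact h
  · intro ω hω η hη hne
    rw [Finset.mem_singleton] at hω hη
    exact absurd (hω.trans hη.symm) hne

theorem fam_pair [DecidableEq (V × V)] {a b c d : V} (h1 : B a b = 1) (h2 : B c d = 1)
    (h3 : B a c = 0) (h4 : B a d = 0) (h5 : B b c = 0) (h6 : B b d = 0) : Fam B {(a, b), (c, d)} := by
  constructor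
  · intro ω hω
    simp only [Finset.mem_insert, Finset.mem_singleton] at hω
    rcases hω with rfl | rfl
    · exact h1
    · exact h2
  · intro ω hω η hη hne
    simp only [Finset.mem_insert, Finset.mem_singleton] at hω hη
    rcases hω with rfl | rfl <;> rcases hη with rfl | rfl
    · exact absurd rfl hne
    · exact ⟨h3, h4, h5, h6⟩
    · refine ⟨?_, ?_, ?_, ?_⟩
      · rw [skew halt, h3, neg_zero]
      · rw [skew halt, h5, neg_zero]
      · rw [skew halt, h4, neg_zero]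
      · rw [skew halt, h6, neg_zero]
    · exact absurd rfl hne

section steps

variable (x : V →ₗ[F] V) (hiso : ∀ u v, B (x u) (x v) = B u v) {z : F} (hz0 : z ≠ 0)
  (hx : ∀ v, x (x v) = z • v)

include hiso hz0 hx

/-- A vector not orthogonal to its image: its plane is a pair, interchanged. -/
theorem step_A {W : Submodule F V} (hinv : ∀ w ∈ W, x w ∈ W) {v : V} (hv : v ∈ W) (hB : B v (x v) ≠ 0) :
    ∃ T : Finset (V × V), T.Nonempty ∧ Fam B T ∧ (∀ ω ∈ T, ω.1 ∈ W ∧ ω.2 ∈ W) ∧ ∀ ω ∈ T, ∃ ω' ∈ T, RSwap x ω ω' := by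
  classical
  set κ := (B v (x v))⁻¹ with hκ
  have hκ0 : κ ≠ 0 := inv_ne_zero hB
  refine ⟨{(v, κ • x v)}, by simp, fam_single ?_, ?_, ?_⟩
  · rw [map_smul, smul_eq_mul, hκ, inv_mul_cancel₀ hB]
  · intro ω hω
    rw [Finset.mem_singleton] at hω
    subst hω
    exact ⟨hv, W.smul_mem _ (hinv v hv)⟩
  · intro ω hω
    rw [Finset.mem_singleton] at hω
    subst hω
    refine ⟨_, Finset.mem_singleton_self _, ⟨κ⁻¹, ?_⟩, ⟨κ * z, ?_⟩⟩
    · simp only
      rw [smul_smul, inv_mul_cancel₀ hκ0, one_smul]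
    · simp only
      rw [map_smul, hx, smul_smul]

/-- The vector dual to `v` and orthogonal to `x v`. -/
theorem exists_dual_of_not_eigen {W : Submodule F V} (hnd : Nd B W) (hinv : ∀ w ∈ W, x w ∈ W)
    {v : V} (hv : v ∈ W) (hv0 : v ≠ 0) (hvx : ∀ c : F, x v ≠ c • v) :
    ∃ u ∈ W, B v u = 1 ∧ B (x v) u = 0 := by
  have hxv0 : x v ≠ 0 := by
    intro h
    apply hvx 0
    rw [h, zero_smul]
  apply exists_dual_pair halt hnd hv (hinv v hv) hxv0
  intro c h
  have hc : c ≠ 0 := by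
    rintro rfl
    apply hv0
    rw [h, zero_smul]
  apply hvx c⁻¹
  calc x v = c⁻¹ • (c • x v) := by rw [smul_smul, inv_mul_cancel₀ hc, one_smul]
    _ = c⁻¹ • v := by rw [← h]

/-- Two orthogonal planes interchanged by the isometry, keeping first and second members. -/
theorem step_B1_fix {W : Submodule F V} (hnd : Nd B W) (hinv : ∀ w ∈ W, x w ∈ W) (hB : ∀ w ∈ W, B w (x w) = 0)
    {v : V} (hv : v ∈ W) (hv0 : v ≠ 0) (hvx : ∀ c : F, x v ≠ c • v) :
    ∃ T : Finset (V × V), T.Nonempty ∧ Fam B T ∧ (∀ ω ∈ T, ω.1 ∈ W ∧ ω.2 ∈ W) ∧ ∀ ω ∈ T, ∃ ω' ∈ T, RFix x ω ω' := by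
  classical
  obtain ⟨u, hu, h1, h2⟩ := exists_dual_of_not_eigen halt x hiso hz0 hx hnd hinv hv hv0 hvx
  have h3 : B v (x u) = 0 := by
    have h4 := hiso (x v) u
    have h5 : B (x (x v)) (x u) = B (x v) u := h4
    have h6 := hiso v (x u)
    rw [hx u, map_smul, h2, smul_zero] at h6
    exact h6.symm
  have h7 : B u (x v) = 0 := by rw [skew halt, h2, neg_zero]
  refine ⟨{(v, u), (x v, x u)}, by simp, fam_pair halt h1 (by rw [hiso]; exact h1) (hB v hv) h3 h7 (hB u hu), ?_, ?_⟩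
  · intro ω hω
    simp only [Finset.mem_insert, Finset.mem_singleton] at hω
    rcases hω with rfl | rfl
    · exact ⟨hv, hu⟩
    · exact ⟨hinv v hv, hinv u hu⟩
  · intro ω hω
    simp only [Finset.mem_insert, Finset.mem_singleton] at hω
    rcases hω with rfl | rfl
    · exact ⟨(x v, x u), by simp, ⟨1, by simp⟩, ⟨1, by simp⟩⟩
    · exact ⟨(v, u), by simp, ⟨z, hx v⟩, ⟨z, hx u⟩⟩

/-- Two orthogonal planes interchanged by the isometry, interchanging first and second members. -/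
theorem step_B1_swap {W : Submodule F V} (hnd : Nd B W) (hinv : ∀ w ∈ W, x w ∈ W) (hB : ∀ w ∈ W, B w (x w) = 0)
    {v : V} (hv : v ∈ W) (hv0 : v ≠ 0) (hvx : ∀ c : F, x v ≠ c • v) :
    ∃ T : Finset (V × V), T.Nonempty ∧ Fam B T ∧ (∀ ω ∈ T, ω.1 ∈ W ∧ ω.2 ∈ W) ∧ ∀ ω ∈ T, ∃ ω' ∈ T, RSwap x ω ω' := by
  classical
  obtain ⟨u, hu, h1, h2⟩ := exists_dual_of_not_eigen halt x hiso hz0 hx hnd hinv hv hv0 hvx
  have h3 : B v (x u) = 0 := by
    have h6 := hiso v (x u)
    rw [hx u, map_smul, h2, smul_zero] at h6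
    exact h6.symm
  have h7 : B u (x v) = 0 := by rw [skew halt, h2, neg_zero]
  have h8 : B (x u) (- x v) = 1 := by
    rw [map_neg, hiso, skew halt, neg_neg, h1]
  refine ⟨{(v, u), (x u, - x v)}, by simp, fam_pair halt h1 h8 h3 (by rw [map_neg, hB v hv, neg_zero]) (hB u hu)
    (by rw [map_neg, h7, neg_zero]), ?_, ?_⟩
  · intro ω hω
    simp only [Finset.mem_insert, Finset.mem_singleton] at hω
    rcases hω with rfl | rfl
    · exact ⟨hv, hu⟩
    · exact ⟨hinv u hu, W.neg_mem (hinv v hv)⟩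
  · intro ω hω
    simp only [Finset.mem_insert, Finset.mem_singleton] at hω
    rcases hω with rfl | rfl
    · exact ⟨(x u, - x v), by simp, ⟨-1, by simp⟩, ⟨1, by simp⟩⟩
    · refine ⟨(v, u), by simp, ⟨z, hx u⟩, ⟨-z, ?_⟩⟩
      simp only [map_neg, hx, neg_smul]

/-- All vectors of the subspace are eigenvectors: any hyperbolic pair is fixed. -/
theorem step_B2 {W : Submodule F V} (hbot : W ≠ ⊥) (hnd : Nd B W)
    (hB : ∀ w ∈ W, w ≠ 0 → ∃ c : F, x w = c • w) :
    ∃ T : Finset (V × V), T.Nonempty ∧ Fam B T ∧ (∀ ω ∈ T, ω.1 ∈ W ∧ ω.2 ∈ W) ∧ ∀ ω ∈ T, ∃ ω' ∈ T, RFix x ω ω' := by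
  classical
  obtain ⟨e, he, he0⟩ := (Submodule.ne_bot_iff W).mp hbot
  obtain ⟨f₀, hf₀, h1⟩ := hnd e he he0
  have hf : (B e f₀)⁻¹ • f₀ ∈ W := W.smul_mem _ hf₀
  have hef : B e ((B e f₀)⁻¹ • f₀) = 1 := by
    rw [map_smul, smul_eq_mul, inv_mul_cancel₀ h1]
  have hf0 : (B e f₀)⁻¹ • f₀ ≠ 0 := by
    intro h
    rw [h, map_zero] at hef
    exact zero_ne_one hef
  refine ⟨{(e, (B e f₀)⁻¹ • f₀)}, by simp, fam_single hef, ?_, ?_⟩
  · intro ω hω
    rw [Finset.mem_singleton] at hω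
    subst hω
    exact ⟨he, hf⟩
  · intro ω hω
    rw [Finset.mem_singleton] at hω
    subst hω
    exact ⟨_, Finset.mem_singleton_self _, hB e he he0, hB _ hf hf0⟩

/-- The step keeping the members of the pairs. -/
theorem step_fix (hB : ∀ v, B v (x v) = 0) (W : Submodule F V) (hbot : W ≠ ⊥) (hnd : Nd B W) (hinv : ∀ w ∈ W, x w ∈ W) :
    ∃ T : Finset (V × V), T.Nonempty ∧ Fam B T ∧ (∀ ω ∈ T, ω.1 ∈ W ∧ ω.2 ∈ W) ∧ ∀ ω ∈ T, ∃ ω' ∈ T, RFix x ω ω' := by
  by_cases h : ∃ v ∈ W, v ≠ 0 ∧ ∀ c : F, x v ≠ c • v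
  · obtain ⟨v, hv, hv0, hvx⟩ := h
    exact step_B1_fix halt x hiso hz0 hx hnd hinv (fun w _ => hB w) hv hv0 hvx
  · push Not at h
    exact step_B2 halt x hiso hz0 hx hbot hnd h

/-- The step interchanging the members of the pairs. -/
theorem step_swap (hne : ∀ v : V, v ≠ 0 → ∀ c : F, x v ≠ c • v) (W : Submodule F V) (hbot : W ≠ ⊥) (hnd : Nd B W)
    (hinv : ∀ w ∈ W, x w ∈ W) :
    ∃ T : Finset (V × V), T.Nonempty ∧ Fam B T ∧ (∀ ω ∈ T, ω.1 ∈ W ∧ ω.2 ∈ W) ∧ ∀ ω ∈ T, ∃ ω' ∈ T, RSwap x ω ω' := by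
  by_cases h : ∃ v ∈ W, B v (x v) ≠ 0
  · obtain ⟨v, hv, hvB⟩ := h
    exact step_A halt x hiso hz0 hx hinv hv hvB
  · push Not at h
    obtain ⟨e, he, he0⟩ := (Submodule.ne_bot_iff W).mp hbot
    exact step_B1_swap halt x hiso hz0 hx hnd hinv h he he0 (hne e he0)

/-- The general step. -/
theorem step_any (W : Submodule F V) (hbot : W ≠ ⊥) (hnd : Nd B W) (hinv : ∀ w ∈ W, x w ∈ W) :
    ∃ T : Finset (V × V), T.Nonempty ∧ Fam B T ∧ (∀ ω ∈ T, ω.1 ∈ W ∧ ω.2 ∈ W) ∧ ∀ ω ∈ T, ∃ ω' ∈ T, RAny x ω ω' := by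
  by_cases h : ∃ v ∈ W, B v (x v) ≠ 0
  · obtain ⟨v, hv, hvB⟩ := h
    obtain ⟨T, h1, h2, h3, h4⟩ := step_A halt x hiso hz0 hx hinv hv hvB
    refine ⟨T, h1, h2, h3, fun ω hω => ?_⟩
    obtain ⟨ω', h5, h6⟩ := h4 ω hω
    exact ⟨ω', h5, h6.any⟩
  · push Not at h
    have hT : ∃ T : Finset (V × V), T.Nonempty ∧ Fam B T ∧ (∀ ω ∈ T, ω.1 ∈ W ∧ ω.2 ∈ W) ∧ ∀ ω ∈ T, ∃ ω' ∈ T, RFix x ω ω' := by
      by_cases h' : ∃ v ∈ W, v ≠ 0 ∧ ∀ c : F, x v ≠ c • v
      · obtain ⟨v, hv, hv0, hvx⟩ := h'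
        exact step_B1_fix halt x hiso hz0 hx hnd hinv h hv hv0 hvx
      · push Not at h'
        exact step_B2 halt x hiso hz0 hx hbot hnd h'
    obtain ⟨T, h1, h2, h3, h4⟩ := hT
    refine ⟨T, h1, h2, h3, fun ω hω => ?_⟩
    obtain ⟨ω', h5, h6⟩ := h4 ω hω
    exact ⟨ω', h5, h6.any⟩

/-- The orthogonal decomposition into blocks permuted by the isometry. -/
theorem exists_orth_parts (hnd : Nd B ⊤) (hinj : Function.Injective x) {a t : ℕ} (ha : 0 < a)
    (hdim : finrank F V = 2 * (a * t)) :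
    ∃ D : Fin t → Submodule F V, (∀ j, finrank F (D j) = 2 * a) ∧ iSupIndep D ∧ iSup D = ⊤ ∧
      (∀ j, Nd B (D j)) ∧ (∀ j j', j ≠ j' → ∀ u ∈ D j, ∀ v ∈ D j', B u v = 0) ∧
      ∃ σ : Equiv.Perm (Fin t), ∀ j, (D j).map x = D (σ j) := by
  classical
  obtain ⟨s, hfam, -, hspan, hR⟩ := exists_family halt x hiso hz0 hx (RAny x) (fun _ _ h => h)
    (step_any halt x hiso hz0 hx) _ ⊤ rfl hnd (fun _ _ => trivial)
  have hcard : s.card = a * t := by
    have h1 := finrank_span_pts halt hfam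
    rw [hspan, finrank_top, hdim] at h1
    omega
  choose! π hπ using hR
  have hπs : ∀ ω ∈ s, π ω ∈ s := fun ω hω => (hπ ω hω).1
  have hπ2 : ∀ ω ∈ s, π (π ω) = ω := by
    intro ω hω
    by_contra hne
    have h1 := (hπ ω hω).2.1
    have h2 := (hπ _ (hπs ω hω)).2
    -- `x (x ω.1)` lies in the plane of `π (π ω)`
    have h3 : z • ω.1 ∈ Pl (F := F) (π (π ω)) := by
      rw [← hx]
      obtain ⟨a, b, h4⟩ := Submodule.mem_span_pair.mp h1
      rw [← h4, map_add, map_smul, map_smul]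
      exact Submodule.add_mem _ (Submodule.smul_mem _ _ h2.1) (Submodule.smul_mem _ _ h2.2)
    have h4 : ω.1 ∈ Pl (F := F) (π (π ω)) := by
      have := Submodule.smul_mem _ z⁻¹ h3
      rwa [smul_smul, inv_mul_cancel₀ hz0, one_smul] at this
    obtain ⟨a, b, h5⟩ := Submodule.mem_span_pair.mp h4
    have h6 := hfam.hyp ω hω
    obtain ⟨-, -, h7, h8⟩ := hfam.orth _ (hπs _ (hπs ω hω)) ω hω hne
    rw [← h5] at h6
    simp only [map_add, map_smul, LinearMap.add_apply, LinearMap.smul_apply, smul_eq_mul] at h6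
    obtain ⟨-, h9, -, h10⟩ := hfam.orth _ (hπs _ (hπs ω hω)) ω hω hne
    rw [h9, h10] at h6
    simp at h6
  obtain ⟨P, hP1, hP2, hP3⟩ := Elusive.exists_block_system π a ha t s
    (fun ω hω => ⟨hπs ω hω, hπ2 ω hω⟩) hcard
  have hPc : P.card = t := Elusive.card_blocks ha hcard (fun A hA => ⟨(hP1 A hA).1, (hP1 A hA).2.1⟩) hP2 hP3
  let e : P ≃ Fin t := P.equivFinOfCardEq hPc
  let A : Fin t → Finset (V × V) := fun j => (e.symm j : Finset (V × V))
  have hA : ∀ j, A j ∈ P := fun j => (e.symm j).2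
  have hAs : ∀ j, A j ⊆ s := fun j => (hP1 _ (hA j)).2.1
  have hAfam : ∀ j, Fam B (A j) := fun j =>
    ⟨fun ω hω => hfam.hyp ω (hAs j hω), fun ω hω η hη => hfam.orth ω (hAs j hω) η (hAs j hη)⟩
  let D : Fin t → Submodule F V := fun j => Submodule.span F (Pts (A j))
  have hD1 : ∀ j, finrank F (D j) = 2 * a := by
    intro j
    show finrank F (Submodule.span F (Pts (A j))) = _
    rw [finrank_span_pts halt (hAfam j), (hP1 _ (hA j)).1]
  have hdisj : ∀ i j, i ≠ j → Disjoint (A i) (A j) := by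
    intro i j hij
    have hne : A i ≠ A j := by
      intro h
      apply hij
      have : e.symm i = e.symm j := Subtype.ext h
      exact e.symm.injective this
    exact hP3 (hA i) (hA j) hne
  have hD4 : ∀ j, Nd B (D j) := fun j => nd_span halt (hAfam j)
  have hD5 : ∀ j j', j ≠ j' → ∀ u ∈ D j, ∀ v ∈ D j', B u v = 0 := by
    intro j j' hjj' u hu v hv
    refine orth_of_gens ?_ hu hv
    have hkey : ∀ ω ∈ A j, ∀ η ∈ A j', ω ≠ η := by
      intro ω hω η hη h
      rw [h] at hω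
      exact (Finset.disjoint_left.mp (hdisj j j' hjj')) hω hη
    rintro a' (⟨ω, hω, rfl⟩ | ⟨ω, hω, rfl⟩) b' (⟨η, hη, rfl⟩ | ⟨η, hη, rfl⟩)
    · exact (hfam.orth ω (hAs j hω) η (hAs j' hη) (hkey ω hω η hη)).1
    · exact (hfam.orth ω (hAs j hω) η (hAs j' hη) (hkey ω hω η hη)).2.1
    · exact (hfam.orth ω (hAs j hω) η (hAs j' hη) (hkey ω hω η hη)).2.2.1
    · exact (hfam.orth ω (hAs j hω) η (hAs j' hη) (hkey ω hω η hη)).2.2.2
  have hD2 : iSupIndep D := by
    intro j
    rw [Submodule.disjoint_def]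
    intro u hu hu'
    by_contra hu0
    obtain ⟨v, hv, hne⟩ := hD4 j u hu hu0
    apply hne
    have h1 : ∀ y ∈ (⨆ i, ⨆ (_ : i ≠ j), D i), B y v = 0 := by
      intro y hy
      induction hy using Submodule.iSup_induction' with
      | mem i y hy =>
        induction hy using Submodule.iSup_induction' with
        | mem hij y hy => exact hD5 i j hij y hy v hv
        | zero => simp
        | add a b _ _ ha hb => rw [map_add, LinearMap.add_apply, ha, hb, add_zero]
      | zero => simp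
      | add a b _ _ ha hb => rw [map_add, LinearMap.add_apply, ha, hb, add_zero]
    exact h1 u hu'
  have hD3 : iSup D = ⊤ := by
    rw [eq_top_iff, ← hspan, Submodule.span_le]
    have hone : ∀ ω ∈ s, ∃ j, ω ∈ A j := by
      intro ω hω
      obtain ⟨C, hC, hωC⟩ := hP2 ω hω
      refine ⟨e ⟨C, hC⟩, ?_⟩
      show ω ∈ ((e.symm (e ⟨C, hC⟩) : P) : Finset (V × V))
      rw [e.symm_apply_apply]
      exact hωC
    rintro u (⟨ω, hω, rfl⟩ | ⟨ω, hω, rfl⟩)
    · obtain ⟨j, hj⟩ := hone ω hω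
      exact (le_iSup D j) (Submodule.subset_span (Or.inl ⟨ω, hj, rfl⟩))
    · obtain ⟨j, hj⟩ := hone ω hω
      exact (le_iSup D j) (Submodule.subset_span (Or.inr ⟨ω, hj, rfl⟩))
  let τ : Fin t → Fin t := fun j => e ⟨(A j).image π, (hP1 _ (hA j)).2.2⟩
  have hτA : ∀ j, A (τ j) = (A j).image π := by
    intro j
    show ((e.symm (e ⟨(A j).image π, (hP1 _ (hA j)).2.2⟩) : P) : Finset (V × V)) = _
    rw [e.symm_apply_apply]
  have hτ : Function.Involutive τ := by
    intro j
    apply e.symm.injective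
    apply Subtype.ext
    show A (τ (τ j)) = A j
    rw [hτA, hτA, Finset.image_image]
    ext u
    simp only [Finset.mem_image, Function.comp]
    constructor
    · rintro ⟨w, hw, rfl⟩
      rw [hπ2 w (hAs j hw)]
      exact hw
    · intro hu
      exact ⟨u, hu, hπ2 u (hAs j hu)⟩
  refine ⟨D, hD1, hD2, hD3, hD4, hD5, hτ.toPerm, ?_⟩
  intro j
  have hle : (D j).map x ≤ D (τ j) := by
    rw [Submodule.map_le_iff_le_comap]
    show Submodule.span F (Pts (A j)) ≤ _
    rw [Submodule.span_le]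
    have hPl : ∀ ω ∈ A j, Pl (F := F) (π ω) ≤ D (τ j) := by
      intro ω hω
      show Submodule.span F _ ≤ Submodule.span F (Pts (A (τ j)))
      rw [Submodule.span_le, hτA]
      rintro u (rfl | rfl)
      · exact Submodule.subset_span (Or.inl ⟨π ω, Finset.mem_coe.mpr (Finset.mem_image_of_mem π hω), rfl⟩)
      · exact Submodule.subset_span (Or.inr ⟨π ω, Finset.mem_coe.mpr (Finset.mem_image_of_mem π hω), rfl⟩)
    rintro u (⟨ω, hω, rfl⟩ | ⟨ω, hω, rfl⟩)
    · exact hPl ω hω (hπ ω (hAs j hω)).2.1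
    · exact hPl ω hω (hπ ω (hAs j hω)).2.2
  apply Submodule.eq_of_le_of_finrank_eq hle
  rw [← LinearEquiv.finrank_eq (Submodule.equivMapOfInjective x hinj (D j))]
  exact (hD1 j).trans (hD1 _).symm

end steps

/-- The Lagrangian pair attached to a family whose points span the whole space. -/
theorem lagrangian_pair {s : Finset (V × V)} (hs : Fam B s) (hspan : Submodule.span F (Pts s) = ⊤) :
    IsCompl (Submodule.span F ((fun ω : V × V => ω.1) '' (s : Set (V × V))))
      (Submodule.span F ((fun ω : V × V => ω.2) '' (s : Set (V × V)))) ∧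
    (∀ u ∈ Submodule.span F ((fun ω : V × V => ω.1) '' (s : Set (V × V))),
      ∀ v ∈ Submodule.span F ((fun ω : V × V => ω.1) '' (s : Set (V × V))), B u v = 0) ∧
    (∀ u ∈ Submodule.span F ((fun ω : V × V => ω.2) '' (s : Set (V × V))),
      ∀ v ∈ Submodule.span F ((fun ω : V × V => ω.2) '' (s : Set (V × V))), B u v = 0) := by
  classical
  have h1 : ∀ u ∈ Submodule.span F ((fun ω : V × V => ω.1) '' (s : Set (V × V))),
      ∀ v ∈ Submodule.span F ((fun ω : V × V => ω.1) '' (s : Set (V × V))), B u v = 0 := by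
    intro u hu v hv
    refine orth_of_gens ?_ hu hv
    rintro _ ⟨ω, hω, rfl⟩ _ ⟨η, hη, rfl⟩
    by_cases h : ω = η
    · rw [h]; exact halt _
    · exact (hs.orth ω hω η hη h).1
  have h2 : ∀ u ∈ Submodule.span F ((fun ω : V × V => ω.2) '' (s : Set (V × V))),
      ∀ v ∈ Submodule.span F ((fun ω : V × V => ω.2) '' (s : Set (V × V))), B u v = 0 := by
    intro u hu v hv
    refine orth_of_gens ?_ hu hv
    rintro _ ⟨ω, hω, rfl⟩ _ ⟨η, hη, rfl⟩
    by_cases h : ω = η
    · rw [h]; exact halt _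
    · exact (hs.orth ω hω η hη h).2.2.2
  refine ⟨⟨?_, ?_⟩, h1, h2⟩
  · rw [Submodule.disjoint_def]
    intro u hu hu'
    have h3 : proj B s u = u := proj_eq_of_mem halt hs (by rw [hspan]; trivial)
    rw [← h3, proj_apply]
    apply Finset.sum_eq_zero
    intro ω hω
    rw [h2 u hu' _ (Submodule.subset_span ⟨ω, hω, rfl⟩), h1 u hu _ (Submodule.subset_span ⟨ω, hω, rfl⟩)]
    simp
  · rw [codisjoint_iff, ← Submodule.span_union]
    exact hspan

section lagrangian

variable (x : V →ₗ[F] V) (hiso : ∀ u v, B (x u) (x v) = B u v) {z : F} (hz0 : z ≠ 0)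
  (hx : ∀ v, x (x v) = z • v)

include hiso hz0 hx

/-- Lagrangian pair fixed. -/
theorem exists_lagrangian_fix (hnd : Nd B ⊤) (hinj : Function.Injective x) (hB : ∀ v, B v (x v) = 0) :
    ∃ U W : Submodule F V, IsCompl U W ∧ (∀ u ∈ U, ∀ v ∈ U, B u v = 0) ∧ (∀ u ∈ W, ∀ v ∈ W, B u v = 0) ∧
      U.map x = U ∧ W.map x = W := by
  classical
  obtain ⟨s, hfam, -, hspan, hR⟩ := exists_family halt x hiso hz0 hx (RFix x) (fun _ _ h => h.any)
    (step_fix halt x hiso hz0 hx hB) _ ⊤ rfl hnd (fun _ _ => trivial)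
  obtain ⟨h1, h2, h3⟩ := lagrangian_pair halt hfam hspan
  refine ⟨_, _, h1, h2, h3, ?_, ?_⟩
  · apply Submodule.eq_of_le_of_finrank_eq
    · rw [Submodule.map_span, Submodule.span_le]
      rintro _ ⟨_, ⟨ω, hω, rfl⟩, rfl⟩
      obtain ⟨ω', hω', ⟨c, hc⟩, -⟩ := hR ω hω
      show x ω.1 ∈ _
      rw [hc]
      exact Submodule.smul_mem _ _ (Submodule.subset_span ⟨ω', hω', rfl⟩)
    · exact (LinearEquiv.finrank_eq (Submodule.equivMapOfInjective x hinj _)).symm
  · apply Submodule.eq_of_le_of_finrank_eq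
    · rw [Submodule.map_span, Submodule.span_le]
      rintro _ ⟨_, ⟨ω, hω, rfl⟩, rfl⟩
      obtain ⟨ω', hω', -, ⟨c, hc⟩⟩ := hR ω hω
      show x ω.2 ∈ _
      rw [hc]
      exact Submodule.smul_mem _ _ (Submodule.subset_span ⟨ω', hω', rfl⟩)
    · exact (LinearEquiv.finrank_eq (Submodule.equivMapOfInjective x hinj _)).symm

/-- Lagrangian pair interchanged. -/
theorem exists_lagrangian_swap (hnd : Nd B ⊤) (hinj : Function.Injective x)
    (hne : ∀ v : V, v ≠ 0 → ∀ c : F, x v ≠ c • v) :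
    ∃ U W : Submodule F V, IsCompl U W ∧ (∀ u ∈ U, ∀ v ∈ U, B u v = 0) ∧ (∀ u ∈ W, ∀ v ∈ W, B u v = 0) ∧
      U.map x = W ∧ W.map x = U := by
  classical
  obtain ⟨s, hfam, -, hspan, hR⟩ := exists_family halt x hiso hz0 hx (RSwap x) (fun _ _ h => h.any)
    (step_swap halt x hiso hz0 hx hne) _ ⊤ rfl hnd (fun _ _ => trivial)
  obtain ⟨h1, h2, h3⟩ := lagrangian_pair halt hfam hspan
  have hUW : (Submodule.span F ((fun ω : V × V => ω.1) '' (s : Set (V × V)))).map x ≤
      Submodule.span F ((fun ω : V × V => ω.2) '' (s : Set (V × V))) := by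
    rw [Submodule.map_span, Submodule.span_le]
    rintro _ ⟨_, ⟨ω, hω, rfl⟩, rfl⟩
    obtain ⟨ω', hω', ⟨c, hc⟩, -⟩ := hR ω hω
    show x ω.1 ∈ _
    rw [hc]
    exact Submodule.smul_mem _ _ (Submodule.subset_span ⟨ω', hω', rfl⟩)
  have hWU : (Submodule.span F ((fun ω : V × V => ω.2) '' (s : Set (V × V)))).map x ≤
      Submodule.span F ((fun ω : V × V => ω.1) '' (s : Set (V × V))) := by
    rw [Submodule.map_span, Submodule.span_le]
    rintro _ ⟨_, ⟨ω, hω, rfl⟩, rfl⟩
    obtain ⟨ω', hω', -, ⟨c, hc⟩⟩ := hR ω hω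
    show x ω.2 ∈ _
    rw [hc]
    exact Submodule.smul_mem _ _ (Submodule.subset_span ⟨ω', hω', rfl⟩)
  have h4 := LinearEquiv.finrank_eq (Submodule.equivMapOfInjective x hinj
    (Submodule.span F ((fun ω : V × V => ω.1) '' (s : Set (V × V)))))
  have h5 := LinearEquiv.finrank_eq (Submodule.equivMapOfInjective x hinj
    (Submodule.span F ((fun ω : V × V => ω.2) '' (s : Set (V × V)))))
  have h6 := Submodule.finrank_mono hUW
  have h7 := Submodule.finrank_mono hWU
  refine ⟨_, _, h1, h2, h3, Submodule.eq_of_le_of_finrank_eq hUW (by omega),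
    Submodule.eq_of_le_of_finrank_eq hWU (by omega)⟩

end lagrangian

/-- The eigenspaces of an isometry squaring to `-1`, when `-1` is a square. -/
theorem exists_lagrangian_eigen (x : V →ₗ[F] V) (hiso : ∀ u v, B (x u) (x v) = B u v) {i : F} (hi : i * i = -1)
    (h2 : (2 : F) ≠ 0) (hx : ∀ v, x (x v) = (-1 : F) • v) :
    ∃ U W : Submodule F V, IsCompl U W ∧ (∀ u ∈ U, ∀ v ∈ U, B u v = 0) ∧ (∀ u ∈ W, ∀ v ∈ W, B u v = 0) ∧
      U.map x = U ∧ W.map x = W := by
  have hi0 : i ≠ 0 := by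
    rintro rfl
    rw [mul_zero] at hi
    exact one_ne_zero (neg_eq_zero.mp hi.symm)
  let U : Submodule F V := LinearMap.ker (x - i • LinearMap.id)
  let W : Submodule F V := LinearMap.ker (x + i • LinearMap.id)
  have hU : ∀ u, u ∈ U ↔ x u = i • u := by
    intro u
    simp only [U, LinearMap.mem_ker, LinearMap.sub_apply, LinearMap.smul_apply, LinearMap.id_apply, sub_eq_zero]
  have hW : ∀ u, u ∈ W ↔ x u = (-i) • u := by
    intro u
    simp only [W, LinearMap.mem_ker, LinearMap.add_apply, LinearMap.smul_apply, LinearMap.id_apply, neg_smul]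
    exact add_eq_zero_iff_eq_neg
  have hzero : ∀ c : F, c = - c → c = 0 := by
    intro c hc
    have h3 : (2 : F) * c = 0 := by
      linear_combination hc
    exact (mul_eq_zero.mp h3).resolve_left h2
  refine ⟨U, W, ⟨?_, ?_⟩, ?_, ?_, ?_, ?_⟩
  · rw [Submodule.disjoint_def]
    intro u hu hu'
    have h3 := (hU u).mp hu
    rw [(hW u).mp hu'] at h3
    have h4 : ((2 : F) * i) • u = 0 := by
      have h5 : (-i) • u - i • u = 0 := by rw [h3]; simp
      have h6 : ((2 : F) * i) • u = - ((-i) • u - i • u) := by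
        rw [neg_sub, neg_smul, sub_neg_eq_add, ← add_smul]
        congr 1
        ring
      rw [h6, h5, neg_zero]
    exact (smul_eq_zero.mp h4).resolve_left (mul_ne_zero h2 hi0)
  · rw [codisjoint_iff, eq_top_iff]
    intro v _
    have h3 : v = ((2 : F) * i)⁻¹ • (x v + i • v) + (-((2 : F) * i)⁻¹) • (x v - i • v) := by
      have h4 : ((2 : F) * i)⁻¹ • (x v + i • v) + (-((2 : F) * i)⁻¹) • (x v - i • v) = (((2 : F) * i)⁻¹ * ((2 : F) * i)) • v := by
        module
      rw [h4, inv_mul_cancel₀ (mul_ne_zero h2 hi0), one_smul]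
    rw [h3]
    apply Submodule.add_mem
    · apply Submodule.mem_sup_left
      apply Submodule.smul_mem
      rw [hU]
      rw [map_add, hx, map_smul, smul_add, smul_smul, hi]
      module
    · apply Submodule.mem_sup_right
      apply Submodule.smul_mem
      rw [hW]
      have h6 : (-i) • (x v - i • v) = (-i) • x v + (i * i) • v := by module
      rw [map_sub, hx, map_smul, h6, hi]
      module
  · intro u hu v hv
    have h3 := hiso u v
    rw [(hU u).mp hu, (hU v).mp hv, map_smul, map_smul, LinearMap.smul_apply, smul_eq_mul, smul_eq_mul, ← mul_assoc, hi] at h3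
    apply hzero
    linear_combination -h3
  · intro u hu v hv
    have h3 := hiso u v
    rw [(hW u).mp hu, (hW v).mp hv, map_smul, map_smul, LinearMap.smul_apply, smul_eq_mul, smul_eq_mul, ← mul_assoc, neg_mul_neg, hi] at h3
    apply hzero
    linear_combination -h3
  · apply le_antisymm
    · rintro _ ⟨u, hu, rfl⟩
      rw [SetLike.mem_coe] at hu
      show x u ∈ U
      rw [(hU u).mp hu]
      exact U.smul_mem _ hu
    · intro u hu
      refine ⟨i⁻¹ • u, U.smul_mem _ hu, ?_⟩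
      show x (i⁻¹ • u) = u
      rw [map_smul, (hU u).mp hu, smul_smul, inv_mul_cancel₀ hi0, one_smul]
  · apply le_antisymm
    · rintro _ ⟨u, hu, rfl⟩
      rw [SetLike.mem_coe] at hu
      show x u ∈ W
      rw [(hW u).mp hu]
      exact W.smul_mem _ hu
    · intro u hu
      refine ⟨(-i)⁻¹ • u, W.smul_mem _ hu, ?_⟩
      show x ((-i)⁻¹ • u) = u
      rw [map_smul, (hW u).mp hu, smul_smul, inv_mul_cancel₀ (neg_ne_zero.mpr hi0), one_smul]

section symp

omit halt

open Cfsg.Agent.Lib.KnownSimple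

variable {d : ℕ}

/-- The standard alternating form as a bilinear form. -/
noncomputable def sympB (d : ℕ) (F : Type*) [Field F] : LinearMap.BilinForm F (Fin d ⊕ Fin d → F) :=
  LinearMap.mk₂ F (Cfsg.sympForm d F) sympForm_add_left (fun c u v => by rw [sympForm_smul_left, smul_eq_mul])
    sympForm_add_right (fun c u v => by rw [sympForm_smul_right, smul_eq_mul])

theorem sympB_apply (u v : Fin d ⊕ Fin d → F) : sympB d F u v = Cfsg.sympForm d F u v := rfl

theorem sympB_alt (v : Fin d ⊕ Fin d → F) : sympB d F v v = 0 := sympForm_self v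

theorem sympB_nd : Nd (sympB d F) ⊤ := by
  intro u _ hu
  by_contra hcon
  push Not at hcon
  apply hu
  apply sympForm_right_eq_zero
  intro v
  rw [sympForm_swap]
  have := hcon v trivial
  rw [sympB_apply] at this
  rw [this, neg_zero]

theorem finrank_sum : finrank F (Fin d ⊕ Fin d → F) = 2 * d := by
  rw [Module.finrank_fintype_fun_eq_card, Fintype.card_sum, Fintype.card_fin]
  ring

/-- The data attached to an element of the symplectic group with scalar square. -/
theorem symp_data (x : ↥(Matrix.symplecticGroup (Fin d) F)) {z : F} (hd : 0 < d)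
    (hz : ((x ^ 2 : ↥(Matrix.symplecticGroup (Fin d) F)) : Matrix (Fin d ⊕ Fin d) (Fin d ⊕ Fin d) F) = z • (1 : Matrix (Fin d ⊕ Fin d) (Fin d ⊕ Fin d) F)) :
    (∀ u v, sympB d F (Matrix.toLin' (x : Matrix (Fin d ⊕ Fin d) (Fin d ⊕ Fin d) F) u) (Matrix.toLin' (x : Matrix (Fin d ⊕ Fin d) (Fin d ⊕ Fin d) F) v) = sympB d F u v) ∧
    Function.Injective (Matrix.toLin' (x : Matrix (Fin d ⊕ Fin d) (Fin d ⊕ Fin d) F)) ∧
    (∀ v, Matrix.toLin' (x : Matrix (Fin d ⊕ Fin d) (Fin d ⊕ Fin d) F) (Matrix.toLin' (x : Matrix (Fin d ⊕ Fin d) (Fin d ⊕ Fin d) F) v) = z • v) ∧ z ≠ 0 := by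
  classical
  set A : Matrix (Fin d ⊕ Fin d) (Fin d ⊕ Fin d) F := (x : Matrix (Fin d ⊕ Fin d) (Fin d ⊕ Fin d) F) with hA
  have hiso : ∀ u v, sympB d F (Matrix.toLin' A u) (Matrix.toLin' A v) = sympB d F u v := by
    intro u v
    exact sympForm_mulVec_mulVec x.2 u v
  have hinv : ((x⁻¹ : ↥(Matrix.symplecticGroup (Fin d) F)) : Matrix (Fin d ⊕ Fin d) (Fin d ⊕ Fin d) F) * A = 1 := by
    have := congrArg (fun y : ↥(Matrix.symplecticGroup (Fin d) F) => (y : Matrix (Fin d ⊕ Fin d) (Fin d ⊕ Fin d) F)) (inv_mul_cancel x)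
    exact this
  have hinj : Function.Injective (Matrix.toLin' A) := by
    intro u v huv
    have h1 : Matrix.mulVec A u = Matrix.mulVec A v := huv
    have h2 := congrArg (Matrix.mulVec ((x⁻¹ : ↥(Matrix.symplecticGroup (Fin d) F)) : Matrix (Fin d ⊕ Fin d) (Fin d ⊕ Fin d) F)) h1
    rwa [Matrix.mulVec_mulVec, Matrix.mulVec_mulVec, hinv, Matrix.one_mulVec, Matrix.one_mulVec] at h2
  have hAA : A * A = z • 1 := by
    rw [← hz, pow_two]; rfl
  have hxx : ∀ v, Matrix.toLin' A (Matrix.toLin' A v) = z • v := by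
    intro v
    simp only [Matrix.toLin'_apply]
    rw [Matrix.mulVec_mulVec, hAA, Matrix.smul_mulVec, Matrix.one_mulVec]
  refine ⟨hiso, hinj, hxx, ?_⟩
  rintro rfl
  have h1 := hxx (Pi.single (Sum.inl ⟨0, hd⟩) 1)
  rw [zero_smul] at h1
  have h2 : (Pi.single (Sum.inl ⟨0, hd⟩) 1 : Fin d ⊕ Fin d → F) = 0 := hinj (hinj (by rw [h1, map_zero, map_zero]))
  have h3 := congrFun h2 (Sum.inl ⟨0, hd⟩)
  simp at h3

end symp

end Cfsg.Agent.Lib.ClassMax.ElusiveSp
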