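import Mathlib
import Cfsg.Prelude.Def_GeometricClasses
import Cfsg.Agent.Lib.ClassMax.ElusiveSp
import Cfsg.Agent.Lib.ClassMax.EluNil

/-!
Similarities with scalar square of an alternating form: symplectic families for a given form and the
models built from them.
-/

set_option autoImplicit false
set_option linter.unusedSimpArgs false
set_option linter.unusedVariables false
set_option linter.unusedSectionVars false

namespace Cfsg.Agent.Lib.ClassMax.EluSymp

open Module Cfsg.Agent.Lib.ClassMax.ElusiveSp

variable {F V : Type*} [Field F] [AddCommGroup V] [Module F V] [FiniteDimensional F V]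

/-- The bilinear form of a two-argument bilinear function. -/
noncomputable def formOf {n : ℕ} (f : (Fin n → F) → (Fin n → F) → F) (hf : Cfsg.Geo.IsBilinearForm f) :
    LinearMap.BilinForm F (Fin n → F) :=
  LinearMap.mk₂ F f hf.add_left (fun c u v => by rw [hf.smul_left, smul_eq_mul]) hf.add_right
    (fun c u v => by rw [hf.smul_right, smul_eq_mul])

theorem formOf_apply {n : ℕ} (f : (Fin n → F) → (Fin n → F) → F) (hf : Cfsg.Geo.IsBilinearForm f) (u v : Fin n → F) :
    formOf f hf u v = f u v := rfl

theorem nd_of_symplectic {n : ℕ} (f : (Fin n → F) → (Fin n → F) → F) (hf : Cfsg.Geo.IsSymplecticForm f) :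
    Nd (formOf f hf.bilinear) ⊤ := by
  intro u _ hu
  obtain ⟨-, y, hy⟩ := hf.nondegenerate u hu
  exact ⟨y, trivial, hy⟩

variable {B : LinearMap.BilinForm F V}

theorem exists_family_of_form (halt : ∀ v, B v v = 0) (hnd : Nd B ⊤) :
    ∃ s : Finset (V × V), Fam B s ∧ Submodule.span F (Pts s) = ⊤ := by
  obtain ⟨s, h1, -, h3, -⟩ := exists_family halt (LinearMap.id : V →ₗ[F] V) (by simp) (one_ne_zero (α := F)) (by simp)
    (RAny (LinearMap.id : V →ₗ[F] V)) (fun ω ω' h => h)
    (fun W hbot hW hinv => step_any halt LinearMap.id (by simp) (one_ne_zero (α := F)) (by simp) W hbot hW hinv)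
    (finrank F (⊤ : Submodule F V)) ⊤ rfl hnd (by simp)
  exact ⟨s, h1, h3⟩

theorem finrank_family (halt : ∀ v, B v v = 0) {s : Finset (V × V)} (hs : Fam B s) (hspan : Submodule.span F (Pts s) = ⊤) :
    finrank F V = 2 * s.card := by
  have := finrank_span_pts halt hs
  rw [hspan, finrank_top] at this
  exact this

omit [FiniteDimensional F V] in
theorem fam_subset {s T : Finset (V × V)} (hs : Fam B s) (hT : T ⊆ s) : Fam B T :=
  ⟨fun ω hω => hs.hyp ω (hT hω), fun ω hω η hη hne => hs.orth ω (hT hω) η (hT hη) hne⟩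

section eval

variable (halt : ∀ v, B v v = 0)

include halt

/-- Evaluating a family sum on a point of the family, with a first coordinate. -/
theorem sum_eval_fst {W : Type*} [AddCommGroup W] [Module F W] {s : Finset (V × V)} (hs : Fam B s)
    (g₁ g₂ : V × V → W) {η : V × V} (hη : η ∈ s) :
    ∑ ω ∈ s, (B η.1 ω.2 • g₂ ω + B η.1 ω.1 • g₁ ω) = g₂ η := by
  classical
  rw [Finset.sum_eq_single η]
  · rw [hs.hyp η hη, halt, one_smul, zero_smul, add_zero]
  · intro ω hω hne
    obtain ⟨h1, h2, -, -⟩ := hs.orth η hη ω hω (Ne.symm hne)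
    rw [h1, h2]; simp
  · intro h; exact absurd hη h

/-- Evaluating a family sum on a point of the family, with a second coordinate. -/
theorem sum_eval_snd {W : Type*} [AddCommGroup W] [Module F W] {s : Finset (V × V)} (hs : Fam B s)
    (g₁ g₂ : V × V → W) {η : V × V} (hη : η ∈ s) :
    ∑ ω ∈ s, (B η.2 ω.2 • g₂ ω + B η.2 ω.1 • g₁ ω) = - g₁ η := by
  classical
  rw [Finset.sum_eq_single η]
  · rw [halt, skew halt η.2 η.1, hs.hyp η hη]; simp
  · intro ω hω hne
    obtain ⟨-, -, h1, h2⟩ := hs.orth η hη ω hω (Ne.symm hne)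
    rw [h1, h2]; simp
  · intro h; exact absurd hη h

end eval

/-- The linear map with prescribed values on a family. -/
noncomputable def famMap (B : LinearMap.BilinForm F V) (s : Finset (V × V)) (g₁ g₂ : V × V → V) : V →ₗ[F] V :=
  ∑ ω ∈ s, ((B.flip ω.2).smulRight (g₂ ω) + (B.flip ω.1).smulRight (g₁ ω))

omit [FiniteDimensional F V] in
theorem famMap_apply (s : Finset (V × V)) (g₁ g₂ : V × V → V) (v : V) :
    famMap B s g₁ g₂ v = ∑ ω ∈ s, (B v ω.2 • g₂ ω + B v ω.1 • g₁ ω) := by
  simp [famMap, LinearMap.sum_apply]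

section family

variable (halt : ∀ v, B v v = 0) {s : Finset (V × V)} (hs : Fam B s)

include halt hs

theorem famMap_fst (g₁ g₂ : V × V → V) {η : V × V} (hη : η ∈ s) : famMap B s g₁ g₂ η.1 = g₂ η := by
  rw [famMap_apply]; exact sum_eval_fst halt hs g₁ g₂ hη

theorem famMap_snd (g₁ g₂ : V × V → V) {η : V × V} (hη : η ∈ s) : famMap B s g₁ g₂ η.2 = - g₁ η := by
  rw [famMap_apply]; exact sum_eval_snd halt hs g₁ g₂ hη

/-- Two linear maps agreeing on the points of a spanning family. -/
theorem ext_on_pts (hspan : Submodule.span F (Pts s) = ⊤) {g h : V →ₗ[F] V}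
    (h1 : ∀ ω ∈ s, g ω.1 = h ω.1) (h2 : ∀ ω ∈ s, g ω.2 = h ω.2) : g = h := by
  apply LinearMap.ext_on hspan
  rintro _ (⟨ω, hω, rfl⟩ | ⟨ω, hω, rfl⟩)
  · exact h1 ω hω
  · exact h2 ω hω

/-- A bilinear identity checked on the points of a spanning family. -/
theorem form_ext_on_pts (hspan : Submodule.span F (Pts s) = ⊤) (C D : LinearMap.BilinForm F V)
    (h1 : ∀ ω ∈ s, ∀ η ∈ s, C ω.1 η.1 = D ω.1 η.1) (h2 : ∀ ω ∈ s, ∀ η ∈ s, C ω.1 η.2 = D ω.1 η.2)
    (h3 : ∀ ω ∈ s, ∀ η ∈ s, C ω.2 η.1 = D ω.2 η.1) (h4 : ∀ ω ∈ s, ∀ η ∈ s, C ω.2 η.2 = D ω.2 η.2) (u v : V) :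
    C u v = D u v := by
  have : (C - D) u v = 0 := by
    apply orth_of_gens (S := Pts s) (S' := Pts s)
    · rintro _ (⟨ω, hω, rfl⟩ | ⟨ω, hω, rfl⟩) _ (⟨η, hη, rfl⟩ | ⟨η, hη, rfl⟩)
      · simp [h1 ω hω η hη]
      · simp [h2 ω hω η hη]
      · simp [h3 ω hω η hη]
      · simp [h4 ω hω η hη]
    · rw [hspan]; trivial
    · rw [hspan]; trivial
  simpa [sub_eq_zero] using this

end family

/-- The map interchanging the members of the pairs, up to a scalar. -/
noncomputable def swapMap (B : LinearMap.BilinForm F V) (s : Finset (V × V)) (z : F) : V →ₗ[F] V :=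
  famMap B s (fun ω => -z • ω.1) (fun ω => ω.2)

section swap

variable (halt : ∀ v, B v v = 0) {s : Finset (V × V)} (hs : Fam B s)

include halt hs

theorem swapMap_fst (z : F) {η : V × V} (hη : η ∈ s) : swapMap B s z η.1 = η.2 :=
  famMap_fst halt hs _ _ hη

theorem swapMap_snd (z : F) {η : V × V} (hη : η ∈ s) : swapMap B s z η.2 = z • η.1 := by
  unfold swapMap
  rw [famMap_snd halt hs _ _ hη]
  simp

theorem swapMap_sq (hspan : Submodule.span F (Pts s) = ⊤) (z : F) (v : V) :
    swapMap B s z (swapMap B s z v) = z • v := by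
  have : (swapMap B s z).comp (swapMap B s z) = z • LinearMap.id := by
    apply ext_on_pts halt hs hspan
    · intro ω hω
      simp [swapMap_fst halt hs z hω, swapMap_snd halt hs z hω]
    · intro ω hω
      simp [swapMap_fst halt hs z hω, swapMap_snd halt hs z hω]
  exact LinearMap.congr_fun this v

theorem pts_form {ω η : V × V} (hω : ω ∈ s) (hη : η ∈ s) :
    (B ω.1 η.1 = 0) ∧ (B ω.2 η.2 = 0) ∧ (B ω.1 η.2 = - B ω.2 η.1) := by
  classical
  by_cases h : ω = η
  · subst h
    refine ⟨halt _, halt _, ?_⟩
    rw [skew halt ω.2 ω.1, neg_neg]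
  · obtain ⟨h1, h2, h3, h4⟩ := hs.orth ω hω η hη h
    rw [h1, h2, h3, h4]
    simp

theorem swapMap_form (hspan : Submodule.span F (Pts s) = ⊤) (z : F) (u v : V) :
    B (swapMap B s z u) (swapMap B s z v) = (-z) * B u v := by
  have := form_ext_on_pts halt hs hspan (B.compl₁₂ (swapMap B s z) (swapMap B s z)) ((-z) • B)
    (fun ω hω η hη => by
      simp only [LinearMap.compl₁₂_apply, LinearMap.smul_apply, smul_eq_mul, swapMap_fst halt hs z hω, swapMap_fst halt hs z hη]
      rw [(pts_form halt hs hω hη).1, (pts_form halt hs hω hη).2.1, mul_zero])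
    (fun ω hω η hη => by
      simp only [LinearMap.compl₁₂_apply, LinearMap.smul_apply, smul_eq_mul, swapMap_fst halt hs z hω, swapMap_snd halt hs z hη, map_smul]
      rw [(pts_form halt hs hω hη).2.2]
      ring)
    (fun ω hω η hη => by
      simp only [LinearMap.compl₁₂_apply, LinearMap.smul_apply, smul_eq_mul, swapMap_snd halt hs z hω, swapMap_fst halt hs z hη, map_smul]
      rw [(pts_form halt hs hω hη).2.2]
      ring)
    (fun ω hω η hη => by
      simp only [LinearMap.compl₁₂_apply, LinearMap.smul_apply, smul_eq_mul, swapMap_snd halt hs z hω, swapMap_snd halt hs z hη, map_smul]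
      rw [(pts_form halt hs hω hη).1, (pts_form halt hs hω hη).2.1]
      ring) u v
  simpa using this

end swap

/-- The isometry negating the points of a part of the family. -/
noncomputable def reflMap (B : LinearMap.BilinForm F V) (T : Finset (V × V)) : V →ₗ[F] V :=
  LinearMap.id - (2 : F) • proj B T

section refl

variable (halt : ∀ v, B v v = 0) {T : Finset (V × V)} (hT : Fam B T)

include halt hT

theorem proj_mem (w : V) : proj B T w ∈ Submodule.span F (Pts T) := by
  rw [proj_apply]
  apply Submodule.sum_mem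
  intro ω hω
  apply Submodule.sub_mem
  · exact Submodule.smul_mem _ _ (Submodule.subset_span (Or.inl ⟨ω, hω, rfl⟩))
  · exact Submodule.smul_mem _ _ (Submodule.subset_span (Or.inr ⟨ω, hω, rfl⟩))

theorem proj_idem (w : V) : proj B T (proj B T w) = proj B T w :=
  proj_eq_of_mem halt hT (proj_mem halt hT w)

/-- The projection is the identity on the left of elements of the span. -/
theorem form_proj_span (w : V) {y : V} (hy : y ∈ Submodule.span F (Pts T)) : B (proj B T w) y = B w y := by
  induction hy using Submodule.span_induction with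
  | mem x hx =>
    rcases hx with ⟨ω, hω, rfl⟩ | ⟨ω, hω, rfl⟩
    · exact (form_proj_left halt hT w hω).1
    · exact (form_proj_left halt hT w hω).2
  | zero => simp
  | add a b _ _ ha hb => rw [map_add, map_add, ha, hb]
  | smul c a _ ha => rw [map_smul, map_smul, ha]

theorem form_proj_self (u v : V) : B (proj B T u) v = B u (proj B T v) := by
  have h1 : B (proj B T u) (proj B T v) = B u (proj B T v) := form_proj_span halt hT u (proj_mem halt hT v)
  have h2 : B (proj B T v) (proj B T u) = B v (proj B T u) := form_proj_span halt hT v (proj_mem halt hT u)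
  calc B (proj B T u) v = - B v (proj B T u) := skew halt _ _
    _ = - B (proj B T v) (proj B T u) := by rw [h2]
    _ = B (proj B T u) (proj B T v) := by rw [skew halt (proj B T v)]; simp
    _ = _ := h1

theorem reflMap_form (u v : V) : B (reflMap B T u) (reflMap B T v) = B u v := by
  have h1 : B (proj B T u) (proj B T v) = B u (proj B T v) := form_proj_span halt hT u (proj_mem halt hT v)
  have h2 := form_proj_self halt hT u v
  simp only [reflMap, LinearMap.sub_apply, LinearMap.id_apply, LinearMap.smul_apply, map_sub, map_smul, smul_eq_mul]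
  rw [h1, h2]
  ring

theorem reflMap_sq (v : V) : reflMap B T (reflMap B T v) = v := by
  simp only [reflMap, LinearMap.sub_apply, LinearMap.id_apply, LinearMap.smul_apply, map_sub, map_smul]
  rw [proj_idem halt hT]
  rw [smul_sub, sub_sub, two_smul F (proj B T v)]
  simp [two_smul]

theorem finrank_ker_reflMap (h2 : (2 : F) ≠ 0) {c : F} (hc : c ≠ 0) :
    finrank F (LinearMap.ker (c • reflMap B T + c • LinearMap.id)) = 2 * T.card := by
  have : LinearMap.ker (c • reflMap B T + c • LinearMap.id) = Submodule.span F (Pts T) := by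
    ext v
    rw [LinearMap.mem_ker]
    simp only [reflMap, LinearMap.add_apply, LinearMap.smul_apply, LinearMap.sub_apply, LinearMap.id_apply]
    constructor
    · intro h
      have h3 : ((2 : F) * c) • (v - proj B T v) = 0 := by
        rw [← h]
        module
      have h4 := (smul_eq_zero.mp h3).resolve_left (mul_ne_zero h2 hc)
      rw [sub_eq_zero.mp h4]
      exact proj_mem halt hT v
    · intro h
      rw [proj_eq_of_mem halt hT h]
      module
  rw [this]
  exact finrank_span_pts halt hT

end refl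

/-- The nilpotent shear along a part of the family. -/
noncomputable def shearMap (B : LinearMap.BilinForm F V) (T : Finset (V × V)) : V →ₗ[F] V :=
  famMap B T (fun _ => 0) (fun ω => ω.2)

section shear

variable (halt : ∀ v, B v v = 0) {T : Finset (V × V)} (hT : Fam B T)

include halt hT

theorem shearMap_apply (v : V) : shearMap B T v = ∑ ω ∈ T, B v ω.2 • ω.2 := by
  unfold shearMap
  rw [famMap_apply]
  simp

theorem shearMap_fst {η : V × V} (hη : η ∈ T) : shearMap B T η.1 = η.2 := famMap_fst halt hT _ _ hη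

theorem form_snd_snd {ω η : V × V} (hω : ω ∈ T) (hη : η ∈ T) : B ω.2 η.2 = 0 := (pts_form halt hT hω hη).2.1

theorem shearMap_sq (v : V) : shearMap B T (shearMap B T v) = 0 := by
  rw [shearMap_apply halt hT v, map_sum]
  apply Finset.sum_eq_zero
  intro ω hω
  rw [map_smul, shearMap_apply halt hT]
  rw [Finset.sum_eq_zero, smul_zero]
  intro η hη
  rw [form_snd_snd halt hT hω hη, zero_smul]

theorem shearMap_form (u v : V) : B ((LinearMap.id + shearMap B T : V →ₗ[F] V) u) ((LinearMap.id + shearMap B T : V →ₗ[F] V) v) = B u v := by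
  have h1 : B (shearMap B T u) (shearMap B T v) = 0 := by
    rw [shearMap_apply halt hT v, map_sum]
    apply Finset.sum_eq_zero
    intro η hη
    rw [map_smul, shearMap_apply halt hT u]
    simp only [map_sum, LinearMap.sum_apply, map_smul, LinearMap.smul_apply, smul_eq_mul]
    rw [Finset.sum_eq_zero, mul_zero]
    intro ω hω
    rw [form_snd_snd halt hT hω hη, mul_zero]
  have h2 : B (shearMap B T u) v = - B u (shearMap B T v) := by
    rw [shearMap_apply halt hT u, shearMap_apply halt hT v]
    simp only [map_sum, LinearMap.sum_apply, map_smul, LinearMap.smul_apply, smul_eq_mul]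
    rw [← Finset.sum_neg_distrib]
    apply Finset.sum_congr rfl
    intro ω _
    rw [skew halt ω.2 v]
    ring
  simp only [LinearMap.add_apply, LinearMap.id_apply, map_add, h1, h2]
  ring

theorem finrank_range_shearMap : finrank F (LinearMap.range (shearMap B T)) = T.card := by
  classical
  have hr : LinearMap.range (shearMap B T) = Submodule.span F ((fun ω : V × V => ω.2) '' (T : Set (V × V))) := by
    apply le_antisymm
    · rintro _ ⟨v, rfl⟩
      rw [shearMap_apply halt hT]
      apply Submodule.sum_mem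
      intro ω hω
      exact Submodule.smul_mem _ _ (Submodule.subset_span ⟨ω, hω, rfl⟩)
    · rw [Submodule.span_le]
      rintro _ ⟨ω, hω, rfl⟩
      exact ⟨ω.1, shearMap_fst halt hT hω⟩
  rw [hr]
  have hli : LinearIndependent F (fun ω : T => (ω : V × V).2) := by
    rw [Fintype.linearIndependent_iff]
    intro g hg η
    have h1 := congrArg (fun y => B (η : V × V).1 y) hg
    simp only [map_sum, map_smul, smul_eq_mul, map_zero] at h1
    rw [Finset.sum_eq_single η] at h1
    · rw [hT.hyp _ η.2, mul_one] at h1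
      exact h1
    · intro ω _ hne
      have hne' : (η : V × V) ≠ ω := fun h => hne (Subtype.ext h.symm)
      obtain ⟨-, h3, -, -⟩ := hT.orth η η.2 ω ω.2 hne'
      rw [h3, mul_zero]
    · intro h; exact absurd (Finset.mem_univ _) h
  have hrange : Set.range (fun ω : T => (ω : V × V).2) = (fun ω : V × V => ω.2) '' (T : Set (V × V)) := by
    ext y
    constructor
    · rintro ⟨ω, rfl⟩
      exact ⟨ω, ω.2, rfl⟩
    · rintro ⟨ω, hω, rfl⟩
      exact ⟨⟨ω, hω⟩, rfl⟩
  rw [← hrange, finrank_span_eq_card hli]
  simp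

end shear

/-- Endomorphisms of square zero of the same rank are conjugate. -/
theorem conj_sq_zero (N N' : Module.End F V) (hN : N * N = 0) (hN' : N' * N' = 0)
    (hr : finrank F (LinearMap.range N) = finrank F (LinearMap.range N')) :
    ∃ Q : V ≃ₗ[F] V, ∀ v, Q (N v) = N' (Q v) := by
  obtain ⟨s, Φ, h1, h2⟩ := Cfsg.Agent.Lib.ClassMax.EluNil.sq_zero_normal N hN
  obtain ⟨s', Φ', h1', h2'⟩ := Cfsg.Agent.Lib.ClassMax.EluNil.sq_zero_normal N' hN'
  generalize finrank F (LinearMap.range N) = r at *
  generalize finrank F (LinearMap.range N') = r' at *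
  subst hr
  have hs : s = s' := by omega
  subst hs
  refine ⟨Φ ≪≫ₗ Φ'.symm, fun v => ?_⟩
  apply Φ'.injective
  rw [h1']
  simp only [LinearEquiv.trans_apply, LinearEquiv.apply_symm_apply]
  exact h1 v

end Cfsg.Agent.Lib.ClassMax.EluSymp
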