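import Mathlib
import Cfsg.Prelude.Def_GeometricClasses
import Cfsg.Agent.Lib.ClassMax.EluInv
import Cfsg.Agent.Lib.ClassMax.EluSymp

/-!
Quadratic field subalgebras of a matrix algebra: a generator, the two conjugacy possibilities for the
normaliser, and a model on `F² ⊗ F^m`.
-/

set_option autoImplicit false
set_option linter.unusedSimpArgs false
set_option linter.unusedVariables false
set_option linter.unusedSectionVars false

namespace Cfsg.Agent.Lib.ClassMax.EluQuad

open Module Polynomial Cfsg.Geo Cfsg.Agent.Lib.ClassMax.EluInv Cfsg.Agent.Lib.ClassMax.EluConj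
open scoped Matrix

variable {F : Type*} [Field F] {n : ℕ} {K : Subalgebra F (Matrix (Fin n) (Fin n) F)}

theorem exists_generator (hK : IsFieldSubalgebra 2 K) :
    ∃ θ ∈ K, ∃ t d : F, θ * θ = t • θ - d • 1 ∧ (∀ c : F, θ ≠ c • 1) ∧ ∀ k, k ∈ K ↔ ∃ a b : F, k = a • 1 + b • θ := by
  classical
  have hfr : finrank F K.toSubmodule = 2 := hK.finrank_eq
  obtain ⟨θ, hθ, hns⟩ : ∃ θ ∈ K, ∀ c : F, θ ≠ c • 1 := by
    by_contra hcon
    push Not at hcon
    have hle : K.toSubmodule ≤ Submodule.span F {(1 : Matrix (Fin n) (Fin n) F)} := by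
      intro k hk
      obtain ⟨c, hc⟩ := hcon k hk
      rw [hc]
      exact Submodule.smul_mem _ _ (Submodule.subset_span rfl)
    have h1 := Submodule.finrank_mono hle
    have h2 := finrank_span_le_card (R := F) ({(1 : Matrix (Fin n) (Fin n) F)} : Set (Matrix (Fin n) (Fin n) F))
    simp at h2
    omega
  have h10 : (1 : Matrix (Fin n) (Fin n) F) ≠ 0 := by
    intro h
    apply hns 0
    rw [zero_smul]
    calc θ = θ * 1 := (mul_one _).symm
      _ = 0 := by rw [h, mul_zero]
  have hli : LinearIndependent F ![(1 : Matrix (Fin n) (Fin n) F), θ] := by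
    rw [LinearIndependent.pair_iff]
    intro a b hab
    by_cases hb : b = 0
    · subst hb
      simp only [zero_smul, add_zero] at hab
      exact ⟨(smul_eq_zero.mp hab).resolve_right h10, rfl⟩
    · exfalso
      apply hns (-(b⁻¹ * a))
      have : θ = b⁻¹ • (b • θ) := by rw [smul_smul, inv_mul_cancel₀ hb, one_smul]
      rw [this, eq_neg_of_add_eq_zero_right hab]
      simp [smul_smul]
  set W := Submodule.span F (Set.range ![(1 : Matrix (Fin n) (Fin n) F), θ]) with hW
  have hW2 : finrank F W = 2 := by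
    rw [hW, finrank_span_eq_card hli]
    simp
  have hWK : W ≤ K.toSubmodule := by
    rw [hW, Submodule.span_le]
    rintro _ ⟨i, rfl⟩
    fin_cases i
    · exact K.one_mem
    · exact hθ
  have hEq : W = K.toSubmodule := Submodule.eq_of_le_of_finrank_eq hWK (by rw [hW2, hfr])
  have hmem : ∀ k, k ∈ K ↔ ∃ a b : F, k = a • 1 + b • θ := by
    intro k
    have h1 : k ∈ K ↔ k ∈ W := by
      rw [hEq]; rfl
    have h2 : W = Submodule.span F {(1 : Matrix (Fin n) (Fin n) F), θ} := by
      rw [hW]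
      congr 1
      ext y
      simp [Matrix.range_cons, Set.mem_insert_iff]
      tauto
    rw [h1, h2, Submodule.mem_span_pair]
    constructor
    · rintro ⟨a, b, rfl⟩; exact ⟨a, b, rfl⟩
    · rintro ⟨a, b, rfl⟩; exact ⟨a, b, rfl⟩
  obtain ⟨a, b, hab⟩ := (hmem (θ * θ)).mp (K.mul_mem hθ hθ)
  refine ⟨θ, hθ, b, -a, ?_, hns, hmem⟩
  rw [hab]
  simp [add_comm]

section gen

variable (hK : IsFieldSubalgebra 2 K)

include hK

theorem domain {a b : Matrix (Fin n) (Fin n) F} (ha : a ∈ K) (hb : b ∈ K) (h : a * b = 0) : a = 0 ∨ b = 0 := by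
  by_cases h0 : a = 0
  · exact Or.inl h0
  · right
    obtain ⟨y, hy, hay⟩ := hK.inv a ha h0
    calc b = (a * y) * b := by rw [hay, one_mul]
      _ = (y * a) * b := by rw [hK.comm a ha y hy]
      _ = 0 := by rw [mul_assoc, h, mul_zero]

variable {θ : Matrix (Fin n) (Fin n) F} (hθ : θ ∈ K) {t d : F} (hq : θ * θ = t • θ - d • 1) (hns : ∀ c : F, θ ≠ c • 1)

include hθ hq hns

theorem one_ne_zero' : (1 : Matrix (Fin n) (Fin n) F) ≠ 0 := by
  intro h
  apply hns 0
  rw [zero_smul]
  calc θ = θ * 1 := (mul_one _).symm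
    _ = 0 := by rw [h, mul_zero]

/-- The polynomial of a generator has no roots. -/
theorem no_root (a : F) : a * a - t * a + d ≠ 0 := by
  intro h
  have hsub : ∀ c : F, θ - c • 1 ∈ K := fun c => K.sub_mem hθ (K.smul_mem K.one_mem c)
  have h1 : (θ - a • 1) * (θ - (t - a) • 1) = 0 := by
    have e : (θ - a • 1) * (θ - (t - a) • 1) = θ * θ - t • θ + (a * (t - a)) • 1 := by
      simp only [sub_mul, mul_sub, Matrix.smul_mul, Matrix.mul_smul, one_mul, mul_one, smul_smul, sub_smul, smul_sub]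
      rw [mul_comm t a]
      abel
    rw [e, hq]
    have : a * (t - a) = d := by linear_combination -h
    rw [this]
    abel
  rcases domain hK (hsub a) (hsub _) h1 with h2 | h2
  · exact hns a (sub_eq_zero.mp h2)
  · exact hns _ (sub_eq_zero.mp h2)

theorem irr : Irreducible (X ^ 2 - C t * X + C d : F[X]) := by
  have hmon : (X ^ 2 - C t * X + C d : F[X]).Monic := by
    have : (X ^ 2 - C t * X + C d : F[X]) = X ^ 2 + (C (-t) * X + C d) := by
      simp only [C_neg]; ring
    rw [this]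
    apply monic_X_pow_add
    exact lt_of_le_of_lt (degree_linear_le) (by norm_num)
  have hdeg : (X ^ 2 - C t * X + C d : F[X]).natDegree = 2 := by
    have : (X ^ 2 - C t * X + C d : F[X]) = C (1 : F) * X ^ 2 + C (-t) * X + C d := by
      simp only [C_neg, C_1]; ring
    rw [this]
    exact natDegree_quadratic one_ne_zero
  rw [hmon.irreducible_iff_roots_eq_zero_of_degree_le_three (by omega) (by omega)]
  rw [Multiset.eq_zero_iff_forall_notMem]
  intro a ha
  have h1 := (mem_roots'.mp ha).2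
  apply no_root hK hθ hq hns a
  simp [IsRoot] at h1
  linear_combination h1

theorem aeval_gen : aeval θ (X ^ 2 - C t * X + C d : F[X]) = 0 := by
  simp only [map_add, map_sub, map_mul, map_pow, aeval_X, aeval_C, Algebra.algebraMap_eq_smul_one, pow_two, hq]
  simp

theorem disc_ne [Finite F] : t • (1 : Matrix (Fin n) (Fin n) F) - (2 : F) • θ ≠ 0 := by
  intro h
  by_cases h2 : (2 : F) = 0
  · rw [h2, zero_smul, sub_zero] at h
    have ht : t = 0 := (smul_eq_zero.mp h).resolve_right (one_ne_zero' hK hθ hq hns)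
    subst ht
    haveI := Fintype.ofFinite F
    have hc : ringChar F = 2 := by
      have : (ringChar F) ∣ 2 := (ringChar.spec F 2).mp (by exact_mod_cast h2)
      have hp : (ringChar F).Prime := by
        rcases CharP.char_is_prime_or_zero F (ringChar F) with h | h
        · exact h
        · rw [h] at this; simp at this
      exact (Nat.prime_dvd_prime_iff_eq hp Nat.prime_two).mp this
    obtain ⟨e, he⟩ := FiniteField.isSquare_of_char_two hc (-d)
    apply no_root hK hθ hq hns e
    rw [← he]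
    ring
  · apply hns (t / 2)
    have h3 : (2 : F) • θ = t • 1 := (sub_eq_zero.mp h).symm
    have : θ = (2 : F)⁻¹ • ((2 : F) • θ) := by rw [smul_smul, inv_mul_cancel₀ h2, one_smul]
    rw [this, h3, smul_smul]
    congr 1
    field_simp

omit hns in
theorem sub_mem_conj : t • (1 : Matrix (Fin n) (Fin n) F) - θ ∈ K := K.sub_mem (K.smul_mem K.one_mem t) hθ

omit hq hns in
theorem gen_comm {k : Matrix (Fin n) (Fin n) F} (hk : k ∈ K) : k * θ = θ * k := hK.comm k hk θ hθ

/-- Elements of the normaliser either centralise the generator or send it to its conjugate. -/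
theorem norm_cases (g : GL (Fin n) F) (hg : g ∈ subalgebraNormalizer K) :
    (g : Matrix (Fin n) (Fin n) F) * θ = θ * (g : Matrix (Fin n) (Fin n) F) ∨
      (g : Matrix (Fin n) (Fin n) F) * θ = (t • 1 - θ) * (g : Matrix (Fin n) (Fin n) F) := by
  set G : Matrix (Fin n) (Fin n) F := (g : Matrix (Fin n) (Fin n) F) with hG
  set G' : Matrix (Fin n) (Fin n) F := ((g⁻¹ : GL (Fin n) F) : Matrix (Fin n) (Fin n) F) with hG'
  have hGG : G * G' = 1 := by
    rw [hG, hG', ← Units.val_mul, mul_inv_cancel, Units.val_one]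
  have hGG' : G' * G = 1 := by
    rw [hG, hG', ← Units.val_mul, inv_mul_cancel, Units.val_one]
  set θ' := G * θ * G' with hθ'
  have hθ'K : θ' ∈ K := (hg θ).mp hθ
  have hconj : G * θ = θ' * G := by
    rw [hθ', mul_assoc, mul_assoc, hGG', mul_one]
  have hsq : θ' * θ' = t • θ' - d • 1 := by
    have : θ' * θ' = G * (θ * θ) * G' := by
      rw [hθ']
      calc G * θ * G' * (G * θ * G') = G * θ * (G' * G) * θ * G' := by simp only [mul_assoc]
        _ = _ := by rw [hGG', mul_one]; simp only [mul_assoc]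
    rw [this, hq, mul_sub, sub_mul, Matrix.mul_smul, Matrix.smul_mul, Matrix.mul_smul, Matrix.smul_mul, mul_one, hGG]
  have h1 : (θ' - θ) * (θ' - (t • 1 - θ)) = 0 := by
    have hc : θ' * θ = θ * θ' := hK.comm θ' hθ'K θ hθ
    have e : (θ' - θ) * (θ' - (t • 1 - θ)) = θ' * θ' - t • θ' + (θ' * θ - θ * θ') + (t • θ - θ * θ) := by
      simp only [sub_mul, mul_sub, Matrix.smul_mul, Matrix.mul_smul, one_mul, mul_one]
      abel
    rw [e, hc, hsq, hq]
    abel
  rcases domain hK (K.sub_mem hθ'K hθ) (K.sub_mem hθ'K (sub_mem_conj hK hθ hq)) h1 with h2 | h2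
  · left
    rw [hconj, sub_eq_zero.mp h2]
  · right
    rw [hconj, sub_eq_zero.mp h2]

/-- Membership in the normaliser. -/
theorem mem_norm (hmem : ∀ k, k ∈ K ↔ ∃ a b : F, k = a • 1 + b • θ) (g : GL (Fin n) F)
    (hg : (g : Matrix (Fin n) (Fin n) F) * θ = θ * (g : Matrix (Fin n) (Fin n) F) ∨
      (g : Matrix (Fin n) (Fin n) F) * θ = (t • 1 - θ) * (g : Matrix (Fin n) (Fin n) F)) :
    g ∈ subalgebraNormalizer K := by
  have hfor : ∀ g : GL (Fin n) F, ((g : Matrix (Fin n) (Fin n) F) * θ = θ * (g : Matrix (Fin n) (Fin n) F) ∨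
      (g : Matrix (Fin n) (Fin n) F) * θ = (t • 1 - θ) * (g : Matrix (Fin n) (Fin n) F)) →
      ∀ k ∈ K, (g : Matrix (Fin n) (Fin n) F) * k * ((g⁻¹ : GL (Fin n) F) : Matrix (Fin n) (Fin n) F) ∈ K := by
    intro g hg k hk
    have hGG : (g : Matrix (Fin n) (Fin n) F) * ((g⁻¹ : GL (Fin n) F) : Matrix (Fin n) (Fin n) F) = 1 := by
      rw [← Units.val_mul, mul_inv_cancel, Units.val_one]
    obtain ⟨a, b, rfl⟩ := (hmem k).mp hk
    have e1 : (g : Matrix (Fin n) (Fin n) F) * (a • 1 + b • θ) * ((g⁻¹ : GL (Fin n) F) : Matrix (Fin n) (Fin n) F) =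
        a • 1 + b • ((g : Matrix (Fin n) (Fin n) F) * θ * ((g⁻¹ : GL (Fin n) F) : Matrix (Fin n) (Fin n) F)) := by
      rw [mul_add, add_mul, Matrix.mul_smul, Matrix.smul_mul, Matrix.mul_smul, Matrix.smul_mul, mul_one, hGG]
    rw [e1]
    apply K.add_mem (K.smul_mem K.one_mem a) (K.smul_mem _ _)
    rcases hg with h | h
    · rw [h, mul_assoc, hGG, mul_one]; exact hθ
    · rw [h, mul_assoc, hGG, mul_one]; exact sub_mem_conj hK hθ hq
  have hinv : ((g⁻¹ : GL (Fin n) F) : Matrix (Fin n) (Fin n) F) * θ = θ * ((g⁻¹ : GL (Fin n) F) : Matrix (Fin n) (Fin n) F) ∨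
      ((g⁻¹ : GL (Fin n) F) : Matrix (Fin n) (Fin n) F) * θ = (t • 1 - θ) * ((g⁻¹ : GL (Fin n) F) : Matrix (Fin n) (Fin n) F) := by
    have hGG : (g : Matrix (Fin n) (Fin n) F) * ((g⁻¹ : GL (Fin n) F) : Matrix (Fin n) (Fin n) F) = 1 := by
      rw [← Units.val_mul, mul_inv_cancel, Units.val_one]
    have hGG' : ((g⁻¹ : GL (Fin n) F) : Matrix (Fin n) (Fin n) F) * (g : Matrix (Fin n) (Fin n) F) = 1 := by
      rw [← Units.val_mul, inv_mul_cancel, Units.val_one]
    rcases hg with h | h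
    · left
      calc ((g⁻¹ : GL (Fin n) F) : Matrix (Fin n) (Fin n) F) * θ
          = ((g⁻¹ : GL (Fin n) F) : Matrix (Fin n) (Fin n) F) * θ * ((g : Matrix (Fin n) (Fin n) F) * ((g⁻¹ : GL (Fin n) F) : Matrix (Fin n) (Fin n) F)) := by rw [hGG, mul_one]
        _ = ((g⁻¹ : GL (Fin n) F) : Matrix (Fin n) (Fin n) F) * ((g : Matrix (Fin n) (Fin n) F) * θ) * ((g⁻¹ : GL (Fin n) F) : Matrix (Fin n) (Fin n) F) := by rw [h]; simp only [mul_assoc]
        _ = _ := by rw [← mul_assoc _ _ θ, hGG', one_mul]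
    · right
      have h3 : (g : Matrix (Fin n) (Fin n) F) * (t • 1 - θ) = θ * (g : Matrix (Fin n) (Fin n) F) := by
        rw [mul_sub, h, sub_mul, Matrix.mul_smul, Matrix.smul_mul, mul_one, one_mul]
        abel
      calc ((g⁻¹ : GL (Fin n) F) : Matrix (Fin n) (Fin n) F) * θ
          = ((g⁻¹ : GL (Fin n) F) : Matrix (Fin n) (Fin n) F) * θ * ((g : Matrix (Fin n) (Fin n) F) * ((g⁻¹ : GL (Fin n) F) : Matrix (Fin n) (Fin n) F)) := by rw [hGG, mul_one]
        _ = ((g⁻¹ : GL (Fin n) F) : Matrix (Fin n) (Fin n) F) * (θ * (g : Matrix (Fin n) (Fin n) F)) * ((g⁻¹ : GL (Fin n) F) : Matrix (Fin n) (Fin n) F) := by simp only [mul_assoc]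
        _ = ((g⁻¹ : GL (Fin n) F) : Matrix (Fin n) (Fin n) F) * ((g : Matrix (Fin n) (Fin n) F) * (t • 1 - θ)) * ((g⁻¹ : GL (Fin n) F) : Matrix (Fin n) (Fin n) F) := by rw [h3]
        _ = _ := by rw [← mul_assoc _ _ (t • 1 - θ), hGG', one_mul]
  intro k
  constructor
  · exact hfor g hg k
  · intro h
    have h1 := hfor g⁻¹ hinv _ h
    have hGG' : ((g⁻¹ : GL (Fin n) F) : Matrix (Fin n) (Fin n) F) * (g : Matrix (Fin n) (Fin n) F) = 1 := by
      rw [← Units.val_mul, inv_mul_cancel, Units.val_one]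
    rw [inv_inv] at h1
    have e : ((g⁻¹ : GL (Fin n) F) : Matrix (Fin n) (Fin n) F) * ((g : Matrix (Fin n) (Fin n) F) * k * ((g⁻¹ : GL (Fin n) F) : Matrix (Fin n) (Fin n) F)) * (g : Matrix (Fin n) (Fin n) F) = k := by
      calc _ = (((g⁻¹ : GL (Fin n) F) : Matrix (Fin n) (Fin n) F) * (g : Matrix (Fin n) (Fin n) F)) * k * (((g⁻¹ : GL (Fin n) F) : Matrix (Fin n) (Fin n) F) * (g : Matrix (Fin n) (Fin n) F)) := by simp only [mul_assoc]
        _ = k := by rw [hGG', one_mul, mul_one]
    rwa [e] at h1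

/-- An element of the normaliser moving all vectors into a line is impossible in dimension above `2`. -/
theorem line_bound [Finite F] (w : Matrix (Fin n) (Fin n) F)
    (hw : w * θ = θ * w ∨ w * θ = (t • 1 - θ) * w) (v : Fin n → F)
    (hline : ∀ u : Fin n → F, ∃ a : F, (w - 1) *ᵥ u = a • v) (hne : w ≠ 1) : n ≤ 2 := by
  classical
  rcases hw with hw | hw
  · exfalso
    -- a witness
    obtain ⟨u₀, hu₀⟩ : ∃ u : Fin n → F, (w - 1) *ᵥ u ≠ 0 := by
      by_contra hcon
      push Not at hcon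
      apply hne
      have : w - 1 = 0 := by
        ext i j
        have := congrFun (hcon (Pi.single j 1)) i
        simpa using this
      exact sub_eq_zero.mp this
    obtain ⟨a₀, ha₀⟩ := hline u₀
    have ha₀0 : a₀ ≠ 0 := by
      rintro rfl
      rw [zero_smul] at ha₀
      exact hu₀ ha₀
    have hv0 : v ≠ 0 := by
      rintro rfl
      rw [smul_zero] at ha₀
      exact hu₀ ha₀
    obtain ⟨b, hb⟩ := hline (θ *ᵥ u₀)
    have hcomm : (w - 1) * θ = θ * (w - 1) := by
      rw [sub_mul, mul_sub, hw, one_mul, mul_one]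
    have h1 : θ *ᵥ ((w - 1) *ᵥ u₀) = b • v := by
      rw [← hb, Matrix.mulVec_mulVec, Matrix.mulVec_mulVec, hcomm]
    rw [ha₀, Matrix.mulVec_smul] at h1
    have h2 : (θ - (a₀⁻¹ * b) • 1) *ᵥ v = 0 := by
      rw [Matrix.sub_mulVec, Matrix.smul_mulVec, Matrix.one_mulVec]
      have : θ *ᵥ v = a₀⁻¹ • (a₀ • θ *ᵥ v) := by rw [smul_smul, inv_mul_cancel₀ ha₀0, one_smul]
      rw [this, h1, smul_smul, sub_self]
    have hne0 : θ - (a₀⁻¹ * b) • 1 ≠ 0 := fun h => hns _ (sub_eq_zero.mp h)
    obtain ⟨y, hy, hyy⟩ := hK.inv _ (K.sub_mem hθ (K.smul_mem K.one_mem _)) hne0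
    have hyy' : y * (θ - (a₀⁻¹ * b) • 1) = 1 := by
      rw [hK.comm y hy _ (K.sub_mem hθ (K.smul_mem K.one_mem _)), hyy]
    apply hv0
    calc v = (y * (θ - (a₀⁻¹ * b) • 1)) *ᵥ v := by rw [hyy', Matrix.one_mulVec]
      _ = 0 := by rw [← Matrix.mulVec_mulVec, h2, Matrix.mulVec_zero]
  · set τ : Matrix (Fin n) (Fin n) F := t • 1 - (2 : F) • θ with hτ
    have hτK : τ ∈ K := K.sub_mem (K.smul_mem K.one_mem t) (K.smul_mem hθ 2)
    have hτ0 : τ ≠ 0 := disc_ne hK hθ hq hns
    obtain ⟨y, hy, hyy⟩ := hK.inv _ hτK hτ0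
    have hyy' : y * τ = 1 := by rw [hK.comm y hy _ hτK, hyy]
    set θb : Matrix (Fin n) (Fin n) F := t • 1 - θ with hθb
    have hid : τ = (w - 1) * θ - θb * (w - 1) := by
      rw [sub_mul, mul_sub, hw, one_mul, mul_one, hτ, hθb, two_smul]
      abel
    have hspan : (⊤ : Submodule F (Fin n → F)) ≤ Submodule.span F ({y *ᵥ v, y *ᵥ (θb *ᵥ v)} : Set (Fin n → F)) := by
      intro u _
      obtain ⟨b, hb⟩ := hline (θ *ᵥ u)
      obtain ⟨a, ha⟩ := hline u
      have e1 : τ *ᵥ u = b • v - a • θb *ᵥ v := by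
        rw [hid, Matrix.sub_mulVec, ← Matrix.mulVec_mulVec, ← Matrix.mulVec_mulVec, hb, ha, Matrix.mulVec_smul]
      have e2 : u = b • (y *ᵥ v) - a • (y *ᵥ (θb *ᵥ v)) := by
        calc u = (y * τ) *ᵥ u := by rw [hyy', Matrix.one_mulVec]
          _ = y *ᵥ (τ *ᵥ u) := by rw [Matrix.mulVec_mulVec]
          _ = _ := by rw [e1, Matrix.mulVec_sub, Matrix.mulVec_smul, Matrix.mulVec_smul]
      rw [e2]
      exact Submodule.sub_mem _ (Submodule.smul_mem _ _ (Submodule.subset_span (by simp)))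
        (Submodule.smul_mem _ _ (Submodule.subset_span (by simp)))
    have h3 := Submodule.finrank_mono hspan
    rw [finrank_top, finrank_fin_fun] at h3
    have h4 := finrank_span_le_card (R := F) ({y *ᵥ v, y *ᵥ (θb *ᵥ v)} : Set (Fin n → F))
    have h5 : ({y *ᵥ v, y *ᵥ (θb *ᵥ v)} : Set (Fin n → F)).toFinset.card ≤ 2 := by
      rw [Set.toFinset_insert, Set.toFinset_singleton]
      exact Finset.card_le_two
    omega

end gen

/-- The companion matrix of the polynomial of a generator. -/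
def compQ (t d : F) : Matrix (Fin 2) (Fin 2) F := !![0, -d; 1, t]

/-- The involution conjugating the companion matrix to its conjugate. -/
def semQ (t : F) : Matrix (Fin 2) (Fin 2) F := !![1, t; 0, -1]

theorem compQ_sq (t d : F) : compQ t d * compQ t d = t • compQ t d - d • 1 := by
  ext i j
  fin_cases i <;> fin_cases j <;> simp [compQ, Matrix.mul_apply, Fin.sum_univ_two] <;> ring

theorem semQ_sq (t : F) : semQ t * semQ t = 1 := by
  ext i j
  fin_cases i <;> fin_cases j <;> simp [semQ, Matrix.mul_apply, Fin.sum_univ_two]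

theorem semQ_det (t : F) : (semQ t).det = -1 := by
  simp [semQ, Matrix.det_fin_two]

theorem semQ_comp (t d : F) : semQ t * compQ t d = (t • 1 - compQ t d) * semQ t := by
  ext i j
  fin_cases i <;> fin_cases j <;> simp [semQ, compQ, Matrix.mul_apply, Fin.sum_univ_two] <;> ring

/-- The equivalence of `Fin (2 * m)` with a product recording `i / 2`. -/
def prodEquiv (m : ℕ) {n : ℕ} (hn : n = 2 * m) : Fin n ≃ Fin 2 × Fin m :=
  (finCongr (by rw [hn, mul_comm])).trans (finProdFinEquiv.symm.trans (Equiv.prodComm (Fin m) (Fin 2)))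

theorem prodEquiv_snd (m : ℕ) {n : ℕ} (hn : n = 2 * m) (i : Fin n) : (((prodEquiv m hn) i).2 : ℕ) = (i : ℕ) / 2 := by
  simp [prodEquiv, finProdFinEquiv]

/-- A diagonal model commutes with the tensor model. -/
theorem diag_comm_kron {m : ℕ} (hn : n = 2 * m) (j : ℕ) (C : Matrix (Fin 2) (Fin 2) F) :
    diagModel n (2 * j) F * kronModel C (prodEquiv m hn) = kronModel C (prodEquiv m hn) * diagModel n (2 * j) F := by
  classical
  ext a b
  rw [diagModel, Matrix.diagonal_mul, Matrix.mul_diagonal]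
  by_cases hab : ((prodEquiv m hn) a).2 = ((prodEquiv m hn) b).2
  · have h1 : ((a : ℕ) < 2 * j) ↔ ((b : ℕ) < 2 * j) := by
      have h3 := congrArg (fun x : Fin m => (x : ℕ)) hab
      simp only [prodEquiv_snd] at h3
      omega
    by_cases h : (a : ℕ) < 2 * j
    · rw [if_pos h, if_pos (h1.mp h)]; ring
    · rw [if_neg h, if_neg (fun h' => h (h1.mpr h'))]; ring
  · have : kronModel C (prodEquiv m hn) a b = 0 := by
      simp [kronModel, Matrix.kroneckerMap_apply, Matrix.one_apply_ne hab]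
    rw [this]
    ring

section model

variable (hK : IsFieldSubalgebra 2 K) {θ : Matrix (Fin n) (Fin n) F} (hθ : θ ∈ K) {t d : F} (hq : θ * θ = t • θ - d • 1)
  (hns : ∀ c : F, θ ≠ c • 1)

include hK hθ hq hns

/-- The dimension is even. -/
theorem exists_half : ∃ m, n = 2 * m := by
  have := natDegree_dvd_finrank (irr hK hθ hq hns) (Matrix.toLinAlgEquiv' θ) (by
    have hconv : ∀ (p : F[X]), aeval (Matrix.toLinAlgEquiv' θ) p = Matrix.toLin' (aeval θ p) := by
      intro p
      exact aeval_algHom_apply (Matrix.toLinAlgEquiv' (R := F) (n := Fin n)) θ p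
    rw [hconv, aeval_gen hK hθ hq hns, map_zero])
  have hdeg : (X ^ 2 - C t * X + C d : F[X]).natDegree = 2 := by
    have : (X ^ 2 - C t * X + C d : F[X]) = C (1 : F) * X ^ 2 + C (-t) * X + C d := by
      simp only [C_neg, C_1]; ring
    rw [this]
    exact natDegree_quadratic one_ne_zero
  rw [hdeg, finrank_fin_fun] at this
  exact this

/-- A change of basis to the tensor model of the generator. -/
theorem exists_model {m : ℕ} (hn : n = 2 * m) :
    ∃ Q : Matrix (Fin n) (Fin n) F, Q.det ≠ 0 ∧ θ * Q = Q * kronModel (compQ t d) (prodEquiv m hn) := by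
  classical
  have hz : aeval (kronModel (compQ t d) (prodEquiv m hn)) (X ^ 2 - C t * X + C d : F[X]) = 0 := by
    simp only [map_add, map_sub, map_mul, map_pow, aeval_X, aeval_C, Algebra.algebraMap_eq_smul_one, pow_two]
    rw [kronModel_mul, compQ_sq]
    have e1 : kronModel (t • compQ t d - d • 1) (prodEquiv m hn) = t • kronModel (compQ t d) (prodEquiv m hn) - d • 1 := by
      have e2 : ∀ C D : Matrix (Fin 2) (Fin 2) F, kronModel (C - D) (prodEquiv m hn) = kronModel C (prodEquiv m hn) - kronModel D (prodEquiv m hn) := by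
        intro C D
        ext a b
        simp [kronModel, Matrix.kroneckerMap_apply, sub_mul]
      have e3 : ∀ (c : F) (C : Matrix (Fin 2) (Fin 2) F), kronModel (c • C) (prodEquiv m hn) = c • kronModel C (prodEquiv m hn) := by
        intro c C
        ext a b
        simp [kronModel, Matrix.kroneckerMap_apply, mul_assoc]
      have h1 : kronModel (1 : Matrix (Fin 2) (Fin 2) F) (prodEquiv m hn) = 1 := by
        simpa using kronModel_smul_one (1 : F) (prodEquiv m hn)
      rw [e2, e3, e3, h1]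
    rw [e1]
    simp
  have hθz := aeval_gen hK hθ hq hns
  apply exists_conj_matrix ({X ^ 2 - C t * X + C d} : Finset F[X]) _ _ θ _ (by simpa using hθz) (by simpa using hz)
  · intro f hf
    rw [Finset.mem_singleton.mp hf, hθz, hz]
  · intro f hf
    rw [Finset.mem_singleton.mp hf]
    exact irr hK hθ hq hns
  · intro f hf g hg hfg
    rw [Finset.mem_singleton.mp hf, Finset.mem_singleton.mp hg] at hfg
    exact absurd rfl hfg

end model

/-- Conjugation preserves the dimension of a kernel. -/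
theorem finrank_ker_conj (Q Q' X : Matrix (Fin n) (Fin n) F) (h1 : Q * Q' = 1) (h2 : Q' * Q = 1) :
    finrank F (LinearMap.ker (Matrix.toLin' (Q * X * Q'))) = finrank F (LinearMap.ker (Matrix.toLin' X)) := by
  classical
  let e : LinearMap.ker (Matrix.toLin' (Q * X * Q')) ≃ₗ[F] LinearMap.ker (Matrix.toLin' X) :=
    { toFun := fun v => ⟨Q' *ᵥ (v : Fin n → F), by
        have hv := v.2
        rw [LinearMap.mem_ker, Matrix.toLin'_apply] at hv ⊢
        have h3 := congrArg (fun w => Q' *ᵥ w) hv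
        simp only [Matrix.mulVec_mulVec, Matrix.mulVec_zero] at h3
        rwa [show Q' * (Q * X * Q') = X * Q' by
          calc Q' * (Q * X * Q') = (Q' * Q) * X * Q' := by simp only [mul_assoc]
            _ = _ := by rw [h2, one_mul], ← Matrix.mulVec_mulVec] at h3⟩
      map_add' := fun a b => by ext; simp [Matrix.mulVec_add]
      map_smul' := fun c a => by ext; simp [Matrix.mulVec_smul]
      invFun := fun v => ⟨Q *ᵥ (v : Fin n → F), by
        have hv := v.2
        rw [LinearMap.mem_ker, Matrix.toLin'_apply] at hv ⊢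
        rw [Matrix.mulVec_mulVec, show Q * X * Q' * Q = Q * X by rw [mul_assoc, h2, mul_one], ← Matrix.mulVec_mulVec, hv, Matrix.mulVec_zero]⟩
      left_inv := fun v => by ext1; simp [Matrix.mulVec_mulVec, h1]
      right_inv := fun v => by ext1; simp [Matrix.mulVec_mulVec, h2] }
  exact e.finrank_eq

/-- Matrices of square zero and equal rank are conjugate in `SL_n` when every element is a square. -/
theorem sl_conj_sq_zero [Finite F] (hsq : ∀ u : F, IsSquare u) (N N' : Matrix (Fin n) (Fin n) F)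
    (hN : N * N = 0) (hN' : N' * N' = 0) (hne : N ≠ 0)
    (hr : finrank F (LinearMap.range (Matrix.toLin' N)) = finrank F (LinearMap.range (Matrix.toLin' N'))) :
    ∃ P : Matrix (Fin n) (Fin n) F, P.det = 1 ∧ N * P = P * N' := by
  classical
  have hNp : N ^ 2 = 0 := by rw [pow_two, hN]
  have hL2 : (Matrix.toLin' N) ^ (1 + 1) = 0 := by
    rw [← Matrix.toLin'_pow, hNp, map_zero]
  have hL1 : (Matrix.toLin' N) ^ 1 ≠ 0 := by
    rw [pow_one]
    intro h
    apply hne
    exact (Matrix.toLin' (R := F) (m := Fin n) (n := Fin n)).injective (by rw [h, map_zero])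
  have hNl : (Matrix.toLin' N : Module.End F (Fin n → F)) * Matrix.toLin' N = 0 := by
    have : (Matrix.toLin' N : Module.End F (Fin n → F)) ^ 2 = 0 := hL2
    rwa [pow_two] at this
  have hNl' : (Matrix.toLin' N' : Module.End F (Fin n → F)) * Matrix.toLin' N' = 0 := by
    have h3 : Matrix.toLin' (N' * N') = 0 := by rw [hN', map_zero]
    rwa [Matrix.toLin'_mul] at h3
  obtain ⟨Q, hQ⟩ := Cfsg.Agent.Lib.ClassMax.EluSymp.conj_sq_zero (Matrix.toLin' N) (Matrix.toLin' N') hNl hNl' hr
  set P₀ : Matrix (Fin n) (Fin n) F := LinearMap.toMatrix' (Q.symm : (Fin n → F) →ₗ[F] (Fin n → F)) with hP₀d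
  have hNP : N * P₀ = P₀ * N' := by
    apply (Matrix.toLin' (R := F) (m := Fin n) (n := Fin n)).injective
    rw [Matrix.toLin'_mul, Matrix.toLin'_mul, hP₀d, Matrix.toLin'_toMatrix']
    apply LinearMap.ext
    intro v
    have h3 := hQ (Q.symm v)
    rw [LinearEquiv.apply_symm_apply] at h3
    show Matrix.toLin' N (Q.symm v) = Q.symm (Matrix.toLin' N' v)
    rw [← h3, LinearEquiv.symm_apply_apply]
  have hP₀ : P₀.det ≠ 0 := by
    rw [hP₀d, LinearMap.det_toMatrix']
    exact (LinearEquiv.isUnit_det' Q.symm).ne_zero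
  obtain ⟨a, ha⟩ := hsq (P₀.det)⁻¹
  obtain ⟨c₁, hc₁, hdc⟩ := Cfsg.Agent.Lib.ClassMax.EluNil.exists_comm_det_block (Matrix.toLin' N) hL2 hL1 a
  set C' : Matrix (Fin n) (Fin n) F := LinearMap.toMatrix' c₁ with hC
  have hCN : C' * N = N * C' := by
    apply (Matrix.toLin' (R := F) (m := Fin n) (n := Fin n)).injective
    rw [Matrix.toLin'_mul, Matrix.toLin'_mul, hC, Matrix.toLin'_toMatrix']
    apply LinearMap.ext
    intro v
    exact hc₁ v
  refine ⟨C' * P₀, ?_, ?_⟩
  · rw [Matrix.det_mul, hC, LinearMap.det_toMatrix', hdc, pow_two, ← ha, inv_mul_cancel₀ hP₀]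
  · rw [← mul_assoc, ← hCN, mul_assoc, hNP, mul_assoc]

/-- A square root of a non-square inside the field subalgebra. -/
theorem exists_sqrt [Fintype F] (hc2 : ringChar F ≠ 2) (hK : IsFieldSubalgebra 2 K) {θ : Matrix (Fin n) (Fin n) F} (hθ : θ ∈ K)
    {t d : F} (hq : θ * θ = t • θ - d • 1) (hns : ∀ c : F, θ ≠ c • 1) {z : F} (hz : ∀ c : F, c * c ≠ z) :
    ∃ w ∈ K, w * w = z • 1 := by
  classical
  have h2 : (2 : F) ≠ 0 := Ring.two_ne_zero hc2
  set δ : F := t * t / 4 - d with hδ
  have h4 : (4 : F) ≠ 0 := by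
    have : (4 : F) = 2 * 2 := by norm_num
    rw [this]
    exact mul_ne_zero h2 h2
  set η : Matrix (Fin n) (Fin n) F := θ - (t / 2) • 1 with hη
  have hηK : η ∈ K := K.sub_mem hθ (K.smul_mem K.one_mem _)
  have hηη : η * η = δ • 1 := by
    rw [hη]
    simp only [sub_mul, mul_sub, Matrix.smul_mul, Matrix.mul_smul, one_mul, mul_one, hq, smul_smul]
    have e : t • θ = (t / 2) • θ + (t / 2) • θ := by
      rw [← add_smul]
      congr 1
      field_simp
      ring
    rw [e, hδ, sub_smul]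
    have e2 : (t * t / 4) = (t / 2 * (t / 2)) := by
      field_simp
      norm_num
    rw [e2]
    abel
  have hδns : ∀ b : F, b * b ≠ δ := by
    intro b hb
    apply no_root hK hθ hq hns (t / 2 + b)
    rw [hδ] at hb
    field_simp
    field_simp at hb
    linear_combination hb
  have hδ0 : δ ≠ 0 := by
    intro h
    apply hδns 0
    rw [h]; ring
  have hz0 : z ≠ 0 := by
    rintro rfl
    exact hz 0 (by ring)
  have hp : ∀ u : F, u ≠ 0 → (∀ b : F, b * b ≠ u) → u ^ (Fintype.card F / 2) = -1 := by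
    intro u hu hb
    rcases FiniteField.pow_dichotomy hc2 hu with h | h
    · exfalso
      obtain ⟨b, hb'⟩ := (FiniteField.isSquare_iff hc2 hu).mpr h
      exact hb b hb'.symm
    · exact h
  have hratio : IsSquare (z / δ) := by
    rw [FiniteField.isSquare_iff hc2 (div_ne_zero hz0 hδ0), div_pow, hp z hz0 hz, hp δ hδ0 hδns]
    exact div_self (neg_ne_zero.mpr one_ne_zero)
  obtain ⟨b, hb⟩ := hratio
  refine ⟨b • η, K.smul_mem hηK b, ?_⟩
  rw [Matrix.smul_mul, Matrix.mul_smul, hηη, smul_smul, smul_smul]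
  congr 1
  rw [← hb]
  field_simp

end Cfsg.Agent.Lib.ClassMax.EluQuad
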