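import Mathlib
import Cfsg.Prelude.Def_GeometricClasses
import Cfsg.Agent.Lib.ClassMax.EluQuad

/-!
Field subalgebras of prime degree `n` in `n × n` matrices: the vector space is one-dimensional over the field, elements of
the normaliser with a large eigenspace are trivial, and a Frobenius element.
-/

set_option autoImplicit false
set_option linter.unusedSimpArgs false
set_option linter.unusedVariables false
set_option linter.unusedSectionVars false

namespace Cfsg.Agent.Lib.ClassMax.EluSinger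

open Module Polynomial Cfsg.Geo
open scoped Matrix

variable {F : Type*} [Field F] {n : ℕ} {K : Subalgebra F (Matrix (Fin n) (Fin n) F)}

/-- An element of the field killing a non-zero vector is zero. -/
theorem eq_zero_of_mulVec {k r : ℕ} {K : Subalgebra F (Matrix (Fin n) (Fin n) F)} (hK : IsFieldSubalgebra r K) {a : Matrix (Fin n) (Fin n) F} (ha : a ∈ K) {v : Fin n → F} (hv : v ≠ 0)
    (h : a *ᵥ v = 0) : a = 0 := by
  by_contra h0
  obtain ⟨y, hy, hay⟩ := hK.inv a ha h0
  have h1 : y * a = 1 := by rw [hK.comm y hy a ha, hay]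
  apply hv
  calc v = (y * a) *ᵥ v := by rw [h1, Matrix.one_mulVec]
    _ = 0 := by rw [← Matrix.mulVec_mulVec, h, Matrix.mulVec_zero]

/-- The linear map sending an element of the field to its value at a vector. -/
def evalAt (K : Subalgebra F (Matrix (Fin n) (Fin n) F)) (v : Fin n → F) : K →ₗ[F] (Fin n → F) where
  toFun a := (a : Matrix (Fin n) (Fin n) F) *ᵥ v
  map_add' a b := Matrix.add_mulVec _ _ _
  map_smul' c a := Matrix.smul_mulVec c _ v

theorem evalAt_injective {r : ℕ} (hK : IsFieldSubalgebra r K) {v : Fin n → F} (hv : v ≠ 0) : Function.Injective (evalAt K v) := by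
  rw [injective_iff_map_eq_zero]
  intro a ha
  apply Subtype.ext
  exact eq_zero_of_mulVec (k := 0) hK a.2 hv ha

theorem evalAt_bijective (hK : IsFieldSubalgebra n K) {v : Fin n → F} (hv : v ≠ 0) : Function.Bijective (evalAt K v) := by
  refine ⟨evalAt_injective hK hv, ?_⟩
  apply (LinearMap.injective_iff_surjective_of_finrank_eq_finrank (by rw [hK.finrank_eq, finrank_fin_fun])).mp
  exact evalAt_injective hK hv

/-- The vector space is one-dimensional over the field. -/
theorem exists_mul_eq (hK : IsFieldSubalgebra n K) {v : Fin n → F} (hv : v ≠ 0) (u : Fin n → F) :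
    ∃ a ∈ K, a *ᵥ v = u := by
  obtain ⟨a, ha⟩ := (evalAt_bijective hK hv).2 u
  exact ⟨a, a.2, ha⟩

/-- The dimension of a field acting on a vector space divides the dimension of this space. -/
theorem finrank_dvd_of_hom {V E : Type*} [AddCommGroup V] [Module F V] [FiniteDimensional F V] [Field E] [Algebra F E]
    (ρ : E →ₐ[F] Module.End F V) : finrank F E ∣ finrank F V := by
  letI mC : Module E V := Module.compHom V ρ.toRingHom
  have hsm : ∀ (c : E) (v : V), c • v = ρ c v := fun c v => rfl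
  haveI : IsScalarTower F E V := ⟨by
    intro c a v
    rw [hsm, hsm, map_smul]
    rfl⟩
  haveI : Module.Finite E V := Module.Finite.of_restrictScalars_finite F E V
  have h := Module.finrank_mul_finrank F E V
  exact ⟨_, h.symm⟩

/-- The dimension of a field inside the matrices divides the size of the matrices. -/
theorem finrank_dvd {C : Subalgebra F (Matrix (Fin n) (Fin n) F)}
    (hcomm : ∀ x ∈ C, ∀ y ∈ C, x * y = y * x) (hinv : ∀ x ∈ C, x ≠ 0 → ∃ y ∈ C, x * y = 1) (hn : 0 < n) :
    finrank F C ∣ n := by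
  classical
  haveI : Nonempty (Fin n) := ⟨⟨0, hn⟩⟩
  letI fC : Field C := IsField.toField
    { exists_pair_ne := ⟨0, 1, fun h => zero_ne_one (congrArg Subtype.val h)⟩
      mul_comm := fun a b => Subtype.ext (hcomm _ a.2 _ b.2)
      mul_inv_cancel := by
        intro a ha
        obtain ⟨y, hy, hay⟩ := hinv a.1 a.2 (fun h => ha (Subtype.ext h))
        exact ⟨⟨y, hy⟩, Subtype.ext hay⟩ }
  let ρ : C →ₐ[F] Module.End F (Fin n → F) :=
    { toFun := fun k => Matrix.mulVecLin k.1
      map_one' := Matrix.mulVecLin_one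
      map_mul' := fun a b => Matrix.mulVecLin_mul _ _
      map_zero' := by
        ext v : 1
        simp
      map_add' := fun a b => Matrix.mulVecLin_add _ _
      commutes' := fun c => by
        apply LinearMap.ext
        intro v
        show (algebraMap F (Matrix (Fin n) (Fin n) F) c) *ᵥ v = c • v
        rw [Algebra.algebraMap_eq_smul_one, Matrix.smul_mulVec, Matrix.one_mulVec] }
  have h := finrank_dvd_of_hom ρ
  rwa [finrank_fin_fun] at h

/-- Elements of the normaliser with an eigenspace of dimension at least two are trivial. -/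
theorem eq_one_of_fixed (hp : n.Prime) (hK : IsFieldSubalgebra n K) (g : GL (Fin n) F) (hg : g ∈ subalgebraNormalizer K)
    (hfix : 2 ≤ finrank F (LinearMap.ker (Matrix.toLin' ((g : Matrix (Fin n) (Fin n) F) - 1)))) :
    (g : Matrix (Fin n) (Fin n) F) = 1 := by
  classical
  set G : Matrix (Fin n) (Fin n) F := (g : Matrix (Fin n) (Fin n) F) with hG
  set G' : Matrix (Fin n) (Fin n) F := ((g⁻¹ : GL (Fin n) F) : Matrix (Fin n) (Fin n) F) with hG'
  have hGG : G * G' = 1 := by rw [hG, hG', ← Units.val_mul, mul_inv_cancel, Units.val_one]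
  have hGG' : G' * G = 1 := by rw [hG, hG', ← Units.val_mul, inv_mul_cancel, Units.val_one]
  have hn0 : 0 < n := hp.pos
  set W := LinearMap.ker (Matrix.toLin' (G - 1)) with hW
  have hWmem : ∀ w, w ∈ W ↔ G *ᵥ w = w := by
    intro w
    rw [hW, LinearMap.mem_ker, Matrix.toLin'_apply, Matrix.sub_mulVec, Matrix.one_mulVec, sub_eq_zero]
  -- two independent fixed vectors
  have hWbot : W ≠ ⊥ := by
    intro h
    rw [h, finrank_bot] at hfix
    omega
  obtain ⟨v, hvW, hv0⟩ := (Submodule.ne_bot_iff W).mp hWbot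
  obtain ⟨u, huW, hu⟩ : ∃ u ∈ W, u ∉ Submodule.span F {v} := by
    by_contra hcon
    push Not at hcon
    have hle : W ≤ Submodule.span F {v} := hcon
    have h1 := Submodule.finrank_mono hle
    have h2 := finrank_span_le_card (R := F) ({v} : Set (Fin n → F))
    simp at h2
    omega
  obtain ⟨a, haK, hav⟩ := exists_mul_eq hK hv0 u
  have hans : ∀ c : F, a ≠ c • 1 := by
    rintro c rfl
    apply hu
    rw [← hav, Matrix.smul_mulVec, Matrix.one_mulVec]
    exact Submodule.smul_mem _ _ (Submodule.mem_span_singleton_self v)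
  have hG'v : G' *ᵥ v = v := by
    calc G' *ᵥ v = G' *ᵥ (G *ᵥ v) := by rw [(hWmem v).mp hvW]
      _ = v := by rw [Matrix.mulVec_mulVec, hGG', Matrix.one_mulVec]
  have ha' : G * a * G' ∈ K := (hg a).mp haK
  have haa : G * a * G' = a := by
    have h0 : (G * a * G' - a) *ᵥ v = 0 := by
      rw [Matrix.sub_mulVec, ← Matrix.mulVec_mulVec, hG'v, ← Matrix.mulVec_mulVec, hav, (hWmem u).mp huW, sub_self]
    exact sub_eq_zero.mp (eq_zero_of_mulVec (k := 0) hK (K.sub_mem ha' haK) hv0 h0)
  have hGa : G * a = a * G := by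
    calc G * a = G * a * (G' * G) := by rw [hGG', mul_one]
      _ = (G * a * G') * G := by simp only [mul_assoc]
      _ = a * G := by rw [haa]
  -- the centraliser in the field
  let C : Subalgebra F (Matrix (Fin n) (Fin n) F) :=
    { carrier := {k | k ∈ K ∧ G * k = k * G}
      mul_mem' := by
        rintro x y ⟨hx, hx'⟩ ⟨hy, hy'⟩
        refine ⟨K.mul_mem hx hy, ?_⟩
        rw [← mul_assoc, hx', mul_assoc, hy', mul_assoc]
      add_mem' := by
        rintro x y ⟨hx, hx'⟩ ⟨hy, hy'⟩
        refine ⟨K.add_mem hx hy, ?_⟩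
        rw [mul_add, add_mul, hx', hy']
      algebraMap_mem' := by
        intro c
        refine ⟨K.algebraMap_mem c, ?_⟩
        rw [Algebra.algebraMap_eq_smul_one, Matrix.mul_smul, Matrix.smul_mul, mul_one, one_mul] }
  have hCmem : ∀ k, k ∈ C ↔ k ∈ K ∧ G * k = k * G := fun k => Iff.rfl
  have hCcomm : ∀ x ∈ C, ∀ y ∈ C, x * y = y * x := fun x hx y hy => hK.comm x hx.1 y hy.1
  have hCinv : ∀ x ∈ C, x ≠ 0 → ∃ y ∈ C, x * y = 1 := by
    rintro x ⟨hx, hx'⟩ h0
    obtain ⟨y, hy, hxy⟩ := hK.inv x hx h0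
    have hyx : y * x = 1 := by rw [hK.comm y hy x hx, hxy]
    refine ⟨y, ⟨hy, ?_⟩, hxy⟩
    calc G * y = (y * x) * G * y := by rw [hyx, one_mul]
      _ = y * (x * G) * y := by simp only [mul_assoc]
      _ = y * (G * x) * y := by rw [hx']
      _ = y * G * (x * y) := by simp only [mul_assoc]
      _ = y * G := by rw [hxy, mul_one]
  have hdvd := finrank_dvd hCcomm hCinv hn0
  have hCfull : finrank F C = n := by
    rcases (Nat.dvd_prime hp).mp hdvd with h1 | h1
    · exfalso
      have hone : (⟨1, C.one_mem⟩ : C) ≠ 0 := by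
        intro h
        have h2 : (1 : Matrix (Fin n) (Fin n) F) = 0 := congrArg Subtype.val h
        haveI : Nonempty (Fin n) := ⟨⟨0, hn0⟩⟩
        exact one_ne_zero h2
      obtain ⟨c, hc⟩ := (finrank_eq_one_iff_of_nonzero' _ hone).mp h1 ⟨a, haK, hGa⟩
      apply hans c
      have := congrArg Subtype.val hc
      exact this.symm
    · exact h1
  have hCK : C.toSubmodule = K.toSubmodule :=
    Submodule.eq_of_le_of_finrank_eq (fun k hk => hk.1) (by
      show finrank F C = finrank F K
      rw [hCfull, hK.finrank_eq])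
  have hall : ∀ k ∈ K, G * k = k * G := by
    intro k hk
    have : k ∈ C.toSubmodule := by rw [hCK]; exact hk
    exact this.2
  apply Matrix.mulVec_injective
  ext w
  obtain ⟨b, hb, hbv⟩ := exists_mul_eq hK hv0 w
  rw [← hbv, Matrix.mulVec_mulVec, hall b hb, ← Matrix.mulVec_mulVec, (hWmem v).mp hvW, Matrix.one_mulVec]

/-- A Frobenius element in the normaliser. -/
theorem exists_frob [Fintype F] (hK : IsFieldSubalgebra n K) (hn : 2 ≤ n) :
    ∃ S S' : Matrix (Fin n) (Fin n) F, S * S' = 1 ∧ S' * S = 1 ∧ (∀ l ∈ K, S * l = l ^ Fintype.card F * S) ∧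
      (∀ y ∈ K, ∃ l ∈ K, l ^ Fintype.card F = y) ∧ S ≠ 1 ∧ S ^ n = 1 ∧ ∃ v₀ : Fin n → F, v₀ ≠ 0 ∧ S *ᵥ v₀ = v₀ := by
  classical
  have hn0 : 0 < n := by omega
  haveI : Nonempty (Fin n) := ⟨⟨0, hn0⟩⟩
  letI fK : Field K := IsField.toField
    { exists_pair_ne := ⟨0, 1, fun h => zero_ne_one (congrArg Subtype.val h)⟩
      mul_comm := fun a b => Subtype.ext (hK.comm _ a.2 _ b.2)
      mul_inv_cancel := by
        intro a ha
        obtain ⟨y, hy, hay⟩ := hK.inv a.1 a.2 (fun h => ha (Subtype.ext h))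
        exact ⟨⟨y, hy⟩, Subtype.ext hay⟩ }
  haveI : Finite K := inferInstance
  let φ : K →ₐ[F] K := FiniteField.frobeniusAlgHom F K
  have hφ : ∀ l : K, φ l = l ^ Fintype.card F := fun l => rfl
  have hord : orderOf φ = n := by
    rw [FiniteField.orderOf_frobeniusAlgHom]
    exact hK.finrank_eq
  have hφinj : Function.Injective φ := φ.toRingHom.injective
  have hφbij : Function.Bijective φ := ⟨hφinj, Finite.injective_iff_surjective.mp hφinj⟩
  let i₀ : Fin n := ⟨0, hn0⟩
  set v₀ : Fin n → F := Pi.single i₀ 1 with hv₀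
  have hv₀0 : v₀ ≠ 0 := by
    intro h
    have := congrFun h i₀
    simp [hv₀] at this
  let Ψ : K ≃ₗ[F] (Fin n → F) := LinearEquiv.ofBijective (evalAt K v₀) (evalAt_bijective hK hv₀0)
  have hΨ : ∀ l : K, Ψ l = (l : Matrix (Fin n) (Fin n) F) *ᵥ v₀ := fun l => rfl
  let φe : K ≃ₐ[F] K := AlgEquiv.ofBijective φ hφbij
  let σ : (Fin n → F) →ₗ[F] (Fin n → F) := (Ψ : K →ₗ[F] (Fin n → F)) ∘ₗ φ.toLinearMap ∘ₗ (Ψ.symm : (Fin n → F) →ₗ[F] K)
  let σ' : (Fin n → F) →ₗ[F] (Fin n → F) := (Ψ : K →ₗ[F] (Fin n → F)) ∘ₗ φe.symm.toLinearMap ∘ₗ (Ψ.symm : (Fin n → F) →ₗ[F] K)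
  set S : Matrix (Fin n) (Fin n) F := LinearMap.toMatrix' σ with hS
  set S' : Matrix (Fin n) (Fin n) F := LinearMap.toMatrix' σ' with hS'
  have hSv : ∀ l : K, S *ᵥ Ψ l = Ψ (φ l) := by
    intro l
    rw [hS, LinearMap.toMatrix'_mulVec]
    simp [σ]
  have hS'v : ∀ l : K, S' *ᵥ Ψ l = Ψ (φe.symm l) := by
    intro l
    rw [hS', LinearMap.toMatrix'_mulVec]
    simp [σ']
  have hext : ∀ A B : Matrix (Fin n) (Fin n) F, (∀ l : K, A *ᵥ Ψ l = B *ᵥ Ψ l) → A = B := by
    intro A B h
    apply Matrix.mulVec_injective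
    ext w
    obtain ⟨l, rfl⟩ := Ψ.surjective w
    rw [h l]
  refine ⟨S, S', ?_, ?_, ?_, ?_, ?_, ?_, v₀, hv₀0, ?_⟩
  · apply hext
    intro l
    rw [← Matrix.mulVec_mulVec, hS'v, hSv, Matrix.one_mulVec]
    congr 1
    exact φe.apply_symm_apply l
  · apply hext
    intro l
    rw [← Matrix.mulVec_mulVec, hSv, hS'v, Matrix.one_mulVec]
    congr 1
    exact φe.symm_apply_apply l
  · intro l hl
    apply hext
    intro m
    have hmul : ∀ x y : K, (x : Matrix (Fin n) (Fin n) F) *ᵥ Ψ y = Ψ (x * y) := by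
      intro x y
      rw [hΨ, hΨ, Matrix.mulVec_mulVec]
      rfl
    have hl' : l = ((⟨l, hl⟩ : K) : Matrix (Fin n) (Fin n) F) := rfl
    rw [← Matrix.mulVec_mulVec, ← Matrix.mulVec_mulVec, hSv]
    rw [hl', hmul, hSv, map_mul]
    have hpow : (((⟨l, hl⟩ : K) : Matrix (Fin n) (Fin n) F)) ^ Fintype.card F = ((φ ⟨l, hl⟩ : K) : Matrix (Fin n) (Fin n) F) := by
      rw [hφ]
      rfl
    rw [hpow, hmul]
  · intro y hy
    obtain ⟨l, hl⟩ := hφbij.2 ⟨y, hy⟩
    refine ⟨l, l.2, ?_⟩
    have := congrArg Subtype.val hl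
    exact this
  · intro h1
    have hφ1 : φ ≠ 1 := by
      intro h
      rw [h, orderOf_one] at hord
      omega
    apply hφ1
    ext l
    have h2 := hSv l
    rw [h1, Matrix.one_mulVec] at h2
    have h3 := Ψ.injective h2
    rw [← h3]
    rfl
  · apply hext
    intro l
    have hpow : ∀ j : ℕ, ∀ m : K, S ^ j *ᵥ Ψ m = Ψ ((φ ^ j) m) := by
      intro j
      induction j with
      | zero => intro m; simp
      | succ j ih =>
        intro m
        rw [pow_succ, ← Matrix.mulVec_mulVec, hSv, ih, pow_succ]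
        rfl
    have hφn : φ ^ n = 1 := by
      have h9 := pow_orderOf_eq_one φ
      rwa [hord] at h9
    rw [hpow n l, hφn, Matrix.one_mulVec]
    rfl
  · have h1 : v₀ = Ψ 1 := by
      rw [hΨ]
      simp
    rw [h1, hSv, map_one]

/-- Membership in the normaliser of scalar multiples of a Frobenius element. -/
theorem mem_norm_frob [Fintype F] {S : Matrix (Fin n) (Fin n) F} (hS : ∀ l ∈ K, S * l = l ^ Fintype.card F * S)
    (hsurj : ∀ y ∈ K, ∃ l ∈ K, l ^ Fintype.card F = y) (g : GL (Fin n) F) {β : F} (hg : (g : Matrix (Fin n) (Fin n) F) = β • S) :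
    g ∈ subalgebraNormalizer K := by
  set G : Matrix (Fin n) (Fin n) F := (g : Matrix (Fin n) (Fin n) F) with hG
  set G' : Matrix (Fin n) (Fin n) F := ((g⁻¹ : GL (Fin n) F) : Matrix (Fin n) (Fin n) F) with hG'
  have hGG : G * G' = 1 := by rw [hG, hG', ← Units.val_mul, mul_inv_cancel, Units.val_one]
  have hGG' : G' * G = 1 := by rw [hG, hG', ← Units.val_mul, inv_mul_cancel, Units.val_one]
  have hGl : ∀ l ∈ K, G * l * G' = l ^ Fintype.card F := by
    intro l hl
    have h1 : G * l = l ^ Fintype.card F * G := by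
      rw [hg, Matrix.smul_mul, hS l hl, Matrix.mul_smul]
    rw [h1, mul_assoc, hGG, mul_one]
  intro k
  constructor
  · intro hk
    rw [hGl k hk]
    exact K.pow_mem hk _
  · intro hk
    obtain ⟨l, hl, hly⟩ := hsurj _ hk
    have h1 := hGl l hl
    rw [hly] at h1
    have h2 : l = k := by
      calc l = G' * (G * l * G') * G := by
            simp only [mul_assoc]
            rw [hGG', mul_one]
            rw [← mul_assoc, hGG', one_mul]
        _ = G' * (G * k * G') * G := by rw [h1]
        _ = k := by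
            simp only [mul_assoc]
            rw [hGG', mul_one]
            rw [← mul_assoc, hGG', one_mul]
    rw [← h2]
    exact hl

end Cfsg.Agent.Lib.ClassMax.EluSinger
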