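import Mathlib
import Cfsg.Agent.Lib.ClassMax.Asch19
import Cfsg.Agent.Lib.ClassMax.EluSinger
import Cfsg.Agent.Lib.ClassMax.SubfieldCore

/-!
Degree three over the field with four elements: the normaliser of the field inside `SL_3(4)` lies in a subfield group.
-/

set_option autoImplicit false
set_option linter.unusedSimpArgs false
set_option linter.unusedVariables false
set_option linter.unusedSectionVars false
set_option linter.unusedFintypeInType false
set_option linter.unusedDecidableInType false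

namespace Cfsg.Agent.Lib.ClassMax.Asch

open Module Matrix Cfsg.Geo Cfsg.Agent.Lib.ClassMax

section fieldlemmas

variable {L : Type*} [Field L]

theorem pow8_of_root (h2 : (2 : L) = 0) {T : L} (hT : T ^ 3 + T + 1 = 0) : T ^ 8 = T := by
  linear_combination (2 + T - T ^ 2 - T ^ 3 + T ^ 5) * hT + (-1 - 2 * T) * h2

theorem eight_cases (h2 : (2 : L) = 0) {T x : L} (hT : T ^ 3 + T + 1 = 0) (hx : x ^ 8 = x) :
    x = 0 ∨ x = 1 ∨ x = T ∨ x = T ^ 2 ∨ x = T ^ 2 + T ∨ x = T + 1 ∨ x = T ^ 2 + 1 ∨ x = T ^ 2 + T + 1 := by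
  have hneg : ∀ a b : L, a + b = 0 → a = b := by
    intro a b h
    linear_combination h - b * h2
  have hP : x * (x + 1) * (x + T) * (x + T ^ 2) * (x + (T ^ 2 + T)) * (x + (T + 1)) * (x + (T ^ 2 + 1)) * (x + (T ^ 2 + T + 1)) = 0 := by
    linear_combination ((5)*x^1*T^0 + (1)*x^1*T^1 + (-3)*x^1*T^2 + (-2)*x^1*T^3 + (2)*x^1*T^4 + (4)*x^1*T^5 + (3)*x^1*T^6 + (1)*x^1*T^7 + (2)*x^2*T^0 + (-14)*x^2*T^1 + (-7)*x^2*T^2 + (10)*x^2*T^3 + (18)*x^2*T^4 + (13)*x^2*T^5 + (5)*x^2*T^6 + (1)*x^2*T^7 + (-30)*x^3*T^0 + (-14)*x^3*T^1 + (22)*x^3*T^2 + (36)*x^3*T^3 + (26)*x^3*T^4 + (10)*x^3*T^5 + (2)*x^3*T^6 + (-17)*x^4*T^0 + (27)*x^4*T^1 + (44)*x^4*T^2 + (28)*x^4*T^3 + (10)*x^4*T^4 + (1)*x^4*T^5 + (24)*x^5*T^0 + (32)*x^5*T^1 + (18)*x^5*T^2 + (4)*x^5*T^3 + (14)*x^6*T^0 + (6)*x^6*T^1) * hT + (((-3)*x^1*T^0 + (-3)*x^1*T^1 + (1)*x^1*T^2 + (-1)*x^2*T^0 + (6)*x^2*T^1 + (11)*x^2*T^2 + (15)*x^3*T^0 + (23)*x^3*T^1 + (1)*x^3*T^2 + (9)*x^4*T^0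 + (-21)*x^4*T^2 + (-10)*x^5*T^0 + (-19)*x^5*T^1 + (-7)*x^5*T^2 + (-4)*x^6*T^0 + (-3)*x^6*T^1 + (7)*x^6*T^2 + (2)*x^7*T^0 + (2)*x^7*T^1 + (2)*x^7*T^2) + x) * h2 + hx
  rcases mul_eq_zero.1 hP with h | h
  · rcases mul_eq_zero.1 h with h | h
    · rcases mul_eq_zero.1 h with h | h
      · rcases mul_eq_zero.1 h with h | h
        · rcases mul_eq_zero.1 h with h | h
          · rcases mul_eq_zero.1 h with h | h
            · rcases mul_eq_zero.1 h with h | h
              · exact Or.inl h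
              · exact Or.inr (Or.inl (hneg _ _ h))
            · exact Or.inr (Or.inr (Or.inl (hneg _ _ h)))
          · exact Or.inr (Or.inr (Or.inr (Or.inl (hneg _ _ h))))
        · exact Or.inr (Or.inr (Or.inr (Or.inr (Or.inl (hneg _ _ h)))))
      · exact Or.inr (Or.inr (Or.inr (Or.inr (Or.inr (Or.inl (hneg _ _ h))))))
    · exact Or.inr (Or.inr (Or.inr (Or.inr (Or.inr (Or.inr (Or.inl (hneg _ _ h)))))))
  · exact Or.inr (Or.inr (Or.inr (Or.inr (Or.inr (Or.inr (Or.inr (hneg _ _ h)))))))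

end fieldlemmas

section four

variable {F : Type*} [Field F] [Fintype F]

theorem two_zero_of_four (hq : Fintype.card F = 4) : (2 : F) = 0 := by
  obtain ⟨p, hp⟩ := CharP.exists F
  obtain ⟨n, hpp, hc⟩ := FiniteField.card F p
  have h2 : p = 2 := by
    have hd : p ∣ 2 ^ 2 := by
      have : p ∣ Fintype.card F := by
        rw [hc]
        exact dvd_pow_self p n.pos.ne'
      rw [hq] at this
      simpa using this
    exact (Nat.prime_dvd_prime_iff_eq hpp Nat.prime_two).1 (hpp.dvd_of_dvd_pow hd)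
  subst h2
  exact_mod_cast CharP.cast_eq_zero F 2

theorem cube_of_four (hq : Fintype.card F = 4) {c : F} (hc : c ≠ 0) : c ^ 3 = 1 := by
  have := FiniteField.pow_card_sub_one_eq_one c hc
  rwa [hq] at this

theorem no_root_four (hq : Fintype.card F = 4) (y : F) : y ^ 3 + y + 1 ≠ 0 := by
  intro h
  by_cases hy : y = 0
  · subst hy
    simp at h
  · rw [cube_of_four hq hy] at h
    apply hy
    have h2 := two_zero_of_four hq
    linear_combination h - h2

/-- The subfield of elements with `x² = x`. -/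
def subTwo (h2 : (2 : F) = 0) : Subfield F where
  carrier := {x | x ^ 2 = x}
  mul_mem' := by
    intro a b ha hb
    simp only [Set.mem_setOf_eq] at *
    rw [mul_pow, ha, hb]
  one_mem' := by simp
  add_mem' := by
    intro a b ha hb
    simp only [Set.mem_setOf_eq] at *
    linear_combination ha + hb + a * b * h2
  zero_mem' := by simp
  neg_mem' := by
    intro a ha
    simp only [Set.mem_setOf_eq] at *
    linear_combination ha + a * h2
  inv_mem' := by
    intro a ha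
    simp only [Set.mem_setOf_eq] at *
    rw [inv_pow, ha]

theorem mem_subTwo (h2 : (2 : F) = 0) {x : F} : x ∈ subTwo h2 ↔ x ^ 2 = x := Iff.rfl

theorem subTwo_cases (h2 : (2 : F) = 0) {x : F} (hx : x ∈ subTwo h2) : x = 0 ∨ x = 1 := by
  have h : x * (x - 1) = 0 := by
    have := (mem_subTwo h2).1 hx
    linear_combination this
  rcases mul_eq_zero.1 h with h | h
  · exact Or.inl h
  · exact Or.inr (sub_eq_zero.1 h)

theorem card_subTwo (h2 : (2 : F) = 0) : Nat.card (subTwo h2) = 2 := by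
  rw [Nat.card_eq_two_iff]
  refine ⟨⟨0, (subTwo h2).zero_mem⟩, ⟨1, (subTwo h2).one_mem⟩, ?_, ?_⟩
  · intro h
    exact zero_ne_one (congrArg Subtype.val h)
  · ext ⟨x, hx⟩
    simp only [Set.mem_insert_iff, Set.mem_singleton_iff, Set.mem_univ, iff_true]
    rcases subTwo_cases h2 hx with rfl | rfl
    · exact Or.inl rfl
    · exact Or.inr rfl


theorem indep_of_root {L : Type*} [Field L] [Algebra F L] (hq : Fintype.card F = 4) {T : L} (hT : T ^ 3 + T + 1 = 0) {a b c : F}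
    (h : algebraMap F L a + algebraMap F L b * T + algebraMap F L c * T ^ 2 = 0) : a = 0 ∧ b = 0 ∧ c = 0 := by
  have h2 := two_zero_of_four hq
  set i := algebraMap F L with hi
  have hinj : Function.Injective i := (algebraMap F L).injective
  have h2L : (2 : L) = 0 := by
    have : i 2 = i 0 := congrArg i h2
    rwa [map_ofNat, map_zero] at this
  have hns : ∀ y : F, T ≠ i y := by
    rintro y rfl
    apply no_root_four hq y
    apply hinj
    simpa using hT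
  have hlin : ∀ {u v : F}, i u * T + i v = 0 → u = 0 ∧ v = 0 := by
    intro u v huv
    by_cases hu : u = 0
    · subst hu
      refine ⟨rfl, ?_⟩
      apply hinj
      simpa using huv
    · exfalso
      apply hns (-v / u)
      have hiu : i u ≠ 0 := by
        intro h0
        exact hu (hinj (by simpa using h0))
      rw [map_div₀, map_neg]
      field_simp
      linear_combination huv
  by_cases hc : c = 0
  · subst hc
    have h1 : i b * T + i a = 0 := by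
      simp only [map_zero, zero_mul, add_zero] at h
      linear_combination h
    obtain ⟨rfl, rfl⟩ := hlin h1
    exact ⟨rfl, rfl, rfl⟩
  · exfalso
    set α : F := -b / c with hα
    set β : F := -a / c with hβ
    have hic : i c ≠ 0 := by
      intro h0
      exact hc (hinj (by simpa using h0))
    have hsq : T ^ 2 = i α * T + i β := by
      rw [hα, hβ, map_div₀, map_div₀, map_neg, map_neg]
      field_simp
      linear_combination h
    have h3 : i (α ^ 2 + β + 1) * T + i (α * β + 1) = 0 := by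
      simp only [map_add, map_mul, map_pow, map_one]
      have e3 : T ^ 3 = T * T ^ 2 := by ring
      rw [e3, hsq] at hT
      linear_combination hT - i α * hsq
    obtain ⟨h4, h5⟩ := hlin h3
    have hα0 : α ≠ 0 := by
      intro h0
      rw [h0] at h5
      simp at h5
    apply no_root_four hq α
    have e1 : α * (α ^ 2 + β + 1) = 0 := by rw [h4, mul_zero]
    linear_combination e1 - h5 + h2 * 1


/-- In degree three over the field with four elements, the normaliser of the field inside the special linear group lies in a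
subfield group. -/
theorem fld3_four (hq : Fintype.card F = 4) {K : Subalgebra F (Matrix (Fin 3) (Fin 3) F)} (hK : IsFieldSubalgebra 3 K) :
    ∃ (F₀ : Subfield F) (P : GL (Fin 3) F), Nat.card F₀ = 2 ∧
      subalgebraNormalizer K ⊓ specialLinear (Fin 3) F ≤ subfieldSubgroup F₀ P := by
  classical
  have h2F : (2 : F) = 0 := two_zero_of_four hq
  letI fK : Field K := IsField.toField
    { exists_pair_ne := ⟨0, 1, fun h => zero_ne_one (congrArg Subtype.val h)⟩
      mul_comm := fun a b => Subtype.ext (hK.comm _ a.2 _ b.2)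
      mul_inv_cancel := by
        intro a ha
        obtain ⟨y, hy, hay⟩ := hK.inv a.1 a.2 (fun h => ha (Subtype.ext h))
        exact ⟨⟨y, hy⟩, Subtype.ext hay⟩ }
  haveI hfin : Finite K := inferInstance
  letI : Fintype K := Fintype.ofFinite K
  have hcardK : Fintype.card K = 64 := by
    have := Module.card_eq_pow_finrank (K := F) (V := K)
    rw [hq, hK.finrank_eq] at this
    simpa using this
  have h2K : (2 : K) = 0 := by
    have : algebraMap F K 2 = algebraMap F K 0 := congrArg _ h2F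
    rwa [map_ofNat, map_zero] at this
  let i : F →+* K := algebraMap F K
  have hival : ∀ c : F, ((i c : K) : Matrix (Fin 3) (Fin 3) F) = c • 1 := by
    intro c
    show algebraMap F (Matrix (Fin 3) (Fin 3) F) c = c • 1
    rw [Algebra.algebraMap_eq_smul_one]
  -- a root of the cubic
  obtain ⟨θ, hθ⟩ : ∃ θ : K, θ ^ 3 + θ + 1 = 0 := by
    have hcu : Nat.card Kˣ = 63 := by
      rw [Nat.card_eq_fintype_card, Fintype.card_units, hcardK]
    haveI : Fact (Nat.Prime 7) := ⟨by norm_num⟩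
    obtain ⟨β, hβ⟩ := exists_prime_orderOf_dvd_card' (G := Kˣ) 7 (by rw [hcu]; norm_num)
    have hβ7 : (β : K) ^ 7 = 1 := by
      have := pow_orderOf_eq_one β
      rw [hβ] at this
      have h := congrArg Units.val this
      simpa using h
    have hβ1 : (β : K) ≠ 1 := by
      intro h
      have : β = 1 := Units.ext h
      rw [this, orderOf_one] at hβ
      omega
    have hβ0 : (β : K) ≠ 0 := β.ne_zero
    set b : K := (β : K) with hb
    have hf : (b + 1) * (b ^ 3 + b + 1) * (b ^ 3 + b ^ 2 + 1) = 0 := by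
      linear_combination hβ7 + (b ^ 6 + b ^ 5 + 2 * b ^ 4 + 2 * b ^ 3 + b ^ 2 + b + 1) * h2K
    rcases mul_eq_zero.1 hf with h | h
    · rcases mul_eq_zero.1 h with h | h
      · exfalso
        apply hβ1
        linear_combination h - h2K
      · exact ⟨b, h⟩
    · refine ⟨b⁻¹, ?_⟩
      field_simp
      linear_combination h
  -- coordinates
  let Φ : (Fin 3 → F) →ₗ[F] K :=
    { toFun := fun x => x 0 • (1 : K) + x 1 • θ + x 2 • θ ^ 2
      map_add' := by
        intro x y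
        simp only [Pi.add_apply, add_smul]
        abel
      map_smul' := by
        intro c x
        simp only [Pi.smul_apply, smul_eq_mul, RingHom.id_apply, smul_add, mul_smul] }
  have hΦ : ∀ x, Φ x = i (x 0) + i (x 1) * θ + i (x 2) * θ ^ 2 := by
    intro x
    show x 0 • (1 : K) + x 1 • θ + x 2 • θ ^ 2 = _
    rw [Algebra.smul_def, Algebra.smul_def, Algebra.smul_def, mul_one]
  have hΦinj : Function.Injective Φ := by
    rw [injective_iff_map_eq_zero]
    intro x hx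
    rw [hΦ] at hx
    obtain ⟨h0, h1, h2⟩ := indep_of_root hq hθ hx
    ext j
    fin_cases j
    · exact h0
    · exact h1
    · exact h2
  let v₀ : Fin 3 → F := Pi.single 0 1
  have hv₀ : v₀ ≠ 0 := by
    intro h
    have := congrFun h 0
    simp [v₀] at this
  let Ψ : K ≃ₗ[F] (Fin 3 → F) := LinearEquiv.ofBijective (EluSinger.evalAt K v₀) (EluSinger.evalAt_bijective hK hv₀)
  have hΨ : ∀ l : K, Ψ l = (l : Matrix (Fin 3) (Fin 3) F) *ᵥ v₀ := fun l => rfl
  let Λ : (Fin 3 → F) →ₗ[F] (Fin 3 → F) := (Ψ : K →ₗ[F] (Fin 3 → F)) ∘ₗ Φ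
  have hΛ : ∀ x, Λ x = ((Φ x : K) : Matrix (Fin 3) (Fin 3) F) *ᵥ v₀ := fun x => rfl
  have hΛinj : Function.Injective Λ := Ψ.injective.comp hΦinj
  have hΛbij : Function.Bijective Λ := ⟨hΛinj, LinearMap.injective_iff_surjective.mp hΛinj⟩
  let E : (Fin 3 → F) ≃ₗ[F] (Fin 3 → F) := LinearEquiv.ofBijective Λ hΛbij
  let P₀ : Matrix (Fin 3) (Fin 3) F := LinearMap.toMatrix' Λ
  let P₁ : Matrix (Fin 3) (Fin 3) F := LinearMap.toMatrix' (E.symm : (Fin 3 → F) →ₗ[F] (Fin 3 → F))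
  have hP₀v : ∀ x, P₀ *ᵥ x = ((Φ x : K) : Matrix (Fin 3) (Fin 3) F) *ᵥ v₀ := by
    intro x
    show LinearMap.toMatrix' Λ *ᵥ x = _
    rw [LinearMap.toMatrix'_mulVec]
    rfl
  have h01 : P₀ * P₁ = 1 := by
    show LinearMap.toMatrix' Λ * LinearMap.toMatrix' _ = 1
    rw [← LinearMap.toMatrix'_comp]
    have : Λ ∘ₗ (E.symm : (Fin 3 → F) →ₗ[F] (Fin 3 → F)) = LinearMap.id := by
      exact LinearMap.ext fun x => E.apply_symm_apply x
    rw [this, LinearMap.toMatrix'_id]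
  have h10 : P₁ * P₀ = 1 := by
    show LinearMap.toMatrix' _ * LinearMap.toMatrix' Λ = 1
    rw [← LinearMap.toMatrix'_comp]
    have : (E.symm : (Fin 3 → F) →ₗ[F] (Fin 3 → F)) ∘ₗ Λ = LinearMap.id := by
      exact LinearMap.ext fun x => E.symm_apply_apply x
    rw [this, LinearMap.toMatrix'_id]
  let P : GL (Fin 3) F := ⟨P₀, P₁, h01, h10⟩
  set S2 : Subfield F := subTwo h2F with hS2
  -- coordinates of an element with x⁸ = x
  have hcoord : ∀ z : K, z ^ 8 = z → ∃ w : Fin 3 → F, (∀ j, w j ∈ S2) ∧ Φ w = z := by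
    intro z hz
    have hS0 : (0 : F) ∈ S2 := S2.zero_mem
    have hS1 : (1 : F) ∈ S2 := S2.one_mem
    have hall : ∀ a b c : F, a ∈ S2 → b ∈ S2 → c ∈ S2 → ∀ j, (![a, b, c] : Fin 3 → F) j ∈ S2 := by
      intro a b c ha hb hc j
      fin_cases j
      · exact ha
      · exact hb
      · exact hc
    rcases eight_cases h2K hθ hz with h | h | h | h | h | h | h | h
    · exact ⟨![0, 0, 0], hall _ _ _ hS0 hS0 hS0, by rw [hΦ, h]; simp⟩
    · exact ⟨![1, 0, 0], hall _ _ _ hS1 hS0 hS0, by rw [hΦ, h]; simp⟩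
    · exact ⟨![0, 1, 0], hall _ _ _ hS0 hS1 hS0, by rw [hΦ, h]; simp⟩
    · exact ⟨![0, 0, 1], hall _ _ _ hS0 hS0 hS1, by rw [hΦ, h]; simp⟩
    · exact ⟨![0, 1, 1], hall _ _ _ hS0 hS1 hS1, by rw [hΦ, h]; simp; ring⟩
    · exact ⟨![1, 1, 0], hall _ _ _ hS1 hS1 hS0, by rw [hΦ, h]; simp; ring⟩
    · exact ⟨![1, 0, 1], hall _ _ _ hS1 hS0 hS1, by rw [hΦ, h]; simp; ring⟩
    · exact ⟨![1, 1, 1], hall _ _ _ hS1 hS1 hS1, by rw [hΦ, h]; simp; ring⟩
  have hΦe : ∀ j : Fin 3, Φ (Pi.single j 1) = θ ^ (j : ℕ) := by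
    intro j
    rw [hΦ]
    fin_cases j <;> simp
  -- matrices whose columns go to the rational form
  have hent : ∀ X : Matrix (Fin 3) (Fin 3) F,
      (∀ j : Fin 3, ∃ z : K, z ^ 8 = z ∧ X *ᵥ (((θ ^ (j : ℕ) : K) : Matrix (Fin 3) (Fin 3) F) *ᵥ v₀) = (z : Matrix (Fin 3) (Fin 3) F) *ᵥ v₀) →
      ∀ a b, (P₁ * X * P₀) a b ∈ S2 := by
    intro X hX a b
    obtain ⟨z, hz8, hz⟩ := hX b
    obtain ⟨w, hw, hwz⟩ := hcoord z hz8
    have h1 : (P₁ * X * P₀) *ᵥ (Pi.single b 1) = w := by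
      rw [← Matrix.mulVec_mulVec, ← Matrix.mulVec_mulVec, hP₀v, hΦe, hz, ← hwz, ← hP₀v, Matrix.mulVec_mulVec, h10, Matrix.one_mulVec]
    have h2 := congrFun h1 a
    rw [Matrix.mulVec_single_one] at h2
    have h3 : (P₁ * X * P₀) a b = w a := h2
    rw [h3]
    exact hw a
  -- the norm
  have hnorm : ∀ a : K, (a : Matrix (Fin 3) (Fin 3) F).det = 1 → a ^ 21 = 1 := by
    intro a ha
    have h1 := FiniteField.algebraMap_norm_eq_pow (K := F) (K' := K) (x := a)
    have hc1 : Nat.card K = 64 := by rw [Nat.card_eq_fintype_card, hcardK]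
    have hc2 : Nat.card F = 4 := by rw [Nat.card_eq_fintype_card, hq]
    rw [hc1, hc2] at h1
    have h2 : Algebra.norm F a = (a : Matrix (Fin 3) (Fin 3) F).det := by
      rw [Algebra.norm_apply, ← LinearMap.det_toLin' (a : Matrix (Fin 3) (Fin 3) F)]
      have : Matrix.toLin' (a : Matrix (Fin 3) (Fin 3) F) = (Ψ : K →ₗ[F] (Fin 3 → F)) ∘ₗ (LinearMap.mulLeft F a) ∘ₗ (Ψ.symm : (Fin 3 → F) →ₗ[F] K) := by
        apply LinearMap.ext
        intro x
        have hx := Ψ.apply_symm_apply x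
        show (a : Matrix (Fin 3) (Fin 3) F) *ᵥ x = Ψ (a * Ψ.symm x)
        conv_lhs => rw [← hx]
        rw [hΨ, hΨ]
        show (a : Matrix (Fin 3) (Fin 3) F) *ᵥ (((Ψ.symm x : K) : Matrix (Fin 3) (Fin 3) F) *ᵥ v₀) = ((a : Matrix (Fin 3) (Fin 3) F) * ((Ψ.symm x : K) : Matrix (Fin 3) (Fin 3) F)) *ᵥ v₀
        rw [Matrix.mulVec_mulVec]
      rw [this, LinearMap.det_conj]
      rfl
    rw [h2, ha, map_one] at h1
    have : (64 - 1) / (4 - 1) = 21 := by norm_num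
    rw [this] at h1
    exact h1.symm
  refine ⟨S2, P, card_subTwo h2F, ?_⟩
  rintro g ⟨hgN, hgS⟩
  have hdetg : (g : Matrix (Fin 3) (Fin 3) F).det = 1 := by
    have : Matrix.GeneralLinearGroup.det g = 1 := hgS
    have h := congrArg Units.val this
    simpa using h
  set G : Matrix (Fin 3) (Fin 3) F := (g : Matrix (Fin 3) (Fin 3) F) with hG
  set G' : Matrix (Fin 3) (Fin 3) F := ((g⁻¹ : GL (Fin 3) F) : Matrix (Fin 3) (Fin 3) F) with hG'
  have hGG : G * G' = 1 := by rw [hG, hG', ← Units.val_mul, mul_inv_cancel, Units.val_one]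
  have hGG' : G' * G = 1 := by rw [hG, hG', ← Units.val_mul, inv_mul_cancel, Units.val_one]
  obtain ⟨a, ha⟩ := (EluSinger.evalAt_bijective hK hv₀).2 (G *ᵥ v₀)
  have ha' : (a : Matrix (Fin 3) (Fin 3) F) *ᵥ v₀ = G *ᵥ v₀ := ha
  have ha0 : a ≠ 0 := by
    rintro rfl
    apply hv₀
    have h0 : G *ᵥ v₀ = 0 := by
      rw [← ha']
      show (0 : Matrix (Fin 3) (Fin 3) F) *ᵥ v₀ = 0
      simp
    calc v₀ = (G' * G) *ᵥ v₀ := by rw [hGG', Matrix.one_mulVec]
      _ = 0 := by rw [← Matrix.mulVec_mulVec, h0, Matrix.mulVec_zero]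
  obtain ⟨G₁, hG₁⟩ : ∃ G₁ : Matrix (Fin 3) (Fin 3) F, G₁ = ((a⁻¹ : K) : Matrix (Fin 3) (Fin 3) F) * G := ⟨_, rfl⟩
  have hainv : ((a⁻¹ : K) : Matrix (Fin 3) (Fin 3) F) * (a : Matrix (Fin 3) (Fin 3) F) = 1 :=
    congrArg Subtype.val (inv_mul_cancel₀ ha0)
  have hainv' : (a : Matrix (Fin 3) (Fin 3) F) * ((a⁻¹ : K) : Matrix (Fin 3) (Fin 3) F) = 1 :=
    congrArg Subtype.val (mul_inv_cancel₀ ha0)
  have hG₁v : G₁ *ᵥ v₀ = v₀ := by
    rw [hG₁, ← Matrix.mulVec_mulVec, ← ha', Matrix.mulVec_mulVec, hainv, Matrix.one_mulVec]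
  have hGa : G = (a : Matrix (Fin 3) (Fin 3) F) * G₁ := by
    rw [hG₁, ← mul_assoc, hainv', one_mul]
  -- the conjugate of θ
  let y : K := ⟨G * (θ : Matrix (Fin 3) (Fin 3) F) * G', (hgN (θ : Matrix (Fin 3) (Fin 3) F)).1 θ.2⟩
  have hyval : (y : Matrix (Fin 3) (Fin 3) F) = G * (θ : Matrix (Fin 3) (Fin 3) F) * G' := rfl
  have hpowval : ∀ (z : K) (n : ℕ), ((z ^ n : K) : Matrix (Fin 3) (Fin 3) F) = (z : Matrix (Fin 3) (Fin 3) F) ^ n := fun z n => rfl
  have hθm : (θ : Matrix (Fin 3) (Fin 3) F) ^ 3 + (θ : Matrix (Fin 3) (Fin 3) F) + 1 = 0 := congrArg Subtype.val hθ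
  have hypow : ∀ n : ℕ, (y : Matrix (Fin 3) (Fin 3) F) ^ n = G * (θ : Matrix (Fin 3) (Fin 3) F) ^ n * G' := by
    intro n
    exact Units.conj_pow g (θ : Matrix (Fin 3) (Fin 3) F) n
  have hy : y ^ 3 + y + 1 = 0 := by
    apply Subtype.ext
    show (y : Matrix (Fin 3) (Fin 3) F) ^ 3 + (y : Matrix (Fin 3) (Fin 3) F) + 1 = 0
    rw [hypow 3, hyval]
    have h1 : G * ((θ : Matrix (Fin 3) (Fin 3) F) ^ 3 + (θ : Matrix (Fin 3) (Fin 3) F) + 1) * G' = G * (θ : Matrix (Fin 3) (Fin 3) F) ^ 3 * G' + G * (θ : Matrix (Fin 3) (Fin 3) F) * G' + 1 := by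
      rw [mul_add, mul_add, add_mul, add_mul, mul_one, hGG]
    rw [← h1, hθm, mul_zero, zero_mul]
  have hy8 : y ^ 8 = y := pow8_of_root h2K hy
  have hθ8 : θ ^ 8 = θ := pow8_of_root h2K hθ
  have hsemi : SemiconjBy G₁ (θ : Matrix (Fin 3) (Fin 3) F) (y : Matrix (Fin 3) (Fin 3) F) := by
    show G₁ * (θ : Matrix (Fin 3) (Fin 3) F) = (y : Matrix (Fin 3) (Fin 3) F) * G₁
    have c : (y : Matrix (Fin 3) (Fin 3) F) * ((a⁻¹ : K) : Matrix (Fin 3) (Fin 3) F) = ((a⁻¹ : K) : Matrix (Fin 3) (Fin 3) F) * (y : Matrix (Fin 3) (Fin 3) F) :=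
      hK.comm _ y.2 _ (a⁻¹ : K).2
    rw [hG₁]
    calc ((a⁻¹ : K) : Matrix (Fin 3) (Fin 3) F) * G * (θ : Matrix (Fin 3) (Fin 3) F)
        = ((a⁻¹ : K) : Matrix (Fin 3) (Fin 3) F) * (G * (θ : Matrix (Fin 3) (Fin 3) F) * (G' * G)) := by rw [hGG', mul_one, mul_assoc]
      _ = ((a⁻¹ : K) : Matrix (Fin 3) (Fin 3) F) * ((y : Matrix (Fin 3) (Fin 3) F) * G) := by simp only [hyval, mul_assoc]
      _ = (y : Matrix (Fin 3) (Fin 3) F) * (((a⁻¹ : K) : Matrix (Fin 3) (Fin 3) F) * G) := by rw [← mul_assoc, ← c, mul_assoc]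
  have hG₁col : ∀ n : ℕ, G₁ *ᵥ (((θ ^ n : K) : Matrix (Fin 3) (Fin 3) F) *ᵥ v₀) = ((y ^ n : K) : Matrix (Fin 3) (Fin 3) F) *ᵥ v₀ := by
    intro n
    rw [Matrix.mulVec_mulVec, hpowval, hpowval, (hsemi.pow_right n).eq, ← Matrix.mulVec_mulVec, hG₁v]
  have hpow8 : ∀ n : ℕ, (y ^ n) ^ 8 = y ^ n := by
    intro n
    rw [← pow_mul, mul_comm, pow_mul, hy8]
  have hB₁ := hent G₁ (fun j => ⟨y ^ (j : ℕ), hpow8 _, hG₁col _⟩)
  have hdetB : (P₁ * G₁ * P₀).det ∈ S2 := by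
    have h1 : (P₁ * G₁ * P₀).det = S2.subtype (SubfieldCore.liftM _ hB₁).det := by
      conv_lhs => rw [← SubfieldCore.map_liftM (P₁ * G₁ * P₀) hB₁]
      exact (RingHom.map_det S2.subtype _).symm
    rw [h1]
    exact Subtype.coe_prop _
  have hdet10 : P₁.det * P₀.det = 1 := by
    rw [← Matrix.det_mul, h10, Matrix.det_one]
  have hdetB' : (P₁ * G₁ * P₀).det = G₁.det := by
    rw [Matrix.det_mul, Matrix.det_mul]
    linear_combination G₁.det * hdet10
  rw [hdetB'] at hdetB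
  have hdetG : (a : Matrix (Fin 3) (Fin 3) F).det * G₁.det = 1 := by
    rw [← Matrix.det_mul, ← hGa]
    exact hdetg
  have hdeta : (a : Matrix (Fin 3) (Fin 3) F).det = 1 := by
    rcases subTwo_cases h2F hdetB with h | h
    · rw [h, mul_zero] at hdetG
      exact absurd hdetG zero_ne_one
    · rw [h, mul_one] at hdetG
      exact hdetG
  have ha21 : a ^ 21 = 1 := hnorm a hdeta
  -- a primitive cube root of unity in the small field
  obtain ⟨ω, hω0, hω1⟩ : ∃ ω : F, ω ≠ 0 ∧ ω ≠ 1 := by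
    have hlt : ({0, 1} : Finset F).card < (Finset.univ : Finset F).card := by
      rw [Finset.card_univ, hq]
      exact lt_of_le_of_lt Finset.card_le_two (by norm_num)
    obtain ⟨ω, -, hω⟩ := Finset.exists_mem_notMem_of_card_lt_card hlt
    simp only [Finset.mem_insert, Finset.mem_singleton, not_or] at hω
    exact ⟨ω, hω.1, hω.2⟩
  have hω3 : ω ^ 3 = 1 := cube_of_four hq hω0
  have hω2 : ω ^ 2 + ω + 1 = 0 := by
    have h : (ω - 1) * (ω ^ 2 + ω + 1) = 0 := by linear_combination hω3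
    rcases mul_eq_zero.1 h with h | h
    · exact absurd (sub_eq_zero.1 h) hω1
    · exact h
  have hΩ3 : (i ω) ^ 3 = 1 := by rw [← map_pow, hω3, map_one]
  have hΩ2 : (i ω) ^ 2 + i ω + 1 = 0 := by
    have := congrArg i hω2
    simpa using this
  obtain ⟨c, hc0, hsc⟩ : ∃ c : F, c ≠ 0 ∧ a ^ 7 = i c := by
    have hs3 : (a ^ 7) ^ 3 = 1 := by rw [← pow_mul]; exact ha21
    have hf : (a ^ 7 - 1) * (a ^ 7 - i ω) * (a ^ 7 - (i ω) ^ 2) = 0 := by
      linear_combination hs3 + (-(a ^ 7) ^ 2 + a ^ 7 * i ω) * hΩ2 - hΩ3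
    rcases mul_eq_zero.1 hf with h | h
    · rcases mul_eq_zero.1 h with h | h
      · exact ⟨1, one_ne_zero, by rw [map_one]; exact sub_eq_zero.1 h⟩
      · exact ⟨ω, hω0, sub_eq_zero.1 h⟩
    · exact ⟨ω ^ 2, pow_ne_zero _ hω0, by rw [map_pow]; exact sub_eq_zero.1 h⟩
  have hd3 : (c⁻¹) ^ 3 = 1 := cube_of_four hq (inv_ne_zero hc0)
  obtain ⟨a₀, ha₀⟩ : ∃ a₀ : K, a₀ = a * i c⁻¹ := ⟨_, rfl⟩
  have ha₀7 : a₀ ^ 7 = 1 := by
    rw [ha₀, mul_pow, hsc, ← map_pow, ← map_mul]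
    have : c * c⁻¹ ^ 7 = 1 := by
      have h1 : c * c⁻¹ = 1 := mul_inv_cancel₀ hc0
      have h2 : c⁻¹ ^ 7 = c⁻¹ * (c⁻¹ ^ 3) ^ 2 := by ring
      rw [h2, hd3, one_pow, mul_one, h1]
    rw [this, map_one]
  have ha₀8 : a₀ ^ 8 = a₀ := by
    rw [pow_succ, ha₀7, one_mul]
  have haa₀ : (a : Matrix (Fin 3) (Fin 3) F) = c • (a₀ : Matrix (Fin 3) (Fin 3) F) := by
    have h1 : a = a₀ * i c := by
      rw [ha₀, mul_assoc, ← map_mul, inv_mul_cancel₀ hc0, map_one, mul_one]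
    have h2 : (a : Matrix (Fin 3) (Fin 3) F) = (a₀ : Matrix (Fin 3) (Fin 3) F) * ((i c : K) : Matrix (Fin 3) (Fin 3) F) := congrArg Subtype.val h1
    rw [h2, hival, Matrix.mul_smul, mul_one]
  obtain ⟨X, hXdef⟩ : ∃ X : Matrix (Fin 3) (Fin 3) F, X = (a₀ : Matrix (Fin 3) (Fin 3) F) * G₁ := ⟨_, rfl⟩
  have hB := hent X (fun j => ⟨a₀ * y ^ (j : ℕ), by rw [mul_pow, ha₀8, hpow8], by
    rw [hXdef, ← Matrix.mulVec_mulVec, hG₁col, Matrix.mulVec_mulVec]
    rfl⟩)
  have hGX : G = c • X := by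
    rw [hGa, haa₀, hXdef, Matrix.smul_mul]
  show g ∈ ((Matrix.GeneralLinearGroup.map (S2.subtype : S2 →+* F)).range ⊔ scalars (Fin 3) F).map (MulAut.conj P).toMonoidHom
  rw [SubfieldCore.sup_eq_ratScal]
  refine ⟨P⁻¹ * g * P, ⟨c⁻¹, inv_ne_zero hc0, ?_⟩, ?_⟩
  · have h1 : c⁻¹ • ((P⁻¹ * g * P : GL (Fin 3) F) : Matrix (Fin 3) (Fin 3) F) = P₁ * X * P₀ := by
      show c⁻¹ • (P₁ * G * P₀) = _
      rw [hGX, Matrix.mul_smul, Matrix.smul_mul, smul_smul, inv_mul_cancel₀ hc0, one_smul]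
    rw [h1]
    exact hB
  · simp [mul_assoc]

end four

end Cfsg.Agent.Lib.ClassMax.Asch
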