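import Mathlib
import Cfsg.Agent.Lib.ClassMax.Asch20

/-!
Decompositions of the four-dimensional space over the field of three elements.
-/

set_option autoImplicit false
set_option linter.unusedSimpArgs false
set_option linter.unusedVariables false
set_option linter.unusedSectionVars false
set_option linter.unusedFintypeInType false
set_option linter.unusedDecidableInType false

namespace Cfsg.Agent.Lib.ClassMax.Asch

open Module Matrix Cfsg.Geo Cfsg.Agent.Lib.ClassMax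

variable {F : Type*} [Field F] [Fintype F]

theorem det_block_aux (M : Matrix (Fin 4) (Fin 4) F)
    (h02 : M 0 2 = 0) (h03 : M 0 3 = 0) (h12 : M 1 2 = 0) (h13 : M 1 3 = 0)
    (h20 : M 2 0 = 0) (h21 : M 2 1 = 0) (h30 : M 3 0 = 0) (h31 : M 3 1 = 0) :
    M.det = (M 0 0 * M 1 1 - M 0 1 * M 1 0) * (M 2 2 * M 3 3 - M 2 3 * M 3 2) := by
  rw [Matrix.det_succ_row_zero]
  simp only [Fin.sum_univ_four, Matrix.det_fin_three, Matrix.submatrix_apply]
  simp [Fin.succAbove, h02, h03, h12, h13, h20, h21, h30, h31, Fin.succ]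
  ring

theorem det_block_aux' (M : Matrix (Fin 4) (Fin 4) F)
    (h00 : M 0 0 = 0) (h01 : M 0 1 = 0) (h10 : M 1 0 = 0) (h11 : M 1 1 = 0)
    (h22 : M 2 2 = 0) (h23 : M 2 3 = 0) (h32 : M 3 2 = 0) (h33 : M 3 3 = 0) :
    M.det = (M 0 2 * M 1 3 - M 0 3 * M 1 2) * (M 2 0 * M 3 1 - M 2 1 * M 3 0) := by
  rw [Matrix.det_succ_row_zero]
  simp only [Fin.sum_univ_four, Matrix.det_fin_three, Matrix.submatrix_apply]
  simp [Fin.succAbove, h00, h01, h10, h11, h22, h23, h32, h33, Fin.succ]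
  ring

/-- Over the field of three elements the stabiliser of two planes in the special linear group is a
similarity group of a symplectic form. -/
theorem plane_three (hq : Fintype.card F = 3) {D : Fin 2 → Submodule F (Fin 4 → F)} (hD : IsMDecomposition 2 D) :
    ∃ f : (Fin 4 → F) → (Fin 4 → F) → F, IsSymplecticForm f ∧
      decompositionStabilizer D ⊓ specialLinear (Fin 4) F ≤ similarityGroup f := by
  classical
  obtain ⟨a, b, α, β, ha, hb, hαa, hαb, hβa, hβb, h0, hx⟩ := plane_data hD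
  have hf := plane_symp hD ha hb hαa hαb hβa hβb h0 hx
  refine ⟨_, hf, ?_⟩
  rintro g ⟨⟨σ, hσ⟩, hdet⟩
  obtain ⟨δ, hδ, hf'⟩ := plane_form hD ha hb hαa hαb hβa hβb h0 hx hσ
  have hsq : ∀ x : F, x ≠ 0 → x ^ 2 = 1 := by
    intro x hx
    have := FiniteField.pow_card_sub_one_eq_one x hx
    rw [hq] at this
    simpa using this
  -- the coordinate matrices
  let Q : Matrix (Fin 4) (Fin 4) F := Matrix.of ![α 0, β 0, α 1, β 1]
  let c : Fin 4 → Fin 4 → F := ![a 0, b 0, a 1, b 1]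
  let P : Matrix (Fin 4) (Fin 4) F := Matrix.of fun i j => c j i
  have hca : ∀ x y i, x ∈ D i → y ∈ D i → True := fun _ _ _ _ _ => trivial
  have h10 : (1 : Fin 2) ≠ 0 := by decide
  have h01 : (0 : Fin 2) ≠ 1 := by decide
  have hQP : Q * P = 1 := by
    have hent : ∀ i j, (Q * P) i j = Q i ⬝ᵥ c j := by
      intro i j
      rfl
    ext i j
    rw [hent]
    fin_cases i <;> fin_cases j
    · exact hαa 0
    · exact hαb 0
    · exact (h0 0 1 h10 _ (ha 1)).1
    · exact (h0 0 1 h10 _ (hb 1)).1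
    · exact hβa 0
    · exact hβb 0
    · exact (h0 0 1 h10 _ (ha 1)).2
    · exact (h0 0 1 h10 _ (hb 1)).2
    · exact (h0 1 0 h01 _ (ha 0)).1
    · exact (h0 1 0 h01 _ (hb 0)).1
    · exact hαa 1
    · exact hαb 1
    · exact (h0 1 0 h01 _ (ha 0)).2
    · exact (h0 1 0 h01 _ (hb 0)).2
    · exact hβa 1
    · exact hβb 1
  have hdetg : ((g : Matrix (Fin 4) (Fin 4) F)).det = 1 := by
    have := congrArg Units.val (MonoidHom.mem_ker.1 hdet)
    simpa using this
  have hdetM : (Q * (g : Matrix (Fin 4) (Fin 4) F) * P).det = 1 := by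
    have h1 : Q.det * P.det = 1 := by rw [← Matrix.det_mul, hQP, Matrix.det_one]
    rw [Matrix.det_mul, Matrix.det_mul, hdetg, mul_one, h1]
  have hentM : ∀ i j, (Q * (g : Matrix (Fin 4) (Fin 4) F) * P) i j = Q i ⬝ᵥ ((g : Matrix (Fin 4) (Fin 4) F) *ᵥ c j) := by
    intro i j
    rw [Matrix.mul_assoc]
    change Q i ⬝ᵥ _ = _
    congr 1
  have hga : ∀ i, (g : Matrix (Fin 4) (Fin 4) F) *ᵥ a i ∈ D (σ i) := fun i => by
    rw [← hσ i]
    exact ⟨a i, ha i, rfl⟩
  have hgb : ∀ i, (g : Matrix (Fin 4) (Fin 4) F) *ᵥ b i ∈ D (σ i) := fun i => by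
    rw [← hσ i]
    exact ⟨b i, hb i, rfl⟩
  have hδe : ∀ i, (α (σ i) ⬝ᵥ ((g : Matrix (Fin 4) (Fin 4) F) *ᵥ a i)) * (β (σ i) ⬝ᵥ ((g : Matrix (Fin 4) (Fin 4) F) *ᵥ b i)) -
      (β (σ i) ⬝ᵥ ((g : Matrix (Fin 4) (Fin 4) F) *ᵥ a i)) * (α (σ i) ⬝ᵥ ((g : Matrix (Fin 4) (Fin 4) F) *ᵥ b i)) = δ i := by
    intro i
    have := hf' (a i) (b i) i
    rw [this, hαa, hαb, hβa, hβb]
    ring
  have hq0 : Q 0 = α 0 := rfl
  have hq1 : Q 1 = β 0 := rfl
  have hq2 : Q 2 = α 1 := rfl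
  have hq3 : Q 3 = β 1 := rfl
  have hc0 : c 0 = a 0 := rfl
  have hc1 : c 1 = b 0 := rfl
  have hc2 : c 2 = a 1 := rfl
  have hc3 : c 3 = b 1 := rfl
  have hprod : δ 0 * δ 1 = 1 := by
    rw [← hdetM]
    by_cases hs : σ 0 = 0
    · have hs1 : σ 1 = 1 := by
        have : σ 1 ≠ 0 := fun h => h10 (σ.injective (h.trans hs.symm))
        omega
      rw [det_block_aux _ ?_ ?_ ?_ ?_ ?_ ?_ ?_ ?_]
      · simp only [hentM]
        have e0 := hδe 0
        have e1 := hδe 1
        rw [hs] at e0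
        rw [hs1] at e1
        rw [← e0, ← e1, hq0, hq1, hq2, hq3, hc0, hc1, hc2, hc3]
        ring
      · rw [hentM]
        have := (h0 0 (σ 1) (by rw [hs1]; exact h10) _ (hga 1)).1
        exact this
      · rw [hentM]
        exact (h0 0 (σ 1) (by rw [hs1]; exact h10) _ (hgb 1)).1
      · rw [hentM]
        exact (h0 0 (σ 1) (by rw [hs1]; exact h10) _ (hga 1)).2
      · rw [hentM]
        exact (h0 0 (σ 1) (by rw [hs1]; exact h10) _ (hgb 1)).2
      · rw [hentM]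
        exact (h0 1 (σ 0) (by rw [hs]; exact h01) _ (hga 0)).1
      · rw [hentM]
        exact (h0 1 (σ 0) (by rw [hs]; exact h01) _ (hgb 0)).1
      · rw [hentM]
        exact (h0 1 (σ 0) (by rw [hs]; exact h01) _ (hga 0)).2
      · rw [hentM]
        exact (h0 1 (σ 0) (by rw [hs]; exact h01) _ (hgb 0)).2
    · have hs0 : σ 0 = 1 := by omega
      have hs1 : σ 1 = 0 := by
        have : σ 1 ≠ 1 := fun h => h10 (σ.injective (h.trans hs0.symm))
        omega
      rw [det_block_aux' _ ?_ ?_ ?_ ?_ ?_ ?_ ?_ ?_]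
      · simp only [hentM]
        have e0 := hδe 0
        have e1 := hδe 1
        rw [hs0] at e0
        rw [hs1] at e1
        rw [← e0, ← e1, hq0, hq1, hq2, hq3, hc0, hc1, hc2, hc3]
        ring
      · rw [hentM]
        exact (h0 0 (σ 0) (by rw [hs0]; exact h10) _ (hga 0)).1
      · rw [hentM]
        exact (h0 0 (σ 0) (by rw [hs0]; exact h10) _ (hgb 0)).1
      · rw [hentM]
        exact (h0 0 (σ 0) (by rw [hs0]; exact h10) _ (hga 0)).2
      · rw [hentM]
        exact (h0 0 (σ 0) (by rw [hs0]; exact h10) _ (hgb 0)).2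
      · rw [hentM]
        exact (h0 1 (σ 1) (by rw [hs1]; exact h01) _ (hga 1)).1
      · rw [hentM]
        exact (h0 1 (σ 1) (by rw [hs1]; exact h01) _ (hgb 1)).1
      · rw [hentM]
        exact (h0 1 (σ 1) (by rw [hs1]; exact h01) _ (hga 1)).2
      · rw [hentM]
        exact (h0 1 (σ 1) (by rw [hs1]; exact h01) _ (hgb 1)).2
  have hδδ : δ 1 = δ 0 := by
    have h1 := hsq _ (hδ 0)
    calc δ 1 = δ 0 ^ 2 * δ 1 := by rw [h1, one_mul]
      _ = δ 0 * (δ 0 * δ 1) := by ring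
      _ = δ 0 := by rw [hprod, mul_one]
  refine ⟨Units.mk0 (δ 0) (hδ 0), fun u v => ?_⟩
  beta_reduce
  rw [← Equiv.sum_comp σ, Finset.mul_sum]
  refine Finset.sum_congr rfl fun i _ => ?_
  rw [hf']
  have hi : δ i = δ 0 := by
    fin_cases i
    · rfl
    · exact hδδ
  rw [hi]
  rfl

end Cfsg.Agent.Lib.ClassMax.Asch
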