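import Mathlib
import Cfsg.Agent.Lib.ClassMax.Asch21

/-!
The monomial subgroup of the four-dimensional special linear group over the field of five elements normalises
the central product of a group of order four with an extraspecial group of order 32.
-/

set_option autoImplicit false
set_option linter.unusedSimpArgs false
set_option linter.unusedVariables false
set_option linter.unusedSectionVars false
set_option linter.unusedFintypeInType false
set_option linter.unusedDecidableInType false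
set_option maxRecDepth 100000

namespace Cfsg.Agent.Lib.ClassMax.Asch

open Module Matrix Cfsg.Geo Cfsg.Agent.Lib.ClassMax

section tables

/-- Addition in the Klein four group, on four labels. -/
def xr4 (a j : Fin 4) : Fin 4 := ![![0,1,2,3],![1,0,3,2],![2,3,0,1],![3,2,1,0]] a j
/-- The pairing on the Klein four group. -/
def dt4 (b j : Fin 4) : Bool :=
  ![![false,false,false,false],![false,true,false,true],![false,false,true,true],![false,true,true,false]] b j

theorem xr4_comm : ∀ a b, xr4 a b = xr4 b a := by decide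
theorem xr4_assoc : ∀ a b c, xr4 (xr4 a b) c = xr4 a (xr4 b c) := by decide
theorem xr4_self : ∀ a, xr4 a a = 0 := by decide
theorem xr4_zero : ∀ j, xr4 0 j = j := by decide
theorem xr4_zero' : ∀ j, xr4 j 0 = j := by decide
theorem dt4_xr : ∀ b j k, dt4 b (xr4 j k) = xor (dt4 b j) (dt4 b k) := by decide
theorem dt4_xr' : ∀ b c j, dt4 (xr4 b c) j = xor (dt4 b j) (dt4 c j) := by decide
theorem dt4_zero : ∀ j, dt4 0 j = false := by decide
theorem dt4_zero' : ∀ b, dt4 b 0 = false := by decide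
theorem dt4_ext : ∀ b c, (∀ j, dt4 b j = dt4 c j) → b = c := by decide
theorem dt4_sep : ∀ i j, i ≠ j → ∃ b, dt4 b i ≠ dt4 b j := by decide
theorem dt4_pair : ∀ a b, ¬ (a = 0 ∧ b = 0) → ∃ a' b', dt4 b a' ≠ dt4 b' a := by decide
theorem xr4_distinct' : ∀ p q r s : Fin 4, p = q ∨ p = r ∨ p = s ∨ q = r ∨ q = s ∨ r = s ∨ xr4 p (xr4 q (xr4 r s)) = 0 := by decide
theorem xr4_distinct {p q r s : Fin 4} (h1 : p ≠ q) (h2 : p ≠ r) (h3 : p ≠ s) (h4 : q ≠ r) (h5 : q ≠ s) (h6 : r ≠ s) : xr4 p (xr4 q (xr4 r s)) = 0 := by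
  rcases xr4_distinct' p q r s with h | h | h | h | h | h | h
  · exact absurd h h1
  · exact absurd h h2
  · exact absurd h h3
  · exact absurd h h4
  · exact absurd h h5
  · exact absurd h h6
  · exact h

/-- Every permutation of the Klein four group is affine. -/
theorem xr4_affine (τ : Equiv.Perm (Fin 4)) (a j : Fin 4) : τ (xr4 a j) = xr4 (xr4 (τ a) (τ 0)) (τ j) := by
  have key : ∀ p q r s : Fin 4, xr4 p (xr4 q (xr4 r s)) = 0 → s = xr4 (xr4 q r) p := by decide
  have hne : ∀ x y : Fin 4, x ≠ y → τ x ≠ τ y := fun x y h h' => h (τ.injective h')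
  by_cases ha : a = 0
  · subst ha
    rw [xr4_zero, xr4_self, xr4_zero]
  by_cases hj : j = 0
  · subst hj
    rw [xr4_zero', xr4_assoc, xr4_self, xr4_zero']
  by_cases haj : a = j
  · subst haj
    rw [xr4_self, xr4_assoc, xr4_comm (τ 0), ← xr4_assoc, xr4_self, xr4_zero]
  have h1 : ∀ a j : Fin 4, a ≠ 0 → j ≠ 0 → a ≠ j → xr4 a j ≠ 0 ∧ xr4 a j ≠ a ∧ xr4 a j ≠ j := by decide
  obtain ⟨h2, h3, h4⟩ := h1 a j ha hj haj
  have h5 := xr4_distinct (hne _ _ haj) (hne _ _ ha) (hne _ _ h3.symm) (hne _ _ hj) (hne _ _ h4.symm) (hne _ _ h2.symm)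
  have h6 := key _ _ _ _ h5
  rw [h6]
  have : ∀ p q r : Fin 4, xr4 (xr4 q r) p = xr4 (xr4 p r) q := by decide
  exact this _ _ _

end tables

variable {F : Type*} [Field F]

section law

/-- The sign attached to the pairing. -/
def eu4 (F : Type*) [Field F] (b j : Fin 4) : Fˣ := if dt4 b j then -1 else 1

theorem eu4_xr (b j k : Fin 4) : eu4 F b (xr4 j k) = eu4 F b j * eu4 F b k := by
  unfold eu4
  rw [dt4_xr]
  cases dt4 b j <;> cases dt4 b k <;> simp

theorem eu4_xr' (b c j : Fin 4) : eu4 F (xr4 b c) j = eu4 F b j * eu4 F c j := by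
  unfold eu4
  rw [dt4_xr']
  cases dt4 b j <;> cases dt4 c j <;> simp

theorem eu4_sq (b j : Fin 4) : eu4 F b j * eu4 F b j = 1 := by
  unfold eu4
  cases dt4 b j <;> simp

theorem eu4_zero (j : Fin 4) : eu4 F 0 j = 1 := by
  unfold eu4
  rw [dt4_zero]
  simp

theorem eu4_zero' (j : Fin 4) : eu4 F j 0 = 1 := by
  unfold eu4
  rw [dt4_zero']
  simp

theorem eu4_prod (b : Fin 4) : ∏ j, eu4 F b j = 1 := by
  rw [Fin.prod_univ_four]
  fin_cases b <;> simp [eu4, dt4]

theorem eu4_orth (h2 : (2 : F) ≠ 0) (j t : Fin 4) : ∑ b, ((eu4 F b j : Fˣ) : F) * ((eu4 F b t : Fˣ) : F) = if t = j then 4 else 0 := by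
  have key := (by decide : ∀ j t : Fin 4, ∑ b : Fin 4, (if xor (dt4 b j) (dt4 b t) = true then (-1 : ℤ) else 1) = if t = j then 4 else 0) j t
  calc ∑ b, ((eu4 F b j : Fˣ) : F) * ((eu4 F b t : Fˣ) : F)
      = ((∑ b : Fin 4, (if xor (dt4 b j) (dt4 b t) = true then (-1 : ℤ) else 1) : ℤ) : F) := by
        rw [Int.cast_sum]
        refine Finset.sum_congr rfl fun b _ => ?_
        unfold eu4
        cases dt4 b j <;> cases dt4 b t <;> simp
    _ = _ := by
        rw [key]
        split_ifs <;> simp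

theorem eu4_ne (h2 : (2 : F) ≠ 0) {b c j k : Fin 4} (h : dt4 b j ≠ dt4 c k) : eu4 F b j ≠ eu4 F c k := by
  have hne : (-1 : Fˣ) ≠ 1 := by
    intro h1
    have h3 : (-1 : F) = 1 := by simpa using congrArg Units.val h1
    apply h2
    linear_combination -h3
  unfold eu4
  by_cases h1 : dt4 b j = true <;> by_cases h3 : dt4 c k = true
  · exact absurd (h1.trans h3.symm) h
  · rw [if_pos h1, if_neg h3]
    exact hne
  · rw [if_neg h1, if_pos h3]
    exact hne.symm
  · exfalso
    apply h
    simp only [Bool.not_eq_true] at h1 h3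
    rw [h1, h3]

/-- A monomial matrix. -/
def monMat (τ : Equiv.Perm (Fin 4)) (d : Fin 4 → Fˣ) : Matrix (Fin 4) (Fin 4) F :=
  fun i j => if i = τ j then (d j : F) else 0

theorem monMat_mul (τ τ' : Equiv.Perm (Fin 4)) (d d' : Fin 4 → Fˣ) :
    monMat τ d * monMat τ' d' = monMat (τ * τ') (fun j => d (τ' j) * d' j) := by
  ext i j
  rw [Matrix.mul_apply, Finset.sum_eq_single (τ' j)]
  · by_cases h : i = τ (τ' j)
    · simp [monMat, h]
    · simp [monMat, h]
  · intro t _ ht
    simp [monMat, ht]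
  · simp

theorem monMat_one : monMat 1 (fun _ => (1 : Fˣ)) = (1 : Matrix (Fin 4) (Fin 4) F) := by
  ext i j
  by_cases h : i = j
  · subst h
    simp [monMat]
  · simp [monMat, h, Matrix.one_apply]

theorem mul_monMat (M : Matrix (Fin 4) (Fin 4) F) (τ : Equiv.Perm (Fin 4)) (d : Fin 4 → Fˣ) (i j : Fin 4) :
    (M * monMat τ d) i j = M i (τ j) * d j := by
  rw [Matrix.mul_apply, Finset.sum_eq_single (τ j)]
  · simp [monMat]
  · intro t _ ht
    simp [monMat, ht]
  · simp

theorem monMat_mul' (M : Matrix (Fin 4) (Fin 4) F) (τ : Equiv.Perm (Fin 4)) (d : Fin 4 → Fˣ) (i j : Fin 4) :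
    (monMat τ d * M) i j = d (τ⁻¹ i) * M (τ⁻¹ i) j := by
  rw [Matrix.mul_apply, Finset.sum_eq_single (τ⁻¹ i)]
  · simp [monMat]
  · intro t _ ht
    have : i ≠ τ t := by
      rintro rfl
      apply ht
      simp
    simp [monMat, this]
  · simp

theorem monMat_mulVec (τ : Equiv.Perm (Fin 4)) (d : Fin 4 → Fˣ) (v : Fin 4 → F) (i : Fin 4) :
    (monMat τ d *ᵥ v) i = d (τ⁻¹ i) * v (τ⁻¹ i) := by
  change ∑ j : Fin 4, monMat τ d i j * v j = _
  rw [Finset.sum_eq_single (τ⁻¹ i)]
  · simp [monMat]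
  · intro t _ ht
    have : i ≠ τ t := by
      rintro rfl
      apply ht
      simp
    simp [monMat, this]
  · simp

/-- The monomial matrix as a group element. -/
def monG (τ : Equiv.Perm (Fin 4)) (d : Fin 4 → Fˣ) : GL (Fin 4) F where
  val := monMat τ d
  inv := monMat τ⁻¹ (fun j => (d (τ⁻¹ j))⁻¹)
  val_inv := by
    rw [monMat_mul, ← monMat_one]
    congr 1
    · simp
    · funext j
      simp
  inv_val := by
    rw [monMat_mul, ← monMat_one]
    congr 1
    · simp
    · funext j
      simp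

theorem monG_mul (τ τ' : Equiv.Perm (Fin 4)) (d d' : Fin 4 → Fˣ) :
    (monG τ d : GL (Fin 4) F) * monG τ' d' = monG (τ * τ') (fun j => d (τ' j) * d' j) :=
  Units.ext (monMat_mul τ τ' d d')

/-- Translation by a label. -/
def xrP (a : Fin 4) : Equiv.Perm (Fin 4) where
  toFun := xr4 a
  invFun := xr4 a
  left_inv := fun j => by rw [← xr4_assoc, xr4_self, xr4_zero]
  right_inv := fun j => by rw [← xr4_assoc, xr4_self, xr4_zero]

theorem xrP_apply (a j : Fin 4) : xrP a j = xr4 a j := rfl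

theorem xrP_inv (a j : Fin 4) : (xrP a)⁻¹ j = xr4 a j := rfl

/-- The elements of the extraspecial-type group. -/
def Eg (s : Fˣ) (a b : Fin 4) : GL (Fin 4) F := monG (xrP a) (fun j => s * eu4 F b j)

theorem Eg_mul (s s' : Fˣ) (a a' b b' : Fin 4) :
    (Eg s a b : GL (Fin 4) F) * Eg s' a' b' = Eg (s * s' * eu4 F b a') (xr4 a a') (xr4 b b') := by
  unfold Eg
  rw [monG_mul]
  congr 1
  · ext j
    simp only [Equiv.Perm.coe_mul, Function.comp_apply, xrP_apply]
    rw [xr4_assoc]
  · funext j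
    change s * eu4 F b (xr4 a' j) * (s' * eu4 F b' j) = s * s' * eu4 F b a' * eu4 F (xr4 b b') j
    rw [eu4_xr, eu4_xr']
    exact Units.ext (by push_cast; ring)

theorem Eg_one : (Eg 1 0 0 : GL (Fin 4) F) = 1 := by
  apply Units.ext
  rw [Units.val_one, ← monMat_one]
  change monMat _ _ = _
  congr 1
  · ext j
    simp [xrP_apply, xr4_zero]
  · funext j
    simp [eu4_zero]

theorem Eg_val (s : Fˣ) (a b : Fin 4) : ((Eg s a b : GL (Fin 4) F) : Matrix (Fin 4) (Fin 4) F) = monMat (xrP a) (fun j => s * eu4 F b j) := rfl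

theorem Eg_scal (s : Fˣ) : ((Eg s 0 0 : GL (Fin 4) F) : Matrix (Fin 4) (Fin 4) F) = (s : F) • 1 := by
  rw [Eg_val]
  ext i j
  by_cases h : i = j
  · subst h
    simp [monMat, xrP_apply, xr4_zero, eu4_zero]
  · simp [monMat, xrP_apply, xr4_zero, eu4_zero, h, Matrix.one_apply]

theorem Eg_inj (h2 : (2 : F) ≠ 0) {s s' : Fˣ} {a a' b b' : Fin 4} (h : (Eg s a b : GL (Fin 4) F) = Eg s' a' b') :
    s = s' ∧ a = a' ∧ b = b' := by
  have hv := congrArg Units.val h
  rw [Eg_val, Eg_val] at hv
  have hent : ∀ i j, monMat (F := F) (xrP a) (fun j => s * eu4 F b j) i j = monMat (xrP a') (fun j => s' * eu4 F b' j) i j := by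
    intro i j
    rw [hv]
  have h1 := hent a 0
  simp only [monMat, xrP_apply, xr4_zero', eu4_zero', mul_one, if_true] at h1
  have haa : a = a' := by
    by_contra hne
    rw [if_neg hne] at h1
    exact s.ne_zero h1
  subst haa
  rw [if_pos rfl] at h1
  have hs : s = s' := Units.ext h1
  subst hs
  refine ⟨rfl, rfl, ?_⟩
  apply dt4_ext
  intro j
  by_contra hne
  have h3 := hent (xr4 a j) j
  simp only [monMat, xrP_apply, if_true] at h3
  apply eu4_ne h2 hne
  have h4 : s * eu4 F b j = s * eu4 F b' j := Units.ext h3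
  exact mul_left_cancel h4

theorem Eg_comm_iff (h2 : (2 : F) ≠ 0) (s t : Fˣ) (a a' b b' : Fin 4) :
    (Eg s a b : GL (Fin 4) F) * Eg t a' b' = Eg t a' b' * Eg s a b ↔ dt4 b a' = dt4 b' a := by
  rw [Eg_mul, Eg_mul, xr4_comm a a', xr4_comm b b']
  constructor
  · intro h
    obtain ⟨h1, -, -⟩ := Eg_inj h2 h
    by_contra hne
    apply eu4_ne (F := F) h2 hne
    have h3 : s * t * eu4 F b a' = s * t * eu4 F b' a := by rw [h1]; exact Units.ext (by push_cast; ring)
    exact mul_left_cancel h3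
  · intro h
    have : eu4 F b a' = eu4 F b' a := by unfold eu4; rw [h]
    rw [this, mul_comm s t]

variable (F) in
/-- The group in question. -/
def sixR : Subgroup (GL (Fin 4) F) where
  carrier := {g | ∃ s a b, g = Eg s a b}
  mul_mem' := by
    rintro _ _ ⟨s, a, b, rfl⟩ ⟨s', a', b', rfl⟩
    exact ⟨_, _, _, Eg_mul _ _ _ _ _ _⟩
  one_mem' := ⟨1, 0, 0, Eg_one.symm⟩
  inv_mem' := by
    rintro _ ⟨s, a, b, rfl⟩
    refine ⟨s⁻¹ * eu4 F b a, a, b, ?_⟩
    apply inv_eq_of_mul_eq_one_right
    rw [Eg_mul, xr4_self, xr4_self, ← Eg_one]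
    congr 1
    have h1 := eu4_sq (F := F) b a
    calc s * (s⁻¹ * eu4 F b a) * eu4 F b a = eu4 F b a * eu4 F b a := by
          rw [← mul_assoc, mul_inv_cancel, one_mul]
      _ = 1 := h1

theorem Eg_mem (s : Fˣ) (a b : Fin 4) : Eg s a b ∈ sixR F := ⟨s, a, b, rfl⟩

end law

section five

variable [Fintype F]

theorem two_ne_of_five (hq : Fintype.card F = 5) : (2 : F) ≠ 0 := by
  intro h
  have h5 : (5 : F) = 0 := by
    have := Nat.cast_card_eq_zero F
    rw [hq] at this
    exact_mod_cast this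
  have : (1 : F) = 0 := by linear_combination h5 - 2 * h
  exact one_ne_zero this

theorem two_sq_of_five (hq : Fintype.card F = 5) : (2 : F) * 2 = -1 := by
  have h5 : (5 : F) = 0 := by
    have := Nat.cast_card_eq_zero F
    rw [hq] at this
    exact_mod_cast this
  linear_combination h5

theorem pow4_of_five (hq : Fintype.card F = 5) (u : Fˣ) : u ^ 4 = 1 := by
  apply Units.ext
  have := FiniteField.pow_card_sub_one_eq_one (u : F) u.ne_zero
  rw [hq] at this
  simpa using this

theorem neg_one_ne_one_units (h2 : (2 : F) ≠ 0) : (-1 : Fˣ) ≠ 1 := by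
  intro h1
  have h3 : (-1 : F) = 1 := by simpa using congrArg Units.val h1
  apply h2
  linear_combination -h3

/-- Functions with the given conditions on squares and product are character multiples. -/
theorem char_of_cond (hq : Fintype.card F = 5) (c : Fin 4 → Fˣ) (hsq : ∀ j, c j * c j = c 0 * c 0) (hp : ∏ j, c j = 1) :
    ∃ s b, ∀ j, c j = s * eu4 F b j := by
  have h2 := two_ne_of_five hq
  have hpm : ∀ j, c j = c 0 ∨ c j = - c 0 := by
    intro j
    have h1 : ((c j : Fˣ) : F) ^ 2 = ((c 0 : Fˣ) : F) ^ 2 := by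
      have := congrArg Units.val (hsq j)
      push_cast at this
      rw [sq, sq]
      exact this
    rcases sq_eq_sq_iff_eq_or_eq_neg.1 h1 with h | h
    · exact Or.inl (Units.ext h)
    · exact Or.inr (Units.ext (by push_cast; exact h))
  rw [Fin.prod_univ_four] at hp
  have h04 := pow4_of_five hq (c 0)
  have h04F : ((c 0 : Fˣ) : F) ^ 4 = 1 := by
    have := congrArg Units.val h04
    simpa using this
  rcases hpm 1 with e1 | e1 <;> rcases hpm 2 with e2 | e2 <;> rcases hpm 3 with e3 | e3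
  · refine ⟨c 0, 0, fun j => ?_⟩
    fin_cases j <;> simp [eu4, dt4, e1, e2, e3]
  · exfalso
    rw [e1, e2, e3] at hp
    apply h2
    have hpF := congrArg Units.val hp
    push_cast at hpF
    linear_combination -h04F - hpF
  · exfalso
    rw [e1, e2, e3] at hp
    apply h2
    have hpF := congrArg Units.val hp
    push_cast at hpF
    linear_combination -h04F - hpF
  · refine ⟨c 0, 2, fun j => ?_⟩
    fin_cases j <;> simp [eu4, dt4, e1, e2, e3]
  · exfalso
    rw [e1, e2, e3] at hp
    apply h2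
    have hpF := congrArg Units.val hp
    push_cast at hpF
    linear_combination -h04F - hpF
  · refine ⟨c 0, 1, fun j => ?_⟩
    fin_cases j <;> simp [eu4, dt4, e1, e2, e3]
  · refine ⟨c 0, 3, fun j => ?_⟩
    fin_cases j <;> simp [eu4, dt4, e1, e2, e3]
  · exfalso
    rw [e1, e2, e3] at hp
    apply h2
    have hpF := congrArg Units.val hp
    push_cast at hpF
    linear_combination -h04F - hpF

end five

end Cfsg.Agent.Lib.ClassMax.Asch
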