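import Mathlib
import Cfsg.Agent.Lib.ClassMax.Asch22

/-!
The group of order 64 in dimension 4 over the field of five elements: normality, cardinalities and
characteristic subgroups.
-/

set_option autoImplicit false
set_option linter.unusedSimpArgs false
set_option linter.unusedVariables false
set_option linter.unusedSectionVars false
set_option linter.unusedFintypeInType false
set_option linter.unusedDecidableInType false
set_option maxRecDepth 100000

namespace Cfsg.Agent.Lib.ClassMax.Asch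

open Module Matrix Cfsg.Geo Cfsg.Agent.Lib.ClassMax Cfsg.Agent.Lib.ClassMax.PhiCount

variable {F : Type*} [Field F] [Fintype F]

theorem aux4_pairs {p q r s : F} (hr : r * r = 1) (hs : s * s = 1) (h : p * q * r * s = 1) : p * q = r * s := by
  have h1 : (r * s) * (r * s) = 1 := by
    calc (r * s) * (r * s) = (r * r) * (s * s) := by ring
      _ = 1 := by rw [hr, hs, one_mul]
  calc p * q = p * q * ((r * s) * (r * s)) := by rw [h1, mul_one]
    _ = (p * q * r * s) * (r * s) := by ring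
    _ = r * s := by rw [h, one_mul]

theorem pairs_aux (y : Fin 4 → F) (hs : ∀ j, y j * y j = 1) (hp : y 0 * y 1 * y 2 * y 3 = 1) (a j : Fin 4) :
    y (xr4 a j) * y j = y a * y 0 := by
  have e01 : y 0 * y 1 = y 2 * y 3 := aux4_pairs (hs 2) (hs 3) hp
  have e02 : y 0 * y 2 = y 1 * y 3 := aux4_pairs (hs 1) (hs 3) (by linear_combination hp)
  have e03 : y 0 * y 3 = y 1 * y 2 := aux4_pairs (hs 1) (hs 2) (by linear_combination hp)
  have ha : a = 0 ∨ a = 1 ∨ a = 2 ∨ a = 3 := by omega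
  have hj : j = 0 ∨ j = 1 ∨ j = 2 ∨ j = 3 := by omega
  rcases ha with rfl | rfl | rfl | rfl <;> rcases hj with rfl | rfl | rfl | rfl
  · change y 0 * y 0 = y 0 * y 0
    rfl
  · change y 1 * y 1 = y 0 * y 0
    rw [hs, hs]
  · change y 2 * y 2 = y 0 * y 0
    rw [hs, hs]
  · change y 3 * y 3 = y 0 * y 0
    rw [hs, hs]
  · change y 1 * y 0 = y 1 * y 0
    rfl
  · change y 0 * y 1 = y 1 * y 0
    ring
  · change y 3 * y 2 = y 1 * y 0
    linear_combination -e01
  · change y 2 * y 3 = y 1 * y 0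
    linear_combination -e01
  · change y 2 * y 0 = y 2 * y 0
    rfl
  · change y 3 * y 1 = y 2 * y 0
    linear_combination -e02
  · change y 0 * y 2 = y 2 * y 0
    ring
  · change y 1 * y 3 = y 2 * y 0
    linear_combination -e02
  · change y 3 * y 0 = y 3 * y 0
    rfl
  · change y 2 * y 1 = y 3 * y 0
    linear_combination -e03
  · change y 1 * y 2 = y 3 * y 0
    linear_combination -e03
  · change y 0 * y 3 = y 3 * y 0
    ring

/-- A monomial matrix of determinant ±1 normalises the group. -/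
theorem Eg_normal (hq : Fintype.card F = 5) (τ : Equiv.Perm (Fin 4)) (d : Fin 4 → Fˣ) (hd : (∏ j, d j) ^ 2 = 1) (s : Fˣ) (a b : Fin 4) :
    (monG τ d : GL (Fin 4) F) * Eg s a b * (monG τ d)⁻¹ ∈ sixR F := by
  let c' : Fin 4 → Fˣ := fun j => d (xr4 a j) * (s * eu4 F b j) * (d j)⁻¹
  have hD4 : ∀ j, ((d j : Fˣ) : F) ^ 4 = 1 := by
    intro j
    have := congrArg Units.val (pow4_of_five hq (d j))
    simpa using this
  have hinv : ∀ j, (d j)⁻¹ = d j ^ 3 := by
    intro j
    apply inv_eq_of_mul_eq_one_left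
    rw [← pow_succ]
    exact pow4_of_five hq (d j)
  have hE : ∀ j, ((eu4 F b j : Fˣ) : F) * ((eu4 F b j : Fˣ) : F) = 1 := by
    intro j
    have := congrArg Units.val (eu4_sq (F := F) b j)
    simpa using this
  let y : Fin 4 → F := fun j => (d j : F) * (d j : F)
  have hys : ∀ j, y j * y j = 1 := by
    intro j
    have := hD4 j
    simp only [y]
    linear_combination this
  have hyp : y 0 * y 1 * y 2 * y 3 = 1 := by
    have h1 := congrArg Units.val hd
    rw [Fin.prod_univ_four] at h1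
    push_cast at h1
    simp only [y]
    linear_combination h1
  have hpairs := pairs_aux y hys hyp a
  have hc2 : ∀ j, ((c' j : Fˣ) : F) * ((c' j : Fˣ) : F) = s * s * (y a * y 0) := by
    intro j
    rw [← hpairs j]
    simp only [c', y, hinv j]
    push_cast
    linear_combination (s : F) ^ 2 * (d (xr4 a j) : F) ^ 2 * (d j : F) ^ 6 * (hE j) + (s : F) ^ 2 * (d (xr4 a j) : F) ^ 2 * (d j : F) ^ 2 * (hD4 j)
  have hprod : ∏ j, c' j = 1 := by
    simp only [c']
    rw [Finset.prod_mul_distrib, Finset.prod_mul_distrib, Finset.prod_mul_distrib, Finset.prod_inv_distrib, Finset.prod_const, eu4_prod]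
    have e : ∏ j, d (xr4 a j) = ∏ j, d j := Equiv.prod_comp (xrP a) d
    rw [e, Finset.card_univ, Fintype.card_fin, pow4_of_five hq s]
    simp
  obtain ⟨s', b', hc⟩ := char_of_cond hq (fun t => c' (τ⁻¹ t)) (fun t => Units.ext (by
    rw [Units.val_mul (c' (τ⁻¹ t)), Units.val_mul (c' (τ⁻¹ 0)), hc2, hc2])) (by
      rw [Equiv.prod_comp τ⁻¹ c']
      exact hprod)
  refine ⟨s', xr4 (τ a) (τ 0), b', ?_⟩
  rw [mul_inv_eq_iff_eq_mul]
  unfold Eg
  rw [monG_mul, monG_mul]
  have hperm : τ * xrP a = xrP (xr4 (τ a) (τ 0)) * τ := Equiv.ext fun j => xr4_affine τ a j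
  have hcoef : (fun j => d (xrP a j) * (s * eu4 F b j)) = (fun j => s' * eu4 F b' (τ j) * d j) := by
    funext j
    have h1 := hc (τ j)
    have h1' : τ⁻¹ (τ j) = j := by simp
    simp only [h1'] at h1
    rw [← h1]
    simp only [c', xrP_apply]
    rw [inv_mul_cancel_right]
  rw [hperm, hcoef]

theorem monMat_det_sq (τ : Equiv.Perm (Fin 4)) (d : Fin 4 → Fˣ) :
    (monMat τ d : Matrix (Fin 4) (Fin 4) F).det ^ 2 = ((∏ j, d j : Fˣ) : F) ^ 2 := by
  have h1 : (monMat τ d : Matrix (Fin 4) (Fin 4) F) = (Matrix.diagonal (fun j => ((d j : Fˣ) : F))).submatrix (⇑(τ⁻¹ : Equiv.Perm (Fin 4))) id := by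
    ext i j
    simp only [monMat, Matrix.submatrix_apply, id, Matrix.diagonal_apply]
    by_cases h : i = τ j
    · subst h
      simp
    · have h' : τ⁻¹ i ≠ j := by
        rintro rfl
        simp at h
      rw [if_neg h, if_neg h']
  rw [h1, Matrix.det_permute, Matrix.det_diagonal, mul_pow]
  have h2 : (((Equiv.Perm.sign τ⁻¹ : ℤˣ) : ℤ) : F) ^ 2 = 1 := by
    rcases Int.units_eq_one_or (Equiv.Perm.sign τ⁻¹) with h | h <;> rw [h] <;> simp
  rw [h2, one_mul]
  push_cast
  rfl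

/-- The Cayley element. -/
def cayG (c : F) (W : Matrix (Fin 4) (Fin 4) F) (hc : c * 2 = 1) (hW : W * W = -1) : GL (Fin 4) F where
  val := 1 + W
  inv := c • (1 - W)
  val_inv := by
    have h1 : (1 + W) * (1 - W) = (2 : F) • (1 : Matrix (Fin 4) (Fin 4) F) := by
      have : (1 + W) * (1 - W) = 1 - W * W := by noncomm_ring
      rw [this, hW, two_smul, sub_neg_eq_add]
    rw [mul_smul_comm, h1, smul_smul, hc, one_smul]
  inv_val := by
    have h1 : (1 - W) * (1 + W) = (2 : F) • (1 : Matrix (Fin 4) (Fin 4) F) := by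
      have : (1 - W) * (1 + W) = 1 - W * W := by noncomm_ring
      rw [this, hW, two_smul, sub_neg_eq_add]
    rw [smul_mul_assoc, h1, smul_smul, hc, one_smul]

theorem cay_comm {c : F} {W H : Matrix (Fin 4) (Fin 4) F} (hc : c * 2 = 1) (hW : W * W = -1) (h : H * W = W * H) :
    (1 + W) * H * (c • (1 - W)) = H := by
  have h1 : (1 + W) * (c • (1 - W)) = 1 := (cayG c W hc hW).val_inv
  have h2 : (1 + W) * H = H * (1 + W) := by
    rw [add_mul, mul_add, one_mul, mul_one, h]
  rw [h2, mul_assoc, h1, mul_one]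

theorem cay_anti {c : F} {W H : Matrix (Fin 4) (Fin 4) F} (hc : c * 2 = 1) (hW : W * W = -1) (h : H * W = -(W * H)) :
    (1 + W) * H * (c • (1 - W)) = -(H * W) := by
  have e1 : (1 + W) * H = H * (1 - W) := by
    rw [add_mul, one_mul, mul_sub, mul_one, h, sub_neg_eq_add]
  have e2 : (1 - W) * (1 - W) = (-2 : F) • W := by
    have : (1 - W) * (1 - W) = 1 - W - W + W * W := by noncomm_ring
    rw [this, hW]
    module
  have h3 : c * -2 = -1 := by linear_combination -hc
  calc (1 + W) * H * (c • (1 - W)) = c • (H * ((1 - W) * (1 - W))) := by rw [e1, mul_smul_comm, mul_assoc]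
    _ = c • (H * ((-2 : F) • W)) := by rw [e2]
    _ = (c * -2) • (H * W) := by rw [mul_smul_comm, smul_smul]
    _ = -(H * W) := by rw [h3, neg_smul, one_smul]

theorem Eg_neg (s : Fˣ) (a b : Fin 4) : ((Eg (-s) a b : GL (Fin 4) F) : Matrix (Fin 4) (Fin 4) F) = -(Eg s a b : GL (Fin 4) F).val := by
  rw [Eg_val, Eg_val]
  ext i j
  simp only [monMat, Matrix.neg_apply]
  split_ifs <;> simp

theorem eu4_neg_of_ne {b c j k : Fin 4} (h : dt4 b j ≠ dt4 c k) : eu4 F b j = - eu4 F c k := by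
  unfold eu4
  by_cases h1 : dt4 b j = true <;> by_cases h3 : dt4 c k = true
  · exact absurd (h1.trans h3.symm) h
  · rw [if_pos h1, if_neg h3]
  · rw [if_neg h1, if_pos h3, neg_neg]
  · exfalso
    apply h
    simp only [Bool.not_eq_true] at h1 h3
    rw [h1, h3]

theorem Eg_anti {s t : Fˣ} {a a' b b' : Fin 4} (h : dt4 b a' ≠ dt4 b' a) :
    ((Eg s a b : GL (Fin 4) F) : Matrix (Fin 4) (Fin 4) F) * (Eg t a' b' : GL (Fin 4) F).val = -((Eg t a' b' : GL (Fin 4) F).val * (Eg s a b : GL (Fin 4) F).val) := by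
  rw [← Units.val_mul, ← Units.val_mul, Eg_mul, Eg_mul, xr4_comm a' a, xr4_comm b' b, ← Eg_neg, eu4_neg_of_ne h]
  congr 2
  exact Units.ext (by push_cast; ring)

/-- For a non-scalar member, there is an automorphism moving it to an element with which it does not commute. -/
theorem six_noncomm (hq : Fintype.card F = 5) (s : Fˣ) {a b : Fin 4} (hab : ¬ (a = 0 ∧ b = 0)) :
    ∃ (φ : ↥(sixR F) ≃* ↥(sixR F)) (y : ↥(sixR F)), φ ⟨Eg s a b, Eg_mem s a b⟩ = y ∧ ¬ (Eg s a b * y.1 = y.1 * Eg s a b) := by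
  classical
  have h2 := two_ne_of_five hq
  obtain ⟨a', b', hne⟩ := dt4_pair a b hab
  let i : Fˣ := Units.mk0 2 h2
  have hi : (i : F) * (i : F) = -1 := two_sq_of_five hq
  have hii : i * i = -1 := Units.ext (by push_cast; exact hi)
  obtain ⟨t, ht⟩ : ∃ t : Fˣ, t * t * eu4 F b' a' = 1 := by
    unfold eu4
    by_cases h : dt4 b' a' = true
    · exact ⟨i, by rw [if_pos h, hii]; simp⟩
    · exact ⟨1, by rw [if_neg h]; simp⟩
  let U : GL (Fin 4) F := Eg t a' b'
  have hUU : U * U = 1 := by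
    change Eg t a' b' * Eg t a' b' = 1
    rw [Eg_mul, ht, xr4_self, xr4_self, Eg_one]
  let W : Matrix (Fin 4) (Fin 4) F := (i : F) • (U : Matrix (Fin 4) (Fin 4) F)
  have hUm : (U : Matrix (Fin 4) (Fin 4) F) * (U : Matrix (Fin 4) (Fin 4) F) = 1 := by
    rw [← Units.val_mul, hUU, Units.val_one]
  have hW : W * W = -1 := by
    simp only [W]
    rw [smul_mul_assoc, mul_smul_comm, hUm, smul_smul, hi]
    simp
  have hc2 : (2⁻¹ : F) * 2 = 1 := inv_mul_cancel₀ h2
  let g : GL (Fin 4) F := cayG 2⁻¹ W hc2 hW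
  have hgv : (g : Matrix (Fin 4) (Fin 4) F) = 1 + W := rfl
  have hgi : ((g⁻¹ : GL (Fin 4) F) : Matrix (Fin 4) (Fin 4) F) = (2⁻¹ : F) • (1 - W) := rfl
  have hanti : ∀ s₁ a₁ b₁, dt4 b₁ a' ≠ dt4 b' a₁ → g * Eg s₁ a₁ b₁ * g⁻¹ = Eg (-i) 0 0 * Eg s₁ a₁ b₁ * U := by
    intro s₁ a₁ b₁ h
    apply Units.ext
    rw [Units.val_mul, Units.val_mul, Units.val_mul, Units.val_mul, hgv, hgi, Eg_scal]
    have h1 : (Eg s₁ a₁ b₁ : GL (Fin 4) F).val * W = -(W * (Eg s₁ a₁ b₁ : GL (Fin 4) F).val) := by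
      simp only [W]
      rw [mul_smul_comm, smul_mul_assoc, Eg_anti h, smul_neg]
    rw [cay_anti hc2 hW h1]
    simp only [W]
    rw [mul_smul_comm, smul_mul_assoc, one_mul, smul_mul_assoc]
    simp
  have hcomm : ∀ s₁ a₁ b₁, dt4 b₁ a' = dt4 b' a₁ → g * Eg s₁ a₁ b₁ * g⁻¹ = Eg s₁ a₁ b₁ := by
    intro s₁ a₁ b₁ h
    apply Units.ext
    rw [Units.val_mul, Units.val_mul, hgv, hgi]
    have h0 : (Eg s₁ a₁ b₁ : GL (Fin 4) F) * U = U * Eg s₁ a₁ b₁ := (Eg_comm_iff h2 _ _ _ _ _ _).2 h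
    have h1 : (Eg s₁ a₁ b₁ : GL (Fin 4) F).val * W = W * (Eg s₁ a₁ b₁ : GL (Fin 4) F).val := by
      simp only [W]
      rw [mul_smul_comm, smul_mul_assoc, ← Units.val_mul, ← Units.val_mul, h0]
    exact cay_comm hc2 hW h1
  have hU : U ∈ sixR F := Eg_mem _ _ _
  have hmem : ∀ h ∈ sixR F, g * h * g⁻¹ ∈ sixR F := by
    rintro _ ⟨s₁, a₁, b₁, rfl⟩
    by_cases h : dt4 b₁ a' = dt4 b' a₁
    · rw [hcomm _ _ _ h]
      exact Eg_mem _ _ _
    · rw [hanti _ _ _ h]
      exact (sixR F).mul_mem ((sixR F).mul_mem (Eg_mem _ _ _) (Eg_mem _ _ _)) hU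
  let φ₀ : ↥(sixR F) →* ↥(sixR F) :=
    { toFun := fun h => ⟨g * h.1 * g⁻¹, hmem _ h.2⟩
      map_one' := Subtype.ext (by simp)
      map_mul' := fun x y => Subtype.ext (by simp [mul_assoc]) }
  have hinj : Function.Injective φ₀ := by
    intro x y h
    have h1 : g * x.1 * g⁻¹ = g * y.1 * g⁻¹ := congrArg Subtype.val h
    apply Subtype.ext
    simpa using h1
  let φ : ↥(sixR F) ≃* ↥(sixR F) := MulEquiv.ofBijective φ₀ (Finite.injective_iff_bijective.1 hinj)
  refine ⟨φ, ⟨Eg (-i) 0 0 * Eg s a b * U, (sixR F).mul_mem ((sixR F).mul_mem (Eg_mem _ _ _) (Eg_mem _ _ _)) hU⟩, ?_, ?_⟩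
  · apply Subtype.ext
    exact hanti _ _ _ hne
  · intro h
    have h3 : (Eg (-i) 0 0 * Eg s a b * U : GL (Fin 4) F) = Eg (-i * s * eu4 F 0 a * t * eu4 F (xr4 0 b) a') (xr4 (xr4 0 a) a') (xr4 (xr4 0 b) b') := by
      simp only [U]
      rw [Eg_mul, Eg_mul]
    simp only at h
    rw [h3, xr4_zero, xr4_zero] at h
    have h4 := (Eg_comm_iff h2 _ _ _ _ _ _).1 h
    rw [dt4_xr, dt4_xr'] at h4
    apply hne
    cases h5 : dt4 b a <;> cases h6 : dt4 b a' <;> cases h7 : dt4 b' a <;> simp_all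

theorem six_cyclic (hq : Fintype.card F = 5) (A : Subgroup ↥(sixR F)) (hA : A.Characteristic) (hc : IsMulCommutative A) : IsCyclic A := by
  have hscal : ∀ x ∈ A, ∃ s, (x : GL (Fin 4) F) = Eg s 0 0 := by
    rintro ⟨_, s, a, b, rfl⟩ hx
    by_cases hab : a = 0 ∧ b = 0
    · obtain ⟨rfl, rfl⟩ := hab
      exact ⟨s, rfl⟩
    · exfalso
      obtain ⟨φ, y, hy, hny⟩ := six_noncomm hq s hab
      have hyA : y ∈ A := by
        have h0 := hA.fixed φ
        rw [← hy]
        have h1 : (⟨Eg s a b, Eg_mem s a b⟩ : ↥(sixR F)) ∈ A.comap φ.toMonoidHom := by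
          rw [h0]
          exact hx
        exact h1
      have h3 := hc.is_comm.comm ⟨_, hx⟩ ⟨y, hyA⟩
      exact hny (congrArg (fun z : ↥A => ((z : ↥(sixR F)) : GL (Fin 4) F)) h3)
  have hval : ∀ (s : Fˣ), ((Eg s 0 0 : GL (Fin 4) F) : Matrix (Fin 4) (Fin 4) F) 0 0 = s := by
    intro s
    rw [Eg_scal]
    simp
  let f : ↥A →* F :=
    { toFun := fun x => ((x : ↥(sixR F)) : GL (Fin 4) F).val 0 0
      map_one' := by simp
      map_mul' := fun x y => by
        obtain ⟨s, hs⟩ := hscal _ x.2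
        obtain ⟨t, ht⟩ := hscal _ y.2
        have e : (((x * y : ↥A) : ↥(sixR F)) : GL (Fin 4) F) = ((x : ↥(sixR F)) : GL (Fin 4) F) * ((y : ↥(sixR F)) : GL (Fin 4) F) := rfl
        have e2 : (Eg s 0 0 * Eg t 0 0 : GL (Fin 4) F) = Eg (s * t) 0 0 := by
          rw [Eg_mul, eu4_zero, mul_one]
          rfl
        rw [e, hs, ht, e2, hval, hval, hval, Units.val_mul] }
  have hf : Function.Injective f := by
    intro x y h
    obtain ⟨s, hs⟩ := hscal _ x.2
    obtain ⟨t, ht⟩ := hscal _ y.2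
    have h1 : ((x : ↥(sixR F)) : GL (Fin 4) F).val 0 0 = ((y : ↥(sixR F)) : GL (Fin 4) F).val 0 0 := h
    rw [hs, ht, hval, hval] at h1
    have h3 : s = t := Units.ext h1
    apply Subtype.ext
    apply Subtype.ext
    rw [hs, ht, h3]
  exact isCyclic_of_subgroup_isDomain f hf

theorem six_pow4 (hq : Fintype.card F = 5) {x : GL (Fin 4) F} (hx : x ∈ sixR F) : x ^ 4 = 1 := by
  obtain ⟨s, a, b, rfl⟩ := hx
  have h1 : (Eg s a b : GL (Fin 4) F) * Eg s a b = Eg (s * s * eu4 F b a) 0 0 := by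
    rw [Eg_mul, xr4_self, xr4_self]
  have h3 : (Eg s a b : GL (Fin 4) F) ^ 4 = (Eg s a b * Eg s a b) * (Eg s a b * Eg s a b) := by
    simp only [pow_succ, pow_zero, one_mul, mul_assoc]
  rw [h3, h1, Eg_mul, ← Eg_one]
  have h4 : s * s * eu4 F b a * (s * s * eu4 F b a) * eu4 F 0 0 = 1 := by
    rw [eu4_zero, mul_one]
    have h5 := pow4_of_five hq s
    have h6 := eu4_sq (F := F) b a
    calc s * s * eu4 F b a * (s * s * eu4 F b a) = s ^ 4 * (eu4 F b a * eu4 F b a) := by
          apply Units.ext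
          push_cast
          ring
      _ = 1 := by rw [h5, h6, one_mul]
  rw [h4]
  rfl

theorem six_abs_irr (hq : Fintype.card F = 5) : ActsAbsolutelyIrreducibly (matrixSet (sixR F)) := by
  classical
  have h2 := two_ne_of_five hq
  have h4 : (4 : F) ≠ 0 := by
    have h5 : (5 : F) = 0 := by
      have := Nat.cast_card_eq_zero F
      rw [hq] at this
      exact_mod_cast this
    intro h
    have : (1 : F) = 0 := by linear_combination h5 - h
    exact one_ne_zero this
  constructor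
  · intro W hW
    by_cases hbot : W = ⊥
    · exact Or.inl hbot
    right
    obtain ⟨v, hv, hv0⟩ := Submodule.exists_mem_ne_zero_of_ne_bot hbot
    obtain ⟨j, hj⟩ := Function.ne_iff.1 hv0
    have hact : ∀ g ∈ sixR F, ∀ x ∈ W, (g : Matrix (Fin 4) (Fin 4) F) *ᵥ x ∈ W :=
      fun g hg x hx => hW _ ⟨g, hg, rfl⟩ ⟨x, hx, rfl⟩
    have e1 : ∀ b, ((Eg 1 0 b : GL (Fin 4) F) : Matrix (Fin 4) (Fin 4) F) *ᵥ v = fun t => (eu4 F b t : F) * v t := by
      intro b
      funext t
      rw [Eg_val, monMat_mulVec, xrP_inv, xr4_zero]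
      simp
    have hw : (∑ b, ((eu4 F b j : Fˣ) : F) • (((Eg 1 0 b : GL (Fin 4) F) : Matrix (Fin 4) (Fin 4) F) *ᵥ v)) = (4 * v j) • (Pi.single j 1 : Fin 4 → F) := by
      funext t
      rw [Finset.sum_apply]
      simp only [e1, Pi.smul_apply, smul_eq_mul]
      have h5 : ∀ b : Fin 4, ((eu4 F b j : Fˣ) : F) * (((eu4 F b t : Fˣ) : F) * v t) = (((eu4 F b j : Fˣ) : F) * ((eu4 F b t : Fˣ) : F)) * v t := fun b => by ring
      simp only [h5]
      rw [← Finset.sum_mul, eu4_orth h2]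
      by_cases ht : t = j
      · subst ht
        simp
      · simp [ht, Pi.single_apply]
    have hej : (Pi.single j 1 : Fin 4 → F) ∈ W := by
      have h6 : (4 * v j) • (Pi.single j 1 : Fin 4 → F) ∈ W := by
        rw [← hw]
        exact Submodule.sum_mem _ fun b _ => Submodule.smul_mem _ _ (hact _ (Eg_mem _ _ _) _ hv)
      exact (Submodule.smul_mem_iff _ (mul_ne_zero h4 hj)).1 h6
    have hek : ∀ k, (Pi.single k 1 : Fin 4 → F) ∈ W := by
      intro k
      have h7 : ((Eg 1 (xr4 k j) 0 : GL (Fin 4) F) : Matrix (Fin 4) (Fin 4) F) *ᵥ (Pi.single j 1 : Fin 4 → F) = Pi.single k 1 := by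
        funext t
        rw [Eg_val, monMat_mulVec, xrP_inv]
        simp only [eu4_zero, one_mul, Units.val_one, mul_one]
        have key : ∀ k j t : Fin 4, xr4 (xr4 k j) t = j ↔ t = k := by decide
        by_cases ht : t = k
        · subst ht
          simp [Pi.single_apply, (key _ _ _).2 rfl]
        · have h8 : xr4 (xr4 k j) t ≠ j := fun h => ht ((key _ _ _).1 h)
          simp [Pi.single_apply, h8, ht]
      rw [← h7]
      exact hact _ (Eg_mem _ _ _) _ hej
    rw [eq_top_iff]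
    intro x _
    have h9 : x = ∑ k, x k • (Pi.single k 1 : Fin 4 → F) := by
      funext t
      rw [Finset.sum_apply, Finset.sum_eq_single t]
      · simp
      · intro k _ hk
        simp [Pi.single_apply, Ne.symm hk]
      · simp
    rw [h9]
    exact Submodule.sum_mem _ fun k _ => Submodule.smul_mem _ _ (hek k)
  · intro M hM
    have hcomm : ∀ s a b, M * monMat (xrP a) (fun j => s * eu4 F b j) = monMat (xrP a) (fun j => s * eu4 F b j) * M := fun s a b =>
      hM _ ⟨Eg s a b, Eg_mem _ _ _, rfl⟩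
    have hoff : ∀ i j, i ≠ j → M i j = 0 := by
      intro i j hij
      obtain ⟨b, hb⟩ := dt4_sep i j hij
      have h5 := congrFun (congrFun (hcomm 1 0 b) i) j
      rw [mul_monMat, monMat_mul', xrP_apply, show (xrP 0)⁻¹ i = xr4 0 i from rfl, xr4_zero, xr4_zero] at h5
      simp only [one_mul] at h5
      have h6 : eu4 F b i ≠ eu4 F b j := eu4_ne h2 hb
      have h7 : ((eu4 F b i : Fˣ) : F) ≠ eu4 F b j := fun h => h6 (Units.ext h)
      have h8 : M i j * ((eu4 F b j : Fˣ) - (eu4 F b i : Fˣ)) = 0 := by linear_combination h5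
      rcases mul_eq_zero.1 h8 with h | h
      · exact h
      · exact absurd (sub_eq_zero.1 h).symm h7
    have hdiag : ∀ k, M k k = M 0 0 := by
      intro k
      have h5 := congrFun (congrFun (hcomm 1 k 0) k) 0
      rw [mul_monMat, monMat_mul', xrP_apply, show (xrP k)⁻¹ k = xr4 k k from rfl, xr4_self, xr4_zero'] at h5
      simpa [eu4_zero] using h5
    refine ⟨M 0 0, ?_⟩
    ext i j
    by_cases hij : i = j
    · subst hij
      simp [hdiag i]
    · simp [hoff i j hij, hij]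

theorem six_type (hq : Fintype.card F = 5) : IsSymplecticTypeGroup 2 (sixR F) := by
  have h2 := two_ne_of_five hq
  refine ⟨Nat.prime_two, fun x => ⟨2, Subtype.ext ?_⟩, fun A hA hc => six_cyclic hq A hA hc, ?_⟩
  · exact six_pow4 hq x.2
  · have hdvd : Monoid.exponent ↥(sixR F) ∣ 4 := by
      apply Monoid.exponent_dvd_of_forall_pow_eq_one
      intro x
      exact Subtype.ext (six_pow4 hq x.2)
    let i : Fˣ := Units.mk0 2 h2
    have hi : (i : F) * (i : F) = -1 := two_sq_of_five hq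
    have hii : i * i = -1 := Units.ext (by push_cast; exact hi)
    let I : ↥(sixR F) := ⟨Eg i 0 0, Eg_mem _ _ _⟩
    have hI2 : I ^ 2 ≠ 1 := by
      intro h
      have h1 : (Eg i 0 0 * Eg i 0 0 : GL (Fin 4) F) = 1 := by
        have := congrArg Subtype.val h
        rw [← sq]
        exact this
      rw [Eg_mul, ← Eg_one] at h1
      obtain ⟨h3, -, -⟩ := Eg_inj h2 h1
      rw [eu4_zero, mul_one, hii] at h3
      exact neg_one_ne_one_units h2 h3
    have hI4 : I ^ 4 = 1 := Subtype.ext (six_pow4 hq I.2)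
    have hord : orderOf I = 2 ^ (1 + 1) := orderOf_eq_prime_pow (by simpa using hI2) (by simpa using hI4)
    have h5 : 4 ∣ Monoid.exponent ↥(sixR F) := by
      have := Monoid.order_dvd_exponent I
      rwa [hord] at this
    have h6 : Monoid.exponent ↥(sixR F) = 4 := Nat.dvd_antisymm hdvd h5
    rw [h6]
    rfl

/-- A central element of the group is a scalar. -/
theorem six_central (hq : Fintype.card F = 5) {s : Fˣ} {a b : Fin 4} (h : ∀ y ∈ sixR F, Eg s a b * y = y * Eg s a b) : a = 0 ∧ b = 0 := by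
  by_contra hab
  obtain ⟨a', b', hne⟩ := dt4_pair a b hab
  exact hne ((Eg_comm_iff (two_ne_of_five hq) s 1 a a' b b').1 (h _ (Eg_mem _ _ _)))

theorem six_card (hq : Fintype.card F = 5) : Nat.card ↥(sixR F) = 2 ^ (2 + 2 * 2) := by
  classical
  have h2 := two_ne_of_five hq
  let f : Fˣ × Fin 4 × Fin 4 → ↥(sixR F) := fun p => ⟨Eg p.1 p.2.1 p.2.2, Eg_mem _ _ _⟩
  have hf : Function.Bijective f := by
    constructor
    · rintro ⟨s, a, b⟩ ⟨s', a', b'⟩ h
      obtain ⟨h1, h3, h4⟩ := Eg_inj h2 (congrArg Subtype.val h)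
      subst h1 h3 h4
      rfl
    · rintro ⟨_, s, a, b, rfl⟩
      exact ⟨(s, a, b), rfl⟩
  rw [← Nat.card_congr (Equiv.ofBijective f hf), Nat.card_prod, Nat.card_prod, Nat.card_eq_fintype_card, Nat.card_eq_fintype_card,
    Fintype.card_units, hq]
  simp

theorem six_center_card (hq : Fintype.card F = 5) : Nat.card (Subgroup.center ↥(sixR F)) = 4 := by
  classical
  have h2 := two_ne_of_five hq
  have hcen : ∀ s : Fˣ, (⟨Eg s 0 0, Eg_mem _ _ _⟩ : ↥(sixR F)) ∈ Subgroup.center ↥(sixR F) := by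
    intro s
    rw [Subgroup.mem_center_iff]
    rintro ⟨_, t, a, b, rfl⟩
    apply Subtype.ext
    change Eg t a b * Eg s 0 0 = Eg s 0 0 * Eg t a b
    exact (Eg_comm_iff h2 _ _ _ _ _ _).2 (by rw [dt4_zero, dt4_zero'])
  let f : Fˣ → Subgroup.center ↥(sixR F) := fun s => ⟨⟨Eg s 0 0, Eg_mem _ _ _⟩, hcen s⟩
  have hf : Function.Bijective f := by
    constructor
    · intro s t h
      have h1 : (Eg s 0 0 : GL (Fin 4) F) = Eg t 0 0 := congrArg (fun z : Subgroup.center ↥(sixR F) => ((z : ↥(sixR F)) : GL (Fin 4) F)) h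
      exact (Eg_inj h2 h1).1
    · rintro ⟨⟨_, s, a, b, rfl⟩, hz⟩
      rw [Subgroup.mem_center_iff] at hz
      obtain ⟨rfl, rfl⟩ := six_central hq (s := s) (a := a) (b := b) (fun y hy => by
        have := hz ⟨y, hy⟩
        exact (congrArg Subtype.val this).symm)
      exact ⟨s, rfl⟩
  rw [← Nat.card_congr (Equiv.ofBijective f hf), Nat.card_eq_fintype_card, Fintype.card_units, hq]

section transport

variable {n : ℕ}

/-- Conjugation of a subgroup. -/
def conjSub (P : GL (Fin n) F) (R : Subgroup (GL (Fin n) F)) : Subgroup (GL (Fin n) F) :=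
  R.map (MulAut.conj P).toMonoidHom

theorem mem_conjSub {P : GL (Fin n) F} {R : Subgroup (GL (Fin n) F)} {x : GL (Fin n) F} :
    x ∈ conjSub P R ↔ P⁻¹ * x * P ∈ R := by
  constructor
  · rintro ⟨y, hy, rfl⟩
    have : P⁻¹ * (MulAut.conj P).toMonoidHom y * P = y := by
      simp [MulAut.conj_apply, mul_assoc]
    rw [this]
    exact hy
  · intro h
    refine ⟨_, h, ?_⟩
    simp [MulAut.conj_apply, mul_assoc]

/-- The isomorphism between a subgroup and a conjugate. -/
noncomputable def conjSubEquiv (P : GL (Fin n) F) (R : Subgroup (GL (Fin n) F)) : ↥R ≃* ↥(conjSub P R) :=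
  (MulAut.conj P).subgroupMap R

theorem conjSubEquiv_val (P : GL (Fin n) F) (R : Subgroup (GL (Fin n) F)) (x : ↥R) :
    ((conjSubEquiv P R x : ↥(conjSub P R)) : GL (Fin n) F) = P * x.1 * P⁻¹ := rfl

theorem type_conj {r : ℕ} {R : Subgroup (GL (Fin n) F)} (h : IsSymplecticTypeGroup r R) (P : GL (Fin n) F) :
    IsSymplecticTypeGroup r (conjSub P R) := by
  let φ := conjSubEquiv P R
  refine ⟨h.prime, ?_, ?_, ?_⟩
  · intro x
    obtain ⟨k, hk⟩ := h.pGroup (φ.symm x)
    refine ⟨k, ?_⟩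
    apply φ.symm.injective
    rw [map_pow, hk, map_one]
  · intro A hA hc
    let A₀ : Subgroup ↥R := A.comap φ.toMonoidHom
    have hA₀ : A₀.Characteristic := by
      refine ⟨fun ψ => ?_⟩
      have h0 := hA.fixed (φ.symm.trans (ψ.trans φ))
      ext x
      constructor
      · intro hx
        have h1 : φ (ψ x) ∈ A := hx
        have h2 : φ x ∈ A.comap (φ.symm.trans (ψ.trans φ)).toMonoidHom := by
          change φ (ψ (φ.symm (φ x))) ∈ A
          rw [MulEquiv.symm_apply_apply]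
          exact h1
        rw [h0] at h2
        exact h2
      · intro hx
        have h1 : φ x ∈ A := hx
        rw [← h0] at h1
        have h2 : φ (ψ (φ.symm (φ x))) ∈ A := h1
        rw [MulEquiv.symm_apply_apply] at h2
        exact h2
    have hc₀ : IsMulCommutative A₀ := by
      refine ⟨⟨fun x y => ?_⟩⟩
      have h1 := hc.is_comm.comm ⟨φ x.1, x.2⟩ ⟨φ y.1, y.2⟩
      apply Subtype.ext
      apply φ.injective
      have h2 := congrArg Subtype.val h1
      simpa using h2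
    have hcyc := h.cyclic_of_characteristic A₀ hA₀ hc₀
    let ψ : ↥A₀ →* ↥A :=
      { toFun := fun x => ⟨φ x.1, x.2⟩
        map_one' := Subtype.ext (by simp)
        map_mul' := fun x y => Subtype.ext (by simp) }
    refine isCyclic_of_surjective ψ ?_
    rintro ⟨y, hy⟩
    refine ⟨⟨φ.symm y, ?_⟩, ?_⟩
    · change φ (φ.symm y) ∈ A
      rw [MulEquiv.apply_symm_apply]
      exact hy
    · apply Subtype.ext
      change φ (φ.symm y) = y
      rw [MulEquiv.apply_symm_apply]
  · rw [← Monoid.exponent_eq_of_mulEquiv φ]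
    exact h.exponent_eq

theorem absIrr_conj {R : Subgroup (GL (Fin n) F)} (h : ActsAbsolutelyIrreducibly (matrixSet R)) (P : GL (Fin n) F) :
    ActsAbsolutelyIrreducibly (matrixSet (conjSub P R)) := by
  have hval : ∀ g : GL (Fin n) F, g ∈ R → P * g * P⁻¹ ∈ conjSub P R := by
    intro g hg
    rw [mem_conjSub]
    have : P⁻¹ * (P * g * P⁻¹) * P = g := by group
    rw [this]
    exact hg
  have hPP : (P : Matrix (Fin n) (Fin n) F) * ((P⁻¹ : GL (Fin n) F) : Matrix (Fin n) (Fin n) F) = 1 := by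
    rw [← Units.val_mul, mul_inv_cancel, Units.val_one]
  have hPP' : ((P⁻¹ : GL (Fin n) F) : Matrix (Fin n) (Fin n) F) * (P : Matrix (Fin n) (Fin n) F) = 1 := by
    rw [← Units.val_mul, inv_mul_cancel, Units.val_one]
  constructor
  · intro W hW
    let W₀ : Submodule F (Fin n → F) := W.comap (Matrix.toLin' (P : Matrix (Fin n) (Fin n) F))
    have hW₀ : ∀ s ∈ matrixSet R, W₀.map (Matrix.toLin' s) ≤ W₀ := by
      rintro _ ⟨g, hg, rfl⟩ _ ⟨v, hv, rfl⟩
      have hv' : (P : Matrix (Fin n) (Fin n) F) *ᵥ v ∈ W := hv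
      have h1 := hW _ ⟨_, hval g hg, rfl⟩ ⟨_, hv', rfl⟩
      change (P : Matrix (Fin n) (Fin n) F) *ᵥ ((g : Matrix (Fin n) (Fin n) F) *ᵥ v) ∈ W
      have h2 : Matrix.toLin' ((P * g * P⁻¹ : GL (Fin n) F) : Matrix (Fin n) (Fin n) F) ((P : Matrix (Fin n) (Fin n) F) *ᵥ v) =
          (P : Matrix (Fin n) (Fin n) F) *ᵥ ((g : Matrix (Fin n) (Fin n) F) *ᵥ v) := by
        rw [Matrix.toLin'_apply, Units.val_mul, Units.val_mul, Matrix.mulVec_mulVec, Matrix.mul_assoc, Matrix.mul_assoc, hPP', Matrix.mul_one,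
          Matrix.mulVec_mulVec]
      rw [h2] at h1
      exact h1
    rcases h.1 W₀ hW₀ with hb | ht
    · left
      rw [eq_bot_iff]
      intro v hv
      have h1 : ((P⁻¹ : GL (Fin n) F) : Matrix (Fin n) (Fin n) F) *ᵥ v ∈ W₀ := by
        change (P : Matrix (Fin n) (Fin n) F) *ᵥ (((P⁻¹ : GL (Fin n) F) : Matrix (Fin n) (Fin n) F) *ᵥ v) ∈ W
        rw [Matrix.mulVec_mulVec, hPP, Matrix.one_mulVec]
        exact hv
      rw [hb] at h1
      have h3 : ((P⁻¹ : GL (Fin n) F) : Matrix (Fin n) (Fin n) F) *ᵥ v = 0 := h1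
      have h4 : v = (P : Matrix (Fin n) (Fin n) F) *ᵥ (((P⁻¹ : GL (Fin n) F) : Matrix (Fin n) (Fin n) F) *ᵥ v) := by
        rw [Matrix.mulVec_mulVec, hPP, Matrix.one_mulVec]
      rw [h3, Matrix.mulVec_zero] at h4
      rw [h4]
      exact Submodule.zero_mem _
    · right
      rw [eq_top_iff]
      intro v _
      have h1 : ((P⁻¹ : GL (Fin n) F) : Matrix (Fin n) (Fin n) F) *ᵥ v ∈ W₀ := by
        rw [ht]
        trivial
      have h2 : (P : Matrix (Fin n) (Fin n) F) *ᵥ (((P⁻¹ : GL (Fin n) F) : Matrix (Fin n) (Fin n) F) *ᵥ v) ∈ W := h1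
      rwa [Matrix.mulVec_mulVec, hPP, Matrix.one_mulVec] at h2
  · intro M hM
    have h1 : ∀ s ∈ matrixSet R, (((P⁻¹ : GL (Fin n) F) : Matrix (Fin n) (Fin n) F) * M * (P : Matrix (Fin n) (Fin n) F)) * s =
        s * (((P⁻¹ : GL (Fin n) F) : Matrix (Fin n) (Fin n) F) * M * (P : Matrix (Fin n) (Fin n) F)) := by
      rintro _ ⟨g, hg, rfl⟩
      have h3 := hM _ ⟨_, hval g hg, rfl⟩
      simp only [Units.val_mul] at h3
      have h5 := congrArg (fun X => ((P⁻¹ : GL (Fin n) F) : Matrix (Fin n) (Fin n) F) * X * (P : Matrix (Fin n) (Fin n) F)) h3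
      calc ((P⁻¹ : GL (Fin n) F) : Matrix (Fin n) (Fin n) F) * M * P * g
          = ((P⁻¹ : GL (Fin n) F) : Matrix (Fin n) (Fin n) F) * (M * (P * g * ((P⁻¹ : GL (Fin n) F) : Matrix (Fin n) (Fin n) F))) * P := by
            simp only [Matrix.mul_assoc, hPP', Matrix.mul_one]
        _ = ((P⁻¹ : GL (Fin n) F) : Matrix (Fin n) (Fin n) F) * (P * g * ((P⁻¹ : GL (Fin n) F) : Matrix (Fin n) (Fin n) F) * M) * P := h5
        _ = g * (((P⁻¹ : GL (Fin n) F) : Matrix (Fin n) (Fin n) F) * M * P) := by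
            simp only [← Matrix.mul_assoc, hPP', Matrix.one_mul]
    obtain ⟨c, hc⟩ := h.2 _ h1
    refine ⟨c, ?_⟩
    calc M = (P : Matrix (Fin n) (Fin n) F) * (((P⁻¹ : GL (Fin n) F) : Matrix (Fin n) (Fin n) F) * M * P) * ((P⁻¹ : GL (Fin n) F) : Matrix (Fin n) (Fin n) F) := by
          simp only [Matrix.mul_assoc, hPP, Matrix.mul_one]
          simp only [← Matrix.mul_assoc, hPP, Matrix.one_mul]
      _ = c • 1 := by
          rw [hc, Matrix.mul_smul, Matrix.smul_mul, Matrix.mul_one, hPP]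

end transport

/-- The class-6 subgroup in the case needed: the conjugates of our group. -/
theorem six_conj_data (hq : Fintype.card F = 5) (P : GL (Fin 4) F) : IsLinearSymplecticTypeData 2 (conjSub P (sixR F)) := by
  have h5p : Nat.Prime 5 := by norm_num
  haveI : CharP F 5 := by
    have h5 : ((5 : ℕ) : F) = 0 := by
      have := Nat.cast_card_eq_zero F
      rwa [hq] at this
    obtain ⟨p, hp⟩ := CharP.exists F
    have hdvd := (CharP.cast_eq_zero_iff F p 5).1 h5
    rcases (Nat.dvd_prime h5p).1 hdvd with h | h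
    · subst h
      have h1 : ((1 : ℕ) : F) = 0 := CharP.cast_eq_zero F 1
      rw [Nat.cast_one] at h1
      exact absurd h1 one_ne_zero
    · subst h
      exact hp
  have hz : Nat.card (Subgroup.center ↥(conjSub P (sixR F))) = 4 := by
    exact (Nat.card_congr (Subgroup.centerCongr (conjSubEquiv P (sixR F))).symm.toEquiv).trans (six_center_card hq)
  have hc : Nat.card ↥(conjSub P (sixR F)) = 2 ^ (2 + 2 * 2) := by
    exact (Nat.card_congr (conjSubEquiv P (sixR F)).symm.toEquiv).trans (six_card hq)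
  refine ⟨type_conj (six_type hq) P, absIrr_conj (six_abs_irr hq) P, 5, 1, by norm_num, ?_, ?_⟩
  · refine ⟨h5p, inferInstance, by rw [hq]; norm_num, ?_, ?_⟩
    · rw [hz]
      norm_num
    · intro d h1 h2
      omega
  · exact Or.inr (Or.inl ⟨rfl, rfl, hz, by simp, 2, hc⟩)

/-- Over the field of five elements, the monomial subgroup lies in the normaliser of a subgroup of symplectic type. -/
theorem mono_five (hq : Fintype.card F = 5) {D : Fin 4 → Submodule F (Fin 4 → F)} (hD : IsMDecomposition 1 D) :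
    ∃ R : Subgroup (GL (Fin 4) F), IsLinearSymplecticTypeData 2 R ∧
      decompositionStabilizer D ⊓ specialLinear (Fin 4) F ≤ subgroupNormalizer R := by
  classical
  obtain ⟨a, l, ha, ha0, hl1, hl0, hv⟩ := line_data hD
  let Qm : Matrix (Fin 4) (Fin 4) F := Matrix.of l
  let Pm : Matrix (Fin 4) (Fin 4) F := Matrix.of fun i j => a j i
  have hQP : Qm * Pm = 1 := by
    ext i j
    change l i ⬝ᵥ a j = _
    by_cases h : i = j
    · subst h
      rw [hl1, Matrix.one_apply_eq]
    · rw [hl0 i j (Ne.symm h), Matrix.one_apply_ne h]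
  have hPQ : Pm * Qm = 1 := mul_eq_one_comm.1 hQP
  let P : GL (Fin 4) F := ⟨Pm, Qm, hPQ, hQP⟩
  have hPi : ((P⁻¹ : GL (Fin 4) F) : Matrix (Fin 4) (Fin 4) F) = Qm := rfl
  refine ⟨conjSub P (sixR F), six_conj_data hq P, ?_⟩
  -- the key computation
  have key : ∀ g ∈ decompositionStabilizer D ⊓ specialLinear (Fin 4) F, ∀ h ∈ sixR F,
      (P⁻¹ * g * P) * h * (P⁻¹ * g * P)⁻¹ ∈ sixR F := by
    rintro g ⟨hg, hdet⟩ _ ⟨s, a₁, b₁, rfl⟩
    obtain ⟨σ, c, hc, hf⟩ := mono_coord hD ha ha0 hl1 (fun i j hij => hl0 i j hij) hv hg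
    let d : Fin 4 → Fˣ := fun i => Units.mk0 (c i) (hc i)
    have hM : P⁻¹ * g * P = monG σ d := by
      apply Units.ext
      rw [Units.val_mul, Units.val_mul, hPi]
      change Qm * (g : Matrix (Fin 4) (Fin 4) F) * Pm = monMat σ d
      ext i j
      have h1 : (Qm * (g : Matrix (Fin 4) (Fin 4) F) * Pm) i j = l i ⬝ᵥ ((g : Matrix (Fin 4) (Fin 4) F) *ᵥ a j) := by
        rw [Matrix.mul_assoc]
        rfl
      rw [h1]
      have h3 := hf (a j) (σ⁻¹ i)
      have h4 : σ (σ⁻¹ i) = i := by simp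
      rw [h4] at h3
      rw [h3]
      simp only [monMat]
      by_cases h5 : i = σ j
      · subst h5
        have h6 : σ⁻¹ (σ j) = j := by simp
        rw [h6, hl1, if_pos rfl, mul_one]
        rfl
      · have h6 : j ≠ σ⁻¹ i := by
          rintro rfl
          exact h5 h4.symm
        rw [hl0 _ _ h6, if_neg h5, mul_zero]
    have hdetM : (∏ j, d j) ^ 2 = 1 := by
      have h1 : (P⁻¹ * g * P : GL (Fin 4) F).val.det = 1 := by
        have h2 : ((g : Matrix (Fin 4) (Fin 4) F)).det = 1 := by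
          have := congrArg Units.val (MonoidHom.mem_ker.1 hdet)
          simpa using this
        rw [Units.val_mul, Units.val_mul, Matrix.det_mul, Matrix.det_mul, h2, mul_one, ← Matrix.det_mul, ← Units.val_mul, inv_mul_cancel,
          Units.val_one, Matrix.det_one]
      rw [hM] at h1
      have h3 := monMat_det_sq (F := F) σ d
      have h4 : (monG σ d : GL (Fin 4) F).val = monMat σ d := rfl
      rw [h4] at h1
      rw [h1] at h3
      apply Units.ext
      rw [Units.val_pow_eq_pow_val, ← h3]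
      simp
    rw [hM]
    exact Eg_normal hq σ d hdetM s a₁ b₁
  have key' : ∀ g ∈ decompositionStabilizer D ⊓ specialLinear (Fin 4) F, ∀ h ∈ conjSub P (sixR F), g * h * g⁻¹ ∈ conjSub P (sixR F) := by
    intro g hg h hh
    rw [mem_conjSub] at hh ⊢
    have := key g hg _ hh
    have e : P⁻¹ * (g * h * g⁻¹) * P = (P⁻¹ * g * P) * (P⁻¹ * h * P) * (P⁻¹ * g * P)⁻¹ := by group
    rw [e]
    exact this
  intro g hg
  change g ∈ Subgroup.normalizer _
  rw [Subgroup.mem_normalizer_iff]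
  intro h
  constructor
  · exact key' g hg h
  · intro hh
    have := key' g⁻¹ ((decompositionStabilizer D ⊓ specialLinear (Fin 4) F).inv_mem hg) _ hh
    have e : g⁻¹ * (g * h * g⁻¹) * g⁻¹⁻¹ = h := by group
    rwa [e] at this

end Cfsg.Agent.Lib.ClassMax.Asch
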