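import Mathlib
import Cfsg.Agent.Lib.ClassMax.CompLen

/-!
The affine case for composition length: numerical estimates and the embedding of the point stabiliser into a general
linear group.
-/

set_option autoImplicit false
set_option linter.unusedSimpArgs false
set_option linter.unusedVariables false
set_option linter.unusedSectionVars false

namespace Cfsg.Agent.Lib.ClassMax.CompLen

open ArithmeticFunction

local notation "Ω" => ArithmeticFunction.cardFactors

theorem two_pow_omega_le {m : ℕ} (hm : m ≠ 0) : 2 ^ Ω m ≤ m := by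
  induction m using Nat.strong_induction_on with
  | _ m ih =>
    by_cases h1 : m = 1
    · subst h1
      simp
    · have hp := Nat.minFac_prime h1
      obtain ⟨q, hq⟩ := Nat.minFac_dvd m
      have hq0 : q ≠ 0 := by
        rintro rfl
        rw [mul_zero] at hq
        exact hm hq
      have hlt : q < m := by
        have := hp.two_le
        have hqpos : 0 < q := Nat.pos_of_ne_zero hq0
        nlinarith
      have h2 := ih q hlt hq0
      have h3 : Ω m = 1 + Ω q := by
        conv_lhs => rw [hq]
        rw [cardFactors_mul hp.ne_zero hq0, cardFactors_apply_prime hp]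
      rw [h3, pow_add, pow_one]
      have := hp.two_le
      calc 2 * 2 ^ Ω q ≤ m.minFac * q := Nat.mul_le_mul this h2
        _ = m := hq.symm

theorem lem_s {s K M : ℕ} (h : 2 ^ s ≤ M) (hM : M < 2 ^ (K + 1)) : s ≤ K :=
  Nat.lt_succ_iff.mp ((Nat.pow_lt_pow_iff_right (by norm_num)).mp (lt_of_le_of_lt h hM))

theorem num_aux1 (s : ℕ) : 3 * (1 + s) ≤ 4 * 2 ^ s := by
  induction s with
  | zero => norm_num
  | succ s ih =>
    rw [pow_succ]
    omega

theorem num_aux2 (L : ℕ) (hL : 5 ≤ L) : 3 * ((L + 1) + (L + 1) * (L + 1)) ≤ 4 * 2 ^ L := by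
  induction L, hL using Nat.le_induction with
  | base => norm_num
  | succ L hL ih =>
    rw [pow_succ]
    nlinarith

theorem omega_168 : Ω 168 = 5 := by
  have h : (168 : ℕ) = 2 ^ 3 * (3 * 7) := by norm_num
  rw [h, cardFactors_mul (by norm_num) (by norm_num), cardFactors_mul (by norm_num) (by norm_num),
    cardFactors_apply_prime_pow Nat.prime_two, cardFactors_apply_prime Nat.prime_three, cardFactors_apply_prime (by norm_num)]

/-- The numerical estimate for affine groups. -/
theorem numeric {p d m : ℕ} (hp : p.Prime) (hd : 1 ≤ d) (hm : m ∣ ∏ i : Fin d, (p ^ d - p ^ (i : ℕ))) :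
    3 * (d + Ω m) ≤ 4 * (p ^ d - 1) := by
  have hfac : ∀ i : Fin d, p ^ (i : ℕ) < p ^ d := fun i => Nat.pow_lt_pow_right hp.one_lt i.2
  have hM0 : (∏ i : Fin d, (p ^ d - p ^ (i : ℕ))) ≠ 0 := by
    rw [Finset.prod_ne_zero_iff]
    intro i _
    have := hfac i
    omega
  have hm0 : m ≠ 0 := by
    rintro rfl
    exact hM0 (zero_dvd_iff.mp hm)
  have h2s : 2 ^ Ω m ≤ ∏ i : Fin d, (p ^ d - p ^ (i : ℕ)) :=
    (two_pow_omega_le hm0).trans (Nat.le_of_dvd (Nat.pos_of_ne_zero hM0) hm)
  set s := Ω m with hs
  have hMle : (∏ i : Fin d, (p ^ d - p ^ (i : ℕ))) ≤ (p ^ d) ^ d := by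
    have := Finset.prod_le_pow_card (Finset.univ : Finset (Fin d)) (fun i : Fin d => p ^ d - p ^ (i : ℕ)) (p ^ d) (fun i _ => Nat.sub_le _ _)
    simpa using this
  rcases Nat.lt_or_ge d 2 with hd1 | hd2
  · have hd1' : d = 1 := by omega
    subst hd1'
    simp only [Fin.prod_univ_one, pow_one, Fin.val_zero, pow_zero] at h2s ⊢
    have := num_aux1 s
    omega
  by_cases hn : 32 < p ^ d
  · set n := p ^ d with hn'
    set L := Nat.log 2 (n - 1) with hL
    have h1 : 2 ^ L ≤ n - 1 := Nat.pow_log_le_self 2 (by omega)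
    have h2 : n - 1 < 2 ^ (L + 1) := Nat.lt_pow_succ_log_self (by norm_num) _
    have hL5 : 5 ≤ L := by
      rw [hL]
      apply Nat.le_log_of_pow_le (by norm_num)
      norm_num
      omega
    have hnle : n ≤ 2 ^ (L + 1) := by omega
    have hdt : d ≤ L + 1 := by
      have h3 : 2 ^ d ≤ 2 ^ (L + 1) := (Nat.pow_le_pow_left hp.two_le d).trans hnle
      exact (Nat.pow_le_pow_iff_right (by norm_num)).mp h3
    have hst : s ≤ (L + 1) * d := by
      have h3 : 2 ^ s ≤ 2 ^ ((L + 1) * d) := by
        rw [pow_mul]
        exact h2s.trans (hMle.trans (Nat.pow_le_pow_left hnle d))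
      exact (Nat.pow_le_pow_iff_right (by norm_num)).mp h3
    have h4 := num_aux2 L hL5
    have h5 : (L + 1) * d ≤ (L + 1) * (L + 1) := Nat.mul_le_mul_left _ hdt
    omega
  · have hple : p ≤ 5 := by
      by_contra hcon
      have h1 : 6 ≤ p := by omega
      have h2 : 6 ^ 2 ≤ p ^ d := (Nat.pow_le_pow_left h1 2).trans (Nat.pow_le_pow_right hp.pos hd2)
      omega
    have hdle : d ≤ 5 := by
      by_contra hcon
      have h1 : 6 ≤ d := by omega
      have h2 : 2 ^ 6 ≤ p ^ d := (Nat.pow_le_pow_left hp.two_le 6).trans (Nat.pow_le_pow_right hp.pos h1)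
      omega
    have hp2 := hp.two_le
    interval_cases p
    · interval_cases d
      · simp [Fin.prod_univ_succ] at h2s ⊢
        have := lem_s (K := 2) h2s (by norm_num)
        omega
      · simp [Fin.prod_univ_succ] at hm ⊢
        have h3 : s ≤ 5 := by
          rw [hs, ← omega_168]
          exact omega_mono (by norm_num) (by simpa using hm)
        omega
      · simp [Fin.prod_univ_succ] at h2s ⊢
        have := lem_s (K := 14) h2s (by norm_num)
        omega
      · simp [Fin.prod_univ_succ] at h2s ⊢
        have := lem_s (K := 23) h2s (by norm_num)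
        omega
    · interval_cases d
      · simp [Fin.prod_univ_succ] at h2s ⊢
        have := lem_s (K := 5) h2s (by norm_num)
        omega
      · simp [Fin.prod_univ_succ] at h2s ⊢
        have := lem_s (K := 13) h2s (by norm_num)
        omega
      · norm_num at hn
      · norm_num at hn
    · exact absurd hp (by norm_num)
    · interval_cases d
      · simp [Fin.prod_univ_succ] at h2s ⊢
        have := lem_s (K := 8) h2s (by norm_num)
        omega
      · norm_num at hn
      · norm_num at hn
      · norm_num at hn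

/-- A faithful linear group divides the order of the general linear group. -/
theorem card_dvd_abs {F V K : Type*} [Field F] [Fintype F] [AddCommGroup V] [Module F V] [Module.Finite F V] [Group K] [Finite K]
    (f₀ : K → (V →ₗ[F] V)) (hf1 : ∀ z, f₀ 1 z = z) (hfm : ∀ x y z, f₀ (x * y) z = f₀ x (f₀ y z)) (hf : Function.Injective f₀) :
    Nat.card K ∣ ∏ i : Fin (Module.finrank F V), (Fintype.card F ^ (Module.finrank F V) - Fintype.card F ^ (i : ℕ)) := by
  classical
  let f : K →* Module.End F V :=
    { toFun := f₀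
      map_one' := LinearMap.ext hf1
      map_mul' := fun x y => LinearMap.ext (hfm x y) }
  let b : Module.Basis (Fin (Module.finrank F V)) F V := Module.finBasis F V
  let g : K →* Matrix (Fin (Module.finrank F V)) (Fin (Module.finrank F V)) F := ((LinearMap.toMatrixAlgEquiv b : _ ≃ₐ[F] _) : _ →* _).comp f
  let h : K →* GL (Fin (Module.finrank F V)) F := MonoidHom.toHomUnits g
  have hinj : Function.Injective h := by
    intro x y hxy
    have h1 : g x = g y := congrArg Units.val hxy
    have h2 : f x = f y := (LinearMap.toMatrixAlgEquiv b).injective h1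
    exact hf h2
  have h2 := Subgroup.card_dvd_of_injective h hinj
  rw [Matrix.card_GL_field] at h2
  exact h2

/-- A faithful group of automorphisms of an elementary abelian group, additive form. -/
theorem card_dvd_GL_add {V : Type*} [AddCommGroup V] [Finite V] {p : ℕ} (hp : p.Prime) (hV : ∀ x : V, p • x = 0)
    {K : Type*} [Group K] [Finite K] (ρ : K → (V →+ V)) (hρ1 : ∀ z, ρ 1 z = z) (hρm : ∀ x y z, ρ (x * y) z = ρ x (ρ y z))
    (hρ : Function.Injective ρ) :
    ∃ d, Nat.card V = p ^ d ∧ Nat.card K ∣ ∏ i : Fin d, (p ^ d - p ^ (i : ℕ)) := by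
  classical
  letI inst : Module (ZMod p) V := AddCommGroup.zmodModule hV
  haveI : Fact p.Prime := ⟨hp⟩
  haveI h1f : Module.Finite (ZMod p) V := Module.Finite.of_finite
  have h1 : Nat.card V = p ^ (Module.finrank (ZMod p) V) := by
    have := @Module.natCard_eq_pow_finrank (ZMod p) V _ _ _ h1f
    rwa [Nat.card_zmod] at this
  let f₀ : K → (V →ₗ[ZMod p] V) := fun k => AddMonoidHom.toZModLinearMap p (ρ k)
  have h2 := @card_dvd_abs (ZMod p) V K _ _ _ inst h1f _ _ f₀ hρ1 hρm (by
    intro x y hxy
    apply hρ
    ext a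
    exact LinearMap.congr_fun hxy a)
  rw [ZMod.card] at h2
  exact ⟨_, h1, h2⟩

/-- A faithful group of automorphisms of an elementary abelian group. -/
theorem card_dvd_GL {A : Type*} [CommGroup A] [Finite A] {p : ℕ} (hp : p.Prime) (hA : ∀ x : A, x ^ p = 1)
    {K : Type*} [Group K] [Finite K] (ρ : K →* MulAut A) (hρ : Function.Injective ρ) :
    ∃ d, Nat.card A = p ^ d ∧ Nat.card K ∣ ∏ i : Fin d, (p ^ d - p ^ (i : ℕ)) := by
  let ρ' : K → (Additive A →+ Additive A) := fun k => (MulEquiv.toAdditive (ρ k)).toAddMonoidHom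
  have hρ' : Function.Injective ρ' := by
    intro x y hxy
    apply hρ
    ext a
    have h3 := DFunLike.congr_fun hxy (Additive.ofMul a)
    exact Additive.ofMul.injective h3
  obtain ⟨d, h1, h2⟩ := card_dvd_GL_add hp (fun x : Additive A => congrArg Additive.ofMul (hA (Additive.toMul x))) ρ'
    (fun z => by
      show Additive.ofMul ((ρ 1) (Additive.toMul z)) = z
      rw [map_one]
      rfl)
    (fun x y z => by
      show Additive.ofMul ((ρ (x * y)) (Additive.toMul z)) = Additive.ofMul (ρ x (Additive.toMul (Additive.ofMul (ρ y (Additive.toMul z)))))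
      rw [map_mul]
      rfl) hρ'
  refine ⟨d, ?_, h2⟩
  rw [← h1]
  exact Nat.card_congr Additive.ofMul

end Cfsg.Agent.Lib.ClassMax.CompLen
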