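import Mathlib
import Cfsg.Agent.Lib.ClassMax.CompLen
import Cfsg.Agent.Lib.ClassMax.CompLen2
import Cfsg.Agent.Lib.ClassMax.CompLen3

/-!
The orbit count and the Hamming distance invariant of a transitive normal power of a simple group; the affine case.
-/

set_option autoImplicit false
set_option linter.unusedSimpArgs false
set_option linter.unusedVariables false
set_option linter.unusedSectionVars false

namespace Cfsg.Agent.Lib.ClassMax.CompLen

open MulAction ArithmeticFunction

local notation "Om" => ArithmeticFunction.cardFactors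

section orbits

/-- The number of orbits. -/
noncomputable def orb (K Y : Type*) [Group K] [MulAction K Y] : ℕ := Nat.card (Quotient (MulAction.orbitRel K Y))

theorem mk_eq_iff {K Y : Type*} [Group K] [MulAction K Y] {a b : Y} :
    Quotient.mk (MulAction.orbitRel K Y) a = Quotient.mk (MulAction.orbitRel K Y) b ↔ ∃ k : K, k • b = a := by
  rw [Quotient.eq]
  exact MulAction.orbitRel_apply.trans MulAction.mem_orbit_iff

/-- Invariant functions bound the number of orbits below. -/
theorem le_orb_of_invariant {K Y : Type*} [Group K] [MulAction K Y] [Finite Y] (f : Y → ℕ)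
    (hf : ∀ (k : K) (y : Y), f (k • y) = f y) (m : ℕ) (hm : ∀ j, 1 ≤ j → j ≤ m → ∃ y, f y = j) : m ≤ orb K Y := by
  have h1 : ∀ i : Fin m, ∃ y, f y = i + 1 := fun i => hm (i + 1) (by omega) (by omega)
  choose y hy using h1
  have hinj : Function.Injective (fun i : Fin m => Quotient.mk (MulAction.orbitRel K Y) (y i)) := by
    intro i j hij
    obtain ⟨k, hk⟩ := mk_eq_iff.mp hij
    have h2 := hf k (y j)
    rw [hk, hy, hy] at h2
    exact Fin.ext (by omega)
  have h3 := Nat.card_le_card_of_injective _ hinj
  rw [Nat.card_fin] at h3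
  exact h3

end orbits

section affine

variable {G Ω : Type*} [Group G] [Finite G] [MulAction G Ω] [FaithfulSMul G Ω] [Finite Ω]

/-- The affine case. -/
theorem abelian_case (N : Subgroup G) (hNn : N.Normal) (hne : N ≠ ⊥)
    (hmin : ∀ K : Subgroup G, K.Normal → K ≤ N → K = ⊥ ∨ K = N)
    (hcomm : ∀ x ∈ N, ∀ y ∈ N, x * y = y * x) (htr : ∀ x y : Ω, ∃ m ∈ N, m • x = y) (α : Ω) :
    3 * cl G + 4 ≤ 4 * Nat.card Ω := by
  classical
  haveI := hNn
  haveI hnt : Nontrivial N := (Subgroup.nontrivial_iff_ne_bot N).mpr hne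
  -- prime exponent
  obtain ⟨p, hp, hpN⟩ : ∃ p, p.Prime ∧ p ∣ Nat.card N := Nat.exists_prime_and_dvd (by
    intro h
    have := Finite.one_lt_card (α := N)
    omega)
  haveI : Fact p.Prime := ⟨hp⟩
  obtain ⟨x₀, hx₀⟩ := exists_prime_orderOf_dvd_card' (G := N) p hpN
  let S : Subgroup G :=
    { carrier := {x | x ∈ N ∧ x ^ p = 1}
      one_mem' := ⟨N.one_mem, one_pow _⟩
      mul_mem' := by
        rintro a b ⟨ha, ha'⟩ ⟨hb, hb'⟩
        refine ⟨N.mul_mem ha hb, ?_⟩
        have : Commute a b := hcomm a ha b hb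
        rw [this.mul_pow, ha', hb', one_mul]
      inv_mem' := by
        rintro a ⟨ha, ha'⟩
        exact ⟨N.inv_mem ha, by rw [inv_pow, ha', inv_one]⟩ }
  have hSn : S.Normal := by
    constructor
    rintro a ⟨ha, ha'⟩ g
    refine ⟨hNn.conj_mem a ha g, ?_⟩
    rw [conj_pow, ha', mul_one, mul_inv_cancel]
  have hSle : S ≤ N := fun a ha => ha.1
  have hSN : S = N := by
    rcases hmin S hSn hSle with h | h
    · exfalso
      have h1 : (x₀ : G) ∈ S := ⟨x₀.2, by
        have := pow_orderOf_eq_one x₀
        rw [hx₀] at this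
        exact congrArg Subtype.val this⟩
      rw [h, Subgroup.mem_bot] at h1
      have h2 : x₀ = 1 := Subtype.ext h1
      rw [h2, orderOf_one] at hx₀
      exact hp.one_lt.ne hx₀
    · exact h
  have hexp : ∀ x ∈ N, x ^ p = 1 := by
    intro x hx
    rw [← hSN] at hx
    exact hx.2
  letI instCG : CommGroup N := { (inferInstance : Group N) with mul_comm := fun a b => Subtype.ext (hcomm a a.2 b b.2) }
  -- the stabiliser embeds in the automorphisms
  let St := stabilizer G α
  have hfix : ∀ g : G, g ∈ St → (∀ n ∈ N, g * n * g⁻¹ = n) → g = 1 := by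
    intro g hg hc
    apply eq_of_smul_eq_smul (α := Ω)
    intro y
    obtain ⟨m, hm, rfl⟩ := htr α y
    have h1 : g * m = m * g := by
      have := hc m hm
      rwa [mul_inv_eq_iff_eq_mul] at this
    rw [smul_smul, h1, mul_smul, one_smul, (MulAction.mem_stabilizer_iff.mp hg)]
  let ρ : St →* MulAut N := (MulAut.conjNormal (H := N)).comp St.subtype
  have hρ : Function.Injective ρ := by
    rw [injective_iff_map_eq_one]
    intro g hg
    apply Subtype.ext
    apply hfix g g.2
    intro n hn
    have h1 := congrArg (fun φ : MulAut N => ((φ ⟨n, hn⟩ : N) : G)) hg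
    simpa [ρ, MulAut.conjNormal_apply] using h1
  obtain ⟨d, hd1, hd2⟩ := card_dvd_GL hp (fun x : N => Subtype.ext (hexp x x.2)) ρ hρ
  -- regularity
  have hreg : Nat.card N = Nat.card Ω := by
    apply Nat.card_congr
    refine Equiv.ofBijective (fun n : N => (n : G) • α) ⟨?_, ?_⟩
    · intro a b hab
      have h1 : (b : G)⁻¹ * a ∈ N := N.mul_mem (N.inv_mem b.2) a.2
      have h2 : ((b : G)⁻¹ * a) • α = α := by
        rw [mul_smul]
        simp only at hab
        rw [hab, inv_smul_smul]
      have h3 : (b : G)⁻¹ * a = 1 := by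
        apply eq_of_smul_eq_smul (α := Ω)
        intro y
        obtain ⟨m, hm, rfl⟩ := htr α y
        rw [smul_smul, hcomm _ h1 m hm, mul_smul, h2, one_smul]
      apply Subtype.ext
      have h4 : (a : G) = b := by
        have := inv_mul_eq_one.mp h3
        exact this.symm
      exact h4
    · intro y
      obtain ⟨m, hm, rfl⟩ := htr α y
      exact ⟨⟨m, hm⟩, rfl⟩
  -- order count
  haveI hpre : IsPretransitive G Ω := ⟨fun x y => by
    obtain ⟨m, _, hm⟩ := htr x y
    exact ⟨m, hm⟩⟩
  have hcard : Nat.card St * Nat.card Ω = Nat.card G := by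
    have h1 := index_stabilizer_of_transitive G α
    rw [← h1]
    exact Subgroup.card_mul_index St
  have hpd : Nat.card Ω = p ^ d := by rw [← hreg, hd1]
  have hd0 : 1 ≤ d := by
    rcases Nat.eq_zero_or_pos d with rfl | h
    · exfalso
      rw [pow_zero] at hd1
      have := Finite.one_lt_card (α := N)
      omega
    · exact h
  have hnum := numeric hp hd0 hd2
  have h3 := cl_le_omega (G := G)
  rw [← hcard, hpd, cardFactors_mul Nat.card_pos.ne' (pow_ne_zero _ hp.ne_zero), cardFactors_apply_prime_pow hp] at h3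
  have hpos : 1 ≤ p ^ d := Nat.one_le_pow _ _ hp.pos
  rw [hpd]
  omega

end affine

section hamming

variable {G Ω : Type*} [Group G] [Finite G] [MulAction G Ω] [Finite Ω]
  {T : Type*} [Group T] [Finite T] {k : ℕ}

open Classical in
/-- Automorphisms of a power of a simple group respect supports of elements. -/
theorem support_image (hT : IsSimpleGroup T) (hnc : ¬ ∀ a b : T, a * b = b * a) (φ : (Fin k → T) ≃* (Fin k → T)) :
    ∃ σ : Fin k → Fin k, ∀ (I : Finset (Fin k)) (t : Fin k → T), (∀ i, i ∉ I → t i = 1) → ∀ i, i ∉ I.image σ → φ t i = 1 := by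
  choose σ hσ using factor_map hT hnc φ
  refine ⟨σ, ?_⟩
  intro I
  induction I using Finset.induction_on with
  | empty =>
    intro t ht i _
    have : t = 1 := funext (fun i => ht i (by simp))
    rw [this, map_one]
    rfl
  | insert a I ha ih =>
    intro t ht i hi
    have h1 : t = Pi.mulSingle a (t a) * Function.update t a 1 := by
      funext m
      by_cases hm : m = a
      · subst hm
        simp
      · simp [Pi.mulSingle_eq_of_ne hm, Function.update_of_ne hm]
    have h2 : ∀ m, m ∉ I → Function.update t a 1 m = 1 := by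
      intro m hm
      by_cases hma : m = a
      · subst hma
        simp
      · rw [Function.update_of_ne hma]
        exact ht m (by simp [hma, hm])
    rw [h1, map_mul, Pi.mul_apply]
    rw [Finset.image_insert, Finset.mem_insert, not_or] at hi
    rw [hσ a (t a) i hi.1, ih _ h2 i hi.2, one_mul]

/-- The stabiliser of a point acts on the other points with many orbits. -/
theorem many_orbits (N : Subgroup G) [hNn : N.Normal] (hT : IsSimpleGroup T) (hnc : ¬ ∀ a b : T, a * b = b * a)
    (e : N ≃* (Fin k → T)) (htr : ∀ x y : Ω, ∃ m ∈ N, m • x = y) (α : Ω) :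
    let ψ : (Fin k → T) →* G := N.subtype.comp e.symm.toMonoidHom
    3 * k ≤ 3 * cl ((stabilizer G α).comap ψ) + 4 * orb (stabilizer G α) (SubMulAction.ofStabilizer G α) := by
  classical
  intro ψ
  let C : Subgroup (Fin k → T) := (stabilizer G α).comap ψ
  let Dset : Ω → Set ℕ := fun β => {m | ∃ (I : Finset (Fin k)) (t : Fin k → T), I.card = m ∧ (∀ i, i ∉ I → t i = 1) ∧ ψ t • α = β}
  let D : Ω → ℕ := fun β => sInf (Dset β)
  have hne : ∀ β, (Dset β).Nonempty := by
    intro β
    obtain ⟨m, hm, rfl⟩ := htr α β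
    refine ⟨_, Finset.univ, e ⟨m, hm⟩, rfl, fun i hi => absurd (Finset.mem_univ i) hi, ?_⟩
    simp [ψ]
  have hD_mem : ∀ β, D β ∈ Dset β := fun β => Nat.sInf_mem (hne β)
  have hD_le : ∀ β m, m ∈ Dset β → D β ≤ m := fun β m hm => Nat.sInf_le hm
  -- the function decreases under the stabiliser
  have hψconj : ∀ g : stabilizer G α, ∃ φ : (Fin k → T) ≃* (Fin k → T), ∀ t, ψ (φ t) = (g : G) * ψ t * (g : G)⁻¹ := by
    intro g
    refine ⟨(e.symm.trans (MulAut.conjNormal (H := N) (g : G))).trans e, fun t => ?_⟩
    simp [ψ, MulAut.conjNormal_apply]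
  have hdec : ∀ (g : stabilizer G α) (β : Ω), D ((g : G) • β) ≤ D β := by
    intro g β
    obtain ⟨φ, hφ⟩ := hψconj g
    obtain ⟨σ, hσ⟩ := support_image hT hnc φ
    obtain ⟨I, t, hI, ht, hβ⟩ := hD_mem β
    have hg : ((g : G)⁻¹) • α = α := by
      have h1 := MulAction.mem_stabilizer_iff.mp g.2
      rw [inv_smul_eq_iff, h1]
    have h1 : (I.image σ).card ∈ Dset ((g : G) • β) := by
      refine ⟨I.image σ, φ t, rfl, hσ I t ht, ?_⟩
      rw [hφ, mul_smul, mul_smul, hg, hβ]
    have h2 := hD_le _ _ h1
    have h3 : (I.image σ).card ≤ I.card := Finset.card_image_le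
    show D _ ≤ D β
    omega
  have hinv : ∀ (g : stabilizer G α) (β : Ω), D ((g : G) • β) = D β := by
    intro g β
    apply le_antisymm (hdec g β)
    have := hdec g⁻¹ ((g : G) • β)
    have h1 : ((g⁻¹ : stabilizer G α) : G) • ((g : G) • β) = β := by
      simp
    rwa [h1] at this
  -- downward closure of values
  have hdown : ∀ β m, D β = m + 1 → ∃ β', D β' = m := by
    intro β m hβm
    obtain ⟨I, t, hI, ht, hβ⟩ := hD_mem β
    rw [hβm] at hI
    have hIne : I.Nonempty := by
      rw [← Finset.card_pos]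
      omega
    obtain ⟨a, ha⟩ := hIne
    let t' : Fin k → T := Function.update t a 1
    have ht'sup : ∀ i, i ∉ I.erase a → t' i = 1 := by
      intro i hi
      by_cases hia : i = a
      · subst hia
        simp [t']
      · simp only [t', Function.update_of_ne hia]
        exact ht i (fun h => hi (Finset.mem_erase.mpr ⟨hia, h⟩))
    let β' : Ω := ψ t' • α
    have h1 : m ∈ Dset β' := ⟨I.erase a, t', by rw [Finset.card_erase_of_mem ha, hI]; rfl, ht'sup, rfl⟩
    have h2 := hD_le _ _ h1
    refine ⟨β', le_antisymm h2 ?_⟩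
    by_contra hlt
    push Not at hlt
    obtain ⟨I'', t'', hI'', ht'', hβ''⟩ := hD_mem β'
    have h3 : (insert a I'').card ∈ Dset β := by
      refine ⟨insert a I'', t * t'⁻¹ * t'', rfl, ?_, ?_⟩
      · intro i hi
        rw [Finset.mem_insert, not_or] at hi
        simp only [Pi.mul_apply, Pi.inv_apply]
        rw [ht'' i hi.2, mul_one]
        have : t' i = t i := by
          simp only [t', Function.update_of_ne hi.1]
        rw [this, mul_inv_cancel]
      · rw [map_mul, mul_smul, hβ'', map_mul, mul_smul, map_inv]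
        show ψ t • ((ψ t')⁻¹ • (ψ t' • α)) = β
        rw [inv_smul_smul, hβ]
    have h4 := hD_le _ _ h3
    have h5 : (insert a I'').card ≤ I''.card + 1 := Finset.card_insert_le _ _
    have h6 : I''.card = D β' := hI''
    omega
  -- the far point
  obtain ⟨tstar, htstar⟩ := code_lemma hT hnc C
  let βs : Ω := ψ tstar • α
  have hfar : 3 * k ≤ 3 * cl C + 4 * D βs := by
    obtain ⟨I, t, hI, ht, hβ⟩ := hD_mem βs
    have hh : t⁻¹ * tstar ∈ C := by
      show ψ (t⁻¹ * tstar) ∈ stabilizer G α
      rw [MulAction.mem_stabilizer_iff, map_mul, mul_smul, map_inv]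
      show (ψ t)⁻¹ • βs = α
      rw [inv_smul_eq_iff, hβ]
    have h1 := htstar _ hh
    have h2 : (Finset.univ.filter (fun i => tstar i ≠ (t⁻¹ * tstar) i)) ⊆ I := by
      intro i hi
      by_contra hiI
      have := (Finset.mem_filter.mp hi).2
      apply this
      simp [ht i hiI]
    have h3 := Finset.card_le_card h2
    rw [hI] at h3
    omega
  -- values attained
  have hα0 : D α = 0 := by
    have h1 : 0 ∈ Dset α := ⟨∅, 1, rfl, fun _ _ => rfl, by simp⟩
    have := hD_le _ _ h1
    omega
  have hattain : ∀ j, j ≤ D βs → ∃ β, D β = j := by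
    have key : ∀ c j, j + c = D βs → ∃ β, D β = j := by
      intro c
      induction c with
      | zero => exact fun j hj => ⟨βs, by omega⟩
      | succ c ih =>
        intro j hj
        obtain ⟨β, hβ⟩ := ih (j + 1) (by omega)
        exact hdown β j hβ
    intro j hj
    exact key (D βs - j) j (by omega)
  have horb : D βs ≤ orb (stabilizer G α) (SubMulAction.ofStabilizer G α) := by
    apply le_orb_of_invariant (fun y : SubMulAction.ofStabilizer G α => D (y : Ω))
    · intro g y
      exact hinv g y
    · intro j hj1 hj2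
      obtain ⟨β, hβ⟩ := hattain j hj2
      have hβα : β ≠ α := by
        rintro rfl
        omega
      exact ⟨⟨β, (SubMulAction.mem_ofStabilizer_iff G α).2 hβα⟩, hβ⟩
  show 3 * k ≤ 3 * cl C + _
  omega

end hamming

end Cfsg.Agent.Lib.ClassMax.CompLen
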