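import Mathlib
import Cfsg.Agent.Lib.ClassMax.CompLen4
import Cfsg.Agent.Lib.Perm.MinNormalPower
import Cfsg.Agent.Lib.Basic.MinNormal

/-!
The bound on composition length of faithful permutation groups by four thirds of the number of points minus orbits.
-/

set_option autoImplicit false
set_option linter.unusedSimpArgs false
set_option linter.unusedVariables false
set_option linter.unusedSectionVars false

namespace Cfsg.Agent.Lib.ClassMax.CompLen

open MulAction

universe v

/-- The statement to be proved by induction on the degree. -/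
def Bd (n : ℕ) : Prop :=
  ∀ (G : Type v) [Group G] [Finite G] (Ω : Type v) [MulAction G Ω] [FaithfulSMul G Ω] [Finite Ω], Nat.card Ω = n →
    3 * cl G + 4 * orb G Ω ≤ 4 * n

theorem cl_le_of_hom {G Q : Type*} [Group G] [Group Q] [Finite G] [Finite Q] (f : G →* Q) : cl G ≤ cl f.ker + cl f.range := by
  have h := cl_le_ker_add f.rangeRestrict f.rangeRestrict_surjective
  rwa [MonoidHom.ker_rangeRestrict] at h

theorem one_le_orb {K Y : Type*} [Group K] [MulAction K Y] [Finite Y] [Nonempty Y] : 1 ≤ orb K Y := by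
  obtain ⟨y⟩ := ‹Nonempty Y›
  have : Nonempty (Quotient (MulAction.orbitRel K Y)) := ⟨Quotient.mk _ y⟩
  exact Nat.card_pos

/-- The intransitive reduction. -/
theorem intr_case {n : ℕ} (IH : ∀ m < n, Bd.{v} m) (G : Type v) [Group G] [Finite G] (Ω : Type v) [MulAction G Ω]
    [FaithfulSMul G Ω] [Finite Ω] (hn : Nat.card Ω = n) (h2 : 2 ≤ orb G Ω) : 3 * cl G + 4 * orb G Ω ≤ 4 * n := by
  classical
  -- points in different orbits
  haveI hnt : Nontrivial (Quotient (MulAction.orbitRel G Ω)) := by
    apply Finite.one_lt_card_iff_nontrivial.mp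
    exact h2
  obtain ⟨q₁, q₂, hq⟩ := exists_pair_ne (Quotient (MulAction.orbitRel G Ω))
  obtain ⟨α, rfl⟩ := Quotient.exists_rep q₁
  obtain ⟨β, rfl⟩ := Quotient.exists_rep q₂
  let O : Set Ω := MulAction.orbit G α
  have hβO : β ∉ O := by
    intro h
    obtain ⟨g, hg⟩ := MulAction.mem_orbit_iff.mp h
    exact hq (mk_eq_iff.mpr ⟨g⁻¹, by rw [← hg, inv_smul_smul]⟩)
  let f : G →* Equiv.Perm (MulAction.orbit G α) := MulAction.toPermHom G (MulAction.orbit G α)
  have hK : ∀ k ∈ f.ker, ∀ y ∈ O, k • y = y := by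
    intro k hk y hy
    have h1 : f k = 1 := hk
    have h3 := congrArg (fun π : Equiv.Perm (MulAction.orbit G α) => ((π ⟨y, hy⟩ : MulAction.orbit G α) : Ω)) h1
    exact h3
  -- the kernel on the complement
  let Z : SubMulAction f.ker Ω :=
    { carrier := Oᶜ
      smul_mem' := by
        intro k y hy h3
        apply hy
        obtain ⟨g, hg⟩ := MulAction.mem_orbit_iff.mp h3
        refine MulAction.mem_orbit_iff.mpr ⟨(k : G)⁻¹ * g, ?_⟩
        rw [mul_smul, hg]
        exact inv_smul_smul (k : G) y }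
  have hZ : ∀ y : Ω, y ∈ Z ↔ y ∉ O := fun y => Iff.rfl
  haveI hfZ : FaithfulSMul f.ker Z := ⟨by
    intro k₁ k₂ h
    apply Subtype.ext
    apply eq_of_smul_eq_smul (α := Ω)
    intro y
    by_cases hy : y ∈ O
    · have h3 := hK k₁ k₁.2 y hy
      have h4 := hK k₂ k₂.2 y hy
      exact h3.trans h4.symm
    · exact congrArg Subtype.val (h ⟨y, (hZ y).2 hy⟩)⟩
  have hcards : Nat.card O + Nat.card Z = n := by
    have h3 := Set.ncard_add_ncard_compl O
    rw [← Nat.card_coe_set_eq, ← Nat.card_coe_set_eq] at h3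
    rw [← hn, ← h3]
    rfl
  haveI hOne : Nonempty O := ⟨⟨α, MulAction.mem_orbit_self α⟩⟩
  haveI hZne : Nonempty Z := ⟨⟨β, (hZ β).2 hβO⟩⟩
  have hOpos : 0 < Nat.card O := Nat.card_pos
  have hZpos : 0 < Nat.card Z := Nat.card_pos
  have hQ := IH (Nat.card O) (by omega) f.range (MulAction.orbit G α) rfl
  have hKb := IH (Nat.card Z) (by omega) f.ker Z rfl
  have h1Q : 1 ≤ orb f.range (MulAction.orbit G α) := one_le_orb
  have hsplit := cl_le_of_hom f
  -- counting orbits
  have horb : orb G Ω ≤ orb f.ker Z + 1 := by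
    let g : Option (Quotient (MulAction.orbitRel f.ker Z)) → Quotient (MulAction.orbitRel G Ω) := fun o =>
      match o with
      | none => Quotient.mk _ α
      | some q => Quotient.lift (fun z : Z => Quotient.mk (MulAction.orbitRel G Ω) (z : Ω)) (by
          intro a b hab
          obtain ⟨k, hk⟩ := mk_eq_iff.mp (Quotient.sound hab)
          exact mk_eq_iff.mpr ⟨(k : G), congrArg Subtype.val hk⟩) q
    have hg : Function.Surjective g := by
      intro q
      obtain ⟨w, rfl⟩ := Quotient.exists_rep q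
      by_cases hw : w ∈ O
      · refine ⟨none, ?_⟩
        obtain ⟨g', hg'⟩ := MulAction.mem_orbit_iff.mp hw
        exact mk_eq_iff.mpr ⟨g'⁻¹, by rw [← hg', inv_smul_smul]⟩
      · exact ⟨some (Quotient.mk _ ⟨w, (hZ w).2 hw⟩), rfl⟩
    have h3 := Nat.card_le_card_of_surjective g hg
    rwa [Finite.card_option] at h3
  have hO' : Nat.card (MulAction.orbit G α) = Nat.card O := rfl
  omega

/-- The reduction along the orbits of an intransitive normal subgroup. -/
theorem impr_case {n : ℕ} (IH : ∀ m < n, Bd.{v} m) (G : Type v) [Group G] [Finite G] (Ω : Type v) [MulAction G Ω]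
    [FaithfulSMul G Ω] [Finite Ω] (hn : Nat.card Ω = n) (N : Subgroup G) (hNn : N.Normal) (hne : N ≠ ⊥)
    (htr : ¬ ∀ x y : Ω, ∃ m ∈ N, m • x = y) : 3 * cl G + 4 ≤ 4 * n := by
  classical
  let B := Quotient (MulAction.orbitRel N Ω)
  let π : Ω → B := fun y => Quotient.mk _ y
  have hπ : ∀ a b : Ω, π a = π b ↔ ∃ m : N, m • b = a := fun a b => mk_eq_iff
  have hrel : ∀ (g : G) (a b : Ω), (MulAction.orbitRel N Ω) a b ↔ (MulAction.orbitRel N Ω) (g • a) (g • b) := by
    intro g a b
    have h1 : ∀ (u : G) (x y : Ω), (MulAction.orbitRel N Ω) x y → (MulAction.orbitRel N Ω) (u • x) (u • y) := by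
      intro u x y hxy
      obtain ⟨m, hm⟩ := (mk_eq_iff (K := N)).mp (Quotient.sound hxy)
      refine Quotient.exact (mk_eq_iff.mpr ⟨⟨u * m * u⁻¹, hNn.conj_mem m m.2 u⟩, ?_⟩)
      show (u * m * u⁻¹) • (u • y) = u • x
      rw [← hm]
      simp only [smul_smul]
      have : u * ↑m * u⁻¹ * u = u * m := by group
      rw [this, mul_smul]
      rfl
    refine ⟨h1 g a b, fun h => ?_⟩
    have := h1 g⁻¹ _ _ h
    simpa using this
  let fperm : G → Equiv.Perm B := fun g => Quotient.congr (MulAction.toPerm g) (fun a b => hrel g a b)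
  have hfperm : ∀ (g : G) (y : Ω), fperm g (π y) = π (g • y) := fun g y => rfl
  let f : G →* Equiv.Perm B := MonoidHom.mk' fperm (by
    intro a b
    ext q
    obtain ⟨y, rfl⟩ := Quotient.exists_rep q
    show π ((a * b) • y) = π (a • b • y)
    rw [mul_smul])
  have hf : ∀ (g : G) (y : Ω), f g (π y) = π (g • y) := fun g y => rfl
  have hπs : Function.Surjective π := Quotient.exists_rep
  -- the number of blocks
  have hB2 : 2 ≤ Nat.card B := by
    push Not at htr
    obtain ⟨x, y, hxy⟩ := htr
    haveI : Nontrivial B := ⟨⟨π y, π x, by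
      intro h
      obtain ⟨m, hm⟩ := (hπ _ _).1 h
      exact hxy m m.2 hm⟩⟩
    exact Finite.one_lt_card
  have hBlt : Nat.card B < Nat.card Ω := by
    haveI := Fintype.ofFinite Ω
    haveI := Fintype.ofFinite B
    rw [Nat.card_eq_fintype_card, Nat.card_eq_fintype_card]
    apply Fintype.card_lt_of_surjective_not_injective π hπs
    intro hinj
    apply hne
    rw [eq_bot_iff]
    intro m hm
    rw [Subgroup.mem_bot]
    apply eq_of_smul_eq_smul (α := Ω)
    intro y
    rw [one_smul]
    exact hinj ((hπ _ _).2 ⟨⟨m, hm⟩, rfl⟩)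
  have hQ := IH (Nat.card B) (by omega) f.range B rfl
  haveI hBne : Nonempty B := by
    by_contra h
    rw [not_nonempty_iff] at h
    have := Nat.card_of_isEmpty (α := B)
    omega
  have h1Q : 1 ≤ orb f.range B := one_le_orb
  -- orbits of the kernel
  have horb : Nat.card B ≤ orb f.ker Ω := by
    let g : Quotient (MulAction.orbitRel f.ker Ω) → B := Quotient.lift π (by
      intro a b hab
      obtain ⟨k, hk⟩ := mk_eq_iff.mp (Quotient.sound hab)
      have hk' : (k : G) • b = a := hk
      rw [← hk', ← hf]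
      have : f (k : G) = 1 := k.2
      rw [this]
      rfl)
    have hg : Function.Surjective g := by
      intro q
      obtain ⟨y, rfl⟩ := hπs q
      exact ⟨Quotient.mk _ y, rfl⟩
    exact Nat.card_le_card_of_surjective g hg
  have hK := intr_case IH f.ker Ω hn (by omega)
  have hsplit := cl_le_of_hom f
  omega

/-- The non-abelian transitive minimal normal subgroup. -/
theorem nonab_case {n : ℕ} (IH : ∀ m < n, Bd.{v} m) (G : Type v) [Group G] [Finite G] (Ω : Type v) [MulAction G Ω]
    [FaithfulSMul G Ω] [Finite Ω] (hn : Nat.card Ω = n) (N : Subgroup G) (hNn : N.Normal) (hne : N ≠ ⊥)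
    (hmin : ∀ K : Subgroup G, K.Normal → K ≤ N → K = ⊥ ∨ K = N)
    (hcomm : ¬ ∀ x ∈ N, ∀ y ∈ N, x * y = y * x) (htr : ∀ x y : Ω, ∃ m ∈ N, m • x = y) (α : Ω) :
    3 * cl G + 4 ≤ 4 * n := by
  classical
  haveI := hNn
  haveI hnt : Nontrivial N := (Subgroup.nontrivial_iff_ne_bot N).mpr hne
  obtain ⟨T, instT, k, hT, hk, ⟨e⟩⟩ := Cfsg.Agent.Lib.Perm.exists_power_of_no_invariant (N := N) (H := G) (MulAut.conjNormal (H := N)) (by
    intro K hKb hKn hKinv
    have h1 : (K.map N.subtype).Normal := by
      constructor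
      rintro _ ⟨x, hx, rfl⟩ g
      have h2 := hKinv g ⟨x, hx, rfl⟩
      refine ⟨_, h2, ?_⟩
      simp [MulAut.conjNormal_apply]
    rcases hmin _ h1 (by
      rintro _ ⟨x, _, rfl⟩
      exact x.2) with h2 | h2
    · exfalso
      apply hKb
      rwa [Subgroup.map_eq_bot_iff_of_injective _ N.subtype_injective] at h2
    · rw [eq_top_iff]
      intro x _
      have h3 : (x : G) ∈ K.map N.subtype := by
        rw [h2]
        exact x.2
      obtain ⟨y, hy, hyx⟩ := h3
      have : y = x := Subtype.ext hyx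
      rwa [← this])
  haveI : Finite T := by
    have h1 : Function.Injective (fun x : T => e.symm (Pi.mulSingle ⟨0, hk⟩ x)) := by
      intro a b hab
      have h2 := e.symm.injective hab
      have h3 := congrFun h2 ⟨0, hk⟩
      simpa using h3
    exact Finite.of_injective _ h1
  have hnc : ¬ ∀ a b : T, a * b = b * a := by
    intro h
    apply hcomm
    intro x hx y hy
    have h1 : e ⟨x, hx⟩ * e ⟨y, hy⟩ = e ⟨y, hy⟩ * e ⟨x, hx⟩ := by
      funext i
      exact h _ _
    rw [← map_mul, ← map_mul] at h1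
    have h2 := e.injective h1
    exact congrArg Subtype.val h2
  set ψ : (Fin k → T) →* G := N.subtype.comp e.symm.toMonoidHom with hψ
  have hbound : 3 * k ≤ 3 * cl ((stabilizer G α).comap ψ) + 4 * orb (stabilizer G α) (SubMulAction.ofStabilizer G α) :=
    many_orbits N hT hnc e htr α
  let St := stabilizer G α
  let mk : G →* G ⧸ N := QuotientGroup.mk' N
  have hmk : Function.Surjective mk := QuotientGroup.mk'_surjective N
  let g : St →* G ⧸ N := mk.comp St.subtype
  have hg : Function.Surjective g := by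
    intro q
    obtain ⟨x, rfl⟩ := hmk q
    obtain ⟨m, hm, hmx⟩ := htr α (x • α)
    have h1 : m⁻¹ * x ∈ St := by
      rw [MulAction.mem_stabilizer_iff, mul_smul, ← hmx, inv_smul_smul]
    refine ⟨⟨_, h1⟩, ?_⟩
    show (QuotientGroup.mk (m⁻¹ * x) : G ⧸ N) = QuotientGroup.mk x
    rw [QuotientGroup.eq]
    have h2 : (m⁻¹ * x)⁻¹ * x = x⁻¹ * m * x := by group
    rw [h2]
    have := hNn.conj_mem m hm x⁻¹
    simpa using this
  have h1 := ker_add_le_cl g hg
  have h2 := cl_le_ker_add mk hmk
  have h3 : cl mk.ker = cl N := cl_congr (MulEquiv.subgroupCongr (QuotientGroup.ker_mk' N))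
  have h4 : cl N = cl (Fin k → T) := cl_congr e
  have h5 := cl_pi_le hT k
  let c : ((stabilizer G α).comap ψ) →* g.ker :=
    { toFun := fun t => ⟨⟨ψ t, t.2⟩, by
        show (QuotientGroup.mk (ψ t) : G ⧸ N) = 1
        rw [QuotientGroup.eq_one_iff]
        exact (e.symm (t : Fin k → T)).2⟩
      map_one' := by
        apply Subtype.ext
        apply Subtype.ext
        simp
      map_mul' := by
        intro x y
        apply Subtype.ext
        apply Subtype.ext
        simp }
  have hc : Function.Bijective c := by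
    constructor
    · intro x y hxy
      have h6 : ψ x = ψ y := congrArg (fun z : g.ker => ((z : St) : G)) hxy
      apply Subtype.ext
      apply e.symm.injective
      exact Subtype.ext h6
    · rintro ⟨⟨s, hs⟩, hs2⟩
      have hsN : s ∈ N := by
        have h7 : (QuotientGroup.mk s : G ⧸ N) = 1 := hs2
        rwa [QuotientGroup.eq_one_iff] at h7
      refine ⟨⟨e ⟨s, hsN⟩, ?_⟩, ?_⟩
      · show ψ (e ⟨s, hsN⟩) ∈ stabilizer G α
        have hs' : s • α = α := MulAction.mem_stabilizer_iff.mp hs
        simpa [hψ] using hs'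
      · apply Subtype.ext
        apply Subtype.ext
        show ψ (e ⟨s, hsN⟩) = s
        simp [hψ]
  have h6 : cl ((stabilizer G α).comap ψ) = cl g.ker := cl_congr (MulEquiv.ofBijective c hc)
  have hcard := SubMulAction.nat_card_ofStabilizer_add_one_eq G α
  rw [hn] at hcard
  haveI hfaith : FaithfulSMul St (SubMulAction.ofStabilizer G α) := ⟨by
    intro g₁ g₂ h
    apply Subtype.ext
    apply eq_of_smul_eq_smul (α := Ω)
    intro y
    by_cases hy : y = α
    · subst hy
      have h7 := MulAction.mem_stabilizer_iff.mp g₁.2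
      have h8 := MulAction.mem_stabilizer_iff.mp g₂.2
      exact h7.trans h8.symm
    · exact congrArg Subtype.val (h ⟨y, (SubMulAction.mem_ofStabilizer_iff G α).2 hy⟩)⟩
  have hIH := IH (Nat.card (SubMulAction.ofStabilizer G α)) (by omega) St (SubMulAction.ofStabilizer G α) rfl
  have hSt : orb St (SubMulAction.ofStabilizer G α) = orb (stabilizer G α) (SubMulAction.ofStabilizer G α) := rfl
  omega

/-- The bound for groups in the same universe as the set. -/
theorem bd_all (n : ℕ) : Bd.{v} n := by
  induction n using Nat.strong_induction_on with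
  | _ n IH =>
    intro G _ _ Ω _ _ _ hn
    classical
    by_cases hΩ : IsEmpty Ω
    · haveI := hΩ
      haveI : Subsingleton G := ⟨fun a b => eq_of_smul_eq_smul (α := Ω) (fun y => (hΩ.false y).elim)⟩
      have h1 : cl G = 0 := cl_eq_zero_of_subsingleton
      have h2 : orb G Ω = 0 := by
        unfold orb
        haveI : IsEmpty (Quotient (MulAction.orbitRel G Ω)) := ⟨fun q => by
          obtain ⟨y, _⟩ := Quotient.exists_rep q
          exact hΩ.false y⟩
        exact Nat.card_of_isEmpty
      omega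
    rw [not_isEmpty_iff] at hΩ
    obtain ⟨α⟩ := hΩ
    have hnpos : 0 < n := by
      rw [← hn]
      haveI : Nonempty Ω := ⟨α⟩
      exact Nat.card_pos
    by_cases h2 : 2 ≤ orb G Ω
    · exact intr_case IH G Ω hn h2
    have h1 : orb G Ω = 1 := by
      haveI : Nonempty Ω := ⟨α⟩
      have := one_le_orb (K := G) (Y := Ω)
      omega
    suffices h : 3 * cl G + 4 ≤ 4 * n by omega
    by_cases hG : Subsingleton G
    · have : cl G = 0 := cl_eq_zero_of_subsingleton
      omega
    rw [not_subsingleton_iff_nontrivial] at hG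
    obtain ⟨N, hNn, hne, hmin⟩ := Cfsg.Agent.Lib.Basic.exists_isMinNormal (G := G)
    by_cases htr : ∀ x y : Ω, ∃ m ∈ N, m • x = y
    · by_cases hc : ∀ x ∈ N, ∀ y ∈ N, x * y = y * x
      · have := abelian_case N hNn hne hmin hc htr α
        rwa [hn] at this
      · exact nonab_case IH G Ω hn N hNn hne hmin hc htr α
    · exact impr_case IH G Ω hn N hNn hne htr

/-- The main bound. -/
theorem main_bound {G Ω : Type*} [Group G] [Finite G] [MulAction G Ω] [FaithfulSMul G Ω] [Finite Ω] :
    3 * cl G + 4 * orb G Ω ≤ 4 * Nat.card Ω := by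
  classical
  let f : G →* Equiv.Perm Ω := MulAction.toPermHom G Ω
  have hf : Function.Injective f := by
    intro a b hab
    apply eq_of_smul_eq_smul (α := Ω)
    intro y
    exact congrArg (fun π : Equiv.Perm Ω => π y) hab
  have h1 := bd_all (Nat.card Ω) f.range Ω rfl
  have h2 : cl G = cl f.range := cl_congr (MonoidHom.ofInjective hf)
  have h3 : orb G Ω ≤ orb f.range Ω := by
    let g : Quotient (MulAction.orbitRel f.range Ω) → Quotient (MulAction.orbitRel G Ω) :=
      Quotient.lift (fun y => Quotient.mk _ y) (by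
        intro a b hab
        obtain ⟨⟨_, x, rfl⟩, hk⟩ := mk_eq_iff.mp (Quotient.sound hab)
        exact mk_eq_iff.mpr ⟨x, hk⟩)
    have hg : Function.Surjective g := by
      intro q
      obtain ⟨y, rfl⟩ := Quotient.exists_rep q
      exact ⟨Quotient.mk _ y, rfl⟩
    exact Nat.card_le_card_of_surjective g hg
  omega

/-- From indexed chains to inductive chains. -/
theorem chain_of_fin {G : Type*} [Group G] (l : ℕ) (H : Fin (l + 1) → Subgroup G)
    (hchain : ∀ i : Fin l, H i.castSucc < H i.succ ∧ ((H i.castSucc).subgroupOf (H i.succ)).Normal) :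
    ∀ j (hj : j ≤ l), SCh (H 0) (H ⟨j, by omega⟩) j := by
  intro j
  induction j with
  | zero =>
    intro _
    exact SCh.refl
  | succ j ih =>
    intro hj
    have h1 := ih (by omega)
    obtain ⟨h2, h3⟩ := hchain ⟨j, by omega⟩
    refine SCh.step h1 h2 ?_
    intro x hx y hy
    have h4 := h3.conj_mem ⟨y, h2.le hy⟩ (by
      rw [Subgroup.mem_subgroupOf]
      exact hy) ⟨x, hx⟩
    rw [Subgroup.mem_subgroupOf] at h4
    exact h4

end Cfsg.Agent.Lib.ClassMax.CompLen
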