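import Mathlib
import Cfsg.Agent.Lib.ClassMax.Transv
import Cfsg.Agent.Lib.ClassMax.Asch23

/-!
Overgroups of field-extension subgroups of the special linear group: basic actions, the subgroup generated by
the norm-one elements, and the passage from one transvection to all transvections.
-/

set_option autoImplicit false
set_option linter.unusedSimpArgs false
set_option linter.unusedVariables false
set_option linter.unusedSectionVars false
set_option linter.unusedFintypeInType false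
set_option linter.unusedDecidableInType false

namespace Cfsg.Agent.Lib.ClassMax.Ext

open Module Matrix Cfsg.Geo Cfsg.Agent.Lib.ClassMax

section basics

variable {F : Type*} [Field F] {n : ℕ}

local notation "MM" => Matrix (Fin n) (Fin n) F

/-- The action of an invertible matrix. -/
def act (g : GL (Fin n) F) (v : Fin n → F) : Fin n → F := (g : MM) *ᵥ v

theorem act_mul (g h : GL (Fin n) F) (v : Fin n → F) : act (g * h) v = act g (act h v) := by
  simp only [act, Units.val_mul, Matrix.mulVec_mulVec]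

theorem act_one (v : Fin n → F) : act (1 : GL (Fin n) F) v = v := by
  simp only [act, Units.val_one, Matrix.one_mulVec]

theorem act_inv_act (g : GL (Fin n) F) (v : Fin n → F) : act g⁻¹ (act g v) = v := by
  rw [← act_mul, inv_mul_cancel, act_one]

theorem act_act_inv (g : GL (Fin n) F) (v : Fin n → F) : act g (act g⁻¹ v) = v := by
  rw [← act_mul, mul_inv_cancel, act_one]

theorem act_add (g : GL (Fin n) F) (u v : Fin n → F) : act g (u + v) = act g u + act g v := Matrix.mulVec_add _ _ _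

theorem act_sub (g : GL (Fin n) F) (u v : Fin n → F) : act g (u - v) = act g u - act g v := Matrix.mulVec_sub _ _ _

theorem act_zero (g : GL (Fin n) F) : act g (0 : Fin n → F) = 0 := Matrix.mulVec_zero _

theorem act_neg (g : GL (Fin n) F) (v : Fin n → F) : act g (-v) = - act g v := Matrix.mulVec_neg _ _

theorem act_smul (g : GL (Fin n) F) (c : F) (v : Fin n → F) : act g (c • v) = c • act g v := Matrix.mulVec_smul _ _ _

theorem act_injective (g : GL (Fin n) F) : Function.Injective (act g) := fun u v h => by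
  rw [← act_inv_act g u, h, act_inv_act]

theorem mat_eq_of_mulVec {A B : MM} (h : ∀ v, A *ᵥ v = B *ᵥ v) : A = B :=
  Matrix.toLin'.injective (LinearMap.ext fun v => by simpa using h v)

theorem gl_ext {g h : GL (Fin n) F} (hh : ∀ v, act g v = act h v) : g = h :=
  Units.ext (mat_eq_of_mulVec hh)

/-- Element of the general linear group built from a pair of inverse linear maps. -/
def mkGL (f f' : (Fin n → F) →ₗ[F] (Fin n → F)) (h1 : ∀ v, f (f' v) = v) (h2 : ∀ v, f' (f v) = v) : GL (Fin n) F where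
  val := LinearMap.toMatrix' f
  inv := LinearMap.toMatrix' f'
  val_inv := by
    rw [← LinearMap.toMatrix'_comp, ← LinearMap.toMatrix'_id]
    congr 1
    exact LinearMap.ext h1
  inv_val := by
    rw [← LinearMap.toMatrix'_comp, ← LinearMap.toMatrix'_id]
    congr 1
    exact LinearMap.ext h2

theorem act_mkGL (f f' : (Fin n → F) →ₗ[F] (Fin n → F)) (h1 : ∀ v, f (f' v) = v) (h2 : ∀ v, f' (f v) = v) (v : Fin n → F) :
    act (mkGL f f' h1 h2) v = f v := by
  change (LinearMap.toMatrix' f) *ᵥ v = f v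
  rw [LinearMap.toMatrix'_mulVec]

/-- The action as a linear map. -/
def glLin (g : GL (Fin n) F) : (Fin n → F) →ₗ[F] (Fin n → F) := Matrix.toLin' (g : MM)

theorem glLin_apply (g : GL (Fin n) F) (v : Fin n → F) : glLin g v = act g v := rfl

theorem det_of_sq_zero [Fintype F] (g : GL (Fin n) F) (c : (Fin n → F) → (Fin n → F)) (h1 : ∀ v, act g v = v + c v)
    (h2 : ∀ v, c (c v) = 0) : (g : MM).det = 1 := by
  obtain ⟨p, hchar⟩ := CharP.exists F
  haveI := hchar
  obtain ⟨k, hp, hk⟩ := FiniteField.card F p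
  haveI : Fact p.Prime := ⟨hp⟩
  let C : MM := (g : MM) - 1
  have hC : ∀ v, C *ᵥ v = c v := by
    intro v
    simp only [C, Matrix.sub_mulVec, Matrix.one_mulVec]
    have := h1 v
    simp only [act] at this
    rw [this]
    abel
  have hCC : C * C = 0 := by
    apply mat_eq_of_mulVec
    intro v
    rw [← Matrix.mulVec_mulVec, hC, hC, h2, Matrix.zero_mulVec]
  have hg : (g : MM) = 1 + C := by simp [C]
  have hpow : ∀ j : ℕ, (1 + C) ^ j = 1 + (j : F) • C := by
    intro j
    induction j with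
    | zero => simp
    | succ j ih =>
      rw [pow_succ, ih]
      have e : (1 + (j : F) • C) * (1 + C) = 1 + C + (j : F) • C + (j : F) • (C * C) := by
        rw [mul_add, add_mul, add_mul, one_mul, one_mul, mul_one, smul_mul_assoc]
        abel
      rw [e, hCC, smul_zero, add_zero, add_assoc, Nat.cast_succ, add_smul, one_smul, add_comm C]
  have h3 : (g : MM) ^ p = 1 := by
    rw [hg, hpow, CharP.cast_eq_zero, zero_smul, add_zero]
  have h4 : ((g : MM).det) ^ p = 1 := by
    rw [← Matrix.det_pow, h3, Matrix.det_one]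
  have h5 : ((g : MM).det - 1) ^ p = 0 := by
    rw [sub_pow_char, h4, one_pow, sub_self]
  exact sub_eq_zero.1 (pow_eq_zero_iff hp.ne_zero |>.1 h5)

end basics

section closure

variable {F L : Type*} [Field F] [Fintype F] [Field L] [Algebra F L] [Finite L]

/-- A subring containing the kernel of a homomorphism from the units of `L` to the units of `F`. -/
theorem closure_ker (hr : 2 ≤ finrank F L) (Φ : Lˣ →* Fˣ) :
    Subring.closure ((fun α : Lˣ => (α : L)) '' (Φ.ker : Set Lˣ)) = ⊤ := by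
  classical
  haveI : Fintype L := Fintype.ofFinite L
  haveI : Module.Finite F L := Module.Finite.of_finite
  set T := Subring.closure ((fun α : Lˣ => (α : L)) '' (Φ.ker : Set Lˣ)) with hTdef
  by_contra hT
  have hcardL2 : 2 ≤ Fintype.card L := Fintype.one_lt_card
  have hinv : ∀ x ∈ T, x⁻¹ ∈ T := by
    intro x hx
    by_cases h0 : x = 0
    · rw [h0, _root_.inv_zero]
      exact T.zero_mem
    · have h1 : x * x ^ (Fintype.card L - 2) = 1 := by
        rw [← pow_succ']
        have : Fintype.card L - 2 + 1 = Fintype.card L - 1 := by omega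
        rw [this]
        exact FiniteField.pow_card_sub_one_eq_one x h0
      have h2 : x⁻¹ = x ^ (Fintype.card L - 2) := inv_eq_of_mul_eq_one_right h1
      rw [h2]
      exact T.pow_mem hx _
  let T' : Subfield L := { T with inv_mem' := hinv }
  have hmem' : ∀ x : L, x ∈ T' ↔ x ∈ T := fun x => Iff.rfl
  obtain ⟨x₀, hx₀⟩ : ∃ x : L, x ∉ T := by
    by_contra hcon
    push Not at hcon
    exact hT (eq_top_iff.2 fun x _ => hcon x)
  haveI : Fintype T' := Fintype.ofFinite T'
  have hlt : Fintype.card T' < Fintype.card L := Fintype.card_subtype_lt (x := x₀) (fun h => hx₀ h)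
  have hcard1 : Fintype.card L = Fintype.card T' ^ finrank T' L := Module.card_eq_pow_finrank
  have hcard2 : Fintype.card L = Fintype.card F ^ finrank F L := Module.card_eq_pow_finrank
  have he : 2 ≤ finrank T' L := by
    have h1 : finrank T' L ≠ 1 := by
      intro h
      rw [h, pow_one] at hcard1
      omega
    have h2 : 0 < finrank T' L := Module.finrank_pos
    omega
  have ht1 : 1 < Fintype.card T' := Fintype.one_lt_card
  have hq1 : 1 < Fintype.card F := Fintype.one_lt_card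
  have h3 : Fintype.card T' ^ 2 ≤ Fintype.card L := by
    rw [hcard1]
    exact Nat.pow_le_pow_right (by omega) he
  have h4 : Fintype.card F ^ 2 ≤ Fintype.card L := by
    rw [hcard2]
    exact Nat.pow_le_pow_right (by omega) hr
  -- counting the kernel
  have hker : Nat.card Φ.ker * Nat.card Φ.range = Nat.card Lˣ := by
    rw [← Subgroup.index_ker Φ]
    exact Subgroup.card_mul_index _
  have hrange : Nat.card Φ.range ≤ Fintype.card F - 1 := by
    have h1 : Nat.card Φ.range ≤ Nat.card Fˣ := Subgroup.card_le_card_group _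
    rwa [Nat.card_eq_fintype_card (α := Fˣ), Fintype.card_units] at h1
  have hLu : Nat.card Lˣ = Fintype.card L - 1 := by
    rw [Nat.card_eq_fintype_card, Fintype.card_units]
  have hkt : Nat.card Φ.ker ≤ Fintype.card T' - 1 := by
    have hmemk : ∀ α : Φ.ker, ((α : Lˣ) : L) ∈ T' := fun α => Subring.subset_closure ⟨α, α.2, rfl⟩
    let f : Φ.ker → T'ˣ := fun α => Units.mk0 ⟨((α : Lˣ) : L), hmemk α⟩ (fun h => (α : Lˣ).ne_zero (congrArg Subtype.val h))
    have hf : Function.Injective f := by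
      intro α β h
      have h1 := congrArg (fun z : T'ˣ => ((z : T') : L)) h
      exact Subtype.ext (Units.ext h1)
    have h1 := Nat.card_le_card_of_injective f hf
    rwa [Nat.card_eq_fintype_card (α := T'ˣ), Fintype.card_units] at h1
  have hA : 0 < Fintype.card T' - 1 := by omega
  have hB : 0 < Fintype.card F - 1 := by omega
  generalize ht : Fintype.card T' - 1 = A at *
  generalize hq : Fintype.card F - 1 = B at *
  have ht' : Fintype.card T' = A + 1 := by omega
  have hq' : Fintype.card F = B + 1 := by omega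
  have hprod : Fintype.card L ≤ A * B + 1 := by
    have h1 : Nat.card Φ.ker * Nat.card Φ.range ≤ A * B := Nat.mul_le_mul hkt hrange
    rw [hker, hLu] at h1
    omega
  rw [ht'] at h3
  rw [hq'] at h4
  have h5 : A * (A + 2) ≤ A * B := by nlinarith
  have h6 : B * (B + 2) ≤ B * A := by nlinarith
  have h7 := Nat.le_of_mul_le_mul_left h5 hA
  have h8 := Nat.le_of_mul_le_mul_left h6 hB
  omega

end closure

section main

variable {F L : Type*} [Field F] [Fintype F] [Field L] [Algebra F L] {n : ℕ}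
  [Module L (Fin n → F)] [IsScalarTower F L (Fin n → F)]

local notation "MM" => Matrix (Fin n) (Fin n) F

variable (L) in
/-- `L`-linear elements. -/
def IsLL (g : GL (Fin n) F) : Prop := ∀ (k : L) (v : Fin n → F), act g (k • v) = k • act g v

/-- Element built from `L`-linear maps. -/
def glL (f f' : (Fin n → F) →ₗ[L] (Fin n → F)) (h1 : ∀ v, f (f' v) = v) (h2 : ∀ v, f' (f v) = v) : GL (Fin n) F :=
  mkGL (f.restrictScalars F) (f'.restrictScalars F) h1 h2

theorem act_glL (f f' : (Fin n → F) →ₗ[L] (Fin n → F)) (h1 : ∀ v, f (f' v) = v) (h2 : ∀ v, f' (f v) = v) (v : Fin n → F) :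
    act (glL f f' h1 h2) v = f v := act_mkGL _ _ h1 h2 v

theorem isLL_glL (f f' : (Fin n → F) →ₗ[L] (Fin n → F)) (h1 : ∀ v, f (f' v) = v) (h2 : ∀ v, f' (f v) = v) :
    IsLL L (glL f f' h1 h2) := fun k v => by
  rw [act_glL, act_glL, map_smul]

/-- The `L`-transvection. -/
def kt (ψ : (Fin n → F) →ₗ[L] L) (v : Fin n → F) (h : ψ v = 0) : GL (Fin n) F :=
  glL (LinearMap.id + (LinearMap.toSpanSingleton L _ v) ∘ₗ ψ) (LinearMap.id - (LinearMap.toSpanSingleton L _ v) ∘ₗ ψ)
    (fun x => by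
      have hT : ψ (ψ x • v) = 0 := by simp [h]
      change (x - ψ x • v) + ψ (x - ψ x • v) • v = x
      rw [map_sub, hT, sub_zero]
      abel)
    (fun x => by
      have hT : ψ (ψ x • v) = 0 := by simp [h]
      change (x + ψ x • v) - ψ (x + ψ x • v) • v = x
      rw [map_add, hT, add_zero]
      abel)

theorem act_kt (ψ : (Fin n → F) →ₗ[L] L) (v : Fin n → F) (h : ψ v = 0) (x : Fin n → F) : act (kt ψ v h) x = x + ψ x • v := by
  simp only [kt, act_glL, LinearMap.add_apply, LinearMap.id_apply, LinearMap.comp_apply, LinearMap.toSpanSingleton_apply]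

theorem act_kt_inv (ψ : (Fin n → F) →ₗ[L] L) (v : Fin n → F) (h : ψ v = 0) (x : Fin n → F) : act (kt ψ v h)⁻¹ x = x - ψ x • v := by
  apply act_injective (kt ψ v h)
  rw [act_act_inv, act_kt]
  simp only [map_sub, map_smul, h, smul_eq_mul, mul_zero, sub_zero]
  abel

theorem isLL_kt (ψ : (Fin n → F) →ₗ[L] L) (v : Fin n → F) (h : ψ v = 0) : IsLL L (kt ψ v h) := isLL_glL _ _ _ _

theorem det_kt (ψ : (Fin n → F) →ₗ[L] L) (v : Fin n → F) (h : ψ v = 0) : ((kt ψ v h : GL (Fin n) F) : MM).det = 1 :=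
  det_of_sq_zero _ (fun x => ψ x • v) (act_kt ψ v h) (fun x => by simp [h])

variable (X : Subgroup (GL (Fin n) F))

/-- The transvection with the given data lies in `X`. -/
def InX (v : Fin n → F) (φ : (Fin n → F) →ₗ[F] F) : Prop :=
  φ v = 0 ∧ ∃ g ∈ X, ∀ x, act g x = x + φ x • v

variable {X}

theorem InX.zero (v : Fin n → F) : InX X v 0 :=
  ⟨rfl, 1, X.one_mem, fun x => by simp [act_one]⟩

theorem InX.add {v : Fin n → F} {φ φ' : (Fin n → F) →ₗ[F] F} (h : InX X v φ) (h' : InX X v φ') : InX X v (φ + φ') := by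
  obtain ⟨h0, g, hg, hga⟩ := h
  obtain ⟨h0', g', hg', hga'⟩ := h'
  refine ⟨by simp [h0, h0'], g * g', X.mul_mem hg hg', fun x => ?_⟩
  rw [act_mul, hga', hga]
  simp only [LinearMap.add_apply, map_add, map_smul, h0, smul_eq_mul, mul_zero, add_zero, add_smul]
  abel

theorem InX.neg {v : Fin n → F} {φ : (Fin n → F) →ₗ[F] F} (h : InX X v φ) : InX X v (-φ) := by
  obtain ⟨h0, g, hg, hga⟩ := h
  refine ⟨by simp [h0], g⁻¹, X.inv_mem hg, fun x => ?_⟩
  apply act_injective g
  rw [act_act_inv, hga]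
  have e : φ ((-φ) x • v) = 0 := by simp [h0]
  rw [map_add, e, add_zero, LinearMap.neg_apply, neg_smul]
  abel

theorem InX.sub {v : Fin n → F} {φ φ' : (Fin n → F) →ₗ[F] F} (h : InX X v φ) (h' : InX X v φ') : InX X v (φ - φ') := by
  rw [sub_eq_add_neg]
  exact h.add h'.neg

theorem InX.conj {v : Fin n → F} {φ : (Fin n → F) →ₗ[F] F} (h : InX X v φ) {g : GL (Fin n) F} (hg : g ∈ X) :
    InX X (act g v) (φ ∘ₗ glLin g⁻¹) := by
  obtain ⟨h0, g₀, hg₀, hga⟩ := h
  refine ⟨?_, g * g₀ * g⁻¹, X.mul_mem (X.mul_mem hg hg₀) (X.inv_mem hg), fun x => ?_⟩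
  · simp only [LinearMap.comp_apply, glLin_apply, act_inv_act, h0]
  · rw [act_mul, act_mul, hga, act_add, act_act_inv, act_smul]
    rfl

theorem InX.comm {v w : Fin n → F} {φ₁ φ : (Fin n → F) →ₗ[F] F} (h₁ : InX X v φ₁) (h : InX X w φ) (hw : φ₁ w = 1) (hv : φ v = 0) :
    InX X v φ := by
  obtain ⟨h0, g, hg, hga⟩ := h₁
  obtain ⟨h0', g', hg', hga'⟩ := h
  refine ⟨hv, g * g' * g⁻¹ * g'⁻¹, X.mul_mem (X.mul_mem (X.mul_mem hg hg') (X.inv_mem hg)) (X.inv_mem hg'), fun x => ?_⟩
  have hgi : ∀ y, act g⁻¹ y = y - φ₁ y • v := by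
    intro y
    apply act_injective g
    rw [act_act_inv, hga]
    simp only [map_sub, map_smul, h0, smul_eq_mul, mul_zero, sub_zero]
    abel
  have hgi' : ∀ y, act g'⁻¹ y = y - φ y • w := by
    intro y
    apply act_injective g'
    rw [act_act_inv, hga']
    simp only [map_sub, map_smul, h0', smul_eq_mul, mul_zero, sub_zero]
    abel
  rw [act_mul, act_mul, act_mul, hgi', hgi, hga', hga]
  simp only [map_sub, map_add, map_smul, h0, h0', hw, hv, smul_eq_mul, mul_one, mul_zero, sub_zero, add_zero, sub_smul, add_smul]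
  abel

/-- The functional obtained from a functional on `L`. -/
def fn (π₀ : L →ₗ[F] F) (ψ : (Fin n → F) →ₗ[L] L) : (Fin n → F) →ₗ[F] F := π₀ ∘ₗ ψ.restrictScalars F

theorem fn_apply (π₀ : L →ₗ[F] F) (ψ : (Fin n → F) →ₗ[L] L) (x : Fin n → F) : fn π₀ ψ x = π₀ (ψ x) := rfl

theorem exists_mul_rep [Finite L] {π₀ : L →ₗ[F] F} (h0 : π₀ ≠ 0) (f : L →ₗ[F] F) : ∃ y : L, ∀ t, f t = π₀ (y * t) := by
  haveI : Module.Finite F L := Module.Finite.of_finite
  let Y : L →ₗ[F] Module.Dual F L :=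
    { toFun := fun y => π₀ ∘ₗ LinearMap.mulLeft F y
      map_add' := fun a b => LinearMap.ext fun t => by simp [add_mul]
      map_smul' := fun c a => LinearMap.ext fun t => by simp [smul_mul_assoc] }
  have hY : Function.Injective Y := by
    rw [injective_iff_map_eq_zero]
    intro y hy
    by_contra hne
    apply h0
    ext s
    have h1 := LinearMap.congr_fun hy (y⁻¹ * s)
    simpa [Y, mul_inv_cancel_left₀ hne] using h1
  have hsurj : Function.Surjective Y :=
    (LinearMap.injective_iff_surjective_of_finrank_eq_finrank (Subspace.dual_finrank_eq (K := F) (V := L)).symm).1 hY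
  obtain ⟨y, hy⟩ := hsurj f
  exact ⟨y, fun t => by rw [← hy]; rfl⟩

theorem exists_rep [Finite L] {π₀ : L →ₗ[F] F} (h0 : π₀ ≠ 0) (φ : (Fin n → F) →ₗ[F] F) :
    ∃ ψ : (Fin n → F) →ₗ[L] L, φ = fn π₀ ψ := by
  classical
  haveI : Module.Finite L (Fin n → F) := Module.Finite.of_finite
  let b := Module.finBasis L (Fin n → F)
  let f : Fin (finrank L (Fin n → F)) → (L →ₗ[F] F) := fun j =>
    φ ∘ₗ ((LinearMap.toSpanSingleton L (Fin n → F) (b j)).restrictScalars F)
  choose y hy using fun j => exists_mul_rep h0 (f j)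
  refine ⟨∑ j, y j • b.coord j, LinearMap.ext fun x => ?_⟩
  rw [fn_apply]
  conv_lhs => rw [← b.sum_repr x]
  rw [map_sum, LinearMap.sum_apply, map_sum]
  refine Finset.sum_congr rfl fun j _ => ?_
  have h1 := hy j (b.repr x j)
  simpa [f, b] using h1

theorem func_sep {W : Submodule L (Fin n → F)} {x : Fin n → F} (hx : x ∉ W) :
    ∃ ψ : (Fin n → F) →ₗ[L] L, ψ x = 1 ∧ ∀ y ∈ W, ψ y = 0 := by
  obtain ⟨f, hfu, hf⟩ := Submodule.exists_le_ker_of_notMem hx
  refine ⟨(f x)⁻¹ • f, by simp [hfu], fun y hy => ?_⟩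
  simp [LinearMap.mem_ker.1 (hf hy)]

theorem func_ne_zero_of_two (hm : 2 ≤ finrank L (Fin n → F)) [Module.Finite L (Fin n → F)] (v : Fin n → F) :
    ∃ ρ : (Fin n → F) →ₗ[L] L, ρ ≠ 0 ∧ ρ v = 0 := by
  have h1 : Submodule.span L {v} ≠ ⊤ := by
    intro h
    have h2 := finrank_span_le_card (R := L) ({v} : Set (Fin n → F))
    rw [h, finrank_top] at h2
    simp at h2
    omega
  obtain ⟨x, hx⟩ : ∃ x, x ∉ Submodule.span L {v} := by
    by_contra hcon
    push Not at hcon
    exact h1 (eq_top_iff.2 fun x _ => hcon x)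
  obtain ⟨ψ, h3, h4⟩ := func_sep hx
  refine ⟨ψ, fun h => ?_, h4 _ (Submodule.mem_span_singleton_self v)⟩
  rw [h] at h3
  exact zero_ne_one h3

/-- Scaling along a vector. -/
def nnL (ψ : (Fin n → F) →ₗ[L] L) (b : Fin n → F) (hb : ψ b = 1) (α : Lˣ) : GL (Fin n) F :=
  glL (LinearMap.id + (LinearMap.toSpanSingleton L _ b) ∘ₗ (((α : L) - 1) • ψ))
    (LinearMap.id + (LinearMap.toSpanSingleton L _ b) ∘ₗ (((α⁻¹ : Lˣ) - 1 : L) • ψ))
    (fun x => by
      change (x + (((α⁻¹ : Lˣ) - 1 : L) * ψ x) • b) + (((α : L) - 1) * ψ (x + (((α⁻¹ : Lˣ) - 1 : L) * ψ x) • b)) • b = x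
      rw [map_add, map_smul, hb, add_assoc, ← add_smul]
      have e : (((α⁻¹ : Lˣ) - 1 : L) * ψ x) + (((α : L) - 1) * (ψ x + (((α⁻¹ : Lˣ) - 1 : L) * ψ x) • 1)) = 0 := by
        have h1 : ((α⁻¹ : Lˣ) : L) * (α : L) = 1 := by simp
        simp only [smul_eq_mul, mul_one]
        linear_combination (ψ x) * h1
      rw [e, zero_smul, add_zero])
    (fun x => by
      change (x + (((α : L) - 1) * ψ x) • b) + (((α⁻¹ : Lˣ) - 1 : L) * ψ (x + (((α : L) - 1) * ψ x) • b)) • b = x
      rw [map_add, map_smul, hb, add_assoc, ← add_smul]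
      have e : (((α : L) - 1) * ψ x) + (((α⁻¹ : Lˣ) - 1 : L) * (ψ x + (((α : L) - 1) * ψ x) • 1)) = 0 := by
        have h1 : ((α⁻¹ : Lˣ) : L) * (α : L) = 1 := by simp
        simp only [smul_eq_mul, mul_one]
        linear_combination (ψ x) * h1
      rw [e, zero_smul, add_zero])

theorem act_nnL (ψ : (Fin n → F) →ₗ[L] L) (b : Fin n → F) (hb : ψ b = 1) (α : Lˣ) (x : Fin n → F) :
    act (nnL ψ b hb α) x = x + (((α : L) - 1) * ψ x) • b := by
  change act (glL _ _ _ _) x = _
  rw [act_glL]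
  rfl

theorem isLL_nnL (ψ : (Fin n → F) →ₗ[L] L) (b : Fin n → F) (hb : ψ b = 1) (α : Lˣ) : IsLL L (nnL ψ b hb α) := isLL_glL _ _ _ _

/-- The homomorphism to the units of `F`. -/
noncomputable def nnHom (ψ : (Fin n → F) →ₗ[L] L) (b : Fin n → F) (hb : ψ b = 1) : Lˣ →* GL (Fin n) F where
  toFun := nnL ψ b hb
  map_one' := gl_ext fun x => by
    rw [act_nnL, act_one]
    simp
  map_mul' := fun α β => gl_ext fun x => by
    rw [act_mul, act_nnL, act_nnL, act_nnL, map_add, map_smul, hb, add_assoc, ← add_smul]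
    congr 2
    simp only [Units.val_mul, smul_eq_mul, mul_one]
    ring

theorem nn_inv_act (ψ : (Fin n → F) →ₗ[L] L) (b : Fin n → F) (hb : ψ b = 1) (α : Lˣ) (x : Fin n → F) :
    act (nnL ψ b hb α)⁻¹ x = act (nnL ψ b hb α⁻¹) x := by
  have h : (nnL ψ b hb α)⁻¹ = nnL ψ b hb α⁻¹ := (map_inv (nnHom ψ b hb) α).symm
  rw [h]

section five

variable [Finite L]

theorem inX_all (hr : 2 ≤ finrank F L) (hm : 2 ≤ finrank L (Fin n → F))
    (hX : ∀ g : GL (Fin n) F, IsLL L g → (g : MM).det = 1 → g ∈ X)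
    {v₀ : Fin n → F} (hv₀ : v₀ ≠ 0) {φ₀ : (Fin n → F) →ₗ[F] F} (hφ₀ : φ₀ ≠ 0) (h₀ : InX X v₀ φ₀) :
    ∀ v φ, φ v = 0 → InX X v φ := by
  classical
  haveI : Module.Finite F L := Module.Finite.of_finite
  haveI : Module.Finite L (Fin n → F) := Module.Finite.of_finite
  obtain ⟨π₀, u₁, hu₁⟩ : ∃ π₀ : L →ₗ[F] F, ∃ u₁, π₀ u₁ = 1 := by
    have h1 : (1 : L) ∉ (⊥ : Submodule F L) := by
      simp
    obtain ⟨f, hf, -⟩ := Submodule.exists_le_ker_of_notMem h1
    refine ⟨f, (f 1)⁻¹ • 1, ?_⟩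
    rw [map_smul, smul_eq_mul, inv_mul_cancel₀ hf]
  have hπ₀ : π₀ ≠ 0 := by
    rintro rfl
    simp at hu₁
  have hkt : ∀ (ψ : (Fin n → F) →ₗ[L] L) (v : Fin n → F) (h : ψ v = 0), kt ψ v h ∈ X :=
    fun ψ v h => hX _ (isLL_kt ψ v h) (det_kt ψ v h)
  obtain ⟨ψ₀, rfl⟩ := exists_rep hπ₀ φ₀
  -- Step A
  obtain ⟨ψ₁, hψ₁0, hψ₁v, h₁⟩ : ∃ ψ₁ : (Fin n → F) →ₗ[L] L, ψ₁ ≠ 0 ∧ ψ₁ v₀ = 0 ∧ InX X v₀ (fn π₀ ψ₁) := by
    by_cases h : ψ₀ v₀ = 0
    · refine ⟨ψ₀, fun h' => hφ₀ ?_, h, h₀⟩
      rw [h']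
      exact LinearMap.ext fun x => by simp [fn_apply]
    · obtain ⟨ρ, hρ0, hρv⟩ := func_ne_zero_of_two hm v₀
      refine ⟨ψ₀ v₀ • ρ, smul_ne_zero h hρ0, by simp [hρv], ?_⟩
      have h1 := h₀.conj (hkt ρ v₀ hρv)
      have e1 : act (kt ρ v₀ hρv) v₀ = v₀ := by
        rw [act_kt, hρv]
        simp
      rw [e1] at h1
      have h2 := h₀.sub h1
      have e2 : fn π₀ ψ₀ - fn π₀ ψ₀ ∘ₗ glLin (kt ρ v₀ hρv)⁻¹ = fn π₀ (ψ₀ v₀ • ρ) := by
        refine LinearMap.ext fun x => ?_
        simp only [LinearMap.sub_apply, LinearMap.comp_apply, glLin_apply, act_kt_inv, fn_apply, LinearMap.smul_apply, map_sub, map_smul, smul_eq_mul]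
        rw [sub_sub_cancel, mul_comm]
      rwa [e2] at h2
  -- Step B
  obtain ⟨b, hb⟩ : ∃ b, ψ₁ b = 1 := by
    obtain ⟨x, hx⟩ : ∃ x, ψ₁ x ≠ 0 := by
      by_contra hcon
      push Not at hcon
      exact hψ₁0 (LinearMap.ext hcon)
    exact ⟨(ψ₁ x)⁻¹ • x, by simp [hx]⟩
  let Φ : Lˣ →* Fˣ := (Matrix.GeneralLinearGroup.det : GL (Fin n) F →* Fˣ).comp (nnHom ψ₁ b hb)
  have hnnX : ∀ α ∈ Φ.ker, nnL ψ₁ b hb α ∈ X := by
    intro α hα
    apply hX _ (isLL_nnL ψ₁ b hb α)
    have h3 : Φ α = 1 := MonoidHom.mem_ker.1 hα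
    have h4 := congrArg Units.val h3
    exact h4
  have hnnfix : ∀ α : Lˣ, act (nnL ψ₁ b hb α) v₀ = v₀ := by
    intro α
    rw [act_nnL, hψ₁v]
    simp
  have hscale : ∀ t ∈ Subring.closure ((fun α : Lˣ => (α : L)) '' (Φ.ker : Set Lˣ)), ∀ κ : L,
      InX X v₀ (fn π₀ (κ • ψ₁)) → InX X v₀ (fn π₀ ((t * κ) • ψ₁)) := by
    intro t ht
    induction ht using Subring.closure_induction with
    | mem t ht =>
      obtain ⟨α, hα, rfl⟩ := ht
      intro κ hκ
      have hαi : α⁻¹ ∈ Φ.ker := Φ.ker.inv_mem hα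
      have h1 := hκ.conj (hnnX _ hαi)
      rw [hnnfix] at h1
      have e : fn π₀ (κ • ψ₁) ∘ₗ glLin (nnL ψ₁ b hb α⁻¹)⁻¹ = fn π₀ (((α : L) * κ) • ψ₁) := by
        refine LinearMap.ext fun x => ?_
        have e' : ψ₁ (act (nnL ψ₁ b hb α⁻¹)⁻¹ x) = (α : L) * ψ₁ x := by
          rw [nn_inv_act, inv_inv, act_nnL, map_add, map_smul, hb, smul_eq_mul, mul_one]
          ring
        simp only [LinearMap.comp_apply, glLin_apply, fn_apply, LinearMap.smul_apply, smul_eq_mul, e']
        congr 1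
        ring
      rwa [e] at h1
    | zero =>
      intro κ _
      have e : fn π₀ (((0 : L) * κ) • ψ₁) = 0 := LinearMap.ext fun x => by simp [fn_apply]
      rw [e]
      exact InX.zero v₀
    | one =>
      intro κ hκ
      rwa [one_mul]
    | add a b _ _ ha hb =>
      intro κ hκ
      have e : fn π₀ (((a + b) * κ) • ψ₁) = fn π₀ ((a * κ) • ψ₁) + fn π₀ ((b * κ) • ψ₁) := LinearMap.ext fun x => by
        simp [fn_apply, add_mul]
      rw [e]
      exact (ha κ hκ).add (hb κ hκ)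
    | neg a _ ha =>
      intro κ hκ
      have e : fn π₀ ((-a * κ) • ψ₁) = - fn π₀ ((a * κ) • ψ₁) := LinearMap.ext fun x => by
        simp [fn_apply, neg_mul]
      rw [e]
      exact (ha κ hκ).neg
    | mul a b _ _ ha hb =>
      intro κ hκ
      rw [mul_assoc]
      exact ha _ (hb κ hκ)
  have hκall : ∀ κ : L, InX X v₀ (fn π₀ (κ • ψ₁)) := by
    intro κ
    have h1 : κ ∈ Subring.closure ((fun α : Lˣ => (α : L)) '' (Φ.ker : Set Lˣ)) := by
      rw [closure_ker hr Φ]
      trivial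
    have h2 := hscale κ h1 1 (by rwa [one_smul])
    rwa [mul_one] at h2
  -- Step C
  have hgood0 : ∀ ρ : (Fin n → F) →ₗ[L] L, ρ v₀ = 0 → InX X v₀ (fn π₀ ρ) := by
    intro ρ hρ
    by_cases hdep : ∃ κ : L, ρ = κ • ψ₁
    · obtain ⟨κ, rfl⟩ := hdep
      exact hκall κ
    · have hρ0 : ρ ≠ 0 := fun h => hdep ⟨0, by rw [h, zero_smul]⟩
      obtain ⟨x, hx⟩ : ∃ x, ρ x = 1 := by
        obtain ⟨x, hx⟩ : ∃ x, ρ x ≠ 0 := by
          by_contra hcon
          push Not at hcon
          exact hρ0 (LinearMap.ext hcon)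
        exact ⟨(ρ x)⁻¹ • x, by simp [hx]⟩
      obtain ⟨y, hy0, hy1⟩ : ∃ y, ρ y = 0 ∧ ψ₁ y ≠ 0 := by
        by_contra hcon
        push Not at hcon
        have h1 : ∀ v, ψ₁ v = ρ v * ψ₁ x := by
          intro v
          have h2 := hcon (v - ρ v • x) (by simp [hx])
          simp only [map_sub, map_smul, smul_eq_mul] at h2
          exact sub_eq_zero.1 h2
        have hx0 : ψ₁ x ≠ 0 := by
          intro h
          apply hψ₁0
          exact LinearMap.ext fun v => by rw [h1 v, h, mul_zero]; rfl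
        apply hdep
        refine ⟨(ψ₁ x)⁻¹, LinearMap.ext fun v => ?_⟩
        simp only [LinearMap.smul_apply, smul_eq_mul]
        rw [h1 v]
        field_simp
      let b' := (ψ₁ y)⁻¹ • y
      have hb'0 : ρ b' = 0 := by simp [b', hy0]
      have hb'1 : ψ₁ b' = 1 := by simp [b', hy1]
      have h1 := h₁.conj (hkt ρ b' hb'0)
      have e1 : act (kt ρ b' hb'0) v₀ = v₀ := by
        rw [act_kt, hρ]
        simp
      rw [e1] at h1
      have h2 := h₁.sub h1
      have e2 : fn π₀ ψ₁ - fn π₀ ψ₁ ∘ₗ glLin (kt ρ b' hb'0)⁻¹ = fn π₀ ρ := by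
        refine LinearMap.ext fun x => ?_
        simp only [LinearMap.sub_apply, LinearMap.comp_apply, glLin_apply, act_kt_inv, fn_apply, map_sub, map_smul, smul_eq_mul, hb'1, mul_one]
        rw [sub_sub_cancel]
      rwa [e2] at h2
  -- Step D
  have hstep : ∀ v₁ v₂ : Fin n → F, v₁ ≠ 0 → v₂ ∉ Submodule.span L {v₁} →
      (∀ ρ : (Fin n → F) →ₗ[L] L, ρ v₁ = 0 → InX X v₁ (fn π₀ ρ)) → (∀ ρ : (Fin n → F) →ₗ[L] L, ρ v₂ = 0 → InX X v₂ (fn π₀ ρ)) := by
    intro v₁ v₂ hv₁ hv₂ hg ρ hρ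
    have hv₁' : v₁ ∉ Submodule.span L {v₂} := by
      intro h
      obtain ⟨k, hk⟩ := Submodule.mem_span_singleton.1 h
      have hk0 : k ≠ 0 := by
        rintro rfl
        rw [zero_smul] at hk
        exact hv₁ hk.symm
      apply hv₂
      rw [Submodule.mem_span_singleton]
      exact ⟨k⁻¹, by rw [← hk, smul_smul, inv_mul_cancel₀ hk0, one_smul]⟩
    obtain ⟨χ₁, h1a, h1b⟩ := func_sep hv₁'
    obtain ⟨χ₂, h2a, h2b⟩ := func_sep hv₂
    have h1c := h1b _ (Submodule.mem_span_singleton_self v₂)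
    have h2c := h2b _ (Submodule.mem_span_singleton_self v₁)
    let χ := χ₁ + χ₂
    have hχ1 : χ v₁ = 1 := by simp [χ, h1a, h2c]
    have hχ2 : χ v₂ = 1 := by simp [χ, h1c, h2a]
    have hχc : χ (v₂ - v₁) = 0 := by rw [map_sub, hχ1, hχ2, sub_self]
    let ρ' := ρ - ρ v₁ • χ
    have hρ'1 : ρ' v₁ = 0 := by simp [ρ', hχ1]
    have h1 := (hg ρ' hρ'1).conj (hkt χ (v₂ - v₁) hχc)
    have e1 : act (kt χ (v₂ - v₁) hχc) v₁ = v₂ := by
      rw [act_kt, hχ1, one_smul]
      abel
    rw [e1] at h1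
    have e2 : fn π₀ ρ' ∘ₗ glLin (kt χ (v₂ - v₁) hχc)⁻¹ = fn π₀ ρ := by
      refine LinearMap.ext fun x => ?_
      simp only [LinearMap.comp_apply, glLin_apply, act_kt_inv, fn_apply]
      congr 1
      simp only [ρ', map_sub, map_smul, LinearMap.sub_apply, LinearMap.smul_apply, smul_eq_mul, hχ1, hχ2, hρ]
      ring
    rwa [e2] at h1
  have hnotin : ∀ v : Fin n → F, ∃ w, w ∉ Submodule.span L {v} := by
    intro v
    by_contra hcon
    push Not at hcon
    have h1 : Submodule.span L {v} = ⊤ := eq_top_iff.2 fun x _ => hcon x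
    have h2 := finrank_span_le_card (R := L) ({v} : Set (Fin n → F))
    rw [h1, finrank_top] at h2
    simp at h2
    omega
  have hgood : ∀ v : Fin n → F, v ≠ 0 → ∀ ρ : (Fin n → F) →ₗ[L] L, ρ v = 0 → InX X v (fn π₀ ρ) := by
    intro v hv
    by_cases hvv : v ∈ Submodule.span L {v₀}
    · obtain ⟨w, hw⟩ := hnotin v₀
      have hw0 : w ≠ 0 := by
        rintro rfl
        exact hw (Submodule.zero_mem _)
      apply hstep w v hw0 _ (hstep v₀ w hv₀ hw hgood0)
      intro h
      obtain ⟨k, hk⟩ := Submodule.mem_span_singleton.1 h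
      obtain ⟨k', hk'⟩ := Submodule.mem_span_singleton.1 hvv
      have hk0 : k ≠ 0 := by
        rintro rfl
        rw [zero_smul] at hk
        exact hv hk.symm
      apply hw
      rw [Submodule.mem_span_singleton]
      refine ⟨k⁻¹ * k', ?_⟩
      rw [mul_smul, hk', ← hk, smul_smul, inv_mul_cancel₀ hk0, one_smul]
    · exact hstep v₀ v hv₀ hvv hgood0
  -- Step E
  intro v φ hφ
  by_cases hv : v = 0
  · subst hv
    exact ⟨hφ, 1, X.one_mem, fun x => by simp [act_one]⟩
  obtain ⟨ρ, rfl⟩ := exists_rep hπ₀ φ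
  by_cases hρv : ρ v = 0
  · exact hgood v hv ρ hρv
  obtain ⟨w, hw0, hwρ⟩ : ∃ w, w ≠ 0 ∧ ρ w = 0 := by
    by_contra hcon
    push Not at hcon
    have hinj : Function.Injective ρ := by
      rw [injective_iff_map_eq_zero]
      intro a ha
      by_contra hne
      exact hcon a hne ha
    have h1 := LinearMap.finrank_le_finrank_of_injective hinj
    rw [Module.finrank_self] at h1
    omega
  have hwv : w ∉ Submodule.span L {v} := by
    intro h
    obtain ⟨k, hk⟩ := Submodule.mem_span_singleton.1 h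
    rw [← hk, map_smul, smul_eq_mul] at hwρ
    have hk0 : k = 0 := (mul_eq_zero.1 hwρ).resolve_right hρv
    rw [hk0, zero_smul] at hk
    exact hw0 hk.symm
  obtain ⟨ψ₂, h2a, h2b⟩ := func_sep hwv
  have h2c := h2b _ (Submodule.mem_span_singleton_self v)
  have h3 := hgood v hv (u₁ • ψ₂) (by simp [h2c])
  have h4 := hgood w hw0 ρ hwρ
  exact h3.comm h4 (by simp [fn_apply, h2a, hu₁]) hφ

/-- From one transvection to the whole special linear group. -/
theorem sl_le_of_transvection (hr : 2 ≤ finrank F L) (hm : 2 ≤ finrank L (Fin n → F))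
    (hX : ∀ g : GL (Fin n) F, IsLL L g → (g : MM).det = 1 → g ∈ X)
    {v₀ : Fin n → F} (hv₀ : v₀ ≠ 0) {φ₀ : (Fin n → F) →ₗ[F] F} (hφ₀ : φ₀ ≠ 0) (h₀ : InX X v₀ φ₀) :
    specialLinear (Fin n) F ≤ X := by
  apply specialLinear_le_of_tv
  intro x φ h
  let φ' : (Fin n → F) →ₗ[F] F :=
    { toFun := fun v => φ ⬝ᵥ v
      map_add' := fun a b => dotProduct_add φ a b
      map_smul' := fun c a => by simp [dotProduct_smul] }
  obtain ⟨-, g, hg, hga⟩ := inX_all hr hm hX hv₀ hφ₀ h₀ x φ' h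
  have : g = tv x φ h := gl_ext fun v => by
    rw [hga]
    exact (tv_mulVec x φ h v).symm
  rwa [← this]

end five

end main

end Cfsg.Agent.Lib.ClassMax.Ext
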