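import Mathlib
import Cfsg.Agent.Lib.ClassMax.Ext1

/-!
Overgroups of field-extension subgroups: images of lines, the maximal intersection argument.
-/

set_option autoImplicit false
set_option linter.unusedSimpArgs false
set_option linter.unusedVariables false
set_option linter.unusedSectionVars false
set_option linter.unusedFintypeInType false
set_option linter.unusedDecidableInType false

namespace Cfsg.Agent.Lib.ClassMax.Ext

open Module Matrix Cfsg.Geo Cfsg.Agent.Lib.ClassMax

section basics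

variable {F : Type*} [Field F] {n : ℕ}

theorem finrank_comap_gl (W : Submodule F (Fin n → F)) (g : GL (Fin n) F) : finrank F (W.comap (glLin g)) = finrank F W := by
  let e : (Fin n → F) ≃ₗ[F] (Fin n → F) := LinearEquiv.ofLinear (glLin g⁻¹) (glLin g)
    (LinearMap.ext fun v => by simp only [LinearMap.comp_apply, glLin_apply, act_inv_act, LinearMap.id_apply])
    (LinearMap.ext fun v => by simp only [LinearMap.comp_apply, glLin_apply, act_act_inv, LinearMap.id_apply])
  have h : W.comap (glLin g) = W.map (e : (Fin n → F) →ₗ[F] (Fin n → F)) := by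
    ext v
    constructor
    · intro hv
      exact ⟨glLin g v, hv, by simp [e, glLin_apply, act_inv_act]⟩
    · rintro ⟨x, hx, rfl⟩
      change act g (act g⁻¹ x) ∈ W
      rw [act_act_inv]
      exact hx
  rw [h]
  exact LinearEquiv.finrank_map_eq e W

end basics

section main

variable {F L : Type*} [Field F] [Fintype F] [Field L] [Algebra F L] {n : ℕ}
  [Module L (Fin n → F)] [IsScalarTower F L (Fin n → F)]

local notation "MM" => Matrix (Fin n) (Fin n) F

variable (L) in
/-- The `L`-line as an `F`-subspace. -/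
def ln (u : Fin n → F) : Submodule F (Fin n → F) := (Submodule.span L {u}).restrictScalars F

theorem mem_ln {u v : Fin n → F} : v ∈ ln L u ↔ ∃ k : L, k • u = v := Submodule.mem_span_singleton

theorem self_mem_ln (u : Fin n → F) : u ∈ ln L u := mem_ln.2 ⟨1, one_smul _ _⟩

variable (L) in
/-- The image of an `L`-line. -/
def AA (y : GL (Fin n) F) (w : Fin n → F) : Submodule F (Fin n → F) := (ln L w).comap (glLin y⁻¹)

theorem mem_AA {y : GL (Fin n) F} {w v : Fin n → F} : v ∈ AA L y w ↔ act y⁻¹ v ∈ ln L w := Iff.rfl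

/-- Multiplication into a line, as a linear map. -/
def tauL (u : Fin n → F) : L →ₗ[F] (Fin n → F) := (LinearMap.toSpanSingleton L (Fin n → F) u).restrictScalars F

theorem tauL_apply (u : Fin n → F) (k : L) : tauL u k = k • u := rfl

theorem tauL_inj {u : Fin n → F} (hu : u ≠ 0) : Function.Injective (tauL (L := L) u) := by
  intro a b h
  rw [tauL_apply, tauL_apply] at h
  have h1 : (a - b) • u = 0 := by rw [sub_smul, h, sub_self]
  exact sub_eq_zero.1 ((smul_eq_zero.1 h1).resolve_right hu)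

theorem finrank_ln [Finite L] {u : Fin n → F} (hu : u ≠ 0) : finrank F (ln L u) = finrank F L := by
  haveI : Module.Finite F L := Module.Finite.of_finite
  have h : ln L u = LinearMap.range (tauL (L := L) u) := by
    ext v
    rw [mem_ln, LinearMap.mem_range]
    rfl
  rw [h]
  exact LinearMap.finrank_range_of_inj (tauL_inj hu)

theorem finrank_AA [Finite L] (y : GL (Fin n) F) {w : Fin n → F} (hw : w ≠ 0) : finrank F (AA L y w) = finrank F L := by
  rw [AA, finrank_comap_gl, finrank_ln hw]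

/-- Additive maps with each value in the `L`-line of the argument are `L`-scalars. -/
theorem line_scalar [Finite L] (hm : 2 ≤ finrank L (Fin n → F)) (t : (Fin n → F) → (Fin n → F)) (hadd : ∀ x y, t (x + y) = t x + t y)
    (hline : ∀ v, ∃ c : L, t v = c • v) : ∃ c : L, ∀ v, t v = c • v := by
  haveI : Module.Finite L (Fin n → F) := Module.Finite.of_finite
  choose c hc using hline
  have hnotin : ∀ v : Fin n → F, ∃ w, w ∉ Submodule.span L {v} := by
    intro v
    by_contra hcon
    push Not at hcon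
    have h1 : Submodule.span L {v} = ⊤ := eq_top_iff.2 fun x _ => hcon x
    have h2 := finrank_span_le_card (R := L) ({v} : Set (Fin n → F))
    rw [h1, finrank_top] at h2
    simp at h2
    omega
  have hsame : ∀ v w : Fin n → F, v ≠ 0 → w ∉ Submodule.span L {v} → c w = c v := by
    intro v w hv hw
    have h1 : (c (v + w)) • (v + w) = c v • v + c w • w := by rw [← hc, ← hc, ← hc, hadd]
    have h2 : (c (v + w) - c w) • w = (c v - c (v + w)) • v := by
      rw [smul_add] at h1
      rw [sub_smul, sub_smul, sub_eq_sub_iff_add_eq_add, add_comm]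
      exact h1
    have h3 : c (v + w) = c w := by
      by_contra hne
      apply hw
      rw [Submodule.mem_span_singleton]
      refine ⟨(c (v + w) - c w)⁻¹ * (c v - c (v + w)), ?_⟩
      rw [mul_smul, ← h2, smul_smul, inv_mul_cancel₀ (sub_ne_zero.2 hne), one_smul]
    rw [h3, sub_self, zero_smul] at h2
    have h4 := (smul_eq_zero.1 h2.symm).resolve_right hv
    exact (sub_eq_zero.1 h4).symm
  obtain ⟨v₀, hv₀⟩ : ∃ v₀ : Fin n → F, v₀ ≠ 0 := by
    obtain ⟨w, hw⟩ := hnotin 0
    refine ⟨w, ?_⟩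
    rintro rfl
    exact hw (Submodule.zero_mem _)
  refine ⟨c v₀, fun v => ?_⟩
  by_cases hv : v = 0
  · subst hv
    have h0 : t 0 = 0 := by
      have := hadd 0 0
      rw [add_zero] at this
      exact left_eq_add.1 this
    rw [h0, smul_zero]
  by_cases hvv : v ∈ Submodule.span L {v₀}
  · obtain ⟨w, hw⟩ := hnotin v₀
    have hw0 : w ≠ 0 := by
      rintro rfl
      exact hw (Submodule.zero_mem _)
    have h1 : v ∉ Submodule.span L {w} := by
      intro h
      obtain ⟨k, hk⟩ := Submodule.mem_span_singleton.1 h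
      obtain ⟨k', hk'⟩ := Submodule.mem_span_singleton.1 hvv
      have hk0 : k ≠ 0 := by
        rintro rfl
        rw [zero_smul] at hk
        exact hv hk.symm
      apply hw
      rw [Submodule.mem_span_singleton]
      refine ⟨k⁻¹ * k', ?_⟩
      rw [mul_smul, hk', ← hk, smul_smul, inv_mul_cancel₀ hk0, one_smul]
    rw [hc, hsame w v hw0 h1, hsame v₀ w hv₀ hw]
  · rw [hc, hsame v₀ v hv₀ hvv]

/-- The commutator formula. -/
theorem comm_act {g₁ g₂ : GL (Fin n) F} {c a : (Fin n → F) →ₗ[F] (Fin n → F)} (h₁ : ∀ x, act g₁ x = x + c x) (h₂ : ∀ x, act g₂ x = x + a x)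
    (hcc : ∀ x, c (c x) = 0) (haa : ∀ x, a (a x) = 0) (hac : ∀ x, a (c x) = 0) (x : Fin n → F) :
    act (g₁ * g₂ * g₁⁻¹ * g₂⁻¹) x = x + c (a x) := by
  have hi₁ : ∀ y, act g₁⁻¹ y = y - c y := by
    intro y
    apply act_injective g₁
    rw [act_act_inv, h₁]
    simp only [map_sub, hcc, sub_zero]
    abel
  have hi₂ : ∀ y, act g₂⁻¹ y = y - a y := by
    intro y
    apply act_injective g₂
    rw [act_act_inv, h₂]
    simp only [map_sub, haa, sub_zero]
    abel
  rw [act_mul, act_mul, act_mul, hi₂, hi₁, h₂, h₁]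
  simp only [map_add, map_sub, hcc, haa, hac, sub_zero, add_zero, zero_add]
  abel

/-- Intermediate subalgebras for prime degree. -/
theorem subalg_bot_or_top [Finite L] (hp : (finrank F L).Prime) (R : Subalgebra F L) : (∀ x ∈ R, ∃ c : F, algebraMap F L c = x) ∨ R = ⊤ := by
  classical
  haveI : Fintype L := Fintype.ofFinite L
  haveI : Module.Finite F L := Module.Finite.of_finite
  have hinv : ∀ x ∈ R, x⁻¹ ∈ R := by
    intro x hx
    by_cases h0 : x = 0
    · rw [h0, _root_.inv_zero]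
      exact R.zero_mem
    · have hcardL2 : 2 ≤ Fintype.card L := Fintype.one_lt_card
      have h1 : x * x ^ (Fintype.card L - 2) = 1 := by
        rw [← pow_succ']
        have : Fintype.card L - 2 + 1 = Fintype.card L - 1 := by omega
        rw [this]
        exact FiniteField.pow_card_sub_one_eq_one x h0
      have h2 : x⁻¹ = x ^ (Fintype.card L - 2) := inv_eq_of_mul_eq_one_right h1
      rw [h2]
      exact R.pow_mem hx _
  let E : IntermediateField F L := R.toIntermediateField hinv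
  have hE : ∀ x, x ∈ E ↔ x ∈ R := fun x => Iff.rfl
  haveI := IntermediateField.isSimpleOrder_of_finrank_prime F L hp
  rcases eq_bot_or_eq_top E with h | h
  · left
    intro x hx
    have h1 : x ∈ E := (hE x).2 hx
    rw [h] at h1
    exact IntermediateField.mem_bot.1 h1
  · right
    rw [eq_top_iff]
    intro x _
    have h1 : x ∈ E := by
      rw [h]
      trivial
    exact (hE x).1 h1

variable (X : Subgroup (GL (Fin n) F))

/-- The output of the maximal-intersection argument. -/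
structure Tri (y : GL (Fin n) F) (w u a : Fin n → F) (ψ : (Fin n → F) →ₗ[L] L) : Prop where
  hy : y ∈ X
  hw : w ≠ 0
  hu : u ≠ 0
  hψu : ψ u = 0
  hψa : ψ a = 1
  huA : u ∈ AA L y w
  haA : a ∈ AA L y w
  hdec : ∀ b ∈ AA L y w, ∃ (c : F) (k : L), b = c • a + k • u ∧ k • u ∈ AA L y w

variable {X}

theorem exists_tri [Finite L] (hp : (finrank F L).Prime)
    (hX : ∀ g : GL (Fin n) F, IsLL L g → (g : MM).det = 1 → g ∈ X)
    {x : GL (Fin n) F} (hx : x ∈ X) {w₀ : Fin n → F} (hw₀ : w₀ ≠ 0) (hline : ∀ u, AA L x w₀ ≠ ln L u) :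
    ∃ (y : GL (Fin n) F) (w u a : Fin n → F) (ψ : (Fin n → F) →ₗ[L] L), Tri X y w u a ψ := by
  classical
  haveI : Module.Finite F L := Module.Finite.of_finite
  have hr2 : 2 ≤ finrank F L := hp.two_le
  have hkt : ∀ (ψ : (Fin n → F) →ₗ[L] L) (v : Fin n → F) (h : ψ v = 0), kt ψ v h ∈ X :=
    fun ψ v h => hX _ (isLL_kt ψ v h) (det_kt ψ v h)
  let P : ℕ → Prop := fun k => ∃ y ∈ X, ∃ w u : Fin n → F, w ≠ 0 ∧ u ≠ 0 ∧ AA L y w ≠ ln L u ∧ finrank F (↥(AA L y w ⊓ ln L u)) = k
  have hPbd : ∀ k, P k → k ≤ n := by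
    rintro k ⟨y, -, w, u, -, -, -, rfl⟩
    have := Submodule.finrank_le (AA L y w ⊓ ln L u)
    simpa using this
  -- a starting triple
  have hpos : finrank F (AA L x w₀) ≠ 0 := by
    rw [finrank_AA x hw₀]
    omega
  have hA0 : AA L x w₀ ≠ ⊥ := by
    intro h
    rw [h, finrank_bot] at hpos
    exact hpos rfl
  obtain ⟨u₀, hu₀A, hu₀⟩ := Submodule.exists_mem_ne_zero_of_ne_bot hA0
  have hP0 : P (finrank F (↥(AA L x w₀ ⊓ ln L u₀))) := ⟨x, hx, w₀, u₀, hw₀, hu₀, hline u₀, rfl⟩
  have hpos0 : 1 ≤ finrank F (↥(AA L x w₀ ⊓ ln L u₀)) := by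
    rw [Nat.succ_le_iff, Module.finrank_pos_iff_exists_ne_zero]
    exact ⟨⟨u₀, hu₀A, self_mem_ln u₀⟩, fun h => hu₀ (congrArg Subtype.val h)⟩
  let δ := Nat.findGreatest P n
  have hPδ : P δ := Nat.findGreatest_spec (hPbd _ hP0) hP0
  have hmax : ∀ k, P k → k ≤ δ := fun k hk => Nat.le_findGreatest (hPbd k hk) hk
  have hδ1 : 1 ≤ δ := hpos0.trans (hmax _ hP0)
  obtain ⟨y, hy, w, u', hw, hu', hne', hfin'⟩ := hPδ
  -- normalise `u`
  have hD0 : AA L y w ⊓ ln L u' ≠ ⊥ := by
    intro h
    rw [h, finrank_bot] at hfin'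
    omega
  obtain ⟨u, huD, hu⟩ := Submodule.exists_mem_ne_zero_of_ne_bot hD0
  have hlnu : ln L u = ln L u' := by
    obtain ⟨k, hk⟩ := mem_ln.1 huD.2
    have hk0 : k ≠ 0 := by
      rintro rfl
      rw [zero_smul] at hk
      exact hu hk.symm
    ext v
    constructor
    · intro hv
      obtain ⟨c, rfl⟩ := mem_ln.1 hv
      exact mem_ln.2 ⟨c * k, by rw [mul_smul, hk]⟩
    · intro hv
      obtain ⟨c, rfl⟩ := mem_ln.1 hv
      exact mem_ln.2 ⟨c * k⁻¹, by rw [← hk, smul_smul, mul_assoc, inv_mul_cancel₀ hk0, mul_one]⟩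
  have huA : u ∈ AA L y w := huD.1
  have hne : AA L y w ≠ ln L u := by rwa [hlnu]
  have hfin : finrank F (↥(AA L y w ⊓ ln L u)) = δ := by rwa [hlnu]
  have hAfin : finrank F (AA L y w) = finrank F L := finrank_AA y hw
  have hlnfin : finrank F (ln L u) = finrank F L := finrank_ln hu
  have hnotAle : ¬ AA L y w ≤ ln L u := fun h => hne (Submodule.eq_of_le_of_finrank_eq h (by rw [hAfin, hlnfin]))
  have hnotle : ¬ ln L u ≤ AA L y w := fun h => hne (Submodule.eq_of_le_of_finrank_eq h (by rw [hAfin, hlnfin])).symm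
  -- the stabiliser of the kernel
  let R : Subalgebra F L :=
    { carrier := {c | ∀ k : L, k • u ∈ AA L y w → (c * k) • u ∈ AA L y w}
      mul_mem' := fun {c d} hc hd k hk => by
        have := hc _ (hd k hk)
        rwa [← mul_assoc] at this
      add_mem' := fun {c d} hc hd k hk => by
        rw [add_mul, add_smul]
        exact Submodule.add_mem _ (hc k hk) (hd k hk)
      algebraMap_mem' := fun c k hk => by
        have h1 : (algebraMap F L c * k) • u = c • (k • u) := by
          rw [mul_smul, algebraMap_smul]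
        rw [h1]
        exact Submodule.smul_mem _ _ hk }
  have hRtop : R ≠ ⊤ := by
    intro h
    apply hnotle
    intro v hv
    obtain ⟨k, rfl⟩ := mem_ln.1 hv
    have h1 : k ∈ R := by
      rw [h]
      trivial
    have h2 := h1 1 (by rwa [one_smul])
    rwa [mul_one] at h2
  have hRbot : ∀ c ∈ R, ∃ c' : F, algebraMap F L c' = c := (subalg_bot_or_top hp R).resolve_right hRtop
  -- the key step
  have hkey : ∀ (ψ' : (Fin n → F) →ₗ[L] L) (b₀ : Fin n → F), ψ' u = 0 → b₀ ∈ AA L y w → ψ' b₀ ≠ 0 → ∀ b ∈ AA L y w, ∃ c : F, ψ' b = c • ψ' b₀ := by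
    intro ψ' b₀ hψ'u hb₀ hb₀0 b hb
    have hR : ψ' b / ψ' b₀ ∈ R := by
      intro k hk
      have he0 : ψ' ((k / ψ' b₀) • u) = 0 := by simp [hψ'u]
      let e := kt ψ' ((k / ψ' b₀) • u) he0
      have heX : e ∈ X := hkt _ _ _
      have hea : ∀ v, act e v = v + ψ' v • (k / ψ' b₀) • u := fun v => act_kt _ _ _ v
      have heia : ∀ v, act e⁻¹ v = v - ψ' v • (k / ψ' b₀) • u := fun v => act_kt_inv _ _ _ v
      have hclaim : ∀ v ∈ AA L y w, act e v ∈ AA L y w := by
        by_contra hcon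
        push Not at hcon
        obtain ⟨v₁, hv₁, hv₁'⟩ := hcon
        let y' : GL (Fin n) F := y⁻¹ * e * y
        have hy' : y' ∈ X := X.mul_mem (X.mul_mem (X.inv_mem hy) heX) hy
        have hne2 : AA L y' w ≠ ln L w := by
          intro h
          apply hv₁'
          have h1 : act y⁻¹ v₁ ∈ ln L w := hv₁
          have h2 : act y' (act y⁻¹ v₁) ∈ ln L w := by
            rw [← h]
            change act y'⁻¹ (act y' (act y⁻¹ v₁)) ∈ ln L w
            rw [act_inv_act]
            exact h1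
          change act y⁻¹ (act e v₁) ∈ ln L w
          have e3 : act y' (act y⁻¹ v₁) = act y⁻¹ (act e v₁) := by
            simp only [y', act_mul, act_act_inv]
          rwa [e3] at h2
        -- the larger intersection
        have hd : (k • u) ∈ AA L y w ⊓ ln L u := ⟨hk, mem_ln.2 ⟨k, rfl⟩⟩
        let S₀ := AA L y w ⊓ ln L u
        let S₁ := S₀ ⊔ Submodule.span F {b₀ + k • u}
        have hψS₀ : ∀ s ∈ S₀, ψ' s = 0 := by
          intro s hs
          obtain ⟨c, rfl⟩ := mem_ln.1 hs.2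
          simp [hψ'u]
        have hnot : b₀ + k • u ∉ S₀ := by
          intro h
          have := hψS₀ _ h
          rw [map_add, map_smul, hψ'u, smul_zero, add_zero] at this
          exact hb₀0 this
        have hlt : S₀ < S₁ := by
          refine lt_of_le_of_ne le_sup_left ?_
          intro h
          apply hnot
          rw [h]
          exact Submodule.mem_sup_right (Submodule.mem_span_singleton_self _)
        have hfinlt : finrank F S₀ < finrank F S₁ := Submodule.finrank_lt_finrank_of_lt hlt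
        -- elements of S₁ are mapped into the image
        have hS₁A : ∀ z ∈ S₁, z ∈ AA L y w ∧ act e⁻¹ z ∈ AA L y w := by
          intro z hz
          obtain ⟨s, hs, t, ht, rfl⟩ := Submodule.mem_sup.1 hz
          obtain ⟨c, rfl⟩ := Submodule.mem_span_singleton.1 ht
          have hb₀d : b₀ + k • u ∈ AA L y w := Submodule.add_mem _ hb₀ hk
          refine ⟨Submodule.add_mem _ hs.1 (Submodule.smul_mem _ _ hb₀d), ?_⟩
          have e4 : act e⁻¹ (s + c • (b₀ + k • u)) = s + c • b₀ := by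
            rw [heia, map_add, hψS₀ s hs, zero_add]
            have e5 : ψ' (c • (b₀ + k • u)) = c • ψ' b₀ := by
              rw [LinearMap.map_smul_of_tower, map_add, map_smul, hψ'u, smul_zero, add_zero]
            rw [e5]
            have e6 : (c • ψ' b₀) • (k / ψ' b₀) • u = c • (k • u) := by
              rw [smul_assoc, smul_smul (ψ' b₀), mul_div_cancel₀ _ hb₀0]
            rw [e6, smul_add]
            abel
          rw [e4]
          exact Submodule.add_mem _ hs.1 (Submodule.smul_mem _ _ hb₀)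
        let T₁ := S₁.comap (glLin y)
        have hT : T₁ ≤ AA L y' w ⊓ ln L w := by
          intro z hz
          have hz' : act y z ∈ S₁ := hz
          obtain ⟨h5, h6⟩ := hS₁A _ hz'
          constructor
          · change act y'⁻¹ z ∈ ln L w
            have e7 : act y'⁻¹ z = act y⁻¹ (act e⁻¹ (act y z)) := by
              have e70 : y'⁻¹ = y⁻¹ * e⁻¹ * y := by
                simp only [y']
                group
              rw [e70, act_mul, act_mul]
            rw [e7]
            exact h6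
          · have e8 : act y⁻¹ (act y z) = z := act_inv_act y z
            have h7 : act y⁻¹ (act y z) ∈ ln L w := h5
            rwa [e8] at h7
        have hfinT : finrank F T₁ = finrank F S₁ := finrank_comap_gl _ _
        have h9 : finrank F (↥(AA L y' w ⊓ ln L w)) ≤ δ := hmax _ ⟨y', hy', w, w, hw, hw, hne2, rfl⟩
        have h10 := Submodule.finrank_mono hT
        have h11 : finrank F S₀ = δ := hfin
        omega
      have h1 := hclaim b hb
      rw [hea] at h1
      have h2 : ψ' b • (k / ψ' b₀) • u ∈ AA L y w := by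
        have := Submodule.sub_mem _ h1 hb
        rwa [add_sub_cancel_left] at this
      have e1 : (ψ' b / ψ' b₀ * k) • u = ψ' b • (k / ψ' b₀) • u := by
        rw [smul_smul]
        congr 1
        ring
      rw [e1]
      exact h2
    obtain ⟨c, hc⟩ := hRbot _ hR
    refine ⟨c, ?_⟩
    rw [Algebra.smul_def, hc]
    field_simp
  -- the vector `a`
  obtain ⟨a', ha'A, ha'⟩ : ∃ a' ∈ AA L y w, a' ∉ ln L u := by
    by_contra hcon
    push Not at hcon
    exact hnotAle hcon
  have ha'span : a' ∉ Submodule.span L {u} := ha'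
  obtain ⟨ψ₀, hψ₀a, hψ₀s⟩ := func_sep ha'span
  have hψ₀u : ψ₀ u = 0 := hψ₀s _ (Submodule.mem_span_singleton_self u)
  have hψ₀ln : ∀ b ∈ AA L y w, ψ₀ b = 0 → b ∈ ln L u := by
    intro b hb hb0
    by_contra hbn
    have hbspan : b ∉ Submodule.span L {u, a'} := by
      intro h
      obtain ⟨α, β, rfl⟩ := Submodule.mem_span_pair.1 h
      simp only [map_add, map_smul, hψ₀u, hψ₀a, smul_eq_mul, mul_zero, mul_one, zero_add] at hb0
      subst hb0
      apply hbn
      rw [zero_smul, add_zero]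
      exact mem_ln.2 ⟨α, rfl⟩
    obtain ⟨ψ₃, h3b, h3s⟩ := func_sep hbspan
    have h3u : ψ₃ u = 0 := h3s _ (Submodule.subset_span (by simp))
    have h3a : ψ₃ a' = 0 := h3s _ (Submodule.subset_span (by simp))
    obtain ⟨θ, hθ⟩ : ∃ θ : L, ∀ c : F, algebraMap F L c ≠ θ := by
      by_contra hcon
      push Not at hcon
      have h1 : (⊥ : Subalgebra F L) = ⊤ := by
        rw [eq_top_iff]
        intro θ _
        obtain ⟨c, hc⟩ := hcon θ
        rw [← hc]
        exact Subalgebra.algebraMap_mem _ _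
      have h2 := Subalgebra.bot_eq_top_iff_finrank_eq_one.1 h1
      omega
    let ψ' := ψ₀ + θ • ψ₃
    have h1 : ψ' u = 0 := by simp [ψ', hψ₀u, h3u]
    have h2 : ψ' a' = 1 := by simp [ψ', hψ₀a, h3a]
    have h3 : ψ' b = θ := by simp [ψ', hb0, h3b]
    obtain ⟨c, hc⟩ := hkey ψ' a' h1 ha'A (by rw [h2]; exact one_ne_zero) b hb
    rw [h2, h3, Algebra.smul_def, mul_one] at hc
    exact hθ c hc.symm
  refine ⟨y, w, u, a', ψ₀, hy, hw, hu, hψ₀u, hψ₀a, huA, ha'A, ?_⟩
  intro b hb
  obtain ⟨c, hc⟩ := hkey ψ₀ a' hψ₀u ha'A (by rw [hψ₀a]; exact one_ne_zero) b hb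
  rw [hψ₀a] at hc
  have hb' : b - c • a' ∈ AA L y w := Submodule.sub_mem _ hb (Submodule.smul_mem _ _ ha'A)
  have hb0 : ψ₀ (b - c • a') = 0 := by
    rw [map_sub, LinearMap.map_smul_of_tower, hψ₀a, hc, sub_self]
  obtain ⟨k, hk⟩ := mem_ln.1 (hψ₀ln _ hb' hb0)
  refine ⟨c, k, ?_, ?_⟩
  · rw [hk]
    abel
  · rw [hk]
    exact hb'

theorem exists_retract [Nontrivial L] : ∃ π₁ : L →ₗ[F] F, π₁ 1 = 1 := by
  have h1 : (1 : L) ∉ (⊥ : Submodule F L) := by
    simp
  obtain ⟨f, hf, -⟩ := Submodule.exists_le_ker_of_notMem h1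
  refine ⟨(f 1)⁻¹ • f, ?_⟩
  simp [hf]

theorem Tri.ne_a {y : GL (Fin n) F} {w u a : Fin n → F} {ψ : (Fin n → F) →ₗ[L] L} (T : Tri X y w u a ψ) : a ≠ 0 := by
  intro h
  have := T.hψa
  rw [h, map_zero] at this
  exact zero_ne_one this

theorem Tri.psi_ln {y : GL (Fin n) F} {w u a : Fin n → F} {ψ : (Fin n → F) →ₗ[L] L} (T : Tri X y w u a ψ) (s : L) : ψ (s • u) = 0 := by
  rw [map_smul, T.hψu, smul_zero]

theorem Tri.psi_mem {y : GL (Fin n) F} {w u a : Fin n → F} {ψ : (Fin n → F) →ₗ[L] L} (T : Tri X y w u a ψ) {π₁ : L →ₗ[F] F} (h1 : π₁ 1 = 1)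
    {b : Fin n → F} (hb : b ∈ AA L y w) : ψ b = algebraMap F L (π₁ (ψ b)) := by
  obtain ⟨c, k, rfl, -⟩ := T.hdec b hb
  have e : ψ (c • a + k • u) = c • (1 : L) := by
    rw [map_add, T.psi_ln, add_zero, LinearMap.map_smul_of_tower, T.hψa]
  rw [e, map_smul, h1, Algebra.smul_def, mul_one, smul_eq_mul, mul_one]

theorem exists_pi [Finite L] {y : GL (Fin n) F} {w u a : Fin n → F} {ψ : (Fin n → F) →ₗ[L] L} (T : Tri X y w u a ψ) :
    ∃ (π : L →ₗ[F] F) (u₁ : L), π u₁ = 1 ∧ π 1 = 0 ∧ (∀ k : L, k • u ∈ AA L y w → π k = 0) ∧ (∀ s : L, (s - π s • u₁) • u ∈ AA L y w) := by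
  classical
  haveI : Module.Finite F L := Module.Finite.of_finite
  let DK : Submodule F L := (AA L y w).comap (tauL u)
  have hDK : ∀ k : L, k ∈ DK ↔ k • u ∈ AA L y w := fun k => Iff.rfl
  obtain ⟨u₀, hu₀⟩ : ∃ u₀, u₀ ∉ DK := by
    by_contra hcon
    push Not at hcon
    have hle : ln L u ≤ AA L y w := by
      intro v hv
      obtain ⟨k, rfl⟩ := mem_ln.1 hv
      exact hcon k
    have heq := Submodule.eq_of_le_of_finrank_eq hle (by rw [finrank_ln T.hu, finrank_AA y T.hw])
    have ha := T.haA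
    rw [← heq] at ha
    obtain ⟨k, hk⟩ := mem_ln.1 ha
    have h1 := T.hψa
    rw [← hk, T.psi_ln] at h1
    exact zero_ne_one h1
  obtain ⟨f, hf, hfle⟩ := Submodule.exists_le_ker_of_notMem hu₀
  let π : L →ₗ[F] F := (f u₀)⁻¹ • f
  have hπu : π u₀ = 1 := by simp [π, hf]
  have hπD : ∀ k ∈ DK, π k = 0 := by
    intro k hk
    simp [π, LinearMap.mem_ker.1 (hfle hk)]
  have hle : AA L y w ≤ DK.map (tauL u) ⊔ Submodule.span F {a} := by
    intro b hb
    obtain ⟨c, k, rfl, hk⟩ := T.hdec b hb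
    rw [add_comm]
    exact Submodule.add_mem_sup ⟨k, hk, rfl⟩ (Submodule.smul_mem _ _ (Submodule.mem_span_singleton_self a))
  have hdim : finrank F L ≤ finrank F DK + 1 := by
    have h1 := Submodule.finrank_mono hle
    rw [finrank_AA y T.hw] at h1
    have h2 := Submodule.finrank_add_le_finrank_add_finrank (DK.map (tauL u)) (Submodule.span F {a})
    have h3 : finrank F (DK.map (tauL u)) ≤ finrank F DK := Submodule.finrank_map_le _ _
    have h4 : finrank F (Submodule.span F {a}) ≤ 1 := by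
      have := finrank_span_le_card (R := F) ({a} : Set (Fin n → F))
      simpa using this
    omega
  have htop : DK ⊔ Submodule.span F {u₀} = ⊤ := by
    apply Submodule.eq_top_of_finrank_eq
    apply le_antisymm (Submodule.finrank_le _)
    have h1 : finrank F (↥(DK ⊔ Submodule.span F {u₀})) = finrank F DK + 1 := by
      have hdisj : Disjoint DK (Submodule.span F {u₀}) := by
        rw [Submodule.disjoint_def]
        intro x hx hx'
        obtain ⟨c, rfl⟩ := Submodule.mem_span_singleton.1 hx'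
        by_cases hc : c = 0
        · simp [hc]
        · exfalso
          apply hu₀
          have := DK.smul_mem c⁻¹ hx
          rwa [smul_smul, inv_mul_cancel₀ hc, one_smul] at this
      have h2 := Submodule.finrank_sup_add_finrank_inf_eq DK (Submodule.span F {u₀})
      rw [hdisj.eq_bot, finrank_bot, add_zero, finrank_span_singleton (fun h => hu₀ (by rw [h]; exact DK.zero_mem))] at h2
      exact h2
    omega
  refine ⟨π, u₀, hπu, ?_, fun k hk => hπD k hk, fun s => ?_⟩
  · apply hπD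
    rw [hDK, one_smul]
    exact T.huA
  · have hs : s ∈ DK ⊔ Submodule.span F {u₀} := by
      rw [htop]
      trivial
    obtain ⟨k, hk, t, ht, rfl⟩ := Submodule.mem_sup.1 hs
    obtain ⟨c, rfl⟩ := Submodule.mem_span_singleton.1 ht
    have e : π (k + c • u₀) = c := by
      rw [map_add, hπD k hk, zero_add, map_smul, hπu, smul_eq_mul, mul_one]
    rw [e, add_sub_cancel_right]
    exact hk

/-- The image of a transvection. -/
def apL (y : GL (Fin n) F) (ρ : (Fin n → F) →ₗ[L] L) (w : Fin n → F) : (Fin n → F) →ₗ[F] (Fin n → F) :=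
  glLin y ∘ₗ (((LinearMap.toSpanSingleton L (Fin n → F) w) ∘ₗ ρ).restrictScalars F) ∘ₗ glLin y⁻¹

theorem apL_apply (y : GL (Fin n) F) (ρ : (Fin n → F) →ₗ[L] L) (w v : Fin n → F) : apL y ρ w v = act y (ρ (act y⁻¹ v) • w) := rfl

theorem act_pL (y : GL (Fin n) F) (ρ : (Fin n → F) →ₗ[L] L) (w : Fin n → F) (h : ρ w = 0) (v : Fin n → F) :
    act (y * kt ρ w h * y⁻¹) v = v + apL y ρ w v := by
  rw [act_mul, act_mul, act_kt, act_add, act_act_inv, apL_apply]

theorem apL_kills {y : GL (Fin n) F} {ρ : (Fin n → F) →ₗ[L] L} {w : Fin n → F} (h : ρ w = 0) {v : Fin n → F} (hv : v ∈ AA L y w) : apL y ρ w v = 0 := by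
  rw [apL_apply]
  obtain ⟨k, hk⟩ := mem_ln.1 (mem_AA.1 hv)
  rw [← hk, map_smul, h, smul_zero, zero_smul, act_zero]

theorem apL_mem (y : GL (Fin n) F) (ρ : (Fin n → F) →ₗ[L] L) (w v : Fin n → F) : apL y ρ w v ∈ AA L y w := by
  rw [apL_apply, mem_AA, act_inv_act]
  exact mem_ln.2 ⟨_, rfl⟩

/-- A transvection in the case of a functional killing two vectors. -/
theorem transv_of_rho [Finite L] {y : GL (Fin n) F} {w u a : Fin n → F} {ψ : (Fin n → F) →ₗ[L] L} (T : Tri X y w u a ψ)
    (hX : ∀ g : GL (Fin n) F, IsLL L g → (g : MM).det = 1 → g ∈ X)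
    {π : L →ₗ[F] F} {u₁ : L} (hs : ∀ s : L, (s - π s • u₁) • u ∈ AA L y w)
    {ρ : (Fin n → F) →ₗ[L] L} (hρ0 : ρ ≠ 0) (hρw : ρ w = 0) (hρu : ρ (act y⁻¹ (u₁ • u)) = 0) :
    ∃ φ : (Fin n → F) →ₗ[F] F, φ ≠ 0 ∧ InX X u φ := by
  classical
  have hkt : ∀ (ψ : (Fin n → F) →ₗ[L] L) (v : Fin n → F) (h : ψ v = 0), kt ψ v h ∈ X :=
    fun ψ v h => hX _ (isLL_kt ψ v h) (det_kt ψ v h)
  obtain ⟨π₁, hπ₁⟩ := exists_retract (F := F) (L := L)
  let a' := apL y ρ w
  have hu1 : a' (u₁ • u) = 0 := by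
    change act y (ρ (act y⁻¹ (u₁ • u)) • w) = 0
    rw [hρu, zero_smul, act_zero]
  have hlnk : ∀ s : L, a' (s • u) = 0 := by
    intro s
    have e : s • u = (s - π s • u₁) • u + π s • (u₁ • u) := by
      rw [sub_smul, smul_assoc]
      abel
    rw [e, map_add, apL_kills hρw (hs s), LinearMap.map_smul_of_tower, hu1, smul_zero, add_zero]
  let c : (Fin n → F) →ₗ[F] (Fin n → F) := ((LinearMap.toSpanSingleton L (Fin n → F) u) ∘ₗ ψ).restrictScalars F
  have hc : ∀ x, c x = ψ x • u := fun x => rfl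
  have hcomm := comm_act (g₁ := kt ψ u T.hψu) (g₂ := y * kt ρ w hρw * y⁻¹) (c := c) (a := a')
    (fun x => act_kt _ _ _ x) (fun x => act_pL _ _ _ _ x)
    (fun x => by rw [hc, hc, T.psi_ln, zero_smul])
    (fun x => apL_kills hρw (apL_mem _ _ _ _))
    (fun x => by rw [hc]; exact hlnk _)
  let φ : (Fin n → F) →ₗ[F] F := π₁ ∘ₗ (ψ.restrictScalars F) ∘ₗ a'
  have hφ : ∀ x, (ψ (a' x)) = algebraMap F L (φ x) := fun x => T.psi_mem hπ₁ (apL_mem _ _ _ _)
  refine ⟨φ, ?_, ?_⟩
  · intro h0
    obtain ⟨s, hsa⟩ := mem_ln.1 (mem_AA.1 T.haA)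
    obtain ⟨t₀, ht₀⟩ : ∃ t₀, ρ t₀ = 1 := by
      obtain ⟨x, hx⟩ : ∃ x, ρ x ≠ 0 := by
        by_contra hcon
        push Not at hcon
        exact hρ0 (LinearMap.ext hcon)
      exact ⟨(ρ x)⁻¹ • x, by simp [hx]⟩
    have e1 : a' (act y (s • t₀)) = a := by
      change act y (ρ (act y⁻¹ (act y (s • t₀))) • w) = a
      rw [act_inv_act, map_smul, ht₀, smul_eq_mul, mul_one, hsa, act_act_inv]
    have h1 := hφ (act y (s • t₀))
    rw [e1, T.hψa, h0, LinearMap.zero_apply, map_zero] at h1
    exact one_ne_zero h1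
  · refine ⟨?_, _, X.mul_mem (X.mul_mem (X.mul_mem (hkt ψ u T.hψu) (X.mul_mem (X.mul_mem T.hy (hkt ρ w hρw)) (X.inv_mem T.hy))) (X.inv_mem (hkt ψ u T.hψu))) (X.inv_mem (X.mul_mem (X.mul_mem T.hy (hkt ρ w hρw)) (X.inv_mem T.hy))), fun x => ?_⟩
    · change π₁ (ψ (a' u)) = 0
      rw [apL_kills hρw T.huA, map_zero, map_zero]
    · rw [hcomm, hc, hφ, algebraMap_smul]

end main

end Cfsg.Agent.Lib.ClassMax.Ext
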