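import Mathlib
import Cfsg.Agent.Lib.ClassMax.Ext2

/-!
Overgroups of field-extension subgroups: the case of dimension two over the larger field.
-/

set_option autoImplicit false
set_option linter.unusedSimpArgs false
set_option linter.unusedVariables false
set_option linter.unusedSectionVars false
set_option linter.unusedFintypeInType false
set_option linter.unusedDecidableInType false

namespace Cfsg.Agent.Lib.ClassMax.Ext

open Module Matrix Cfsg.Geo Cfsg.Agent.Lib.ClassMax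

section main

variable {F L : Type*} [Field F] [Fintype F] [Field L] [Algebra F L] {n : ℕ}
  [Module L (Fin n → F)] [IsScalarTower F L (Fin n → F)]

local notation "MM" => Matrix (Fin n) (Fin n) F

variable (X : Subgroup (GL (Fin n) F))

/-- The elements `v ↦ v + β(ψ v) u` of `X`. -/
def InS (ψ : (Fin n → F) →ₗ[L] L) (u : Fin n → F) (β : L → L) : Prop :=
  ∃ g ∈ X, ∀ x, act g x = x + β (ψ x) • u

variable {X} {ψ : (Fin n → F) →ₗ[L] L} {u : Fin n → F}

theorem InS.congr {β β' : L → L} (h : InS X ψ u β) (he : ∀ t, β t = β' t) : InS X ψ u β' := by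
  have : β = β' := funext he
  rwa [← this]

theorem InS.zero : InS X ψ u (fun _ => 0) := ⟨1, X.one_mem, fun x => by simp [act_one]⟩

theorem InS.add (hu : ψ u = 0) {β β' : L → L} (h : InS X ψ u β) (h' : InS X ψ u β') : InS X ψ u (fun t => β t + β' t) := by
  obtain ⟨g, hg, hga⟩ := h
  obtain ⟨g', hg', hga'⟩ := h'
  refine ⟨g * g', X.mul_mem hg hg', fun x => ?_⟩
  have e : ψ (x + β' (ψ x) • u) = ψ x := by simp [hu]
  rw [act_mul, hga', hga, e, add_smul]
  abel

theorem InS.neg (hu : ψ u = 0) {β : L → L} (h : InS X ψ u β) : InS X ψ u (fun t => - β t) := by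
  obtain ⟨g, hg, hga⟩ := h
  refine ⟨g⁻¹, X.inv_mem hg, fun x => ?_⟩
  apply act_injective g
  have e : ψ (x + (-β (ψ x)) • u) = ψ x := by simp [hu]
  rw [act_act_inv, hga, e, neg_smul]
  abel

theorem InS.sub (hu : ψ u = 0) {β β' : L → L} (h : InS X ψ u β) (h' : InS X ψ u β') : InS X ψ u (fun t => β t - β' t) := by
  have := h.add hu (h'.neg hu)
  exact this.congr fun t => by ring

theorem InS.sum (hu : ψ u = 0) {ι : Type*} (s : Finset ι) {β : ι → L → L} (h : ∀ i ∈ s, InS X ψ u (β i)) :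
    InS X ψ u (fun t => ∑ i ∈ s, β i t) := by
  classical
  induction s using Finset.induction_on with
  | empty => simpa using (InS.zero (X := X) (ψ := ψ) (u := u))
  | insert a s ha ih =>
    have h1 := (h a (Finset.mem_insert_self a s)).add hu (ih fun i hi => h i (Finset.mem_insert_of_mem hi))
    exact h1.congr fun t => by rw [Finset.sum_insert ha]

theorem InS.toInX (hu : ψ u = 0) {β : L → L} (h : InS X ψ u β) {d : L} {φ : (Fin n → F) →ₗ[F] F} (hφ : ∀ x, β (ψ x) = algebraMap F L (φ x) * d)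
    (hφd : φ (d • u) = 0) : InX X (d • u) φ := by
  obtain ⟨g, hg, hga⟩ := h
  refine ⟨hφd, g, hg, fun x => ?_⟩
  rw [hga, hφ, mul_smul, algebraMap_smul]

/-- Data for dimension two. -/
structure Two (X : Subgroup (GL (Fin n) F)) (y : GL (Fin n) F) (w u a : Fin n → F) (ψ : (Fin n → F) →ₗ[L] L)
    (π : L →ₗ[F] F) (u₁ : L) (ρ₀ ψ₁ : (Fin n → F) →ₗ[L] L) : Prop where
  T : Tri X y w u a ψ
  hπu : π u₁ = 1
  hπ1 : π 1 = 0
  hπD : ∀ k : L, k • u ∈ AA L y w → π k = 0
  hs : ∀ s : L, (s - π s • u₁) • u ∈ AA L y w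
  hρw : ρ₀ w = 0
  hρu : ρ₀ (act y⁻¹ (u₁ • u)) ≠ 0
  hψ₁u : ψ₁ u = 1
  hψ₁a : ψ₁ a = 0
  hvec : ∀ v, v = ψ₁ v • u + ψ v • a
  hX : ∀ g : GL (Fin n) F, IsLL L g → (g : MM).det = 1 → g ∈ X

variable {y : GL (Fin n) F} {w a : Fin n → F} {π : L →ₗ[F] F} {u₁ : L} {ρ₀ ψ₁ : (Fin n → F) →ₗ[L] L}

theorem Two.hkt (D : Two X y w u a ψ π u₁ ρ₀ ψ₁) (ψ' : (Fin n → F) →ₗ[L] L) (v : Fin n → F) (h : ψ' v = 0) : kt ψ' v h ∈ X :=
  D.hX _ (isLL_kt ψ' v h) (det_kt ψ' v h)

theorem Two.mulS (D : Two X y w u a ψ π u₁ ρ₀ ψ₁) (k : L) : InS X ψ u (fun t => k * t) := by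
  have h0 : ψ (k • u) = 0 := D.T.psi_ln k
  refine ⟨kt ψ (k • u) h0, D.hkt _ _ _, fun x => ?_⟩
  rw [act_kt, smul_smul, mul_comm]

/-- The element with a prescribed value on `u₁ u`. -/
theorem Two.exists_a (D : Two X y w u a ψ π u₁ ρ₀ ψ₁) {d : Fin n → F} (hd : d ∈ AA L y w) :
    ∃ ρ : (Fin n → F) →ₗ[L] L, ρ w = 0 ∧ apL y ρ w (u₁ • u) = d := by
  obtain ⟨κ, hκ⟩ := mem_ln.1 (mem_AA.1 hd)
  have hs₀ := D.hρu
  refine ⟨(κ / ρ₀ (act y⁻¹ (u₁ • u))) • ρ₀, by simp [D.hρw], ?_⟩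
  rw [apL_apply, LinearMap.smul_apply, smul_eq_mul, div_mul_cancel₀ _ hs₀, hκ, act_act_inv]

theorem Two.apL_ln (D : Two X y w u a ψ π u₁ ρ₀ ψ₁) {ρ : (Fin n → F) →ₗ[L] L} (hρ : ρ w = 0) (s : L) :
    apL y ρ w (s • u) = π s • apL y ρ w (u₁ • u) := by
  have e : s • u = (s - π s • u₁) • u + π s • (u₁ • u) := by
    rw [sub_smul, smul_assoc]
    abel
  conv_lhs => rw [e]
  rw [map_add, apL_kills hρ (D.hs s), zero_add, LinearMap.map_smul_of_tower]

/-- Conjugation formula. -/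
theorem Two.conj_p (D : Two X y w u a ψ π u₁ ρ₀ ψ₁) {ρ : (Fin n → F) →ₗ[L] L} (hρ : ρ w = 0) {dt : L}
    (hd : apL y ρ w (u₁ • u) = dt • u) {g : L → F} (hg : ∀ x, ψ (apL y ρ w x) = algebraMap F L (g (ψ x))) {β : L → L} (hβ : InS X ψ u β) :
    InS X ψ u (fun t => β (t - algebraMap F L (g t)) + algebraMap F L (π (β (t - algebraMap F L (g t)))) * dt) := by
  obtain ⟨g₀, hg₀, hga⟩ := hβ
  let p : GL (Fin n) F := y * kt ρ w hρ * y⁻¹
  have hp : p ∈ X := X.mul_mem (X.mul_mem D.T.hy (D.hkt _ _ _)) (X.inv_mem D.T.hy)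
  let a' := apL y ρ w
  have hpa : ∀ x, act p x = x + a' x := act_pL y ρ w hρ
  have haa : ∀ x, a' (a' x) = 0 := fun x => apL_kills hρ (apL_mem _ _ _ _)
  have hpi : ∀ x, act p⁻¹ x = x - a' x := by
    intro x
    apply act_injective p
    rw [act_act_inv, hpa, map_sub, haa, sub_zero]
    abel
  refine ⟨p * g₀ * p⁻¹, X.mul_mem (X.mul_mem hp hg₀) (X.inv_mem hp), fun x => ?_⟩
  have e1 : ψ (x - a' x) = ψ x - algebraMap F L (g (ψ x)) := by
    rw [map_sub, hg]
  rw [act_mul, act_mul, hpi, hga, hpa, e1]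
  have e2 : a' (x - a' x + β (ψ x - algebraMap F L (g (ψ x))) • u) = a' x + π (β (ψ x - algebraMap F L (g (ψ x)))) • (dt • u) := by
    rw [map_add, map_sub, haa, sub_zero]
    congr 1
    rw [D.apL_ln hρ, hd]
  rw [e2, add_smul, mul_smul, algebraMap_smul]
  abel

/-- The elements obtained by conjugating: an element for each `dt` in the kernel of `π`. -/
theorem Two.hB [Finite L] (D : Two X y w u a ψ π u₁ ρ₀ ψ₁) {dt : L} (hdt : dt • u ∈ AA L y w) :
    ∃ g : L →ₗ[F] F, g 1 = 0 ∧ ∀ k : L, InS X ψ u (fun t => algebraMap F L (π (k * t)) * dt - algebraMap F L (g t) * (k + algebraMap F L (π k) * dt)) := by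
  obtain ⟨π₁, hπ₁⟩ := exists_retract (F := F) (L := L)
  obtain ⟨ρ, hρ, hρd⟩ := D.exists_a hdt
  let a' := apL y ρ w
  let g : L →ₗ[F] F := π₁ ∘ₗ (ψ.restrictScalars F) ∘ₗ a' ∘ₗ (tauL a)
  have hgv : ∀ t, ψ (a' (t • a)) = algebraMap F L (g t) := fun t => D.T.psi_mem hπ₁ (apL_mem _ _ _ _)
  have hg : ∀ x, ψ (apL y ρ w x) = algebraMap F L (g (ψ x)) := by
    intro x
    conv_lhs => rw [D.hvec x]
    have e0 : ψ (π (ψ₁ x) • dt • u) = 0 := by rw [LinearMap.map_smul_of_tower, D.T.psi_ln, smul_zero]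
    rw [map_add, map_add, D.apL_ln hρ, hρd, e0, zero_add, ← hgv]
  refine ⟨g, ?_, fun k => ?_⟩
  · have h1 := hgv 1
    rw [one_smul, apL_kills hρ D.T.haA, map_zero] at h1
    have h2 : g 1 = 0 := by
      apply (algebraMap F L).injective
      rw [← h1, map_zero]
    exact h2
  · have h1 := D.conj_p hρ hρd hg (D.mulS k)
    have h2 := h1.sub D.T.hψu (D.mulS k)
    refine h2.congr fun t => ?_
    have e : π (k * (t - algebraMap F L (g t))) = π (k * t) - g t * π k := by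
      rw [mul_sub, map_sub, ← Algebra.commutes, ← Algebra.smul_def, map_smul, smul_eq_mul]
    rw [e]
    simp only [map_sub, map_mul]
    ring

/-- The rank one case. -/
theorem Two.rank_one [Finite L] (D : Two X y w u a ψ π u₁ ρ₀ ψ₁) {dt : L} (hdt0 : dt ≠ 0) (hdt : dt • u ∈ AA L y w)
    {g : L →ₗ[F] F} (hg : ∀ k : L, InS X ψ u (fun t => algebraMap F L (π (k * t)) * dt - algebraMap F L (g t) * (k + algebraMap F L (π k) * dt)))
    (hne : ∃ t, g t ≠ π (dt * t)) : ∃ (v₀ : Fin n → F) (φ : (Fin n → F) →ₗ[F] F), v₀ ≠ 0 ∧ φ ≠ 0 ∧ InX X v₀ φ := by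
  obtain ⟨t₀, ht₀⟩ := hne
  have hπd : π dt = 0 := D.hπD dt hdt
  let φ : (Fin n → F) →ₗ[F] F := (π ∘ₗ LinearMap.mulLeft F dt - g) ∘ₗ (ψ.restrictScalars F)
  have hφ : ∀ x, φ x = π (dt * ψ x) - g (ψ x) := fun x => rfl
  refine ⟨dt • u, φ, smul_ne_zero hdt0 D.T.hu, ?_, ?_⟩
  · intro h
    have h1 := hφ (t₀ • a)
    rw [h, LinearMap.zero_apply, map_smul, D.T.hψa, smul_eq_mul, mul_one] at h1
    exact ht₀ (sub_eq_zero.1 h1.symm).symm
  · refine (hg dt).toInX D.T.hψu (fun x => ?_) ?_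
    · rw [hφ, hπd, map_zero, zero_mul, add_zero, map_sub]
      ring
    · rw [hφ, D.T.psi_ln, mul_zero, map_zero, map_zero, sub_zero]

/-- The case of at least three elements in the small field. -/
theorem Two.q_ge_three [Finite L] (D : Two X y w u a ψ π u₁ ρ₀ ψ₁) (hq : Fintype.card F ≠ 2) :
    ∃ (v₀ : Fin n → F) (φ : (Fin n → F) →ₗ[F] F), v₀ ≠ 0 ∧ φ ≠ 0 ∧ InX X v₀ φ := by
  classical
  by_contra hnone
  obtain ⟨μ, hμ0, hμ1⟩ : ∃ μ : F, μ ≠ 0 ∧ μ ≠ 1 := by
    by_contra hcon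
    push Not at hcon
    have h1 : Fintype.card F ≤ 2 := by
      have h2 : (Finset.univ : Finset F) ⊆ {0, 1} := by
        intro x _
        by_cases hx : x = 0
        · simp [hx]
        · simp [hcon x hx]
      have h3 := Finset.card_le_card h2
      rw [Finset.card_univ] at h3
      exact h3.trans Finset.card_le_two
    have h2 : 1 < Fintype.card F := Fintype.one_lt_card
    omega
  -- the badness
  have hbad : ∀ dt : L, dt ≠ 0 → dt • u ∈ AA L y w → ∀ k : L,
      InS X ψ u (fun t => algebraMap F L (π (k * t)) * dt - algebraMap F L (π (dt * t)) * (k + algebraMap F L (π k) * dt)) := by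
    intro dt hdt0 hdt k
    obtain ⟨g, -, hg⟩ := D.hB hdt
    have hge : ∀ t, g t = π (dt * t) := by
      by_contra hcon
      push Not at hcon
      exact hnone (D.rank_one hdt0 hdt hg hcon)
    refine (hg k).congr fun t => ?_
    rw [hge]
  have h1A : (1 : L) • u ∈ AA L y w := by
    rw [one_smul]
    exact D.T.huA
  have hμA : (algebraMap F L μ) • u ∈ AA L y w := by
    rw [algebraMap_smul]
    exact Submodule.smul_mem _ _ D.T.huA
  have hμL : algebraMap F L μ ≠ 0 := fun h => hμ0 ((map_eq_zero _).1 h)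
  have h1 := hbad 1 one_ne_zero h1A (algebraMap F L μ * u₁)
  have h2 := hbad _ hμL hμA u₁
  have h3 := h1.sub D.T.hψu h2
  apply hnone
  have hc : μ ^ 2 - μ ≠ 0 := by
    have : μ ^ 2 - μ = μ * (μ - 1) := by ring
    rw [this]
    exact mul_ne_zero hμ0 (sub_ne_zero.2 hμ1)
  let φ : (Fin n → F) →ₗ[F] F := (μ ^ 2 - μ) • (π ∘ₗ (ψ.restrictScalars F))
  have hφ : ∀ x, φ x = (μ ^ 2 - μ) * π (ψ x) := fun x => rfl
  have hsm : ∀ (c : F) (t : L), π (algebraMap F L c * t) = c * π t := by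
    intro c t
    rw [← Algebra.smul_def, map_smul, smul_eq_mul]
  refine ⟨(1 : L) • u, φ, smul_ne_zero one_ne_zero D.T.hu, ?_, ?_⟩
  · intro h
    have h4 := hφ (u₁ • a)
    rw [h, LinearMap.zero_apply, map_smul, D.T.hψa, smul_eq_mul, mul_one, D.hπu, mul_one] at h4
    exact hc h4.symm
  · refine h3.toInX D.T.hψu (fun x => ?_) ?_
    · rw [hφ]
      have e1 : π ((algebraMap F L μ * u₁) * ψ x) = μ * π (u₁ * ψ x) := by rw [mul_assoc, hsm]
      have e3 : π (algebraMap F L μ * u₁) = μ := by rw [hsm, D.hπu, mul_one]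
      have e4 : π (algebraMap F L μ * ψ x) = μ * π (ψ x) := hsm _ _
      rw [e1, e3, e4, one_mul, D.hπu]
      simp only [map_mul, map_sub, map_pow, map_one]
      ring
    · rw [hφ, D.T.psi_ln, map_zero, mul_zero]

/-- Diagonal elements. -/
theorem Two.exists_diag (D : Two X y w u a ψ π u₁ ρ₀ ψ₁) {α δ : L} (hα : α ≠ 0) (hδ : δ ≠ 0) :
    ∃ g : GL (Fin n) F, IsLL L g ∧ (∀ v, act g v = (α * ψ₁ v) • u + (δ * ψ v) • a) ∧ (∀ v, act g⁻¹ v = (α⁻¹ * ψ₁ v) • u + (δ⁻¹ * ψ v) • a) := by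
  have hu := D.T.hψu
  have ha := D.T.hψa
  have hu₁ := D.hψ₁u
  have ha₁ := D.hψ₁a
  let f : (Fin n → F) →ₗ[L] (Fin n → F) := (LinearMap.toSpanSingleton L _ u) ∘ₗ (α • ψ₁) + (LinearMap.toSpanSingleton L _ a) ∘ₗ (δ • ψ)
  let f' : (Fin n → F) →ₗ[L] (Fin n → F) := (LinearMap.toSpanSingleton L _ u) ∘ₗ (α⁻¹ • ψ₁) + (LinearMap.toSpanSingleton L _ a) ∘ₗ (δ⁻¹ • ψ)
  have hf : ∀ v, f v = (α * ψ₁ v) • u + (δ * ψ v) • a := fun v => rfl
  have hf' : ∀ v, f' v = (α⁻¹ * ψ₁ v) • u + (δ⁻¹ * ψ v) • a := fun v => rfl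
  have h1 : ∀ v, f (f' v) = v := by
    intro v
    rw [hf', hf]
    simp only [map_add, map_smul, hu, ha, hu₁, ha₁, smul_eq_mul, mul_one, mul_zero, add_zero, zero_add]
    rw [mul_inv_cancel_left₀ hα, mul_inv_cancel_left₀ hδ]
    exact (D.hvec v).symm
  have h2 : ∀ v, f' (f v) = v := by
    intro v
    rw [hf, hf']
    simp only [map_add, map_smul, hu, ha, hu₁, ha₁, smul_eq_mul, mul_one, mul_zero, add_zero, zero_add]
    rw [inv_mul_cancel_left₀ hα, inv_mul_cancel_left₀ hδ]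
    exact (D.hvec v).symm
  refine ⟨glL f f' h1 h2, isLL_glL _ _ _ _, fun v => ?_, fun v => ?_⟩
  · rw [act_glL, hf]
  · apply act_injective (glL f f' h1 h2)
    rw [act_act_inv, act_glL, ← hf', h1]

theorem Two.conj_diag (D : Two X y w u a ψ π u₁ ρ₀ ψ₁) {α δ : L} (hα : α ≠ 0) (hδ : δ ≠ 0) {g : GL (Fin n) F} (hgX : g ∈ X) (hLL : IsLL L g)
    (hg : ∀ v, act g v = (α * ψ₁ v) • u + (δ * ψ v) • a) (hgi : ∀ v, act g⁻¹ v = (α⁻¹ * ψ₁ v) • u + (δ⁻¹ * ψ v) • a)
    {β : L → L} (hβ : InS X ψ u β) : InS X ψ u (fun t => α * β (δ⁻¹ * t)) := by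
  obtain ⟨g₀, hg₀, hga⟩ := hβ
  refine ⟨g * g₀ * g⁻¹, X.mul_mem (X.mul_mem hgX hg₀) (X.inv_mem hgX), fun x => ?_⟩
  have e1 : ψ (act g⁻¹ x) = δ⁻¹ * ψ x := by
    rw [hgi]
    simp only [map_add, map_smul, D.T.hψu, D.T.hψa, smul_eq_mul, mul_one, mul_zero, zero_add]
  have e2 : act g u = α • u := by
    rw [hg]
    simp only [D.T.hψu, D.hψ₁u, mul_one, mul_zero, zero_smul, add_zero]
  rw [act_mul, act_mul, hga, act_add, act_act_inv, e1, hLL, e2, smul_smul, mul_comm]

/-- A rank one function. -/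
def Tf (π : L →ₗ[F] F) (x z t : L) : L := x * algebraMap F L (π (z * t))

theorem Two.q_two [Finite L] (D : Two X y w u a ψ π u₁ ρ₀ ψ₁) (hq : Fintype.card F = 2) (hr : 3 ≤ finrank F L) (hp : (finrank F L).Prime) :
    ∃ (v₀ : Fin n → F) (φ : (Fin n → F) →ₗ[F] F), v₀ ≠ 0 ∧ φ ≠ 0 ∧ InX X v₀ φ := by
  classical
  haveI : Module.Finite F L := Module.Finite.of_finite
  by_contra hnone
  have h2F : (2 : F) = 0 := by
    have := Nat.cast_card_eq_zero F
    rw [hq] at this
    exact_mod_cast this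
  have hone : ∀ x : F, x ≠ 0 → x = 1 := by
    intro x hx
    have := FiniteField.pow_card_sub_one_eq_one x hx
    rw [hq] at this
    simpa using this
  have hdet : ∀ g : GL (Fin n) F, (g : MM).det = 1 := by
    intro g
    apply hone
    exact (Matrix.isUnit_iff_isUnit_det _).1 g.isUnit |>.ne_zero
  have hLLX : ∀ g : GL (Fin n) F, IsLL L g → g ∈ X := fun g h => D.hX g h (hdet g)
  have h1A : (1 : L) • u ∈ AA L y w := by
    rw [one_smul]
    exact D.T.huA
  -- badness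
  obtain ⟨g₁, -, hg₁⟩ := D.hB h1A
  have hge : ∀ t, g₁ t = π (1 * t) := by
    by_contra hcon
    push Not at hcon
    exact hnone (D.rank_one one_ne_zero h1A hg₁ hcon)
  -- the element `e`
  obtain ⟨e, he0, heF⟩ : ∃ e : L, π e = 0 ∧ ∀ c : F, algebraMap F L c ≠ e := by
    by_contra hcon
    push Not at hcon
    have hle : LinearMap.ker π ≤ Submodule.span F {(1 : L)} := by
      intro e he
      obtain ⟨c, hc⟩ := hcon e he
      rw [Submodule.mem_span_singleton]
      exact ⟨c, by rw [← hc, Algebra.smul_def, mul_one]⟩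
    have h1 := Submodule.finrank_mono hle
    have h3 : finrank F (Submodule.span F {(1 : L)}) ≤ 1 := by
      have := finrank_span_le_card (R := F) ({(1 : L)} : Set L)
      simpa using this
    have h4 := LinearMap.finrank_range_add_finrank_ker π
    have h5 : finrank F (LinearMap.range π) ≤ 1 := by
      have := Submodule.finrank_le (LinearMap.range π)
      simpa using this
    omega
  have hT0 : InS X ψ u (fun t => Tf π 1 e t - Tf π e 1 t) := by
    refine (hg₁ e).congr fun t => ?_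
    rw [he0, hge]
    simp only [Tf, map_zero, zero_mul, add_zero]
    ring
  let Rc : L → Prop := fun c => ∀ α γ : L, InS X ψ u (fun t => Tf π α (c * γ) t - Tf π (α * c) γ t)
  have hRe : Rc e := by
    intro α γ
    by_cases hα : α = 0
    · subst hα
      refine InS.zero.congr fun t => ?_
      simp [Tf]
    by_cases hγ : γ = 0
    · subst hγ
      refine InS.zero.congr fun t => ?_
      simp [Tf]
    obtain ⟨g, hLL, hg, hgi⟩ := D.exists_diag hα (inv_ne_zero hγ)
    have h1 := D.conj_diag hα (inv_ne_zero hγ) (hLLX g hLL) hLL hg hgi hT0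
    refine h1.congr fun t => ?_
    simp only [Tf, inv_inv, one_mul]
    rw [mul_sub, mul_assoc e γ t, mul_assoc α e]
  let R : Subalgebra F L :=
    { carrier := {c | Rc c}
      mul_mem' := fun {c d} hc hd α γ => by
        have h1 := (hc α (d * γ)).add D.T.hψu (hd (α * c) γ)
        refine h1.congr fun t => ?_
        simp only [Tf, mul_assoc]
        ring
      add_mem' := fun {c d} hc hd α γ => by
        have h1 := (hc α γ).add D.T.hψu (hd α γ)
        refine h1.congr fun t => ?_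
        simp only [Tf, add_mul, mul_add, map_add]
        ring
      algebraMap_mem' := fun c α γ => by
        refine InS.zero.congr fun t => ?_
        simp only [Tf]
        have e1 : π (algebraMap F L c * γ * t) = c * π (γ * t) := by
          rw [mul_assoc, ← Algebra.smul_def, map_smul, smul_eq_mul]
        rw [e1, map_mul]
        ring }
  have hRtop : R = ⊤ := by
    refine (subalg_bot_or_top hp R).resolve_left fun h => ?_
    obtain ⟨c, hc⟩ := h e hRe
    exact heF c hc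
  have hRall : ∀ c, Rc c := fun c => by
    have : c ∈ R := by
      rw [hRtop]
      trivial
    exact this
  have hπ0 : π ≠ 0 := by
    intro h
    have := D.hπu
    rw [h, LinearMap.zero_apply] at this
    exact zero_ne_one this
  let b := Module.finBasis F L
  choose z hz using fun j => exists_mul_rep hπ0 (b.coord j)
  have hid : ∀ t : L, t = ∑ j, b j * algebraMap F L (π (z j * t)) := by
    intro t
    conv_lhs => rw [← b.sum_repr t]
    refine Finset.sum_congr rfl fun j _ => ?_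
    rw [← hz, Module.Basis.coord_apply, Algebra.smul_def, mul_comm]
  let zz : L := ∑ j, b j * z j
  have hπzz : π zz = (finrank F L : F) := by
    have e1 : ∀ j, π (b j * z j) = 1 := by
      intro j
      rw [mul_comm, ← hz, Module.Basis.coord_apply, Module.Basis.repr_self, Finsupp.single_eq_same]
    simp only [zz, map_sum, e1, Finset.sum_const, Finset.card_univ, Fintype.card_fin, nsmul_eq_mul, mul_one]
  have hodd : Odd (finrank F L) := hp.odd_of_ne_two (by omega)
  have hπzz1 : π zz = 1 := by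
    rw [hπzz]
    obtain ⟨m, hm⟩ := hodd
    rw [hm]
    push_cast
    rw [h2F]
    ring
  have hzz0 : zz ≠ 0 := by
    intro h
    rw [h, map_zero] at hπzz1
    exact zero_ne_one hπzz1
  have hsum := InS.sum D.T.hψu Finset.univ (fun j _ => hRall (z j) (b j) 1)
  have h1 := (D.mulS 1).sub D.T.hψu hsum
  have hfin : InS X ψ u (fun t => Tf π zz 1 t) := by
    refine h1.congr fun t => ?_
    simp only [Tf, mul_one, one_mul]
    rw [Finset.sum_sub_distrib, ← hid t]
    simp only [zz]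
    rw [Finset.sum_mul]
    ring
  apply hnone
  let φ : (Fin n → F) →ₗ[F] F := π ∘ₗ (ψ.restrictScalars F)
  have hφ : ∀ x, φ x = π (ψ x) := fun x => rfl
  refine ⟨zz • u, φ, smul_ne_zero hzz0 D.T.hu, ?_, ?_⟩
  · intro h
    have h4 := hφ (u₁ • a)
    rw [h, LinearMap.zero_apply, map_smul, D.T.hψa, smul_eq_mul, mul_one, D.hπu] at h4
    exact zero_ne_one h4
  · refine hfin.toInX D.T.hψu (fun x => ?_) ?_
    · simp only [Tf, hφ, one_mul]
      ring
    · rw [hφ, D.T.psi_ln, map_zero]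

end main

end Cfsg.Agent.Lib.ClassMax.Ext
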