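import Mathlib
import Cfsg.Agent.Lib.ClassMax.Ext3
import Cfsg.Agent.Lib.ClassMax.Asch15

/-!
Overgroups of field-extension subgroups: the exceptional case, and the main theorem.
-/

set_option autoImplicit false
set_option linter.unusedSimpArgs false
set_option linter.unusedVariables false
set_option linter.unusedSectionVars false
set_option linter.unusedFintypeInType false
set_option linter.unusedDecidableInType false

namespace Cfsg.Agent.Lib.ClassMax.Ext

open Module Matrix Cfsg.Geo Cfsg.Agent.Lib.ClassMax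

section main

variable {F L : Type*} [Field F] [Fintype F] [Field L] [Algebra F L] {n : ℕ}
  [Module L (Fin n → F)] [IsScalarTower F L (Fin n → F)]

local notation "MM" => Matrix (Fin n) (Fin n) F

variable {X : Subgroup (GL (Fin n) F)}
variable {ψ : (Fin n → F) →ₗ[L] L} {u : Fin n → F}
variable {y : GL (Fin n) F} {w a : Fin n → F} {π : L →ₗ[F] F} {u₁ : L} {ρ₀ ψ₁ : (Fin n → F) →ₗ[L] L}

/-- Variant of `hB` for a given functional. -/
theorem Two.hB' [Finite L] (D : Two X y w u a ψ π u₁ ρ₀ ψ₁) {ρ : (Fin n → F) →ₗ[L] L} (hρ : ρ w = 0) {dt : L}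
    (hρd : apL y ρ w (u₁ • u) = dt • u) :
    ∃ g : L →ₗ[F] F, (∀ x, ψ (apL y ρ w x) = algebraMap F L (g (ψ x))) ∧
      ∀ k : L, InS X ψ u (fun t => algebraMap F L (π (k * t)) * dt - algebraMap F L (g t) * (k + algebraMap F L (π k) * dt)) := by
  obtain ⟨π₁, hπ₁⟩ := exists_retract (F := F) (L := L)
  let a' := apL y ρ w
  let g : L →ₗ[F] F := π₁ ∘ₗ (ψ.restrictScalars F) ∘ₗ a' ∘ₗ (tauL a)
  have hgv : ∀ t, ψ (a' (t • a)) = algebraMap F L (g t) := fun t => D.T.psi_mem hπ₁ (apL_mem _ _ _ _)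
  have hg : ∀ x, ψ (apL y ρ w x) = algebraMap F L (g (ψ x)) := by
    intro x
    conv_lhs => rw [D.hvec x]
    have e0 : ψ (π (ψ₁ x) • dt • u) = 0 := by rw [LinearMap.map_smul_of_tower, D.T.psi_ln, smul_zero]
    rw [map_add, map_add, D.apL_ln hρ, hρd, e0, zero_add, ← hgv]
  refine ⟨g, hg, fun k => ?_⟩
  have h1 := D.conj_p hρ hρd hg (D.mulS k)
  have h2 := h1.sub D.T.hψu (D.mulS k)
  refine h2.congr fun t => ?_
  have e : π (k * (t - algebraMap F L (g t))) = π (k * t) - g t * π k := by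
    rw [mul_sub, map_sub, ← Algebra.commutes, ← Algebra.smul_def, map_smul, smul_eq_mul]
  rw [e]
  simp only [map_sub, map_mul]
  ring

/-- The exceptional case: a field of four elements over two. -/
theorem Two.exc [Finite L] (D : Two X y w u a ψ π u₁ ρ₀ ψ₁) (hq : Fintype.card F = 2) (hr : finrank F L = 2) :
    ∃ (v₀ : Fin n → F) (φ : (Fin n → F) →ₗ[F] F), v₀ ≠ 0 ∧ φ ≠ 0 ∧ InX X v₀ φ := by
  classical
  haveI : Fintype L := Fintype.ofFinite L
  haveI : Module.Finite F L := Module.Finite.of_finite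
  by_contra hnone
  have h2F : (2 : F) = 0 := by
    have := Nat.cast_card_eq_zero F
    rw [hq] at this
    exact_mod_cast this
  have h2L : (2 : L) = 0 := by
    have := map_ofNat (algebraMap F L) 2
    rw [h2F, map_zero] at this
    exact this.symm
  have h2v : ∀ v : Fin n → F, v + v = 0 := fun v => by
    rw [← two_smul F v, h2F, zero_smul]
  have hone : ∀ x : F, x = 0 ∨ x = 1 := by
    intro x
    by_cases hx : x = 0
    · exact Or.inl hx
    · right
      have := FiniteField.pow_card_sub_one_eq_one x hx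
      rw [hq] at this
      simpa using this
  have hdet : ∀ g : GL (Fin n) F, (g : MM).det = 1 := by
    intro g
    refine (hone _).resolve_left ?_
    exact ((Matrix.isUnit_iff_isUnit_det _).1 g.isUnit).ne_zero
  have hLLX : ∀ g : GL (Fin n) F, IsLL L g → g ∈ X := fun g h => D.hX g h (hdet g)
  have hπu₁ : π u₁ = 1 := D.hπu
  have hπ1 : π 1 = 0 := D.hπ1
  have hu₁0 : u₁ ≠ 0 := by
    intro h
    rw [h, map_zero] at hπu₁
    exact zero_ne_one hπu₁
  have hu₁1 : u₁ ≠ 1 := by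
    intro h
    rw [h, hπ1] at hπu₁
    exact zero_ne_one hπu₁
  have hcardL : Fintype.card L = 4 := by
    rw [Module.card_eq_pow_finrank (K := F) (V := L), hq, hr]
    norm_num
  have hu₁ : u₁ * u₁ = u₁ + 1 := by
    have h3 := FiniteField.pow_card_sub_one_eq_one u₁ hu₁0
    rw [hcardL] at h3
    have h4 : (u₁ - 1) * (u₁ * u₁ + u₁ + 1) = 0 := by linear_combination h3
    have h5 : u₁ * u₁ + u₁ + 1 = 0 := (mul_eq_zero.1 h4).resolve_left (sub_ne_zero.2 hu₁1)
    linear_combination h5 - (u₁ + 1) * h2L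
  have hu₁2 : u₁ + 1 ≠ 0 := by
    intro h
    apply hu₁1
    linear_combination h - h2L
  have hcase : ∀ t : L, t = 0 ∨ t = 1 ∨ t = u₁ ∨ t = u₁ + 1 := by
    have hS : ({0, 1, u₁, u₁ + 1} : Finset L) = Finset.univ := by
      apply Finset.eq_univ_of_card
      have d1 : (1 : L) ≠ u₁ + 1 := by
        intro h
        apply hu₁0
        linear_combination -h
      have d2 : u₁ ≠ u₁ + 1 := by
        intro h
        apply one_ne_zero (α := L)
        linear_combination -h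
      rw [hcardL, Finset.card_insert_of_notMem, Finset.card_insert_of_notMem, Finset.card_insert_of_notMem, Finset.card_singleton]
      · simp [d2]
      · simp [d1, hu₁1.symm]
      · simp [hu₁0.symm, hu₁2.symm]
    intro t
    have := Finset.mem_univ t
    rw [← hS] at this
    simpa using this
  have hτ : ∀ t : L, algebraMap F L (π t) = t * t + t := by
    intro t
    rcases hcase t with h | h | h | h <;> rw [h]
    · simp
    · rw [hπ1, map_zero]
      linear_combination -h2L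
    · rw [hπu₁, map_one]
      linear_combination -hu₁ - u₁ * h2L
    · rw [map_add, hπu₁, hπ1, add_zero, map_one]
      linear_combination -hu₁ - (2 * u₁ + 1) * h2L
  have hss : ∀ c : F, algebraMap F L c * algebraMap F L c = algebraMap F L c := by
    intro c
    rcases hone c with h | h <;> simp [h]
  have hsm : ∀ (A : L) (v : Fin n → F), π A • v = (A * A + A) • v := by
    intro A v
    rw [← hτ, algebraMap_smul]
  have hv : ∀ {A A' B B' : L}, A = A' → B = B' → A • u + B • a = A' • u + B' • a := by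
    intro A A' B B' h h'
    rw [h, h']
  have hcoord1 : ∀ A B : L, ψ₁ (A • u + B • a) = A := by
    intro A B
    simp [D.hψ₁u, D.hψ₁a]
  have hcoord2 : ∀ A B : L, ψ (A • u + B • a) = B := by
    intro A B
    simp [D.T.hψu, D.T.hψa]
  have hρvec : ∀ (ρ : (Fin n → F) →ₗ[L] L) (v : Fin n → F), ρ v = ψ₁ v * ρ u + ψ v * ρ a := by
    intro ρ v
    conv_lhs => rw [D.hvec v]
    simp
  have hker : ∀ ρ : (Fin n → F) →ₗ[L] L, ρ ≠ 0 → ρ w = 0 → ∀ v, apL y ρ w v = 0 → v ∈ AA L y w := by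
    intro ρ hρ0 hρw v hv0
    have h1 : ρ (act y⁻¹ v) = 0 := by
      rw [apL_apply] at hv0
      have h2 : ρ (act y⁻¹ v) • w = 0 := act_injective y (by rw [hv0, act_zero])
      exact (smul_eq_zero.1 h2).resolve_right D.T.hw
    rw [mem_AA]
    obtain ⟨z, hz⟩ : ∃ z, z = act y⁻¹ v := ⟨_, rfl⟩
    rw [← hz] at h1 ⊢
    have e1 := hρvec ρ w
    rw [hρw] at e1
    have e2 := hρvec ρ z
    rw [h1] at e2
    have hd0 : ψ₁ w * ψ z - ψ w * ψ₁ z = 0 := by
      by_contra hne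
      apply hρ0
      have hp : ρ u * (ψ₁ w * ψ z - ψ w * ψ₁ z) = 0 := by
        linear_combination -(ψ z) * e1 + (ψ w) * e2
      have hq' : ρ a * (ψ₁ w * ψ z - ψ w * ψ₁ z) = 0 := by
        linear_combination -(ψ₁ w) * e2 + (ψ₁ z) * e1
      have hp0 := (mul_eq_zero.1 hp).resolve_right hne
      have hq0 := (mul_eq_zero.1 hq').resolve_right hne
      ext1 v'
      rw [hρvec, hp0, hq0]
      simp
    rw [mem_ln]
    have hw' := D.hvec w
    have hz' := D.hvec z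
    have hmk : ∀ k : L, k * ψ₁ w = ψ₁ z → k * ψ w = ψ z → k • w = z := by
      intro k e3 e4
      calc k • w = k • (ψ₁ w • u + ψ w • a) := by rw [← hw']
        _ = (k * ψ₁ w) • u + (k * ψ w) • a := by rw [smul_add, smul_smul, smul_smul]
        _ = ψ₁ z • u + ψ z • a := hv e3 e4
        _ = z := hz'.symm
    by_cases hw1 : ψ₁ w = 0
    · have hw2 : ψ w ≠ 0 := by
        intro hw2
        apply D.T.hw
        rw [hw', hw1, hw2, zero_smul, zero_smul, add_zero]
      have h3 : ψ w * ψ₁ z = 0 := by linear_combination (ψ z) * hw1 - hd0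
      have hz1 : ψ₁ z = 0 := (mul_eq_zero.1 h3).resolve_left hw2
      refine ⟨ψ z / ψ w, hmk _ ?_ (div_mul_cancel₀ _ hw2)⟩
      rw [hw1, hz1, mul_zero]
    · refine ⟨ψ₁ z / ψ₁ w, hmk _ (div_mul_cancel₀ _ hw1) ?_⟩
      field_simp
      linear_combination -hd0
  obtain ⟨π₁, hπ₁⟩ := exists_retract (F := F) (L := L)
  have hnotA : ∀ v, v ∈ AA L y w → ψ v ≠ u₁ := by
    intro v hvA he
    have h1 := D.T.psi_mem hπ₁ hvA
    rw [he] at h1
    rcases hone (π₁ u₁) with h | h <;> rw [h] at h1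
    · rw [map_zero] at h1
      exact hu₁0 h1
    · rw [map_one] at h1
      exact hu₁1 h1
  have hk01 : ∀ k : L, π k = 0 → k = 0 ∨ k = 1 := by
    intro k hk
    rcases hcase k with h | h | h | h
    · exact Or.inl h
    · exact Or.inr h
    · rw [h, hπu₁] at hk
      exact absurd hk one_ne_zero
    · rw [h, map_add, hπu₁, hπ1, add_zero] at hk
      exact absurd hk one_ne_zero
  have hlin : ∀ ρ : (Fin n → F) →ₗ[L] L, ρ w = 0 → ∀ B : L, apL y ρ w (B • a) = π B • apL y ρ w (u₁ • a) := by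
    intro ρ hρ B
    have hk0 := apL_kills (y := y) hρ D.T.haA
    rcases hcase B with h | h | h | h <;> rw [h]
    · simp
    · rw [one_smul, hπ1, hk0, zero_smul]
    · rw [hπu₁, one_smul]
    · rw [add_smul, one_smul, map_add, hk0, add_zero, map_add, hπu₁, hπ1, add_zero, one_smul]
  have hgen : ∀ ρ : (Fin n → F) →ₗ[L] L, ρ w = 0 → ∀ A B : L,
      apL y ρ w (A • u + B • a) = (A * A + A) • apL y ρ w (u₁ • u) + (B * B + B) • apL y ρ w (u₁ • a) := by
    intro ρ hρ A B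
    rw [map_add, D.apL_ln hρ A, hlin ρ hρ B, hsm, hsm]
  have h1A : (1 : L) • u ∈ AA L y w := by
    rw [one_smul]
    exact D.T.huA
  obtain ⟨ρ₁, hρ₁w, hρ₁d⟩ := D.exists_a h1A
  obtain ⟨g₁, hg₁v, hg₁⟩ := D.hB' hρ₁w hρ₁d
  have hge : ∀ t, g₁ t = π (1 * t) := by
    by_contra hcon
    push Not at hcon
    exact hnone (D.rank_one one_ne_zero h1A hg₁ hcon)
  obtain ⟨c', k, hc₁, hkA⟩ := D.T.hdec _ (apL_mem y ρ₁ w (u₁ • a))
  have hk := D.hπD k hkA
  have hc' : c' = 1 := by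
    have h1 := hg₁v (u₁ • a)
    rw [hc₁, map_smul, D.T.hψa, smul_eq_mul, mul_one, hge, one_mul, hπu₁, map_one, map_add, D.T.psi_ln, add_zero,
      LinearMap.map_smul_of_tower, D.T.hψa, Algebra.smul_def, mul_one] at h1
    exact (algebraMap F L).injective (by rw [h1, map_one])
  rw [hc'] at hc₁
  -- common elements
  have hkt : ∀ (ψ' : (Fin n → F) →ₗ[L] L) (v : Fin n → F) (h : ψ' v = 0), kt ψ' v h ∈ X := fun ψ' v h => D.hkt ψ' v h
  let φ : (Fin n → F) →ₗ[F] F := π ∘ₗ (ψ.restrictScalars F)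
  have hφ : ∀ x, φ x = π (ψ x) := fun x => rfl
  have hφ0 : φ ≠ 0 := by
    intro h
    have h4 := hφ (u₁ • a)
    rw [h, LinearMap.zero_apply, map_smul, D.T.hψa, smul_eq_mul, mul_one, hπu₁] at h4
    exact zero_ne_one h4
  have hx₁ : ∀ x : L, x * x = x + algebraMap F L (π x) := by
    intro x
    linear_combination -(hτ x) - x * h2L
  rcases hk01 k hk with hk0 | hk1
  · -- the second word
    rw [hk0, zero_smul, add_zero] at hc₁
    obtain ⟨ρ₂, hρ₂w, hρ₂d⟩ := D.exists_a D.T.haA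
    have hρ₂0 : ρ₂ ≠ 0 := by
      intro h
      apply D.T.ne_a
      rw [← hρ₂d, apL_apply, h, LinearMap.zero_apply, zero_smul, act_zero]
    obtain ⟨c₂, k₂, hc₂, hk₂A⟩ := D.T.hdec _ (apL_mem y ρ₂ w (u₁ • a))
    have hk₂ : π k₂ = 0 := D.hπD k₂ hk₂A
    have hk₂1 : k₂ = 1 := by
      rcases hk01 k₂ hk₂ with h | h
      · exfalso
        have h0 : apL y ρ₂ w ((algebraMap F L c₂ * u₁) • u + u₁ • a) = 0 := by
          rw [map_add, D.apL_ln hρ₂w, hρ₂d, hc₂, h, zero_smul, add_zero, ← Algebra.smul_def, map_smul, hπu₁, smul_eq_mul, mul_one]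
          exact h2v _
        exact hnotA _ (hker ρ₂ hρ₂0 hρ₂w _ h0) (hcoord2 _ _)
      · exact h
    rw [hk₂1, one_smul] at hc₂
    have hρadd : ∀ v, apL y (ρ₁ + ρ₂) w v = apL y ρ₁ w v + apL y ρ₂ w v := by
      intro v
      simp only [apL_apply, LinearMap.add_apply, add_smul, act_add]
    have hc₂1 : c₂ = 1 := by
      rcases hone c₂ with h | h
      · exfalso
        rw [h, zero_smul, zero_add] at hc₂
        have hρ₃w : (ρ₁ + ρ₂) w = 0 := by
          rw [LinearMap.add_apply, hρ₁w, hρ₂w, add_zero]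
        have h0 : apL y (ρ₁ + ρ₂) w (u₁ • u + u₁ • a) = 0 := by
          rw [hρadd, map_add, map_add, hρ₁d, hρ₂d, hc₁, hc₂, one_smul, one_smul]
          have := h2v (u + a)
          rw [← this]
          abel
        have h30 : ρ₁ + ρ₂ ≠ 0 := by
          intro h3
          have h4 : apL y (ρ₁ + ρ₂) w (u₁ • u) = 0 := by
            rw [apL_apply, h3, LinearMap.zero_apply, zero_smul, act_zero]
          rw [hρadd, hρ₁d, hρ₂d, one_smul] at h4
          have h5 := congrArg ψ h4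
          rw [map_add, D.T.hψu, D.T.hψa, zero_add, map_zero] at h5
          exact one_ne_zero h5
        exact hnotA _ (hker _ h30 hρ₃w _ h0) (hcoord2 _ _)
      · exact h
    rw [hc₂1, one_smul] at hc₂
    let p₂ : GL (Fin n) F := y * kt ρ₂ w hρ₂w * y⁻¹
    have hp₂X : p₂ ∈ X := X.mul_mem (X.mul_mem D.T.hy (hkt _ _ _)) (X.inv_mem D.T.hy)
    have hp₂ : ∀ A B : L, act p₂ (A • u + B • a) = (A + (B * B + B)) • u + (B + (A * A + A) + (B * B + B)) • a := by
      intro A B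
      rw [act_pL, hgen ρ₂ hρ₂w, hρ₂d, hc₂]
      simp only [add_smul, smul_add]
      abel
    obtain ⟨D₁, hLL₁, hD₁, -⟩ := D.exists_diag hu₁0 hu₁0
    obtain ⟨D₂, hLL₂, hD₂, -⟩ := D.exists_diag hu₁2 hu₁2
    have hD₁' : ∀ A B : L, act D₁ (A • u + B • a) = (u₁ * A) • u + (u₁ * B) • a := by
      intro A B
      rw [hD₁, hcoord1, hcoord2]
    have hD₂' : ∀ A B : L, act D₂ (A • u + B • a) = ((u₁ + 1) * A) • u + ((u₁ + 1) * B) • a := by
      intro A B
      rw [hD₂, hcoord1, hcoord2]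
    have h12 : ∀ k : L, ∃ g ∈ X, ∀ A B : L, act g (A • u + B • a) = (A + k * B) • u + B • a := by
      intro k
      refine ⟨kt ψ (k • u) (D.T.psi_ln k), hkt _ _ _, fun A B => ?_⟩
      rw [act_kt, hcoord2, smul_smul, add_smul, mul_comm B k]
      abel
    have h21 : ∀ k : L, ∃ g ∈ X, ∀ A B : L, act g (A • u + B • a) = A • u + (B + k * A) • a := by
      intro k
      have h0 : ψ₁ (k • a) = 0 := by
        rw [map_smul, D.hψ₁a, smul_zero]
      refine ⟨kt ψ₁ (k • a) h0, hkt _ _ _, fun A B => ?_⟩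
      rw [act_kt, hcoord1, smul_smul, add_smul, mul_comm A k]
      abel
    obtain ⟨E₁, hE₁X, hE₁⟩ := h12 u₁
    obtain ⟨E₂, hE₂X, hE₂⟩ := h12 1
    obtain ⟨E₃, hE₃X, hE₃⟩ := h21 u₁
    have key : ∀ x₁ x₂ s t : L, x₁ * x₁ = x₁ + s → x₂ * x₂ = x₂ + t → s * s = s → t * t = t →
        act (E₂ * E₃ * p₂ * E₁ * D₂ * p₂ * D₁) (x₁ • u + x₂ • a) = (x₁ + u₁ * t) • u + (x₂ + t) • a := by
      intro x₁ x₂ s t hx₁ hx₂ hs ht
      have s1 : act D₁ (x₁ • u + x₂ • a) = (u₁ * x₁) • u + (u₁ * x₂) • a := hD₁' _ _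
      have s2 : act p₂ ((u₁ * x₁) • u + (u₁ * x₂) • a) =
          (u₁ * x₁ + x₂ + (u₁ + 1) * t) • u + (x₁ + (u₁ + 1) * x₂ + (u₁ + 1) * s + (u₁ + 1) * t) • a :=
        (hp₂ _ _).trans (hv (by linear_combination ((1)*x₂^2) * hu₁ + ((1) + (1)*u₁) * hx₂ + ((1)*u₁*x₂) * h2L) (by linear_combination ((1)*x₂^2 + (1)*x₁^2) * hu₁ + ((1) + (1)*u₁) * hx₁ + ((1) + (1)*u₁) * hx₂ + ((1)*u₁*x₂ + (1)*u₁*x₁) * h2L))
      have s3 : act D₂ ((u₁ * x₁ + x₂ + (u₁ + 1) * t) • u + (x₁ + (u₁ + 1) * x₂ + (u₁ + 1) * s + (u₁ + 1) * t) • a) =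
          (x₁ + (u₁ + 1) * x₂ + u₁ * t) • u + ((u₁ + 1) * x₁ + u₁ * x₂ + u₁ * s + u₁ * t) • a :=
        (hD₂' _ _).trans (hv (by linear_combination ((1)*t + (1)*x₁) * hu₁ + ((1)*t + (1)*u₁*t + (1)*u₁*x₁) * h2L) (by linear_combination ((1)*t + (1)*s + (1)*x₂) * hu₁ + ((1)*t + (1)*s + (1)*x₂ + (1)*u₁*t + (1)*u₁*s + (1)*u₁*x₂) * h2L))
      have s4 : act E₁ ((x₁ + (u₁ + 1) * x₂ + u₁ * t) • u + ((u₁ + 1) * x₁ + u₁ * x₂ + u₁ * s + u₁ * t) • a) =
          ((u₁ + 1) * s + t) • u + ((u₁ + 1) * x₁ + u₁ * x₂ + u₁ * s + u₁ * t) • a :=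
        (hE₁ _ _).trans (hv (by linear_combination ((1)*t + (1)*s + (1)*x₂ + (1)*x₁) * hu₁ + ((1)*x₂ + (1)*x₁ + (1)*u₁*t + (1)*u₁*x₂ + (1)*u₁*x₁) * h2L) rfl)
      have s5 : act p₂ (((u₁ + 1) * s + t) • u + ((u₁ + 1) * x₁ + u₁ * x₂ + u₁ * s + u₁ * t) • a) =
          (x₁ + x₂ + (u₁ + 1) * t) • u + (u₁ * x₁ + (u₁ + 1) * x₂) • a :=
        (hp₂ _ _).trans (hv (by linear_combination ((1)*t^2 + (2)*s*t + (1)*s^2 + (2)*x₂*t + (2)*x₂*s + (1)*x₂^2 + (2)*x₁*t + (2)*x₁*s + (2)*x₁*x₂ + (1)*x₁^2) * hu₁ + ((2) + (3)*u₁) * hx₁ + ((1) + (1)*u₁) * hx₂ + ((1) + (1)*u₁) * hs + ((1) + (1)*u₁) * ht + ((1)*t + (2)*s + (1)*s*t + (1)*x₂*t + (1)*x₂*s + (1)*x₁ + (1)*x₁*t + (1)*x₁*s + (1)*x₁*x₂ + (1)*u₁*t + (3)*u₁*s + (1)*u₁*s*t + (1)*u₁*x₂ + (1)*u₁*x₂*t + (1)*u₁*x₂*s + (2)*u₁*x₁ + (2)*u₁*x₁*t + (2)*u₁*x₁*s + (2)*u₁*x₁*x₂) * h2L) (by linear_combination ((1)*t^2 + (2)*s*t + (2)*s^2 + (2)*x₂*t + (2)*x₂*s + (1)*x₂^2 + (2)*x₁*t + (2)*x₁*s + (2)*x₁*x₂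 + (1)*x₁^2) * hu₁ + ((2) + (3)*u₁) * hx₁ + ((1) + (1)*u₁) * hx₂ + ((3) + (4)*u₁) * hs + ((2) + (1)*u₁) * ht + ((2)*t + (3)*s + (2)*s*t + (1)*x₂*t + (1)*x₂*s + (2)*x₁ + (1)*x₁*t + (1)*x₁*s + (1)*x₁*x₂ + (2)*u₁*t + (5)*u₁*s + (2)*u₁*s*t + (1)*u₁*x₂ + (1)*u₁*x₂*t + (1)*u₁*x₂*s + (2)*u₁*x₁ + (2)*u₁*x₁*t + (2)*u₁*x₁*s + (2)*u₁*x₁*x₂) * h2L))
      have s6 : act E₃ ((x₁ + x₂ + (u₁ + 1) * t) • u + (u₁ * x₁ + (u₁ + 1) * x₂) • a) =
          (x₁ + x₂ + (u₁ + 1) * t) • u + (x₂ + t) • a :=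
        (hE₃ _ _).trans (hv rfl (by linear_combination ((1)*t) * hu₁ + ((1)*u₁*t + (1)*u₁*x₂ + (1)*u₁*x₁) * h2L))
      have s7 : act E₂ ((x₁ + x₂ + (u₁ + 1) * t) • u + (x₂ + t) • a) =
          (x₁ + u₁ * t) • u + (x₂ + t) • a :=
        (hE₂ _ _).trans (hv (by linear_combination ((1)*t + (1)*x₂) * h2L) rfl)
      simp only [act_mul]
      rw [s1, s2, s3, s4, s5, s6, s7]
    apply hnone
    refine ⟨u₁ • u + a, φ, ?_, hφ0, ?_, E₂ * E₃ * p₂ * E₁ * D₂ * p₂ * D₁,
      X.mul_mem (X.mul_mem (X.mul_mem (X.mul_mem (X.mul_mem (X.mul_mem hE₂X hE₃X) hp₂X) hE₁X) (hLLX _ hLL₂)) hp₂X) (hLLX _ hLL₁), fun x => ?_⟩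
    · intro h
      have h5 := congrArg ψ h
      rw [map_add, D.T.psi_ln, D.T.hψa, zero_add, map_zero] at h5
      exact one_ne_zero h5
    · rw [hφ, map_add, D.T.psi_ln, D.T.hψa, zero_add, hπ1]
    · have hx := D.hvec x
      calc act (E₂ * E₃ * p₂ * E₁ * D₂ * p₂ * D₁) x = act (E₂ * E₃ * p₂ * E₁ * D₂ * p₂ * D₁) (ψ₁ x • u + ψ x • a) := by rw [← hx]
        _ = (ψ₁ x + u₁ * algebraMap F L (π (ψ x))) • u + (ψ x + algebraMap F L (π (ψ x))) • a :=
          key _ _ _ _ (hx₁ _) (hx₁ _) (hss _) (hss _)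
        _ = (ψ₁ x • u + ψ x • a) + algebraMap F L (π (ψ x)) • (u₁ • u + a) := by
          simp only [add_smul, smul_add, mul_smul, smul_comm u₁ (algebraMap F L (π (ψ x))) u]
          abel
        _ = x + φ x • (u₁ • u + a) := by rw [← hx, algebraMap_smul, hφ]
  · -- the first word
    rw [hk1, one_smul, one_smul] at hc₁
    let p₁ : GL (Fin n) F := y * kt ρ₁ w hρ₁w * y⁻¹
    have hp₁X : p₁ ∈ X := X.mul_mem (X.mul_mem D.T.hy (hkt _ _ _)) (X.inv_mem D.T.hy)
    have hp₁ : ∀ A B : L, act p₁ (A • u + B • a) = (A + (A * A + A) + (B * B + B)) • u + (B + (B * B + B)) • a := by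
      intro A B
      rw [act_pL, hgen ρ₁ hρ₁w, hρ₁d, hc₁, one_smul]
      simp only [add_smul, smul_add]
      abel
    obtain ⟨D₀, hLL₀, hD₀, -⟩ := D.exists_diag hu₁0 (one_ne_zero (α := L))
    have hD₀' : ∀ A B : L, act D₀ (A • u + B • a) = (u₁ * A) • u + (1 * B) • a := by
      intro A B
      rw [hD₀, hcoord1, hcoord2]
    have key : ∀ x₁ x₂ s t : L, x₁ * x₁ = x₁ + s → x₂ * x₂ = x₂ + t → s * s = s → t * t = t →
        act (p₁ * D₀ * p₁ * D₀) (x₁ • u + x₂ • a) = (x₁ + u₁ * t) • u + x₂ • a := by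
      intro x₁ x₂ s t hx₁ hx₂ hs ht
      have s1 : act D₀ (x₁ • u + x₂ • a) = (u₁ * x₁) • u + x₂ • a := (hD₀' _ _).trans (hv rfl (by ring))
      have s2 : act p₁ ((u₁ * x₁) • u + x₂ • a) = ((u₁ + 1) * x₁ + (u₁ + 1) * s + t) • u + (x₂ + t) • a :=
        (hp₁ _ _).trans (hv (by linear_combination ((1)*x₁^2) * hu₁ + ((1) + (1)*u₁) * hx₁ + ((1)) * hx₂ + ((1)*x₂ + (1)*u₁*x₁) * h2L) (by linear_combination ((1)) * hx₂ + ((1)*x₂) * h2L))
      have s3 : act D₀ (((u₁ + 1) * x₁ + (u₁ + 1) * s + t) • u + (x₂ + t) • a) = (x₁ + s + u₁ * t) • u + (x₂ + t) • a :=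
        (hD₀' _ _).trans (hv (by linear_combination ((1)*s + (1)*x₁) * hu₁ + ((1)*u₁*s + (1)*u₁*x₁) * h2L) (by ring))
      have s4 : act p₁ ((x₁ + s + u₁ * t) • u + (x₂ + t) • a) = (x₁ + u₁ * t) • u + x₂ • a :=
        (hp₁ _ _).trans (hv (by linear_combination ((1)*t^2) * hu₁ + ((1)) * hx₁ + ((1)) * hx₂ + ((1)) * hs + ((2) + (1)*u₁) * ht + ((2)*t + (2)*s + (1)*x₂ + (1)*x₂*t + (1)*x₁ + (1)*x₁*s + (1)*u₁*t + (1)*u₁*s*t + (1)*u₁*x₁*t) * h2L) (by linear_combination ((1)) * hx₂ + ((1)) * ht + ((2)*t + (1)*x₂ + (1)*x₂*t) * h2L))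
      simp only [act_mul]
      rw [s1, s2, s3, s4]
    apply hnone
    refine ⟨u₁ • u, φ, smul_ne_zero hu₁0 D.T.hu, hφ0, ?_, p₁ * D₀ * p₁ * D₀,
      X.mul_mem (X.mul_mem (X.mul_mem hp₁X (hLLX _ hLL₀)) hp₁X) (hLLX _ hLL₀), fun x => ?_⟩
    · rw [hφ, D.T.psi_ln, map_zero]
    · have hx := D.hvec x
      calc act (p₁ * D₀ * p₁ * D₀) x = act (p₁ * D₀ * p₁ * D₀) (ψ₁ x • u + ψ x • a) := by rw [← hx]
        _ = (ψ₁ x + u₁ * algebraMap F L (π (ψ x))) • u + ψ x • a :=
          key _ _ _ _ (hx₁ _) (hx₁ _) (hss _) (hss _)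
        _ = (ψ₁ x • u + ψ x • a) + algebraMap F L (π (ψ x)) • (u₁ • u) := by
          simp only [add_smul, smul_add, mul_smul, smul_comm u₁ (algebraMap F L (π (ψ x))) u]
          abel
        _ = x + φ x • (u₁ • u) := by rw [← hx, algebraMap_smul, hφ]

/-- The main step: the overgroup contains the special linear group. -/
theorem core [Finite L] (hp : (finrank F L).Prime) (hm : 2 ≤ finrank L (Fin n → F))
    (hX : ∀ g : GL (Fin n) F, IsLL L g → (g : MM).det = 1 → g ∈ X)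
    {x : GL (Fin n) F} (hx : x ∈ X) {w₀ : Fin n → F} (hw₀ : w₀ ≠ 0) (hline : ∀ u, AA L x w₀ ≠ ln L u) :
    specialLinear (Fin n) F ≤ X := by
  classical
  haveI : Module.Finite L (Fin n → F) := Module.Finite.of_finite
  obtain ⟨y, w, u, a, ψ, T⟩ := exists_tri hp hX hx hw₀ hline
  obtain ⟨π, u₁, hπu, hπ1, hπD, hs⟩ := exists_pi T
  by_cases hρ : ∃ ρ : (Fin n → F) →ₗ[L] L, ρ ≠ 0 ∧ ρ w = 0 ∧ ρ (act y⁻¹ (u₁ • u)) = 0
  · obtain ⟨ρ, h0, hw, hu⟩ := hρ
    obtain ⟨φ, hφ0, hφ⟩ := transv_of_rho T hX hs h0 hw hu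
    exact sl_le_of_transvection hp.two_le hm hX T.hu hφ0 hφ
  · push Not at hρ
    have hspan : Submodule.span L ((({w, act y⁻¹ (u₁ • u)} : Finset (Fin n → F))) : Set (Fin n → F)) = ⊤ := by
      by_contra hne
      obtain ⟨f, hf0, hf⟩ := Submodule.exists_le_ker_of_lt_top _ (lt_top_iff_ne_top.2 hne)
      exact hρ f hf0 (hf (Submodule.subset_span (by simp))) (hf (Submodule.subset_span (by simp)))
    have hfr : finrank L (Fin n → F) = 2 := by
      have h1 := finrank_span_finset_le_card (R := L) ({w, act y⁻¹ (u₁ • u)} : Finset (Fin n → F))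
      rw [Set.finrank, hspan, finrank_top] at h1
      have h2 := Finset.card_le_two (a := w) (b := act y⁻¹ (u₁ • u))
      omega
    obtain ⟨ρ₀, hρ₀0, hρ₀w⟩ := func_ne_zero_of_two hm w
    have hρ₀u := hρ ρ₀ hρ₀0 hρ₀w
    have hua : u ∉ Submodule.span L {a} := by
      intro h
      obtain ⟨k, hk⟩ := Submodule.mem_span_singleton.1 h
      have h1 := congrArg ψ hk
      rw [map_smul, T.hψa, T.hψu, smul_eq_mul, mul_one] at h1
      apply T.hu
      rw [← hk, h1, zero_smul]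
    obtain ⟨ψ₁, hψ₁u, hψ₁a'⟩ := func_sep hua
    have hψ₁a : ψ₁ a = 0 := hψ₁a' a (Submodule.mem_span_singleton_self a)
    have hvec : ∀ v, v = ψ₁ v • u + ψ v • a := by
      let M : (Fin n → F) →ₗ[L] L × L := ψ₁.prod ψ
      have hMs : Function.Surjective M := by
        rintro ⟨A, B⟩
        refine ⟨A • u + B • a, ?_⟩
        ext <;> simp [M, hψ₁u, hψ₁a, T.hψu, T.hψa]
      have hfr2 : finrank L (Fin n → F) = finrank L (L × L) := by
        rw [hfr]
        simp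
      have hMi := (LinearMap.injective_iff_surjective_of_finrank_eq_finrank hfr2).2 hMs
      intro v
      apply hMi
      ext <;> simp [M, hψ₁u, hψ₁a, T.hψu, T.hψa]
    have D : Two X y w u a ψ π u₁ ρ₀ ψ₁ := ⟨T, hπu, hπ1, hπD, hs, hρ₀w, hρ₀u, hψ₁u, hψ₁a, hvec, hX⟩
    have hall : ∃ (v₀ : Fin n → F) (φ : (Fin n → F) →ₗ[F] F), v₀ ≠ 0 ∧ φ ≠ 0 ∧ InX X v₀ φ := by
      by_cases hq : Fintype.card F = 2
      · by_cases hr : finrank F L = 2
        · exact D.exc hq hr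
        · have := hp.two_le
          exact D.q_two hq (by omega) hp
      · exact D.q_ge_three hq
    obtain ⟨v₀, φ, hv₀, hφ, h⟩ := hall
    exact sl_le_of_transvection hp.two_le hm hX hv₀ hφ h

omit [Fintype F] in
theorem IsLL.inv {g : GL (Fin n) F} (h : IsLL L g) : IsLL L g⁻¹ := fun k v => by
  apply act_injective g
  rw [act_act_inv, h, act_act_inv]

omit [Fintype F] [Module L (Fin n → F)] [IsScalarTower F L (Fin n → F)] in
theorem conj_cancel (g : GL (Fin n) F) (A : MM) :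
    ((g⁻¹ : GL (Fin n) F) : MM) * ((g : MM) * A * ((g⁻¹ : GL (Fin n) F) : MM)) * (g : MM) = A := by
  have a1 : ((g⁻¹ : GL (Fin n) F) : MM) * (g : MM) = 1 := by
    rw [← Units.val_mul, inv_mul_cancel, Units.val_one]
  calc _ = (((g⁻¹ : GL (Fin n) F) : MM) * (g : MM)) * A * (((g⁻¹ : GL (Fin n) F) : MM) * (g : MM)) := by
        simp only [mul_assoc]
    _ = A := by rw [a1, one_mul, mul_one]

theorem mem_N_of_LL {K : Subalgebra F MM} (h₂ : ∀ m ∈ K, ∃ k : L, ∀ v, m *ᵥ v = k • v) {g : GL (Fin n) F} (hg : IsLL L g) :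
    g ∈ subalgebraNormalizer K := by
  have hconj : ∀ g : GL (Fin n) F, IsLL L g → ∀ m ∈ K, (g : MM) * m * ((g⁻¹ : GL (Fin n) F) : MM) = m := by
    intro g hg m hm
    obtain ⟨κ, hκ⟩ := h₂ m hm
    apply mat_eq_of_mulVec
    intro v
    rw [← Matrix.mulVec_mulVec, ← Matrix.mulVec_mulVec, hκ]
    change act g (κ • act g⁻¹ v) = _
    rw [hg, act_act_inv, hκ]
  intro k
  constructor
  · intro hk
    rw [hconj g hg k hk]
    exact hk
  · intro hk
    have h1 := hconj g⁻¹ hg.inv _ hk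
    rw [inv_inv, conj_cancel] at h1
    rw [h1]
    exact hk

theorem exists_bad [Finite L] {K : Subalgebra F MM} (h₁ : ∀ k : L, ∃ m ∈ K, ∀ v, k • v = m *ᵥ v)
    (h₂ : ∀ m ∈ K, ∃ k : L, ∀ v, m *ᵥ v = k • v) (hm : 2 ≤ finrank L (Fin n → F)) {x : GL (Fin n) F}
    (hx : x ∉ subalgebraNormalizer K) : ∃ w₀ : Fin n → F, w₀ ≠ 0 ∧ ∀ u, AA L x w₀ ≠ ln L u := by
  by_contra hcon
  push Not at hcon
  apply hx
  have hfw : ∀ m ∈ K, (x : MM) * m * ((x⁻¹ : GL (Fin n) F) : MM) ∈ K := by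
    intro m hm'
    obtain ⟨κ, hκ⟩ := h₂ m hm'
    let t : (Fin n → F) → (Fin n → F) := fun v => act x (κ • act x⁻¹ v)
    have hadd : ∀ a b, t (a + b) = t a + t b := by
      intro a b
      simp only [t]
      rw [act_add, smul_add, act_add]
    have hline : ∀ v, ∃ c : L, t v = c • v := by
      intro v
      by_cases hv : v = 0
      · refine ⟨0, ?_⟩
        simp only [t, hv, act_zero, smul_zero, zero_smul]
      · have hw₀ : act x⁻¹ v ≠ 0 := by
          intro h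
          apply hv
          apply act_injective x⁻¹
          rw [h, act_zero]
        obtain ⟨u, hu⟩ := hcon _ hw₀
        have h1 : v ∈ AA L x (act x⁻¹ v) := mem_AA.2 (self_mem_ln _)
        have h2 : t v ∈ AA L x (act x⁻¹ v) := by
          rw [mem_AA]
          simp only [t]
          rw [act_inv_act]
          exact mem_ln.2 ⟨κ, rfl⟩
        rw [hu] at h1 h2
        obtain ⟨k1, hk1⟩ := mem_ln.1 h1
        obtain ⟨k2, hk2⟩ := mem_ln.1 h2
        have hk10 : k1 ≠ 0 := by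
          intro h
          apply hv
          rw [← hk1, h, zero_smul]
        refine ⟨k2 / k1, ?_⟩
        rw [← hk2, ← hk1, smul_smul, div_mul_cancel₀ _ hk10]
    obtain ⟨c, hc⟩ := line_scalar hm t hadd hline
    obtain ⟨m', hm'K, hm'⟩ := h₁ c
    have e : (x : MM) * m * ((x⁻¹ : GL (Fin n) F) : MM) = m' := by
      apply mat_eq_of_mulVec
      intro v
      rw [← Matrix.mulVec_mulVec, ← Matrix.mulVec_mulVec, hκ, ← hm', ← hc]
      rfl
    rw [e]
    exact hm'K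
  haveI : Finite K := Subtype.finite
  let f : K → K := fun m => ⟨_, hfw m.1 m.2⟩
  have hcan : ∀ A B : MM, (x : MM) * A * ((x⁻¹ : GL (Fin n) F) : MM) = (x : MM) * B * ((x⁻¹ : GL (Fin n) F) : MM) → A = B := by
    intro A B h
    rw [← conj_cancel x A, h, conj_cancel]
  have hinj : Function.Injective f := by
    intro a b hab
    exact Subtype.ext (hcan _ _ (congrArg Subtype.val hab))
  have hsurj := Finite.surjective_of_injective hinj
  intro k
  refine ⟨fun hk => hfw k hk, fun hk => ?_⟩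
  obtain ⟨m, hm⟩ := hsurj ⟨_, hk⟩
  have h1 := hcan _ _ (congrArg Subtype.val hm)
  rw [← h1]
  exact m.2

theorem exists_det [Finite L] (hm : 0 < finrank L (Fin n → F)) {c : F} (hc : c ≠ 0) :
    ∃ h : GL (Fin n) F, IsLL L h ∧ (h : MM).det = c := by
  classical
  haveI : Fintype L := Fintype.ofFinite L
  haveI : Module.Finite F L := Module.Finite.of_finite
  haveI : Module.Finite L (Fin n → F) := Module.Finite.of_finite
  obtain ⟨α, hα⟩ := FiniteField.norm_surjective F L c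
  have hα0 : α ≠ 0 := by
    intro h
    rw [h, Algebra.norm_zero] at hα
    exact hc hα.symm
  let b := Module.finBasis L (Fin n → F)
  let i₀ : Fin (finrank L (Fin n → F)) := ⟨0, hm⟩
  let d : Fin (finrank L (Fin n → F)) → L := Function.update (fun _ => 1) i₀ α
  let d' : Fin (finrank L (Fin n → F)) → L := Function.update (fun _ => 1) i₀ α⁻¹
  have hdd : ∀ i, d i * d' i = 1 := by
    intro i
    by_cases hi : i = i₀
    · simp [d, d', hi, hα0]
    · simp [d, d', hi]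
  have hdd' : ∀ i, d' i * d i = 1 := fun i => by rw [mul_comm, hdd]
  let f := Matrix.toLin b b (Matrix.diagonal d)
  let f' := Matrix.toLin b b (Matrix.diagonal d')
  have h1 : ∀ v, f (f' v) = v := by
    intro v
    rw [← LinearMap.comp_apply, ← Matrix.toLin_mul b b b, Matrix.diagonal_mul_diagonal, funext hdd, Matrix.diagonal_one, Matrix.toLin_one]
    rfl
  have h2 : ∀ v, f' (f v) = v := by
    intro v
    rw [← LinearMap.comp_apply, ← Matrix.toLin_mul b b b, Matrix.diagonal_mul_diagonal, funext hdd', Matrix.diagonal_one, Matrix.toLin_one]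
    rfl
  refine ⟨glL f f' h1 h2, isLL_glL _ _ _ _, ?_⟩
  have e1 : glLin (glL f f' h1 h2) = f.restrictScalars F := LinearMap.ext fun v => by
    rw [glLin_apply, act_glL]
    rfl
  have e2 : ((glL f f' h1 h2 : GL (Fin n) F) : MM).det = LinearMap.det (glLin (glL f f' h1 h2)) := by
    rw [glLin, LinearMap.det_toLin']
  rw [e2, e1, LinearMap.det_restrictScalars, LinearMap.det_toLin, Matrix.det_diagonal, ← hα]
  congr 1
  simp only [d]
  rw [Finset.prod_update_of_mem (Finset.mem_univ i₀)]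
  simp

theorem main_abs [Finite L] (K : Subalgebra F MM) (h₁ : ∀ k : L, ∃ m ∈ K, ∀ v, k • v = m *ᵥ v)
    (h₂ : ∀ m ∈ K, ∃ k : L, ∀ v, m *ᵥ v = k • v) (hp : (finrank F L).Prime) (hm : 2 ≤ finrank L (Fin n → F))
    (hns : ¬ specialLinear (Fin n) F ≤ subalgebraNormalizer K) :
    IsCoatom (subalgebraNormalizer K) ∧
      IsMaximalIn (specialLinear (Fin n) F) (subalgebraNormalizer K ⊓ specialLinear (Fin n) F) := by
  have hmem : ∀ g : GL (Fin n) F, (g : MM).det = 1 → g ∈ specialLinear (Fin n) F := by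
    intro g hg
    rw [specialLinear, MonoidHom.mem_ker]
    exact Units.ext hg
  have hLLN : ∀ g : GL (Fin n) F, IsLL L g → g ∈ subalgebraNormalizer K := fun g hg => mem_N_of_LL h₂ hg
  have hcore : ∀ M : Subgroup (GL (Fin n) F), subalgebraNormalizer K ⊓ specialLinear (Fin n) F ≤ M →
      ∀ x ∈ M, x ∉ subalgebraNormalizer K → specialLinear (Fin n) F ≤ M := by
    intro M hM x hxM hxN
    obtain ⟨w₀, hw₀, hline⟩ := exists_bad h₁ h₂ hm hxN
    exact core hp hm (fun g hg hd => hM ⟨hLLN g hg, hmem g hd⟩) hxM hw₀ hline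
  have hsl_of : ∀ z h : GL (Fin n) F, (h : MM).det = (z : MM).det → z * h⁻¹ ∈ specialLinear (Fin n) F := by
    intro z h hd
    have e : Matrix.GeneralLinearGroup.det h = Matrix.GeneralLinearGroup.det z := Units.ext hd
    rw [specialLinear, MonoidHom.mem_ker, map_mul, map_inv, e, mul_inv_cancel]
  have hdet : ∀ z : GL (Fin n) F, ∃ h : GL (Fin n) F, IsLL L h ∧ (h : MM).det = (z : MM).det := fun z =>
    exists_det (by omega) ((Matrix.isUnit_iff_isUnit_det _).1 z.isUnit).ne_zero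
  constructor
  · constructor
    · intro h
      apply hns
      rw [h]
      exact le_top
    · intro M hM
      obtain ⟨g, hgM, hgN⟩ := SetLike.exists_of_lt hM
      obtain ⟨h, hhL, hhd⟩ := hdet g
      have hhN := hLLN h hhL
      have hhM := hM.le hhN
      have hxM : g * h⁻¹ ∈ M ⊓ specialLinear (Fin n) F := ⟨M.mul_mem hgM (M.inv_mem hhM), hsl_of g h hhd⟩
      have hxN : g * h⁻¹ ∉ subalgebraNormalizer K := fun hx => hgN (by
        have := (subalgebraNormalizer K).mul_mem hx hhN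
        simpa using this)
      have hsl := hcore (M ⊓ specialLinear (Fin n) F) (inf_le_inf_right _ hM.le) _ hxM hxN
      have hslM : specialLinear (Fin n) F ≤ M := hsl.trans inf_le_left
      rw [eq_top_iff]
      intro z _
      obtain ⟨h', hL', hd'⟩ := hdet z
      have h1 : z * h'⁻¹ ∈ M := hslM (hsl_of z h' hd')
      have h2 := M.mul_mem h1 (hM.le (hLLN h' hL'))
      simpa using h2
  · refine ⟨?_, fun M hM hM2 => ?_⟩
    · refine lt_of_le_of_ne inf_le_right fun h => hns ?_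
      rw [← h]
      exact inf_le_left
    · by_cases hle : M ≤ subalgebraNormalizer K ⊓ specialLinear (Fin n) F
      · exact Or.inl (le_antisymm hle hM)
      · right
        obtain ⟨x, hxM, hx⟩ := SetLike.not_le_iff_exists.1 hle
        have hxN : x ∉ subalgebraNormalizer K := fun h => hx ⟨h, hM2 hxM⟩
        exact le_antisymm hM2 (hcore M hM x hxM hxN)

end main

/-- The normaliser of a field of prime degree. -/
theorem main_fld {F : Type*} [Field F] [Fintype F] (n r : ℕ) (hr : r.Prime) (hrn : r ∣ n) (hlt : r < n)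
    (K : Subalgebra F (Matrix (Fin n) (Fin n) F)) (hK : IsFieldSubalgebra r K) :
    IsCoatom (subalgebraNormalizer K) ∧
      IsMaximalIn (specialLinear (Fin n) F) (subalgebraNormalizer K ⊓ specialLinear (Fin n) F) := by
  have hn0 : 0 < n := lt_of_le_of_lt hr.pos.le hlt
  have hn3 : 3 ≤ n := by
    have := hr.two_le
    omega
  haveI : Nonempty (Fin n) := ⟨⟨0, hn0⟩⟩
  have isF : IsField K :=
    { exists_pair_ne := ⟨0, 1, fun h => (one_ne_zero (α := Matrix (Fin n) (Fin n) F)) (congrArg Subtype.val h).symm⟩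
      mul_comm := fun a b => Subtype.ext (hK.comm a a.2 b b.2)
      mul_inv_cancel := by
        intro a ha
        obtain ⟨y, hy, hay⟩ := hK.inv a a.2 (fun h => ha (Subtype.ext h))
        exact ⟨⟨y, hy⟩, Subtype.ext hay⟩ }
  letI fK : Field K := isF.toField
  letI mK : Module K (Fin n → F) :=
    { smul := fun a v => a.1 *ᵥ v
      one_smul := fun v => Matrix.one_mulVec v
      mul_smul := fun a b v => (Matrix.mulVec_mulVec v a.1 b.1).symm
      smul_zero := fun a => Matrix.mulVec_zero _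
      smul_add := fun a u v => Matrix.mulVec_add _ _ _
      add_smul := fun a b v => Matrix.add_mulVec _ _ _
      zero_smul := fun v => Matrix.zero_mulVec v }
  haveI tw : IsScalarTower F K (Fin n → F) := ⟨fun c a v => Matrix.smul_mulVec c a.1 v⟩
  haveI : Finite K := Subtype.finite
  haveI : Module.Finite F K := Module.Finite.of_finite
  haveI : Module.Finite K (Fin n → F) := Module.Finite.of_restrictScalars_finite F K _
  have h := Module.finrank_mul_finrank F K (Fin n → F)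
  rw [hK.finrank_eq, finrank_fin_fun] at h
  have hm : 2 ≤ finrank K (Fin n → F) := by
    by_contra hcon
    have hm1 : finrank K (Fin n → F) = 0 ∨ finrank K (Fin n → F) = 1 := by omega
    rcases hm1 with hm1 | hm1 <;> rw [hm1] at h <;> omega
  exact main_abs (L := K) K (fun k => ⟨k.1, k.2, fun v => rfl⟩) (fun m hm => ⟨⟨m, hm⟩, fun v => rfl⟩)
    (by rw [hK.finrank_eq]; exact hr) hm (Asch.sl_not_le_fld hn3 hr.two_le hK)

end Cfsg.Agent.Lib.ClassMax.Ext
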