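import Mathlib

/-!
# The minimal degree of primitive permutation groups

Babai's bound: a primitive group not containing the alternating group moves at least `(√n - 1) / 2` points.
-/

set_option autoImplicit false
set_option linter.unusedSimpArgs false
set_option linter.unusedVariables false
set_option linter.unusedSectionVars false

namespace Cfsg.Agent.Lib.ClassMax.MinDeg

open Finset MulAction Equiv Equiv.Perm
open scoped Pointwise

section threecycle

variable {α : Type*} [Fintype α] [DecidableEq α]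

omit [Fintype α] [DecidableEq α] in
theorem inv_self' (σ : Perm α) (x : α) : σ⁻¹ (σ x) = x := by simp

omit [Fintype α] [DecidableEq α] in
theorem self_inv' (σ : Perm α) (x : α) : σ (σ⁻¹ x) = x := by simp

/-- The commutator of two permutations whose supports meet in one point is a three-cycle. -/
theorem isThreeCycle_commutator (σ τ : Perm α) (a : α) (h : ∀ z, σ z ≠ z → τ z ≠ z → z = a) (ha : σ a ≠ a) (hb : τ a ≠ a) :
    (σ * τ * σ⁻¹ * τ⁻¹).IsThreeCycle := by
  have h1 : ∀ z, z ≠ a → σ z ≠ z → τ z = z := fun z hz h2 => by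
    by_contra h3
    exact hz (h z h2 h3)
  have h2 : ∀ z, z ≠ a → τ z ≠ z → σ z = z := fun z hz h2 => by
    by_contra h3
    exact hz (h z h3 h2)
  have hs : ∀ (ρ : Perm α) z, ρ z ≠ z → ρ (ρ z) ≠ ρ z := fun ρ z hz h3 => hz (ρ.injective h3)
  set c := σ * τ * σ⁻¹ * τ⁻¹ with hc
  have hcv : ∀ w, c w = σ (τ (σ⁻¹ (τ⁻¹ w))) := fun w => rfl
  have hsa : σ a ≠ τ a := by
    intro h3
    have h4 := h2 (τ a) hb (hs τ a hb)
    rw [← h3] at h4
    exact ha (σ.injective h4)
  have c1 : c (τ a) = a := by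
    rw [hcv, inv_self']
    have h3 : σ (σ⁻¹ a) = a := self_inv' σ a
    have h4 : σ⁻¹ a ≠ a := by
      intro h5
      rw [h5] at h3
      exact ha h3
    have h5 : σ (σ⁻¹ a) ≠ σ⁻¹ a := by
      rw [h3]
      exact h4.symm
    rw [h1 _ h4 h5, h3]
  have c2 : c a = σ a := by
    rw [hcv]
    have h3 : τ (τ⁻¹ a) = a := self_inv' τ a
    have h4 : τ⁻¹ a ≠ a := by
      intro h5
      rw [h5] at h3
      exact hb h3
    have h5 : τ (τ⁻¹ a) ≠ τ⁻¹ a := by
      rw [h3]
      exact h4.symm
    have h6 := h2 _ h4 h5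
    have h7 : σ⁻¹ (τ⁻¹ a) = τ⁻¹ a := by
      rw [Perm.inv_eq_iff_eq]
      exact h6.symm
    rw [h7, h3]
  have c3 : c (σ a) = τ a := by
    rw [hcv]
    have h3 := h1 (σ a) ha (hs σ a ha)
    have h4 : τ⁻¹ (σ a) = σ a := by
      rw [Perm.inv_eq_iff_eq]
      exact h3.symm
    rw [h4, inv_self']
    exact h2 (τ a) hb (hs τ a hb)
  have c4 : ∀ w, w ≠ a → w ≠ σ a → w ≠ τ a → c w = w := by
    intro w hwa hws hwt
    rw [hcv]
    by_cases h3 : τ⁻¹ w = w
    · rw [h3]
      by_cases h4 : σ⁻¹ w = w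
      · rw [h4]
        have h5 : τ w = w := by
          have := congrArg τ h3
          rwa [self_inv', eq_comm] at this
        rw [h5]
        have h6 : σ w = w := by
          have := congrArg σ h4
          rwa [self_inv', eq_comm] at this
        exact h6
      · have h5 : σ (σ⁻¹ w) = w := self_inv' σ w
        have h6 : σ⁻¹ w ≠ a := by
          intro h7
          rw [h7] at h5
          exact hws h5.symm
        have h7 : σ (σ⁻¹ w) ≠ σ⁻¹ w := by
          rw [h5]
          exact fun h8 => h4 h8.symm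
        rw [h1 _ h6 h7, h5]
    · have h5 : τ (τ⁻¹ w) = w := self_inv' τ w
      have h6 : τ⁻¹ w ≠ a := by
        intro h7
        rw [h7] at h5
        exact hwt h5.symm
      have h7 : τ (τ⁻¹ w) ≠ τ⁻¹ w := by
        rw [h5]
        exact fun h8 => h3 h8.symm
      have h8 := h2 _ h6 h7
      have h9 : σ⁻¹ (τ⁻¹ w) = τ⁻¹ w := by
        rw [Perm.inv_eq_iff_eq]
        exact h8.symm
      rw [h9, h5]
      have h10 : τ w ≠ w := by
        have := hs τ _ h7
        rwa [h5] at this
      exact h2 w hwa h10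
  rw [← card_support_eq_three_iff]
  have hsupp : c.support = {a, σ a, τ a} := by
    ext w
    simp only [Perm.mem_support, Finset.mem_insert, Finset.mem_singleton]
    constructor
    · intro hw
      by_contra hcon
      push Not at hcon
      exact hw (c4 w hcon.1 hcon.2.1 hcon.2.2)
    · rintro (rfl | rfl | rfl)
      · rw [c2]
        exact ha
      · rw [c3]
        exact hsa.symm
      · rw [c1]
        exact hb.symm
  rw [hsupp, Finset.card_eq_three]
  exact ⟨a, σ a, τ a, ha.symm, hb.symm, hsa, rfl⟩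

end threecycle

section core

variable (G : Type*) {Ω : Type*} [Group G] [MulAction G Ω]

/-- Two pairs lie in the same orbital. -/
def Sm (a b a' b' : Ω) : Prop := ∃ g : G, g • a = a' ∧ g • b = b'

variable {G}

theorem sm_refl (a b : Ω) : Sm G a b a b := ⟨1, one_smul _ _, one_smul _ _⟩

theorem Sm.symm {a b a' b' : Ω} (h : Sm G a b a' b') : Sm G a' b' a b := by
  obtain ⟨g, rfl, rfl⟩ := h
  exact ⟨g⁻¹, inv_smul_smul _ _, inv_smul_smul _ _⟩

theorem Sm.trans {a b a' b' a'' b'' : Ω} (h : Sm G a b a' b') (h' : Sm G a' b' a'' b'') : Sm G a b a'' b'' := by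
  obtain ⟨g, rfl, rfl⟩ := h
  obtain ⟨g', rfl, rfl⟩ := h'
  exact ⟨g' * g, mul_smul _ _ _, mul_smul _ _ _⟩

theorem sm_smul (g : G) (a b : Ω) : Sm G a b (g • a) (g • b) := ⟨g, rfl, rfl⟩

variable (G)
variable [Fintype Ω]

open Classical in
/-- The points distinguishing two points. -/
noncomputable def SS (x y : Ω) : Finset Ω := univ.filter fun z => ¬ Sm G z x z y

/-- The number of points distinguishing two points. -/
noncomputable def qq (x y : Ω) : ℕ := (SS G x y).card

variable {G}

theorem mem_SS {x y z : Ω} : z ∈ SS G x y ↔ ¬ Sm G z x z y := by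
  classical
  simp [SS]

theorem SS_comm (x y : Ω) : SS G x y = SS G y x := by
  ext z
  rw [mem_SS, mem_SS]
  exact not_congr ⟨fun h => h.symm, fun h => h.symm⟩

theorem qq_comm (x y : Ω) : qq G x y = qq G y x := by
  unfold qq
  rw [SS_comm]

theorem qq_self (x : Ω) : qq G x x = 0 := by
  unfold qq
  rw [Finset.card_eq_zero]
  ext z
  simp only [mem_SS, Finset.notMem_empty, iff_false, not_not]
  exact sm_refl _ _

theorem qq_tri (x y w : Ω) : qq G x w ≤ qq G x y + qq G y w := by
  classical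
  unfold qq
  refine le_trans (Finset.card_le_card ?_) (Finset.card_union_le _ _)
  intro z hz
  rw [Finset.mem_union]
  by_contra hcon
  push Not at hcon
  rw [mem_SS, mem_SS, not_not, not_not] at hcon
  rw [mem_SS] at hz
  exact hz (hcon.1.trans hcon.2)

theorem qq_of_sm {a b a' b' : Ω} (h : Sm G a b a' b') : qq G a b = qq G a' b' := by
  obtain ⟨g, rfl, rfl⟩ := h
  unfold qq
  refine Finset.card_bij (fun z _ => g • z) ?_ ?_ ?_
  · intro z hz
    rw [mem_SS] at hz ⊢
    rintro ⟨h', h1, h2⟩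
    exact hz ⟨g⁻¹ * h' * g, by simp [mul_smul, h1], by simp [mul_smul, h2]⟩
  · intro z _ w _ hzw
    exact smul_left_cancel g hzw
  · intro w hw
    refine ⟨g⁻¹ • w, ?_, by simp⟩
    rw [mem_SS] at hw ⊢
    rintro ⟨h', h1, h2⟩
    exact hw ⟨g * h' * g⁻¹, by simp [mul_smul, h1], by simp [mul_smul, h2]⟩

section nbr

variable (G)
variable (x₀ y₀ : Ω)
variable [DecidableEq Ω]

open Classical in
/-- The out-neighbours in an orbital graph. -/
noncomputable def Nb (x : Ω) : Finset Ω := univ.filter fun v => Sm G x₀ y₀ x v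

open Classical in
/-- The in-neighbours in an orbital graph. -/
noncomputable def Inn (v : Ω) : Finset Ω := univ.filter fun x => Sm G x₀ y₀ x v

variable {G x₀ y₀}

theorem mem_Nb {x v : Ω} : v ∈ Nb G x₀ y₀ x ↔ Sm G x₀ y₀ x v := by
  classical
  simp [Nb]

theorem mem_Inn {x v : Ω} : x ∈ Inn G x₀ y₀ v ↔ Sm G x₀ y₀ x v := by
  classical
  simp [Inn]

theorem card_Nb [IsPretransitive G Ω] (x : Ω) : (Nb G x₀ y₀ x).card = (Nb G x₀ y₀ x₀).card := by
  obtain ⟨g, rfl⟩ := exists_smul_eq G x₀ x
  symm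
  refine Finset.card_bij (fun z _ => g • z) ?_ ?_ ?_
  · intro z hz
    rw [mem_Nb] at hz ⊢
    exact hz.trans (sm_smul g x₀ z)
  · intro z _ w _ hzw
    exact smul_left_cancel g hzw
  · intro w hw
    refine ⟨g⁻¹ • w, ?_, by simp⟩
    rw [mem_Nb] at hw ⊢
    refine hw.trans ?_
    have := sm_smul g⁻¹ (g • x₀) w
    rwa [inv_smul_smul] at this

theorem card_Inn_eq [IsPretransitive G Ω] (v : Ω) : (Inn G x₀ y₀ v).card = (Inn G x₀ y₀ y₀).card := by
  obtain ⟨g, rfl⟩ := exists_smul_eq G y₀ v
  symm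
  refine Finset.card_bij (fun z _ => g • z) ?_ ?_ ?_
  · intro z hz
    rw [mem_Inn] at hz ⊢
    exact hz.trans (sm_smul g z y₀)
  · intro z _ w _ hzw
    exact smul_left_cancel g hzw
  · intro w hw
    refine ⟨g⁻¹ • w, ?_, by simp⟩
    rw [mem_Inn] at hw ⊢
    refine hw.trans ?_
    have := sm_smul g⁻¹ w (g • y₀)
    rwa [inv_smul_smul] at this

theorem card_Inn [IsPretransitive G Ω] (v : Ω) : (Inn G x₀ y₀ v).card = (Nb G x₀ y₀ x₀).card := by
  classical
  rw [card_Inn_eq]
  have h := Finset.sum_card_bipartiteAbove_eq_sum_card_bipartiteBelow (s := (univ : Finset Ω)) (t := (univ : Finset Ω)) (fun a b => Sm G x₀ y₀ a b)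
  have e1 : ∀ a, (Finset.bipartiteAbove (fun a b => Sm G x₀ y₀ a b) (univ : Finset Ω) a).card = (Nb G x₀ y₀ x₀).card := by
    intro a
    rw [← card_Nb a]
    rfl
  have e2 : ∀ b, (Finset.bipartiteBelow (fun a b => Sm G x₀ y₀ a b) (univ : Finset Ω) b).card = (Inn G x₀ y₀ y₀).card := by
    intro b
    rw [← card_Inn_eq b]
    rfl
  simp only [e1, e2, Finset.sum_const, smul_eq_mul] at h
  have hpos : 0 < (univ : Finset Ω).card := by
    rw [Finset.card_pos]
    exact ⟨x₀, Finset.mem_univ _⟩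
  exact (Nat.eq_of_mul_eq_mul_left hpos h).symm

theorem two_delta [IsPretransitive G Ω] (a b : Ω) : 2 * (Nb G x₀ y₀ a \ Nb G x₀ y₀ b).card ≤ qq G a b := by
  have h1 : (Nb G x₀ y₀ a \ Nb G x₀ y₀ b).card = (Nb G x₀ y₀ b \ Nb G x₀ y₀ a).card :=
    Finset.card_sdiff_comm (by rw [card_Nb a, card_Nb b])
  have h2 : (Nb G x₀ y₀ a \ Nb G x₀ y₀ b) ∪ (Nb G x₀ y₀ b \ Nb G x₀ y₀ a) ⊆ SS G a b := by
    intro v hv
    rw [mem_SS]
    rintro ⟨g, hv', hg⟩
    rw [Finset.mem_union, Finset.mem_sdiff, Finset.mem_sdiff, mem_Nb, mem_Nb] at hv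
    rcases hv with ⟨h3, h4⟩ | ⟨h3, h4⟩
    · apply h4
      have := h3.trans (sm_smul g a v)
      rwa [hg, hv'] at this
    · apply h4
      have := h3.trans (sm_smul g⁻¹ b v)
      rw [← hg, inv_smul_smul] at this
      have hv'' : g⁻¹ • v = v := by
        nth_rewrite 1 [← hv']
        exact inv_smul_smul _ _
      rwa [hv''] at this
  have h3 := Finset.card_le_card h2
  rw [Finset.card_union_of_disjoint disjoint_sdiff_sdiff] at h3
  unfold qq
  omega

theorem delta_tri (a b c : Ω) : (Nb G x₀ y₀ a \ Nb G x₀ y₀ c).card ≤ (Nb G x₀ y₀ a \ Nb G x₀ y₀ b).card + (Nb G x₀ y₀ b \ Nb G x₀ y₀ c).card := by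
  refine le_trans (Finset.card_le_card ?_) (Finset.card_union_le _ _)
  intro v hv
  rw [Finset.mem_sdiff] at hv
  rw [Finset.mem_union, Finset.mem_sdiff, Finset.mem_sdiff]
  by_cases h : v ∈ Nb G x₀ y₀ b
  · exact Or.inr ⟨h, hv.2⟩
  · exact Or.inl ⟨hv.1, h⟩

/-- Connectivity of orbital graphs. -/
theorem reach_all [Finite G] [IsPreprimitive G Ω] (hne : x₀ ≠ y₀) (a b : Ω) : Relation.ReflTransGen (Sm G x₀ y₀) a b := by
  classical
  set r := Sm G x₀ y₀ with hr
  have hinv : ∀ (g : G) u v, r u v → r (g • u) (g • v) := fun g u v h => Sm.trans h (sm_smul g u v)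
  have hinvE : ∀ (g : G) u v, Relation.ReflTransGen r u v → Relation.ReflTransGen r (g • u) (g • v) := by
    intro g u v h
    induction h with
    | refl => exact Relation.ReflTransGen.refl
    | tail _ h2 ih => exact ih.tail (hinv g _ _ h2)
  have hsym1 : ∀ u v, r u v → Relation.ReflTransGen r v u := by
    intro u v huv
    obtain ⟨τ, hτ⟩ := exists_smul_eq G u v
    have key : ∀ j : ℕ, Relation.ReflTransGen r v (τ ^ (j + 1) • u) := by
      intro j
      induction j with
      | zero =>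
        rw [zero_add, pow_one, hτ]
      | succ j ih =>
        refine ih.tail ?_
        have := hinv (τ ^ (j + 1)) u v huv
        have e : τ ^ (j + 1 + 1) • u = τ ^ (j + 1) • v := by
          rw [pow_succ, mul_smul, hτ]
        rw [e]
        exact this
    have hN : 0 < orderOf τ := orderOf_pos τ
    have h1 := key (orderOf τ - 1)
    rw [Nat.sub_add_cancel hN, pow_orderOf_eq_one, one_smul] at h1
    exact h1
  have hsym : ∀ u v, Relation.ReflTransGen r u v → Relation.ReflTransGen r v u := by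
    intro u v h
    induction h with
    | refl => exact Relation.ReflTransGen.refl
    | tail _ h2 ih => exact (hsym1 _ _ h2).trans ih
  let B : Set Ω := {c | Relation.ReflTransGen r a c}
  have hB : IsBlock G B := by
    rw [isBlock_iff_smul_eq_of_nonempty]
    rintro g ⟨c, ⟨d, hd, rfl⟩, hc⟩
    have hd' : Relation.ReflTransGen r a d := hd
    have hc' : Relation.ReflTransGen r a (g • d) := hc
    apply Set.Subset.antisymm
    · rintro _ ⟨e, he, rfl⟩
      have he' : Relation.ReflTransGen r a e := he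
      show Relation.ReflTransGen r a (g • e)
      exact hc'.trans (hinvE g d e ((hsym _ _ hd').trans he'))
    · intro e he
      have he' : Relation.ReflTransGen r a e := he
      refine ⟨g⁻¹ • e, ?_, smul_inv_smul _ _⟩
      show Relation.ReflTransGen r a (g⁻¹ • e)
      have h1 := hinvE g⁻¹ (g • d) e ((hsym _ _ hc').trans he')
      rw [inv_smul_smul] at h1
      exact hd'.trans h1
  rcases hB.subsingleton_or_eq_univ with h | h
  · exfalso
    obtain ⟨g, hg⟩ := exists_smul_eq G x₀ a
    have h1 : g • y₀ ∈ B := by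
      show Relation.ReflTransGen r a (g • y₀)
      apply Relation.ReflTransGen.single
      rw [← hg]
      exact hinv g x₀ y₀ (sm_refl _ _)
    have h2 : a ∈ B := Relation.ReflTransGen.refl
    have h3 := h h1 h2
    rw [← hg] at h3
    exact hne (smul_left_cancel g h3).symm
  · have : b ∈ B := by
      rw [h]
      trivial
    exact this

/-- Every point different from `z` has a predecessor separated from it by `z`. -/
theorem exists_pred [Finite G] [IsPreprimitive G Ω] (hne : x₀ ≠ y₀) {z w : Ω} (hzw : z ≠ w) : ∃ u, Sm G x₀ y₀ u w ∧ z ∈ SS G u w := by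
  by_contra hcon
  push Not at hcon
  have hP : ∀ v, Sm G z w z v → ∀ u, Sm G x₀ y₀ u v → Sm G z w z u := by
    rintro v ⟨g, hgz, rfl⟩ u huv
    have h1 : Sm G x₀ y₀ (g⁻¹ • u) w := by
      have := huv.trans (sm_smul g⁻¹ u (g • w))
      rwa [inv_smul_smul] at this
    have h2 := hcon _ h1
    rw [mem_SS, not_not] at h2
    obtain ⟨h, hz, hu⟩ := h2
    refine ⟨g * h⁻¹, ?_, ?_⟩
    · rw [mul_smul, inv_smul_eq_iff.mpr hz.symm, hgz]
    · rw [mul_smul, inv_smul_eq_iff.mpr hu.symm, smul_inv_smul]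
  have key : ∀ c, Relation.ReflTransGen (Sm G x₀ y₀) c w → Sm G z w z c := by
    intro c hc
    induction hc using Relation.ReflTransGen.head_induction_on with
    | refl => exact sm_refl _ _
    | head h1 _ ih => exact hP _ ih _ h1
  obtain ⟨g, hg1, hg2⟩ := key z (reach_all hne z w)
  apply hzw
  have h3 : g • w = g • z := by rw [hg1, hg2]
  exact (smul_left_cancel g h3).symm

/-- The basic inequality relating the valency, the degree and the number of distinguishing points. -/
theorem star [Finite G] [IsPreprimitive G Ω] (hne : x₀ ≠ y₀) : Fintype.card Ω ≤ qq G x₀ y₀ * (Nb G x₀ y₀ x₀).card + 1 := by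
  classical
  set n := Fintype.card Ω with hn
  set k := (Nb G x₀ y₀ x₀).card with hk
  set t := qq G x₀ y₀ with ht
  let T : Finset (Σ _ : Ω, Ω) := (univ : Finset Ω).sigma (fun u => Nb G x₀ y₀ u)
  have hT : T.card = n * k := by
    rw [Finset.card_sigma, Finset.sum_congr rfl (fun u _ => card_Nb u), Finset.sum_const, smul_eq_mul, Finset.card_univ]
  have hcount := Finset.sum_card_bipartiteAbove_eq_sum_card_bipartiteBelow (s := (univ : Finset Ω)) (t := T) (fun z p => z ∈ SS G p.1 p.2)
  have h1 : ∀ p ∈ T, (Finset.bipartiteBelow (fun z (p : Σ _ : Ω, Ω) => z ∈ SS G p.1 p.2) (univ : Finset Ω) p).card = t := by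
    intro p hp
    have hp' : Sm G x₀ y₀ p.1 p.2 := by
      have := (Finset.mem_sigma.mp hp).2
      rwa [mem_Nb] at this
    have : Finset.bipartiteBelow (fun z (p : Σ _ : Ω, Ω) => z ∈ SS G p.1 p.2) (univ : Finset Ω) p = SS G p.1 p.2 := by
      ext z
      simp [Finset.bipartiteBelow]
    rw [this, ht]
    exact (qq_of_sm hp').symm
  have h2 : ∀ z, n - 1 ≤ (Finset.bipartiteAbove (fun z (p : Σ _ : Ω, Ω) => z ∈ SS G p.1 p.2) T z).card := by
    intro z
    have hc : (univ.erase z : Finset Ω).card = n - 1 := by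
      rw [Finset.card_erase_of_mem (Finset.mem_univ z), Finset.card_univ]
    rw [← hc]
    have hch : ∀ w : Ω, ∃ u, w ≠ z → (Sm G x₀ y₀ u w ∧ z ∈ SS G u w) := by
      intro w
      by_cases hw : w = z
      · exact ⟨w, fun h => absurd hw h⟩
      · obtain ⟨u, hu⟩ := exists_pred (G := G) hne (z := z) (w := w) (Ne.symm hw)
        exact ⟨u, fun _ => hu⟩
    choose f hf using hch
    refine Finset.card_le_card_of_injOn (fun w => (⟨f w, w⟩ : Σ _ : Ω, Ω)) ?_ ?_
    · intro w hw
      have hw' : w ≠ z := by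
        simpa using hw
      obtain ⟨h3, h4⟩ := hf w hw'
      simp only [Finset.coe_erase, Finset.bipartiteAbove, Finset.coe_filter, Set.mem_setOf_eq]
      exact ⟨Finset.mem_sigma.mpr ⟨Finset.mem_univ _, mem_Nb.mpr h3⟩, h4⟩
    · intro a _ b _ hab
      exact (Sigma.mk.inj_iff.mp hab).2.eq
  have h3 : n * (n - 1) ≤ n * k * t := by
    calc n * (n - 1) = ∑ _z : Ω, (n - 1) := by
          rw [Finset.sum_const, Finset.card_univ, smul_eq_mul]
      _ ≤ ∑ z : Ω, (Finset.bipartiteAbove (fun z (p : Σ _ : Ω, Ω) => z ∈ SS G p.1 p.2) T z).card := Finset.sum_le_sum (fun z _ => h2 z)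
      _ = ∑ p ∈ T, (Finset.bipartiteBelow (fun z (p : Σ _ : Ω, Ω) => z ∈ SS G p.1 p.2) (univ : Finset Ω) p).card := hcount
      _ = ∑ _p ∈ T, t := Finset.sum_congr rfl h1
      _ = n * k * t := by
        rw [Finset.sum_const, hT, smul_eq_mul]
  have hnpos : 0 < n := Fintype.card_pos_iff.mpr ⟨x₀⟩
  have h4 : n - 1 ≤ k * t := by
    have h5 : n * (n - 1) ≤ n * (k * t) := by
      rw [← mul_assoc]
      exact h3
    exact Nat.le_of_mul_le_mul_left h5 hnpos
  have h5 : k * t = t * k := mul_comm _ _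
  omega

/-- Counting the points whose neighbourhoods are close to a given one. -/
theorem count_ball [IsPretransitive G Ω] (x : Ω) (B : Finset Ω) (τ : ℕ) (h : ∀ w ∈ B, (Nb G x₀ y₀ x \ Nb G x₀ y₀ w).card ≤ τ) :
    B.card * ((Nb G x₀ y₀ x₀).card - τ) ≤ (Nb G x₀ y₀ x₀).card * (Nb G x₀ y₀ x₀).card := by
  classical
  set k := (Nb G x₀ y₀ x₀).card with hk
  have hcount := Finset.sum_card_bipartiteAbove_eq_sum_card_bipartiteBelow (s := B) (t := Nb G x₀ y₀ x) (fun w v => Sm G x₀ y₀ w v)
  have h1 : ∀ w ∈ B, k - τ ≤ (Finset.bipartiteAbove (fun w v => Sm G x₀ y₀ w v) (Nb G x₀ y₀ x) w).card := by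
    intro w hw
    have e : Finset.bipartiteAbove (fun w v => Sm G x₀ y₀ w v) (Nb G x₀ y₀ x) w = Nb G x₀ y₀ x ∩ Nb G x₀ y₀ w := by
      ext v
      simp [Finset.bipartiteAbove, Finset.mem_inter, mem_Nb]
    rw [e]
    have h2 := Finset.card_sdiff_add_card_inter (Nb G x₀ y₀ x) (Nb G x₀ y₀ w)
    rw [card_Nb x] at h2
    have h3 := h w hw
    omega
  have h2 : ∀ v ∈ Nb G x₀ y₀ x, (Finset.bipartiteBelow (fun w v => Sm G x₀ y₀ w v) B v).card ≤ k := by
    intro v _
    rw [hk, ← card_Inn v]
    apply Finset.card_le_card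
    intro w hw
    simp only [Finset.bipartiteBelow, Finset.mem_filter] at hw
    exact mem_Inn.mpr hw.2
  calc B.card * (k - τ) = ∑ _w ∈ B, (k - τ) := by
        rw [Finset.sum_const, smul_eq_mul]
    _ ≤ ∑ w ∈ B, (Finset.bipartiteAbove (fun w v => Sm G x₀ y₀ w v) (Nb G x₀ y₀ x) w).card := Finset.sum_le_sum h1
    _ = ∑ v ∈ Nb G x₀ y₀ x, (Finset.bipartiteBelow (fun w v => Sm G x₀ y₀ w v) B v).card := hcount
    _ ≤ ∑ _v ∈ Nb G x₀ y₀ x, k := Finset.sum_le_sum h2
    _ = k * k := by
      rw [Finset.sum_const, smul_eq_mul, card_Nb x]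

variable (G x₀ y₀) in
/-- Points at bounded distance in the undirected orbital graph. -/
def Nr : ℕ → Ω → Ω → Prop
  | 0, a, b => a = b
  | n + 1, a, b => ∃ c, Nr n a c ∧ (c = b ∨ Sm G x₀ y₀ c b ∨ Sm G x₀ y₀ b c)

theorem nr_stay {n : ℕ} {a b : Ω} (h : Nr G x₀ y₀ n a b) : Nr G x₀ y₀ (n + 1) a b := ⟨b, h, Or.inl rfl⟩

theorem nr_step {n : ℕ} {a c b : Ω} (h : Nr G x₀ y₀ n a c) (h' : Sm G x₀ y₀ c b ∨ Sm G x₀ y₀ b c) : Nr G x₀ y₀ (n + 1) a b := ⟨c, h, Or.inr h'⟩

theorem nr_zero (a : Ω) : Nr G x₀ y₀ 0 a a := rfl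

theorem qq_U {c b : Ω} (h : Sm G x₀ y₀ c b ∨ Sm G x₀ y₀ b c) : qq G c b = qq G x₀ y₀ := by
  rcases h with h | h
  · exact (qq_of_sm h).symm
  · rw [qq_comm]
    exact (qq_of_sm h).symm

theorem nr_qq {n : ℕ} {a b : Ω} (h : Nr G x₀ y₀ n a b) : qq G a b ≤ n * qq G x₀ y₀ := by
  induction n generalizing b with
  | zero =>
    have : a = b := h
    rw [this, qq_self]
    simp
  | succ n ih =>
    obtain ⟨c, h1, h2⟩ := h
    have h3 := ih h1
    have h4 := qq_tri (G := G) a c b
    have h5 : qq G c b ≤ qq G x₀ y₀ := by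
      rcases h2 with rfl | h2
      · rw [qq_self]
        exact Nat.zero_le _
      · exact (qq_U h2).le
    rw [add_mul, one_mul]
    omega

theorem nr_delta [IsPretransitive G Ω] {n : ℕ} {a b : Ω} (h : Nr G x₀ y₀ n a b) : 2 * (Nb G x₀ y₀ a \ Nb G x₀ y₀ b).card ≤ n * qq G x₀ y₀ := by
  induction n generalizing b with
  | zero =>
    have : a = b := h
    rw [this]
    simp
  | succ n ih =>
    obtain ⟨c, h1, h2⟩ := h
    have h3 := ih h1
    have h4 := delta_tri (G := G) (x₀ := x₀) (y₀ := y₀) a c b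
    have h5 : 2 * (Nb G x₀ y₀ c \ Nb G x₀ y₀ b).card ≤ qq G x₀ y₀ := by
      rcases h2 with rfl | h2
      · simp
      · rw [← qq_U h2]
        exact two_delta c b
    rw [add_mul, one_mul]
    omega

theorem not_self (hne : x₀ ≠ y₀) (x : Ω) : ¬ Sm G x₀ y₀ x x := by
  rintro ⟨g, h1, h2⟩
  apply hne
  apply smul_left_cancel g
  rw [h1, h2]

/-- The bound for a group which is not doubly transitive. -/
theorem main_uni [Finite G] [IsPreprimitive G Ω] (hne : x₀ ≠ y₀) (hnot : ∃ a b : Ω, a ≠ b ∧ ¬ Sm G x₀ y₀ a b) :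
    Fintype.card Ω ≤ (2 * qq G x₀ y₀ + 1) ^ 2 := by
  classical
  set n := Fintype.card Ω with hn
  set k := (Nb G x₀ y₀ x₀).card with hkd
  set t := qq G x₀ y₀ with ht
  have hstar : n ≤ t * k + 1 := star hne
  by_cases hk : k ≤ 4 * t + 4
  · nlinarith
  push Not at hk
  have hall : ∀ w, Nr G x₀ y₀ 2 x₀ w := by
    by_contra hcon
    push Not at hcon
    obtain ⟨w, hw⟩ := hcon
    have hedge : ∃ p v, Nr G x₀ y₀ 2 x₀ p ∧ Sm G x₀ y₀ p v ∧ ¬ Nr G x₀ y₀ 2 x₀ v := by
      by_contra hc
      push Not at hc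
      have h1 : ∀ c, Relation.ReflTransGen (Sm G x₀ y₀) x₀ c → Nr G x₀ y₀ 2 x₀ c := by
        intro c hc'
        induction hc' with
        | refl => exact nr_stay (nr_stay (nr_zero _))
        | tail _ h2 ih => exact hc _ _ ih h2
      exact hw (h1 w (reach_all hne x₀ w))
    obtain ⟨p, v, hp, hpv, hv⟩ := hedge
    let A : Finset Ω := insert x₀ (Nb G x₀ y₀ x₀)
    let C : Finset Ω := insert v (Nb G x₀ y₀ v)
    have hdis : Disjoint A C := by
      rw [Finset.disjoint_left]
      intro a ha hc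
      simp only [A, C, Finset.mem_insert, mem_Nb] at ha hc
      apply hv
      rcases ha with rfl | ha <;> rcases hc with rfl | hc
      · exact nr_stay (nr_stay (nr_zero _))
      · exact nr_stay (nr_step (nr_zero _) (Or.inr hc))
      · exact nr_stay (nr_step (nr_zero _) (Or.inl ha))
      · exact nr_step (nr_step (nr_zero _) (Or.inl ha)) (Or.inr hc)
    have hA : A.card = k + 1 := Finset.card_insert_of_notMem (fun h => not_self hne x₀ (mem_Nb.mp h))
    have hC : C.card = k + 1 := by
      rw [Finset.card_insert_of_notMem (fun h => not_self hne v (mem_Nb.mp h)), card_Nb v]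
    have hball : ∀ w ∈ A ∪ C, (Nb G x₀ y₀ x₀ \ Nb G x₀ y₀ w).card ≤ 2 * t := by
      intro w hw
      have h4 : Nr G x₀ y₀ 4 x₀ w := by
        rcases Finset.mem_union.mp hw with h | h
        · simp only [A, Finset.mem_insert, mem_Nb] at h
          rcases h with rfl | h
          · exact nr_stay (nr_stay (nr_stay (nr_stay (nr_zero _))))
          · exact nr_stay (nr_stay (nr_stay (nr_step (nr_zero _) (Or.inl h))))
        · simp only [C, Finset.mem_insert, mem_Nb] at h
          rcases h with rfl | h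
          · exact nr_stay (nr_step hp (Or.inl hpv))
          · exact nr_step (nr_step hp (Or.inl hpv)) (Or.inl h)
      have h5 := nr_delta h4
      rw [← ht] at h5
      omega
    have h6 := count_ball x₀ (A ∪ C) (2 * t) hball
    rw [Finset.card_union_of_disjoint hdis, hA, hC, ← hkd] at h6
    obtain ⟨e, he⟩ : ∃ e, k = 2 * t + e := ⟨k - 2 * t, by omega⟩
    have he' : 2 * t + 5 ≤ e := by omega
    rw [he, Nat.add_sub_cancel_left] at h6
    nlinarith
  have hball2 := count_ball (G := G) (x₀ := x₀) (y₀ := y₀) x₀ univ t (fun w _ => by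
    have h5 := nr_delta (hall w)
    rw [← ht] at h5
    omega)
  rw [Finset.card_univ, ← hkd, ← hn] at hball2
  have hnk : n ≤ 2 * k := by
    by_contra hcon
    push Not at hcon
    obtain ⟨e, he⟩ : ∃ e, k = t + e := ⟨k - t, by omega⟩
    have he' : 3 * t + 5 ≤ e := by omega
    rw [he, Nat.add_sub_cancel_left] at hball2
    rw [he] at hcon
    nlinarith
  have hk1 : k + 1 ≤ n := by
    have h1 : (insert x₀ (Nb G x₀ y₀ x₀)).card = k + 1 := Finset.card_insert_of_notMem (fun h => not_self hne x₀ (mem_Nb.mp h))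
    rw [← h1, hn]
    exact Finset.card_le_univ _
  obtain ⟨κ, hκ⟩ : ∃ κ, n = 1 + k + κ := ⟨n - 1 - k, by omega⟩
  have hκk : κ < k := by omega
  -- the upper bound for the sum
  have hupper : ∑ w : Ω, qq G x₀ w ≤ k * t + κ * (2 * t) := by
    have h1 : ∑ w ∈ Nb G x₀ y₀ x₀, qq G x₀ w = k * t := by
      rw [Finset.sum_congr rfl (fun w hw => qq_of_sm (mem_Nb.mp hw).symm), Finset.sum_const, smul_eq_mul]
    have h2 := Finset.sum_sdiff (Finset.subset_univ (Nb G x₀ y₀ x₀)) (f := fun w => qq G x₀ w)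
    have hmem : x₀ ∈ (univ \ Nb G x₀ y₀ x₀ : Finset Ω) := by
      rw [Finset.mem_sdiff]
      exact ⟨Finset.mem_univ _, fun h => not_self hne x₀ (mem_Nb.mp h)⟩
    have h3 := Finset.add_sum_erase (univ \ Nb G x₀ y₀ x₀) (fun w => qq G x₀ w) hmem
    have hcard : ((univ \ Nb G x₀ y₀ x₀).erase x₀).card = κ := by
      rw [Finset.card_erase_of_mem hmem, Finset.card_sdiff_of_subset (Finset.subset_univ _), Finset.card_univ, ← hn, ← hkd]
      omega
    have h4 : ∑ w ∈ (univ \ Nb G x₀ y₀ x₀).erase x₀, qq G x₀ w ≤ κ * (2 * t) := by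
      rw [← hcard, ← smul_eq_mul]
      apply Finset.sum_le_card_nsmul
      intro w _
      exact nr_qq (hall w)
    simp only [qq_self] at h3
    omega
  -- the lower bound for the sum
  have hlower : (n - 1) + k * (κ + 1) + κ * (k + 1) ≤ ∑ w : Ω, qq G x₀ w := by
    have hcount := Finset.sum_card_bipartiteAbove_eq_sum_card_bipartiteBelow (s := (univ : Finset Ω)) (t := (univ : Finset Ω)) (fun w z => z ∈ SS G x₀ w)
    have e1 : ∀ w : Ω, (Finset.bipartiteAbove (fun w z => z ∈ SS G x₀ w) (univ : Finset Ω) w).card = qq G x₀ w := by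
      intro w
      unfold qq
      congr 1
      ext z
      simp [Finset.bipartiteAbove]
    simp only [e1] at hcount
    rw [hcount]
    set g : Ω → ℕ := fun z => (Finset.bipartiteBelow (fun w z => z ∈ SS G x₀ w) (univ : Finset Ω) z).card with hg
    have hmemg : ∀ z w, w ∈ Finset.bipartiteBelow (fun w z => z ∈ SS G x₀ w) (univ : Finset Ω) z ↔ ¬ Sm G z x₀ z w := by
      intro z w
      simp [Finset.bipartiteBelow, mem_SS]
    have g1 : g x₀ = n - 1 := by
      have : Finset.bipartiteBelow (fun w z => z ∈ SS G x₀ w) (univ : Finset Ω) x₀ = univ.erase x₀ := by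
        ext w
        rw [hmemg, Finset.mem_erase]
        constructor
        · intro h
          refine ⟨?_, Finset.mem_univ _⟩
          rintro rfl
          exact h (sm_refl _ _)
        · rintro ⟨h, -⟩ ⟨c, h1, h2⟩
          rw [h1] at h2
          exact h h2.symm
      simp only [hg]
      rw [this, Finset.card_erase_of_mem (Finset.mem_univ _), Finset.card_univ]
    have g2 : ∀ z ∈ Inn G x₀ y₀ x₀, κ + 1 ≤ g z := by
      intro z hz
      have hz' := mem_Inn.mp hz
      have h1 : univ \ Nb G x₀ y₀ z ⊆ Finset.bipartiteBelow (fun w z => z ∈ SS G x₀ w) (univ : Finset Ω) z := by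
        intro w hw
        rw [hmemg]
        intro h2
        rw [Finset.mem_sdiff, mem_Nb] at hw
        exact hw.2 (hz'.trans h2)
      have h2 := Finset.card_le_card h1
      rw [Finset.card_sdiff_of_subset (Finset.subset_univ _), Finset.card_univ, card_Nb z, ← hkd, ← hn] at h2
      simp only [hg]
      omega
    have g3 : ∀ z, z ≠ x₀ → z ∉ Inn G x₀ y₀ x₀ → k + 1 ≤ g z := by
      intro z hz hz'
      have h1 : insert z (Nb G x₀ y₀ z) ⊆ Finset.bipartiteBelow (fun w z => z ∈ SS G x₀ w) (univ : Finset Ω) z := by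
        intro w hw
        rw [hmemg]
        rintro ⟨c, h1, h2⟩
        rw [Finset.mem_insert, mem_Nb] at hw
        rcases hw with rfl | hw
        · exact hz (smul_left_cancel c (by rw [h1, h2]))
        · apply hz'
          rw [mem_Inn]
          refine hw.trans ?_
          exact ⟨c⁻¹, by rw [inv_smul_eq_iff]; exact h1.symm, by rw [inv_smul_eq_iff]; exact h2.symm⟩
      have h2 := Finset.card_le_card h1
      rw [Finset.card_insert_of_notMem (fun h => not_self hne z (mem_Nb.mp h)), card_Nb z, ← hkd] at h2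
      exact h2
    have hI : (Inn G x₀ y₀ x₀).card = k := card_Inn x₀
    have h2 := Finset.sum_sdiff (Finset.subset_univ (Inn G x₀ y₀ x₀)) (f := g)
    have hmem : x₀ ∈ (univ \ Inn G x₀ y₀ x₀ : Finset Ω) := by
      rw [Finset.mem_sdiff]
      exact ⟨Finset.mem_univ _, fun h => not_self hne x₀ (mem_Inn.mp h)⟩
    have h3 := Finset.add_sum_erase (univ \ Inn G x₀ y₀ x₀) g hmem
    have hcard : ((univ \ Inn G x₀ y₀ x₀).erase x₀).card = κ := by
      rw [Finset.card_erase_of_mem hmem, Finset.card_sdiff_of_subset (Finset.subset_univ _), Finset.card_univ, ← hn, hI]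
      omega
    have h4 : κ * (k + 1) ≤ ∑ z ∈ (univ \ Inn G x₀ y₀ x₀).erase x₀, g z := by
      rw [← hcard, ← smul_eq_mul]
      apply Finset.card_nsmul_le_sum
      intro z hz
      rw [Finset.mem_erase, Finset.mem_sdiff] at hz
      exact g3 z hz.1 hz.2.2
    have h5 : k * (κ + 1) ≤ ∑ z ∈ Inn G x₀ y₀ x₀, g z := by
      rw [← hI, ← smul_eq_mul]
      apply Finset.card_nsmul_le_sum
      exact g2
    rw [g1] at h3
    linarith
  have hpos : 0 < k := by omega
  have harith : 2 * κ ≤ 3 * t := by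
    have h1 := le_trans hlower hupper
    have h2 : n - 1 = k + κ := by omega
    rw [h2] at h1
    have h3 : k * (2 * κ) ≤ k * (3 * t) := by nlinarith
    exact Nat.le_of_mul_le_mul_left h3 hpos
  obtain ⟨a, b, hab, hnr⟩ := hnot
  have hstar2 := star (G := G) (x₀ := a) (y₀ := b) hab
  have h1 : (Nb G a b a).card ≤ κ := by
    have h2 : Nb G a b a ⊆ univ \ insert a (Nb G x₀ y₀ a) := by
      intro w hw
      rw [mem_Nb] at hw
      rw [Finset.mem_sdiff, Finset.mem_insert, mem_Nb]
      refine ⟨Finset.mem_univ _, ?_⟩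
      rintro (rfl | h3)
      · exact not_self hab _ hw
      · exact hnr (h3.trans hw.symm)
    have h3 := Finset.card_le_card h2
    rw [Finset.card_sdiff_of_subset (Finset.subset_univ _), Finset.card_univ, Finset.card_insert_of_notMem (fun h => not_self hne a (mem_Nb.mp h)), card_Nb (x₀ := x₀) (y₀ := y₀) a, ← hkd, ← hn] at h3
    omega
  have h2 : qq G a b ≤ 2 * t := by
    obtain ⟨g, hg⟩ := exists_smul_eq G a x₀
    rw [qq_of_sm (sm_smul g a b), hg]
    exact nr_qq (hall _)
  have h3 : n ≤ 2 * t * κ + 1 := by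
    have h4 : qq G a b * (Nb G a b a).card ≤ 2 * t * κ := Nat.mul_le_mul h2 h1
    omega
  nlinarith

end nbr

/-- The bound for a doubly transitive group. -/
theorem main_two [Finite G] [DecidableEq Ω] [IsPretransitive G Ω] (h2 : ∀ a b a' b' : Ω, a ≠ b → a' ≠ b' → Sm G a b a' b') (x : Ω) (T : Finset Ω) (hxT : x ∉ T)
    (hno : ∀ h : G, h • x = x → ∃ s ∈ T, h • s ∈ T) : Fintype.card Ω ≤ T.card ^ 2 + 1 := by
  classical
  haveI : Fintype G := Fintype.ofFinite G
  let A : Finset G := univ.filter fun h => h • x = x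
  let c : Ω → Ω → Finset G := fun s w => A.filter fun h => h • s = w
  have hA1 : (1 : G) ∈ A := by simp [A]
  have hmemc : ∀ s w h, h ∈ c s w ↔ (h • x = x ∧ h • s = w) := by
    intro s w h
    simp [c, A]
  have hstab : ∀ s w, s ≠ x → w ≠ x → ∃ k : G, k • x = x ∧ k • s = w := by
    intro s w hs hw
    obtain ⟨k, h3, h4⟩ := h2 x s x w hs.symm hw.symm
    exact ⟨k, h3, h4⟩
  have hconst : ∀ s w s' w', s ≠ x → w ≠ x → s' ≠ x → w' ≠ x → (c s w).card = (c s' w').card := by
    intro s w s' w' hs hw hs' hw'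
    obtain ⟨k₁, hk₁, hk₁'⟩ := hstab s' s hs' hs
    obtain ⟨k₂, hk₂, hk₂'⟩ := hstab w w' hw hw'
    refine Finset.card_bij (fun h _ => k₂ * h * k₁) ?_ ?_ ?_
    · intro h hh
      rw [hmemc] at hh ⊢
      refine ⟨?_, ?_⟩
      · rw [mul_smul, mul_smul, hk₁, hh.1, hk₂]
      · rw [mul_smul, mul_smul, hk₁', hh.2, hk₂']
    · intro a _ b _ hab
      have h5 : k₂ * a * k₁ = k₂ * b * k₁ := hab
      exact mul_left_cancel (mul_right_cancel h5)
    · intro h hh
      rw [hmemc] at hh
      refine ⟨k₂⁻¹ * h * k₁⁻¹, ?_, by simp [mul_assoc]⟩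
      rw [hmemc]
      have e1 : k₁⁻¹ • x = x := by rw [inv_smul_eq_iff, hk₁]
      have e2 : k₁⁻¹ • s = s' := by rw [inv_smul_eq_iff, hk₁']
      have e3 : k₂⁻¹ • x = x := by rw [inv_smul_eq_iff, hk₂]
      have e4 : k₂⁻¹ • w' = w := by rw [inv_smul_eq_iff, hk₂']
      refine ⟨?_, ?_⟩
      · rw [mul_smul, mul_smul, e1, hh.1, e3]
      · rw [mul_smul, mul_smul, e2, hh.2, e4]
  obtain ⟨s₀, hs₀, -⟩ := hno 1 (one_smul _ _)
  have hs₀x : s₀ ≠ x := fun h => hxT (h ▸ hs₀)
  set C := (c s₀ s₀).card with hC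
  have hA : A.card = (Fintype.card Ω - 1) * C := by
    have h1 : A.card = ∑ w ∈ univ.erase x, (c s₀ w).card := by
      apply Finset.card_eq_sum_card_fiberwise
      intro h hh
      have hh' : h • x = x := by simpa [A] using hh
      simp only [Finset.coe_erase, Finset.coe_univ, Set.mem_diff, Set.mem_univ, Set.mem_singleton_iff, true_and]
      intro h3
      apply hs₀x
      apply smul_left_cancel h
      rw [h3, hh']
    rw [h1, Finset.sum_congr rfl (fun w hw => hconst s₀ w s₀ s₀ hs₀x (Finset.ne_of_mem_erase hw) hs₀x hs₀x), Finset.sum_const, smul_eq_mul,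
      Finset.card_erase_of_mem (Finset.mem_univ _), Finset.card_univ]
  have hA2 : A.card ≤ T.card * T.card * C := by
    have h1 : A ⊆ T.biUnion (fun s => T.biUnion (fun w => c s w)) := by
      intro h hh
      have hh' : h • x = x := by simpa [A] using hh
      obtain ⟨s, hs, hs'⟩ := hno h hh'
      rw [Finset.mem_biUnion]
      refine ⟨s, hs, ?_⟩
      rw [Finset.mem_biUnion]
      exact ⟨_, hs', (hmemc s _ h).mpr ⟨hh', rfl⟩⟩
    refine le_trans (Finset.card_le_card h1) (le_trans Finset.card_biUnion_le ?_)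
    have h2' : ∀ s ∈ T, (T.biUnion (fun w => c s w)).card ≤ T.card * C := by
      intro s hs
      refine le_trans Finset.card_biUnion_le ?_
      have h3 : ∀ w ∈ T, (c s w).card ≤ C := by
        intro w hw
        rw [hC, hconst s w s₀ s₀ (fun h => hxT (h ▸ hs)) (fun h => hxT (h ▸ hw)) hs₀x hs₀x]
      have := Finset.sum_le_card_nsmul T _ C h3
      simpa using this
    have := Finset.sum_le_card_nsmul T _ (T.card * C) h2'
    simpa [mul_assoc] using this
  have hApos : 0 < A.card := Finset.card_pos.mpr ⟨1, hA1⟩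
  have hCpos : 0 < C := by
    rcases Nat.eq_zero_or_pos C with h | h
    · rw [hA, h] at hApos
      simp at hApos
    · exact h
  rw [hA] at hA2
  have h3 : Fintype.card Ω - 1 ≤ T.card * T.card := Nat.le_of_mul_le_mul_right hA2 hCpos
  rw [sq]
  omega

end core

section final

variable {G Ω : Type*} [Group G] [Finite G] [MulAction G Ω] [FaithfulSMul G Ω] [Fintype Ω] [DecidableEq Ω]

/-- The minimal degree bound in terms of natural numbers. -/
theorem main_bound (hprim : IsPreprimitive G Ω) (hA : ¬ alternatingGroup Ω ≤ (toPermHom G Ω).range) (g : G) (hg : g ≠ 1) :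
    Fintype.card Ω ≤ (2 * (univ.filter fun z : Ω => g • z ≠ z).card + 1) ^ 2 := by
  classical
  set S : Finset Ω := univ.filter fun z : Ω => g • z ≠ z with hS
  have hmemS : ∀ z, z ∈ S ↔ g • z ≠ z := by
    intro z
    simp [hS]
  obtain ⟨x, hx⟩ : ∃ x : Ω, g • x ≠ x := by
    by_contra hcon
    push Not at hcon
    apply hg
    apply eq_of_smul_eq_smul (α := Ω)
    intro z
    rw [hcon, one_smul]
  by_cases h2 : ∀ a b a' b' : Ω, a ≠ b → a' ≠ b' → Sm G a b a' b'
  · -- the doubly transitive case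
    have hno : ∀ h : G, h • x = x → ∃ s ∈ S.erase x, h • s ∈ S.erase x := by
      by_contra hcon
      push Not at hcon
      obtain ⟨h, hh, hdis⟩ := hcon
      apply hA
      let σ : Perm Ω := toPermHom G Ω g
      let τ : Perm Ω := toPermHom G Ω (h * g * h⁻¹)
      have hσ : ∀ z, σ z = g • z := fun z => rfl
      have hτ : ∀ z, τ z = (h * g * h⁻¹) • z := fun z => rfl
      have hthree : (σ * τ * σ⁻¹ * τ⁻¹).IsThreeCycle := by
        apply isThreeCycle_commutator σ τ x
        · intro z hz1 hz2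
          rw [hσ] at hz1
          rw [hτ, mul_smul, mul_smul] at hz2
          have hz3 : g • (h⁻¹ • z) ≠ h⁻¹ • z := by
            intro h3
            apply hz2
            rw [h3, smul_inv_smul]
          by_contra hzx
          have hs : h⁻¹ • z ∈ S.erase x := by
            rw [Finset.mem_erase, hmemS]
            refine ⟨?_, hz3⟩
            intro h3
            apply hzx
            rw [inv_smul_eq_iff, hh] at h3
            exact h3
          apply hdis _ hs
          rw [smul_inv_smul, Finset.mem_erase, hmemS]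
          exact ⟨hzx, hz1⟩
        · exact hx
        · rw [hτ, mul_smul, mul_smul]
          have e1 : h⁻¹ • x = x := by rw [inv_smul_eq_iff, hh]
          rw [e1]
          intro h3
          apply hx
          apply smul_left_cancel h
          rw [h3, hh]
      have hmem : σ * τ * σ⁻¹ * τ⁻¹ ∈ (toPermHom G Ω).range := by
        refine ⟨g * (h * g * h⁻¹) * g⁻¹ * (h * g * h⁻¹)⁻¹, ?_⟩
        simp only [σ, τ, map_mul, map_inv]
      have hP : IsPreprimitive (toPermHom G Ω).range Ω := by
        let f : Ω →ₑ[(toPermHom G Ω).rangeRestrict] Ω :=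
          { toFun := id
            map_smul' := fun _ _ => rfl }
        exact IsPreprimitive.of_surjective (f := f) Function.surjective_id
      exact Equiv.Perm.alternatingGroup_le_of_isPreprimitive_of_isThreeCycle_mem hP hthree hmem
    haveI : IsPretransitive G Ω := hprim.toIsPretransitive
    have h3 := main_two (G := G) h2 x (S.erase x) (Finset.notMem_erase _ _) hno
    have h4 : (S.erase x).card ≤ S.card := Finset.card_le_card (Finset.erase_subset _ _)
    nlinarith
  · -- the other case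
    have hxy : x ≠ g • x := fun h => hx h.symm
    have hnot : ∃ a b : Ω, a ≠ b ∧ ¬ Sm G x (g • x) a b := by
      by_contra hcon
      push Not at hcon
      apply h2
      intro a b a' b' hab hab'
      exact (hcon a b hab).symm.trans (hcon a' b' hab')
    have h3 := main_uni (G := G) hxy hnot
    have h4 : qq G x (g • x) ≤ S.card := by
      apply Finset.card_le_card
      intro z hz
      rw [mem_SS] at hz
      rw [hmemS]
      intro h5
      apply hz
      refine ⟨g, h5, rfl⟩
    refine le_trans h3 ?_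
    exact Nat.pow_le_pow_left (by omega) 2

end final

end Cfsg.Agent.Lib.ClassMax.MinDeg
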