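import Mathlib

/-! The Singer group of multiplications `Kˣ → GL_F(K)`, its centraliser and normaliser. -/

set_option autoImplicit false

namespace Cfsg.Agent.Lib.ClassMax

variable {F K : Type*} [Field F] [Field K] [Algebra F K]

variable (F) in
/-- The Singer homomorphism `c ↦ (x ↦ c x)`. -/
abbrev singerHom : Kˣ →* (Module.End F K)ˣ :=
  Units.map ((Algebra.lmul F K : K →ₐ[F] Module.End F K) : K →* Module.End F K)

theorem singerHom_apply (c : Kˣ) (x : K) :
    ((singerHom F c : (Module.End F K)ˣ) : Module.End F K) x = (c : K) * x := rfl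

theorem singerHom_inv_apply (c : Kˣ) (x : K) :
    (((singerHom F c)⁻¹ : (Module.End F K)ˣ) : Module.End F K) x = ((c⁻¹ : Kˣ) : K) * x := by
  rw [← map_inv]; rfl

/-- `u(1)` as a unit of `K`. -/
noncomputable def unitOne (u : (Module.End F K)ˣ) : Kˣ :=
  Units.mk0 ((u : Module.End F K) 1) (by
    intro h
    have h1 : ((u⁻¹ : (Module.End F K)ˣ) : Module.End F K) ((u : Module.End F K) 1) = 1 := by
      rw [← Module.End.mul_apply, ← Units.val_mul, inv_mul_cancel]; rfl
    rw [h, map_zero] at h1
    exact zero_ne_one h1)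

@[simp] theorem unitOne_val (u : (Module.End F K)ˣ) : ((unitOne u : Kˣ) : K) = (u : Module.End F K) 1 := rfl

theorem units_end_ext {u v : (Module.End F K)ˣ}
    (h : ∀ x : K, (u : Module.End F K) x = (v : Module.End F K) x) : u = v :=
  Units.ext (LinearMap.ext h)

theorem mul_apply_units (u v : (Module.End F K)ˣ) (x : K) :
    ((u * v : (Module.End F K)ˣ) : Module.End F K) x =
      (u : Module.End F K) ((v : Module.End F K) x) := rfl

/-- The Singer group is abelian. -/
theorem singerHom_comm (c d : Kˣ) : singerHom F c * singerHom F d = singerHom F d * singerHom F c := by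
  rw [← map_mul, ← map_mul, mul_comm]

/-- A unit commuting with the Singer group lies in it. -/
theorem mem_singer_range_of_comm (u : (Module.End F K)ˣ)
    (h : ∀ c : Kˣ, singerHom F c * u = u * singerHom F c) : u ∈ (singerHom F (K := K)).range := by
  refine ⟨unitOne u, units_end_ext fun x => ?_⟩
  rw [singerHom_apply, unitOne_val]
  by_cases hx : x = 0
  · simp [hx]
  · have h1 := congrArg (fun w : (Module.End F K)ˣ => (w : Module.End F K) 1) (h (Units.mk0 x hx))
    simp only [mul_apply_units, singerHom_apply, Units.val_mk0, mul_one] at h1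
    rw [← h1, mul_comm]

theorem centralizer_singer :
    Subgroup.centralizer ((singerHom F (K := K)).range : Set (Module.End F K)ˣ) = (singerHom F (K := K)).range := by
  apply le_antisymm
  · intro u hu
    refine mem_singer_range_of_comm u fun c => ?_
    exact (Subgroup.mem_centralizer_iff.mp hu _ ⟨c, rfl⟩)
  · rintro _ ⟨c, rfl⟩
    rw [Subgroup.mem_centralizer_iff]
    rintro _ ⟨d, rfl⟩
    exact singerHom_comm d c

/-- The element of `GL_F(K)` given by a field automorphism. -/
def galUnit (σ : K ≃ₐ[F] K) : (Module.End F K)ˣ :=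
  LinearMap.GeneralLinearGroup.ofLinearEquiv σ.toLinearEquiv

@[simp] theorem galUnit_apply (σ : K ≃ₐ[F] K) (x : K) :
    ((galUnit σ : (Module.End F K)ˣ) : Module.End F K) x = σ x := rfl

/-- The semilinear map `x ↦ a σ(x)`. -/
def semi (p : Kˣ × (K ≃ₐ[F] K)) : (Module.End F K)ˣ := singerHom F p.1 * galUnit p.2

theorem semi_apply (p : Kˣ × (K ≃ₐ[F] K)) (x : K) :
    ((semi p : (Module.End F K)ˣ) : Module.End F K) x = (p.1 : K) * p.2 x := rfl

theorem semi_mul_singer (p : Kˣ × (K ≃ₐ[F] K)) (c : Kˣ) :
    semi p * singerHom F c = singerHom F (Units.map (p.2 : K →* K) c) * semi p := by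
  refine units_end_ext fun x => ?_
  show (p.1 : K) * p.2 ((c : K) * x) = p.2 (c : K) * ((p.1 : K) * p.2 x)
  rw [map_mul]
  ring

theorem semi_mem_normalizer (p : Kˣ × (K ≃ₐ[F] K)) :
    semi p ∈ Subgroup.normalizer ((singerHom F (K := K)).range : Set (Module.End F K)ˣ) := by
  rw [Subgroup.mem_normalizer_iff]
  intro h
  constructor
  · rintro ⟨c, rfl⟩
    refine ⟨Units.map (p.2 : K →* K) c, ?_⟩
    rw [semi_mul_singer, mul_inv_cancel_right]
  · rintro ⟨d, hd⟩
    refine ⟨Units.map (p.2.symm : K →* K) d, ?_⟩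
    have h1 : semi p * h = singerHom F d * semi p := by
      rw [hd]; group
    have h2 : semi p * singerHom F (Units.map (p.2.symm : K →* K) d) = singerHom F d * semi p := by
      rw [semi_mul_singer]
      congr 2
      ext
      simp
    exact mul_left_cancel (h2.trans h1.symm)

theorem semi_injective : Function.Injective (semi (F := F) (K := K)) := by
  rintro ⟨a, σ⟩ ⟨b, τ⟩ h
  have h1 : ∀ x, (a : K) * σ x = (b : K) * τ x := fun x => by
    have := congrArg (fun w : (Module.End F K)ˣ => (w : Module.End F K) x) h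
    simpa only [semi_apply] using this
  have hab : a = b := by
    have := h1 1
    simp only [map_one, mul_one] at this
    exact Units.ext this
  subst hab
  have : σ = τ := by
    ext x
    exact mul_left_cancel₀ a.ne_zero (h1 x)
  subst this
  rfl

/-- Every element of the normaliser is semilinear. -/
theorem exists_semi_of_mem_normalizer [Finite K] (u : (Module.End F K)ˣ)
    (hu : u ∈ Subgroup.normalizer ((singerHom F (K := K)).range : Set (Module.End F K)ˣ)) :
    ∃ p, semi p = u := by
  classical
  rw [Subgroup.mem_normalizer_iff] at hu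
  set a : K := (u : Module.End F K) 1 with ha
  have ha0 : a ≠ 0 := (unitOne u).ne_zero
  -- the relation `u (c x) = τ(c) u(x)`
  have hrel : ∀ c x : K, (u : Module.End F K) (c * x) = a⁻¹ * (u : Module.End F K) c * (u : Module.End F K) x := by
    intro c x
    by_cases hc : c = 0
    · simp [hc]
    obtain ⟨d, hd⟩ := (hu (singerHom F (Units.mk0 c hc))).mp ⟨Units.mk0 c hc, rfl⟩
    have hd' : singerHom F d * u = u * singerHom F (Units.mk0 c hc) := by
      rw [hd]; group
    have h1 : ∀ y, (d : K) * (u : Module.End F K) y = (u : Module.End F K) (c * y) := fun y => by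
      have := congrArg (fun w : (Module.End F K)ˣ => (w : Module.End F K) y) hd'
      simpa only [mul_apply_units, singerHom_apply, Units.val_mk0] using this
    have h2 := h1 1
    rw [mul_one, ← ha] at h2
    rw [← h1 x, ← h2]
    field_simp
  -- the algebra hom
  let L : K →ₗ[F] K := (Algebra.lmul F K a⁻¹).comp (u : Module.End F K)
  have hL : ∀ x, L x = a⁻¹ * (u : Module.End F K) x := fun x => rfl
  let A : K →ₐ[F] K := AlgHom.ofLinearMap L (by rw [hL, ← ha]; field_simp) (by
    intro x y
    rw [hL, hL, hL, hrel]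
    ring)
  have hA : ∀ x, A x = a⁻¹ * (u : Module.End F K) x := fun x => rfl
  have hinj : Function.Injective A := A.toRingHom.injective
  let σ : K ≃ₐ[F] K := AlgEquiv.ofBijective A ⟨hinj, Finite.injective_iff_surjective.mp hinj⟩
  refine ⟨(unitOne u, σ), units_end_ext fun x => ?_⟩
  rw [semi_apply, unitOne_val, ← ha]
  show a * A x = _
  rw [hA]
  field_simp

/-- The normaliser of the Singer group as a set of pairs. -/
noncomputable def normalizerEquiv [Finite K] :
    Kˣ × (K ≃ₐ[F] K) ≃ Subgroup.normalizer ((singerHom F (K := K)).range : Set (Module.End F K)ˣ) :=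
  Equiv.ofBijective (fun p => ⟨semi p, semi_mem_normalizer p⟩)
    ⟨fun _ _ h => semi_injective (Subtype.ext_iff.mp h), fun ⟨u, hu⟩ => by
      obtain ⟨p, hp⟩ := exists_semi_of_mem_normalizer u hu
      exact ⟨p, Subtype.ext hp⟩⟩

/-- The subalgebra of `K` of the `x` with `m_x g = g m_y` for some `y`, i.e. `m_x ∈ g A g⁻¹`, where `A` is
the image of `K` in `End`. -/
def conjSubalgebra (g : (Module.End F K)ˣ) : Subalgebra F K where
  carrier := {x | ∃ y : K, ∀ z : K, x * (g : Module.End F K) z = (g : Module.End F K) (y * z)}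
  mul_mem' := by
    rintro a b ⟨y₁, h₁⟩ ⟨y₂, h₂⟩
    refine ⟨y₁ * y₂, fun z => ?_⟩
    rw [mul_assoc, h₂, h₁, mul_assoc]
  add_mem' := by
    rintro a b ⟨y₁, h₁⟩ ⟨y₂, h₂⟩
    refine ⟨y₁ + y₂, fun z => ?_⟩
    rw [add_mul, add_mul, map_add, h₁, h₂]
  algebraMap_mem' := by
    intro r
    refine ⟨algebraMap F K r, fun z => ?_⟩
    rw [← Algebra.smul_def, ← Algebra.smul_def, map_smul]

theorem mem_conjSubalgebra {g : (Module.End F K)ˣ} {x : K} :
    x ∈ conjSubalgebra g ↔ ∃ y : K, ∀ z : K, x * (g : Module.End F K) z = (g : Module.End F K) (y * z) :=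
  Iff.rfl

end Cfsg.Agent.Lib.ClassMax
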