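import Mathlib

/-!
# Subgroups of index `n` of the symmetric group of degree `n`

An isomorphism of symmetric groups carrying swaps to swaps comes from a bijection of the
underlying sets; class sizes show that away from degree six swaps go to swaps.
-/

set_option autoImplicit false

namespace Cfsg.Agent.Lib.ClassMax.SymAut

open Equiv Equiv.Perm Finset

variable {Ω X : Type*} [DecidableEq Ω] [DecidableEq X]

lemma swap_ne_iff {u v x : X} (huv : u ≠ v) : swap u v x ≠ x ↔ x = u ∨ x = v := by
  constructor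
  · intro h
    by_contra hc
    push Not at hc
    exact h (swap_apply_of_ne_of_ne hc.1 hc.2)
  · rintro (rfl | rfl)
    · simpa using huv.symm
    · simpa using huv

lemma share_of_ne_comm {u v r s : X} (h : swap u v * swap r s ≠ swap r s * swap u v) :
    u = r ∨ u = s ∨ v = r ∨ v = s := by
  by_contra hc
  push Not at hc
  obtain ⟨h1, h2, h3, h4⟩ := hc
  apply h
  have hd : Equiv.Perm.Disjoint (swap u v) (swap r s) := by
    intro x
    by_cases hxu : x = u
    · right; subst hxu; exact swap_apply_of_ne_of_ne h1 h2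
    · by_cases hxv : x = v
      · right; subst hxv; exact swap_apply_of_ne_of_ne h3 h4
      · left; exact swap_apply_of_ne_of_ne hxu hxv
  exact hd.commute

lemma sq_triangle {u v w : X} (huv : u ≠ v) (huw : u ≠ w) (hvw : v ≠ w) :
    (swap u v * swap u w * swap v w) ^ 2 = 1 := by
  have h : swap u v * swap u w * swap v w = swap u w := by
    ext x
    simp only [Perm.coe_mul, Function.comp_apply, swap_apply_def]
    split_ifs <;> simp_all
  rw [h, pow_two, swap_mul_self]

section center

variable (θ : Perm Ω →* Perm X) (hinj : Function.Injective θ)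
  (hsw : ∀ a b : Ω, a ≠ b → ∃ u v : X, u ≠ v ∧ θ (swap a b) = swap u v)

include hinj in
lemma not_comm_swaps {a b c : Ω} (hb : b ≠ a) (hc : c ≠ a) (hbc : b ≠ c) :
    θ (swap a b) * θ (swap a c) ≠ θ (swap a c) * θ (swap a b) := by
  intro h
  rw [← map_mul, ← map_mul] at h
  have h2 := congrArg (fun g : Perm Ω => g a) (hinj h)
  simp only [Perm.coe_mul, Function.comp_apply, swap_apply_left] at h2
  rw [swap_apply_of_ne_of_ne hc.symm.symm (Ne.symm hbc), swap_apply_of_ne_of_ne hb hbc] at h2
  exact hbc h2.symm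

include hinj in
lemma image_ne {a b c : Ω} (hbc : b ≠ c) : θ (swap a b) ≠ θ (swap a c) := by
  intro h
  have h2 := congrArg (fun g : Perm Ω => g a) (hinj h)
  simp only [swap_apply_left] at h2
  exact hbc h2

include hinj hsw in
lemma exists_triple {a b c : Ω} (hb : b ≠ a) (hc : c ≠ a) (hbc : b ≠ c) :
    ∃ u v w : X, u ≠ v ∧ u ≠ w ∧ v ≠ w ∧ θ (swap a b) = swap u v ∧ θ (swap a c) = swap u w := by
  obtain ⟨u, v, huv, h1⟩ := hsw a b hb.symm
  obtain ⟨p, q, hpq, h2⟩ := hsw a c hc.symm
  have hcomm := not_comm_swaps θ hinj hb hc hbc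
  have hne := image_ne θ hinj (a := a) hbc
  rw [h1, h2] at hcomm hne
  rcases share_of_ne_comm hcomm with rfl | rfl | rfl | rfl
  · refine ⟨u, v, q, huv, hpq, ?_, h1, h2⟩
    rintro rfl; exact hne rfl
  · refine ⟨u, v, p, huv, hpq.symm, ?_, h1, by rw [h2, swap_comm]⟩
    rintro rfl; exact hne (swap_comm _ _)
  · refine ⟨v, u, q, huv.symm, hpq, ?_, by rw [h1, swap_comm], h2⟩
    rintro rfl; exact hne (swap_comm _ _)
  · refine ⟨v, u, p, huv.symm, hpq.symm, ?_, by rw [h1, swap_comm], by rw [h2, swap_comm]⟩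
    rintro rfl; exact hne rfl

include hinj hsw in
theorem exists_center {a b₀ c₀ : Ω} (hb : b₀ ≠ a) (hc : c₀ ≠ a) (hbc : b₀ ≠ c₀) :
    ∃ x, ∀ b, b ≠ a → θ (swap a b) x ≠ x := by
  obtain ⟨u, v, w, huv, huw, hvw, h1, h2⟩ := exists_triple θ hinj hsw hb hc hbc
  refine ⟨u, fun d hd hfix => ?_⟩
  have hdb : d ≠ b₀ := by
    rintro rfl
    rw [h1, swap_apply_left] at hfix
    exact huv hfix.symm
  have hdc : d ≠ c₀ := by
    rintro rfl
    rw [h2, swap_apply_left] at hfix
    exact huw hfix.symm
  obtain ⟨r, s, hrs, h3⟩ := hsw a d hd.symm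
  rw [h3] at hfix
  have hu : ¬ (u = r ∨ u = s) := fun hc => (swap_ne_iff hrs).mpr hc hfix
  push Not at hu
  have s1 := not_comm_swaps θ hinj hd hb hdb
  rw [h3, h1] at s1
  have s1' := share_of_ne_comm s1
  have s2 := not_comm_swaps θ hinj hd hc hdc
  rw [h3, h2] at s2
  have s2' := share_of_ne_comm s2
  have h4 : θ (swap a d) = swap v w := by
    rw [h3]
    rcases s1' with h | h | h | h
    · exact absurd h.symm hu.1
    · rcases s2' with h' | h' | h' | h'
      · exact absurd h'.symm hu.1
      · exact absurd (h.symm.trans h') hvw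
      · exact absurd h'.symm hu.2
      · rw [h, h']
    · exact absurd h.symm hu.2
    · rcases s2' with h' | h' | h' | h'
      · exact absurd h'.symm hu.1
      · rw [h, h', swap_comm]
      · exact absurd h'.symm hu.2
      · exact absurd (h.symm.trans h') hvw
  have hrel : (swap a b₀ * swap a c₀ * swap a d) ^ 2 = 1 := by
    apply hinj
    rw [map_pow, map_mul, map_mul, h1, h2, h4, map_one]
    exact sq_triangle huv huw hvw
  have h5 := congrArg (fun g : Perm Ω => g a) hrel
  simp only [pow_two, Perm.coe_mul, Function.comp_apply, Perm.coe_one, id_eq, swap_apply_left] at h5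
  rw [swap_apply_of_ne_of_ne hd hdc, swap_apply_of_ne_of_ne hd hdb, swap_apply_right,
    swap_apply_left, swap_apply_of_ne_of_ne hc (Ne.symm hbc)] at h5
  exact hc h5

include hinj hsw in
theorem center_unique {a b₀ c₀ : Ω} (hb : b₀ ≠ a) (hc : c₀ ≠ a) (hbc : b₀ ≠ c₀) {x y : X}
    (hx : ∀ b, b ≠ a → θ (swap a b) x ≠ x) (hy : ∀ b, b ≠ a → θ (swap a b) y ≠ y) : x = y := by
  by_contra hxy
  have key : ∀ b, b ≠ a → θ (swap a b) = swap x y := by
    intro b hb'
    obtain ⟨u, v, huv, h⟩ := hsw a b hb'.symm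
    have h1 := hx b hb'
    have h2 := hy b hb'
    rw [h] at h1 h2 ⊢
    rcases (swap_ne_iff huv).mp h1 with rfl | rfl <;> rcases (swap_ne_iff huv).mp h2 with rfl | rfl
    · exact absurd rfl hxy
    · rfl
    · exact swap_comm _ _
    · exact absurd rfl hxy
  exact image_ne θ hinj (a := a) hbc ((key _ hb).trans (key _ hc).symm)

end center

/-- An isomorphism of symmetric groups carrying swaps to swaps is induced by a bijection. -/
theorem exists_equiv [Fintype Ω] [Fintype X] (θ : Perm Ω ≃* Perm X)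
    (hcard : Fintype.card Ω = Fintype.card X) (h3 : 3 ≤ Fintype.card Ω)
    (hsw : ∀ a b : Ω, a ≠ b → ∃ u v : X, u ≠ v ∧ θ (swap a b) = swap u v) :
    ∃ f : Ω ≃ X, ∀ (g : Perm Ω) (a : Ω), f (g a) = θ g (f a) := by
  have hex : ∀ a : Ω, ∃ b c : Ω, b ≠ a ∧ c ≠ a ∧ b ≠ c := by
    intro a
    have : 1 < (univ.erase a).card := by
      rw [card_erase_of_mem (mem_univ _), card_univ]; omega
    obtain ⟨b, hb, c, hc, hbc⟩ := Finset.one_lt_card.mp this
    exact ⟨b, c, (mem_erase.mp hb).1, (mem_erase.mp hc).1, hbc⟩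
  have hinj : Function.Injective (θ.toMonoidHom) := θ.injective
  have hsw' : ∀ a b : Ω, a ≠ b → ∃ u v : X, u ≠ v ∧ θ.toMonoidHom (swap a b) = swap u v := hsw
  have hP : ∀ a : Ω, ∃ x, ∀ b, b ≠ a → θ.toMonoidHom (swap a b) x ≠ x := by
    intro a
    obtain ⟨b, c, hb, hc, hbc⟩ := hex a
    exact exists_center _ hinj hsw' hb hc hbc
  choose f hf using hP
  have hequiv : ∀ (g : Perm Ω) (a : Ω), f (g a) = θ g (f a) := by
    intro g a
    obtain ⟨b, c, hb, hc, hbc⟩ := hex (g a)
    refine center_unique _ hinj hsw' hb hc hbc (hf (g a)) ?_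
    intro d hd hfix
    obtain ⟨d', rfl⟩ : ∃ d', g d' = d := ⟨g⁻¹ d, by simp⟩
    have hd' : d' ≠ a := fun h => hd (by rw [h])
    apply hf a d' hd'
    have h1 : swap (g a) (g d') = g * swap a d' * g⁻¹ := swap_apply_apply g a d'
    rw [h1] at hfix
    have h2 : θ.toMonoidHom (g * swap a d' * g⁻¹) (θ g (f a)) =
        θ g (θ.toMonoidHom (swap a d') (f a)) := by
      simp [map_mul]
    rw [h2] at hfix
    exact (θ g).injective hfix
  have hne : Nonempty Ω := by
    rw [← Fintype.card_pos_iff]; omega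
  obtain ⟨a₀⟩ := hne
  have hsurj : Function.Surjective f := by
    intro x
    refine ⟨(θ.symm (swap (f a₀) x)) a₀, ?_⟩
    rw [hequiv]
    simp
  exact ⟨Equiv.ofBijective f ((Fintype.bijective_iff_surjective_and_card f).mpr ⟨hsurj, hcard⟩),
    hequiv⟩

section counting

variable [Fintype Ω] [Fintype X]

lemma cycleType_iso_iff (θ : Perm Ω ≃* Perm X) (g h : Perm Ω) :
    (θ g).cycleType = (θ h).cycleType ↔ g.cycleType = h.cycleType := by
  rw [← isConj_iff_cycleType_eq, ← isConj_iff_cycleType_eq]
  constructor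
  · intro hc
    have := θ.symm.toMonoidHom.map_isConj hc
    simpa using this
  · exact θ.toMonoidHom.map_isConj

lemma card_class (θ : Perm Ω ≃* Perm X) (g : Perm Ω) :
    #({h | h.cycleType = g.cycleType} : Finset (Perm Ω)) =
      #({h | h.cycleType = (θ g).cycleType} : Finset (Perm X)) := by
  apply Finset.card_equiv θ.toEquiv
  intro h
  simp [cycleType_iso_iff]

lemma card_replicate_mul (k : ℕ) (hk : 1 ≤ k) (hle : 2 * k ≤ Fintype.card X) :
    #({h | h.cycleType = Multiset.replicate k 2} : Finset (Perm X)) *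
      ((Fintype.card X - 2 * k).factorial * 2 ^ k * k.factorial) =
      (Fintype.card X).factorial := by
  have h := card_of_cycleType_mul_eq X (Multiset.replicate k 2)
  have hs : (Multiset.replicate k 2).sum = 2 * k := by simp [mul_comm]
  have hc : ∀ a ∈ Multiset.replicate k 2, 2 ≤ a := by
    intro a ha; rw [Multiset.eq_of_mem_replicate ha]
  rw [if_pos ⟨by rw [hs]; exact hle, hc⟩, hs] at h
  have hp : (Multiset.replicate k 2).prod = 2 ^ k := by simp
  have ht : (Multiset.replicate k 2).toFinset = {2} := by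
    ext a
    simp only [Multiset.mem_toFinset, Multiset.mem_replicate, mem_singleton]
    constructor
    · exact fun h => h.2
    · exact fun h => ⟨by omega, h⟩
  rw [hp, ht, Finset.prod_singleton, Multiset.count_replicate_self] at h
  exact h

lemma key_ineq (r : ℕ) (hr : 1 ≤ r) (j : ℕ) (hj : 1 ≤ j) :
    r.factorial * 2 ^ j * (j + 1).factorial < (2 * j + r).factorial := by
  induction j, hj using Nat.le_induction with
  | base =>
    have h : (2 * 1 + r).factorial = (r + 2) * (r + 1) * r.factorial := by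
      rw [show 2 * 1 + r = r + 2 by ring, Nat.factorial_succ, Nat.factorial_succ]; ring
    rw [h]
    have hp := Nat.factorial_pos r
    have : 4 < (r + 2) * (r + 1) := by nlinarith
    calc r.factorial * 2 ^ 1 * (1 + 1).factorial = 4 * r.factorial := by
          simp [Nat.factorial]; ring
      _ < _ := by nlinarith
  | succ j hj ih =>
    have h : (2 * (j + 1) + r).factorial = (2 * j + r + 2) * (2 * j + r + 1) * (2 * j + r).factorial := by
      rw [show 2 * (j + 1) + r = (2 * j + r) + 2 by ring, Nat.factorial_succ, Nat.factorial_succ]; ring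
    have h2 : r.factorial * 2 ^ (j + 1) * (j + 1 + 1).factorial =
        (r.factorial * 2 ^ j * (j + 1).factorial) * (2 * (j + 2)) := by
      rw [Nat.factorial_succ (j + 1)]; ring
    rw [h, h2]
    have : 2 * (j + 2) ≤ (2 * j + r + 2) * (2 * j + r + 1) := by nlinarith
    calc (r.factorial * 2 ^ j * (j + 1).factorial) * (2 * (j + 2))
        < (2 * j + r).factorial * (2 * (j + 2)) :=
          Nat.mul_lt_mul_of_pos_right ih (by omega)
      _ ≤ (2 * j + r).factorial * ((2 * j + r + 2) * (2 * j + r + 1)) :=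
          Nat.mul_le_mul_left _ this
      _ = _ := by ring

lemma key_ineq0 (j : ℕ) (hj : 3 ≤ j) :
    2 ^ j * (j + 1).factorial < (2 * j).factorial := by
  induction j, hj using Nat.le_induction with
  | base => decide
  | succ j hj ih =>
    have h : (2 * (j + 1)).factorial = (2 * j + 2) * (2 * j + 1) * (2 * j).factorial := by
      rw [show 2 * (j + 1) = (2 * j) + 2 by ring, Nat.factorial_succ, Nat.factorial_succ]; ring
    have h2 : 2 ^ (j + 1) * (j + 1 + 1).factorial =
        (2 ^ j * (j + 1).factorial) * (2 * (j + 2)) := by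
      rw [Nat.factorial_succ (j + 1)]; ring
    rw [h, h2]
    have : 2 * (j + 2) ≤ (2 * j + 2) * (2 * j + 1) := by nlinarith
    calc (2 ^ j * (j + 1).factorial) * (2 * (j + 2))
        < (2 * j).factorial * (2 * (j + 2)) :=
          Nat.mul_lt_mul_of_pos_right ih (by omega)
      _ ≤ (2 * j).factorial * ((2 * j + 2) * (2 * j + 1)) :=
          Nat.mul_le_mul_left _ this
      _ = _ := by ring

/-- The image of a swap under an isomorphism of symmetric groups of degree at least five is a
swap, except in degree six where it may be a product of three disjoint swaps. -/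
theorem swap_image (θ : Perm Ω ≃* Perm X) (hcard : Fintype.card Ω = Fintype.card X)
    (h5 : 5 ≤ Fintype.card Ω) {a b : Ω} (hab : a ≠ b) :
    (θ (swap a b)).cycleType = {2} ∨
      (Fintype.card Ω = 6 ∧ (θ (swap a b)).cycleType = Multiset.replicate 3 2) := by
  set τ := θ (swap a b) with hτ
  have hτ2 : τ ^ 2 = 1 := by
    rw [hτ, ← map_pow, pow_two, swap_mul_self, map_one]
  haveI : Fact (Nat.Prime 2) := ⟨Nat.prime_two⟩
  have hrep := cycleType_of_pow_prime_eq_one hτ2
  obtain ⟨c, hc⟩ : ∃ c, c = Multiset.card τ.cycleType := ⟨_, rfl⟩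
  rw [← hc] at hrep
  have hτ1 : τ ≠ 1 := by
    rw [hτ]
    intro h
    have : swap a b = 1 := θ.injective (by rw [h, map_one])
    have h2 := congrArg (fun g : Perm Ω => g a) this
    simp only [swap_apply_left, Perm.coe_one, id_eq] at h2
    exact hab h2.symm
  have hc1 : 1 ≤ c := by
    rw [hc]; exact card_cycleType_pos.mpr hτ1
  have hsum : 2 * c ≤ Fintype.card X := by
    have := sum_cycleType_le τ
    rw [hrep] at this
    simpa [mul_comm] using this
  have hsw : (swap a b).cycleType = {2} := isSwap_iff_cycleType.mp ⟨a, b, hab, rfl⟩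
  have hcl := card_class θ (swap a b)
  rw [hsw, ← hτ, hrep] at hcl
  have h1 := card_replicate_mul (X := Ω) 1 le_rfl (by omega)
  have h2 := card_replicate_mul (X := X) c hc1 hsum
  have hrep1 : Multiset.replicate 1 2 = ({2} : Multiset ℕ) := by simp
  rw [hrep1, hcl, hcard] at h1
  have hNpos : 0 < #({h | h.cycleType = Multiset.replicate c 2} : Finset (Perm X)) := by
    rw [Nat.pos_iff_ne_zero]
    intro h0
    rw [h0, zero_mul] at h2
    exact (Nat.factorial_ne_zero _) h2.symm
  have h3 : (Fintype.card X - 2 * 1).factorial * 2 ^ 1 * Nat.factorial 1 =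
      (Fintype.card X - 2 * c).factorial * 2 ^ c * c.factorial :=
    Nat.eq_of_mul_eq_mul_left hNpos (h1.trans h2.symm)
  by_cases hc11 : c = 1
  · left
    rw [hrep, hc11]; simp
  · right
    obtain ⟨j, rfl⟩ : ∃ j, c = j + 1 := ⟨c - 1, by omega⟩
    have hj : 1 ≤ j := by omega
    obtain ⟨r, hr⟩ : ∃ r, r = Fintype.card X - 2 * (j + 1) := ⟨_, rfl⟩
    have hn : Fintype.card X = 2 * j + r + 2 := by omega
    rw [← hr, hn, show 2 * j + r + 2 - 2 * 1 = 2 * j + r by omega] at h3
    have h4 : (2 * j + r).factorial = r.factorial * 2 ^ j * (j + 1).factorial := by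
      have : (2 * j + r).factorial * 2 = (r.factorial * 2 ^ j * (j + 1).factorial) * 2 := by
        simp only [pow_one, Nat.factorial_one, mul_one] at h3
        rw [h3]; ring
      exact Nat.eq_of_mul_eq_mul_right (by norm_num) this
    rcases Nat.eq_zero_or_pos r with hr0 | hrpos
    · subst hr0
      simp only [Nat.factorial_zero, one_mul, add_zero] at h4
      by_cases hj3 : 3 ≤ j
      · have := key_ineq0 j hj3
        omega
      · have hj2 : j = 1 ∨ j = 2 := by omega
        rcases hj2 with rfl | rfl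
        · omega
        · refine ⟨by omega, ?_⟩
          rw [hrep, hc]
          rw [← hc]
    · have := key_ineq r hrpos j hj
      omega

/-- A swap is sent to a swap when its image has the cycle type of a swap. -/
lemma exists_swap_of_cycleType {τ : Perm X} (h : τ.cycleType = {2}) :
    ∃ u v : X, u ≠ v ∧ τ = swap u v := isSwap_iff_cycleType.mpr h

/-- Either all swaps are sent to swaps or all swaps are sent to products of three swaps. -/
theorem swap_dichotomy (θ : Perm Ω ≃* Perm X) (hcard : Fintype.card Ω = Fintype.card X)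
    (h5 : 5 ≤ Fintype.card Ω) :
    (∀ a b : Ω, a ≠ b → ∃ u v : X, u ≠ v ∧ θ (swap a b) = swap u v) ∨
      (Fintype.card Ω = 6 ∧ ∀ a b : Ω, a ≠ b →
        (θ (swap a b)).cycleType = Multiset.replicate 3 2) := by
  by_cases h : ∀ a b : Ω, a ≠ b → (θ (swap a b)).cycleType = {2}
  · left
    exact fun a b hab => exists_swap_of_cycleType (h a b hab)
  · right
    push Not at h
    obtain ⟨a, b, hab, hne⟩ := h
    have h6 := (swap_image θ hcard h5 hab).resolve_left hne
    refine ⟨h6.1, fun c d hcd => ?_⟩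
    rw [← h6.2]
    exact (cycleType_iso_iff θ _ _).mpr (isConj_iff_cycleType_eq.mp (isConj_swap hcd hab))

/-- The action on the cosets of a subgroup of index `n ≥ 5` of `S_n` is an isomorphism. -/
theorem exists_coset_iso (H : Subgroup (Perm Ω)) [Fintype (Perm Ω ⧸ H)]
    [DecidableEq (Perm Ω ⧸ H)] (hH : H.index = Fintype.card Ω)
    (h5 : 5 ≤ Fintype.card Ω) :
    ∃ θ : Perm Ω ≃* Perm (Perm Ω ⧸ H), ∀ (g : Perm Ω) (x : Perm Ω ⧸ H), θ g x = g • x := by
  have hi : Fintype.card (Perm Ω ⧸ H) = Fintype.card Ω := by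
    rw [← hH, Subgroup.index, Nat.card_eq_fintype_card]
  have hN : H.normalCore = ⊥ := by
    by_contra hN
    have hle : alternatingGroup Ω ≤ H.normalCore := by
      apply Equiv.Perm.alternatingGroup_le_of_normal (by simpa using h5)
      rw [Subgroup.nontrivial_iff_ne_bot]
      exact hN
    have hle2 : alternatingGroup Ω ≤ H := hle.trans (Subgroup.normalCore_le H)
    have hnt : Nontrivial Ω := Fintype.one_lt_card_iff_nontrivial.mp (by omega)
    have hdvd := Subgroup.index_dvd_of_le hle2
    rw [alternatingGroup.index_eq_two, hH] at hdvd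
    have := Nat.le_of_dvd (by norm_num) hdvd
    omega
  have hinj : Function.Injective (MulAction.toPermHom (Perm Ω) (Perm Ω ⧸ H)) := by
    rw [← MonoidHom.ker_eq_bot_iff, ← Subgroup.normalCore_eq_ker, hN]
  have hbij : Function.Bijective (MulAction.toPermHom (Perm Ω) (Perm Ω ⧸ H)) := by
    rw [Fintype.bijective_iff_injective_and_card]
    refine ⟨hinj, ?_⟩
    rw [Fintype.card_perm, Fintype.card_perm, hi]
  exact ⟨MulEquiv.ofBijective _ hbij, fun g x => rfl⟩

/-- If the coset action sends swaps to swaps then the subgroup is a point stabilizer. -/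
theorem eq_stabilizer_of_swaps (H : Subgroup (Perm Ω)) [Fintype (Perm Ω ⧸ H)]
    [DecidableEq (Perm Ω ⧸ H)] (hH : H.index = Fintype.card Ω)
    (h3 : 3 ≤ Fintype.card Ω) (θ : Perm Ω ≃* Perm (Perm Ω ⧸ H))
    (hθ : ∀ (g : Perm Ω) (x : Perm Ω ⧸ H), θ g x = g • x)
    (hsw : ∀ a b : Ω, a ≠ b → ∃ u v : Perm Ω ⧸ H, u ≠ v ∧ θ (swap a b) = swap u v) :
    ∃ x : Ω, H = MulAction.stabilizer (Perm Ω) x := by
  have hi : Fintype.card (Perm Ω ⧸ H) = Fintype.card Ω := by
    rw [← hH, Subgroup.index, Nat.card_eq_fintype_card]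
  obtain ⟨f, hf⟩ := exists_equiv θ hi.symm h3 hsw
  refine ⟨f.symm (QuotientGroup.mk 1), ?_⟩
  ext g
  rw [MulAction.mem_stabilizer_iff]
  constructor
  · intro hg
    apply f.injective
    change f (g _) = _
    rw [hf, f.apply_symm_apply, hθ]
    rw [MulAction.Quotient.smul_mk]
    simp only [smul_eq_mul, mul_one]
    exact QuotientGroup.eq.mpr (by simpa using H.inv_mem hg)
  · intro hg
    have h1 : f (g (f.symm (QuotientGroup.mk 1))) = f (f.symm (QuotientGroup.mk 1)) :=
      congrArg f hg
    rw [hf, f.apply_symm_apply, hθ, MulAction.Quotient.smul_mk] at h1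
    simp only [smul_eq_mul, mul_one] at h1
    have := QuotientGroup.eq.mp h1
    simpa using H.inv_mem this

/-- Uniqueness of the exotic class in degree six: two isomorphisms sending swaps to products of
three swaps differ by a bijection. -/
theorem exists_equiv_of_exotic {X₂ : Type*} [DecidableEq X₂] [Fintype X₂]
    (θ₁ : Perm Ω ≃* Perm X) (θ₂ : Perm Ω ≃* Perm X₂)
    (h6 : Fintype.card Ω = 6) (hc₁ : Fintype.card Ω = Fintype.card X)
    (hc₂ : Fintype.card Ω = Fintype.card X₂)
    (h₁ : ∀ a b : Ω, a ≠ b → (θ₁ (swap a b)).cycleType = Multiset.replicate 3 2)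
    (h₂ : ∀ a b : Ω, a ≠ b → (θ₂ (swap a b)).cycleType = Multiset.replicate 3 2) :
    ∃ f : X ≃ X₂, ∀ (g : Perm Ω) (x : X), f (θ₁ g x) = θ₂ g (f x) := by
  have hne : Nontrivial Ω := Fintype.one_lt_card_iff_nontrivial.mp (by omega)
  obtain ⟨a₀, b₀, hab₀⟩ := exists_pair_ne Ω
  have hrep1 : ({2} : Multiset ℕ) ≠ Multiset.replicate 3 2 := by decide
  have hsw : ∀ x y : X, x ≠ y → ∃ u v : X₂, u ≠ v ∧ (θ₁.symm.trans θ₂) (swap x y) = swap u v := by
    intro x y hxy
    -- the preimage of the swap has three disjoint swaps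
    have ht : (θ₁.symm (swap x y)).cycleType = Multiset.replicate 3 2 := by
      rcases swap_image θ₁.symm (by omega) (by omega) hxy with h | h
      · exfalso
        obtain ⟨a, b, hab, hb⟩ := exists_swap_of_cycleType h
        have h3 := h₁ a b hab
        rw [← hb] at h3
        simp only [MulEquiv.apply_symm_apply] at h3
        rw [isSwap_iff_cycleType.mp ⟨x, y, hxy, rfl⟩] at h3
        exact hrep1 h3
      · exact h.2
    -- its image has cycle type a swap
    set t := θ₁.symm (swap x y) with ht'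
    have hne3 : (θ₂ t).cycleType ≠ Multiset.replicate 3 2 := by
      intro h3
      have h4 : (θ₂ t).cycleType = (θ₂ (swap a₀ b₀)).cycleType := by rw [h3, h₂ a₀ b₀ hab₀]
      have h5 := (cycleType_iso_iff θ₂ _ _).mp h4
      rw [ht, isSwap_iff_cycleType.mp ⟨a₀, b₀, hab₀, rfl⟩] at h5
      exact hrep1 h5.symm
    -- class size forces a swap
    have hτ2 : (θ₂ t) ^ 2 = 1 := by
      rw [← map_pow, ht', ← map_pow, pow_two, swap_mul_self, map_one, map_one]
    haveI : Fact (Nat.Prime 2) := ⟨Nat.prime_two⟩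
    have hrep := cycleType_of_pow_prime_eq_one hτ2
    obtain ⟨c, hc⟩ : ∃ c, c = Multiset.card (θ₂ t).cycleType := ⟨_, rfl⟩
    rw [← hc] at hrep
    have ht1 : θ₂ t ≠ 1 := by
      intro h
      have h1 : t = 1 := θ₂.injective (by rw [h, map_one])
      rw [h1, cycleType_one] at ht
      exact absurd ht (by decide)
    have hc1 : 1 ≤ c := by rw [hc]; exact card_cycleType_pos.mpr ht1
    have hsum : 2 * c ≤ Fintype.card X₂ := by
      have := sum_cycleType_le (θ₂ t)
      rw [hrep] at this
      simpa [mul_comm] using this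
    have hc11 : c = 1 ∨ c = 2 ∨ c = 3 := by omega
    rcases hc11 with rfl | rfl | rfl
    · exact exists_swap_of_cycleType (by rw [MulEquiv.trans_apply, ← ht', hrep]; rfl)
    · exfalso
      -- the classes of `t` and of a swap have the same size
      have e1 := card_class θ₂ t
      rw [ht, hrep] at e1
      have e2 := card_class θ₁.symm (swap x y)
      rw [← ht', ht, isSwap_iff_cycleType.mp ⟨x, y, hxy, rfl⟩] at e2
      have n1 := card_replicate_mul (X := X) 1 le_rfl (by omega)
      have n2 := card_replicate_mul (X := X₂) 2 (by norm_num) (by omega)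
      have hrep1' : Multiset.replicate 1 2 = ({2} : Multiset ℕ) := by simp
      rw [hrep1'] at n1
      rw [e2.trans e1] at n1
      rw [← hc₁, h6] at n1
      rw [← hc₂, h6] at n2
      norm_num [Nat.factorial] at n1 n2
      omega
    · exact absurd hrep hne3
  have hi : Fintype.card X = Fintype.card X₂ := by omega
  obtain ⟨f, hf⟩ := exists_equiv (θ₁.symm.trans θ₂) hi (by omega) hsw
  refine ⟨f, fun g x => ?_⟩
  have := hf (θ₁ g) x
  simpa using this

omit [DecidableEq X] [Fintype X] in
lemma index_stabilizer_perm (x : Ω) :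
    (MulAction.stabilizer (Perm Ω) x).index = Fintype.card Ω := by
  rw [MulAction.index_stabilizer, MulAction.orbit_eq_univ, Set.ncard_univ, Nat.card_eq_fintype_card]

omit [DecidableEq X] [Fintype X] in
lemma eq_stabilizer_of_le {H : Subgroup (Perm Ω)} (hH : H.index = Fintype.card Ω) {y : Ω}
    (hy : ∀ g ∈ H, g y = y) : H = MulAction.stabilizer (Perm Ω) y := by
  have hle : H ≤ MulAction.stabilizer (Perm Ω) y := fun g hg => hy g hg
  have h1 := Subgroup.card_mul_index H
  have h2 := Subgroup.card_mul_index (MulAction.stabilizer (Perm Ω) y)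
  rw [index_stabilizer_perm] at h2
  rw [hH] at h1
  have hpos : 0 < Fintype.card Ω := by
    rw [Fintype.card_pos_iff]; exact ⟨y⟩
  have h3 : Nat.card H = Nat.card (MulAction.stabilizer (Perm Ω) y) :=
    Nat.eq_of_mul_eq_mul_right hpos (h1.trans h2.symm)
  exact Subgroup.eq_of_le_of_card_ge hle h3.ge

omit [DecidableEq X] [Fintype X] in
lemma card_le_of_invariant (H : Subgroup (Perm Ω)) (O : Set Ω)
    (hO : ∀ g ∈ H, ∀ y, g y ∈ O ↔ y ∈ O) :
    Nat.card H ≤ (O.ncard).factorial * (Oᶜ.ncard).factorial := by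
  classical
  let f : Ω → Bool := fun y => decide (y ∈ O)
  have h := DomMulAct.stabilizer_ncard f
  have hprod : ∏ i, (Set.ncard {a | f a = i}).factorial =
      (O.ncard).factorial * (Oᶜ.ncard).factorial := by
    rw [Fintype.prod_bool]
    have h1 : {a | f a = true} = O := by ext a; simp [f]
    have h2 : {a | f a = false} = Oᶜ := by ext a; simp [f]
    rw [h1, h2]
  rw [hprod] at h
  rw [← h, ← Nat.card_coe_set_eq]
  refine Nat.card_le_card_of_injective (fun g : H => ⟨g.1, ?_⟩) ?_
  · ext y
    simp only [Function.comp_apply, f]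
    exact decide_eq_decide.mpr (hO g.1 g.2 y)
  · intro a b hab
    exact Subtype.ext (congrArg (fun z : {g : Perm Ω | f ∘ g = f} => z.1) hab)

omit [DecidableEq X] [Fintype X] in
/-- In degrees two to four a subgroup of index `n` has a fixed point. -/
theorem exists_fixed_small (H : Subgroup (Perm Ω)) (hH : H.index = Fintype.card Ω)
    (h2 : 2 ≤ Fintype.card Ω) (h4 : Fintype.card Ω ≤ 4) : ∃ y, ∀ g ∈ H, g y = y := by
  have hne : Nonempty Ω := by rw [← Fintype.card_pos_iff]; omega
  obtain ⟨x⟩ := hne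
  let O : Set Ω := MulAction.orbit H x
  have hOinv : ∀ g ∈ H, ∀ y, g y ∈ O ↔ y ∈ O := by
    intro g hg y
    have : g y = (⟨g, hg⟩ : H) • y := rfl
    rw [this]
    constructor
    · intro h
      have h2 := MulAction.mem_orbit_of_mem_orbit (⟨g, hg⟩ : H)⁻¹ h
      rwa [inv_smul_smul] at h2
    · exact fun h => MulAction.mem_orbit_of_mem_orbit (⟨g, hg⟩ : H) h
  have hdvd : O.ncard ∣ Nat.card H := by
    have h1 := MulAction.index_stabilizer H x
    change _ = O.ncard at h1
    rw [← h1]
    exact Subgroup.index_dvd_card _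
  have hk1 : 1 ≤ O.ncard := by
    have : O.Nonempty := ⟨x, MulAction.mem_orbit_self x⟩
    exact (Set.ncard_pos (Set.toFinite _)).mpr this
  have hsum : O.ncard + Oᶜ.ncard = Fintype.card Ω := by
    rw [Set.ncard_add_ncard_compl, Nat.card_eq_fintype_card]
  have hle := card_le_of_invariant H O hOinv
  have hcard := Subgroup.card_mul_index H
  rw [hH, Nat.card_eq_fintype_card (α := Perm Ω), Fintype.card_perm] at hcard
  have fixed_of_one : O.ncard = 1 → ∃ y, ∀ g ∈ H, g y = y := by
    intro h1
    refine ⟨x, fun g hg => ?_⟩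
    obtain ⟨a, ha⟩ := Set.ncard_eq_one.mp h1
    have hx : x ∈ O := MulAction.mem_orbit_self x
    have hgx : g x ∈ O := (hOinv g hg x).mpr hx
    rw [ha] at hx hgx
    rw [Set.mem_singleton_iff] at hx hgx
    rw [hgx, hx]
  have fixed_of_compl : Oᶜ.ncard = 1 → ∃ y, ∀ g ∈ H, g y = y := by
    intro h1
    obtain ⟨a, ha⟩ := Set.ncard_eq_one.mp h1
    refine ⟨a, fun g hg => ?_⟩
    have hx : a ∈ Oᶜ := by rw [ha]; rfl
    have hgx : g a ∈ Oᶜ := fun h => hx ((hOinv g hg a).mp h)
    rw [ha] at hgx
    exact hgx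
  obtain ⟨k, hk⟩ : ∃ k, k = O.ncard := ⟨_, rfl⟩
  obtain ⟨l, hl⟩ : ∃ l, l = Oᶜ.ncard := ⟨_, rfl⟩
  rw [← hk] at hdvd hk1 hsum hle fixed_of_one
  rw [← hl] at hsum hle fixed_of_compl
  obtain ⟨n, hn⟩ : ∃ n, n = Fintype.card Ω := ⟨_, rfl⟩
  rw [← hn] at hsum hcard h2 h4
  obtain ⟨N, hN⟩ : ∃ N, N = Nat.card H := ⟨_, rfl⟩
  rw [← hN] at hdvd hle hcard
  interval_cases n
  · have hN1 : N = 1 := by norm_num [Nat.factorial] at hcard; omega
    subst hN1
    have : k = 1 := by simpa using hdvd
    exact fixed_of_one this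
  · have hN1 : N = 2 := by norm_num [Nat.factorial] at hcard; omega
    subst hN1
    have hk2 : k ≤ 2 := Nat.le_of_dvd (by norm_num) hdvd
    have : k = 1 ∨ l = 1 := by omega
    rcases this with h | h
    · exact fixed_of_one h
    · exact fixed_of_compl h
  · have hN1 : N = 6 := by norm_num [Nat.factorial] at hcard; omega
    subst hN1
    have hk4 : k ≠ 4 := by
      rintro rfl
      revert hdvd; decide
    have hk2 : k ≠ 2 := by
      rintro rfl
      have : l = 2 := by omega
      subst this
      norm_num [Nat.factorial] at hle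
    have : k = 1 ∨ l = 1 := by omega
    rcases this with h | h
    · exact fixed_of_one h
    · exact fixed_of_compl h

end counting

end Cfsg.Agent.Lib.ClassMax.SymAut
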