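import Cfsg.Agent.Lib.ClassMax.SymAut

/-!
# The exotic subgroups of index six of `S_6`

They are the stabilizers of the six synthematic totals.
-/

set_option autoImplicit false

namespace Cfsg.Agent.Lib.ClassMax.SymSix

open Equiv Equiv.Perm Finset
open scoped Pointwise
open Cfsg.Agent.Lib.ClassMax.SymAut

abbrev Tot := Finset (Finset (Finset (Fin 6)))

/-- A synthematic total. -/
def T0 : Tot :=
  {{{0, 1}, {2, 3}, {4, 5}}, {{0, 2}, {1, 4}, {3, 5}}, {{0, 3}, {1, 5}, {2, 4}},
    {{0, 4}, {1, 3}, {2, 5}}, {{0, 5}, {1, 2}, {3, 4}}}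

/-- Elements carrying the first total to the others. -/
def gg (i : Fin 6) : Perm (Fin 6) :=
  ![1, swap 0 1, swap 0 5, swap 0 4, swap 0 3, swap 0 2] i

/-- The six totals. -/
def T (i : Fin 6) : Tot := gg i • T0

/-- An element of the stabilizer of `T0` with no fixed point. -/
def h0 : Perm (Fin 6) := swap 0 1 * swap 2 4 * swap 3 5

/-- An element of order five of the stabilizer of `T0`. -/
def w0 : Perm (Fin 6) := swap 1 2 * swap 2 4 * swap 4 5 * swap 5 3

lemma T_inj : Function.Injective T := by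
  unfold Function.Injective
  decide +kernel

lemma swap_T : ∀ (x y i : Fin 6), ∃ j, swap x y • T i = T j := by
  decide +kernel

lemma h0_T0 : h0 • T0 = T0 := by decide +kernel

lemma w_T : ∀ i j : Fin 6, (gg i * w0 * (gg i)⁻¹) • T j = T j → i = j := by
  decide +kernel

lemma w_T_self : ∀ i : Fin 6, (gg i * w0 * (gg i)⁻¹) • T i = T i := by
  decide +kernel

lemma h_fix : ∀ i a : Fin 6, (gg i * h0 * (gg i)⁻¹) a ≠ a := by
  decide +kernel

lemma h_T_self : ∀ i : Fin 6, (gg i * h0 * (gg i)⁻¹) • T i = T i := by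
  decide +kernel

lemma orbit_T (g : Perm (Fin 6)) : ∀ i : Fin 6, ∃ j, g • T i = T j := by
  induction g using Equiv.Perm.swap_induction_on with
  | one => exact fun i => ⟨i, one_smul _ _⟩
  | swap_mul f x y _ ih =>
    intro i
    obtain ⟨j, hj⟩ := ih i
    obtain ⟨k, hk⟩ := swap_T x y j
    exact ⟨k, by rw [mul_smul, hj, hk]⟩

lemma T_zero : T 0 = T0 := by
  simp [T, gg]

/-- The stabilizer of the first total. -/
def K0 : Subgroup (Perm (Fin 6)) := MulAction.stabilizer (Perm (Fin 6)) T0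

lemma orbit_T0 : MulAction.orbit (Perm (Fin 6)) T0 = Set.range T := by
  ext t
  constructor
  · rintro ⟨g, rfl⟩
    obtain ⟨j, hj⟩ := orbit_T g 0
    rw [T_zero] at hj
    exact ⟨j, hj.symm⟩
  · rintro ⟨j, rfl⟩
    exact ⟨gg j, rfl⟩

lemma index_K0 : K0.index = 6 := by
  rw [K0, MulAction.index_stabilizer, orbit_T0, ← Nat.card_coe_set_eq,
    Nat.card_range_of_injective T_inj]
  simp

lemma h0_mem : h0 ∈ K0 := h0_T0

lemma h0_ne (a : Fin 6) : h0 a ≠ a := by
  have := h_fix 0 a
  simpa [gg] using this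

/-- `K0` is not a point stabilizer. -/
lemma K0_ne (a : Fin 6) : K0 ≠ MulAction.stabilizer (Perm (Fin 6)) a := by
  intro h
  have : h0 ∈ MulAction.stabilizer (Perm (Fin 6)) a := h ▸ h0_mem
  exact h0_ne a this

variable {Ω : Type*} [DecidableEq Ω] [Fintype Ω]

/-- Classification of the subgroups of index six given an exotic one. -/
theorem dichotomy (h6 : Fintype.card Ω = 6) (K : Subgroup (Perm Ω)) (hK : K.index = 6)
    (hKfix : ∀ x : Ω, K ≠ MulAction.stabilizer (Perm Ω) x) (H : Subgroup (Perm Ω)) (hH : H.index = 6) :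
    (∃ x : Ω, H = MulAction.stabilizer (Perm Ω) x) ∨
      ∃ g : Perm Ω, H = K.map (MulAut.conj g).toMonoidHom := by
  classical
  haveI : Fintype (Perm Ω ⧸ H) := Fintype.ofFinite _
  haveI : Fintype (Perm Ω ⧸ K) := Fintype.ofFinite _
  have hH' : H.index = Fintype.card Ω := by omega
  have hK' : K.index = Fintype.card Ω := by omega
  obtain ⟨θ₁, hθ₁⟩ := exists_coset_iso H hH' (by omega)
  obtain ⟨θ₂, hθ₂⟩ := exists_coset_iso K hK' (by omega)
  have hi₁ : Fintype.card Ω = Fintype.card (Perm Ω ⧸ H) := by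
    rw [← hH', Subgroup.index, Nat.card_eq_fintype_card]
  have hi₂ : Fintype.card Ω = Fintype.card (Perm Ω ⧸ K) := by
    rw [← hK', Subgroup.index, Nat.card_eq_fintype_card]
  rcases swap_dichotomy θ₁ hi₁ (by omega) with hs | ⟨_, hs₁⟩
  · left
    exact eq_stabilizer_of_swaps H hH' (by omega) θ₁ hθ₁ hs
  · right
    rcases swap_dichotomy θ₂ hi₂ (by omega) with hs | ⟨_, hs₂⟩
    · obtain ⟨x, hx⟩ := eq_stabilizer_of_swaps K hK' (by omega) θ₂ hθ₂ hs
      exact absurd hx (hKfix x)
    · obtain ⟨f, hf⟩ := exists_equiv_of_exotic θ₁ θ₂ h6 hi₁ hi₂ hs₁ hs₂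
      obtain ⟨g₀, hg₀⟩ := QuotientGroup.mk_surjective (f (QuotientGroup.mk 1))
      refine ⟨g₀, ?_⟩
      have key : ∀ g : Perm Ω, g ∈ H ↔ g₀⁻¹ * g * g₀ ∈ K := by
        intro g
        have h1 : f (g • (QuotientGroup.mk 1 : Perm Ω ⧸ H)) = g • f (QuotientGroup.mk 1) := by
          rw [← hθ₁, hf, hθ₂]
        rw [← hg₀] at h1
        have h2 : g ∈ H ↔ g • (QuotientGroup.mk 1 : Perm Ω ⧸ H) = QuotientGroup.mk 1 := by
          rw [MulAction.Quotient.smul_mk, smul_eq_mul, mul_one, QuotientGroup.eq, mul_one,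
            inv_mem_iff]
        rw [h2, ← f.injective.eq_iff, h1, ← hg₀, MulAction.Quotient.smul_mk, smul_eq_mul,
          QuotientGroup.eq]
        have : (g * g₀)⁻¹ * g₀ = (g₀⁻¹ * g * g₀)⁻¹ := by group
        rw [this, inv_mem_iff]
      ext g
      rw [key]
      constructor
      · intro hg
        exact ⟨_, hg, by simp [mul_assoc]⟩
      · rintro ⟨k, hk, rfl⟩
        simpa [mul_assoc] using hk

/-- A subgroup of index `n ≥ 5` of `S_n` is isomorphic to `S_{n-1}`. -/
theorem nonempty_mulEquiv (H : Subgroup (Perm Ω)) (m : ℕ) (hm : Fintype.card Ω = m + 1)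
    (hH : H.index = Fintype.card Ω) (h5 : 5 ≤ Fintype.card Ω) :
    Nonempty (H ≃* Perm (Fin m)) := by
  classical
  haveI : Fintype (Perm Ω ⧸ H) := Fintype.ofFinite _
  obtain ⟨θ, hθ⟩ := exists_coset_iso H hH h5
  have hi : Fintype.card (Perm Ω ⧸ H) = m + 1 := by
    rw [← hm, ← hH, Subgroup.index, Nat.card_eq_fintype_card]
  let x₀ : Perm Ω ⧸ H := QuotientGroup.mk 1
  let p : Perm Ω ⧸ H → Prop := fun y => y ≠ x₀
  have hcard : Fintype.card {y // p y} = Fintype.card (Fin m) := by
    rw [Fintype.card_fin, Fintype.card_subtype_compl, Fintype.card_subtype_eq, hi]; rfl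
  let e : {y // p y} ≃ Fin m := Fintype.equivOfCardEq hcard
  -- `H` maps onto the stabilizer, which is the range of `ofSubtype`.
  have hmap : H.map θ.toMonoidHom = (ofSubtype : Perm {y // p y} →* Perm (Perm Ω ⧸ H)).range := by
    ext σ
    rw [mem_range_ofSubtype_iff]
    constructor
    · rintro ⟨g, hg, rfl⟩
      intro y hy
      simp only [Set.mem_setOf_eq, p]
      rintro rfl
      apply (mem_support.mp hy)
      change θ g x₀ = x₀
      rw [hθ, MulAction.Quotient.smul_mk, smul_eq_mul, mul_one, QuotientGroup.eq, mul_one,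
        inv_mem_iff]
      exact hg
    · intro hs
      obtain ⟨g, rfl⟩ := θ.surjective σ
      refine ⟨g, ?_, rfl⟩
      have h1 : θ g x₀ = x₀ := by
        by_contra hne
        exact (hs (mem_support.mpr hne)) rfl
      rw [hθ, MulAction.Quotient.smul_mk, smul_eq_mul, mul_one, QuotientGroup.eq, mul_one,
        inv_mem_iff] at h1
      exact h1
  let φ : Perm {y // p y} →* Perm (Perm Ω ⧸ H) := ofSubtype
  have hφ : Function.Injective φ := ofSubtype_injective
  refine ⟨((θ.subgroupMap H).trans (MulEquiv.subgroupCongr hmap)).trans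
    ((MonoidHom.ofInjective hφ).symm.trans e.permCongrHom)⟩

end Cfsg.Agent.Lib.ClassMax.SymSix
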