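import Cfsg.Agent.Lib.Components.Layer2
import Cfsg.Agent.Lib.Components.Core2

/-!
# Thompson–Wielandt, part 1: relative subnormality, types of subgroups.
-/

set_option autoImplicit false
set_option linter.unusedSectionVars false
set_option linter.style.haveILetI false

namespace Cfsg.Agent.Lib.ClassMax.TW

open Subgroup Cfsg.Agent.Lib.Components

variable {G : Type*} [Group G]

/-- conjugate of a subgroup -/
abbrev cj (a : G) (H : Subgroup G) : Subgroup G := H.map (MulAut.conj a).toMonoidHom

theorem mem_cj {a x : G} {H : Subgroup G} : x ∈ cj a H ↔ a⁻¹ * x * a ∈ H := by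
  constructor
  · rintro ⟨y, hy, rfl⟩
    have : a⁻¹ * (MulAut.conj a).toMonoidHom y * a = y := by
      simp [MulAut.conj_apply]; group
    rw [this]; exact hy
  · intro h
    refine ⟨_, h, ?_⟩
    simp [MulAut.conj_apply]; group

theorem conj_mem_cj {a y : G} {H : Subgroup G} (hy : y ∈ H) : a * y * a⁻¹ ∈ cj a H := by
  rw [mem_cj]
  have : a⁻¹ * (a * y * a⁻¹) * a = y := by group
  rw [this]; exact hy

theorem cj_cj (a b : G) (H : Subgroup G) : cj a (cj b H) = cj (a * b) H := by
  ext x
  simp only [mem_cj]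
  have : b⁻¹ * (a⁻¹ * x * a) * b = (a * b)⁻¹ * x * (a * b) := by group
  rw [this]

theorem cj_one (H : Subgroup G) : cj 1 H = H := by
  ext x
  simp [mem_cj]

theorem cj_mono {a : G} {S T : Subgroup G} (h : S ≤ T) : cj a S ≤ cj a T := map_mono h

theorem cj_of_mem {a : G} {H : Subgroup G} (h : a ∈ H) : cj a H = H := by
  ext x
  rw [mem_cj]
  constructor
  · intro hx
    have : x = a * (a⁻¹ * x * a) * a⁻¹ := by group
    rw [this]
    exact H.mul_mem (H.mul_mem h hx) (H.inv_mem h)
  · intro hx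
    exact H.mul_mem (H.mul_mem (H.inv_mem h) hx) h

theorem cj_inv_cj (a : G) (H : Subgroup G) : cj a⁻¹ (cj a H) = H := by
  rw [cj_cj]; simp [cj_one]

theorem cj_cj_inv (a : G) (H : Subgroup G) : cj a (cj a⁻¹ H) = H := by
  rw [cj_cj]; simp [cj_one]

theorem cj_le_iff {a : G} {S T : Subgroup G} : cj a S ≤ T ↔ S ≤ cj a⁻¹ T := by
  constructor
  · intro h
    have := cj_mono (a := a⁻¹) h
    rwa [cj_inv_cj] at this
  · intro h
    have := cj_mono (a := a) h
    rwa [cj_cj_inv] at this

theorem le_cj_iff {a : G} {S T : Subgroup G} : S ≤ cj a T ↔ cj a⁻¹ S ≤ T := by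
  rw [cj_le_iff, inv_inv]

theorem cj_eq_bot {a : G} {S : Subgroup G} (h : S ≠ ⊥) : cj a S ≠ ⊥ := by
  intro h2
  apply h
  have := cj_mono (a := a⁻¹) (le_of_eq h2)
  rw [cj_inv_cj] at this
  simpa [le_bot_iff] using this

abbrev NN (X : Subgroup G) : Subgroup G := normalizer (X : Set G)

theorem le_nor {P X : Subgroup G} (h : ∀ a ∈ P, ∀ x ∈ X, a * x * a⁻¹ ∈ X) : P ≤ NN X := by
  intro a ha
  rw [mem_normalizer_iff]
  intro x
  constructor
  · exact h a ha x
  · intro hx
    have := h a⁻¹ (P.inv_mem ha) _ hx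
    have e : a⁻¹ * (a * x * a⁻¹) * a⁻¹⁻¹ = x := by group
    rwa [e] at this

theorem conj_of_nor {P X : Subgroup G} (h : P ≤ NN X) {a x : G} (ha : a ∈ P) (hx : x ∈ X) :
    a * x * a⁻¹ ∈ X := (mem_normalizer_iff.mp (h ha) x).mp hx

theorem nor_cj {a : G} {P X : Subgroup G} (h : P ≤ NN X) : cj a P ≤ NN (cj a X) := by
  apply le_nor
  intro z hz x hx
  rw [mem_cj] at hz hx ⊢
  have := conj_of_nor h hz hx
  have e : a⁻¹ * (z * x * z⁻¹) * a = a⁻¹ * z * a * (a⁻¹ * x * a) * (a⁻¹ * z * a)⁻¹ := by group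
  rw [e]; exact this

theorem nor_cj_le {a : G} {X N : Subgroup G} (h : NN X ≤ N) : NN (cj a X) ≤ cj a N := by
  have h1 : cj a⁻¹ (NN (cj a X)) ≤ NN (cj a⁻¹ (cj a X)) := nor_cj le_rfl
  rw [cj_inv_cj] at h1
  have h2 := h1.trans h
  rw [cj_le_iff, inv_inv] at h2
  exact h2

theorem commute_mem_nor {x : G} {S : Subgroup G} (h : ∀ y ∈ S, x * y = y * x) : x ∈ NN S := by
  rw [mem_normalizer_iff]
  intro y
  by_cases hy : y ∈ S
  · have : x * y * x⁻¹ = y := by rw [h y hy]; group
    rw [this]
  · constructor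
    · intro h'; exact absurd h' hy
    · intro h'
      exact absurd h' (by
        intro h2
        apply hy
        have e := h _ h2
        have : y = x⁻¹ * (x * y * x⁻¹) * x := by group
        rw [this]
        have e2 : x⁻¹ * (x * y * x⁻¹) * x = x * y * x⁻¹ := by
          have := e
          calc x⁻¹ * (x * y * x⁻¹) * x = x⁻¹ * ((x * y * x⁻¹) * x) := by group
            _ = x⁻¹ * (x * (x * y * x⁻¹)) := by rw [this]
            _ = x * y * x⁻¹ := by group
        rw [e2]; exact h2)

/-- relative subnormality -/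
inductive SN : Subgroup G → Subgroup G → Prop
  | refl (U : Subgroup G) : SN U U
  | step {S T U : Subgroup G} : S ≤ T → T ≤ NN S → SN T U → SN S U

namespace SN

theorem le {S U : Subgroup G} (h : SN S U) : S ≤ U := by
  induction h with
  | refl U => exact le_rfl
  | step h1 _ _ ih => exact h1.trans ih

theorem trans {S T U : Subgroup G} (h1 : SN S T) (h2 : SN T U) : SN S U := by
  induction h1 with
  | refl U => exact h2
  | step h3 h4 _ ih => exact SN.step h3 h4 (ih h2)

theorem of_normal {S U : Subgroup G} (h : S ≤ U) (hN : U ≤ NN S) : SN S U :=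
  SN.step h hN (SN.refl U)

theorem cj (a : G) {S U : Subgroup G} (h : SN S U) : SN (cj a S) (cj a U) := by
  induction h with
  | refl U => exact SN.refl _
  | step h3 h4 _ ih => exact SN.step (cj_mono h3) (nor_cj h4) ih

theorem inf {S U : Subgroup G} (W : Subgroup G) (h : SN S U) : SN (S ⊓ W) (U ⊓ W) := by
  induction h with
  | refl U => exact SN.refl _
  | step h3 h4 _ ih =>
    refine SN.step (inf_le_inf_right _ h3) ?_ ih
    apply le_nor
    rintro a ⟨ha1, ha2⟩ x ⟨hx1, hx2⟩
    exact ⟨conj_of_nor h4 ha1 hx1, W.mul_mem (W.mul_mem ha2 hx2) (W.inv_mem ha2)⟩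

theorem restrict {S U W : Subgroup G} (h : SN S U) (h1 : S ≤ W) (h2 : W ≤ U) : SN S W := by
  have := h.inf W
  rwa [inf_of_le_left h1, inf_of_le_right h2] at this

theorem bridge {S U : Subgroup G} (h : SN S U) : (S.subgroupOf U).IsSubnormal := by
  induction h with
  | refl U => rw [subgroupOf_self]; exact IsSubnormal.top
  | @step S T U h3 h4 h5 ih =>
    refine IsSubnormal.step _ (T.subgroupOf U) ?_ ih ?_
    · intro x hx
      exact h3 hx
    · have hle : S.subgroupOf U ≤ T.subgroupOf U := fun x hx => h3 hx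
      rw [normal_subgroupOf_iff_le_normalizer hle]
      intro x hx
      rw [mem_normalizer_iff]
      intro y
      have h6 := mem_normalizer_iff.mp (h4 hx) y
      simpa [mem_subgroupOf] using h6

theorem bridge' {U : Subgroup G} {L : Subgroup U} (h : L.IsSubnormal) : SN (L.map U.subtype) U := by
  induction h with
  | top =>
    have : (⊤ : Subgroup U).map U.subtype = U := by
      ext x; simp
    rw [this]; exact SN.refl U
  | @step H K hle _ hN ih =>
    refine SN.step (map_mono hle) ?_ ih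
    apply le_nor
    rintro _ ⟨a, ha, rfl⟩ _ ⟨x, hx, rfl⟩
    refine ⟨a * x * a⁻¹, ?_, by simp⟩
    have := (normal_subgroupOf_iff_le_normalizer hle).mp hN ha
    exact (mem_normalizer_iff.mp this x).mp hx

end SN

/-- the layer of a subgroup, inside `G` -/
def sl (U : Subgroup G) : Subgroup G := (Cfsg.layer U).map U.subtype

theorem sl_le (U : Subgroup G) : sl U ≤ U := map_subtype_le _

/-- subgroups generated by their subnormal quasisimple subgroups -/
def LL (Y : Subgroup G) : Prop :=
  Y ≤ sSup {K : Subgroup G | K ≤ Y ∧ SN K Y ∧ Cfsg.IsQuasisimple K}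

theorem sl_LL (U : Subgroup G) : LL (sl U) := by
  unfold LL sl
  rw [map_le_iff_le_comap]
  refine layer_le fun L hL => ?_
  rw [← map_le_iff_le_comap]
  refine le_sSup ⟨map_mono (component_le_layer hL), ?_, ?_⟩
  · exact (SN.bridge' hL.1).restrict (map_mono (component_le_layer hL)) (map_subtype_le _)
  · exact qs_of_mulEquiv hL.2 (L.equivMapOfInjective _ U.subtype_injective)

theorem LL.cj (a : G) {Y : Subgroup G} (h : LL Y) : LL (cj a Y) := by
  unfold LL at h ⊢
  have h1 := cj_mono (a := a) h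
  refine h1.trans ?_
  rw [map_le_iff_le_comap]
  refine sSup_le ?_
  rintro K ⟨hK1, hK2, hK3⟩
  rw [← map_le_iff_le_comap]
  refine le_sSup ⟨cj_mono hK1, SN.cj a hK2, ?_⟩
  exact qs_of_mulEquiv hK3 (K.equivMapOfInjective _ (MulEquiv.injective _))

theorem LL.le_sl {Y W : Subgroup G} (h : LL Y) (hW : SN Y W) : Y ≤ sl W := by
  refine le_trans h (sSup_le ?_)
  rintro K ⟨hK1, hK2, hK3⟩
  have h1 : SN K W := hK2.trans hW
  have hle : K ≤ W := h1.le
  have h2 : Cfsg.IsComponent (K.subgroupOf W) :=
    ⟨h1.bridge, qs_of_mulEquiv hK3 (subgroupOfEquivOfLe hle).symm⟩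
  have h3 := component_le_layer h2
  intro x hx
  exact ⟨⟨x, hle hx⟩, h3 hx, rfl⟩

theorem SN_sl [Finite G] (U : Subgroup G) : SN (sl U) U := by
  refine SN.of_normal (sl_le U) ?_
  apply le_nor
  intro a ha x hx
  obtain ⟨y, hy, rfl⟩ := hx
  have h1 := map_conj_layer_le (G := U) ⟨a, ha⟩ ⟨y, hy, rfl⟩
  refine ⟨_, h1, ?_⟩
  simp [MulAut.conj_apply]

theorem SN_sub [Finite G] (p : ℕ) [Fact p.Prime] (U : Subgroup G) : SN (subPCore p U) U := by
  refine SN.of_normal (subPCore_le U) ?_
  apply le_nor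
  intro a ha x hx
  exact conj_mem_subPCore (le_normalizer ha) hx

/-- type of a subgroup: `some r`: an `r`-group; `none`: generated by quasisimple subnormal subgroups -/
def Typ : Option ℕ → Subgroup G → Prop
  | some r, Y => IsPGroup r Y
  | none, Y => LL Y

/-- part of a given type -/
def part : Option ℕ → Subgroup G → Subgroup G
  | some r, U => subPCore r U
  | none, U => sl U

/-- valid types -/
def Val (θ : Option ℕ) : Prop := ∀ r, θ = some r → r.Prime

theorem Typ.cj {θ : Option ℕ} (a : G) {Y : Subgroup G} (h : Typ θ Y) : Typ θ (cj a Y) := by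
  cases θ with
  | none => exact LL.cj a h
  | some r => exact IsPGroup.map h _

theorem part_typ [Finite G] {θ : Option ℕ} (hθ : Val θ) (U : Subgroup G) : Typ θ (part θ U) := by
  cases θ with
  | none => exact sl_LL U
  | some r =>
    haveI : Fact r.Prime := ⟨hθ r rfl⟩
    exact subPCore_isPGroup U

theorem part_le [Finite G] (θ : Option ℕ) (U : Subgroup G) : part θ U ≤ U := by
  cases θ with
  | none => exact sl_le U
  | some r => exact map_subtype_le _

theorem SN_part [Finite G] {θ : Option ℕ} (hθ : Val θ) (U : Subgroup G) : SN (part θ U) U := by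
  cases θ with
  | none => exact SN_sl U
  | some r =>
    haveI : Fact r.Prime := ⟨hθ r rfl⟩
    exact SN_sub r U

theorem typ_le_part [Finite G] {θ : Option ℕ} (hθ : Val θ) {Y W : Subgroup G} (h : Typ θ Y)
    (hW : SN Y W) : Y ≤ part θ W := by
  cases θ with
  | none => exact LL.le_sl h hW
  | some r =>
    haveI : Fact r.Prime := ⟨hθ r rfl⟩
    have hle := hW.le
    have h1 : IsPGroup r (Y.subgroupOf W) :=
      IsPGroup.of_equiv h (subgroupOfEquivOfLe hle).symm
    have h2 := subnormal_le_pCore hW.bridge h1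
    intro x hx
    exact ⟨⟨x, hle hx⟩, h2 hx, rfl⟩

theorem part_mono [Finite G] {θ : Option ℕ} (hθ : Val θ) {U W : Subgroup G} (h : SN U W) :
    part θ U ≤ part θ W :=
  typ_le_part hθ (part_typ hθ U) ((SN_part hθ U).trans h)

theorem part_cj [Finite G] {θ : Option ℕ} (hθ : Val θ) (a : G) (U : Subgroup G) :
    part θ (cj a U) = cj a (part θ U) := by
  apply le_antisymm
  · have h1 : part θ (cj a U) ≤ cj a (part θ (cj a⁻¹ (cj a U))) := by
      have h2 : cj a⁻¹ (part θ (cj a U)) ≤ part θ (cj a⁻¹ (cj a U)) :=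
        typ_le_part hθ (Typ.cj a⁻¹ (part_typ hθ _)) (SN.cj a⁻¹ (SN_part hθ _))
      rwa [cj_le_iff, inv_inv] at h2
    rwa [cj_inv_cj] at h1
  · exact typ_le_part hθ (Typ.cj a (part_typ hθ U)) (SN.cj a (SN_part hθ U))

theorem part_nor [Finite G] {θ : Option ℕ} (hθ : Val θ) {P U : Subgroup G} (h : P ≤ NN U) :
    P ≤ NN (part θ U) := by
  apply le_nor
  intro a ha x hx
  have h1 : a * x * a⁻¹ ∈ part θ (cj a U) := by
    rw [part_cj hθ]; exact conj_mem_cj hx
  have h2 : cj a U = U := by
    ext y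
    rw [mem_cj]
    have h3 := conj_of_nor h (P.inv_mem ha) (x := y)
    constructor
    · intro hy
      have h4 := conj_of_nor h ha hy
      have e : a * (a⁻¹ * y * a) * a⁻¹ = y := by group
      rwa [e] at h4
    · intro hy
      have h4 := h3 hy
      simpa using h4
  rw [h2] at h1
  exact h1

/-- parts of different types commute -/
theorem part_commute [Finite G] {θ θ' : Option ℕ} (hθ : Val θ) (hθ' : Val θ') (hne : θ ≠ θ')
    (W : Subgroup G) : ∀ x ∈ part θ W, ∀ y ∈ part θ' W, x * y = y * x := by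
  have key : ∀ {r : ℕ}, r.Prime → ∀ x ∈ subPCore r W, ∀ y ∈ sl W, x * y = y * x := by
    intro r hr x hx y hy
    haveI : Fact r.Prime := ⟨hr⟩
    obtain ⟨x', hx', rfl⟩ := hx
    obtain ⟨y', hy', rfl⟩ := hy
    have h1 : pCore r W ≤ fittingSubgroup W :=
      le_fitting inferInstance (IsPGroup.isNilpotent pCore_isPGroup)
    have h2 := layer_le_centralizer_fitting (G := W) hy'
    have h3 := mem_centralizer_iff.mp h2 x' (h1 hx')
    exact congrArg Subtype.val h3
  cases θ with
  | none =>
    cases θ' with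
    | none => exact absurd rfl hne
    | some s =>
      intro x hx y hy
      exact (key (hθ' s rfl) y hy x hx).symm
  | some r =>
    cases θ' with
    | none => exact fun x hx y hy => key (hθ r rfl) x hx y hy
    | some s =>
      have hrs : r ≠ s := fun h => hne (by rw [h])
      intro x hx y hy
      haveI : Fact r.Prime := ⟨hθ r rfl⟩
      haveI : Fact s.Prime := ⟨hθ' s rfl⟩
      obtain ⟨x', hx', rfl⟩ := hx
      obtain ⟨y', hy', rfl⟩ := hy
      have hd : Disjoint (pCore r W) (pCore s W) := by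
        apply IsPGroup.disjoint_of_ne r s hrs _ _ pCore_isPGroup pCore_isPGroup
      have := Subgroup.commute_of_normal_of_disjoint _ _ inferInstance inferInstance hd x' y' hx' hy'
      exact congrArg Subtype.val this

theorem compat [Finite G] {θ θ' : Option ℕ} (hθ : Val θ) (hθ' : Val θ') (hne : θ ≠ θ')
    {S T W : Subgroup G} (hS : Typ θ S) (hT : Typ θ' T) (h1 : SN S W) (h2 : SN T W) :
    ∀ x ∈ S, ∀ y ∈ T, x * y = y * x := fun x hx y hy =>
  part_commute hθ hθ' hne W x (typ_le_part hθ hS h1 hx) y (typ_le_part hθ' hT h2 hy)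

/-- a finite group all of whose `q`-cores vanish, `q ≠ p`, has a `p`-group as Fitting subgroup -/
theorem fit_le_core {X : Type*} [Group X] [Finite X] {p : ℕ} [hp : Fact p.Prime]
    (h : ∀ q : ℕ, q.Prime → q ≠ p → Cfsg.pCore q X = ⊥) :
    Cfsg.fittingSubgroup X ≤ Cfsg.pCore p X := by
  apply le_pCore fitting_normal
  have hnil := fitting_isNilpotent (G := X)
  apply IsPGroup.of_card (n := (Nat.card (Cfsg.fittingSubgroup X)).primeFactorsList.length)
  apply Nat.eq_prime_pow_of_unique_prime_dvd Nat.card_pos.ne'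
  intro q hq hqd
  by_contra hne
  haveI : Fact q.Prime := ⟨hq⟩
  let P : Sylow q (Cfsg.fittingSubgroup X) := default
  have hS : Group.IsNilpotent (Cfsg.fittingSubgroup X) ↔ ∀ (p : ℕ) (_ : Fact p.Prime)
      (P : Sylow p (Cfsg.fittingSubgroup X)), (↑P : Subgroup (Cfsg.fittingSubgroup X)).Normal :=
    (isNilpotent_of_finite_tfae (G := Cfsg.fittingSubgroup X)).out 0 3
  have h1 : (P : Subgroup (Cfsg.fittingSubgroup X)).Normal := hS.1 hnil q inferInstance P
  have hch : (P : Subgroup (Cfsg.fittingSubgroup X)).Characteristic :=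
    Sylow.characteristic_of_normal P h1
  have h2 : ((P : Subgroup (Cfsg.fittingSubgroup X)).map (Cfsg.fittingSubgroup X).subtype).Normal := by
    constructor
    rintro _ ⟨y, hy, rfl⟩ g
    have h3 := (Subgroup.characteristic_iff_comap_eq.mp hch) (MulAut.conjNormal g)
    have h4 : y ∈ (P : Subgroup (Cfsg.fittingSubgroup X)).comap (MulAut.conjNormal g).toMonoidHom := by
      rw [h3]; exact hy
    refine ⟨_, h4, ?_⟩
    simp [MulAut.conjNormal_apply]
  have h4 : IsPGroup q ((P : Subgroup (Cfsg.fittingSubgroup X)).map (Cfsg.fittingSubgroup X).subtype) :=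
    IsPGroup.map P.isPGroup' _
  have h5 := le_pCore h2 h4
  rw [h q hq hne, le_bot_iff] at h5
  have h6 := Sylow.ne_bot_of_dvd_card P hqd
  exact h6 ((Subgroup.map_eq_bot_iff_of_injective _ (Subgroup.subtype_injective _)).mp h5)

end Cfsg.Agent.Lib.ClassMax.TW
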