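import Cfsg.Agent.Lib.ClassMax.TW1

/-!
# Thompson–Wielandt, part 2: the zipper on the coset geometry.
-/

set_option autoImplicit false
set_option linter.unusedSectionVars false
set_option linter.style.haveILetI false

namespace Cfsg.Agent.Lib.ClassMax.TW

open Subgroup Cfsg.Agent.Lib.Components

variable {G : Type*} [Group G]

/-- the core of `Y` in `M`, as a subgroup of `G`. -/
def core (M Y : Subgroup G) : Subgroup G := (Y.subgroupOf M).normalCore.map M.subtype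

theorem mem_core {M Y : Subgroup G} {x : G} : x ∈ core M Y ↔ x ∈ M ∧ ∀ m ∈ M, m * x * m⁻¹ ∈ Y := by
  constructor
  · rintro ⟨y, hy, rfl⟩
    refine ⟨y.2, fun m hm => ?_⟩
    have := hy ⟨m, hm⟩
    simpa [mem_subgroupOf] using this
  · rintro ⟨hx, h⟩
    refine ⟨⟨x, hx⟩, ?_, rfl⟩
    intro g
    simpa [mem_subgroupOf] using h g.1 g.2

theorem core_le (M Y : Subgroup G) : core M Y ≤ M := map_subtype_le _

theorem core_le' (M Y : Subgroup G) : core M Y ≤ Y := by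
  intro x hx
  have := (mem_core.mp hx).2 1 M.one_mem
  simpa using this

theorem core_nor (M Y : Subgroup G) : M ≤ NN (core M Y) := by
  apply le_nor
  intro a ha x hx
  rw [mem_core] at hx ⊢
  refine ⟨M.mul_mem (M.mul_mem ha hx.1) (M.inv_mem ha), fun m hm => ?_⟩
  have := hx.2 (m * a) (M.mul_mem hm ha)
  have e : m * (a * x * a⁻¹) * m⁻¹ = m * a * x * (m * a)⁻¹ := by group
  rw [e]; exact this

theorem le_core {M X Y : Subgroup G} (h1 : X ≤ M) (h2 : M ≤ NN X) (h3 : X ≤ Y) : X ≤ core M Y := by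
  intro x hx
  rw [mem_core]
  exact ⟨h1 hx, fun m hm => h3 (conj_of_nor h2 hm hx)⟩

/-- `A₁`-level -/
def a1 (M N : Subgroup G) : Subgroup G := core M (M ⊓ N)

/-- `A₁ ∩ B₁` -/
def cc (M N : Subgroup G) : Subgroup G := a1 M N ⊓ a1 N M

/-- `A₂`-level -/
def a2 (M N : Subgroup G) : Subgroup G := core M (cc M N)

theorem cc_comm (M N : Subgroup G) : cc M N = cc N M := inf_comm _ _

theorem mem_a1 {M N : Subgroup G} {x : G} : x ∈ a1 M N ↔ x ∈ M ∧ ∀ m ∈ M, m * x * m⁻¹ ∈ N := by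
  unfold a1
  rw [mem_core]
  constructor
  · rintro ⟨h1, h2⟩
    exact ⟨h1, fun m hm => (h2 m hm).2⟩
  · rintro ⟨h1, h2⟩
    exact ⟨h1, fun m hm => ⟨M.mul_mem (M.mul_mem hm h1) (M.inv_mem hm), h2 m hm⟩⟩

theorem a1_le (M N : Subgroup G) : a1 M N ≤ M := core_le _ _

theorem a1_le' (M N : Subgroup G) : a1 M N ≤ N := fun _ hx => (core_le' _ _ hx).2

theorem a1_nor (M N : Subgroup G) : M ≤ NN (a1 M N) := core_nor _ _

theorem a1_le_cj {M N : Subgroup G} {m : G} (hm : m ∈ M) : a1 M N ≤ cj m N := by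
  intro x hx
  rw [mem_cj]
  simpa using (mem_a1.mp hx).2 m⁻¹ (M.inv_mem hm)

theorem cc_le_left (M N : Subgroup G) : cc M N ≤ a1 M N := inf_le_left

theorem cc_le_right (M N : Subgroup G) : cc M N ≤ a1 N M := inf_le_right

theorem a2_le_cc (M N : Subgroup G) : a2 M N ≤ cc M N := core_le' _ _

theorem a2_le (M N : Subgroup G) : a2 M N ≤ M := core_le _ _

theorem a2_nor (M N : Subgroup G) : M ≤ NN (a2 M N) := core_nor _ _

theorem a2_le_a1 (M N : Subgroup G) : a2 M N ≤ a1 M N := (a2_le_cc M N).trans (cc_le_left M N)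

theorem a2_le_a1' (M N : Subgroup G) : a2 M N ≤ a1 N M := (a2_le_cc M N).trans (cc_le_right M N)

/-- transfer of subnormality across an edge. -/
theorem sn_step {M N S : Subgroup G} (h1 : S ≤ a1 M N) (h2 : S ≤ a1 N M) (h : SN S M) : SN S N := by
  have h3 : SN S (cc M N) := h.restrict (le_inf h1 h2) ((cc_le_left M N).trans (a1_le M N))
  have h4 : SN (cc M N) (a1 N M) := by
    refine SN.of_normal (cc_le_right M N) ?_
    apply le_nor
    rintro a ha x ⟨hx1, hx2⟩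
    refine ⟨conj_of_nor (a1_nor M N) (a1_le' N M ha) hx1, ?_⟩
    exact (a1 N M).mul_mem ((a1 N M).mul_mem ha hx2) ((a1 N M).inv_mem ha)
  have h5 : SN (a1 N M) N := SN.of_normal (a1_le N M) (a1_nor N M)
  exact h3.trans (h4.trans h5)

/-- vertex version of `sn_step`. -/
theorem vstep {M N S : Subgroup G} {e : G} (h : SN S (cj e M))
    (h1 : ∀ m ∈ M, S ≤ cj (e * m) N) (h2 : ∀ n ∈ N, S ≤ cj (e * n) M) : SN S (cj e N) := by
  have h3 : SN (cj e⁻¹ S) M := by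
    have := SN.cj e⁻¹ h
    rwa [cj_inv_cj] at this
  have h4 : cj e⁻¹ S ≤ a1 M N := by
    intro x hx
    rw [mem_cj, inv_inv] at hx
    rw [mem_a1]
    constructor
    · have := h2 1 N.one_mem hx
      rw [mem_cj] at this
      simpa [mul_assoc] using this
    · intro m hm
      have := h1 m⁻¹ (M.inv_mem hm) hx
      rw [mem_cj] at this
      have e2 : (e * m⁻¹)⁻¹ * (e * x * e⁻¹) * (e * m⁻¹) = m * x * m⁻¹ := by group
      rwa [e2] at this
  have h5 : cj e⁻¹ S ≤ a1 N M := by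
    intro x hx
    rw [mem_cj, inv_inv] at hx
    rw [mem_a1]
    constructor
    · have := h1 1 M.one_mem hx
      rw [mem_cj] at this
      simpa [mul_assoc] using this
    · intro m hm
      have := h2 m⁻¹ (N.inv_mem hm) hx
      rw [mem_cj] at this
      have e2 : (e * m⁻¹)⁻¹ * (e * x * e⁻¹) * (e * m⁻¹) = m * x * m⁻¹ := by group
      rwa [e2] at this
  have h6 := SN.cj e (sn_step h4 h5 h3)
  rwa [cj_cj_inv] at h6

theorem cj_of_nor {P X : Subgroup G} {a : G} (h : P ≤ NN X) (ha : a ∈ P) : cj a X = X := by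
  ext y
  rw [mem_cj]
  constructor
  · intro hy
    have h4 := conj_of_nor h ha hy
    have e : a * (a⁻¹ * y * a) * a⁻¹ = y := by group
    rwa [e] at h4
  · intro hy
    have h4 := conj_of_nor h (P.inv_mem ha) hy
    simpa using h4

/-- data: two maximal core-free subgroups generating `G` -/
structure TWD (M N : Subgroup G) : Prop where
  nm : ∀ X : Subgroup G, X ≠ ⊥ → X ≤ M → M ≤ NN X → NN X ≤ M
  nn : ∀ X : Subgroup G, X ≠ ⊥ → X ≤ N → N ≤ NN X → NN X ≤ N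
  gen : M ⊔ N = ⊤
  cm : ∀ Y : Subgroup G, (∀ a : G, cj a Y ≤ M) → Y = ⊥
  cn : ∀ Y : Subgroup G, (∀ a : G, cj a Y ≤ N) → Y = ⊥

theorem TWD.symm {M N : Subgroup G} (h : TWD M N) : TWD N M :=
  ⟨h.nn, h.nm, by rw [sup_comm]; exact h.gen, h.cn, h.cm⟩

/-- words -/
def Wd (M N : Subgroup G) : ℕ → Set G
  | 0 => {1}
  | k + 1 => {a | ∃ b ∈ Wd M N k, ∃ m ∈ M, ∃ n ∈ N, a = b * m * n}

theorem Wd_succ {M N : Subgroup G} {k : ℕ} {b m n : G} (hb : b ∈ Wd M N k) (hm : m ∈ M) (hn : n ∈ N) :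
    b * m * n ∈ Wd M N (k + 1) := ⟨b, hb, m, hm, n, hn, rfl⟩

theorem Wd_succ_self {M N : Subgroup G} {k : ℕ} {b : G} (hb : b ∈ Wd M N k) : b ∈ Wd M N (k + 1) :=
  ⟨b, hb, 1, M.one_mem, 1, N.one_mem, by simp⟩

theorem Wd_mono {M N : Subgroup G} {k l : ℕ} (h : k ≤ l) : Wd M N k ⊆ Wd M N l := by
  induction l, h using Nat.le_induction with
  | base => exact subset_rfl
  | succ l _ ih => exact fun a ha => Wd_succ_self (ih ha)

theorem Wd_mul_m {M N : Subgroup G} {k : ℕ} {b m : G} (hb : b ∈ Wd M N k) (hm : m ∈ M) :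
    b * m ∈ Wd M N (k + 1) := by
  have := Wd_succ hb hm N.one_mem
  simpa using this

theorem Wd_mul_n {M N : Subgroup G} {k : ℕ} {b n : G} (hb : b ∈ Wd M N k) (hn : n ∈ N) :
    b * n ∈ Wd M N (k + 1) := by
  have := Wd_succ hb M.one_mem hn
  simpa using this

theorem Wd_succ_mul_n {M N : Subgroup G} {k : ℕ} {b n : G} (hb : b ∈ Wd M N (k + 1)) (hn : n ∈ N) :
    b * n ∈ Wd M N (k + 1) := by
  obtain ⟨b', hb', m, hm, n', hn', rfl⟩ := hb
  have := Wd_succ hb' hm (N.mul_mem hn' hn)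
  rwa [← mul_assoc] at this

theorem Wd_cover {M N : Subgroup G} (hgen : M ⊔ N = ⊤) (a : G) : ∃ k, a ∈ Wd M N k := by
  have h0 : a ∈ closure ((M : Set G) ∪ N) := by
    rw [Subgroup.closure_union, closure_eq, closure_eq, hgen]; trivial
  induction h0 using Subgroup.closure_induction_right with
  | one => exact ⟨0, rfl⟩
  | mul_right x y _ hy ih =>
    obtain ⟨k, hk⟩ := ih
    rcases hy with hy | hy
    · exact ⟨k + 1, Wd_mul_m hk hy⟩
    · exact ⟨k + 1, Wd_mul_n hk hy⟩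
  | mul_inv_cancel x y _ hy ih =>
    obtain ⟨k, hk⟩ := ih
    rcases hy with hy | hy
    · exact ⟨k + 1, Wd_mul_m hk (M.inv_mem hy)⟩
    · exact ⟨k + 1, Wd_mul_n hk (N.inv_mem hy)⟩

section zipper

variable {M N Y₁ Y₂ : Subgroup G} (hD : TWD M N)
  (h1le : Y₁ ≤ a2 M N) (h1n : M ≤ NN Y₁) (h1b : Y₁ ≠ ⊥)
  (h2le : Y₂ ≤ a2 N M) (h2n : N ≤ NN Y₂) (h2b : Y₂ ≠ ⊥)
  (hC : ∀ (a : G) (W : Subgroup G), SN Y₁ W → SN (cj a Y₂) W → ∀ x ∈ Y₁, ∀ y ∈ cj a Y₂, x * y = y * x)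

/-- commutation up to level `k`. -/
def Inv (M N Y₁ Y₂ : Subgroup G) (k : ℕ) : Prop :=
  ∀ a ∈ Wd M N k, ∀ x ∈ Y₁, ∀ y ∈ cj a Y₂, x * y = y * x

theorem Inv.mono {k l : ℕ} (hkl : k ≤ l) (h : Inv M N Y₁ Y₂ l) : Inv M N Y₁ Y₂ k :=
  fun a ha => h a (Wd_mono hkl ha)

include hD h2le h2n h2b in
theorem D1 {k : ℕ} (h : Inv M N Y₁ Y₂ k) {a : G} (ha : a ∈ Wd M N k) : Y₁ ≤ cj a N := by
  have h1 : NN Y₂ ≤ N := hD.nn Y₂ h2b (h2le.trans (a2_le N M)) h2n
  intro x hx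
  exact nor_cj_le h1 (commute_mem_nor (fun y hy => h a ha x hx y hy))

include hD h1le h1n h1b in
theorem D2 {k : ℕ} (h : Inv M N Y₁ Y₂ k) {a : G} (ha : a ∈ Wd M N k) : cj a Y₂ ≤ M := by
  have h1 : NN Y₁ ≤ M := hD.nm Y₁ h1b (h1le.trans (a2_le M N)) h1n
  intro y hy
  refine h1 (commute_mem_nor (fun x hx => (h a ha x hx y hy).symm))

include hD h1le h1n h1b h2le h2n h2b in
/-- the trick: fixing all neighbours of a vertex fixes the vertex. -/
theorem D3 {k : ℕ} (h : Inv M N Y₁ Y₂ k) {c : G} (hc : ∀ m ∈ M, c * m ∈ Wd M N k) : Y₁ ≤ cj c M := by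
  have hY₂M : Y₂ ≤ M := (h2le.trans (a2_le_a1' N M)).trans (a1_le M N)
  let V : Subgroup G := ⨆ m : M, cj (m : G) Y₂
  have hVM : V ≤ M := by
    apply iSup_le
    rintro ⟨m, hm⟩
    have := cj_mono (a := m) hY₂M
    rwa [cj_of_mem hm] at this
  have hVn : M ≤ NN V := by
    apply le_nor
    intro a ha x hx
    have h1 : cj a V ≤ V := by
      change (⨆ m : M, cj (m : G) Y₂).map _ ≤ _
      rw [Subgroup.map_iSup]
      apply iSup_le
      rintro ⟨m, hm⟩
      have h2 : cj a (cj m Y₂) = cj ((⟨a * m, M.mul_mem ha hm⟩ : M) : G) Y₂ := by rw [cj_cj]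
      change cj a (cj m Y₂) ≤ V
      rw [h2]
      exact le_iSup (fun m : M => cj (m : G) Y₂) _
    exact h1 (conj_mem_cj hx)
  have hVb : V ≠ ⊥ := by
    intro hV
    apply h2b
    have h1 : cj ((1 : M) : G) Y₂ ≤ V := le_iSup (fun m : M => cj (m : G) Y₂) 1
    rw [hV, le_bot_iff] at h1
    simpa [cj_one] using h1
  have hNV := hD.nm V hVb hVM hVn
  intro z hz
  apply nor_cj_le (a := c) hNV
  have h5 : Y₁ ≤ NN (cj c V) := by
    apply le_nor
    intro z hz v hv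
    have hsub : cj c V ≤ (cj c V).comap (MulAut.conj z).toMonoidHom := by
      change (⨆ m : M, cj (m : G) Y₂).map _ ≤ _
      rw [Subgroup.map_iSup]
      apply iSup_le
      rintro ⟨m, hm⟩
      intro w hw
      have hw' : w ∈ cj (c * m) Y₂ := by
        rwa [← cj_cj]
      have h6 := D1 hD h2le h2n h2b h (hc m hm) hz
      have h7 : z * w * z⁻¹ ∈ cj (c * m) Y₂ := conj_of_nor (nor_cj h2n) h6 hw'
      have h8 : cj (c * m) Y₂ ≤ cj c V := by
        rw [← cj_cj]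
        exact cj_mono (le_iSup (fun m : M => cj (m : G) Y₂) ⟨m, hm⟩)
      exact h8 h7
    have := hsub hv
    simpa [MulAut.conj_apply] using this
  exact h5 hz

theorem SNY2M (h2le : Y₂ ≤ a2 N M) (h2n : N ≤ NN Y₂) : SN Y₂ M := by
  have h1 : SN Y₂ (a1 M N) :=
    SN.of_normal (h2le.trans (a2_le_a1' N M)) ((a1_le' M N).trans h2n)
  exact h1.trans (SN.of_normal (a1_le M N) (a1_nor M N))

include hD h1le h1n h1b h2le h2n h2b in
theorem sn_of_inv : ∀ k : ℕ, Inv M N Y₁ Y₂ (k + 1) → ∀ c ∈ Wd M N k, SN Y₁ (cj c M) := by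
  intro k
  induction k with
  | zero =>
    intro _ c hc
    have : c = 1 := hc
    subst this
    rw [cj_one]
    exact SN.of_normal (h1le.trans (a2_le M N)) h1n
  | succ k ih =>
    intro hI c hc
    obtain ⟨c₀, hc₀, m, hm, n, hn, rfl⟩ := hc
    have hI' : Inv M N Y₁ Y₂ (k + 1) := Inv.mono (by omega) hI
    have h0 := ih hI' c₀ hc₀
    have d1 : ∀ {a : G}, a ∈ Wd M N (k + 2) → Y₁ ≤ cj a N := fun ha => D1 hD h2le h2n h2b hI ha
    have d3 : ∀ {a : G}, a ∈ Wd M N (k + 1) → Y₁ ≤ cj a M := fun {a} ha =>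
      D3 hD h1le h1n h1b h2le h2n h2b hI (fun m' hm' => Wd_mul_m ha hm')
    have e1 : cj (c₀ * m) M = cj c₀ M := by
      rw [← cj_cj, cj_of_mem hm]
    have s1 : SN Y₁ (cj (c₀ * m) N) := by
      apply vstep (M := M) (N := N)
      · rwa [e1]
      · intro m' hm'
        apply d1
        have := Wd_succ (k := k + 1) (Wd_succ_self hc₀) (M.mul_mem hm hm') N.one_mem
        simpa [mul_assoc] using this
      · intro n' hn'
        apply d3
        have := Wd_succ hc₀ hm hn'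
        exact this
    have e2 : cj (c₀ * m * n) N = cj (c₀ * m) N := by
      rw [← cj_cj, cj_of_mem hn]
    apply vstep (M := N) (N := M)
    · rwa [e2]
    · intro n' hn'
      apply d3
      have := Wd_succ hc₀ hm (N.mul_mem hn hn')
      simpa [mul_assoc] using this
    · intro m' hm'
      apply d1
      exact Wd_mul_m (Wd_succ hc₀ hm hn) hm'

include hD h1le h1n h1b h2le h2n h2b hC in
theorem inv_one : Inv M N Y₁ Y₂ 1 := by
  intro a ha
  obtain ⟨b, hb, m, hm, n, hn, rfl⟩ := ha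
  have : b = 1 := hb
  subst this
  have e : cj (1 * m * n) Y₂ = cj m Y₂ := by
    rw [one_mul, ← cj_cj, cj_of_nor h2n hn]
  rw [e]
  have h3 : SN (cj m Y₂) M := by
    have := SN.cj m (SNY2M h2le h2n)
    rwa [cj_of_mem hm] at this
  exact hC m M (SN.of_normal (h1le.trans (a2_le M N)) h1n) h3

include hD h1le h1n h1b h2le h2n h2b hC in
theorem inv_two : Inv M N Y₁ Y₂ 2 := by
  intro a ha
  obtain ⟨b, hb, m, hm, n, hn, rfl⟩ := ha
  obtain ⟨b', hb', m₀, hm₀, n₀, hn₀, rfl⟩ := hb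
  have : b' = 1 := hb'
  subst this
  have e : cj (1 * m₀ * n₀ * m * n) Y₂ = cj (m₀ * n₀ * m) Y₂ := by
    rw [one_mul, ← cj_cj _ n, cj_of_nor h2n hn]
  rw [e]
  let W : Subgroup G := cj m₀ N ⊓ cj (m₀ * n₀) M
  have s1 : SN Y₁ (cj m₀ N) := by
    have h3 : SN Y₁ N :=
      (SN.of_normal (h1le.trans (a2_le_a1' M N)) ((a1_le' N M).trans h1n)).trans
        (SN.of_normal (a1_le N M) (a1_nor N M))
    have := SN.cj m₀ h3
    rwa [cj_of_nor h1n hm₀] at this
  have s2 : Y₁ ≤ cj (m₀ * n₀) M := by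
    rw [← cj_cj]
    have h3 : Y₁ ≤ cj n₀ M := (h1le.trans (a2_le_a1' M N)).trans (a1_le_cj hn₀)
    have := cj_mono (a := m₀) h3
    rwa [cj_of_nor h1n hm₀] at this
  have s3 : SN (cj (m₀ * n₀ * m) Y₂) (cj (m₀ * n₀) M) := by
    have := SN.cj (m₀ * n₀ * m) (SNY2M h2le h2n)
    have e2 : cj (m₀ * n₀ * m) M = cj (m₀ * n₀) M := by
      rw [← cj_cj _ m, cj_of_mem hm]
    rwa [e2] at this
  have s4 : cj (m₀ * n₀ * m) Y₂ ≤ cj m₀ N := by
    have h3 : Y₂ ≤ cj m⁻¹ N := (h2le.trans (a2_le_a1' N M)).trans (a1_le_cj (M.inv_mem hm))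
    have h4 := cj_mono (a := m₀ * n₀ * m) h3
    rw [cj_cj] at h4
    have e2 : m₀ * n₀ * m * m⁻¹ = m₀ * n₀ := by group
    have e3 : cj (m₀ * n₀) N = cj m₀ N := by rw [← cj_cj, cj_of_mem hn₀]
    rw [e2, e3] at h4
    exact h4
  exact hC _ W (s1.restrict (le_inf s1.le s2) inf_le_left)
    (s3.restrict (le_inf s4 s3.le) inf_le_right)

include hD h1le h1n h1b h2le h2n h2b hC in
theorem E2 {m n : G} (hm : m ∈ M) (hn : n ∈ N) : Y₂ ≤ cj (m * n) M := by
  have h1 := inv_two hD h1le h1n h1b h2le h2n h2b hC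
  have h2 : n⁻¹ * m⁻¹ ∈ Wd M N 2 := by
    have h3 : n⁻¹ ∈ Wd M N 1 := by
      have := Wd_mul_n (M := M) (N := N) (k := 0) (b := 1) rfl (N.inv_mem hn)
      simpa using this
    exact Wd_mul_m h3 (M.inv_mem hm)
  have h4 := D2 hD h1le h1n h1b h1 h2
  rw [cj_le_iff] at h4
  have e : (n⁻¹ * m⁻¹)⁻¹ = m * n := by group
  rwa [e] at h4

include hD h1le h1n h1b h2le h2n h2b hC in
theorem E1 {m : G} (hm : m ∈ M) : SN Y₂ (cj m N) := by
  apply vstep (M := M) (N := N)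
  · rw [cj_of_mem hm]; exact SNY2M h2le h2n
  · intro m' hm'
    exact (h2le.trans (a2_le_a1' N M)).trans (a1_le_cj (M.mul_mem hm hm'))
  · intro n' hn'
    exact E2 hD h1le h1n h1b h2le h2n h2b hC hm hn'

include hD h1le h1n h1b h2le h2n h2b hC in
theorem inv_all : ∀ k : ℕ, Inv M N Y₁ Y₂ (k + 2) := by
  intro k
  induction k with
  | zero => exact inv_two hD h1le h1n h1b h2le h2n h2b hC
  | succ k ih =>
    intro a ha
    obtain ⟨b, hb, m, hm, n, hn, rfl⟩ := ha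
    obtain ⟨c, hc, m₁, hm₁, n₁, hn₁, rfl⟩ := hb
    have e : cj (c * m₁ * n₁ * m * n) Y₂ = cj (c * m₁ * n₁ * m) Y₂ := by
      rw [← cj_cj _ n, cj_of_nor h2n hn]
    rw [e]
    set a' := c * m₁ * n₁ * m with ha'
    have s1 : SN Y₁ (cj c M) := sn_of_inv hD h1le h1n h1b h2le h2n h2b (k + 1) ih c hc
    have s2 : Y₁ ≤ cj (c * m₁) N := D1 hD h2le h2n h2b ih (Wd_mul_m hc hm₁)
    have e1 : a' * (m⁻¹ * n₁⁻¹) = c * m₁ := by rw [ha']; group
    have e3 : cj (c * m₁) M = cj c M := by rw [← cj_cj, cj_of_mem hm₁]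
    have s3 : cj a' Y₂ ≤ cj c M := by
      have h3 := E2 hD h1le h1n h1b h2le h2n h2b hC (M.inv_mem hm) (N.inv_mem hn₁)
      have h4 := cj_mono (a := a') h3
      rw [cj_cj, e1, e3] at h4
      exact h4
    have s4 : SN (cj a' Y₂) (cj (c * m₁) N) := by
      have h3 := E1 hD h1le h1n h1b h2le h2n h2b hC (M.inv_mem hm)
      have h4 := SN.cj a' h3
      rw [cj_cj] at h4
      have e2 : cj (a' * m⁻¹) N = cj (c * m₁) N := by
        have : a' * m⁻¹ = c * m₁ * n₁ := by rw [ha']; group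
        rw [this, ← cj_cj _ n₁, cj_of_mem hn₁]
      rwa [e2] at h4
    exact hC _ (cj c M ⊓ cj (c * m₁) N) (s1.restrict (le_inf s1.le s2) inf_le_left)
      (s4.restrict (le_inf s3 s4.le) inf_le_right)

include hD h1le h1n h1b h2le h2n h2b hC in
/-- **the zipper** -/
theorem zipper : False := by
  apply h2b
  apply hD.cm
  intro a
  obtain ⟨k, hk⟩ := Wd_cover hD.gen a
  exact D2 hD h1le h1n h1b (inv_all hD h1le h1n h1b h2le h2n h2b hC k) (Wd_mono (by omega) hk)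

end zipper

section vanish

variable [Finite G]

/-- Different types do not occur together at the second level. -/
theorem types_eq {M N : Subgroup G} (hD : TWD M N) {θ θ' : Option ℕ} (hθ : Val θ) (hθ' : Val θ')
    (h1 : part θ (a2 M N) ≠ ⊥) (h2 : part θ' (a2 N M) ≠ ⊥) : θ = θ' := by
  by_contra hne
  exact zipper hD (Y₁ := part θ (a2 M N)) (Y₂ := part θ' (a2 N M)) (part_le _ _)
    (part_nor hθ (a2_nor M N)) h1 (part_le _ _) (part_nor hθ' (a2_nor N M)) h2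
    (fun a W hW1 hW2 => compat hθ hθ' hne (part_typ hθ _) (Typ.cj a (part_typ hθ' _)) hW1 hW2)

/-- other types vanish in `M` -/
theorem part_vanish {M N : Subgroup G} (hD : TWD M N) {θ θ' : Option ℕ} (hθ : Val θ) (hθ' : Val θ')
    (hne : θ' ≠ θ) (h1 : part θ (a2 M N) ≠ ⊥) (h2 : part θ (a2 N M) ≠ ⊥) : part θ' M = ⊥ := by
  by_contra hX
  set X := part θ' M with hXdef
  have hXM : X ≤ M := part_le _ _
  have hXn : M ≤ NN X := part_nor hθ' le_normalizer
  set Y₁ := part θ (a2 M N) with hY₁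
  set Y₂ := part θ (a2 N M) with hY₂
  have h1le : Y₁ ≤ a2 M N := part_le _ _
  have h2le : Y₂ ≤ a2 N M := part_le _ _
  have h1n : M ≤ NN Y₁ := part_nor hθ (a2_nor M N)
  have h2n : N ≤ NN Y₂ := part_nor hθ (a2_nor N M)
  have hXtyp : Typ θ' X := part_typ hθ' _
  have hY1t : Typ θ Y₁ := part_typ hθ _
  have hY2t : Typ θ Y₂ := part_typ hθ _
  have hXM' : SN X M := SN.of_normal hXM hXn
  -- `X ≤ N`
  have hNY₂ : NN Y₂ ≤ N := hD.nn Y₂ h2 (h2le.trans (a2_le N M)) h2n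
  have hXN : X ≤ N := by
    intro x hx
    apply hNY₂
    apply commute_mem_nor
    intro y hy
    exact compat hθ' hθ hne hXtyp hY2t hXM' (SNY2M h2le h2n) x hx y hy
  have hXa1 : X ≤ a1 M N := le_core hXM hXn (le_inf hXM hXN)
  -- `X ≤ a1 N M`
  have hNY₁ : NN Y₁ ≤ M := hD.nm Y₁ h1 (h1le.trans (a2_le M N)) h1n
  have hSY1 : SN Y₁ N :=
    (SN.of_normal (h1le.trans (a2_le_a1' M N)) ((a1_le' N M).trans h1n)).trans
      (SN.of_normal (a1_le N M) (a1_nor N M))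
  have hXa1' : X ≤ a1 N M := by
    intro x hx
    rw [mem_a1]
    refine ⟨hXN hx, fun n hn => ?_⟩
    have h3 : x ∈ cj n⁻¹ M := by
      apply nor_cj_le hNY₁
      apply commute_mem_nor
      intro y hy
      have hD' : SN X (M ⊓ N) := SN.of_normal (le_inf hXM hXN) (inf_le_left.trans hXn)
      have h4 : SN (cj n⁻¹ Y₁) N := by
        have := SN.cj n⁻¹ hSY1
        rwa [cj_of_mem (N.inv_mem hn)] at this
      have h5 : cj n⁻¹ Y₁ ≤ M ⊓ N := by
        have h6 : cj n⁻¹ Y₁ ≤ a1 N M := by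
          have := cj_mono (a := n⁻¹) (h1le.trans (a2_le_a1' M N))
          rwa [cj_of_nor (a1_nor N M) (N.inv_mem hn)] at this
        exact le_inf (h6.trans (a1_le' N M)) (h6.trans (a1_le N M))
      exact compat hθ' hθ hne hXtyp (Typ.cj n⁻¹ hY1t) hD' (h4.restrict h5 inf_le_right) x hx y hy
    rw [mem_cj, inv_inv] at h3
    exact h3
  have hXa2 : X ≤ a2 M N := le_core hXM hXn (le_inf hXa1 hXa1')
  exact zipper hD hXa2 hXn hX h2le h2n h2
    (fun a W hW1 hW2 => compat hθ' hθ hne hXtyp (Typ.cj a hY2t) hW1 hW2)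

end vanish

end Cfsg.Agent.Lib.ClassMax.TW
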