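import Cfsg.Agent.Lib.ClassMax.TW2

/-!
# Thompson–Wielandt, part 3: the final assembly.
-/

set_option autoImplicit false
set_option linter.unusedSectionVars false
set_option linter.style.haveILetI false

namespace Cfsg.Agent.Lib.ClassMax.TW

open Subgroup Cfsg.Agent.Lib.Components

variable {G : Type*} [Group G] [Finite G]

theorem gfit_of_cores {X : Type*} [Group X] [Finite X] {p : ℕ} [Fact p.Prime]
    (h1 : ∀ q : ℕ, q.Prime → q ≠ p → Cfsg.pCore q X = ⊥) (h2 : Cfsg.layer X = ⊥) :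
    Cfsg.generalizedFittingSubgroup X = Cfsg.pCore p X := by
  unfold Cfsg.generalizedFittingSubgroup
  rw [h2, bot_sup_eq]
  exact le_antisymm (fit_le_core h1)
    (le_fitting inferInstance (IsPGroup.isNilpotent pCore_isPGroup))

theorem core_eq_bot_of {p : ℕ} {U : Subgroup G} (h : subPCore p U = ⊥) : Cfsg.pCore p U = ⊥ :=
  (Subgroup.map_eq_bot_iff_of_injective _ U.subtype_injective).mp h

theorem layer_eq_bot_of {U : Subgroup G} (h : sl U = ⊥) : Cfsg.layer U = ⊥ :=
  (Subgroup.map_eq_bot_iff_of_injective _ U.subtype_injective).mp h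

theorem fit_eq_bot {X : Type*} [Group X] [Finite X]
    (h : ∀ q : ℕ, q.Prime → Cfsg.pCore q X = ⊥) : Cfsg.fittingSubgroup X = ⊥ := by
  haveI : Fact (Nat.Prime 2) := ⟨Nat.prime_two⟩
  have := fit_le_core (p := 2) (X := X) (fun q hq _ => h q hq)
  rwa [h 2 Nat.prime_two, le_bot_iff] at this

theorem exists_part_ne {U : Subgroup G} (hU : U ≠ ⊥) : ∃ θ, Val θ ∧ part θ U ≠ ⊥ := by
  by_contra hcon
  push Not at hcon
  have h1 : Cfsg.layer U = ⊥ := layer_eq_bot_of (hcon none (fun r hr => by cases hr))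
  have h2 : Cfsg.fittingSubgroup U = ⊥ := fit_eq_bot (fun q hq => core_eq_bot_of
    (hcon (some q) (fun r hr => by cases hr; exact hq)))
  have h3 : Cfsg.generalizedFittingSubgroup U = ⊥ := by
    unfold Cfsg.generalizedFittingSubgroup
    rw [h1, h2, bot_sup_eq]
  have h4 := centralizer_gfit_le (G := U)
  rw [h3] at h4
  apply hU
  rw [eq_bot_iff]
  intro x hx
  have h5 : (⟨x, hx⟩ : U) ∈ centralizer ((⊥ : Subgroup U) : Set U) := by
    rw [mem_centralizer_iff]
    intro h hh
    have : h = 1 := hh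
    simp [this]
  have h6 := h4 h5
  have h7 : (⟨x, hx⟩ : U) = 1 := h6
  exact congrArg Subtype.val h7

/-! ### the layer case -/

theorem layer_le_of {M N : Subgroup G} (hD : TWD M N) (hne : a2 M N ≠ ⊥) : sl N ≤ M := by
  have hN : NN (a2 M N) ≤ M := hD.nm _ hne (a2_le M N) (a2_nor M N)
  have hS : SN (a2 M N) N :=
    (SN.of_normal (a2_le_a1' M N) ((a1_le' N M).trans (a2_nor M N))).trans
      (SN.of_normal (a1_le N M) (a1_nor N M))
  have h1 := layer_le_normalizer_of_subnormal (G := N) hS.bridge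
  refine le_trans ?_ hN
  apply le_nor
  rintro _ ⟨y, hy, rfl⟩ x hx
  have hxN : x ∈ N := hS.le hx
  have h2 := mem_normalizer_iff.mp (h1 hy) ⟨x, hxN⟩
  have h3 : (⟨x, hxN⟩ : N) ∈ (a2 M N).subgroupOf N := hx
  have h4 := h2.mp h3
  simpa [mem_subgroupOf] using h4

theorem layer_sub {M N : Subgroup G} (hF : Cfsg.fittingSubgroup M = ⊥) (h1 : sl N ≤ M)
    (h2 : sl M ≤ N) : sl N ≤ sl M := by
  have hgf : Cfsg.generalizedFittingSubgroup M = Cfsg.layer M := by
    unfold Cfsg.generalizedFittingSubgroup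
    rw [hF, sup_bot_eq]
  unfold sl at h1 h2 ⊢
  rw [map_le_iff_le_comap]
  refine layer_le fun K hK => ?_
  rw [← map_le_iff_le_comap]
  set K' := K.map N.subtype with hK'
  have hKsl : K' ≤ (Cfsg.layer N).map N.subtype := map_mono (component_le_layer hK)
  have hKM : K' ≤ M := hKsl.trans h1
  have hKN : K' ≤ N := map_subtype_le _
  have hKD : K' ≤ M ⊓ N := le_inf hKM hKN
  have hKS : SN K' (M ⊓ N) := (SN.bridge' hK.1).restrict hKD inf_le_right
  have hKQ : Cfsg.IsQuasisimple K' := qs_of_mulEquiv hK.2 (K.equivMapOfInjective _ N.subtype_injective)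
  have hKc : Cfsg.IsComponent (K'.subgroupOf (M ⊓ N)) :=
    ⟨hKS.bridge, qs_of_mulEquiv hKQ (subgroupOfEquivOfLe hKD).symm⟩
  by_cases hcase : ∃ J : Subgroup M, Cfsg.IsComponent J ∧ J.map M.subtype = K'
  · obtain ⟨J, hJ, hJK⟩ := hcase
    rw [← hJK]
    exact map_mono (component_le_layer hJ)
  · push Not at hcase
    have hcomm : ∀ x ∈ K', ∀ y ∈ (Cfsg.layer M).map M.subtype, x * y = y * x := by
      intro x hx y hy
      obtain ⟨y', hy', rfl⟩ := hy
      have hxM := hKM hx
      have hlay : Cfsg.layer M ≤ centralizer ({(⟨x, hxM⟩ : M)} : Set M) := by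
        refine layer_le fun J hJ => ?_
        intro j hj
        rw [mem_centralizer_iff]
        intro z hz
        rw [Set.mem_singleton_iff] at hz
        subst hz
        set J' := J.map M.subtype with hJ'
        have hJsl : J' ≤ (Cfsg.layer M).map M.subtype := map_mono (component_le_layer hJ)
        have hJD : J' ≤ M ⊓ N := le_inf (map_subtype_le _) (hJsl.trans h2)
        have hJS : SN J' (M ⊓ N) := (SN.bridge' hJ.1).restrict hJD inf_le_left
        have hJQ : Cfsg.IsQuasisimple J' :=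
          qs_of_mulEquiv hJ.2 (J.equivMapOfInjective _ M.subtype_injective)
        have hJc : Cfsg.IsComponent (J'.subgroupOf (M ⊓ N)) :=
          ⟨hJS.bridge, qs_of_mulEquiv hJQ (subgroupOfEquivOfLe hJD).symm⟩
        have hne : K'.subgroupOf (M ⊓ N) ≠ J'.subgroupOf (M ⊓ N) := by
          intro he
          apply hcase J hJ
          have := congrArg (Subgroup.map (M ⊓ N).subtype) he
          rwa [subgroupOf_map_subtype, subgroupOf_map_subtype, inf_of_le_left hKD,
            inf_of_le_left hJD, eq_comm] at this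
        have hxD : x ∈ M ⊓ N := hKD hx
        have hjD : (j : G) ∈ M ⊓ N := hJD ⟨j, hj, rfl⟩
        have h3 := component_commutes hKc hJc hne ⟨x, hxD⟩ hx ⟨(j : G), hjD⟩ ⟨j, hj, rfl⟩
        have h4 := congrArg Subtype.val h3
        exact Subtype.ext h4
      have h5 := mem_centralizer_iff.mp (hlay hy') ⟨x, hxM⟩ (Set.mem_singleton _)
      exact congrArg Subtype.val h5
    intro x hx
    have hxM := hKM hx
    have h6 : (⟨x, hxM⟩ : M) ∈ centralizer (Cfsg.generalizedFittingSubgroup M : Set M) := by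
      rw [mem_centralizer_iff, hgf]
      intro y hy
      have := hcomm x hx y ⟨y, hy, rfl⟩
      exact Subtype.ext this.symm
    have h7 := centralizer_gfit_le h6
    rw [hgf] at h7
    exact ⟨_, h7, rfl⟩

/-! ### the `p`-group part -/

/-- subgroup generated by `p'`-elements -/
def pperp (p : ℕ) (T : Subgroup G) : Subgroup G :=
  closure {t | t ∈ T ∧ (orderOf t).Coprime p}

theorem pperp_le (p : ℕ) (T : Subgroup G) : pperp p T ≤ T := (closure_le _).2 (fun _ ht => ht.1)

theorem pperp_cj (p : ℕ) (a : G) (T : Subgroup G) : pperp p (cj a T) = cj a (pperp p T) := by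
  unfold pperp
  change closure {t | t ∈ cj a T ∧ (orderOf t).Coprime p} =
    (closure {t | t ∈ T ∧ (orderOf t).Coprime p}).map (MulAut.conj a).toMonoidHom
  rw [MonoidHom.map_closure]
  congr 1
  ext t
  constructor
  · rintro ⟨⟨s, hs, rfl⟩, hc⟩
    refine ⟨s, ⟨hs, ?_⟩, rfl⟩
    rwa [orderOf_injective _ (MulEquiv.injective (MulAut.conj a))] at hc
  · rintro ⟨s, ⟨hs, hc⟩, rfl⟩
    refine ⟨⟨s, hs, rfl⟩, ?_⟩
    rwa [orderOf_injective _ (MulEquiv.injective (MulAut.conj a))]

theorem conj_pprime {p : ℕ} {T W P : Subgroup G} (hT : SN T W) (hPW : P ≤ W) (hPn : W ≤ NN P)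
    (hp : IsPGroup p P) {a t : G} (ha : a ∈ P) (ht : t ∈ T) (hc : (orderOf t).Coprime p) :
    a * t * a⁻¹ ∈ T := by
  induction hT generalizing t with
  | refl U => exact U.mul_mem (U.mul_mem (hPW ha) ht) (U.inv_mem (hPW ha))
  | @step S T' U h1 h2 h3 ih =>
    have ht' : a * t * a⁻¹ ∈ T' := ih hPW hPn (h1 ht) hc
    set b := a * t * a⁻¹ * t⁻¹ with hb
    have hbT : b ∈ T' := T'.mul_mem ht' (T'.inv_mem (h1 ht))
    have hbP : b ∈ P := by
      have h4 : t * a⁻¹ * t⁻¹ ∈ P := conj_of_nor hPn (h3.le (h1 ht)) (P.inv_mem ha)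
      have e : b = a * (t * a⁻¹ * t⁻¹) := by rw [hb]; group
      rw [e]
      exact P.mul_mem ha h4
    have hpow : ∀ n : ℕ, (b * t) ^ n * (b ^ n)⁻¹ ∈ S := by
      intro n
      induction n with
      | zero => simp [S.one_mem]
      | succ n ihn =>
        have e : (b * t) ^ (n + 1) * (b ^ (n + 1))⁻¹
            = ((b * t) ^ n * (b ^ n)⁻¹) * (b ^ n * (b * t * b⁻¹ * b⁻¹ * b) * (b ^ n)⁻¹) := by
          rw [pow_succ, pow_succ]; group
        have e2 : b ^ n * (b * t * b⁻¹ * b⁻¹ * b) * (b ^ n)⁻¹ = b ^ n * (b * t * b⁻¹) * (b ^ n)⁻¹ := by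
          group
        rw [e, e2]
        apply S.mul_mem ihn
        have h6 : b * t * b⁻¹ ∈ S := conj_of_nor h2 hbT ht
        exact conj_of_nor h2 (T'.pow_mem hbT n) h6
    obtain ⟨k, hk⟩ := hp ⟨b, hbP⟩
    have hk' : b ^ p ^ k = 1 := congrArg Subtype.val hk
    have ht1 : (b * t) ^ orderOf t = 1 := by
      have e : b * t = a * t * a⁻¹ := by rw [hb]; group
      rw [e, conj_pow, pow_orderOf_eq_one]
      simp
    have h7 : b ^ orderOf t ∈ S := by
      have := S.inv_mem (hpow (orderOf t))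
      rw [ht1] at this
      simpa using this
    have hcop : (orderOf t).Coprime (orderOf b) := by
      have hd : orderOf b ∣ p ^ k := orderOf_dvd_of_pow_eq_one hk'
      exact Nat.Coprime.coprime_dvd_right hd (Nat.Coprime.pow_right k hc)
    obtain ⟨u, hu⟩ := exists_pow_eq_self_of_coprime hcop
    have hbS : b ∈ S := by
      rw [← hu]
      exact S.pow_mem h7 u
    have e : a * t * a⁻¹ = b * t := by rw [hb]; group
    rw [e]
    exact S.mul_mem hbS ht

theorem nor_pperp {p : ℕ} {T W P : Subgroup G} (hT : SN T W) (hPW : P ≤ W) (hPn : W ≤ NN P)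
    (hp : IsPGroup p P) : P ≤ NN (pperp p T) := by
  apply le_nor
  intro a ha x hx
  have h1 : pperp p T ≤ (pperp p T).comap (MulAut.conj a).toMonoidHom := by
    refine (closure_le _).2 ?_
    rintro t ⟨ht, hc⟩
    apply Subgroup.subset_closure
    refine ⟨conj_pprime hT hPW hPn hp ha ht hc, ?_⟩
    rw [orderOf_injective _ (MulEquiv.injective (MulAut.conj a))]
    exact hc
  have := h1 hx
  simpa [MulAut.conj_apply] using this

theorem isP_of_pperp {p : ℕ} [hp : Fact p.Prime] {T : Subgroup G} (h : pperp p T = ⊥) :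
    IsPGroup p T := by
  rintro ⟨x, hx⟩
  have hpos : orderOf x ≠ 0 := (orderOf_pos x).ne'
  obtain ⟨e, n, hn, hen⟩ := Nat.exists_eq_pow_mul_and_not_dvd hpos p hp.out.ne_one
  refine ⟨e, ?_⟩
  have h1 : orderOf (x ^ p ^ e) = n := by
    rw [orderOf_pow_of_dvd (pow_ne_zero _ hp.out.ne_zero) ⟨n, hen⟩, hen]
    exact Nat.mul_div_cancel_left _ (pow_pos hp.out.pos _)
  have h2 : x ^ p ^ e ∈ pperp p T := by
    apply Subgroup.subset_closure
    refine ⟨T.pow_mem hx _, ?_⟩
    rw [h1]
    exact ((Nat.Prime.coprime_iff_not_dvd hp.out).2 hn).symm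
  rw [h] at h2
  have h3 : x ^ p ^ e = 1 := h2
  exact Subtype.ext (by simpa using h3)

theorem half_p {M N : Subgroup G} (hD : TWD M N) {p : ℕ} [hp : Fact p.Prime]
    (hcard : Nat.card (subPCore p M) = Nat.card (subPCore p N))
    (hne : subPCore p (a2 M N) ≠ ⊥) : IsPGroup p (a2 M N) := by
  by_contra hnp
  set A := a2 M N with hA
  set L := pperp p A with hL
  have hLb : L ≠ ⊥ := fun h => hnp (isP_of_pperp h)
  have hLn : M ≤ NN L := by
    apply le_nor
    intro a ha x hx
    have h1 : a * x * a⁻¹ ∈ cj a L := conj_mem_cj hx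
    rw [hL, ← pperp_cj, cj_of_nor (a2_nor M N) ha] at h1
    exact h1
  have hLM : L ≤ M := (pperp_le p A).trans (a2_le M N)
  have hNL : NN L ≤ M := hD.nm L hLb hLM hLn
  set P₁ := subPCore p M with hP₁
  set P₂ := subPCore p N with hP₂
  have hP₁n : M ≤ NN P₁ := le_nor (fun a ha x hx => conj_mem_subPCore (le_normalizer ha) hx)
  have hP₂n : N ≤ NN P₂ := le_nor (fun a ha x hx => conj_mem_subPCore (le_normalizer ha) hx)
  have hAN : SN A N :=
    (SN.of_normal (a2_le_a1' M N) ((a1_le' N M).trans (a2_nor M N))).trans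
      (SN.of_normal (a1_le N M) (a1_nor N M))
  have hP₂M : P₂ ≤ M :=
    (nor_pperp hAN (subPCore_le N) hP₂n (subPCore_isPGroup _)).trans hNL
  set D := M ⊓ N with hDdef
  set OD := subPCore p D with hOD
  have hODn : D ≤ NN OD := le_nor (fun a ha x hx => conj_mem_subPCore (le_normalizer ha) hx)
  have ha1D : a1 N M ≤ D := le_inf (a1_le' N M) (a1_le N M)
  have hODa : OD ≤ a1 N M := by
    intro x hx
    rw [mem_a1]
    refine ⟨(subPCore_le D hx).2, fun n hn => ?_⟩
    have hS : SN (cj n⁻¹ A) D := by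
      have h1 : SN A (a1 N M) := SN.of_normal (a2_le_a1' M N) ((a1_le' N M).trans (a2_nor M N))
      have h2 := SN.cj n⁻¹ h1
      rw [cj_of_nor (a1_nor N M) (N.inv_mem hn)] at h2
      exact h2.trans (SN.of_normal ha1D (inf_le_right.trans (a1_nor N M)))
    have h3 := nor_pperp hS (subPCore_le D) hODn (subPCore_isPGroup _) hx
    rw [pperp_cj] at h3
    have h4 := nor_cj_le hNL h3
    rw [mem_cj, inv_inv] at h4
    exact h4
  have hODP : OD ≤ P₂ := by
    have h1 : SN OD N := (SN.of_normal hODa (ha1D.trans hODn)).trans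
      (SN.of_normal (a1_le N M) (a1_nor N M))
    exact typ_le_part (θ := some p) (fun r hr => by cases hr; exact hp.out) (subPCore_isPGroup _) h1
  have hP₁D : P₁ ⊓ D ≤ OD := by
    have h1 : SN (P₁ ⊓ D) D := by
      refine SN.of_normal inf_le_right ?_
      apply le_nor
      rintro a ha x ⟨hx1, hx2⟩
      exact ⟨conj_of_nor hP₁n ha.1 hx1, D.mul_mem (D.mul_mem ha hx2) (D.inv_mem ha)⟩
    exact typ_le_part (θ := some p) (fun r hr => by cases hr; exact hp.out)
      (IsPGroup.to_le (subPCore_isPGroup _) inf_le_left) h1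
  have hP₂P₁ : P₂ ≤ NN P₁ := hP₂M.trans hP₁n
  have hU : IsPGroup p (P₁ ⊔ P₂ : Subgroup G) :=
    IsPGroup.to_sup_of_normal_left' (subPCore_isPGroup _) (subPCore_isPGroup _) hP₂P₁
  have hP₂b : P₂ ≠ ⊥ := by
    intro h
    apply hne
    have : subPCore p A ≤ P₂ :=
      part_mono (θ := some p) (fun r hr => by cases hr; exact hp.out) hAN
    rw [h, le_bot_iff] at this
    exact this
  have hNP : NN P₂ ≤ N := hD.nn P₂ hP₂b (subPCore_le N) hP₂n
  have hle : P₁ ≤ P₂ := by
    by_contra hcon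
    set U := P₁ ⊔ P₂ with hUdef
    have hH : P₂.subgroupOf U < ⊤ := by
      rw [lt_top_iff_ne_top]
      intro h
      apply hcon
      rw [subgroupOf_eq_top] at h
      exact le_sup_left.trans h
    haveI : Group.IsNilpotent U := hU.isNilpotent
    have hlt := normalizerCondition_of_isNilpotent (G := U) _ hH
    obtain ⟨u, hu1, hu2⟩ := SetLike.exists_of_lt hlt
    have huN : (u : G) ∈ NN P₂ := by
      rw [mem_normalizer_iff]
      intro y
      constructor
      · intro hy
        have hyU : y ∈ U := le_sup_right (a := P₁) hy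
        have := (mem_normalizer_iff.mp hu1 ⟨y, hyU⟩).mp hy
        simpa [mem_subgroupOf] using this
      · intro hy
        have hyU : y ∈ U := by
          have h1 : (u : G) * y * (u : G)⁻¹ ∈ U := le_sup_right (a := P₁) hy
          have e : y = (u : G)⁻¹ * ((u : G) * y * (u : G)⁻¹) * (u : G) := by group
          rw [e]
          exact U.mul_mem (U.mul_mem (U.inv_mem u.2) h1) u.2
        have := (mem_normalizer_iff.mp hu1 ⟨y, hyU⟩).mpr (by simpa [mem_subgroupOf] using hy)
        exact this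
    have huNN : (u : G) ∈ N := hNP huN
    obtain ⟨a, ha, b, hb, hab⟩ := exists_mul_of_mem_sup_of_le_normalizer hP₂P₁ u.2
    have haN : a ∈ N := by
      have e : a = (u : G) * b⁻¹ := by rw [hab]; group
      rw [e]
      exact N.mul_mem huNN (N.inv_mem ((subPCore_le N) hb))
    have haD : a ∈ D := ⟨subPCore_le M ha, haN⟩
    have haP : a ∈ P₂ := hODP (hP₁D ⟨ha, haD⟩)
    apply hu2
    change (u : G) ∈ P₂
    rw [hab]
    exact P₂.mul_mem haP hb
  have heq : P₁ = P₂ := Subgroup.eq_of_le_of_card_ge hle (by rw [hcard])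
  have htop : ⊤ ≤ NN P₁ := by
    rw [← hD.gen]
    apply sup_le hP₁n
    rw [heq]
    exact hP₂n
  have hbot : P₁ = ⊥ := by
    apply hD.cm
    intro a
    rw [cj_of_nor htop (mem_top a)]
    exact subPCore_le M
  apply hne
  have : subPCore p A ≤ P₁ := part_mono (θ := some p) (fun r hr => by cases hr; exact hp.out)
    (SN.of_normal (a2_le M N) (a2_nor M N))
  rw [hbot, le_bot_iff] at this
  exact this

/-! ### assembly -/

theorem twd_half {M : Subgroup G} (hmax : IsCoatom M) (hcore : M.normalCore = ⊥) :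
    (∀ X : Subgroup G, X ≠ ⊥ → X ≤ M → M ≤ NN X → NN X ≤ M) ∧
      (∀ Y : Subgroup G, (∀ a : G, cj a Y ≤ M) → Y = ⊥) := by
  have hc : ∀ Y : Subgroup G, (∀ a : G, cj a Y ≤ M) → Y = ⊥ := by
    intro Y hY
    rw [eq_bot_iff, ← hcore]
    intro x hx
    intro b
    exact hY b (conj_mem_cj hx)
  refine ⟨fun X hX hXM hXn => ?_, hc⟩
  by_contra hcon
  have hlt : M < NN X := lt_of_le_not_ge hXn hcon
  have htop := hmax.2 _ hlt
  apply hX
  apply hc
  intro a
  have : cj a X = X := cj_of_nor (P := ⊤) (by rw [← htop]) (mem_top a)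
  rw [this]
  exact hXM

theorem main_aux {M N : Subgroup G} (hD : TWD M N) (hcard : ∀ (p : ℕ) [Fact p.Prime],
    Nat.card (subPCore p M) = Nat.card (subPCore p N)) (h1 : a2 M N ≠ ⊥) (h2 : a2 N M ≠ ⊥) :
    ∃ p : ℕ, p.Prime ∧ IsPGroup p ↥(a2 M N ⊔ a2 N M : Subgroup G) ∧
      Cfsg.generalizedFittingSubgroup ↥M = Cfsg.pCore p ↥M ∧
      Cfsg.generalizedFittingSubgroup ↥(a1 M N) = Cfsg.pCore p ↥(a1 M N) ∧
      Cfsg.generalizedFittingSubgroup ↥N = Cfsg.pCore p ↥N ∧
      Cfsg.generalizedFittingSubgroup ↥(a1 N M) = Cfsg.pCore p ↥(a1 N M) := by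
  obtain ⟨θ, hθ, hθ1⟩ := exists_part_ne h1
  obtain ⟨θ', hθ', hθ2⟩ := exists_part_ne h2
  have hEq := types_eq hD hθ hθ' hθ1 hθ2
  subst hEq
  have hvM : ∀ θ'' : Option ℕ, Val θ'' → θ'' ≠ θ → part θ'' M = ⊥ := fun θ'' h3 h4 =>
    part_vanish hD hθ h3 h4 hθ1 hθ2
  have hvN : ∀ θ'' : Option ℕ, Val θ'' → θ'' ≠ θ → part θ'' N = ⊥ := fun θ'' h3 h4 =>
    part_vanish hD.symm hθ h3 h4 hθ2 hθ1
  cases θ with
  | none =>
    exfalso
    have hval : ∀ q : ℕ, q.Prime → Val (some q) := fun q hq r hr => by cases hr; exact hq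
    have hfM : Cfsg.fittingSubgroup M = ⊥ := fit_eq_bot (fun q hq =>
      core_eq_bot_of (hvM (some q) (hval q hq) (by simp)))
    have hfN : Cfsg.fittingSubgroup N = ⊥ := fit_eq_bot (fun q hq =>
      core_eq_bot_of (hvN (some q) (hval q hq) (by simp)))
    have h3 := layer_le_of hD h1
    have h4 := layer_le_of hD.symm h2
    have h5 := layer_sub hfM h3 h4
    have h6 := layer_sub hfN h4 h3
    have heq : sl M = sl N := le_antisymm h6 h5
    have hnM : M ≤ NN (sl M) := part_nor (θ := none) hθ le_normalizer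
    have hnN : N ≤ NN (sl N) := part_nor (θ := none) hθ le_normalizer
    have htop : ⊤ ≤ NN (sl M) := by
      rw [← hD.gen]
      apply sup_le hnM
      rw [heq]
      exact hnN
    have hbot : sl M = ⊥ := by
      apply hD.cm
      intro a
      rw [cj_of_nor htop (mem_top a)]
      exact sl_le M
    apply hθ1
    have : part none (a2 M N) ≤ sl M := part_mono (θ := none) hθ
      (SN.of_normal (a2_le M N) (a2_nor M N))
    rw [hbot, le_bot_iff] at this
    exact this
  | some p =>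
    have hpp : p.Prime := hθ p rfl
    haveI : Fact p.Prime := ⟨hpp⟩
    have key : ∀ {U V : Subgroup G}, SN U V → (∀ θ'' : Option ℕ, Val θ'' → θ'' ≠ some p →
        part θ'' V = ⊥) → Cfsg.generalizedFittingSubgroup ↥U = Cfsg.pCore p ↥U := by
      intro U V hUV hV
      have hpart : ∀ θ'' : Option ℕ, Val θ'' → θ'' ≠ some p → part θ'' U = ⊥ := by
        intro θ'' h3 h4
        have := part_mono h3 hUV
        rwa [hV θ'' h3 h4, le_bot_iff] at this
      apply gfit_of_cores
      · intro q hq hqp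
        exact core_eq_bot_of (hpart (some q) (fun r hr => by cases hr; exact hq)
          (by simpa using hqp))
      · exact layer_eq_bot_of (hpart none (fun r hr => by cases hr) (by simp))
    have hA := half_p hD (hcard p) hθ1
    have hB := half_p hD.symm (hcard p).symm hθ2
    refine ⟨p, hpp, ?_, key (SN.refl _) hvM, key ?_ hvM, key (SN.refl _) hvN, key ?_ hvN⟩
    · apply IsPGroup.to_sup_of_normal_left' hA hB
      exact (a2_le_a1' N M).trans ((a1_le M N).trans (a2_nor M N))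
    · exact SN.of_normal (a1_le M N) (a1_nor M N)
    · exact SN.of_normal (a1_le N M) (a1_nor N M)

theorem cj_top (a : G) : cj a (⊤ : Subgroup G) = ⊤ := by
  ext x
  rw [mem_cj]
  simp

/-- **Thompson–Wielandt theorem** -/
theorem thompson_wielandt {G : Type*} [Group G] [Finite G] (M₁ M₂ : Subgroup G) (hmax : IsCoatom M₁)
    (g : G) (hconj : M₂ = M₁.map (MulAut.conj g).toMonoidHom) (hne : M₁ ≠ M₂)
    (hcore : M₁.normalCore = ⊥) (A B : ℕ → Subgroup G) (hA0 : A 0 = M₁) (hB0 : B 0 = M₂)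
    (hA : ∀ i, A (i + 1) = ((A i ⊓ B i).subgroupOf M₁).normalCore.map M₁.subtype)
    (hB : ∀ i, B (i + 1) = ((A i ⊓ B i).subgroupOf M₂).normalCore.map M₂.subtype)
    (hA2 : A 2 ≠ ⊥) (hB2 : B 2 ≠ ⊥) :
    ∃ p : ℕ, p.Prime ∧ IsPGroup p ↥(A 2 ⊔ B 2) ∧
      Cfsg.generalizedFittingSubgroup ↥M₁ = Cfsg.pCore p ↥M₁ ∧
      Cfsg.generalizedFittingSubgroup ↥(A 1) = Cfsg.pCore p ↥(A 1) ∧
      Cfsg.generalizedFittingSubgroup ↥M₂ = Cfsg.pCore p ↥M₂ ∧
      Cfsg.generalizedFittingSubgroup ↥(B 1) = Cfsg.pCore p ↥(B 1) := by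
  have hM₂ : M₂ = cj g M₁ := hconj
  have hmax₂ : IsCoatom M₂ := by
    rw [hM₂]
    refine ⟨fun h => hmax.1 ?_, fun K hK => ?_⟩
    · have := cj_inv_cj g M₁
      rw [h, cj_top] at this
      exact this.symm
    · have h1 : M₁ < cj g⁻¹ K := by
        have h2 : cj g⁻¹ (cj g M₁) < cj g⁻¹ K := by
          refine lt_of_le_of_ne (cj_mono hK.le) ?_
          intro he
          apply hK.ne
          have := congrArg (cj g) he
          rwa [cj_cj_inv, cj_cj_inv] at this
        rwa [cj_inv_cj] at h2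
      have h3 := hmax.2 _ h1
      have := cj_cj_inv g K
      rw [h3, cj_top] at this
      exact this.symm
  have hcore₂ : M₂.normalCore = ⊥ := by
    rw [eq_bot_iff, ← hcore]
    intro x hx b
    have h1 := hx (g * b)
    rw [hM₂, mem_cj] at h1
    have e : g⁻¹ * (g * b * x * (g * b)⁻¹) * g = b * x * b⁻¹ := by group
    rwa [e] at h1
  obtain ⟨h1, h2⟩ := twd_half hmax hcore
  obtain ⟨h3, h4⟩ := twd_half hmax₂ hcore₂
  have hD : TWD M₁ M₂ := ⟨h1, h3, hmax.sup_eq_top_of_ne hmax₂ hne, h2, h4⟩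
  have hA1 : A 1 = a1 M₁ M₂ := by
    rw [hA 0, hA0, hB0]; rfl
  have hB1 : B 1 = a1 M₂ M₁ := by
    rw [hB 0, hA0, hB0]
    unfold a1 core
    rw [inf_comm]
  have hA2' : A 2 = a2 M₁ M₂ := by
    rw [hA 1, hA1, hB1]; rfl
  have hB2' : B 2 = a2 M₂ M₁ := by
    rw [hB 1, hA1, hB1]
    unfold a2 core
    rw [cc_comm]
    rfl
  rw [hA1, hB1, hA2', hB2']
  rw [hA2'] at hA2
  rw [hB2'] at hB2
  refine main_aux hD ?_ hA2 hB2
  intro p _
  have h5 : subPCore p M₂ = cj g (subPCore p M₁) := by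
    rw [hM₂]
    exact subPCore_conj M₁ g
  rw [h5]
  exact (Subgroup.card_map_of_injective (MulEquiv.injective (MulAut.conj g))).symm

end Cfsg.Agent.Lib.ClassMax.TW
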